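import Groth.Statements.S4191
import Groth.Agent.An.H868.Clopen
import Groth.Agent.An.H869.Conn

set_option autoImplicit false
open CategoryTheory AlgebraicGeometry Topology TopologicalSpace
open An

namespace Groth.Agent.S4191

/-- Let X be a scheme locally of finite type over ℂ. Then X is connected (and nonempty) if and only if
X(ℂ) with the complex topology is connected (and nonempty). -/
theorem result (X : Scheme.{0}) [X.Over An.SC] [LocallyOfFiniteType (X ↘ An.SC)] :
    ConnectedSpace ↥X ↔ ConnectedSpace (An.Pts X) :=
  Groth.Agent.An.H868.Clopen.connectedSpace_iff Groth.Agent.An.H869.Conn.conn X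

end Groth.Agent.S4191
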