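import Groth.Statements.S3662
import Groth.Agent.Dual.H365.DualSchLocal

set_option autoImplicit false
universe u
open CategoryTheory CategoryTheory.Limits AlgebraicGeometry
attribute [local instance] HasDerivedCategory.standard
open Dual3

namespace Groth.Agent.S3662

/-- Let X be a locally Noetherian scheme and K in D(O_X) (exactness instances as in the definition of
dualizing complexes). Suppose X is covered by affine opens Spec(A_i) → X such that each restriction
K|_{Spec A_i} is the image under the derived tilde functor of a dualizing complex of A_i. Then K is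
a dualizing complex on X: the same holds for every affine open of X. -/
theorem result (X : Scheme.{u}) [IsLocallyNoetherian X] [∀ (U V : Scheme.{u}) (j : U ⟶ V) [IsOpenImmersion j], PreservesFiniteLimits (Scheme.Modules.restrictFunctor j)] [∀ (R : CommRingCat.{u}), PreservesFiniteLimits (tilde.functor R)] (K : DCoh.D X) (ι : Type u) (A : ι → Type u) [∀ i, CommRing (A i)] (j : ∀ i, Spec (CommRingCat.of (A i)) ⟶ X) [∀ i, IsOpenImmersion (j i)] (hcov : ∀ x : X, ∃ i, x ∈ Set.range (j i)) (hK : ∀ i, ∃ ω : Dual.D (A i), Dual.IsDualizing (A i) ω ∧ Nonempty ((DCoh.restrictD (j i)).obj K ≅ (DCoh.tildeD (CommRingCat.of (A i))).obj ω)) : Dual2.IsDualizingSch X K := by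
  refine Groth.Agent.Dual.H365.DualSchLocal.isDualizingSch_of_local K fun x => ?_
  obtain ⟨i, hi⟩ := hcov x
  obtain ⟨ω, hω, e⟩ := hK i
  exact ⟨A i, inferInstance, j i, inferInstance, ω, hi, hω, e⟩

end Groth.Agent.S3662
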