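import Groth.Statements.S3630
import Groth.Agent.S0484
import Groth.Agent.CycB.ClosedDev
import Groth.Agent.PerfC.ClosedPush
import Mathlib.CategoryTheory.Adjunction.AdjointFunctorTheorems
import Mathlib.CategoryTheory.Abelian.Subobject

set_option autoImplicit false
universe u
open CategoryTheory CategoryTheory.Limits AlgebraicGeometry
attribute [local instance] HasDerivedCategory.standard
open Dual3

namespace Groth.Agent.S3630

/-- `i_*` preserves direct sums for a closed immersion `i`. -/
theorem push_preservesCoproducts {Z X : Scheme.{u}} (i : Z ⟶ X) [IsClosedImmersion i] (I : Type u) :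
    PreservesColimitsOfShape (Discrete I) (Scheme.Modules.pushforward i) := by
  refine CycB.ClosedDev.preservesColimitsOfShape_of_stalks _ fun x => ?_
  by_cases hx : x ∈ Set.range i
  · obtain ⟨z, rfl⟩ := hx
    exact preservesColimitsOfShape_of_natIso (CycB.ClosedDev.pushStalkIso i z).symm
  · refine (Scheme.Modules.pushforward i ⋙
      CycB.StalkExact.stalkFun x).preservesColimitsOfShape_of_isZero ?_ _
    refine Functor.isZero _ fun F => ?_
    have : Subsingleton ((CycB.StalkExact.stalkFun x).obj ((Scheme.Modules.pushforward i).obj F)) :=
      CycB.PushStalk.subsingleton_stalk_push i F x (by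
        rwa [i.isClosedEmbedding.isClosed_range.closure_eq])
    exact @AddCommGrpCat.isZero_of_subsingleton
      ((CycB.StalkExact.stalkFun x).obj ((Scheme.Modules.pushforward i).obj F)) this

/-- For a closed immersion of schemes i : Z → X. The direct image functor i_* from O_Z-modules to
O_X-modules is a left adjoint: it has a right adjoint, the functor sending F to the O_Z-module of
sections of F annihilated by the ideal of Z. -/
theorem result (Z X : Scheme.{u}) (i : Z ⟶ X) [IsClosedImmersion i] : Dual3.HasHomO i := by
  have hG : IsGrothendieckAbelian.{u} Z.Modules := Groth.Agent.S0484.result _ Z.ringCatSheaf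
  have h1 : PreservesFiniteColimits (Scheme.Modules.pushforward i) :=
    PerfC.ClosedPush.preservesFiniteColimits i
  have h2 := push_preservesCoproducts i
  have h3 : PreservesColimitsOfSize.{u, u} (Scheme.Modules.pushforward i) :=
    preservesColimits_of_preservesCoequalizers_and_coproducts _
  exact isLeftAdjoint_of_preservesColimits_of_isSeparating (isSeparator_separator Z.Modules) _

end Groth.Agent.S3630
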