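import Groth.Statements.S3669
import Groth.Agent.Sga67.IdealTorsion
import Groth.Agent.Ega1.ClosedKill

set_option autoImplicit false
universe u
open CategoryTheory CategoryTheory.Limits AlgebraicGeometry
attribute [local instance] HasDerivedCategory.standard
open Dual3

namespace Groth.Agent.S3669

open Groth.Agent.Sga67.IdealTorsion Groth.Agent.Ega1.ClosedKill

variable {Z X : Scheme.{u}} (i : Z ⟶ X) [IsClosedImmersion i] [Dual3.HasHomO i]

theorem kills_of_mono {I : X.IdealSheafData} {M N : X.Modules} (f : M ⟶ N) [Mono f]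
    (h : Kills I N) : Kills I M := by
  intro U a ha s
  apply app_injective_of_mono f U.1
  rw [Scheme.Modules.Hom.app_smul, map_zero]
  exact h U a ha _

/-- The counit `i_* Hom(O_Z, F) ⟶ F` is a monomorphism. -/
theorem mono_counit (F : X.Modules) : Mono ((homOAdj i).counit.app F) := by
  apply Preadditive.mono_of_isZero_kernel
  let ε := (homOAdj i).counit.app F
  let κ : kernel ε ⟶ (Scheme.Modules.pushforward i).obj ((homO i).obj F) := kernel.ι ε
  have hK : Kills i.ker (kernel ε) := kills_of_mono κ (kills_pushforward i _)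
  have hη := hK.isIso_unit i
  let adj := Scheme.Modules.pullbackPushforwardAdjunction i
  let k : (Scheme.Modules.pullback i).obj (kernel ε) ⟶ (homO i).obj F :=
    (adj.homEquiv _ _).symm κ
  have hk : adj.unit.app (kernel ε) ≫ (Scheme.Modules.pushforward i).map k = κ := by
    exact (adj.homEquiv_unit (f := k)).symm.trans ((adj.homEquiv _ _).apply_symm_apply κ)
  have h1 : (Scheme.Modules.pushforward i).map k ≫ ε = 0 := by
    rw [← cancel_epi (adj.unit.app (kernel ε)), ← Category.assoc, hk, comp_zero]
    exact kernel.condition ε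
  have h2 : k = 0 := by
    apply ((homOAdj i).homEquiv _ _).symm.injective
    rw [Adjunction.homEquiv_counit, Adjunction.homEquiv_counit, Functor.map_zero, zero_comp]
    exact h1
  have h3 : κ = 0 := by
    rw [← hk, h2, Functor.map_zero, comp_zero]
  rw [IsZero.iff_id_eq_zero, ← cancel_mono κ, h3, comp_zero, comp_zero]

/-- Maps from a module killed by `I` factor through the counit. -/
theorem exists_factor {F T : X.Modules} (hT : Kills i.ker T) (ι : T ⟶ F) :
    ∃ φ : T ⟶ (Scheme.Modules.pushforward i).obj ((homO i).obj F),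
      φ ≫ (homOAdj i).counit.app F = ι := by
  have hη := hT.isIso_unit i
  let adj := Scheme.Modules.pullbackPushforwardAdjunction i
  let N := (Scheme.Modules.pullback i).obj T
  let g : (Scheme.Modules.pushforward i).obj N ⟶ F := inv (adj.unit.app T) ≫ ι
  let g' : N ⟶ (homO i).obj F := (homOAdj i).homEquiv _ _ g
  have hg : (Scheme.Modules.pushforward i).map g' ≫ (homOAdj i).counit.app F = g := by
    exact ((homOAdj i).homEquiv_counit (g := g')).symm.trans
      (((homOAdj i).homEquiv _ _).symm_apply_apply g)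
  refine ⟨adj.unit.app T ≫ (Scheme.Modules.pushforward i).map g', ?_⟩
  rw [Category.assoc, hg]
  exact IsIso.hom_inv_id_assoc _ _

theorem main (F : X.Modules) (U : X.affineOpens) :
    Function.Injective (((homOAdj i).counit.app F).app U.1) ∧
      ∀ s : Γ(F, U.1), (∃ t, ((homOAdj i).counit.app F).app U.1 t = s) ↔
        ∀ a ∈ i.ker.ideal U, a • s = 0 := by
  have := mono_counit i F
  refine ⟨app_injective_of_mono _ U.1, fun s => ⟨?_, fun hs => ?_⟩⟩
  · rintro ⟨t, rfl⟩ a ha
    rw [← Scheme.Modules.Hom.app_smul]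
    have h1 := kills_pushforward i ((homO i).obj F) U a ha t
    exact (congrArg _ h1).trans (map_zero _)
  · have hV : ∀ x : X, ∃ j : X.affineOpens, x ∈ j.1 := by
      intro x
      obtain ⟨_, ⟨W, hW, rfl⟩, hxW, -⟩ :=
        X.isBasis_affineOpens.exists_subset_of_mem_open (show x ∈ (⊤ : X.Opens) from trivial)
          (⊤ : X.Opens).2
      exact ⟨⟨W, hW⟩, hxW⟩
    have hS : ∀ j : X.affineOpens,
        Ideal.span ((i.ker.ideal j : Set Γ(X, j.1))) = i.ker.ideal j := fun j => Ideal.span_eq _
    have hT := tor_killedByIdeal F (fun j : X.affineOpens => j)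
      (fun j => (i.ker.ideal j : Set Γ(X, j.1))) hV hS
    obtain ⟨φ, hφ⟩ := exists_factor i hT (kernel.ι (torMap F (fun j : X.affineOpens => j)
      (fun j => (i.ker.ideal j : Set Γ(X, j.1)))))
    obtain ⟨t, ht⟩ := exists_tor F (fun j : X.affineOpens => j)
      (fun j => (i.ker.ideal j : Set Γ(X, j.1))) hV hS (killedSec_of_affine hs)
    refine ⟨φ.app U.1 t, ?_⟩
    rw [← ht, ← hφ]
    rfl

/-- Let i : Z → X be a closed immersion of schemes with ideal sheaf I, Hom(O_Z, -) a right adjoint of
i_* on modules (it exists; here the chosen one) with counit i_* Hom(O_Z, F) → F. Then for every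
O_X-module F and every affine open U ⊆ X, the counit on sections over U, Γ(i⁻¹U, Hom(O_Z, F)) → Γ(U,
F), is injective with image exactly the sections s of F over U with I(U) · s = 0. -/
theorem result (Z X : Scheme.{u}) (i : Z ⟶ X) [IsClosedImmersion i] [Dual3.HasHomO i] (F : X.Modules) (U : X.affineOpens) : Function.Injective ⇑(ConcreteCategory.hom (((Dual3.homOAdj i).counit.app F).val.app (Opposite.op U.1))) ∧ Set.range ⇑(ConcreteCategory.hom (((Dual3.homOAdj i).counit.app F).val.app (Opposite.op U.1))) = ((LocCoh.torsionBy (i.ker.ideal U) (F.val.obj (Opposite.op U.1)) : Submodule Γ(X, U.1) (F.val.obj (Opposite.op U.1))) : Set (F.val.obj (Opposite.op U.1))) := by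
  obtain ⟨h1, h2⟩ := main i F U
  refine ⟨h1, ?_⟩
  ext s
  refine (h2 s).trans ?_
  exact ⟨fun h => (Submodule.mem_torsionBySet_iff _ _).2 fun a => h a.1 a.2,
    fun h a ha => (Submodule.mem_torsionBySet_iff _ _).1 h ⟨a, ha⟩⟩

end Groth.Agent.S3669
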