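import Groth.Statements.S3635
import Groth.Agent.Dual.H339.Core
import Groth.Agent.Dual.H355.FBC

set_option autoImplicit false
universe u
open CategoryTheory CategoryTheory.Limits AlgebraicGeometry
attribute [local instance] HasDerivedCategory.standard
open Dual3

namespace Groth.Agent.S3635

/-- Let S be a Noetherian scheme and f : X → S a smooth proper morphism of relative dimension d. Assume
the derived direct image Rf_* exists and preserves quasi-coherence of cohomology sheaves (both known
results), so that it restricts to a functor D_QCoh(O_X) → D_QCoh(O_S), and let a : D_QCoh(O_S) →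
D_QCoh(O_X) be a right adjoint of this restricted functor. Let O be an object of D_QCoh(O_S)
isomorphic to the structure sheaf placed in degree 0, Ω_{X/S} the sheaf of relative differentials
(the conormal sheaf of the diagonal) and L a d-th exterior power of Ω_{X/S}. Then a(O) is isomorphic
in D(O_X) to L placed in degree −d, that is to ∧^d Ω_{X/S}[d]. -/
theorem result (S X : Scheme.{u}) [IsNoetherian S] (d : ℕ) (f : X ⟶ S) [IsProper f] [SmoothOfRelativeDimension d f] [DCoh.HasRpush f] (hf : DCoh.RpushPreservesQCoh f) (a : DCoh.DQCoh S ⥤ DCoh.DQCoh X) (adj : DCoh.RpushQ f hf ⊣ a) (O : DCoh.DQCoh S) (hO : Nonempty (O.obj ≅ DCoh.inD S (Coh.structureModule S))) (L : X.Modules) (hL : ExtPow.IsExtPow d (Omega.sheaf f) L) : Nonempty ((a.obj O).obj ≅ (DCoh.inD X L)⟦(d : ℤ)⟧) := by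
  have hfs : Smooth f := SmoothOfRelativeDimension.smooth d f
  have hfl : Flat f := inferInstance
  have hX : IsNoetherian X := LoccohB.AdStruct.isNoetherian_of_finiteType f
  have hL1 := S0959.result f
  have hR := Dcoh.DerSch.hasRpush (pullback.snd f f)
  have hL2 := S0959.result (pullback.fst f f)
  have hu : Ega1.ADualUniv.Univ f O.obj (a.obj O).obj := Ega1.ADualUniv.univ_of_adj (h := hf) adj O
  have hge : O.obj.IsGE 0 := by
    obtain ⟨e⟩ := hO
    have : (DCoh.inD S (Coh.structureModule S)).IsGE 0 :=
      inferInstanceAs (((DerivedCategory.singleFunctor S.Modules 0).obj _).IsGE 0)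
    exact DerivedCategory.TStructure.t.isGE_of_iso e.symm _
  exact Dual.H339.Core.core d f hf a adj O hO L hL
    (Dual.H355.FBC.univ_flat (IsPullback.of_hasPullback f f) O.property 0 hge hu)

end Groth.Agent.S3635
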