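import Groth.Statements.S3591
import Groth.Agent.Ega2.H297.SymMap

set_option autoImplicit false
universe u
open CategoryTheory CategoryTheory.Limits AlgebraicGeometry
open EGA2

namespace Groth.Agent.S3591

/-- Universal property of the projective bundle of a quasi-coherent module over an affine base,
existence part. Let A be a ring, M an A-module and S a graded A-algebra with an A-linear map ι : M →
S_1 making S a symmetric algebra of M (so Proj S = P(M~)). Let q : X → Spec A be a scheme over A, L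
an invertible O_X-module and v : M → Γ(X, L) an A-linear map whose image generates L (these
correspond to the surjections q^*(M~) → L). Then there are an A-morphism r : X → Proj S and an
isomorphism r^*O(1) ≅ L carrying, for every m ∈ M, the pullback of the global section ι(m) of O(1)
to v(m). -/
theorem result {A : Type u} [CommRing A] {S : Type u} [CommRing S] [Algebra A S] (𝒮 : ℕ → Submodule A S) [GradedAlgebra 𝒮]
    {M : Type u} [AddCommGroup M] [Module A M] (ι : M →ₗ[A] S) (hι : ∀ m : M, ι m ∈ 𝒮 1)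
    (hsym : IsSymmetricAlgebra ι)
    {X : Scheme.{u}} (q : X ⟶ Spec (CommRingCat.of A)) (L : X.Modules) (hL : PicF.IsInvertible L)
    (v : M →+ ProjUP.Γm L) (hv : ∀ (a : A) (m : M), v (a • m) = ProjUP.toGlobal q a • v m)
    (hgen : ProjUP.GeneratedBy L v) :
    ∃ (r : X ⟶ Proj 𝒮) (_ : r ≫ Proj.toSpecZero 𝒮 ≫ Spec.map (CommRingCat.ofHom (algebraMap A (𝒮 0))) = q)
      (τ : (Scheme.Modules.pullback r).obj (Twist.twist 𝒮 1) ≅ L),
      ∀ m : M, τ.hom.app ⊤ (ProjUP.pullSec r (Twist.twist 𝒮 1) (Twist.globalOf 𝒮 ⟨ι m, hι m⟩)) = v m := by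
  have hcov := Groth.Agent.Ega2.H297.SymMap.iSup_locus (L := L) v hL hgen
  let D := Groth.Agent.Ega2.H297.SymMap.symData 𝒮 ι hι hsym q v hv hcov
  obtain ⟨τ, -, hτ⟩ := Groth.Agent.Ega2.H297.ProjMap.exists_iso D L
    (fun i => Groth.Agent.Fdesc.LocGen.res L le_top (v i))
    (fun i => Groth.Agent.Ega2.H297.SymMap.isGen_res v i) (by
      intro i j
      rw [Groth.Agent.Fdesc.LocGen.res_res, Groth.Agent.Fdesc.LocGen.res_res]
      have h := Groth.Agent.Ega2.H297.SymMap.ratio_spec_le v i j (W := D.U i ⊓ D.U j) inf_le_left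
      have h2 : D.φ i (D.t j) = Groth.Agent.Ega2.H297.SymMap.ratio v i j :=
        Groth.Agent.Ega2.H297.SymMap.symHom_ι ι hsym q v hv i j
      rw [h2]
      exact h)
  refine ⟨D.toProj, Groth.Agent.Ega2.H297.ProjMap.toProj_toSpec D q
    (fun j r => Groth.Agent.Ega2.H297.SymMap.symHom_algebraMap ι hsym q v hv j r), τ, fun m => ?_⟩
  refine hτ ⟨ι m, hι m⟩ (v m) (fun j => ?_)
  have h2 : D.φ j (ι m) = Groth.Agent.Ega2.H297.SymMap.ratio v j m :=
    Groth.Agent.Ega2.H297.SymMap.symHom_ι ι hsym q v hv j m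
  rw [h2]
  exact Groth.Agent.Ega2.H297.SymMap.ratio_spec v j m

end Groth.Agent.S3591
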