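import Groth.Statements.S3806
-- import your own Groth.Agent.* helpers here

set_option autoImplicit false
universe u
open scoped TensorProduct
attribute [local instance] PP16.mapAlgebra PP16.isScalarTower_mapAlgebra
open PP16

namespace Groth.Agent.S3806

theorem exists_factor {R M N Q : Type u} [CommRing R] [AddCommGroup M] [Module R M]
    [AddCommGroup N] [Module R N] [AddCommMonoid Q] [Module R Q] (p : M →ₗ[R] N)
    (hp : Function.Surjective p) (q : M →ₗ[R] Q) (h : ∀ x, p x = 0 → q x = 0) :
    ∃ q' : N →ₗ[R] Q, ∀ x, q' (p x) = q x := by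
  have hs : ∀ x y, p x = p y → q x = q y := fun x y hxy => by
    have h1 : q (x - y) = 0 := h _ (by rw [map_sub, hxy, sub_self])
    have h2 : q x = q (x - y + y) := by rw [sub_add_cancel]
    rw [h2, map_add, h1, zero_add]
  have hs' : ∀ z x, p x = z → q (Function.surjInv hp z) = q x := fun z x hx =>
    hs _ _ (by rw [Function.surjInv_eq hp, hx])
  refine ⟨{ toFun := fun z => q (Function.surjInv hp z), map_add' := ?_, map_smul' := ?_ }, ?_⟩
  · intro z w
    rw [← map_add]
    exact hs' _ _ (by rw [map_add, Function.surjInv_eq hp, Function.surjInv_eq hp])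
  · intro r z
    rw [RingHom.id_apply, ← map_smul]
    exact hs' _ _ (by rw [map_smul, Function.surjInv_eq hp])
  · intro x
    exact hs' _ _ rfl

/-- Base change passes to quotients by an ideal and its extension. -/
theorem isBaseChange_quotient {B B' S S' : Type u} [CommRing B] [CommRing B'] [CommRing S]
    [CommRing S'] [Algebra B B'] [Algebra B S] [Algebra B' S'] [Algebra B S']
    [IsScalarTower B B' S'] (f : S →ₐ[B] S') (hf : IsBaseChange B' f.toLinearMap)
    (J : Ideal S) (J' : Ideal S') (hJ : J' = J.map f)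
    (g : (S ⧸ J) →ₗ[B] (S' ⧸ J'))
    (hg : ∀ x, g (Ideal.Quotient.mk J x) = Ideal.Quotient.mk J' (f x)) :
    IsBaseChange B' g := by
  apply IsBaseChange.of_lift_unique
  intro Q _ _ _ _ r
  -- the lift on `S'`
  obtain ⟨q, hq⟩ : ∃ q : S' →ₗ[B'] Q, ∀ x, q (f x) = r (Ideal.Quotient.mk J x) :=
    ⟨hf.lift (r ∘ₗ (Ideal.Quotient.mkₐ B J).toLinearMap), fun x =>
      hf.lift_eq (r ∘ₗ (Ideal.Quotient.mkₐ B J).toLinearMap) x⟩
  have key : ∀ (j : S), j ∈ J → ∀ a : S', q (a * f j) = 0 := by
    intro j hj a
    induction a using hf.inductionOn with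
    | zero => rw [zero_mul, map_zero]
    | tmul s =>
      change q (f s * f j) = 0
      rw [← map_mul, hq, Ideal.Quotient.eq_zero_iff_mem.mpr (J.mul_mem_left s hj), map_zero]
    | smul b a ha => rw [smul_mul_assoc, map_smul, ha, smul_zero]
    | add a a' ha ha' => rw [add_mul, map_add, ha, ha', add_zero]
  have key' : ∀ y ∈ J', ∀ a : S', q (a * y) = 0 := by
    intro y hy
    rw [hJ, Ideal.map, Ideal.span] at hy
    induction hy using Submodule.span_induction with
    | mem y hy =>
      obtain ⟨j, hj, rfl⟩ := hy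
      exact key j hj
    | zero => intro a; rw [mul_zero, map_zero]
    | add y z _ _ hy hz => intro a; rw [mul_add, map_add, hy, hz, add_zero]
    | smul c y _ hy => intro a; rw [smul_eq_mul, ← mul_assoc]; exact hy _
  obtain ⟨q', hq'⟩ : ∃ q' : (S' ⧸ J') →ₗ[B'] Q, ∀ x, q' (Ideal.Quotient.mk J' x) = q x :=
    exists_factor (Ideal.Quotient.mkₐ B' J').toLinearMap Ideal.Quotient.mk_surjective q
      (fun y hy => by
        rw [← one_mul y]
        exact key' y (Ideal.Quotient.eq_zero_iff_mem.mp hy) 1)
  refine ⟨q', ?_, ?_⟩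
  · refine LinearMap.ext fun x => ?_
    obtain ⟨x, rfl⟩ := Ideal.Quotient.mk_surjective x
    change q' (g _) = _
    rw [hg, hq', hq]
  · intro q'' hq''
    have : q''.comp (Ideal.Quotient.mkₐ B' J').toLinearMap = q := by
      apply hf.algHom_ext
      intro x
      change q'' (Ideal.Quotient.mk J' (f x)) = q (f x)
      rw [← hg, hq, ← hq'']
      rfl
    refine LinearMap.ext fun x => ?_
    obtain ⟨x, rfl⟩ := Ideal.Quotient.mk_surjective x
    exact (LinearMap.congr_fun this x).trans (hq' x).symm

/-- The square `B → B ⊗_A B`, `B' → B' ⊗_{A'} B'` (first factors) is a base change. -/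
theorem isBaseChange_tensorMap (A B A' B' : Type u) [CommRing A] [CommRing B] [Algebra A B]
    [CommRing A'] [CommRing B'] [Algebra A' B'] [Algebra A A'] [Algebra B B'] [Algebra A B']
    [IsScalarTower A A' B'] [IsScalarTower A B B'] [Algebra.IsPushout A B A' B']
    (f : B ⊗[A] B →ₗ[B] B' ⊗[A'] B')
    (hf : ∀ b c, f (b ⊗ₜ c) = (algebraMap B B' b) ⊗ₜ (algebraMap B B' c)) :
    IsBaseChange B' f := by
  have : Algebra.IsPushout A A' B B' := Algebra.IsPushout.symm inferInstance
  let e : B' ⊗[B] (B ⊗[A] B) ≃ₗ[B'] B' ⊗[A'] B' :=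
    (TensorProduct.AlgebraTensorModule.cancelBaseChange A B B' B' B) ≪≫ₗ
      (TensorProduct.AlgebraTensorModule.cancelBaseChange A A' B' B' B).symm ≪≫ₗ
      (TensorProduct.AlgebraTensorModule.congr (LinearEquiv.refl B' B')
        (Algebra.IsPushout.equiv A A' B B').toLinearEquiv)
  refine IsBaseChange.of_equiv e ?_
  intro x
  induction x using TensorProduct.induction_on with
  | zero => simp
  | tmul b c =>
    rw [hf]
    simp [e, Algebra.IsPushout.equiv_tmul, Algebra.smul_def]
  | add x y hx hy => rw [TensorProduct.tmul_add, map_add, map_add, hx, hy]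

/-- The kernel of multiplication of `B'` is generated by the image of that of `B`. -/
theorem map_ideal (A B A' B' : Type u) [CommRing A] [CommRing B] [Algebra A B]
    [CommRing A'] [CommRing B'] [Algebra A' B'] [Algebra A A'] [Algebra B B'] [Algebra A B']
    [IsScalarTower A A' B'] [IsScalarTower A B B'] [Algebra.IsPushout A B A' B'] :
    KaehlerDifferential.ideal A' B' =
      (KaehlerDifferential.ideal A B).map (PP16.tensorMap A B A' B') := by
  have : Algebra.IsPushout A A' B B' := Algebra.IsPushout.symm inferInstance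
  apply le_antisymm _ (PP16.ideal_map_tensorMap_le A B A' B')
  rw [← KaehlerDifferential.span_range_eq_ideal, Ideal.span_le]
  rintro _ ⟨s, rfl⟩
  change (1 : B') ⊗ₜ[A'] s - s ⊗ₜ[A'] (1 : B') ∈ _
  induction s using (this.out).inductionOn with
  | zero => simp
  | tmul b =>
    have := Ideal.mem_map_of_mem (PP16.tensorMap A B A' B')
      (KaehlerDifferential.one_smul_sub_smul_one_mem_ideal A b)
    rw [map_sub, PP16.tensorMap_tmul, PP16.tensorMap_tmul, map_one] at this
    exact this
  | smul a s hs =>
    have h : (1 : B') ⊗ₜ[A'] (a • s) - (a • s) ⊗ₜ[A'] (1 : B') =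
        a • ((1 : B') ⊗ₜ[A'] s - s ⊗ₜ[A'] (1 : B')) := by
      rw [smul_sub]
      congr 1
      rw [TensorProduct.tmul_smul]
    rw [h]
    exact Submodule.smul_of_tower_mem _ a hs
  | add s t hs ht =>
    rw [TensorProduct.tmul_add, TensorProduct.add_tmul, add_sub_add_comm]
    exact add_mem hs ht

/-- Let A → A' be a ring map, B an A-algebra and B' = B ⊗_A A'. Then the canonical map P^n_{B/A} ⊗_B B'
→ P^n_{B'/A'} induced by functoriality of principal parts is an isomorphism; that is, the square B →
P^n_{B/A}, B → B', with P^n_{B'/A'} in the corner, is a pushout of rings. -/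
theorem result (n : ℕ) (A B A' B' : Type u) [CommRing A] [CommRing B] [Algebra A B]
    [CommRing A'] [CommRing B'] [Algebra A' B'] [Algebra A A'] [Algebra B B'] [Algebra A B']
    [IsScalarTower A A' B'] [IsScalarTower A B B'] [Algebra.IsPushout A B A' B'] :
    Algebra.IsPushout B (PP16.P n A B) B' (PP16.P n A' B') := by
  symm
  constructor
  let f : B ⊗[A] B →ₐ[B] B' ⊗[A'] B' :=
    { (PP16.tensorMap A B A' B').toRingHom with
      commutes' := fun b => by
        change PP16.tensorMap A B A' B' (b ⊗ₜ[A] (1 : B)) = algebraMap B B' b ⊗ₜ[A'] (1 : B')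
        rw [PP16.tensorMap_tmul, map_one] }
  have hf : IsBaseChange B' f.toLinearMap :=
    isBaseChange_tensorMap A B A' B' f.toLinearMap (PP16.tensorMap_tmul A B A' B')
  refine isBaseChange_quotient f hf _ _ ?_ _ ?_
  · rw [map_ideal A B A' B', ← Ideal.map_pow]
    rfl
  · intro x
    rfl

end Groth.Agent.S3806
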