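import Groth.Statements.S4314
import Groth.Agent.Gaga.H980.Completion

set_option autoImplicit false
open CategoryTheory AlgebraicGeometry Topology TopologicalSpace
open An

namespace Groth.Agent.S4314

/-- Completed local rings: for X reduced and locally of finite type over ℂ and x a ℂ-point, with φ_x :
O_{X,x} → O_{X^an,x} the map on stalks and m the maximal ideal of O_{X,x}: (a) m·O_{X^an,x} is the
unique maximal ideal of O_{X^an,x}; (b) for every n, φ_x induces a bijection O_{X,x}/m^n →
O_{X^an,x}/(m·O_{X^an,x})^n, written out as: every germ is congruent to an algebraic germ modulo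
(m·O_{X^an,x})^n, and an algebraic germ lying in (m·O_{X^an,x})^n lies in m^n. Equivalently, φ_x
induces an isomorphism of the completions. -/
theorem result (X : Scheme.{0}) [X.Over An.SC]
    [LocallyOfFiniteType (X ↘ An.SC)] [IsReduced X] (x : An.Pts X) :
    (((IsLocalRing.maximalIdeal (X.presheaf.stalk x.pt)).map
        (PresheafedSpace.Hom.stalkMap (An.anToScheme X) x).hom).IsMaximal ∧
      ∀ I : Ideal ((An.anSpace X).presheaf.stalk x), I.IsMaximal →
        I = (IsLocalRing.maximalIdeal (X.presheaf.stalk x.pt)).map
          (PresheafedSpace.Hom.stalkMap (An.anToScheme X) x).hom) ∧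
    ∀ n : ℕ,
      (∀ b : (An.anSpace X).presheaf.stalk x, ∃ a : X.presheaf.stalk x.pt,
        (PresheafedSpace.Hom.stalkMap (An.anToScheme X) x).hom a - b ∈
          ((IsLocalRing.maximalIdeal (X.presheaf.stalk x.pt)).map
            (PresheafedSpace.Hom.stalkMap (An.anToScheme X) x).hom) ^ n) ∧
      (∀ a : X.presheaf.stalk x.pt,
        (PresheafedSpace.Hom.stalkMap (An.anToScheme X) x).hom a ∈
          ((IsLocalRing.maximalIdeal (X.presheaf.stalk x.pt)).map
            (PresheafedSpace.Hom.stalkMap (An.anToScheme X) x).hom) ^ n →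
        a ∈ (IsLocalRing.maximalIdeal (X.presheaf.stalk x.pt)) ^ n) := by
  exact Groth.Agent.Gaga.H980.Completion.of_hadamard
    Groth.Agent.Gaga.H980.Completion.hadamard x

end Groth.Agent.S4314
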