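import Groth.Statements.S0087
import Groth.Agent.Etbase.FpqcDescent

set_option autoImplicit false
open CategoryTheory CategoryTheory.Limits AlgebraicGeometry Opposite
universe u
open EtBase

namespace Groth.Agent.S0087

/-- Being locally quasi-finite (in the sense that includes being locally of finite type; encoded as the
conjunction of the two properties) descends along a quasi-compact flat surjective base change: if
the base change of a morphism g along a quasi-compact, flat, surjective morphism to its target is
locally quasi-finite and locally of finite type, then so is g. (Stated for a single quasi-compact
faithfully flat cover; combined with Zariski-locality on the target this gives the fpqc-local form.) -/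
theorem result :
    MorphismProperty.DescendsAlong (@LocallyQuasiFinite ⊓ @LocallyOfFiniteType : MorphismProperty Scheme.{u}) (@Surjective ⊓ @Flat ⊓ @QuasiCompact : MorphismProperty Scheme.{u}) := by
  have h1 : MorphismProperty.DescendsAlong (@LocallyQuasiFinite : MorphismProperty Scheme.{u})
      (@Surjective ⊓ @Flat ⊓ @QuasiCompact : MorphismProperty Scheme.{u}) :=
    Groth.Agent.Etbase.FpqcDescent.descendsAlong_locallyQuasiFinite
  have h2 : MorphismProperty.DescendsAlong (@LocallyOfFiniteType : MorphismProperty Scheme.{u})
      (@Surjective ⊓ @Flat ⊓ @QuasiCompact : MorphismProperty Scheme.{u}) := inferInstance
  exact MorphismProperty.DescendsAlong.inf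

end Groth.Agent.S0087
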