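import Groth.Statements.S0629
import Groth.Agent.Old.H28.PullSub

set_option autoImplicit false
open CategoryTheory CategoryTheory.Limits AlgebraicGeometry Opposite
universe u
open EtCore

namespace Groth.Agent.S0629

/-- Let f : X → S be a universally submersive morphism of schemes (every base change of f is a quotient
map of topological spaces) whose geometric fibres are connected. Then for every abelian sheaf F on
the small étale site of S the canonical map from the global sections of F to the global sections of
the pullback of F to X (the adjunction unit evaluated on S) is bijective. The published statement
assumes f only submersive; the claim fails for a merely submersive f, so universal submersiveness is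
assumed here. -/
theorem result {X S : Scheme.{u}} (f : X ⟶ S)
    (hsub : ∀ (S' : Scheme.{u}) (g : S' ⟶ S), Topology.IsQuotientMap (pullback.snd f g).base)
    (hc : ∀ (Ω : Type u) [Field Ω] [IsAlgClosed Ω] (s : Spec (CommRingCat.of Ω) ⟶ S), ConnectedSpace ↥(pullback f s))
    (F : EtCoh.Ab S) :
    Function.Bijective (((EtCoh.pullPushAdj f).unit.app F).hom.app (op (EtCoh.top S))) :=
  Groth.Agent.Old.H28.PullSub.unitSect_bijective f hsub hc F (EtCoh.top S)

end Groth.Agent.S0629

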