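import Groth.Statements.S0643
import Mathlib.Tactic.LinearCombination
import Mathlib.Algebra.BigOperators.Ring.Finset
import Mathlib.RingTheory.Coprime.Lemmas
import Mathlib.Algebra.Ring.GeomSum

set_option autoImplicit false
universe u
open EtCore

namespace Groth.Agent.S0643

/-- The successive approximation: `1` is a homogeneous form of degree `n` in `a`, `b`, monic in
`a`. -/
theorem exists_coeffs {A : Type u} [CommRing A] (a b : A) (hab : IsCoprime a b) (n : ℕ)
    (hn : 0 < n) (hroot : b ∣ a ^ n - 1) :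
    ∃ c : ℕ → A, (1 : A) = a ^ n + ∑ j ∈ Finset.range n, c j * a ^ (n - 1 - j) * b ^ (j + 1) := by
  have key : ∀ m : ℕ, m ≤ n - 1 → ∃ (c : ℕ → A) (r : A),
      (1 : A) = a ^ n + ∑ j ∈ Finset.range m, c j * a ^ (n - 1 - j) * b ^ (j + 1) +
        r * b ^ (m + 1) := by
    intro m
    induction m with
    | zero =>
      intro _
      obtain ⟨r, hr⟩ := hroot
      refine ⟨fun _ => 0, -r, ?_⟩
      simp only [Finset.range_zero, Finset.sum_empty, zero_add, pow_one]
      linear_combination -hr
    | succ m ih =>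
      intro hm
      obtain ⟨c, r, h⟩ := ih (by omega)
      obtain ⟨u, v, huv⟩ := hab.pow_left (m := n - 1 - m)
      refine ⟨fun j => if j = m then r * u else c j, r * v, ?_⟩
      rw [Finset.sum_range_succ]
      beta_reduce
      rw [if_pos rfl]
      have hs : ∑ j ∈ Finset.range m, (if j = m then r * u else c j) * a ^ (n - 1 - j) * b ^ (j + 1)
          = ∑ j ∈ Finset.range m, c j * a ^ (n - 1 - j) * b ^ (j + 1) := by
        refine Finset.sum_congr rfl fun j hj => ?_
        rw [Finset.mem_range] at hj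
        rw [if_neg (by omega)]
      rw [hs]
      linear_combination h - r * b ^ (m + 1) * huv
  obtain ⟨c, r, h⟩ := key (n - 1) le_rfl
  refine ⟨fun j => if j = n - 1 then r else c j, ?_⟩
  obtain ⟨k, rfl⟩ : ∃ k, n = k + 1 := ⟨n - 1, by omega⟩
  simp only [Nat.add_sub_cancel] at h ⊢
  rw [Finset.sum_range_succ]
  beta_reduce
  rw [if_pos rfl]
  have hs : ∑ j ∈ Finset.range k, (if j = k then r else c j) * a ^ (k - j) * b ^ (j + 1)
      = ∑ j ∈ Finset.range k, c j * a ^ (k - j) * b ^ (j + 1) := by
    refine Finset.sum_congr rfl fun j hj => ?_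
    rw [Finset.mem_range] at hj
    rw [if_neg (by omega)]
  rw [hs]
  simp only [Nat.sub_self, pow_zero, mul_one]
  linear_combination h

open Polynomial in
/-- Let A be a ring, assumed nonzero here (the published statement does not say so; over the zero ring
no polynomial has positive degree in Lean's sense), and a, b elements generating the unit ideal such
that some positive power of a is congruent to 1 modulo b. Then there is a monic polynomial P of
positive degree over A such that in B = A[y]/(P) the element a - b y is a unit. -/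
theorem result (A : Type u) [CommRing A] [Nontrivial A] (a b : A) (hab : IsCoprime a b)
    (hroot : ∃ n : ℕ, 0 < n ∧ a ^ n - 1 ∈ Ideal.span ({b} : Set A)) :
    ∃ P : A[X], P.Monic ∧ 0 < P.natDegree ∧
      IsUnit (algebraMap A (AdjoinRoot P) a - algebraMap A (AdjoinRoot P) b * AdjoinRoot.root P) := by
  obtain ⟨n, hn, hroot⟩ := hroot
  obtain ⟨c, hc⟩ := exists_coeffs a b hab n hn (Ideal.mem_span_singleton.mp hroot)
  have hdeg : (∑ j ∈ Finset.range n, C (c j) * X ^ (n - 1 - j) : A[X]).degree < n := by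
    rw [← mem_degreeLT]
    refine Submodule.sum_mem _ fun j hj => ?_
    rw [mem_degreeLT]
    refine (degree_C_mul_X_pow_le _ _).trans_lt ?_
    rw [Finset.mem_range] at hj
    exact_mod_cast (by omega : n - 1 - j < n)
  let P : A[X] := X ^ n + ∑ j ∈ Finset.range n, C (c j) * X ^ (n - 1 - j)
  have hP : P.Monic := monic_X_pow_add hdeg
  have hPn : P.natDegree = n := by
    have h1 : P.degree = n := by
      rw [show P = X ^ n + ∑ j ∈ Finset.range n, C (c j) * X ^ (n - 1 - j) from rfl,
        degree_add_eq_left_of_degree_lt (by rwa [degree_X_pow]), degree_X_pow]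
    exact natDegree_eq_of_degree_eq_some h1
  refine ⟨P, hP, hPn ▸ hn, ?_⟩
  set y := AdjoinRoot.root P with hy
  set φ := algebraMap A (AdjoinRoot P) with hφ
  have hroot : y ^ n + ∑ j ∈ Finset.range n, φ (c j) * y ^ (n - 1 - j) = 0 := by
    have h2 : eval₂ φ y P = 0 := AdjoinRoot.eval₂_root P
    have h3 : eval₂ φ y P = y ^ n + ∑ j ∈ Finset.range n, φ (c j) * y ^ (n - 1 - j) := by
      change eval₂ φ y (X ^ n + ∑ j ∈ Finset.range n, C (c j) * X ^ (n - 1 - j)) = _
      simp [eval₂_add, eval₂_finsetSum]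
    rw [← h3, h2]
  have h1 : (1 : AdjoinRoot P) = φ a ^ n + ∑ j ∈ Finset.range n, φ (c j) * φ a ^ (n - 1 - j) *
      φ b ^ (j + 1) := by
    have := congrArg φ hc
    simpa using this
  have h0 : (0 : AdjoinRoot P) = (φ b * y) ^ n + ∑ j ∈ Finset.range n, φ (c j) *
      (φ b * y) ^ (n - 1 - j) * φ b ^ (j + 1) := by
    have h3 : φ b ^ n * (y ^ n + ∑ j ∈ Finset.range n, φ (c j) * y ^ (n - 1 - j)) = 0 := by
      rw [hroot, mul_zero]
    rw [← h3, mul_add, mul_pow, Finset.mul_sum]
    congr 1
    refine Finset.sum_congr rfl fun j hj => ?_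
    rw [Finset.mem_range] at hj
    rw [show φ b ^ n = φ b ^ (n - 1 - j) * φ b ^ (j + 1) by
      rw [← pow_add]; congr 1; omega, mul_pow]
    ring
  apply isUnit_of_dvd_one
  have h4 : (1 : AdjoinRoot P) = (φ a ^ n - (φ b * y) ^ n) + ∑ j ∈ Finset.range n, φ (c j) *
      (φ a ^ (n - 1 - j) - (φ b * y) ^ (n - 1 - j)) * φ b ^ (j + 1) := by
    have h5 : (1 : AdjoinRoot P) = 1 - 0 := by ring
    rw [h5, h1, h0, add_sub_add_comm, ← Finset.sum_sub_distrib]
    congr 1
    refine Finset.sum_congr rfl fun j _ => ?_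
    ring
  rw [h4]
  refine dvd_add (sub_dvd_pow_sub_pow _ _ _) (Finset.dvd_sum fun j _ => ?_)
  exact ((sub_dvd_pow_sub_pow _ _ _).mul_left _).mul_right _

end Groth.Agent.S0643
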