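import Groth.Statements.S1076
import Groth.Agent.S0978

set_option autoImplicit false
universe v u
open CategoryTheory
open DerLim

namespace Groth.Agent.S1076

section

open CategoryTheory.Limits CategoryTheory.Pretriangulated CategoryTheory.ObjectProperty
open Groth.Agent.CohtopB.TriCompact Groth.Agent.S0978

variable {D : Type u} [Category.{v} D] [Preadditive D] [Limits.HasZeroObject D] [HasShift D ℤ]
    [∀ n : ℤ, (shiftFunctor D n).Additive] [Pretriangulated D] [IsTriangulated D]

/-- The triangulated envelope of finitely many members of a family. -/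
def env {ι : Type v} (E : ι → D) (s : Finset ι) : ObjectProperty D :=
  ObjectProperty.triangEnvelope (fun Y : D => ∃ i ∈ s, Y = E i)

omit [IsTriangulated D] in
lemma env_mono {ι : Type v} (E : ι → D) {s t : Finset ι} (h : s ⊆ t) : env E s ≤ env E t :=
  monotone_triangEnvelope (fun _ ⟨i, hi, e⟩ => ⟨i, h hi, e⟩)

instance {ι : Type v} (E : ι → D) (s : Finset ι) : (env E s).IsStableUnderRetracts := by
  unfold env
  infer_instance

lemma env_isTriangulated {ι : Type v} (E : ι → D) {s : Finset ι} (hs : s.Nonempty) :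
    (env E s).IsTriangulated := by
  obtain ⟨i, hi⟩ := hs
  have : ObjectProperty.Nonempty (fun Y : D => ∃ i ∈ s, Y = E i) := ⟨E i, i, hi, rfl⟩
  unfold env
  infer_instance

/-- The union of the triangulated envelopes of the nonempty finite subfamilies. -/
def fenv {ι : Type v} (E : ι → D) : ObjectProperty D := fun X =>
  ∃ s : Finset ι, s.Nonempty ∧ env E s X

instance {ι : Type v} (E : ι → D) : (fenv E).IsClosedUnderIsomorphisms where
  of_iso := by
    rintro X Y e ⟨s, hs, hX⟩
    exact ⟨s, hs, (env E s).prop_of_iso e hX⟩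

lemma mem_fenv {ι : Type v} (E : ι → D) (i : ι) : fenv E (E i) :=
  ⟨{i}, Finset.singleton_nonempty i, le_triangEnvelope _ _ ⟨i, Finset.mem_singleton_self i, rfl⟩⟩

instance {ι : Type v} [Nonempty ι] (E : ι → D) : (fenv E).IsTriangulated where
  exists_zero := by
    obtain ⟨i⟩ := ‹Nonempty ι›
    have := env_isTriangulated E (Finset.singleton_nonempty i)
    obtain ⟨Z, hZ, hZ'⟩ := (env E {i}).exists_prop_of_containsZero
    exact ⟨Z, hZ, {i}, Finset.singleton_nonempty i, hZ'⟩
  isStableUnderShiftBy n := ⟨by
    rintro X ⟨s, hs, hX⟩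
    have := env_isTriangulated E hs
    exact ⟨s, hs, (env E s).le_shift n _ hX⟩⟩
  ext₂' := by
    classical
    rintro T hT ⟨s, hs, h₁⟩ ⟨t, ht, h₃⟩
    refine ObjectProperty.le_isoClosure _ _ ⟨s ∪ t, hs.mono Finset.subset_union_left, ?_⟩
    have := env_isTriangulated E (hs.mono (Finset.subset_union_left (s₂ := t)))
    exact (env E (s ∪ t)).ext_of_isTriangulatedClosed₂ _ hT
      (env_mono E Finset.subset_union_left _ h₁) (env_mono E Finset.subset_union_right _ h₃)

end


open CategoryTheory.Limits CategoryTheory.Pretriangulated in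
/-- Let D be a triangulated category with all small direct sums and E a small nonempty family of compact
objects (nonempty so that the envelope of a finite subfamily can contain a zero object). Let X₀ → X₁
→ … be a sequential system in which X₀ is a direct sum of shifts of members of E and each Xₙ → Xₙ₊₁
sits in a distinguished triangle Yₙ → Xₙ → Xₙ₊₁ → Yₙ[1] with Yₙ a direct sum of shifts of members of
E. Then every morphism from a compact object C to some Xₙ factors through an object of the
triangulated envelope (closure under shifts, finite sums, summands and extensions) of finitely many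
members of E. -/
theorem result {D : Type u} [Category.{v} D] [Preadditive D] [Limits.HasZeroObject D] [HasShift D ℤ]
    [∀ n : ℤ, (shiftFunctor D n).Additive] [Pretriangulated D] [IsTriangulated D] [HasCoproducts.{v} D]
    {ι : Type v} [Nonempty ι] (E : ι → D) (hc : ∀ i, CohDer.IsCompactObject (E i))
    (K : ℕ → D) (f : ∀ n, K n ⟶ K (n + 1))
    (h0 : ∃ (κ : Type v) (a : κ → ι) (m : κ → ℤ), Nonempty (K 0 ≅ ∐ (fun k => (shiftFunctor D (m k)).obj (E (a k)))))
    (hstep : ∀ n, ∃ (κ : Type v) (a : κ → ι) (m : κ → ℤ) (y : (∐ fun k => (shiftFunctor D (m k)).obj (E (a k))) ⟶ K n)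
      (z : K (n + 1) ⟶ (shiftFunctor D (1 : ℤ)).obj (∐ fun k => (shiftFunctor D (m k)).obj (E (a k)))),
      Triangle.mk y (f n) z ∈ distinguishedTriangles)
    (C : D) (hC : CohDer.IsCompactObject C) (n : ℕ) (φ : C ⟶ K n) :
    ∃ (s : Finset ι) (E' : D) (g : C ⟶ E') (h : E' ⟶ K n),
      ObjectProperty.triangEnvelope (fun Y : D => ∃ i ∈ s, Y = E i) E' ∧ g ≫ h = φ := by
  classical
  have hT : fenv E ≤ Groth.Agent.CohtopB.TriCompact.compactProp D := by
    rintro X ⟨s, -, hX⟩
    refine (ObjectProperty.triangEnvelope_le_iff _).2 ?_ X hX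
    rintro _ ⟨i, -, rfl⟩
    exact hc i
  have hcl := Groth.Agent.S0978.facProp_isTriangulated (fenv E) hT
  have hco : ∀ (κ : Type v) (a : κ → ι) (m : κ → ℤ), Groth.Agent.S0978.facProp (fenv E)
      (∐ (fun k => (shiftFunctor D (m k)).obj (E (a k)))) := by
    intro κ a m
    refine Groth.Agent.S0978.facProp_coprod (fenv E) κ _ fun k => ?_
    exact Groth.Agent.S0978.le_facProp _ _ ((fenv E).le_shift (m k) _ (mem_fenv E (a k)))
  have key : ∀ n, Groth.Agent.S0978.facProp (fenv E) (K n) := by
    intro n
    induction n with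
    | zero =>
      obtain ⟨κ, a, m, ⟨e⟩⟩ := h0
      exact (Groth.Agent.S0978.facProp (fenv E)).prop_of_iso e.symm (hco κ a m)
    | succ n ih =>
      obtain ⟨κ, a, m, y, z, hyz⟩ := hstep n
      exact (Groth.Agent.S0978.facProp (fenv E)).ext_of_isTriangulatedClosed₃ _ hyz
        (hco κ a m) ih
  obtain ⟨Z, g, h, ⟨s, -, hs⟩, e⟩ := key n C hC φ
  exact ⟨s, Z, g, h, hs, e.symm⟩

end Groth.Agent.S1076
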