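import Groth.Statements.S1095
import Groth.Agent.Old.H4.KoszulTrunc

set_option autoImplicit false
universe u
open CategoryTheory CategoryTheory.Limits AlgebraicGeometry Opposite
attribute [local instance] HasDerivedCategory.standard
open Perf

namespace Groth.Agent.S1095

open CategoryTheory.Pretriangulated CategoryTheory.Triangulated
open Groth.Agent.PerfB Groth.Agent.PerfB.KoszulOrth Groth.Agent.Old.H4.KoszulTrunc

/-- If `τ_{≤n} u` is an isomorphism and `Y` is `≤ n` with no nonzero maps to the target of `u`, then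
`Y` has no nonzero maps to the source of `u`. -/
lemma eq_zero_of_isIso_truncLE {D : Type*} [Category* D] [HasShift D ℤ] [Preadditive D]
    [HasZeroObject D] [∀ n : ℤ, (shiftFunctor D n).Additive] [Pretriangulated D]
    (t : TStructure D) {E E' : D} (u : E ⟶ E') (n : ℤ) (hu : IsIso ((t.truncLE n).map u)) {Y : D}
    (hY : t.IsLE Y n) (h : ∀ ψ : Y ⟶ E', ψ = 0) (φ : Y ⟶ E) : φ = 0 := by
  have h1 : t.liftTruncLE φ n ≫ (t.truncLE n).map u = 0 := by
    apply t.to_truncLE_obj_ext
    rw [Category.assoc, NatTrans.naturality, TStructure.liftTruncLE_ι_assoc, zero_comp]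
    exact h _
  have h2 : t.liftTruncLE φ n = 0 := by
    rw [← cancel_mono ((t.truncLE n).map u), h1, zero_comp]
  rw [← t.liftTruncLE_ι φ n, h2, zero_comp]

/-- The Koszul complex is concentrated in degrees `≤ 0`. -/
lemma isLE_tildeD_koszul {A : Type u} [CommRing A] (fs : List A)
    [PreservesFiniteLimits (tilde.functor (CommRingCat.of A))] :
    ((DCoh.tildeD (CommRingCat.of A)).obj
      (DerivedCategory.Q.obj (Koszul.koszul A fs))).IsLE 0 := by
  rw [DerivedCategory.isLE_iff]
  intro i hi
  have h1 : IsZero ((Koszul.koszul A fs).X i) := by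
    rw [← KoszulOn.kosOn_single_eq]
    exact KoszulOn.isZero_kosOn_X _ 0 0
      (fun i hi => HomologicalComplex.isZero_single_obj_X (ComplexShape.up ℤ) 0 _ i (by omega))
      fs i (Or.inr hi)
  have h2 : IsZero ((DerivedCategory.homologyFunctor (ModuleCat.{u} A) i).obj
      (DerivedCategory.Q.obj (Koszul.koszul A fs))) := by
    refine IsZero.of_iso ?_ ((DerivedCategory.homologyFunctorFactors (ModuleCat.{u} A) i).app _)
    exact ShortComplex.isZero_homology_of_isZero_X₂ _ h1
  refine ((tilde.functor (CommRingCat.of A)).map_isZero h2).of_iso ?_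
  exact Groth.Agent.PerfA.TildeSupp.HDtilde _ i

/-- Let A be a ring, f₁, …, f_r ∈ A, X = Spec A, j : U ⟶ X the inclusion of the complement of V(f₁, …,
f_r), K the object of D(O_X) attached to the Koszul complex on f₁, …, f_r (in degrees −r, …, 0), E ∈
D(O_X) with quasi-coherent cohomology sheaves and a ∈ ℤ. The restriction j^* and Rj_* are assumed to
exist, with an adjunction j^* ⊣ Rj_* given as data whose unit is the canonical map E ⟶ Rj_*(E|_U).
Then: if every morphism K[−n] ⟶ E with n ≤ a vanishes, τ_{≤a−1} of the unit at E is an isomorphism;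
and if τ_{≤a−1} of the unit at E is an isomorphism, every morphism K[−n] ⟶ E with n ≤ a − 1
vanishes. (The published statement has τ_{≤a} in both clauses. With that index the first implication
is false, e.g. for A = ℤ, r = 1, f₁ = 2, E = O_X, a = 0: every K[−n] ⟶ E with n ≤ 0 vanishes, but H⁰
of the unit is ℤ ⟶ ℤ[1/2]; the index a − 1 used here is the correct one. The second clause thereby
becomes slightly stronger than published (same conclusion from the weaker hypothesis at index a −
1); both clauses as stated here are sharp.) -/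
theorem result (A : Type u) [CommRing A] (fs : List A) [PreservesFiniteLimits (tilde.functor (CommRingCat.of A))]
    [PreservesFiniteLimits (Scheme.Modules.restrictFunctor (LocCoh.puncturedOpen A (Ideal.span {a | a ∈ fs})).ι)] [DCoh.HasRpush (LocCoh.puncturedOpen A (Ideal.span {a | a ∈ fs})).ι]
    (adj : DCoh.restrictD (LocCoh.puncturedOpen A (Ideal.span {a | a ∈ fs})).ι ⊣ DCoh.Rpush (LocCoh.puncturedOpen A (Ideal.span {a | a ∈ fs})).ι)
    (E : DCoh.D (Spec (CommRingCat.of A))) (hE : DCoh.IsQCohD E) (a : ℤ) :
    ((∀ n : ℤ, n ≤ a → ∀ φ : ((DCoh.tildeD (CommRingCat.of A)).obj (DerivedCategory.Q.obj (Koszul.koszul A fs)))⟦-n⟧ ⟶ E, φ = 0) →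
      IsIso (((DerivedCategory.TStructure.t : CategoryTheory.Triangulated.TStructure (DCoh.D (Spec (CommRingCat.of A)))).truncLE (a - 1)).map (adj.unit.app E))) ∧
    (IsIso (((DerivedCategory.TStructure.t : CategoryTheory.Triangulated.TStructure (DCoh.D (Spec (CommRingCat.of A)))).truncLE (a - 1)).map (adj.unit.app E)) →
      ∀ n : ℤ, n ≤ a - 1 → ∀ φ : ((DCoh.tildeD (CommRingCat.of A)).obj (DerivedCategory.Q.obj (Koszul.koszul A fs)))⟦-n⟧ ⟶ E, φ = 0) := by
  have hR : orth ((DCoh.tildeD (CommRingCat.of A)).obj
      (DerivedCategory.Q.obj (Koszul.koszul A fs))) ((DCoh.Rpush (punct fs).ι).obj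
        ((DCoh.restrictD (punct fs).ι).obj E)) := orth_rpush fs _
  constructor
  · intro H
    have hc : IsIso adj.counit := isIso_counit_of_adj (OpenAdj.openAdj (punct fs).ι) adj
    obtain ⟨C, g, h, hT⟩ := distinguished_cocone_triangle (adj.unit.app E)
    have hU : IsZero ((DCoh.restrictD (punct fs).ι).obj C) := isZero_map_cone_unit adj E hT
    have hC : DCoh.IsQCohD C := isQCohD_obj₃ _ hT hE
      (Groth.Agent.S0998.result (punct fs).ι _ (isQCohD_restrictD (punct fs).ι E hE))
    have hGE : C.IsGE a := by
      rw [DerivedCategory.isGE_iff]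
      intro i hi
      refine isZero_HD_of_orth_at fs C hC hU i fun φ => ?_
      exact cone_hom _ hT _ i (i + 1) rfl (H (i + 1) (by omega)) (fun ψ => hR (-i) ψ) φ
    exact (DerivedCategory.TStructure.t : TStructure (DCoh.D (Spec (CommRingCat.of A)))).isIso₁_truncLE_map_of_isGE
      _ hT (a - 1) a (by omega) hGE
  · intro hiso n hn φ
    have hK := isLE_tildeD_koszul fs
    have hKn : (((DCoh.tildeD (CommRingCat.of A)).obj
        (DerivedCategory.Q.obj (Koszul.koszul A fs)))⟦-n⟧).IsLE (a - 1) := by
      have h1 := (DerivedCategory.TStructure.t : TStructure (DCoh.D (Spec (CommRingCat.of A)))).isLE_shift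
        ((DCoh.tildeD (CommRingCat.of A)).obj (DerivedCategory.Q.obj (Koszul.koszul A fs)))
        0 (-n) n (by omega)
      exact (DerivedCategory.TStructure.t : TStructure (DCoh.D (Spec (CommRingCat.of A)))).isLE_of_le
        _ n (a - 1) hn
    exact eq_zero_of_isIso_truncLE _ (adj.unit.app E) (a - 1) hiso hKn (fun ψ => hR (-n) ψ) φ

end Groth.Agent.S1095
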