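import Groth.Statements.S1096
import Groth.Agent.Old.H5.KosTrunc

set_option autoImplicit false
universe u
open CategoryTheory CategoryTheory.Limits AlgebraicGeometry Opposite
attribute [local instance] HasDerivedCategory.standard
open Perf

namespace Groth.Agent.S1096

/-- Let A be a ring, f₁, …, f_r ∈ A, X = Spec A, j : U ⟶ X the inclusion of the complement of V(f₁, …,
f_r), K the object of D(O_X) attached to the Koszul complex on f₁, …, f_r (in degrees −r, …, 0), E
an object of D(O_X) with quasi-coherent cohomology sheaves, and a ∈ ℤ; the adjunction j^* ⊣ Rj_* is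
given as data, with unit the canonical map E ⟶ Rj_*(E|_U). Then: if every morphism K[−n] ⟶ E with n
≥ a vanishes, τ_{≥ a} of the unit at E is an isomorphism; and if τ_{≥ a} of the unit at E is an
isomorphism, then every morphism K[−n] ⟶ E with n ≥ a + r vanishes, where r is the length of the
list (f₁, …, f_r). (The published statement gives the second clause with the bound a + 1 in place of
a + r. For r ≥ 2 that is false, e.g. for A = k[x, y], (f₁, f₂) = (x, y) and E the residue field k =
A/(x, y) placed in degree a − 1; the bound a + r is true and sharp.) -/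
theorem result (A : Type u) [CommRing A] (fs : List A) [PreservesFiniteLimits (tilde.functor (CommRingCat.of A))]
    [PreservesFiniteLimits (Scheme.Modules.restrictFunctor (LocCoh.puncturedOpen A (Ideal.span {a | a ∈ fs})).ι)] [DCoh.HasRpush (LocCoh.puncturedOpen A (Ideal.span {a | a ∈ fs})).ι]
    (adj : DCoh.restrictD (LocCoh.puncturedOpen A (Ideal.span {a | a ∈ fs})).ι ⊣ DCoh.Rpush (LocCoh.puncturedOpen A (Ideal.span {a | a ∈ fs})).ι)
    (E : DCoh.D (Spec (CommRingCat.of A))) (hE : DCoh.IsQCohD E) (a : ℤ) :
    ((∀ n : ℤ, a ≤ n → ∀ φ : ((DCoh.tildeD (CommRingCat.of A)).obj (DerivedCategory.Q.obj (Koszul.koszul A fs)))⟦-n⟧ ⟶ E, φ = 0) →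
      IsIso (((DerivedCategory.TStructure.t : CategoryTheory.Triangulated.TStructure (DCoh.D (Spec (CommRingCat.of A)))).truncGE a).map (adj.unit.app E))) ∧
    (IsIso (((DerivedCategory.TStructure.t : CategoryTheory.Triangulated.TStructure (DCoh.D (Spec (CommRingCat.of A)))).truncGE a).map (adj.unit.app E)) →
      ∀ n : ℤ, a + (fs.length : ℤ) ≤ n → ∀ φ : ((DCoh.tildeD (CommRingCat.of A)).obj (DerivedCategory.Q.obj (Koszul.koszul A fs)))⟦-n⟧ ⟶ E, φ = 0) := by
  exact Groth.Agent.Old.H5.KosTrunc.main_GE fs adj E hE a

end Groth.Agent.S1096
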