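import Groth.Statements.S1166
import Groth.Agent.Picfga.HilbSep

set_option autoImplicit false
open CategoryTheory CategoryTheory.Limits AlgebraicGeometry
universe u
open HilbD

namespace Groth.Agent.S1166

/-- Let f : X ⟶ S be a separated morphism of schemes and d a natural number such that any d points of X
lying in one fibre of f are contained in a common affine open of X. Then the Hilbert functor of
points of degree d of X over S is representable by a scheme. The published statement omits
separatedness of X ⟶ S; as published it fails for d = 1 (the hypothesis then always holds, but for
Spec ℤ doubled along D(2) over Spec ℤ the functor Hilb¹, i.e. sections with closed image, is not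
representable by a scheme), and only the separated case is stated here. For d ≥ 2 the hypothesis
already forces X ⟶ S to be separated, so the added assumption matters only for d = 1. -/
theorem result {X S : Scheme.{u}} (f : X ⟶ S) [IsSeparated f] (d : ℕ)
    (h : ∀ (s : S) (x : Fin d → X), (∀ i, f.base (x i) = s) → ∃ U : X.Opens, IsAffineOpen U ∧ ∀ i, x i ∈ U) :
    HilbD.Representable f d := by
  exact Groth.Agent.Picfga.HilbSep.representable_of_isSeparated f d h

end Groth.Agent.S1166
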