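import Groth.Statements.S1179
-- import your own Groth.Agent.* helpers here
import Groth.Agent.Desc.SourceLocal
import Groth.Agent.Desc.SourceCover
import Groth.Agent.Desc.EtaleSource
import Mathlib.AlgebraicGeometry.Morphisms.UniversallyOpen

set_option autoImplicit false
open CategoryTheory CategoryTheory.Limits AlgebraicGeometry Opposite
universe u
open Desc

namespace Groth.Agent.S1179

/-- Let f : X' ⟶ X be etale and surjective and g : X ⟶ Y a morphism. If f ≫ g is locally quasi-finite,
then g is locally quasi-finite; with stability under precomposition by etale maps this says that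
local quasi-finiteness is etale local on the source. -/
theorem result {X' X Y : Scheme.{u}} (f : X' ⟶ X) (g : X ⟶ Y) [Etale f] [Surjective f]
    [LocallyQuasiFinite (f ≫ g)] [LocallyOfFiniteType (f ≫ g)] : LocallyQuasiFinite g ∧ LocallyOfFiniteType g := by
  have hopen : IsOpenMap f.base := f.isOpenMap
  refine ⟨Groth.Agent.Desc.SourceLocal.locallyQuasiFinite_of_comp f g, ?_⟩
  refine Groth.Agent.Desc.SourceCover.of_open_cover_source (P := @LocallyOfFiniteType)
    (P' := @Etale) (RingHom.finiteType_stableUnderComposition
      |>.stableUnderCompositionWithLocalizationAway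
        RingHom.finiteType_holdsForLocalizationAway).1 f g inferInstance hopen
    inferInstance ?_
  intro A B C _ _ _ φ ψ hψ hs h
  algebraize [φ, ψ, ψ.comp φ]
  have : Module.FaithfullyFlat B C := Module.FaithfullyFlat.of_comap_surjective hs
  exact Groth.Agent.Desc.EtaleSource.finiteType_of_etale_faithfullyFlat A B C

end Groth.Agent.S1179
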