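import Groth.Statements.S1255
import Groth.Agent.S1217
import Groth.Agent.S1221
import Groth.Agent.Flat2B.EtAss
import Groth.Agent.Flat2B.FlatDim

set_option autoImplicit false
universe u
open FlatMor

namespace Groth.Agent.S1255

open TensorProduct Flat2A.FiberAss Flat2A.Fiber Flat2A.AssBaseChange Flat2B.EtaleNhd

/-- The associated prime `P` of the fibre module of `NT` over `t'` lifts to an associated prime of the fibre module
of a base change `D` (`BT → D` étale, a pushout of `BA → B'`) lying over `P` when `P ∩ BA` is in the image of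
`Spec B'`. -/
theorem lift_ass {T BA B' BT D NT ND : Type u} [CommRing T] [CommRing BA] [CommRing B'] [CommRing BT] [CommRing D]
    [Algebra BA B'] [Algebra BA BT] [Algebra BA D] [Algebra B' D] [Algebra BT D] [IsScalarTower BA B' D]
    [IsScalarTower BA BT D] [Algebra.IsPushout BA BT B' D]
    [Algebra T BT] [Algebra T D] [IsScalarTower T BT D]
    [Algebra.FiniteType T BT] [Algebra.Etale BA B']
    [AddCommGroup NT] [Module BT NT] [Module T NT] [IsScalarTower T BT NT]
    [AddCommGroup ND] [Module D ND] [Module BT ND] [Module T ND] [IsScalarTower BT D ND] [IsScalarTower T D ND]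
    (g : NT →ₗ[BT] ND) (hg : IsBaseChange D g)
    (t' : Ideal T) [t'.IsPrime] (P : Ideal BT) (hP : P ∈ associatedPrimes BT (FlatCA.fiberMod t' BT NT))
    (Q' : Ideal B') [Q'.IsPrime] (hQ : Q'.comap (algebraMap BA B') = P.comap (algebraMap BA BT)) :
    ∃ P' ∈ associatedPrimes D (FlatCA.fiberMod t' D ND), P'.comap (algebraMap BT D) = P := by
  have hPp : P.IsPrime := hP.1
  let Q := P.comap (algebraMap BA BT)
  have h1 : P.LiesOver Q := ⟨rfl⟩
  have h2 : Q'.LiesOver Q := ⟨hQ.symm⟩
  obtain ⟨P', hP', h3, h4⟩ := exists_prime_of_isPushout (R := BA) (S := BT) (R' := B') (S' := D) Q P Q'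
  have hD : Algebra.Etale BT D := by
    have : Algebra.IsPushout BA B' BT D := Algebra.IsPushout.symm inferInstance
    exact Flat2B.BCTools.etale_of_isPushout BA B' BT D
  have hft : Algebra.FiniteType T D := Algebra.FiniteType.trans (S := BT) inferInstance inferInstance
  refine ⟨P', ?_, h3.over.symm⟩
  refine Flat2B.EtAss.mem_of_etale t' g hg ?_
  have : P'.comap (algebraMap BT D) = P := h3.over.symm
  rw [this]
  exact hP

section

attribute [local instance] Algebra.TensorProduct.rightAlgebra

/-- Purity of the pullback `N'` to an étale `B'` over `BA` and the covering of the relatively associated primes imply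
purity. -/
theorem isPureAlong_of_cover {A' BA B' NA N' : Type u} [CommRing A'] [CommRing BA] [CommRing B'] [Algebra A' BA]
    [Algebra A' B'] [Algebra BA B'] [IsScalarTower A' BA B'] [Algebra.FiniteType A' BA] [Algebra.Etale BA B']
    [AddCommGroup NA] [Module BA NA] [Module A' NA] [IsScalarTower A' BA NA]
    [AddCommGroup N'] [Module B' N'] [Module BA N'] [IsScalarTower BA B' N']
    (h : NA →ₗ[BA] N') (hh : IsBaseChange B' h) (p' : Ideal A') [p'.IsPrime]
    (hpure : FlatCA.IsPureAlong A' B' N' p')
    (hall : ∀ (t' : Ideal A') [t'.IsPrime], t' ≤ p' → ∀ (Q : Ideal BA) [Q.IsPrime], Q.LiesOver t' →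
        FlatCA.fiberIdeal t' Q ∈ associatedPrimes (t'.Fiber BA) (FlatCA.fiberMod t' BA NA) →
        ∃ Q' : Ideal B', Q'.IsPrime ∧ Q'.comap (algebraMap BA B') = Q) :
    FlatCA.IsPureAlong A' BA NA p' := by
  intro T BT NT _ _ _ _ _ _ _ _ _ _ _ _ _ _ f₂ t' t _ _ P _ hetT ⟨hpo, hbc, hle, htp', hPt', hass, hno⟩
  have hftT : Algebra.FiniteType T BT := Flat2B.RelAss.finiteType_of_isPushout (A₁ := A') (B₁ := BA)
  have hetT' := etale hetT
  have htp := liesOver hetT
  -- the prime below `P`
  let s : Ideal A' := t'.under A'
  have hs : s.IsPrime := inferInstance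
  have hst : t'.LiesOver s := ⟨rfl⟩
  have hsle : s ≤ p' := by
    rw [htp.over]
    exact Ideal.comap_mono hle
  have hP : P ∈ associatedPrimes BT (FlatCA.fiberMod t' BT NT) :=
    (mem_associatedPrimes_fiberMod_iff t' NT P).mpr ⟨inferInstance, hPt', hass⟩
  have hn1 : IsNoetherianRing (s.Fiber BA) := fiber_isNoetherianRing s
  have hn2 : IsNoetherianRing (t'.Fiber BT) := fiber_isNoetherianRing t'
  have hQ := comap_mem_ass_fiberMod s t' f₂ hbc P hP
  obtain ⟨h3, h4, h5⟩ := (mem_associatedPrimes_fiberMod_iff s NA _).mp hQ
  obtain ⟨Q', hQ'p, hQ'⟩ := hall s hsle (P.comap (algebraMap BA BT)) h4 h5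
  -- the ring `D`
  let D : Type u := BT ⊗[BA] B'
  have hpo1 : Algebra.IsPushout BA BT B' D := inferInstance
  have hpo2 : Algebra.IsPushout BA B' BT D := hpo1.symm
  have hs1 : IsScalarTower A' BT D := inferInstance
  have hs2 : IsScalarTower A' BA D := inferInstance
  have hs3 : IsScalarTower A' B' D := IsScalarTower.of_algebraMap_eq' (by
    rw [IsScalarTower.algebraMap_eq A' BA B', ← RingHom.comp_assoc, ← IsScalarTower.algebraMap_eq BA B' D,
      ← IsScalarTower.algebraMap_eq A' BA D])
  have hs4 : IsScalarTower T BT D := inferInstance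
  have hs5 : IsScalarTower A' T D := inferInstance
  have hpo3 : Algebra.IsPushout A' B' T D :=
    (Algebra.IsPushout.comp_iff A' BA T BT (T := B') (T' := D)).mpr hpo2
  -- modules
  let ND : Type u := D ⊗[B'] N'
  let f₃ : N' →ₗ[B'] ND := TensorProduct.mk B' D N' 1
  have hf₃ : IsBaseChange D f₃ := TensorProduct.isBaseChange _ _ _
  have m3 : IsScalarTower BA B' ND := inferInstance
  have m4 : IsScalarTower BA D ND := inferInstance
  have m5 : IsScalarTower BT D ND := inferInstance
  have m6 : IsScalarTower BA BT ND := inferInstance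
  have m7 : IsScalarTower T D ND := inferInstance
  let g : NT →ₗ[BT] ND := hbc.lift ((f₃.restrictScalars BA) ∘ₗ h)
  have hg : IsBaseChange D g := by
    refine IsBaseChange.of_comp hbc ?_
    rw [hbc.lift_comp]
    exact IsBaseChange.comp hh hf₃
  obtain ⟨P', hP', hP'P⟩ := lift_ass (T := T) (BA := BA) (B' := B') (BT := BT) (D := D) g hg t' P hP Q' hQ'
  obtain ⟨k1, k2, k3⟩ := (mem_associatedPrimes_fiberMod_iff t' ND P').mp hP'
  refine hpure T D ND f₃ t' t P' hetT ⟨hpo3, hf₃, hle, htp', k2, k3, ?_⟩
  intro P'' _ hPP'' hover
  refine hno (P''.comap (algebraMap BT D)) ?_ ?_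
  · rw [← hP'P]
    exact Ideal.comap_mono hPP''
  · constructor
    rw [Ideal.under_def, Ideal.comap_comap, ← IsScalarTower.algebraMap_eq T BT D]
    exact hover.over

end

/-- Ring form, all schemes affine: let B be an A-algebra of finite type, N a finite B-module and p a
prime of A such that N is flat over A at every prime of B over p. Let (A, p) → (A', p') be an
elementary étale ring map and B' an étale B-algebra which is compatibly an A'-algebra of finite
type, with base change N' of N to B', such that N' is pure along the fibre over p' and every prime q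
of B over p whose extension to the fibre ring over p is an associated prime of the fibre module of N
is the contraction of a prime of B' lying over p'. Let B_{A'} and N_{A'} be the base changes of B
and N to A' (any models), with the induced map B_{A'} → B'. Then N is pure along the fibre over p if
and only if: for every prime t' ⊆ p' of A' and every prime Q of B_{A'} over t' whose extension to
the fibre ring over t' is an associated prime of the fibre module of N_{A'}, Q is the contraction of
a prime of B'. (The published statement asks in its covering hypothesis only that the image of Spec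
B' in Spec B contain the associated primes of the fibre module of N over p, without requiring the
covering primes of B' to lie over p'. That is not enough when Spec A' has a second point over p —
with Spec A' = Spec A ⊔ Spec A and Spec B' over the other copy the "only if" fails — so the
hypothesis is stated here in the stronger form: the covering primes of B' lie over p'.) -/
theorem result {A B : Type u} [CommRing A] [CommRing B] [Algebra A B] [Algebra.FiniteType A B]
    (N : Type u) [AddCommGroup N] [Module B N] [Module A N] [IsScalarTower A B N] [Module.Finite B N] (p : Ideal A) [p.IsPrime]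
    (hflat : ∀ (q : Ideal B) [q.IsPrime], q.LiesOver p → FlatCA.FlatAt A q N)
    (A' : Type u) [CommRing A'] [Algebra A A'] (p' : Ideal A') [p'.IsPrime] (het : FlatCA.IsEtaleNhd A A' p p')
    (B' : Type u) [CommRing B'] [Algebra B B'] [Algebra A' B'] [Algebra A B'] [IsScalarTower A B B'] [IsScalarTower A A' B']
    [Algebra.Etale B B'] [Algebra.FiniteType A' B']
    (N' : Type u) [AddCommGroup N'] [Module B' N'] [Module B N'] [IsScalarTower B B' N'] [Module A' N'] [IsScalarTower A' B' N']
    (f : N →ₗ[B] N') (hf : IsBaseChange B' f)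
    (hpure : FlatCA.IsPureAlong A' B' N' p')
    (hcov : ∀ (q : Ideal B) [q.IsPrime], q.LiesOver p →
      FlatCA.fiberIdeal p q ∈ associatedPrimes (p.Fiber B) (FlatCA.fiberMod p B N) →
      ∃ q' : Ideal B', q'.IsPrime ∧ q'.comap (algebraMap B B') = q ∧ q'.comap (algebraMap A' B') = p')
    (BA NA : Type u) [CommRing BA] [Algebra B BA] [Algebra A' BA] [Algebra A BA] [IsScalarTower A B BA] [IsScalarTower A A' BA]
    [Algebra.IsPushout A B A' BA] [Algebra BA B'] [IsScalarTower B BA B'] [IsScalarTower A' BA B']
    [AddCommGroup NA] [Module BA NA] [Module B NA] [IsScalarTower B BA NA] [Module A' NA] [IsScalarTower A' BA NA]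
    (fA : N →ₗ[B] NA) (hfA : IsBaseChange BA fA) :
    FlatCA.IsPureAlong A B N p ↔
      ∀ (t' : Ideal A') [t'.IsPrime], t' ≤ p' → ∀ (Q : Ideal BA) [Q.IsPrime], Q.LiesOver t' →
        FlatCA.fiberIdeal t' Q ∈ associatedPrimes (t'.Fiber BA) (FlatCA.fiberMod t' BA NA) →
        ∃ Q' : Ideal B', Q'.IsPrime ∧ Q'.comap (algebraMap BA B') = Q := by
  have hetA : Algebra.Etale A A' := etale het
  have hp'p : p'.LiesOver p := liesOver het
  have hftBA : Algebra.FiniteType A' BA := Flat2B.RelAss.finiteType_of_isPushout (A₁ := A) (B₁ := B)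
  have hetB : Algebra.Etale B BA := by
    have := Algebra.Etale.baseChange A A' B
    exact Algebra.Etale.of_equiv (Algebra.IsPushout.equiv A B A' BA)
  have hetBA : Algebra.Etale BA B' := Algebra.Etale.of_restrictScalars B BA B'
  have hfinNA : Module.Finite BA NA := Module.Finite.equiv hfA.equiv
  constructor
  · intro hpureA t' _ hle Q _ hQt hass
    -- purity along `p` gives a specialization of `Q` over `p'`
    have hex : ∃ P' : Ideal BA, P'.IsPrime ∧ Q ≤ P' ∧ P'.LiesOver p' := by
      by_contra hcon
      refine hpureA A' BA NA fA t' p' Q het ⟨inferInstance, hfA, hle, hp'p, hQt, hass, ?_⟩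
      intro P' hP' h1 h2
      exact hcon ⟨P', hP', h1, h2⟩
    have hflA : ∀ (q : Ideal BA) [q.IsPrime], q.LiesOver p' → FlatCA.FlatAt A' q NA := by
      intro q _ hq
      have h1 : q.LiesOver (q.under B) := ⟨rfl⟩
      have h2 : (q.under B).LiesOver p := by
        constructor
        rw [hp'p.over, hq.over, Ideal.under_under, Ideal.under_under]
      exact Flat2B.FlatDim.flatAt_baseChange (A₁ := A) (B₁ := B) (A₂ := A') (B₂ := BA) fA hfA (q.under B) q
        (hflat (q.under B) h2)
    obtain ⟨q, hq, hQq, hqp', hqass⟩ := S1221.result NA p' hflA t' hle Q hass hex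
    have hq1 : q ∈ associatedPrimes BA (FlatCA.fiberMod p' BA NA) :=
      (mem_associatedPrimes_fiberMod_iff p' NA q).mpr ⟨hq, hqp', hqass⟩
    have hn1 : IsNoetherianRing (p.Fiber B) := fiber_isNoetherianRing p
    have hn2 : IsNoetherianRing (p'.Fiber BA) := fiber_isNoetherianRing p'
    have hq2 := comap_mem_ass_fiberMod p p' fA hfA q hq1
    obtain ⟨hq3, hq4, hq5⟩ := (mem_associatedPrimes_fiberMod_iff p N _).mp hq2
    obtain ⟨q', hq', h6, h7⟩ := hcov _ hq4 hq5
    have h8 : q'.comap (algebraMap BA B') = q := by
      have i1 : (q'.comap (algebraMap BA B')).LiesOver p' := by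
        constructor
        rw [Ideal.under_def, Ideal.comap_comap, ← IsScalarTower.algebraMap_eq A' BA B']
        exact h7.symm
      have i2 : (q'.comap (algebraMap BA B')).LiesOver (q.comap (algebraMap B BA)) := by
        constructor
        rw [Ideal.under_def, Ideal.comap_comap, ← IsScalarTower.algebraMap_eq B BA B']
        exact h6.symm
      have i3 : q.LiesOver (q.comap (algebraMap B BA)) := ⟨rfl⟩
      exact (resTriv het).pushout_unique (S := B) (S' := BA) (q := q.comap (algebraMap B BA))
    have h9 : q'.LiesOver q := ⟨h8.symm⟩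
    obtain ⟨Q', -, hQ', hQ'2⟩ := Ideal.exists_ideal_le_liesOver_of_le (R := BA) (p := Q) (q := q) q' hQq
    exact ⟨Q', hQ', hQ'2.over.symm⟩
  · intro hall
    have hflp' : Module.Flat A (Localization.AtPrime p') := Module.Flat.trans A A' (Localization.AtPrime p')
    refine (S1217.result N p A' BA NA fA hfA p').1 ?_
    let iBAN' : Module BA N' := Module.compHom N' (algebraMap BA B')
    have m1 : IsScalarTower BA B' N' := IsScalarTower.of_compHom _ _ _
    have m2 : IsScalarTower B BA N' := by
      refine IsScalarTower.of_algebraMap_smul ?_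
      intro r x
      rw [← algebraMap_smul B' (algebraMap B BA r) x, ← IsScalarTower.algebraMap_apply B BA B', algebraMap_smul]
    let h : NA →ₗ[BA] N' := hfA.lift f
    have hh : IsBaseChange B' h := by
      refine IsBaseChange.of_comp hfA ?_
      rw [hfA.lift_comp]
      exact hf
    exact isPureAlong_of_cover h hh p' hpure hall

end Groth.Agent.S1255
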