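import Groth.Statements.S1374
import Groth.Agent.Old.H8.General
import Mathlib.AlgebraicGeometry.AffineScheme

set_option autoImplicit false
universe u
open FlatMor

namespace Groth.Agent.S1374

open AlgebraicGeometry CategoryTheory Limits in
/-- Topological data of an affine chart. -/
theorem exists_chart {X S : Scheme.{u}} (f : X ⟶ S) (U : X.Opens) (V : S.Opens)
    (hU : IsAffineOpen U) (hV : IsAffineOpen V) (hUV : U ≤ f ⁻¹ᵁ V) :
    ∃ (a : PrimeSpectrum Γ(X, U) → X) (b : PrimeSpectrum Γ(S, V) → S),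
      Topology.IsOpenEmbedding a ∧ Topology.IsOpenEmbedding b ∧ Set.range a = U ∧
      ∀ y, f (a y) = b (PrimeSpectrum.comap (f.appLE V U hUV).hom y) := by
  refine ⟨fun y => hU.fromSpec y, fun y => hV.fromSpec y, hU.fromSpec.isOpenEmbedding,
    hV.fromSpec.isOpenEmbedding, hU.range_fromSpec, ?_⟩
  intro y
  have h1 := hV.SpecMap_appLE_fromSpec f hU hUV
  have h2 : (hU.fromSpec ≫ f) y = (Spec.map (f.appLE V U hUV) ≫ hV.fromSpec) y := by rw [h1]
  exact h2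

open AlgebraicGeometry CategoryTheory Limits in
/-- Let f : X ⟶ S be locally of finite type and x ⤳ x' a specialization of points of X, with x' a closed
point of its fibre f⁻¹(f(x')) and f(x) ≠ f(x'). Then the points x₁ with f(x₁) = f(x) which are
closed in the fibre f⁻¹(f(x)) and satisfy x ⤳ x₁ ⤳ x' are dense in the closure of {x} intersected
with the fibre f⁻¹(f(x)) (fibres taken as subspaces of X). (The published statement omits the
condition f(x) ≠ f(x'), but the claim fails without it; it is stated here with that condition.) -/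
theorem result {X S : Scheme.{u}} (f : X ⟶ S) [LocallyOfFiniteType f] (x x' : X) (hsp : x ⤳ x') (hne : f x ≠ f x')
    (hcl : IsClosed (Subtype.val ⁻¹' {x'} : Set ↑(f ⁻¹' {f x'}))) :
    Dense (Subtype.val ⁻¹' {x₁ : ↑X | f x₁ = f x ∧ IsClosed (Subtype.val ⁻¹' {x₁} : Set ↑(f ⁻¹' {f x})) ∧ x ⤳ x₁ ∧ x₁ ⤳ x'} :
      Set ↑(closure {x} ∩ f ⁻¹' {f x})) := by
  obtain ⟨V, hV, hx'V, -⟩ := exists_isAffineOpen_mem_and_subset (X := S) (x := f x') (U := ⊤) trivial
  obtain ⟨U, hU, hx'U, hUV⟩ := exists_isAffineOpen_mem_and_subset (X := X) (x := x') (U := f ⁻¹ᵁ V)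
    hx'V
  have hft : (f.appLE V U hUV).hom.FiniteType := f.finiteType_appLE hV hU hUV
  obtain ⟨a, b, ha, hb, harange, hsq⟩ := exists_chart f U V hU hV hUV
  generalize hφ : (f.appLE V U hUV).hom = φ at hft hsq
  algebraize [φ]
  have hxU : x ∈ U := hsp.mem_open U.2 hx'U
  -- the square
  have hcomap : ∀ y z : PrimeSpectrum Γ(X, U), f (a y) = f (a z) ↔
      y.asIdeal.comap (algebraMap Γ(S, V) Γ(X, U)) =
        z.asIdeal.comap (algebraMap Γ(S, V) Γ(X, U)) := by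
    intro y z
    rw [hsq, hsq, hb.injective.eq_iff, PrimeSpectrum.ext_iff]
    rfl
  have hspec : ∀ y z : PrimeSpectrum Γ(X, U), a y ⤳ a z ↔ y.asIdeal ≤ z.asIdeal := by
    intro y z
    rw [ha.isInducing.specializes_iff, ← PrimeSpectrum.le_iff_specializes]
    rfl
  have hsurj : ∀ y : X, y ∈ U → ∃ z : PrimeSpectrum Γ(X, U), a z = y := by
    intro y hy
    have : y ∈ Set.range a := harange ▸ hy
    exact this
  obtain ⟨q, hq⟩ := hsurj x hxU
  obtain ⟨q', hq'⟩ := hsurj x' hx'U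
  subst hq hq'
  have hqq' : q.asIdeal ≤ q'.asIdeal := (hspec _ _).mp hsp
  have hne' : q.asIdeal.comap (algebraMap Γ(S, V) Γ(X, U)) ≠
      q'.asIdeal.comap (algebraMap Γ(S, V) Γ(X, U)) := fun h => hne ((hcomap _ _).mpr h)
  have hcl' : ∀ Q : Ideal Γ(X, U), Q.IsPrime → q'.asIdeal ≤ Q →
      Q.comap (algebraMap Γ(S, V) Γ(X, U)) = q'.asIdeal.comap (algebraMap Γ(S, V) Γ(X, U)) →
        Q = q'.asIdeal := by
    intro Q hQ hle hQc
    have h1 : f (a ⟨Q, hQ⟩) = f (a q') := (hcomap _ _).mpr hQc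
    have h2 : a q' ⤳ a ⟨Q, hQ⟩ := (hspec _ _).mpr hle
    have h3 : (⟨a q', rfl⟩ : ↑(f ⁻¹' {f (a q')})) ⤳ ⟨a ⟨Q, hQ⟩, h1⟩ :=
      Topology.IsInducing.subtypeVal.specializes_iff.mp h2
    have h4 := h3.mem_closed hcl rfl
    have h5 : a ⟨Q, hQ⟩ = a q' := h4
    exact congrArg PrimeSpectrum.asIdeal (ha.injective h5)
  rw [dense_iff_inter_open]
  rintro W ⟨W', hW', rfl⟩ ⟨⟨z, hz1, hz2⟩, hz3⟩
  have hxz : a q ⤳ z := specializes_iff_mem_closure.mpr hz1
  have hxW : a q ∈ W' := hxz.mem_open hW' hz3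
  obtain ⟨_, ⟨h, rfl⟩, hqh, hhW⟩ :=
    PrimeSpectrum.isTopologicalBasis_basic_opens.exists_subset_of_mem_open
      (show q ∈ a ⁻¹' W' from hxW) (hW'.preimage ha.continuous)
  obtain ⟨q₁, hq₁p, hqq₁, hq₁q', hq₁c, hhq₁, hq₁cl⟩ :=
    Groth.Agent.Old.H8.General.exists_prime q.asIdeal q'.asIdeal hqq' hne' hcl' h hqh
  let x₁ : X := a ⟨q₁, hq₁p⟩
  have hfx₁ : f x₁ = f (a q) := (hcomap _ _).mpr hq₁c
  have hxx₁ : a q ⤳ x₁ := (hspec _ _).mpr hqq₁
  have hx₁x' : x₁ ⤳ a q' := (hspec _ _).mpr hq₁q'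
  have hx₁W : x₁ ∈ W' := hhW (show (⟨q₁, hq₁p⟩ : PrimeSpectrum _) ∈ _ from hhq₁)
  refine ⟨⟨x₁, specializes_iff_mem_closure.mp hxx₁, hfx₁⟩, hx₁W, hfx₁, ?_, hxx₁, hx₁x'⟩
  have hjac : JacobsonSpace ↑(f ⁻¹' {f (a q)}) :=
    JacobsonSpace.of_isOpenEmbedding (f.fiberHomeo (f (a q))).symm.isOpenEmbedding
  have hset : (Subtype.val ⁻¹' {x₁} : Set ↑(f ⁻¹' {f (a q)})) = {⟨x₁, hfx₁⟩} := by
    ext w
    simp only [Set.mem_preimage, Set.mem_singleton_iff]
    exact ⟨fun h => Subtype.ext h, fun h => congrArg Subtype.val h⟩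
  rw [hset]
  apply isClosed_singleton_of_isLocallyClosed_singleton
  have hlc : ({⟨x₁, hfx₁⟩} : Set ↑(f ⁻¹' {f (a q)})) =
      (Subtype.val ⁻¹' (U : Set X)) ∩ closure {⟨x₁, hfx₁⟩} := by
    ext w
    constructor
    · rintro rfl
      refine ⟨?_, subset_closure rfl⟩
      change x₁ ∈ (U : Set X)
      rw [← harange]
      exact ⟨_, rfl⟩
    · rintro ⟨hwU, hwcl⟩
      obtain ⟨Q, hQ⟩ := hsurj w.1 hwU
      have h1 : (⟨x₁, hfx₁⟩ : ↑(f ⁻¹' {f (a q)})) ⤳ w := specializes_iff_mem_closure.mpr hwcl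
      have h2 : x₁ ⤳ w.1 := h1.map continuous_subtype_val
      have h3 : f w.1 = f (a q) := w.2
      rw [← hQ] at h2 h3
      have h4 := hq₁cl Q.asIdeal Q.isPrime ((hspec _ _).mp h2) ((hcomap _ _).mp h3)
      apply Subtype.ext
      rw [← hQ]
      exact congrArg a (PrimeSpectrum.ext h4)
  rw [hlc]
  exact (U.2.preimage continuous_subtype_val).isLocallyClosed.inter isClosed_closure.isLocallyClosed

end Groth.Agent.S1374
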