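import Groth.Statements.S1377
import Mathlib.AlgebraicGeometry.Normalization
import Mathlib.AlgebraicGeometry.Limits
import Mathlib.AlgebraicGeometry.IdealSheaf.Subscheme

set_option autoImplicit false
universe u
open FlatMor

namespace Groth.Agent.S1377

open AlgebraicGeometry CategoryTheory Limits in
theorem isPullback_normalization {S V : Scheme.{u}} (U : S.Opens) [QuasiCompact U.ι]
    (v : V ⟶ (U : Scheme.{u})) [IsIntegralHom v] :
    IsPullback (v ≫ U.ι).toNormalization v (v ≫ U.ι).fromNormalization U.ι := by
  set f := v ≫ U.ι with hf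
  have hpb : IsPullback (𝟙 V) v f U.ι := by
    refine ⟨⟨by simp [hf]⟩, ⟨PullbackCone.IsLimit.mk _ (fun s => s.fst) (fun s => by simp)
      (fun s => ?_) (fun s m h₁ h₂ => ?_)⟩⟩
    · rw [← cancel_mono U.ι, Category.assoc, ← hf]
      exact s.condition
    · simpa using h₁
  let e : V ≅ pullback f U.ι := hpb.isoPullback
  have he1 : e.hom ≫ pullback.fst f U.ι = 𝟙 V := hpb.isoPullback_hom_fst
  have he2 : e.hom ≫ pullback.snd f U.ι = v := hpb.isoPullback_hom_snd
  have hint : IsIntegralHom (pullback.snd f U.ι) := by
    have : pullback.snd f U.ι = e.inv ≫ v := by rw [← he2, Iso.inv_hom_id_assoc]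
    rw [this]; infer_instance
  let φ : V ≅ pullback f.fromNormalization U.ι :=
    e ≪≫ asIso (pullback.snd f U.ι).toNormalization ≪≫ asIso (f.normalizationPullback U.ι)
  have h1 : φ.hom ≫ pullback.fst _ _ = f.toNormalization := by
    simp only [φ, Iso.trans_hom, asIso_hom, Category.assoc]
    rw [Scheme.Hom.toNormalization_normalizationPullback_fst, ← Category.assoc, he1,
      Category.id_comp]
  have h2 : φ.hom ≫ pullback.snd _ _ = v := by
    simp only [φ, Iso.trans_hom, asIso_hom, Category.assoc]
    rw [Scheme.Hom.normalizationPullback_snd, Scheme.Hom.toNormalization_fromNormalization, he2]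
  exact IsPullback.of_iso_pullback ⟨by rw [Scheme.Hom.toNormalization_fromNormalization]⟩ φ h1 h2

open AlgebraicGeometry CategoryTheory Limits in
/-- Let S be a scheme, U ⊆ S an open subscheme whose inclusion U → S is quasi-compact (U retrocompact in
S), and V → U a surjective integral morphism. Then there are a scheme V' and a surjective integral
morphism V' → S whose base change to U is V → U. (The published statement puts no condition on U,
and in that generality it is false: e.g. S = Spec ∏_i ℤ/4^i with U = D(2) ∪ ⋃_i D(e_i), e_i the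
idempotents, and V equal to U except that over D(2) it is cut out by x = (2^i)_i. Stated here with U
→ S quasi-compact, under which hypothesis the published argument applies.) -/
theorem result {S V : Scheme.{u}} (U : S.Opens) [QuasiCompact U.ι]
    (v : V ⟶ (U : Scheme.{u})) [IsIntegralHom v] [Surjective v] :
    ∃ (V' : Scheme.{u}) (π : V' ⟶ S) (i : V ⟶ V'), Surjective π ∧ IsIntegralHom π ∧ IsPullback i v π U.ι := by
  have hN := isPullback_normalization U v
  let C : TopologicalSpace.Closeds S := ⟨(U : Set S)ᶜ, U.2.isClosed_compl⟩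
  let I := Scheme.IdealSheafData.vanishingIdeal C
  let z : I.subscheme ⟶ S := I.subschemeι
  have hz : Set.range z = (U : Set S)ᶜ := by
    simp [z, I, C]
  let N := (v ≫ U.ι).normalization
  let n : N ⟶ S := (v ≫ U.ι).fromNormalization
  let π : N ⨿ I.subscheme ⟶ S := coprod.desc n z
  have : IsOpenImmersion (v ≫ U.ι).toNormalization := by
    exact MorphismProperty.of_isPullback hN.flip inferInstance
  have hinl : (coprod.inl : N ⟶ N ⨿ I.subscheme) ≫ π = n := coprod.inl_desc _ _
  have hinr : (coprod.inr : I.subscheme ⟶ N ⨿ I.subscheme) ≫ π = z := coprod.inr_desc _ _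
  have hcomp : (v ≫ U.ι).toNormalization ≫ n = v ≫ U.ι :=
    Scheme.Hom.toNormalization_fromNormalization _
  refine ⟨N ⨿ I.subscheme, π, (v ≫ U.ι).toNormalization ≫ coprod.inl, ?_, ?_, ?_⟩
  · refine ⟨fun s => ?_⟩
    by_cases hs : s ∈ U
    · obtain ⟨x, hx⟩ := v.surjective ⟨s, hs⟩
      refine ⟨(coprod.inl : N ⟶ N ⨿ I.subscheme) ((v ≫ U.ι).toNormalization x), ?_⟩
      rw [← Scheme.Hom.comp_apply, hinl, ← Scheme.Hom.comp_apply, hcomp, Scheme.Hom.comp_apply, hx]
      rfl
    · have : s ∈ Set.range z := by rw [hz]; exact hs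
      obtain ⟨y, hy⟩ := this
      refine ⟨(coprod.inr : I.subscheme ⟶ N ⨿ I.subscheme) y, ?_⟩
      rw [← Scheme.Hom.comp_apply, hinr, hy]
  · infer_instance
  · refine (IsOpenImmersion.isPullback _ _ _ _ ?_ ?_).flip
    · rw [Category.assoc, hinl, hcomp]
    · ext x
      simp only [Scheme.Opens.opensRange_ι]
      change π x ∈ U ↔ x ∈ Set.range ((v ≫ U.ι).toNormalization ≫ coprod.inl)
      constructor
      · intro hx
        obtain ⟨x | y, rfl⟩ := (coprodMk _ _).surjective x
        · rw [coprodMk_inl] at hx ⊢
          rw [← Scheme.Hom.comp_apply, hinl] at hx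
          obtain ⟨w, hw1, hw2⟩ := Scheme.exists_preimage_of_isPullback hN x ⟨n x, hx⟩ rfl
          refine ⟨w, ?_⟩
          rw [Scheme.Hom.comp_apply, hw1]
        · rw [coprodMk_inr] at hx
          rw [← Scheme.Hom.comp_apply, hinr] at hx
          have : z y ∈ (U : Set S)ᶜ := by rw [← hz]; exact ⟨y, rfl⟩
          exact absurd hx this
      · rintro ⟨w, rfl⟩
        rw [← Scheme.Hom.comp_apply, Category.assoc, hinl, hcomp, Scheme.Hom.comp_apply]
        exact (v w).2

end Groth.Agent.S1377
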