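import Groth.Statements.S1402
import Mathlib.AlgebraicGeometry.ZariskisMainTheorem

set_option autoImplicit false
universe u
open FlatMor

namespace Groth.Agent.S1402

open AlgebraicGeometry CategoryTheory Limits in
/-- A separated, locally quasi-finite morphism is ind-quasi-affine. -/
theorem result {X Y : Scheme.{u}} (f : X ⟶ Y) [IsSeparated f] [LocallyQuasiFinite f] [LocallyOfFiniteType f] :
    MoreMor.IsIndQuasiAffineHom f := by
  intro V hV U hU
  have : CompactSpace (U : Scheme.{u}) := isCompact_iff_compactSpace.1 hU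
  have : IsAffine (V : Scheme.{u}) := hV
  have hqc : QuasiCompact (U.ι ≫ f ∣_ V) := inferInstance
  have hsep : IsSeparated (U.ι ≫ f ∣_ V) := inferInstance
  have hlft : LocallyOfFiniteType (U.ι ≫ f ∣_ V) := inferInstance
  have hlqf2 : LocallyQuasiFinite (f ∣_ V) := MorphismProperty.of_isPullback (isPullback_morphismRestrict f V).flip ‹_›
  have hlqf : LocallyQuasiFinite (U.ι ≫ f ∣_ V) := inferInstance
  have : IsOpenImmersion (U.ι ≫ f ∣_ V).toNormalization := inferInstance
  have : IsAffine (U.ι ≫ f ∣_ V).normalization := isAffine_of_isAffineHom (U.ι ≫ f ∣_ V).fromNormalization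
  exact Scheme.IsQuasiAffine.of_isImmersion (U.ι ≫ f ∣_ V).toNormalization

end Groth.Agent.S1402
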