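import Groth.Statements.S1408
import Groth.Agent.Old.H11.PicTors

set_option autoImplicit false
universe u
open FlatMor

namespace Groth.Agent.S1408

open AlgebraicGeometry CategoryTheory Limits in
/-- Let i : X → X' be a thickening of schemes and n a positive integer invertible in Γ(X, 𝒪_X). Then
every invertible 𝒪_X-module whose n-th tensor power is trivial is, up to isomorphism, the pullback
along i of an invertible 𝒪_{X'}-module whose n-th tensor power is trivial; that is, Pic(X')[n] →
Pic(X)[n] is surjective. (The published statement claims this map is bijective. Injectivity is false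
in general: for a first order thickening with ideal sheaf I the kernel of Pic(X') → Pic(X) is H¹(X,
I)/δ(H⁰(X, 𝒪_X^*)), which can contain n-torsion although H¹(X, I) is uniquely n-divisible — e.g. X =
(𝔸² ∖ 0) × 𝔾_m over ℚ with coordinates x, y, t, X' the first order thickening glued from U[ε] and
V[ε], U = {x ≠ 0}, V = {y ≠ 0}, along t ↦ t(1 + ε/(xy)) on the overlap, n = 2, and the invertible
𝒪_{X'}-module with transition function 1 + ε/(2xy): its square and its restriction to X are trivial
but it is not. Only surjectivity, which the published proof does establish, is stated here.) -/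
theorem result {X X' : Scheme.{u}} (i : X ⟶ X') (hi : MoreMor.IsThickening i) (n : ℕ) (hn : 0 < n)
    (hu : IsUnit (n : Γ(X, ⊤))) :
    Set.SurjOn (PicF.pullCl i)
      {c : PicF.Cl X' | ∃ L : X'.Modules, PicF.cl L = c ∧ PicF.IsInvertible L ∧ Nonempty (CohB1.tensorPow L n ≅ Coh.structureModule X')}
      {c : PicF.Cl X | ∃ L : X.Modules, PicF.cl L = c ∧ PicF.IsInvertible L ∧ Nonempty (CohB1.tensorPow L n ≅ Coh.structureModule X)} := by
  rintro c ⟨L, rfl, hL, ⟨φ⟩⟩
  haveI := hi.1
  haveI := hi.2
  obtain ⟨M, hM, hM', ⟨ψ⟩⟩ := Groth.Agent.Old.H11.PicTors.exists_lift i n hu L hL φ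
  exact ⟨PicF.cl M, ⟨M, rfl, hM, hM'⟩, Quot.sound ⟨ψ⟩⟩

end Groth.Agent.S1408
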