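import Groth.Statements.S1415
import Groth.Agent.Old.H12.QfBound

set_option autoImplicit false
universe u
open FlatMor

namespace Groth.Agent.S1415

open AlgebraicGeometry CategoryTheory Limits in
/-- Let f : X → Y be locally quasi-finite. Then (1) for every y the number of irreducible components and
the number of connected components of the geometric fibre over y agree, and (2) if X is
quasi-compact these numbers are bounded by some natural number. -/
theorem result {X Y : Scheme.{u}} (f : X ⟶ Y) [LocallyQuasiFinite f] [LocallyOfFiniteType f] :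
    (∀ y : Y, MoreMor.nGeomIrredComp f y = MoreMor.nGeomConnComp f y) ∧
      (CompactSpace ↑X → ∃ d : ℕ, ∀ y : Y, MoreMor.nGeomConnComp f y ≤ d) := by
  refine ⟨fun y => ?_, fun hX => ?_⟩
  · obtain ⟨p, q, h⟩ := Groth.Agent.Flat2D.GeomFib.exists_isPullback_geomFiber f y
    have hq : LocallyQuasiFinite q := MorphismProperty.of_isPullback h inferInstance
    have hA : IsLocallyArtinian (MoreMor.geomFiber f y) := .of_locallyQuasiFinite q
    rw [MoreMor.nGeomIrredComp, MoreMor.nGeomConnComp,
      Groth.Agent.Old.H12.QfBound.card_connectedComponents_of_discrete,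
      Groth.Agent.Old.H12.QfBound.encard_irreducibleComponents_of_discrete]
  · obtain ⟨n, hn⟩ := Groth.Agent.Old.H12.QfBound.exists_bdd f
    refine ⟨n, fun y => ?_⟩
    obtain ⟨p, q, h⟩ := Groth.Agent.Flat2D.GeomFib.exists_isPullback_geomFiber f y
    exact (Groth.Agent.Old.H12.QfBound.card_connectedComponents_le _).trans (hn _ _ _ _ _ h)

end Groth.Agent.S1415
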