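import Groth.Statements.S1418
import Groth.Agent.Flat2F.FibreIntegral

set_option autoImplicit false
universe u
open FlatMor

namespace Groth.Agent.S1418

open AlgebraicGeometry CategoryTheory Limits in
/-- For a cartesian square with π : U → V locally quasi-finite with finite fibres, base change g : V' →
V and h : U' → U, and a function w on U, the fibre integral of w ∘ h along π' equals the fibre
integral of w along π composed with g. -/
theorem result {U V U' V' : Scheme.{u}} (π : U ⟶ V) [LocallyQuasiFinite π] [LocallyOfFiniteType π] (hfin : ∀ v : V, (π ⁻¹' {v}).Finite)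
    (π' : U' ⟶ V') (h : U' ⟶ U) (g : V' ⟶ V) (hc : IsPullback h π' π g) (w : ↑U → ℤ) (v' : V') :
    MoreMor.fibreIntegral π' (w ∘ ⇑h) v' = MoreMor.fibreIntegral π w (g v') :=
  Groth.Agent.Flat2F.FibreIntegral.fibreIntegral_baseChange π π' h g hc w v'

end Groth.Agent.S1418
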