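import Groth.Statements.S1419
import Groth.Agent.Old.H13.WeightBC

set_option autoImplicit false
universe u
open FlatMor

namespace Groth.Agent.S1419

open AlgebraicGeometry CategoryTheory Limits in
/-- Let f be locally quasi-finite with a weighting w, and let f' : X' → Y' be a base change of f with
projection h : X' → X. Then w ∘ h is a weighting of f'. -/
theorem result {X Y : Scheme.{u}} (f : X ⟶ Y) [LocallyQuasiFinite f] [LocallyOfFiniteType f] (w : ↑X → ℤ) (hw : MoreMor.IsWeighting f w)
    {X' Y' : Scheme.{u}} (f' : X' ⟶ Y') (h : X' ⟶ X) (g : Y' ⟶ Y) (hc : IsPullback h f' f g) :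
    MoreMor.IsWeighting f' (w ∘ ⇑h) :=
  Groth.Agent.Old.H13.WeightBC.isWeighting_baseChange hc hw

end Groth.Agent.S1419
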