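import Groth.Statements.S1420
import Groth.Agent.Flat2F.WeightLoc

set_option autoImplicit false
universe u
open FlatMor

namespace Groth.Agent.S1420

open AlgebraicGeometry CategoryTheory Limits
open Groth.Agent.Flat2F.FibreIntegral Groth.Agent.Flat2F.GeomPts
open Groth.Agent.Flat2F.Split Groth.Agent.Flat2F.WeightLoc

lemma exists_of_fibreIntegral_ne_zero {U V : Scheme.{u}} (π : U ⟶ V) (w : U → ℤ) (v : V)
    (h : MoreMor.fibreIntegral π w v ≠ 0) : ∃ u, π u = v := by
  by_contra hne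
  push Not at hne
  apply h
  have : IsEmpty {u : U // π u = v} := ⟨fun u => hne u.1 u.2⟩
  unfold MoreMor.fibreIntegral
  exact finsum_of_isEmpty _

/-- The image of an open neighbourhood of a point under a base change of a locally quasi-finite
morphism with a weighting, positive at the image of the point, is a neighbourhood. -/
theorem exists_nhd {X Y X' Y' : Scheme.{u}} {f : X ⟶ Y} {f' : X' ⟶ Y'} {h : X' ⟶ X} {g : Y' ⟶ Y}
    (hc : IsPullback h f' f g) [LocallyQuasiFinite f] [LocallyOfFiniteType f] {w : X → ℤ}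
    (hw : MoreMor.IsWeighting f w) (x' : X') (hpos : w (h x') ≠ 0) (U : X'.Opens) (hx' : x' ∈ U) :
    ∃ T : Y'.Opens, f' x' ∈ T ∧ ∀ y ∈ T, ∃ u ∈ U, f' u = y := by
  obtain ⟨V, e, v, he, hv, H⟩ := exists_splitOver_singleton f (h x')
  have hgv : g (f' x') = e v := by
    rw [hv, ← Scheme.Hom.comp_apply, ← hc.w, Scheme.Hom.comp_apply]
  obtain ⟨v', hv'1, hv'2⟩ := Scheme.Pullback.exists_preimage_pullback (f := g) (g := e) (f' x') v hgv
  let q : pullback g e ⟶ Y' := pullback.fst g e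
  let p : pullback g e ⟶ V := pullback.snd g e
  have hqp : q ≫ g = p ≫ e := pullback.condition
  have hq : Etale q := inferInstance
  obtain ⟨z', hz'1, hz'2⟩ := Scheme.Pullback.exists_preimage_pullback (f := f') (g := q) x' v' hv'1.symm
  let h'' : pullback f' q ⟶ X' := pullback.fst f' q
  let f'' : pullback f' q ⟶ pullback g e := pullback.snd f' q
  have hc2 : IsPullback (h'' ≫ h) f'' f (q ≫ g) := (IsPullback.of_hasPullback f' q).paste_horiz hc
  let m : pullback f' q ⟶ pullback f e := pullback.lift (h'' ≫ h) (f'' ≫ p) (by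
    rw [hc2.w, Category.assoc, hqp])
  have hm : IsPullback m f'' (pullback.snd f e) p := by
    refine IsPullback.of_right (h₁₂ := pullback.fst f e) (v₁₃ := f) (h₂₂ := e) ?_
      (pullback.lift_snd _ _ _) (IsPullback.of_hasPullback _ _)
    rw [pullback.lift_fst, ← hqp]
    exact hc2
  have hmf : pullback.fst f e (m z') = h x' := by
    rw [← Scheme.Hom.comp_apply, pullback.lift_fst, Scheme.Hom.comp_apply, hz'1]
  have hms : pullback.snd f e (m z') = v := by
    rw [← Scheme.Hom.comp_apply, pullback.lift_snd, Scheme.Hom.comp_apply, hz'2, hv'2]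
  obtain ⟨N, hzN, hfin, hu⟩ := H (m z') hmf hms
  rw [hms] at hu
  have hloc := hw V e N hfin
  have hval : MoreMor.fibreIntegral (N.ι ≫ pullback.snd f e)
      (fun u => w (pullback.fst f e (N.ι u))) v = w (h x') := by
    rw [← hmf]
    exact hu.fibreIntegral (fun z => w (pullback.fst f e z)) hzN hms
  -- the open set of `V` where the integral has the value `w (h x')`
  let T₁ : Set V := {v₁ | MoreMor.fibreIntegral (N.ι ≫ pullback.snd f e)
      (fun u => w (pullback.fst f e (N.ι u))) v₁ = w (h x')}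
  have hT₁ : IsOpen T₁ := hloc.isOpen_fiber _
  have hfin' : IsFinite ((m ⁻¹ᵁ N).ι ≫ f'') := isFinite_baseChange_ι hm N
  have hlf : LocallyQuasiFinite (N.ι ≫ pullback.snd f e) := inferInstance
  -- the closed set to be removed
  let C : Set ↥(pullback g e) := ((m ⁻¹ᵁ N).ι ≫ f'') '' ((m ⁻¹ᵁ N).ι ⁻¹' (h'' ⁻¹' (U : Set X')ᶜ))
  have hC : IsClosed C := by
    refine ((m ⁻¹ᵁ N).ι ≫ f'').isClosedMap _ ?_
    exact (U.isOpen.isClosed_compl.preimage h''.continuous).preimage (m ⁻¹ᵁ N).ι.continuous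
  have hu' : Uniq f'' v' (m ⁻¹ᵁ N) := by
    refine Uniq.baseChange hm ?_
    rwa [show p v' = v from hv'2]
  have hlf'' : LocallyQuasiFinite f'' := MorphismProperty.of_isPullback hm inferInstance
  have hvC : v' ∉ C := by
    rintro ⟨n, hn, hnv⟩
    have h1 : (m ⁻¹ᵁ N).ι n = z' := by
      refine hu'.eq (ι_apply_mem _ _) hzN ?_ hz'2
      rw [← Scheme.Hom.comp_apply]
      exact hnv
    have h2 : h'' ((m ⁻¹ᵁ N).ι n) ∉ U := hn
    rw [h1] at h2
    apply h2
    rw [show h'' z' = x' from hz'1]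
    exact hx'
  let T : (pullback g e).Opens := ⟨p ⁻¹' T₁ ∩ Cᶜ, (hT₁.preimage p.continuous).inter hC.isOpen_compl⟩
  have hv'T : v' ∈ T := by
    refine ⟨?_, hvC⟩
    change MoreMor.fibreIntegral _ _ (p v') = _
    rw [show p v' = v from hv'2]
    exact hval
  refine ⟨⟨q '' (T : Set _), q.isOpenMap _ T.isOpen⟩, ⟨v', hv'T, hv'1⟩, ?_⟩
  rintro _ ⟨t, ⟨ht1, ht2⟩, rfl⟩
  have h3 := fibreIntegral_baseChange _ _ _ _ ((isPullback_morphismRestrict m N).paste_vert hm)
    (fun u => w (pullback.fst f e (N.ι u))) t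
  have h4 : MoreMor.fibreIntegral (N.ι ≫ pullback.snd f e)
      (fun u => w (pullback.fst f e (N.ι u))) (p t) = w (h x') := ht1
  rw [h4] at h3
  obtain ⟨n, hn⟩ := exists_of_fibreIntegral_ne_zero _ _ _ (h3.trans_ne hpos)
  refine ⟨h'' ((m ⁻¹ᵁ N).ι n), ?_, ?_⟩
  · by_contra hcon
    exact ht2 ⟨n, hcon, hn⟩
  · rw [← Scheme.Hom.comp_apply, ← Scheme.Hom.comp_apply, ← hn, ← Scheme.Hom.comp_apply]
    simp only [h'', f'', q, Category.assoc, pullback.condition]

open AlgebraicGeometry CategoryTheory Limits in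
/-- A locally quasi-finite morphism with a weighting taking only positive values is universally open. -/
theorem result {X Y : Scheme.{u}} (f : X ⟶ Y) [LocallyQuasiFinite f] [LocallyOfFiniteType f] (w : ↑X → ℤ) (hw : MoreMor.IsWeighting f w) (hpos : ∀ x, 0 < w x) :
    UniversallyOpen f := by
  refine ⟨fun X' Y' h g f' hc => ?_⟩
  replace hc := hc.flip
  intro S hS
  rw [isOpen_iff_mem_nhds]
  rintro _ ⟨x', hx', rfl⟩
  obtain ⟨T, hT, hTU⟩ := exists_nhd hc hw x' (hpos _).ne' ⟨S, hS⟩ hx'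
  refine Filter.mem_of_superset (T.isOpen.mem_nhds hT) ?_
  rintro y hy
  obtain ⟨u, hu, rfl⟩ := hTU y hy
  exact ⟨u, hu, rfl⟩

end Groth.Agent.S1420
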