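import Groth.Statements.S1422
import Groth.Agent.Old.H15.WeightComp

set_option autoImplicit false
universe u
open FlatMor

namespace Groth.Agent.S1422

open AlgebraicGeometry CategoryTheory Limits in
/-- Let f : X → Y and g : Y → Z be locally quasi-finite with weightings w_f and w_g. Then x ↦ w_f(x) ·
w_g(f x) is a weighting of f ≫ g. -/
theorem result {X Y Z : Scheme.{u}} (f : X ⟶ Y) (g : Y ⟶ Z) [LocallyQuasiFinite f] [LocallyOfFiniteType f] [LocallyQuasiFinite g] [LocallyOfFiniteType g]
    (wf : ↑X → ℤ) (wg : ↑Y → ℤ) (hf : MoreMor.IsWeighting f wf) (hg : MoreMor.IsWeighting g wg) :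
    MoreMor.IsWeighting (f ≫ g) (fun x => wf x * wg (f x)) :=
  Groth.Agent.Old.H15.WeightComp.isWeighting_comp f g hf hg

end Groth.Agent.S1422
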