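import Groth.Statements.S1423
import Groth.Agent.Old.H20.WeightLevel
-- import your own Groth.Agent.* helpers here

set_option autoImplicit false
universe u
open FlatMor

namespace Groth.Agent.S1423

open AlgebraicGeometry CategoryTheory Limits in
/-- Let f be locally quasi-finite and w a weighting of f. Then every level set of w is locally
constructible in X. -/
theorem result {X Y : Scheme.{u}} (f : X ⟶ Y) [LocallyQuasiFinite f] [LocallyOfFiniteType f] (w : ↑X → ℤ) (hw : MoreMor.IsWeighting f w) (n : ℤ) :
    Topology.IsLocallyConstructible {x : ↑X | w x = n} := by
  exact Groth.Agent.Old.H20.WeightLevel.isLocallyConstructible f w hw n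

end Groth.Agent.S1423
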