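import Groth.Statements.S1425
import Groth.Agent.Old.H17.PosWeight
-- import your own Groth.Agent.* helpers here

set_option autoImplicit false
universe u
open FlatMor

namespace Groth.Agent.S1425

open AlgebraicGeometry CategoryTheory Limits in
/-- A weighting of a locally quasi-finite morphism taking positive values is upper semicontinuous on X. -/
theorem result {X Y : Scheme.{u}} (f : X ⟶ Y) [LocallyQuasiFinite f] [LocallyOfFiniteType f] (w : ↑X → ℤ) (hw : MoreMor.IsWeighting f w) (hpos : ∀ x, 0 < w x) :
    UpperSemicontinuous w := by
  exact Groth.Agent.Old.H17.PosWeight.upperSemicontinuous f w hw fun x => (hpos x).le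

end Groth.Agent.S1425
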