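import Groth.Statements.S1426
import Groth.Agent.Old.H18.LowerSC

set_option autoImplicit false
universe u
open FlatMor

namespace Groth.Agent.S1426

open AlgebraicGeometry CategoryTheory Limits in
/-- Let f : X → Y be a morphism of schemes which is separated, locally of finite type and locally
quasi-finite with finite fibres (finite fibres are assumed so that the fibre integral is a finite
sum), and let w be a weighting of f with w(x) > 0 for all x. Then the fibre integral of w along f is
a lower semicontinuous function on Y. -/
theorem result {X Y : Scheme.{u}} (f : X ⟶ Y) [LocallyQuasiFinite f] [LocallyOfFiniteType f] [IsSeparated f] (hfin : ∀ y : Y, (f ⁻¹' {y}).Finite)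
    (w : ↑X → ℤ) (hw : MoreMor.IsWeighting f w) (hpos : ∀ x, 0 < w x) :
    LowerSemicontinuous (MoreMor.fibreIntegral f w) := by
  exact Groth.Agent.Old.H18.LowerSC.lowerSemicontinuous_fibreIntegral f hfin w hw hpos

end Groth.Agent.S1426
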