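import Groth.Statements.S1427
import Groth.Agent.Old.H19.WeightBdd

set_option autoImplicit false
universe u
open FlatMor

namespace Groth.Agent.S1427

open AlgebraicGeometry CategoryTheory Limits in
/-- Let f : X → Y be locally quasi-finite with X quasi-compact and w a weighting of f. Then the fibre
integral of w along f is bounded above and, if Y is nonempty, attains its maximum. -/
theorem result {X Y : Scheme.{u}} (f : X ⟶ Y) [LocallyQuasiFinite f] [LocallyOfFiniteType f] [CompactSpace ↑X] (w : ↑X → ℤ) (hw : MoreMor.IsWeighting f w) [Nonempty ↑Y] :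
    ∃ y₀ : Y, ∀ y : Y, MoreMor.fibreIntegral f w y ≤ MoreMor.fibreIntegral f w y₀ := by
  exact Groth.Agent.Old.H19.WeightBdd.exists_max f w hw

end Groth.Agent.S1427
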