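import Groth.Statements.S1428
import Groth.Agent.Old.H20.MaxFinite
-- import your own Groth.Agent.* helpers here

set_option autoImplicit false
universe u
open FlatMor

namespace Groth.Agent.S1428

open AlgebraicGeometry CategoryTheory Limits in
/-- Let f : X → Y be separated, locally of finite type and locally quasi-finite with finite fibres, w a
positive weighting of f, and suppose the fibre integral of w is at most d at every point of Y and
equals d at some point. Then the set Y_d of points where the integral equals d is open and the
restriction of f over Y_d is finite. (Finiteness of the fibres, which makes the fibre integral a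
finite sum, is carried here as an explicit hypothesis.) -/
theorem result {X Y : Scheme.{u}} (f : X ⟶ Y) [LocallyQuasiFinite f] [LocallyOfFiniteType f] [IsSeparated f] (hfin : ∀ y : Y, (f ⁻¹' {y}).Finite)
    (w : ↑X → ℤ) (hw : MoreMor.IsWeighting f w) (hpos : ∀ x, 0 < w x) (d : ℤ)
    (hmax : ∀ y : Y, MoreMor.fibreIntegral f w y ≤ d) (hatt : ∃ y : Y, MoreMor.fibreIntegral f w y = d) :
    ∃ hYd : IsOpen {y : ↑Y | MoreMor.fibreIntegral f w y = d}, IsFinite (f ∣_ ⟨{y : ↑Y | MoreMor.fibreIntegral f w y = d}, hYd⟩) := by
  
  exact Groth.Agent.Old.H20.MaxFinite.isOpen_and_isFinite f hfin w hw hpos d hmax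

end Groth.Agent.S1428
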