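import Groth.Statements.S1439
import Groth.Agent.Old.H21.StratSucc

set_option autoImplicit false
universe u
open FlatMor

namespace Groth.Agent.S1439

open AlgebraicGeometry CategoryTheory Limits in
/-- Let f : X → Y be surjective and quasi-finite with X affine and Y separated and nonempty, and let w
be a positive weighting of f. If the fibre integral of w along f takes exactly k distinct values,
then Y has an affine stratification with index set {0, …, k − 1} (its affine stratification number
is at most k − 1). -/
theorem result {X Y : Scheme.{u}} (f : X ⟶ Y) [Surjective f] [LocallyQuasiFinite f] [LocallyOfFiniteType f] [QuasiCompact f]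
    [IsAffine X] [Y.IsSeparated] [Nonempty ↑Y] (w : ↑X → ℤ) (hw : MoreMor.IsWeighting f w) (hpos : ∀ x, 0 < w x)
    (k : ℕ) (hk : (Set.range (MoreMor.fibreIntegral f w)).ncard = k) (hkfin : (Set.range (MoreMor.fibreIntegral f w)).Finite) :
    MoreMor.HasAffineStratification Y (k - 1) := by
  obtain ⟨m, rfl⟩ : ∃ m, k = m + 1 := by
    obtain ⟨y⟩ := ‹Nonempty ↑Y›
    have : 0 < k := by
      rw [← hk, Set.ncard_pos hkfin]
      exact ⟨_, y, rfl⟩
    exact ⟨k - 1, by omega⟩
  exact Groth.Agent.Old.H21.StratSucc.main m f w hw hpos hk hkfin

end Groth.Agent.S1439
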