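import Groth.Statements.S1454
import Groth.Agent.Old.H22.MaxPoint

set_option autoImplicit false
universe u
open FlatMor

namespace Groth.Agent.S1454

open AlgebraicGeometry CategoryTheory Limits in
/-- Consider a locally quasi-finite f : X → Y whose target is locally Noetherian with geometrically
unibranch local rings, and assume every irreducible component of X dominates an irreducible
component of Y (its generic point maps to a generic point of an irreducible component of Y). Then f
is universally open. -/
theorem result {X Y : Scheme.{u}} (f : X ⟶ Y) [LocallyQuasiFinite f] [LocallyOfFiniteType f] [IsLocallyNoetherian Y]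
    (hY : ∀ y : Y, CAlg2.IsGeomUnibranch (Y.presheaf.stalk y))
    (hdom : ∀ Z ∈ irreducibleComponents ↑X, ∀ x : X, IsGenericPoint x Z → ∃ W ∈ irreducibleComponents ↑Y, IsGenericPoint (f x) W) :
    UniversallyOpen f := by
  rw [Groth.Agent.Ega43.UnivOpenAt.universallyOpen_iff_forall_isUnivOpenAt]
  intro x
  have hZ : irreducibleComponent x ∈ irreducibleComponents X :=
    irreducibleComponent_mem_irreducibleComponents x
  have hξ := (isIrreducible_irreducibleComponent (x := x)).isGenericPoint_genericPoint
    isClosed_irreducibleComponent
  set ξ := (isIrreducible_irreducibleComponent (x := x)).genericPoint with hξdef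
  obtain ⟨W, hW, hη⟩ := hdom _ hZ ξ hξ
  refine Groth.Agent.Old.H22.ComponentOpen.isUnivOpenAt_of_generization hY f ξ x
    (hξ.specializes mem_irreducibleComponent)
    (fun y hy => Groth.Agent.Old.H22.MaxPoint.eq_of_specializes_of_isGenericPoint hW hη hy) 0
    (by simp) (fun w _ _ _ => ?_)
  exact_mod_cast Groth.Agent.Old.H22.MaxPoint.rtd_le_zero f w

end Groth.Agent.S1454
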