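import Groth.Statements.S1465
import Groth.Agent.S1442
import Groth.Agent.Old.H23.PushMap
import Groth.Agent.Old.H23.PushQf
import Groth.Agent.Etrest.ProperOver

set_option autoImplicit false
universe u
open FlatMor

namespace Groth.Agent.S1465

open AlgebraicGeometry CategoryTheory Limits in
/-- Let i : Z → X be a closed immersion and j : Z → Y an integral morphism such that each fibre of j
lies in the preimage of an affine open of X. Let i' : Z' → X', j' : Z' → Y' and f : X' → X, g : Y' →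
Y, h : Z' → Z form cartesian squares over i and j, with f, g, h separated and locally quasi-finite.
Then the pushouts W of (i, j) and W' of (i', j') exist in the category of schemes, the induced W' →
W is separated and locally quasi-finite, and the squares comparing Y' → W', X' → W' with Y → W, X →
W are cartesian. -/
theorem result {X Y Z X' Y' Z' : Scheme.{u}}
    (i : Z ⟶ X) [IsClosedImmersion i] (j : Z ⟶ Y) [IsIntegralHom j]
    (h3 : ∀ y : Y, ∃ U : X.Opens, IsAffineOpen U ∧ j ⁻¹' {y} ⊆ (i ⁻¹ᵁ U : Set ↑Z))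
    (i' : Z' ⟶ X') (j' : Z' ⟶ Y') (f : X' ⟶ X) (g : Y' ⟶ Y) (h : Z' ⟶ Z)
    (hX : IsPullback h i' i f) (hY : IsPullback h j' j g)
    [IsSeparated f] [LocallyQuasiFinite f] [LocallyOfFiniteType f] [IsSeparated g] [LocallyQuasiFinite g] [LocallyOfFiniteType g]
    [IsSeparated h] [LocallyQuasiFinite h] [LocallyOfFiniteType h] :
    ∃ (W W' : Scheme.{u}) (a : Y ⟶ W) (b : X ⟶ W) (a' : Y' ⟶ W') (b' : X' ⟶ W') (k : W' ⟶ W),
      IsPushout j i a b ∧ IsPushout j' i' a' b' ∧ a' ≫ k = g ≫ a ∧ b' ≫ k = f ≫ b ∧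
      IsSeparated k ∧ LocallyQuasiFinite k ∧ LocallyOfFiniteType k ∧ IsPullback g a' a k ∧ IsPullback f b' b k := by
  have hi' : IsClosedImmersion i' := MorphismProperty.of_isPullback hX inferInstance
  have hj' : IsIntegralHom j' := MorphismProperty.of_isPullback hY inferInstance
  have H : ∀ y : Y, ∃ P : Groth.Agent.FlatB.PushPair.Pair i j, y ∈ P.V := by
    intro y
    obtain ⟨U, V, hU, hV, hy, he⟩ := Groth.Agent.S1442.result i j h3 y
    exact ⟨⟨U, V, _, hU, hV, he, rfl⟩, hy⟩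
  have h3' : ∀ y : Y', ∃ U : X'.Opens, IsAffineOpen U ∧ j' ⁻¹' {y} ⊆ (i' ⁻¹ᵁ U : Set ↑Z') := by
    intro y'
    obtain ⟨U, hU, hyU⟩ := h3 (g y')
    obtain ⟨V, hV, hyV⟩ := Groth.Agent.Old.H23.PushQf.exists_affine f i' j' y' U hU (by
      intro z hz
      have h1 : f (i' z) = i (h z) := by
        rw [← Scheme.Hom.comp_apply, ← hX.w, Scheme.Hom.comp_apply]
      have h2 : j (h z) = g y' := by
        rw [← hz, ← Scheme.Hom.comp_apply, hY.w, Scheme.Hom.comp_apply]
      rw [h1]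
      exact hyU h2)
    exact ⟨V, hV, fun z hz => hyV z hz⟩
  have H' : ∀ y : Y', ∃ P : Groth.Agent.FlatB.PushPair.Pair i' j', y ∈ P.V := by
    intro y
    obtain ⟨U, V, hU, hV, hy, he⟩ := Groth.Agent.S1442.result i' j' h3' y
    exact ⟨⟨U, V, _, hU, hV, he, rfl⟩, hy⟩
  obtain ⟨a, ha⟩ := Groth.Agent.FlatB.PushGlue.exists_a H
  obtain ⟨b, hb⟩ := Groth.Agent.FlatB.PushGlue.exists_b H
  obtain ⟨a', ha'⟩ := Groth.Agent.FlatB.PushGlue.exists_a H'
  obtain ⟨b', hb'⟩ := Groth.Agent.FlatB.PushGlue.exists_b H'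
  have hpo := Groth.Agent.FlatB.PushGlue.isPushout H a b ha hb
  have hpo' := Groth.Agent.FlatB.PushGlue.isPushout H' a' b' ha' hb'
  obtain ⟨k, hk1, hk2⟩ := Groth.Agent.FlatB.PushGlue.exists_desc H' a' b' ha' hb' (f ≫ a) (g ≫ b)
    (by rw [← Category.assoc, ← hX.w, Category.assoc, hpo.w, ← Category.assoc, hY.w,
      Category.assoc])
  refine ⟨_, _, b, a, b', a', k, hpo.flip, hpo'.flip, hk2, hk1, ?_,
    Groth.Agent.Old.H23.PushMap.locallyQuasiFinite_k hX hY H H' a b ha hb a' b' ha' hb' k hk1 hk2,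
    Groth.Agent.Old.H23.PushMap.locallyOfFiniteType_k hX hY H H' a b ha hb a' b' ha' hb' k hk1 hk2,
    (Groth.Agent.Old.H23.PushMap.isPullback_b_k hX hY H H' a b ha hb a' b' ha' hb' k hk1 hk2).flip,
    (Groth.Agent.Old.H23.PushMap.isPullback_a_k hX hY H H' a b ha hb a' b' ha' hb' k hk1 hk2).flip⟩
  have h1 : IsIntegralHom a := Groth.Agent.FlatB.PushMain.isIntegralHom_a H a ha
  have h2 : IsClosedImmersion b := Groth.Agent.FlatB.PushMain.isClosedImmersion_b H b hb
  have h1' : IsIntegralHom a' := Groth.Agent.FlatB.PushMain.isIntegralHom_a H' a' ha'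
  have h2' : IsClosedImmersion b' := Groth.Agent.FlatB.PushMain.isClosedImmersion_b H' b' hb'
  have h5 : IsSeparated (a' ≫ k) := by rw [hk1]; infer_instance
  have h6 : IsSeparated (b' ≫ k) := by rw [hk2]; infer_instance
  refine Groth.Agent.Etrest.ProperOver.isSeparated_of_surjective₂ a' b' k ?_
  rw [Set.eq_univ_iff_forall]
  intro w
  rcases Groth.Agent.FlatB.PushMain.surj a' b' ha' hb' w with ⟨x, hx⟩ | ⟨y, hy⟩
  · exact Or.inl ⟨x, hx⟩
  · exact Or.inr ⟨y, hy⟩

end Groth.Agent.S1465
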