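import Groth.Statements.S1902
import Groth.Agent.Old.H25.CoreA
import Groth.Agent.Old.H25.SubFib
import Groth.Agent.CycA.P1Sect
-- import your own Groth.Agent.* helpers here

set_option autoImplicit false
universe u
open CategoryTheory AlgebraicGeometry
open CategoryTheory.Limits
open Cyc

namespace Groth.Agent.S1902

/-- Let Z → P^1_X be a closed immersion with δP ≤ k + 1 on Z, δP ≤ k at the points of Z lying on Z_0 or
Z_∞, and such that every associated point ζ of Z (a point where the maximal ideal of O_{Z,ζ} is an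
associated prime of O_{Z,ζ}) either lies on neither section or has δP(ζ) < k. Then [Z_0]_k ∼_rat
[Z_∞]_k on X. (The published statement asks the last condition only of embedded points of Z; in that
form it fails when an irreducible component of Z of δ-dimension k lies inside Z_0 or Z_∞ — for X the
spectrum of a field, k = 0 and Z the point 0 of P^1_X one gets [Z_0]_0 = [X] but [Z_∞]_0 = 0 — so
what is required here is that no point of Z_0 ∪ Z_∞ with δP = k is an associated point of Z.) Here
P^1_X → X is the projective line over X with its dimension function δP induced from δ, s₀, s_∞ : X →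
P^1_X are the sections at 0 and ∞, and for a closed subscheme Z → P^1_X the closed subschemes Z_0,
Z_∞ → X are its pullbacks along the two sections. Here a pair (X, δ) satisfying Cyc.IsSetup (X
locally Noetherian with universally catenary local rings, δ a dimension function) plays the role of
a scheme locally of finite type over a fixed base equipped with a dimension function, and
Cyc.DeltaCompat records that the dimension function on P^1_X is the induced one. -/
theorem result (X : Scheme.{u}) (δ : X → ℤ) (hX : Cyc.IsSetup X δ) (δP : ↥(CohB1.ProjSpaceOver 1 X) → ℤ) (hP : Cyc.DeltaCompat (CohB1.ProjSpaceOver.toBase 1 X) δP δ) (k : ℤ) (Z : Scheme.{u}) (ι : Z ⟶ CohB1.ProjSpaceOver 1 X) [IsClosedImmersion ι] (hZ : ∀ z : Z, δP (ι z) ≤ k + 1) (hZ0 : ∀ z : Z, ι z ∈ Set.range ⇑(P1.sect X 0) ∪ Set.range ⇑(P1.sect X 1) → δP (ι z) ≤ k) (hemb : ∀ z : Z, IsAssociatedPrime (IsLocalRing.maximalIdeal (Z.presheaf.stalk z)) (Z.presheaf.stalk z) → ι z ∉ Set.range ⇑(P1.sect X 0) ∪ Set.range ⇑(P1.sect X 1) ∨ δP (ι z)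 < k) (α β : AlgebraicCycle X ℤ) (hα : ⇑α = Cyc.subschemeFun δ k (pullback.snd ι (P1.sect X 0))) (hβ : ⇑β = Cyc.subschemeFun δ k (pullback.snd ι (P1.sect X 1))) : Cyc.RatEquiv δ k α β := by
  have hprop : IsProper (CohB1.ProjSpaceOver.toBase 1 X) :=
    Groth.Agent.Dix.ProjProper.isProper_toBase 1 X
  have hsetP : Cyc.IsSetup (CohB1.ProjSpaceOver 1 X) δP :=
    Groth.Agent.CycB.SetupLft.isSetup_of_deltaCompat (CohB1.ProjSpaceOver.toBase 1 X) hX hP
  have hsetZ : Cyc.IsSetup Z (fun z => δP (ι z)) :=
    Groth.Agent.CycB.C1Fin.isSetup_of_isClosedImmersion ι hsetP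
  have hNP := hsetP.1
  have hNZ := hsetZ.1
  have key : ∀ (i : Fin (1 + 1)), Set.range ⇑(P1.sect X i) ⊆
      Set.range ⇑(P1.sect X 0) ∪ Set.range ⇑(P1.sect X 1) → ∀ x : X,
      Cyc.subschemeFun δ k (pullback.snd ι (P1.sect X i)) x =
      ∑ᶠ ζ : {ζ : Z // δP (ι ζ) = k + 1},
        ((Module.length (Z.presheaf.stalk ζ.1) (Z.presheaf.stalk ζ.1)).toNat : ℤ) *
          Cyc.subschemeFun δ k
            (pullback.snd (Groth.Agent.CycB.PtClosure.ptClι (ι ζ.1)) (P1.sect X i)) x := by
    intro i hi x
    refine Groth.Agent.Old.H25.SubFib.subschemeFun_snd_eq_finsum ι (P1.sect X i) hsetP.2.2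
      hsetZ.2.2 k (fun x => Groth.Agent.CycA.SectPt.delta_sect hP i x)
      (fun x => ?_) hZ (fun z hz => hZ0 z (hi hz)) (fun z hz => ?_) x
    · obtain ⟨t, -, ht⟩ := Groth.Agent.CycA.P1Sect.exists_ker_stalkMap_sect (X := X) i x
      exact ⟨t, ht⟩
    · rcases hemb z hz with h | h
      · exact Or.inl fun h' => h (hi h')
      · exact Or.inr h
  refine Groth.Agent.Old.H25.CoreA.ratEquiv_of_points hX δP hP k
    (fun ζ : {ζ : Z // δP (ι ζ) = k + 1} => ι ζ.1) (fun ζ => ζ.2) (fun ζ h => ?_)
    (Groth.Agent.Old.H25.SubFib.locFin_top ι hsetZ.2.2 k hZ)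
    (fun ζ => ((Module.length (Z.presheaf.stalk ζ.1) (Z.presheaf.stalk ζ.1)).toNat : ℤ))
    α β (fun x => ?_) (fun x => ?_)
  · have h1 := hZ0 ζ.1 h
    have h2 := ζ.2
    omega
  · rw [hα]
    exact key 0 Set.subset_union_left x
  · rw [hβ]
    exact key 1 Set.subset_union_right x

end Groth.Agent.S1902
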