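import Groth.Statements.S1903
import Groth.Agent.Old.H26.CohP1

set_option autoImplicit false
universe u
open CategoryTheory AlgebraicGeometry
open CategoryTheory.Limits
open Cyc

namespace Groth.Agent.S1903

/-- Let F be a coherent module on P¹_X with δP ≤ k + 1 on its support and δ ≤ k on the supports of F_0 =
s₀^*F and F_∞ = s_∞^*F, and such that every associated point p of F (maximal ideal of O_p associated
to F_p) lies on neither section or has δP(p) < k. Then [F_0]_k ∼_rat [F_∞]_k on X. The published
statement asks this only of embedded associated points of F; as published it fails when an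
irreducible component of Supp(F) of δ-dimension k lies over 0 or ∞ (X the spectrum of a field, k =
0, F the structure sheaf of the point 0 of P¹_X pushed forward: [F_0]_0 = [X] but [F_∞]_0 = 0); the
hypothesis here instead excludes every associated point of F over 0 or ∞ with δP = k. Here P¹_X → X
is the projective line over X with its dimension function δP induced from δ, and s₀, s_∞ : X → P¹_X
are the sections at 0 and ∞. A pair (X, δ) with Cyc.IsSetup plays the role of a scheme locally of
finite type over a base with a dimension function (X locally Noetherian with universally catenary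
local rings, δ a dimension function), and Cyc.DeltaCompat records that the dimension function
upstairs is the induced one. -/
theorem result (X : Scheme.{u}) (δ : X → ℤ) (hX : Cyc.IsSetup X δ) (δP : ↥(CohB1.ProjSpaceOver 1 X) → ℤ) (hP : Cyc.DeltaCompat (CohB1.ProjSpaceOver.toBase 1 X) δP δ) (k : ℤ) (F : (CohB1.ProjSpaceOver 1 X).Modules) (hF : Coh.IsCoh F) (hsupp : ∀ p : ↥(CohB1.ProjSpaceOver 1 X), Nontrivial (F.presheaf.stalk p) → δP p ≤ k + 1) (h0 : ∀ x : X, Nontrivial (((Scheme.Modules.pullback (P1.sect X 0)).obj F).presheaf.stalk x) → δ x ≤ k) (h1 : ∀ x : X, Nontrivial (((Scheme.Modules.pullback (P1.sect X 1)).obj F).presheaf.stalk x) → δ x ≤ k) (hemb : ∀ p : ↥(CohB1.ProjSpaceOver 1 X), IsAssociatedPrime (IsLocalRing.maximalIdeal ((CohB1.ProjSpaceOver 1 X).presheaf.stalk p)) (F.presheaf.stalk p) → p ∉ Set.range ⇑(P1.sect X 0) ∪ Set.range ⇑(P1.sect X 1) ∨ δP p < k) (α β : AlgebraicCycle X ℤ) (hα : ⇑α = Cyc.sheafFun δ k ((Scheme.Modules.pullback (P1.sect X 0)).obj F)) (hβ : ⇑β = Cyc.sheafFun δ k ((Scheme.Modules.pullback (P1.sect X 1)).obj F)) : Cyc.RatEquiv δ k α β :=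 by
  refine Groth.Agent.Old.H26.CohP1.ratEquiv_fibres hX δP hP k F hF hsupp ?_ ?_ α β hα hβ
  · intro i
    fin_cases i
    · exact h0
    · exact h1
  · intro p hp
    refine (hemb p hp).imp_left fun h i => ?_
    fin_cases i
    · exact fun h' => h (Or.inl h')
    · exact fun h' => h (Or.inr h')

end Groth.Agent.S1903
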