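import Groth.Statements.S1938
import Groth.Agent.Grpsch.ConormalIso
import Groth.Agent.Old.H27.GrpdShear

set_option autoImplicit false
universe u
open CategoryTheory CategoryTheory.Limits AlgebraicGeometry
open Grpd

namespace Groth.Agent.S1938

/-- Let (U, R, s, t, c) be a groupoid scheme over S, e : U → R its identity and C_{U/R} the conormal
sheaf of the immersion e. View R as a scheme over U via t. Then there is an epimorphism of
O_R-modules s^*C_{U/R} → Ω_{R/U}, and if s is flat there is an isomorphism s^*C_{U/R} ≅ Ω_{R/U}.
(The published statement has t^*C_{U/R} here; with R over U via t that version is false — for the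
pair groupoid of the disjoint union of a point and the affine line over ℚ the two sheaves have
different supports — and the statement given here has s^*C_{U/R} instead.) Stated for t
quasi-separated, where the shared prelude's Ω_{R/U} (conormal sheaf of the diagonal of t through
Mathlib's kernel ideal sheaf) and conormal sheaf of the section e are the usual ones. (A groupoid
scheme carries U, R, s, t, c, e, i over S with the groupoid axioms on T-points.) -/
theorem result (S : Scheme.{u}) (G : Grpd.GroupoidScheme S) [QuasiSeparated G.t] : (∃ φ : (Scheme.Modules.pullback G.s).obj (Omega.conormal G.e) ⟶ Omega.sheaf G.t, Epi φ) ∧ (Flat G.s → Nonempty ((Scheme.Modules.pullback G.s).obj (Omega.conormal G.e) ≅ Omega.sheaf G.t)) := by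
  have hpre : IsPreimmersion G.e :=
    Groth.Agent.Grpsch.ConormalIso.isPreimmersion_of_section G.e_t
  have hqc : QuasiCompact G.e :=
    Groth.Agent.Grpsch.ConormalIso.quasiCompact_of_section G.e_t
  have H := Groth.Agent.Old.H27.GrpdShear.isPullback_diagonal G
  refine ⟨⟨Groth.Agent.Grpsch.ConormalIso.conormalMap H.w,
    Groth.Agent.Grpsch.ConormalIso.epi_conormalMap H⟩, fun hs => ?_⟩
  have hflat : Flat (Groth.Agent.Old.H27.GrpdShear.sub G) :=
    MorphismProperty.of_isPullback (P := @Flat)
      (Groth.Agent.Old.H27.GrpdShear.isPullback_sub_fst G).flip hs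
  have hiso := Groth.Agent.Grpsch.ConormalIso.isIso_conormalMap_of_flat H
  exact ⟨@asIso _ _ _ _ _ hiso⟩

end Groth.Agent.S1938
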