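import Groth.Statements.S1981
import Groth.Agent.S1980
import Groth.Agent.Etalg2.H529.SolSep
import Groth.Agent.Ega4B.NagFinal

set_option autoImplicit false
universe u
open EtAlg

namespace Groth.Agent.S1981

open Groth.Agent.Etalg.ResInd Groth.Agent.Etalg.ResAlgInd IsLocalRing IntermediateField EtRam
  Groth.Agent.Etalg.RamBasic Groth.Agent.Etalg2.H529.Step Groth.Agent.Etalg2.H529.SolSep

/-- Let A -> B be an extension of discrete valuation rings with fraction fields K ⊂ L such that B is
essentially of finite type over A, A or B is a Nagata ring, and L/K is separable (in the sense for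
arbitrary extensions: L is geometrically reduced over K, as elsewhere in this problem; L need not be
algebraic over K). Then there is a finite separable extension K₁ of K which is a solution for A ->
B. -/
theorem result (A B K L : Type u) [CommRing A] [IsDomain A] [IsDiscreteValuationRing A]
    [CommRing B] [IsDomain B] [IsDiscreteValuationRing B] [Algebra A B] [IsLocalHom (algebraMap A B)]
    (hinj : Function.Injective (algebraMap A B))
    [Field K] [Field L] [Algebra A K] [IsFractionRing A K] [Algebra B L] [IsFractionRing B L]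
    [Algebra K L] [Algebra A L] [IsScalarTower A K L] [IsScalarTower A B L] [Algebra.EssFiniteType A B]
    (hN : CAlg.IsNagata A ∨ CAlg.IsNagata B) [Algebra.IsGeometricallyReduced K L] :
    ∃ (K₁ : Type u) (_ : Field K₁) (_ : Algebra K K₁) (_ : FiniteDimensional K K₁) (_ : Algebra.IsSeparable K K₁),
      EtRam.IsSolution B K L K₁ := by
  classical
  -- `B` is Nagata
  have hB : CAlg.IsNagata B := by
    rcases hN with hA | hB
    · exact Groth.Agent.Ega4B.NagBasic.isNagata_localization
        (Groth.Agent.Ega4B.NagFinal.isNagata_of_finiteType (S := Algebra.EssFiniteType.subalgebra A B) hA)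
        (Algebra.EssFiniteType.submonoid A B) B
    · exact hB
  obtain ⟨r, y, hy, hyalg⟩ := Groth.Agent.Etalg.EssTrdeg.exists_residual_basis (A := A) (B := B) (K := K) (L := L) hinj
  let Ω := AlgebraicClosure L
  obtain ⟨O, hO⟩ := exists_dominates ((algebraMap L Ω).comp (algebraMap B L))
  obtain ⟨dK, hrli⟩ := Groth.Agent.S1980.rli_of_residual (A := A) (K := K) O hO y hy
  -- generators
  have e1 : Algebra.EssFiniteType B L := Algebra.EssFiniteType.of_isLocalization L (nonZeroDivisors B)
  have e2 : Algebra.EssFiniteType A L := Algebra.EssFiniteType.comp A B L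
  have e3 : Algebra.EssFiniteType K L := Algebra.EssFiniteType.of_comp A K L
  obtain ⟨T₀, hT₀⟩ : ∃ T₀ : Finset L, adjoin K (T₀ : Set L) = ⊤ := fg_top K L
  let T : Finset Ω := T₀.image (algebraMap L Ω)
  have hX : adjoin K (T : Set Ω) = (IsScalarTower.toAlgHom K L Ω).fieldRange := by
    have h1 : (T : Set Ω) = (IsScalarTower.toAlgHom K L Ω) '' (T₀ : Set L) := Finset.coe_image
    rw [h1, ← adjoin_map, hT₀]
    exact (AlgHom.fieldRange_eq_map _).symm
  let w : Fin r → Ω := fun i => algebraMap L Ω (algebraMap B L (y i))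
  have hw1 : ∀ i, O.valuation (w i) ≤ 1 := fun i => (ValuationSubring.valuation_le_one_iff _ _).2 (hO.1 _)
  have hwX : ∀ i, w i ∈ adjoin K (T : Set Ω) := fun i => by
    rw [hX]; exact ⟨_, rfl⟩
  have hTw : ∀ x ∈ T, IsAlgebraic (adjoin K (Set.range w)) x := by
    intro x hx
    obtain ⟨t, -, rfl⟩ := Finset.mem_image.1 hx
    let F := adjoin K (Set.range fun i => algebraMap B L (y i))
    have hF : ∀ z ∈ F, algebraMap L Ω z ∈ adjoin K (Set.range w) := by
      have h1 : F.map (IsScalarTower.toAlgHom K L Ω) = adjoin K (Set.range w) := by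
        rw [adjoin_map, ← Set.range_comp]; rfl
      intro z hz
      rw [← h1]
      exact ⟨z, hz, rfl⟩
    let φ : F →+* adjoin K (Set.range w) := ((algebraMap L Ω).comp (algebraMap F L)).codRestrict _ fun z => hF z z.2
    obtain ⟨P, hP0, hP⟩ : IsAlgebraic F t := Algebra.IsAlgebraic.isAlgebraic t
    refine ⟨P.map φ, (Polynomial.map_ne_zero_iff φ.injective).2 hP0, ?_⟩
    rw [Polynomial.aeval_def, Polynomial.eval₂_map]
    have h2 := Polynomial.hom_eval₂ P (algebraMap F L) (algebraMap L Ω) t
    have h3 : Polynomial.eval₂ (algebraMap F L) t P = 0 := hP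
    rw [h3, map_zero] at h2
    exact h2.symm
  obtain ⟨E, hE, π, hπE, hπ, hgeo⟩ := Groth.Agent.Etalg.SolGood.exists_good T w hw1 hwX hTw hrli
  rw [hX] at hπ hgeo
  have hgood : Good L O E := good_of_isUnif E π hπE hπ
    (IntermediateField.inclusion (le_sup_right : E ≤ XL K L Ω ⊔ E)).toRingHom rfl
    (hgeo (XL K L Ω ⊔ E) rfl _ fun _ => rfl)
  exact exists_separable_solution hB hO E hgood

end Groth.Agent.S1981
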