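import Groth.Statements.S2032
import Groth.Agent.Old.H28.ElemStd

set_option autoImplicit false
universe u
open Smoothing

namespace Groth.Agent.S2032

/-- For a finitely presented `R`-algebra `A` and `a ∈ A`, if `a` is elementary standard then `A_a` is
standard smooth over `R`. (Part (f), the converse for large powers of `a`, is not stated: as
published it fails, for example for the nodal cubic `A = {g ∈ ℚ[u] : g(0) = g(1)}` and `a =
u(u-1)`.) -/
theorem result {R A : Type u} [CommRing R] [CommRing A]
    [Algebra R A] [Algebra.FinitePresentation R A] (a : A)
    (ha : Smoothing.IsElementaryStandard R A a) : Algebra.IsStandardSmooth R (Localization.Away a) :=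
  Groth.Agent.Old.H28.ElemStd.isStandardSmooth_away a ha (Localization.Away a)

end Groth.Agent.S2032
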