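import Groth.Statements.S2170
import Mathlib.Tactic.Linarith
import Mathlib.Tactic.FieldSimp
import Mathlib.Tactic.Ring
import Mathlib.Tactic.NormNum
import Mathlib.Algebra.BigOperators.Ring.Finset
import Mathlib.Algebra.Order.BigOperators.Group.Finset

set_option autoImplicit false
open Finset
open Models

namespace Groth.Agent.S2170

/-- Let A be a symmetric real n × n matrix with non-negative off-diagonal entries and m a vector with
positive entries such that for every i, ∑_{j ≠ i} A_{ij} m_j ≤ −A_{ii} m_i. Then the kernel of A is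
the span of the vectors equal to m on an index set I and zero off I, for those I such that A_{ij} =
0 whenever i ∈ I and j ∉ I and such that equality holds in the above inequality for every i ∈ I. The
published statement omits the symmetry of A (without which it fails) and applies it only to
symmetric matrices; stated here with A symmetric. -/
theorem result {n : ℕ} (A : Matrix (Fin n) (Fin n) ℝ) (m : Fin n → ℝ)
    (hsymm : A.IsSymm) (hA : ∀ i j, i ≠ j → 0 ≤ A i j) (hm : ∀ i, 0 < m i)
    (hle : ∀ i, ∑ j ∈ univ.erase i, A i j * m j ≤ -(A i i * m i)) :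
    LinearMap.ker (Matrix.mulVecLin A) = Submodule.span ℝ
      {x : Fin n → ℝ | ∃ I : Finset (Fin n), (∀ i ∈ I, ∀ j ∉ I, A i j = 0) ∧
        (∀ i ∈ I, ∑ j ∈ univ.erase i, A i j * m j = -(A i i * m i)) ∧
        x = fun i => if i ∈ I then m i else 0} := by
  classical
  -- the row sums
  have hrow : ∀ i, ∑ j, A i j * m j = ∑ j ∈ univ.erase i, A i j * m j + A i i * m i := fun i =>
    (Finset.sum_erase_add univ _ (Finset.mem_univ i)).symm
  have hrow0 : ∀ i, ∑ j, A i j * m j ≤ 0 := fun i => by
    rw [hrow]; linarith [hle i]
  have hsym : ∀ i j, A i j = A j i := fun i j => (hsymm.apply i j).symm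
  apply le_antisymm
  · intro x hx
    have hx0 : ∀ i, ∑ j, A i j * x j = 0 := fun i => by
      have := congrFun (LinearMap.mem_ker.mp hx) i
      simpa [Matrix.mulVec, dotProduct] using this
    set y : Fin n → ℝ := fun i => x i / m i with hy
    have hxy : ∀ i, x i = m i * y i := fun i => by
      rw [hy]; field_simp [(hm i).ne']
    -- the quadratic form identity
    have key : ∑ i, (m i * (∑ j, A i j * m j) * (y i) ^ 2 * 2 -
        ∑ j, m i * A i j * m j * (y i - y j) ^ 2) = 0 := by
      have h1 : ∀ i, m i * (∑ j, A i j * m j) * (y i) ^ 2 * 2 -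
          ∑ j, m i * A i j * m j * (y i - y j) ^ 2 =
          ∑ j, (m i * A i j * m j * (y i) ^ 2 - m j * A j i * m i * (y j) ^ 2) +
            2 * (m i * y i) * (∑ j, A i j * x j) := by
        intro i
        rw [Finset.mul_sum, Finset.sum_mul, Finset.sum_mul, ← Finset.sum_sub_distrib,
          Finset.mul_sum, ← Finset.sum_add_distrib]
        refine Finset.sum_congr rfl fun j _ => ?_
        rw [hxy j, hsym j i]
        ring
      rw [Finset.sum_congr rfl fun i _ => h1 i, Finset.sum_add_distrib]
      have h2 : ∑ i, 2 * (m i * y i) * (∑ j, A i j * x j) = 0 :=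
        Finset.sum_eq_zero fun i _ => by rw [hx0, mul_zero]
      rw [h2, add_zero]
      simp only [Finset.sum_sub_distrib]
      rw [sub_eq_zero]
      exact Finset.sum_comm
    have hterm : ∀ i j, 0 ≤ m i * A i j * m j * (y i - y j) ^ 2 := fun i j => by
      by_cases hij : i = j
      · subst hij; simp
      · exact mul_nonneg (mul_nonneg (mul_nonneg (hm i).le (hA i j hij)) (hm j).le) (sq_nonneg _)
    have hfst : ∀ i, m i * (∑ j, A i j * m j) * (y i) ^ 2 * 2 ≤ 0 := fun i => by
      have : 0 ≤ m i * (-(∑ j, A i j * m j)) * (y i) ^ 2 * 2 :=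
        mul_nonneg (mul_nonneg (mul_nonneg (hm i).le (by linarith [hrow0 i])) (sq_nonneg _)) (by norm_num)
      nlinarith
    have hle0 : ∀ i ∈ (Finset.univ : Finset (Fin n)), m i * (∑ j, A i j * m j) * (y i) ^ 2 * 2 -
        ∑ j, m i * A i j * m j * (y i - y j) ^ 2 ≤ 0 := fun i _ => by
      have := Finset.sum_nonneg fun j (_ : j ∈ (Finset.univ : Finset (Fin n))) => hterm i j
      linarith [hfst i]
    have hz := (Finset.sum_eq_zero_iff_of_nonpos hle0).mp key
    have hr : ∀ i, y i ≠ 0 → ∑ j, A i j * m j = 0 := fun i hi => by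
      have h0 := hz i (Finset.mem_univ i)
      have h1 := Finset.sum_nonneg fun j (_ : j ∈ (Finset.univ : Finset (Fin n))) => hterm i j
      have h2 : m i * (∑ j, A i j * m j) * (y i) ^ 2 * 2 = 0 := by linarith [hfst i]
      have hmi := (hm i).ne'
      simpa [hmi, hi] using h2
    have hc : ∀ i j, y i ≠ y j → A i j = 0 := fun i j hij => by
      have h0 := hz i (Finset.mem_univ i)
      have h1 := Finset.sum_nonneg fun j (_ : j ∈ (Finset.univ : Finset (Fin n))) => hterm i j
      have h2 : ∑ j, m i * A i j * m j * (y i - y j) ^ 2 = 0 := by linarith [hfst i]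
      have h3 := (Finset.sum_eq_zero_iff_of_nonneg fun j _ => hterm i j).mp h2 j (Finset.mem_univ j)
      have hmi := (hm i).ne'
      have hmj := (hm j).ne'
      have hs : y i - y j ≠ 0 := sub_ne_zero.mpr hij
      simpa [hmi, hmj, hs] using h3
    -- decomposition of `x`
    have hdec : x = ∑ c ∈ (Finset.univ.image y).erase 0,
        c • (fun i => if i ∈ Finset.univ.filter (fun i => y i = c) then m i else 0) := by
      funext i
      rw [Finset.sum_apply]
      simp only [Pi.smul_apply, smul_eq_mul, Finset.mem_filter, Finset.mem_univ, true_and, mul_ite,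
        mul_zero]
      rw [Finset.sum_ite_eq]
      split_ifs with h
      · rw [hxy]; ring
      · have : y i = 0 := by
          by_contra h'
          exact h (Finset.mem_erase.mpr ⟨h', Finset.mem_image_of_mem _ (Finset.mem_univ i)⟩)
        rw [hxy, this, mul_zero]
    rw [hdec]
    refine Submodule.sum_mem _ fun c hcm => Submodule.smul_mem _ _ (Submodule.subset_span ?_)
    have hc0 : c ≠ 0 := (Finset.mem_erase.mp hcm).1
    refine ⟨Finset.univ.filter (fun i => y i = c), ?_, ?_, rfl⟩
    · intro i hi j hj
      simp only [Finset.mem_filter, Finset.mem_univ, true_and] at hi hj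
      exact hc i j (by rw [hi]; exact fun h => hj h.symm)
    · intro i hi
      simp only [Finset.mem_filter, Finset.mem_univ, true_and] at hi
      have := hr i (by rw [hi]; exact hc0)
      rw [hrow] at this
      linarith
  · rw [Submodule.span_le]
    rintro _ ⟨I, hI, hI', rfl⟩
    rw [SetLike.mem_coe, LinearMap.mem_ker]
    funext i
    rw [Matrix.mulVecLin_apply, Matrix.mulVec, dotProduct]
    simp only [mul_ite, mul_zero, Pi.zero_apply]
    by_cases hi : i ∈ I
    · have h1 : ∑ j, (if j ∈ I then A i j * m j else 0) = ∑ j, A i j * m j := by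
        refine Finset.sum_congr rfl fun j _ => ?_
        split_ifs with hj
        · rfl
        · rw [hI i hi j hj, zero_mul]
      rw [h1, hrow, hI' i hi]
      ring
    · refine Finset.sum_eq_zero fun j _ => ?_
      split_ifs with hj
      · rw [hsym i j, hI j hj i hi, zero_mul]
      · rfl

end Groth.Agent.S2170
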