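import Groth.Statements.S2593
import Groth.Agent.Old.H32.EquidimPoint

set_option autoImplicit false
open CategoryTheory AlgebraicGeometry
universe u
open EGA43

namespace Groth.Agent.S2593

/-- Chevalley's criterion for universal openness: let Y be a locally Noetherian scheme all of whose
local rings are geometrically unibranch and f : X ⟶ Y a morphism locally of finite type which is
equidimensional at every point of X. Then f is universally open. (The published statement has an
arbitrary base; a locally Noetherian base is assumed here, and without it the statement fails, e.g.
for the inclusion of a non-open closed point of the spectrum of an infinite product of copies of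
𝔽₂.) -/
theorem result {X Y : Scheme.{u}} [IsLocallyNoetherian Y]
    (hY : ∀ y : Y, CAlg2.IsGeomUnibranch (Y.presheaf.stalk y)) (f : X ⟶ Y) [LocallyOfFiniteType f]
    (h : ∀ x : X, EGA43.IsEquidimAt f x) : UniversallyOpen f := by
  rw [Groth.Agent.Ega43.UnivOpenAt.universallyOpen_iff_forall_isUnivOpenAt]
  exact fun x => Groth.Agent.Old.H32.EquidimPoint.isUnivOpenAt_of_isEquidimAt hY f x (h x)

end Groth.Agent.S2593
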