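import Groth.Statements.S2594
import Groth.Agent.Old.H33.EquidimBC

set_option autoImplicit false
open CategoryTheory AlgebraicGeometry
universe u
open EGA43

namespace Groth.Agent.S2594

open CategoryTheory.Limits in
/-- Let f : X ⟶ Y be locally of finite type and equidimensional at a point x, and g : Y' ⟶ Y a flat
morphism with Y' locally Noetherian (the source states this for arbitrary Y', but its proof reduces
to the case where every irreducible component passes through the point, which needs the irreducible
components to be locally finite). Then the base change X ×_Y Y' ⟶ Y' is equidimensional at every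
point lying over x. -/
theorem result {X Y Y' : Scheme.{u}} (f : X ⟶ Y) [LocallyOfFiniteType f] (g : Y' ⟶ Y) [Flat g] [IsLocallyNoetherian Y']
    (x : X) (h : EGA43.IsEquidimAt f x) (x' : ↥(pullback f g)) (hx' : (pullback.fst f g).base x' = x) :
    EGA43.IsEquidimAt (pullback.snd f g) x' :=
  Old.H33.EquidimBC.isEquidimAt_baseChange_flat f g x h x' hx'

end Groth.Agent.S2594
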