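import Groth.Statements.S3315
import Groth.Agent.Models.H38.TrivGen

set_option autoImplicit false
universe u
open CategoryTheory CategoryTheory.Limits AlgebraicGeometry
open Models

namespace Groth.Agent.S3315

/-- Let R be a discrete valuation ring with fraction field K, C a smooth proper curve over K with H^0(C,
O_C) = K, X a regular proper model of C with generic-fibre inclusion g : C → X, Γ_1, …, Γ_n the
irreducible components of the closed fibre and L_i ⊗ I(Γ_i) ≅ O_X. If M is an invertible O_X-module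
whose pullback to C is trivial, then there are natural numbers a_i, b_i with M ⊗ L_1^{a_1} ⊗ ⋯ ⊗
L_n^{a_n} ≅ L_1^{b_1} ⊗ ⋯ ⊗ L_n^{b_n}, i.e. M ≅ O_X(Σ (b_i - a_i) Γ_i). -/
theorem result (R : Type u) [CommRing R] [IsDomain R] [IsDiscreteValuationRing R]
    (C X : Scheme.{u}) (f : C ⟶ Spec (CommRingCat.of (FractionRing R))) (p : X ⟶ Spec (CommRingCat.of R))
    (hC : Curve.IsSmoothProperCurve (FractionRing R) C f) (hH0 : IsIso f.appTop)
    (hX : Models.IsRegularProperModel R X p C f)
    {n : ℕ} (Γ : Fin n → ArSurf.VertComp R (Over.mk p)) (hΓ : Models.IsComponentList R (Over.mk p) Γ)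
    (g : C ⟶ X) (hg : IsPullback g f p (Spec.map (CommRingCat.ofHom (algebraMap R (FractionRing R)))))
    (L : Fin n → X.Modules) (hL : ∀ i, ClSub.IsInverseOf (L i) (ClSub.idealMod (Γ i).ι.ker)) (M : X.Modules) (hM : PicF.IsInvertible M)
    (htriv : Nonempty ((Scheme.Modules.pullback g).obj M ≅ Coh.structureModule C)) :
    ∃ a b : Fin n → ℕ, Nonempty (CohB1.tensorMod M (FGA.multiTwist L a) ≅ FGA.multiTwist L b) := by
  have hflat : Flat p := hX.1.1
  have hproper : IsProper p := hX.2.1
  have hloc : IsLocallyNoetherian X := LocallyOfFiniteType.isLocallyNoetherian p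
  have hcomp : CompactSpace X := QuasiCompact.compactSpace_of_compactSpace p
  have hnoeth : IsNoetherian X := { }
  obtain ⟨c, hc⟩ := Groth.Agent.Models.H38.TrivGen.exists_multiTwist_of_trivial hg Γ hΓ L hL hM htriv
  refine ⟨0, c, ?_⟩
  rw [← Groth.Agent.Fga.PicMon.mc_eq_iff, Groth.Agent.Fga.PicMon.mc_tensor,
    Groth.Agent.Fga.PicMon.mc_multiTwist L 0]
  simp only [Pi.zero_apply, pow_zero, Finset.prod_const_one, mul_one]
  exact (Groth.Agent.Fga.PicMon.mc_eq_iff _ _).2 hc

end Groth.Agent.S3315
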