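import Groth.Statements.S3326
import Groth.Agent.Models.H50.ExcNum
import Groth.Agent.Models.H55.ExcCrit

set_option autoImplicit false
universe u
open CategoryTheory CategoryTheory.Limits AlgebraicGeometry
open Models

namespace Groth.Agent.S3326

/-- Let R be a discrete valuation ring with residue field k and fraction field K, C a smooth proper
curve over K with H^0(C, O_C) = K, X a regular proper model of C over R, Γ_1, …, Γ_n the irreducible
components of the closed fibre of X, and L_i an O_X-module inverse to the ideal sheaf of Γ_i (L_i ⊗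
I(Γ_i) ≅ O_X). Then the component Γ_i is an exceptional curve of the first kind (an effective
Cartier divisor isomorphic to a projective line over a field, with conormal sheaf of degree one) if
and only if its genus is zero, i.e. H^1(Γ_i, O) = 0, and its self-intersection (Γ_i · Γ_i) =
deg_k(L_i|Γ_i) equals -[κ_i : k] = -dim_k H^0(Γ_i, O). The published statement is phrased
differently; this is a per-component form of it. -/
theorem result (R : Type u) [CommRing R] [IsDomain R] [IsDiscreteValuationRing R]
    (C X : Scheme.{u}) (f : C ⟶ Spec (CommRingCat.of (FractionRing R))) (p : X ⟶ Spec (CommRingCat.of R))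
    (hC : Curve.IsSmoothProperCurve (FractionRing R) C f) (hH0 : IsIso f.appTop)
    (hX : Models.IsRegularProperModel R X p C f)
    {n : ℕ} (Γ : Fin n → ArSurf.VertComp R (Over.mk p)) (hΓ : Models.IsComponentList R (Over.mk p) Γ)
    (L : Fin n → X.Modules) (hL : ∀ i, ClSub.IsInverseOf (L i) (ClSub.idealMod (Γ i).ι.ker)) (i : Fin n) :
    Models.IsExcCurve (Γ i).ι ↔
      Models.h1 R (Over.mk p) (Γ i) = 0 ∧ ArSurf.inter R (Over.mk p) (L i) (Γ i) = -(Models.wdeg R (Over.mk p) (Γ i) : ℤ) := by
  have hproper : IsProper (Over.mk p).hom := hX.2.1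
  exact ⟨fun h => Groth.Agent.Models.H50.ExcNum.exc_numbers (Γ i) h (hL i),
    fun h => Groth.Agent.Models.H55.ExcCrit.isExcCurve (Γ i) (L i) (hL i) h.1 h.2⟩

end Groth.Agent.S3326
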