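import Groth.Statements.S3329
import Groth.Agent.Models.H54.Bridge
import Groth.Agent.Models.H52.ContrStep

set_option autoImplicit false
universe u
open CategoryTheory CategoryTheory.Limits AlgebraicGeometry
open Models

namespace Groth.Agent.S3329

/-- Let R be a discrete valuation ring with fraction field K, C a smooth proper curve over K with H^0(C,
O_C) = K, and Y a regular proper model of C with generic-fibre inclusion g_Y. Then there are a
minimal model X of C, with generic-fibre inclusion g_X, and a morphism of models Y → X (an
R-morphism compatible with g_Y and g_X) which is a finite composite of contractions of exceptional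
curves of the first kind. -/
theorem result (R : Type u) [CommRing R] [IsDomain R] [IsDiscreteValuationRing R]
    (C Y : Scheme.{u}) (f : C ⟶ Spec (CommRingCat.of (FractionRing R))) (q : Y ⟶ Spec (CommRingCat.of R))
    (hC : Curve.IsSmoothProperCurve (FractionRing R) C f) (hH0 : IsIso f.appTop)
    (hY : Models.IsRegularProperModel R Y q C f) (gY : C ⟶ Y) (hgY : IsPullback gY f q (Spec.map (CommRingCat.ofHom (algebraMap R (FractionRing R))))) :
    ∃ (X : Scheme.{u}) (p : X ⟶ Spec (CommRingCat.of R)) (gX : C ⟶ X) (b : Y ⟶ X),
      Models.IsMinimalModel R X p C f ∧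
      IsPullback gX f p (Spec.map (CommRingCat.ofHom (algebraMap R (FractionRing R)))) ∧
      b ≫ p = q ∧ gY ≫ b = gX ∧ Models.IsContractionSeq b := by
  obtain ⟨X, p, gX, b, -, h1, h2, h3, h4, h5⟩ :=
    Groth.Agent.Models.H52.ContrStep.exists_minimalModel C Y f q
      (Groth.Agent.Models.H54.Bridge.isArithSurface_of_curve hY hC) gY hgY
  exact ⟨X, p, gX, b, h1, h2, h3, h4, h5⟩

end Groth.Agent.S3329
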