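import Groth.Statements.S3334
import Groth.Agent.Models.H57.ConicMain

set_option autoImplicit false
universe u
open CategoryTheory CategoryTheory.Limits AlgebraicGeometry
open Models

namespace Groth.Agent.S3334

/-- Let R be a discrete valuation ring with fraction field K and C a smooth proper curve over K with
H^0(C, O_C) = K and genus dim_K H^1(C, O_C) = 0. Then there is a finite separable field extension K
→ K' of degree at most 2 such that C_{K'} is K'-isomorphic to the projective line over K' (so that
C_{K'} is the generic fibre of the projective line over the integral closure of R in K'). The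
printed statement says degree 2; the argument produces an extension of degree at most 2, which is
what is asserted here. -/
theorem result (R : Type u) [CommRing R] [IsDomain R] [IsDiscreteValuationRing R]
    (C : Scheme.{u}) (f : C ⟶ Spec (CommRingCat.of (FractionRing R)))
    (hC : Curve.IsSmoothProperCurve (FractionRing R) C f) (hH0 : IsIso f.appTop)
    (hg : Models.curveGenus (FractionRing R) C f = 0) :
    ∃ (K' : Type u) (_ : Field K') (ψ : FractionRing R →+* K'),
      Models.IsFiniteSeparable ψ ∧ Models.homDegree ψ ≤ 2 ∧
      ∃ e : (pullback f (Spec.map (CommRingCat.ofHom ψ))) ≅ CohB1.ProjSpace 1 K',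
        e.hom ≫ CohB1.ProjSpace.toSpec 1 K' = (pullback.snd f (Spec.map (CommRingCat.ofHom ψ))) :=
  Groth.Agent.Models.H57.ConicMain.main (FractionRing R) C f hC hH0 hg

end Groth.Agent.S3334
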