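import Groth.Statements.S3338
import Groth.Agent.Models.H61.ExcSmooth

set_option autoImplicit false
universe u
open CategoryTheory CategoryTheory.Limits AlgebraicGeometry
open Models

namespace Groth.Agent.S3338

/-- The step (1) implies (2) as proved there: let R be a discrete valuation ring with fraction field K,
C a smooth proper curve over K with H^0(C, O_C) = K, and X a proper smooth model of C over R. Then X
is a minimal model (regular, proper, with no exceptional curve of the first kind in its closed
fibre). -/
theorem result (R : Type u) [CommRing R] [IsDomain R] [IsDiscreteValuationRing R]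
    (C X : Scheme.{u}) (f : C ⟶ Spec (CommRingCat.of (FractionRing R))) (p : X ⟶ Spec (CommRingCat.of R))
    (hC : Curve.IsSmoothProperCurve (FractionRing R) C f) (hH0 : IsIso f.appTop)
    (hX : Models.IsModel R X p C f) [IsProper p] [Smooth p] :
    Models.IsMinimalModel R X p C f := by
  have hflat : Flat p := hX.1
  refine ⟨⟨hX, inferInstance, fun x => Groth.Agent.Fga.DVRGeom.isRegularLocalRing_stalk p x⟩, fun Γ => ?_⟩
  obtain ⟨ϖ, hϖ⟩ := IsDiscreteValuationRing.exists_irreducible R
  have h0 : Γ.ι.appTop (Groth.Agent.Fga.DVRGeom.scal p ϖ) = 0 :=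
    Groth.Agent.Models.H61.ExcSmooth.vertComp_appTop_scal p Γ hϖ
  refine Groth.Agent.Models.H61.ExcSmooth.not_isExcCurve p hϖ.ne_zero Γ.ι (fun e => ?_) h0
  exact Groth.Agent.Fga.DVRGeom.isPrime_span_ge p hϖ _
    (Groth.Agent.Models.H61.ExcSmooth.notMem_basicOpen_of_appTop_eq_zero Γ.ι _ h0 e)

end Groth.Agent.S3338
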