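import Groth.Statements.S3339
import Groth.Agent.Models.H62.ContrMain

set_option autoImplicit false
universe u
open CategoryTheory CategoryTheory.Limits AlgebraicGeometry
open Models

namespace Groth.Agent.S3339

/-- Let R be a discrete valuation ring and p : X → Spec R an at-worst-nodal family of curves (flat,
locally of finite presentation, every fibre having all irreducible components of dimension one and
at-worst-nodal singularities). Let ι : E → X be a closed subscheme which is an exceptional curve of
the first kind, and b : X → X' a contraction of E: X' is Noetherian, b is proper, maps E onto a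
single closed point x' whose local ring is regular of dimension 2, and is a blowing up of X' in x'.
Let p' : X' → Spec R be a morphism locally of finite type with p = p' ∘ b. Then p' is again an
at-worst-nodal family of curves. (The published statement does not list the hypothesis that p' is
locally of finite type separately, its contractions being projective over R; it is assumed
explicitly here.) -/
theorem result (R : Type u) [CommRing R] [IsDomain R] [IsDiscreteValuationRing R]
    (X X' E : Scheme.{u}) (p : X ⟶ Spec (CommRingCat.of R)) (p' : X' ⟶ Spec (CommRingCat.of R))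
    (hp : Curv2.IsNodalFamily p) (ι : E ⟶ X) [IsClosedImmersion ι] (hE : Models.IsExcCurve ι)
    (b : X ⟶ X') (hb : Models.IsContractionOf ι b) (hcomm : b ≫ p' = p) [LocallyOfFiniteType p'] :
    Curv2.IsNodalFamily p' := by
  obtain ⟨hN, hproper, y, hy, hrange, hreg, hdim, hbl⟩ := hb
  subst hcomm
  have hlfp : LocallyOfFinitePresentation p' :=
    Groth.Agent.CurvesB.NodeSch2.locallyOfFinitePresentation_of_isLocallyNoetherian p'
  obtain ⟨x0, hx0⟩ : ∃ x0 : X, b x0 = y := by
    obtain ⟨e, he⟩ : y ∈ Set.range ((ι ≫ b).base : E → X') := by rw [hrange]; rfl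
    exact ⟨ι e, he⟩
  obtain ⟨s, hs, hsne⟩ := Groth.Agent.Models.H62.ContrMain.exists_generization b p' hp y hy hbl hdim
  have hne : (p' y).asIdeal ≠ ⊥ := by
    intro h
    apply hsne
    have h1 : s.asIdeal ≤ (p' y).asIdeal := (PrimeSpectrum.le_iff_specializes s (p' y)).2 hs
    apply PrimeSpectrum.ext
    rw [h] at h1 ⊢
    exact le_bot_iff.1 h1
  have hprime : (p' y).asIdeal.IsPrime := (p' y).isPrime
  let _ : Algebra R ((Spec (CommRingCat.of R)).presheaf.stalk (p' y)) := StructureSheaf.stalkAlgebra R (p' y)
  have h1 : IsLocalization.AtPrime ((Spec (CommRingCat.of R)).presheaf.stalk (p' y)) (p' y).asIdeal :=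
    StructureSheaf.IsLocalization.to_stalk R (p' y)
  have hdom : IsDomain ((Spec (CommRingCat.of R)).presheaf.stalk (p' y)) :=
    IsLocalization.isDomain_of_atPrime _ (p' y).asIdeal
  have hdvr : IsDiscreteValuationRing ((Spec (CommRingCat.of R)).presheaf.stalk (p' y)) :=
    IsLocalization.AtPrime.isDiscreteValuationRing_of_dedekind_domain R hne _
  exact Groth.Agent.Models.H62.ContrMain.isNodalFamily_of_sm b p' hp y hy hbl
    (Groth.Agent.Models.H62.ContrMain.sm b p' hp y hy hbl hreg hdim x0 hx0)

end Groth.Agent.S3339
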