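import Groth.Statements.S3341
import Groth.Agent.Models.H64.TorsPic
import Groth.Agent.Models.H64.RegInt
import Groth.Agent.Fdesc.LocGenPullback

set_option autoImplicit false
universe u
open CategoryTheory CategoryTheory.Limits AlgebraicGeometry
open Models

namespace Groth.Agent.S3341

open Groth.Agent.Fdesc.LocGen

/-- A generator on the image of an open immersion of a module with trivial pullback. -/
theorem exists_gen_of_triv {C X : Scheme.{u}} (g : C ⟶ X) [IsOpenImmersion g] {M : X.Modules}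
    (φ : (Scheme.Modules.pullback g).obj M ≅ Coh.structureModule C) {U : X.Opens} (hU : U ≤ g.opensRange) :
    ∃ e : Γ(M, U), IsGen e := by
  let ψ : Coh.structureModule C ≅ M.restrict g :=
    φ.symm ≪≫ ((Scheme.Modules.restrictFunctorIsoPullback g).app M).symm
  have h1 : IsGen (sec ψ.hom ⊤) := (isIso_iff_isGen ψ.hom).mp inferInstance
  obtain ⟨m, hm⟩ := (toRestrict (M := M) g (U := ⊤)).surjective (sec ψ.hom ⊤)
  rw [← hm, isGen_toRestrict_iff] at h1
  exact ⟨res M (by rw [Scheme.Hom.image_top_eq_opensRange]; exact hU) m, h1.res _⟩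

/-- normal form of the section over the generic fibre -/
theorem exists_normal_form {R : Type u} [CommRing R] [IsDomain R] [IsDiscreteValuationRing R]
    {X : Scheme.{u}} [IsIntegral X] [CompactSpace X] [QuasiSeparatedSpace X]
    (φ : R →+* Γ(X, ⊤)) (hφ : Function.Bijective φ) {ϖ : R} (hϖ : Irreducible ϖ) (F : Γ(X, ⊤)) (hF : F = φ ϖ)
    {M : X.Modules} {h : ℕ}
    (hh : 0 < h) (E : Γ(CohB1.tensorPow M h, ⊤)) (hE : IsGen E)
    (e₀ : Γ(M, X.basicOpen F)) (he₀ : IsGen e₀) :
    ∃ (E' : Γ(CohB1.tensorPow M h, ⊤)) (e₁ : Γ(M, X.basicOpen F)) (c : ℕ), IsGen E' ∧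
      pow e₁ h = ores (V := X.basicOpen F) le_top F ^ c • res (CohB1.tensorPow M h) le_top E' := by
  have hF0 : F ≠ 0 := by
    rw [hF]; exact fun h0 => hϖ.ne_zero (hφ.1 (by rw [h0, map_zero]))
  obtain ⟨a, ha, hEa⟩ := (hE.res (le_top : X.basicOpen F ≤ ⊤)).exists_unit (he₀.pow h)
  have hloc : IsLocalization.Away F Γ(X, X.basicOpen F) :=
    isLocalization_basicOpen_of_qcqs isCompact_univ isQuasiSeparated_univ F
  obtain ⟨N, b, hb⟩ := IsLocalization.Away.surj F a
  have hb' : a * ores (V := X.basicOpen F) le_top F ^ N = ores (V := X.basicOpen F) le_top b := hb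
  have hne' : Nonempty (X.basicOpen F) := by
    by_contra hne
    apply hF0
    apply (basicOpen_eq_bot_iff F).mp
    ext x
    exact ⟨fun hx => (hne ⟨⟨x, hx⟩⟩).elim, fun hx => hx.elim⟩
  have hFu : IsUnit (ores (V := X.basicOpen F) le_top F) :=
    IsLocalization.Away.algebraMap_isUnit (S := Γ(X, X.basicOpen F)) F
  obtain ⟨r, rfl⟩ := hφ.2 b
  have hr : r ≠ 0 := by
    rintro rfl
    rw [map_zero, map_zero] at hb'
    exact (ha.mul (hFu.pow N)).ne_zero hb'
  obtain ⟨k, u, rfl⟩ := IsDiscreteValuationRing.eq_unit_mul_pow_irreducible hr hϖ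
  obtain ⟨h', rfl⟩ : ∃ h', h = h' + 1 := ⟨h - 1, by omega⟩
  refine ⟨φ u • E, ores (V := X.basicOpen F) le_top F ^ N • e₀, N * h' + k,
    hE.unit_smul (u.isUnit.map _), ?_⟩
  rw [smul_pow, hEa, res_smul, smul_smul, smul_smul]
  congr 1
  rw [map_mul, map_mul, map_pow, map_pow, ← hF] at hb'
  calc (ores (V := X.basicOpen F) le_top F ^ N) ^ (h' + 1) * a
      = (ores (V := X.basicOpen F) le_top F ^ (N * h')) * (a * ores (V := X.basicOpen F) le_top F ^ N) := by ring
    _ = _ := by rw [hb']; ring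

/-- In the following situation (R a discrete valuation ring, C a smooth proper curve over its fraction field
K with H^0(C, O_C) = K, X a regular proper model with generic-fibre inclusion g, Γ_1, …, Γ_n
the irreducible components of the closed fibre with multiplicities m_i) let d = gcd(m_1, …, m_n) and
let h ≥ 1 be prime to d. If M is an invertible O_X-module with M^{⊗h} ≅ O_X whose pullback to C is
trivial, then M ≅ O_X: the map Pic(X)[h] → Pic(C)[h] is injective. -/
theorem result (R : Type u) [CommRing R] [IsDomain R] [IsDiscreteValuationRing R]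
    (C X : Scheme.{u}) (f : C ⟶ Spec (CommRingCat.of (FractionRing R))) (p : X ⟶ Spec (CommRingCat.of R))
    (hC : Curve.IsSmoothProperCurve (FractionRing R) C f) (hH0 : IsIso f.appTop)
    (hX : Models.IsRegularProperModel R X p C f)
    {n : ℕ} (Γ : Fin n → ArSurf.VertComp R (Over.mk p)) (hΓ : Models.IsComponentList R (Over.mk p) Γ)
    (g : C ⟶ X) (hg : IsPullback g f p (Spec.map (CommRingCat.ofHom (algebraMap R (FractionRing R))))) (h : ℕ) (hh : 0 < h) (hcop : Nat.Coprime h (Models.multGcd R (Over.mk p) Γ))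
    (M : X.Modules) (hM : PicF.IsInvertible M)
    (htors : Nonempty (CohB1.tensorPow M h ≅ Coh.structureModule X))
    (htriv : Nonempty ((Scheme.Modules.pullback g).obj M ≅ Coh.structureModule C)) :
    Nonempty (M ≅ Coh.structureModule X) := by
  obtain ⟨⟨hflat, -, -, -⟩, hproper, hreg⟩ := hX
  have hCint : IsIntegral C := hC.2.2.1
  have hXint : IsIntegral X := Models.H64.RegInt.isIntegral hg hreg
  have hgo : IsOpenImmersion g := Models.DVRGeneric.isOpenImmersion_of_isPullback hg
  have hiso : IsIso p.appTop := Models.DVRGeneric.isIso_appTop hg hH0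
  have hcs : CompactSpace X := (quasiCompact_iff_compactSpace p).mp inferInstance
  have hqs : QuasiSeparatedSpace X := (quasiSeparated_iff_quasiSeparatedSpace p).mp inferInstance
  obtain ⟨ϖ, hϖ⟩ := IsDiscreteValuationRing.exists_irreducible R
  let φ : R →+* Γ(X, ⊤) := Coh.toGlobal p
  have hφ : Function.Bijective φ := by
    have h1 : Function.Bijective (p.appTop) := ConcreteCategory.bijective_of_isIso p.appTop
    have h2 : Function.Bijective ((Scheme.ΓSpecIso (CommRingCat.of R)).inv) := ConcreteCategory.bijective_of_isIso _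
    exact h1.comp h2
  obtain ⟨F, hF⟩ : ∃ F : Γ(X, ⊤), F = φ ϖ := ⟨_, rfl⟩
  have hF0 : F ≠ 0 := by
    rw [hF]; exact fun h0 => hϖ.ne_zero (hφ.1 (by rw [h0, map_zero]))
  have hU : X.basicOpen F ≤ g.opensRange := by
    rw [hF]
    exact (Models.H64.RegInt.opensRange_eq_basicOpen hg hϖ).ge
  obtain ⟨e₀, he₀⟩ := exists_gen_of_triv g htriv.some hU
  have hE : IsGen (sec htors.some.inv ⊤) := (isIso_iff_isGen htors.some.inv).mp inferInstance
  obtain ⟨E', e₁, c, hE', hpow⟩ := exists_normal_form φ hφ hϖ F hF hh _ hE e₀ he₀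
  have hn : ∀ V : X.Opens, IsAffineOpen V → Nonempty V → IsIntegrallyClosed Γ(X, V) := fun V hV _ =>
    Models.H64.RegInt.isIntegrallyClosed_sections hreg hV
  refine Models.H64.TorsPic.nonempty_iso h F E' e₁ c hn hM hh hE' hpow hF0 ?_
  have h1 : ∀ i, h ∣ c * Models.mult R (Over.mk p) (Γ i) := by
    intro i
    have h2 := Models.H64.TorsPic.dvd_mul_ord h F E' e₁ c hn hM hh hE' hpow hF0 (genPtOf R (Over.mk p) (Γ i))
    have h3 : Ideal.map (stalkHom R (Over.mk p) (genPtOf R (Over.mk p) (Γ i))) (IsLocalRing.maximalIdeal R) =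
        Ideal.span {(X.presheaf.germ ⊤ (genPtOf R (Over.mk p) (Γ i)) trivial).hom F} := by
      rw [hϖ.maximalIdeal_eq, Ideal.map_span, Set.image_singleton, hF]
      rfl
    unfold Models.mult
    rw [h3]
    exact h2
  have h4 : h ∣ c * Models.multGcd R (Over.mk p) Γ := by
    have h5 : h ∣ Finset.univ.gcd fun i => c * Models.mult R (Over.mk p) (Γ i) :=
      Finset.dvd_gcd fun i _ => h1 i
    rw [Finset.gcd_mul_left, normalize_eq] at h5
    exact h5
  exact hcop.dvd_of_dvd_mul_right h4

end Groth.Agent.S3341
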