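import Groth.Statements.S3343
-- import your own Groth.Agent.* helpers here
import Groth.Agent.S2223
import Groth.Agent.Models.H66.RedCore
import Groth.Agent.Models.H66.RedGeom

set_option autoImplicit false
universe u
open CategoryTheory CategoryTheory.Limits AlgebraicGeometry
open Models

namespace Groth.Agent.S3343

open Groth.Agent.Fdesc.LocGen Groth.Agent.Models.SpecFib Groth.Agent.Models.TrivGeom
open Groth.Agent.Models.H66.RedGeom

/-- Let R be a discrete valuation ring with fraction field K and residue field k, C a smooth proper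
curve over K with H^0(C, O_C) = K and X a regular proper model of C. Let h ≥ 1 be an integer prime
to the characteristic of k and M an invertible O_X-module with M^{⊗h} ≅ O_X. If the pullback of M to
the reduced closed fibre (X_k)_red is trivial, then M is trivial. -/
theorem result (R : Type u) [CommRing R] [IsDomain R] [IsDiscreteValuationRing R]
    (C X : Scheme.{u}) (f : C ⟶ Spec (CommRingCat.of (FractionRing R))) (p : X ⟶ Spec (CommRingCat.of R))
    (hC : Curve.IsSmoothProperCurve (FractionRing R) C f) (hH0 : IsIso f.appTop)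
    (hX : Models.IsRegularProperModel R X p C f) (h : ℕ) (hh : 0 < h)
    (hchar : ∀ q : ℕ, q.Prime → CharP (IsLocalRing.ResidueField R) q → ¬ q ∣ h)
    (M : X.Modules) (hM : PicF.IsInvertible M)
    (htors : Nonempty (CohB1.tensorPow M h ≅ Coh.structureModule X))
    (htriv : Nonempty ((Scheme.Modules.pullback (Models.redFibreIdeal R (Over.mk p)).subschemeι).obj M ≅
      Coh.structureModule (Models.redFibreIdeal R (Over.mk p)).subscheme)) :
    Nonempty (M ≅ Coh.structureModule X) := by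
  obtain ⟨⟨hflat, -, hqc, γ, hγ⟩, hproper, -⟩ := hX
  obtain ⟨-, -, hCint, -⟩ := hC
  obtain ⟨α⟩ := htors
  have htriv' : Nonempty ((Scheme.Modules.pullback (ιr p)).obj M ≅
      Coh.structureModule (Models.redFibreIdeal R (Over.mk p)).subscheme) := htriv
  obtain ⟨β⟩ := htriv'
  obtain ⟨ϖ, hϖ⟩ := IsDiscreteValuationRing.exists_irreducible R
  have hhu : IsUnit (h : R) := Groth.Agent.S2223.isUnit_natCast h hh hchar
  have hsep : X.IsSeparated := ⟨by
    have : Limits.terminal.from X = p ≫ Limits.terminal.from _ := Limits.terminal.hom_ext _ _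
    rw [this]
    infer_instance⟩
  choose V₀ e₀ hxV₀ hV₀ he₀ using exists_affine_gen hM
  -- a finite subcover
  have hcpt : CompactSpace X :=
    (quasiCompact_iff_compactSpace p).1 hqc
  obtain ⟨t, ht⟩ := hcpt.isCompact_univ.elim_finite_subcover (fun x => ((V₀ x : X.Opens) : Set X))
    (fun x => (V₀ x).isOpen) (fun x _ => Set.mem_iUnion.2 ⟨x, hxV₀ x⟩)
  have hidx : ∀ x : X, ∃ y ∈ t, x ∈ V₀ y := by
    intro x
    have := ht (Set.mem_univ x)
    simpa using this
  choose idx hidxt hidxV using hidx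
  -- transition functions
  have hg₀ : ∀ x y, ∃ g : Γ(X, V₀ x ⊓ V₀ y),
      res M inf_le_right (e₀ y) = g • res M inf_le_left (e₀ x) :=
    fun x y => ((he₀ x).res (inf_le_left : V₀ x ⊓ V₀ y ≤ V₀ x)).exists_eq _
  choose g₀ hg₀ using hg₀
  let ι := ιr p
  have hb₀ : ∀ x, ∃ b : Γ(X, V₀ x), ((ι.app (V₀ x)).hom b) • one (ι ⁻¹ᵁ (V₀ x)) =
      β.hom.app (ι ⁻¹ᵁ (V₀ x)) (pullSec ι (e₀ x)) := by
    intro x
    obtain ⟨b, hb⟩ := app_surj p (V₀ x) (hV₀ x)
      (ofFun.symm (β.hom.app (ι ⁻¹ᵁ (V₀ x)) (pullSec ι (e₀ x))))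
    refine ⟨b, ?_⟩
    rw [← ofFun_eq_smul]
    change ofFun (((ιr p).app (V₀ x)).hom b) = _
    rw [hb]
    exact ofFun.apply_symm_apply _
  choose b₀ hb₀ using hb₀
  have hbg₀ : ∀ x y, ores inf_le_right (b₀ y) - g₀ x y * ores inf_le_left (b₀ x) ∈
      (Ideal.span {str R X p (V₀ x ⊓ V₀ y) ϖ}).radical := by
    intro x y
    rw [mem_rad_iff p ϖ hϖ _ ((hV₀ x).inf (hV₀ y)), map_sub, map_mul, sub_eq_zero, app_ores, app_ores]
    apply (isGen_one (ι ⁻¹ᵁ (V₀ x ⊓ V₀ y))).ext
    have e1 := congrArg (res (Coh.structureModule _)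
      (ι.preimage_mono (inf_le_right : V₀ x ⊓ V₀ y ≤ V₀ y))) (hb₀ y)
    have e2 := congrArg (res (Coh.structureModule _)
      (ι.preimage_mono (inf_le_left : V₀ x ⊓ V₀ y ≤ V₀ x))) (hb₀ x)
    rw [res_smul, res_one, ← app_res,
      res_pullSec ι (inf_le_right : V₀ x ⊓ V₀ y ≤ V₀ y) (e₀ y)] at e1
    rw [res_smul, res_one, ← app_res,
      res_pullSec ι (inf_le_left : V₀ x ⊓ V₀ y ≤ V₀ x) (e₀ x)] at e2
    rw [mul_smul]
    refine e1.trans ?_
    rw [hg₀, pullSec_smul, Scheme.Modules.Hom.app_smul]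
    exact congrArg (fun z => ((ιr p).app (V₀ x ⊓ V₀ y)).hom (g₀ x y) • z) e2.symm
  have hn₀ : ∀ x y, ∃ n : ℕ, (ores inf_le_right (b₀ y) - g₀ x y * ores inf_le_left (b₀ x)) ^ n ∈
      Ideal.span {str R X p (V₀ x ⊓ V₀ y) ϖ} := fun x y => hbg₀ x y
  choose n₀ hn₀ using hn₀
  let n : ℕ := (t ×ˢ t).sup (fun s => n₀ s.1 s.2)
  -- reindexed data
  let V : X → X.Opens := fun x => V₀ (idx x)
  let e : ∀ x, Γ(M, V x) := fun x => e₀ (idx x)
  let g : ∀ x y, Γ(X, V x ⊓ V y) := fun x y => g₀ (idx x) (idx y)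
  let b : ∀ x, Γ(X, V x) := fun x => b₀ (idx x)
  have hxV : ∀ x, x ∈ V x := hidxV
  have hV : ∀ x, IsAffineOpen (V x) := fun x => hV₀ (idx x)
  have he : ∀ x, IsGen (e x) := fun x => he₀ (idx x)
  have hg : ∀ x y, res M inf_le_right (e y) = g x y • res M inf_le_left (e x) :=
    fun x y => hg₀ (idx x) (idx y)
  have hb : ∀ x, ((ι.app (V x)).hom (b x)) • one (ι ⁻¹ᵁ (V x)) =
      β.hom.app (ι ⁻¹ᵁ (V x)) (pullSec ι (e x)) := fun x => hb₀ (idx x)
  have hbn : ∀ x y, (ores inf_le_right (b y) - g x y * ores inf_le_left (b x)) ^ n ∈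
      Ideal.span {str R X p (V x ⊓ V y) ϖ} := by
    intro x y
    have h1 : n₀ (idx x) (idx y) ≤ n :=
      Finset.le_sup (f := fun s : X × X => n₀ s.1 s.2) (b := (idx x, idx y))
        (Finset.mem_product.2 ⟨hidxt x, hidxt y⟩)
    rw [← Nat.sub_add_cancel h1, pow_add]
    exact Ideal.mul_mem_left _ _ (hn₀ (idx x) (idx y))
  clear_value n b g e
  have hV2 : ∀ x y, IsAffineOpen (V x ⊓ V y) := fun x y => (hV x).inf (hV y)
  have hcov : ⨆ x, V x = ⊤ := by
    rw [eq_top_iff]
    intro x _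
    exact TopologicalSpace.Opens.mem_iSup.2 ⟨x, hxV x⟩
  clear_value V
  -- the functions `a`
  let a : ∀ x, Γ(X, V x) := fun x => ofFun.symm (α.hom.app (V x) (pow (e x) h))
  have ha' : ∀ x, a x • one (V x) = α.hom.app (V x) (pow (e x) h) := fun x => by
    rw [← ofFun_eq_smul]; exact ofFun.apply_symm_apply _
  have ha : ∀ x, IsUnit (a x) := fun x => by
    apply (isGen_one (V x)).isUnit_of_smul
    rw [ha' x]
    exact ((he x).pow h).app α.hom
  have hag : ∀ x y, ores inf_le_right (a y) = g x y ^ h * ores inf_le_left (a x) := by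
    intro x y
    apply (isGen_one (V x ⊓ V y)).ext
    have e1 : ores (inf_le_right : V x ⊓ V y ≤ V y) (a y) • one (V x ⊓ V y) =
        α.hom.app (V x ⊓ V y) (pow (res M inf_le_right (e y)) h) := by
      have := congrArg (res (Coh.structureModule X) (inf_le_right : V x ⊓ V y ≤ V y)) (ha' y)
      rw [res_smul, res_one, ← app_res, res_pow] at this
      exact this
    have e2 : ores (inf_le_left : V x ⊓ V y ≤ V x) (a x) • one (V x ⊓ V y) =
        α.hom.app (V x ⊓ V y) (pow (res M inf_le_left (e x)) h) := by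
      have := congrArg (res (Coh.structureModule X) (inf_le_left : V x ⊓ V y ≤ V x)) (ha' x)
      rw [res_smul, res_one, ← app_res, res_pow] at this
      exact this
    rw [e1, hg, smul_pow, mul_smul, e2, Scheme.Modules.Hom.app_smul]
  have hbu : ∀ x, IsUnit ((ι.app (V x)).hom (b x)) := fun x => by
    apply (isGen_one _).isUnit_of_smul
    rw [hb x]
    exact ((he x).pullSec ι).app β.hom
  have hbq : ∀ x, IsUnit (Ideal.Quotient.mk (Ideal.span {str R X p (V x) ϖ}) (b x)) := by
    intro x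
    obtain ⟨z, hz⟩ := (hbu x).exists_right_inv
    obtain ⟨w, rfl⟩ := app_surj p (V x) (hV x) z
    have h1 : b x * w - 1 ∈ (Ideal.span {str R X p (V x) ϖ}).radical := by
      rw [mem_rad_iff p ϖ hϖ _ (hV x), map_sub, map_mul, map_one, sub_eq_zero]
      exact hz
    obtain ⟨k, hk⟩ := h1
    have h2 : IsNilpotent (Ideal.Quotient.mk (Ideal.span {str R X p (V x) ϖ}) (b x * w - 1)) :=
      ⟨k, by rw [← map_pow, Ideal.Quotient.eq_zero_iff_mem]; exact hk⟩
    have h3 := h2.isUnit_one_add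
    rw [map_sub, map_one, add_sub_cancel, map_mul] at h3
    exact isUnit_of_mul_isUnit_left h3
  -- the algebra structures
  letI algA : ∀ x, Algebra R Γ(X, V x) := fun x => (str R X p (V x)).toAlgebra
  letI algA2 : ∀ x y, Algebra R Γ(X, V x ⊓ V y) := fun x y => (str R X p (V x ⊓ V y)).toAlgebra
  let l : ∀ x y, Γ(X, V x) →ₐ[R] Γ(X, V x ⊓ V y) := fun x y =>
    { ores (inf_le_left : V x ⊓ V y ≤ V x) with
      commutes' := fun r => ores_str p _ r }
  let r : ∀ x y, Γ(X, V y) →ₐ[R] Γ(X, V x ⊓ V y) := fun x y =>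
    { ores (inf_le_right : V x ⊓ V y ≤ V y) with
      commutes' := fun r => ores_str p _ r }
  -- lift `b` from the reduced special fibre to the special fibre
  obtain ⟨b', hb'q, hb'g⟩ := Groth.Agent.Models.H66.RedCore.lift_rad ϖ hϖ.maximalIdeal_eq
    (fun x => Γ(X, V x)) (fun x y => Γ(X, V x ⊓ V y)) l r g h hhu hchar a ha hag b hbq n hbn
    (fun u hu => integral_red p ϖ hϖ V (fun x => ⟨x, hxV x⟩) hV hV2 u hu)
  -- global functions
  have hiso : IsIso p.appTop := Groth.Agent.Models.DVRGeneric.isIso_appTop hγ hH0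
  have hH0' : ∀ t : ∀ x, Γ(X, V x), (∀ x y, l x y (t x) = r x y (t y)) →
      ∃ c : R, ∀ x, t x = algebraMap R Γ(X, V x) c := by
    intro t ht
    obtain ⟨w, hw⟩ := ores_glue (V := ⊤) V (fun x => le_top) (by rw [hcov]) t ht
    obtain ⟨z, hz⟩ := (ConcreteCategory.bijective_of_isIso p.appTop).2 w
    refine ⟨(Scheme.ΓSpecIso (CommRingCat.of R)).hom.hom z, fun x => ?_⟩
    rw [← hw x, ← hz]
    change _ = str R X p (V x) _
    have h4 : (Scheme.ΓSpecIso (CommRingCat.of R)).inv.hom
        ((Scheme.ΓSpecIso (CommRingCat.of R)).hom.hom z) = z := by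
      change ((Scheme.ΓSpecIso (CommRingCat.of R)).hom ≫ (Scheme.ΓSpecIso (CommRingCat.of R)).inv).hom z = z
      rw [Iso.hom_inv_id]; rfl
    simp only [str, RingHom.comp_apply, h4]
    rfl
  obtain ⟨N, hBT⟩ := Groth.Agent.S2223.bt_cocycle p ϖ hϖ.ne_zero M hM V hxV e he g hg
  obtain ⟨s, hs1, hs2⟩ := Groth.Agent.Models.TrivMain.core ϖ hϖ.maximalIdeal_eq
    (fun x => Γ(X, V x)) (fun x y => Γ(X, V x ⊓ V y)) l r g h hhu a ha hag b' hb'q hb'g
    (fun u hu => Groth.Agent.S2223.integral_special p ϖ hϖ V hxV hV hV2 u hu) hH0' N hBT (by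
      by_contra hall
      push Not at hall
      obtain ⟨x₀⟩ : Nonempty X := by
        obtain ⟨c⟩ : Nonempty C := inferInstance
        exact ⟨γ c⟩
      choose q hq using fun x => (hall x).exists_right_inv
      obtain ⟨c, hc⟩ := hH0' q (by
        intro x y
        have h1 : IsUnit (algebraMap R Γ(X, V x ⊓ V y) ϖ) := by
          have := (hall x).map (l x y)
          rwa [AlgHom.commutes] at this
        apply h1.mul_left_injective
        have h2 := congrArg (l x y) (hq x)
        have h3 := congrArg (r x y) (hq y)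
        rw [map_mul, map_one, AlgHom.commutes] at h2 h3
        change l x y (q x) * _ = r x y (q y) * _
        rw [mul_comm, h2, mul_comm, h3])
      have h4 : algebraMap R Γ(X, V x₀) (ϖ * c - 1) = 0 := by
        rw [map_sub, map_mul, map_one, ← hc x₀, hq x₀, sub_self]
      have h5 : IsUnit (ϖ * c - 1) := by
        have h6 : ϖ * c ∈ IsLocalRing.maximalIdeal R :=
          Ideal.mul_mem_right _ _ ((IsLocalRing.mem_maximalIdeal ϖ).2 hϖ.not_isUnit)
        by_contra h7
        have h8 := (IsLocalRing.maximalIdeal R).sub_mem h6 ((IsLocalRing.mem_maximalIdeal _).2 h7)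
        rw [sub_sub_cancel] at h8
        exact (IsLocalRing.mem_maximalIdeal _).1 h8 isUnit_one
      have h6 := h5.map (algebraMap R Γ(X, V x₀))
      rw [h4, isUnit_zero_iff] at h6
      haveI : Nonempty (V x₀) := ⟨⟨x₀, hxV x₀⟩⟩
      exact zero_ne_one h6)
  -- glue the generator
  obtain ⟨σ, hσ⟩ := res_glue M (V := ⊤) V (fun x => le_top) (by rw [hcov]) (fun x => s x • e x) (by
    intro x y
    rw [res_smul, res_smul, hg, smul_smul]
    congr 1
    have := hs2 x y
    refine Eq.trans (b := g x y * ores inf_le_right (s y)) this ?_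
    rw [mul_comm])
  have hgen : IsGen σ := by
    refine IsGen.of_cover V (fun x => le_top) (by rw [hcov]) (fun x => ?_)
    rw [hσ x]
    exact (he x).unit_smul (hs1 x)
  have hI : IsIso (homOf σ) := by
    rw [isIso_iff_isGen, sec_homOf, res_refl]
    exact hgen
  exact ⟨(asIso (homOf σ)).symm⟩

end Groth.Agent.S3343
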