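import Groth.Statements.S3347
import Groth.Agent.S3326
import Groth.Agent.Models.H70.VertGlue

set_option autoImplicit false
universe u
open CategoryTheory CategoryTheory.Limits AlgebraicGeometry
open Models

namespace Groth.Agent.S3347

/-- In the following situation (R a discrete valuation ring with residue field k, C a smooth proper
curve over its fraction field K with H^0(C, O_C) = K, X a regular proper model, Γ_1, …, Γ_n the
irreducible components of the closed fibre, L_i ⊗ I(Γ_i) ≅ O_X) the following are equivalent: X is a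
minimal model (no vertical prime divisor of X is an exceptional curve of the first kind); the
numerical type of X is minimal, i.e. there is no index i with g_i = 0 (H^1(Γ_i, O) = 0) and (Γ_i ·
Γ_i) = deg_k(L_i|Γ_i) = -[κ_i : k] = -dim_k H^0(Γ_i, O). -/
theorem result (R : Type u) [CommRing R] [IsDomain R] [IsDiscreteValuationRing R]
    (C X : Scheme.{u}) (f : C ⟶ Spec (CommRingCat.of (FractionRing R))) (p : X ⟶ Spec (CommRingCat.of R))
    (hC : Curve.IsSmoothProperCurve (FractionRing R) C f) (hH0 : IsIso f.appTop)
    (hX : Models.IsRegularProperModel R X p C f)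
    {n : ℕ} (Γ : Fin n → ArSurf.VertComp R (Over.mk p)) (hΓ : Models.IsComponentList R (Over.mk p) Γ)
    (L : Fin n → X.Modules) (hL : ∀ i, ClSub.IsInverseOf (L i) (ClSub.idealMod (Γ i).ι.ker)) :
    Models.IsMinimalModel R X p C f ↔
      ∀ i, ¬ (Models.h1 R (Over.mk p) (Γ i) = 0 ∧ ArSurf.inter R (Over.mk p) (L i) (Γ i) = -(Models.wdeg R (Over.mk p) (Γ i) : ℤ)) := by
  have key := fun i => Groth.Agent.S3326.result R C X f p hC hH0 hX Γ hΓ L hL i
  constructor
  · intro h i hi
    exact h.2 (Γ i) ((key i).2 hi)
  · intro h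
    refine ⟨hX, fun Δ hΔ => ?_⟩
    obtain ⟨i, hi⟩ := (Groth.Agent.Models.H70.VertGlue.exists_isExcCurve_iff hΓ).1 ⟨Δ, hΔ⟩
    exact h i ((key i).1 hi)

end Groth.Agent.S3347
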