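import Groth.Statements.S3348
import Groth.Agent.S3315
import Groth.Agent.Models.H65.PicDeg
import Groth.Agent.Models.H71.PicVert

set_option autoImplicit false
universe u
open CategoryTheory CategoryTheory.Limits AlgebraicGeometry
open Models

namespace Groth.Agent.S3348

open Groth.Agent.Grpsch Groth.Agent.Models.H65

/-- In the following situation (R a discrete valuation ring with residue field k, C a smooth proper
curve over its fraction field K with H^0(C, O_C) = K, X a regular proper model with generic-fibre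
inclusion g, Γ_1, …, Γ_n the irreducible components of the closed fibre, L_j ⊗ I(Γ_j) ≅ O_X, a_ij =
deg_k(L_j|Γ_i), w_i = dim_k H^0(Γ_i, O)) let N be an invertible O_C-module and M an invertible
O_X-module restricting to N. Then the degree vector (deg_k(M|Γ_i))_i is of the form (Σ_j a_ij v_j)_i
for an integer vector v (the class (deg_k(M|Γ_i)/w_i)_i vanishes in the Picard group of the
numerical type, which does not depend on the choice of M) if and only if N is the restriction of an
invertible O_X-module M' with deg_k(M'|Γ_i) = 0 for all i. -/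
theorem result (R : Type u) [CommRing R] [IsDomain R] [IsDiscreteValuationRing R]
    (C X : Scheme.{u}) (f : C ⟶ Spec (CommRingCat.of (FractionRing R))) (p : X ⟶ Spec (CommRingCat.of R))
    (hC : Curve.IsSmoothProperCurve (FractionRing R) C f) (hH0 : IsIso f.appTop)
    (hX : Models.IsRegularProperModel R X p C f)
    {n : ℕ} (Γ : Fin n → ArSurf.VertComp R (Over.mk p)) (hΓ : Models.IsComponentList R (Over.mk p) Γ)
    (g : C ⟶ X) (hg : IsPullback g f p (Spec.map (CommRingCat.ofHom (algebraMap R (FractionRing R))))) (L : Fin n → X.Modules) (hL : ∀ i, ClSub.IsInverseOf (L i) (ClSub.idealMod (Γ i).ι.ker))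
    (N : C.Modules) (hN : PicF.IsInvertible N)
    (M : X.Modules) (hM : PicF.IsInvertible M) (hMN : Nonempty ((Scheme.Modules.pullback g).obj M ≅ N)) :
    (∃ v : Fin n → ℤ, ∀ i, ArSurf.inter R (Over.mk p) M (Γ i) = ∑ j, ArSurf.inter R (Over.mk p) (L j) (Γ i) * v j) ↔
      ∃ M' : X.Modules, PicF.IsInvertible M' ∧ Nonempty ((Scheme.Modules.pullback g).obj M' ≅ N) ∧
        ∀ i, ArSurf.inter R (Over.mk p) M' (Γ i) = 0 := by
  have hproper : IsProper p := hX.2.1
  have hproper' : IsProper (Over.mk p).hom := hproper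
  have hLi : ∀ j, PicF.IsInvertible (L j) := fun j =>
    (Groth.Agent.Dix.IdealModCartier.isInvertible_of_isInverseOf (hL j)).1
  have hLg : ∀ j, PicGrp.pull g (PicGrp.mk (L j) (hLi j)) = 1 := fun j =>
    Groth.Agent.Models.H71.PicVert.pull_mk_eq_one hg (Γ j) (hLi j) (hL j)
  have hNg : PicGrp.pull g (PicGrp.mk M hM) = PicGrp.mk N hN :=
    (PicGrp.mk_eq_iff _ _).2 hMN
  -- degrees as functions on the Picard group of `X`
  obtain ⟨dg, hmk, hmul, hinv, hpow, hzpow, hprod⟩ : ∃ dg : Fin n → PicGrp.Pic X → ℤ,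
      (∀ i (L' : X.Modules) (hL' : PicF.IsInvertible L'),
        dg i (PicGrp.mk L' hL') = ArSurf.inter R (Over.mk p) L' (Γ i)) ∧
      (∀ i a b, dg i (a * b) = dg i a + dg i b) ∧ (∀ i a, dg i a⁻¹ = - dg i a) ∧
      (∀ i a (m : ℕ), dg i (a ^ m) = m * dg i a) ∧ (∀ i a (m : ℤ), dg i (a ^ m) = m * dg i a) ∧
      (∀ i (a : Fin n → PicGrp.Pic X), dg i (∏ j, a j) = ∑ j, dg i (a j)) :=
    ⟨fun i => PicDeg.deg (X := Over.mk p) (Γ i), fun i L' hL' => rfl,
      fun i => PicDeg.deg_mul (X := Over.mk p) (Γ i), fun i => PicDeg.deg_inv (X := Over.mk p) (Γ i),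
      fun i => PicDeg.deg_pow (X := Over.mk p) (Γ i), fun i => PicDeg.deg_zpow (X := Over.mk p) (Γ i),
      fun i => PicDeg.deg_prod (X := Over.mk p) (Γ i) Finset.univ⟩
  constructor
  · rintro ⟨v, hv⟩
    obtain ⟨M', hM', hc⟩ := PicGrp.exists_mk
      (PicGrp.mk M hM * ∏ j, PicGrp.mk (L j) (hLi j) ^ (-v j))
    refine ⟨M', hM', ?_, ?_⟩
    · have h1 : PicGrp.pull g (PicGrp.mk M' hM') = PicGrp.mk N hN := by
        rw [← hc, map_mul, hNg, map_prod]
        simp only [map_zpow, hLg, one_zpow, Finset.prod_const_one, mul_one]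
      exact (PicGrp.mk_eq_iff _ _).1 h1
    · intro i
      rw [← hmk i M' hM', ← hc, hmul, hprod, hmk, hv i, ← Finset.sum_add_distrib]
      refine Finset.sum_eq_zero fun j _ => ?_
      rw [hzpow, hmk]
      ring
  · rintro ⟨M', hM', hM'N, hdeg⟩
    have hN' : PicGrp.pull g (PicGrp.mk M' hM') = PicGrp.mk N hN :=
      (PicGrp.mk_eq_iff _ _).2 hM'N
    obtain ⟨P, hP, hc⟩ := PicGrp.exists_mk (PicGrp.mk M hM * (PicGrp.mk M' hM')⁻¹)
    have hPg : PicGrp.pull g (PicGrp.mk P hP) = 1 := by
      rw [← hc, map_mul, map_inv, hNg, hN', mul_inv_cancel]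
    have hPt : Nonempty ((Scheme.Modules.pullback g).obj P ≅ Coh.structureModule C) :=
      (PicGrp.mk_eq_one_iff _).1 hPg
    obtain ⟨a, b, hab⟩ := Groth.Agent.S3315.result R C X f p hC hH0 hX Γ hΓ g hg L hL P hP hPt
    have h1 : PicGrp.mk P hP * PicGrp.mk (FGA.multiTwist L a) (PicDeg.isInvertible_multiTwist hLi a) =
        PicGrp.mk (FGA.multiTwist L b) (PicDeg.isInvertible_multiTwist hLi b) := by
      rw [PicGrp.mk_mul_mk]
      exact (PicGrp.mk_eq_iff _ _).2 hab
    rw [PicDeg.mk_multiTwist hLi a, PicDeg.mk_multiTwist hLi b, ← hc] at h1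
    refine ⟨fun j => (b j : ℤ) - a j, fun i => ?_⟩
    have h2 := congrArg (dg i) h1
    simp only [hmul, hinv, hprod, hpow, hmk, hdeg i] at h2
    have h3 : ∑ j, ArSurf.inter R (Over.mk p) (L j) (Γ i) * ((b j : ℤ) - a j) =
        ∑ j, (b j : ℤ) * ArSurf.inter R (Over.mk p) (L j) (Γ i) -
          ∑ j, (a j : ℤ) * ArSurf.inter R (Over.mk p) (L j) (Γ i) := by
      rw [← Finset.sum_sub_distrib]
      exact Finset.sum_congr rfl fun j _ => by ring
    rw [h3]
    linarith

end Groth.Agent.S3348
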