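import Groth.Statements.S3350
import Mathlib.Tactic.Linarith
import Mathlib.Tactic.Ring
import Mathlib.Tactic.IntervalCases
import Mathlib.Tactic.LinearCombination

set_option autoImplicit false
open Finset
open Models Models.NumericalType

namespace Groth.Agent.S3350

/-- Row `i` of `A m = 0` gives `a_ij m_j ≤ -a_ii m_i`. -/
private theorem row_le {n : ℕ} (T : Models.NumericalType n) (i j : Fin n) (hij : i ≠ j) :
    T.a i j * T.m j ≤ -(T.a i i * T.m i) := by
  have h0 : ∑ k, T.a i k * T.m k = 0 := by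
    have := congrFun T.mulVec_m i
    simpa [Matrix.mulVec, dotProduct] using this
  rw [← Finset.add_sum_erase _ _ (Finset.mem_univ i)] at h0
  have hmem : j ∈ (univ : Finset (Fin n)).erase i := by
    simp [hij.symm]
  have h1 : T.a i j * T.m j ≤ ∑ k ∈ (univ : Finset (Fin n)).erase i, T.a i k * T.m k := by
    refine Finset.single_le_sum (f := fun k => T.a i k * T.m k) (fun k hk => ?_) hmem
    have hk' : i ≠ k := fun h => (Finset.ne_of_mem_erase hk) h.symm
    exact mul_nonneg (T.offDiag_nonneg i k hk') (T.m_pos k).le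
  linarith

/-- If the inequality of `row_le` is an equality, row `i` vanishes away from `i, j`. -/
private theorem row_eq {n : ℕ} (T : Models.NumericalType n) (i j : Fin n) (hij : i ≠ j)
    (h : T.a i j * T.m j = -(T.a i i * T.m i)) (k : Fin n) (hki : k ≠ i) (hkj : k ≠ j) :
    T.a i k = 0 := by
  have h0 : ∑ k, T.a i k * T.m k = 0 := by
    have := congrFun T.mulVec_m i
    simpa [Matrix.mulVec, dotProduct] using this
  rw [← Finset.add_sum_erase _ _ (Finset.mem_univ i)] at h0
  have hmem : j ∈ (univ : Finset (Fin n)).erase i := by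
    simp [hij.symm]
  rw [← Finset.add_sum_erase _ _ hmem] at h0
  have hmem2 : k ∈ ((univ : Finset (Fin n)).erase i).erase j := by
    simp [hki, hkj]
  have h1 : T.a i k * T.m k ≤
      ∑ l ∈ ((univ : Finset (Fin n)).erase i).erase j, T.a i l * T.m l := by
    refine Finset.single_le_sum (f := fun l => T.a i l * T.m l) (fun l hl => ?_) hmem2
    have hl' : i ≠ l := fun h => (Finset.ne_of_mem_erase (Finset.mem_of_mem_erase hl)) h.symm
    exact mul_nonneg (T.offDiag_nonneg i l hl') (T.m_pos l).le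
  have h2 : T.a i k * T.m k ≤ 0 := by linarith
  have h3 : 0 ≤ T.a i k := T.offDiag_nonneg i k hki.symm
  have h4 := T.m_pos k
  rcases h3.lt_or_eq with h5 | h5
  · have := mul_pos h5 h4
    linarith
  · exact h5.symm

/-- Classification of proper subgraphs with two vertices: Let T be a numerical type on n > 2 indices and
i ≠ j two (-2)-indices (g = 0 and a_ii = -2 w_i, a_jj = -2 w_j) with a_ij > 0. Then, after possibly
exchanging i and j, one of the following holds with w = w_i: (A2) w_j = w, a_ij = w, 2 m_i ≥ m_j and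
2 m_j ≥ m_i; (B2) w_j = 2w, a_ij = 2w, m_i ≥ m_j and 2 m_j ≥ m_i; (G2) w_j = 3w, a_ij = 3w, 2 m_i ≥
3 m_j and 2 m_j ≥ m_i. -/
theorem result {n : ℕ} (T : Models.NumericalType n) (hn : 2 < n) (i j : Fin n)
    (hij : i ≠ j) (hi : T.IsMinusTwo i) (hj : T.IsMinusTwo j) (hpos : 0 < T.a i j) :
    ∃ i' j' : Fin n, ((i' = i ∧ j' = j) ∨ (i' = j ∧ j' = i)) ∧
      ((T.w j' = T.w i' ∧ T.a i' j' = T.w i' ∧ T.m j' ≤ 2 * T.m i' ∧ T.m i' ≤ 2 * T.m j') ∨
        (T.w j' = 2 * T.w i' ∧ T.a i' j' = 2 * T.w i' ∧ T.m j' ≤ T.m i' ∧ T.m i' ≤ 2 * T.m j') ∨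
        (T.w j' = 3 * T.w i' ∧ T.a i' j' = 3 * T.w i' ∧ 3 * T.m j' ≤ 2 * T.m i' ∧ T.m i' ≤ 2 * T.m j')) := by
  have hs : T.a j i = T.a i j := T.symm.apply i j
  have hmi := T.m_pos i
  have hmj := T.m_pos j
  have hwi := T.w_pos i
  have hwj := T.w_pos j
  have h1 := row_le T i j hij
  have h2 := row_le T j i hij.symm
  rw [hi.2] at h1
  rw [hj.2, hs] at h2
  -- the product inequality is strict
  have hne : ¬(T.a i j * T.m j = -(T.a i i * T.m i) ∧ T.a j i * T.m i = -(T.a j j * T.m j)) := by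
    rintro ⟨e1, e2⟩
    have hI : ({i, j} : Finset (Fin n)) ≠ univ := by
      intro h
      have hc := congrArg Finset.card h
      rw [Finset.card_univ, Fintype.card_fin, Finset.card_pair hij] at hc
      omega
    obtain ⟨k, hk, l, hl, hkl⟩ := T.connected {i, j} ⟨i, by simp⟩ hI
    simp only [Finset.mem_insert, Finset.mem_singleton, not_or] at hk hl
    rcases hk with rfl | rfl
    · exact hkl (row_eq T k j hij e1 l hl.1 hl.2)
    · exact hkl (row_eq T k i hij.symm e2 l hl.2 hl.1)
  obtain ⟨p, hp⟩ := T.w_dvd i j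
  obtain ⟨q, hq⟩ := T.w_dvd j i
  rw [hs] at hq
  have hp0 : 0 < p := by
    rw [hp] at hpos
    exact (mul_pos_iff_of_pos_left hwi).mp hpos
  have hq0 : 0 < q := by
    rw [hq] at hpos
    exact (mul_pos_iff_of_pos_left hwj).mp hpos
  -- p * m_j ≤ 2 m_i, q * m_i ≤ 2 m_j
  have g1 : p * T.m j ≤ 2 * T.m i := by
    rw [hp] at h1
    refine le_of_mul_le_mul_left ?_ hwi
    linarith
  have g2 : q * T.m i ≤ 2 * T.m j := by
    rw [hq] at h2
    refine le_of_mul_le_mul_left ?_ hwj
    linarith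
  have g3 : ¬(p * T.m j = 2 * T.m i ∧ q * T.m i = 2 * T.m j) := by
    rintro ⟨e1, e2⟩
    apply hne
    refine ⟨?_, ?_⟩
    · rw [hi.2, hp]
      linear_combination (T.w i) * e1
    · rw [hj.2, hs, hq]
      linear_combination (T.w j) * e2
  have g4 : p * q < 4 := by
    by_contra hcon
    push Not at hcon
    apply g3
    have hqm : 0 < q * T.m i := mul_pos hq0 hmi
    have hpm : 0 < p * T.m j := mul_pos hp0 hmj
    constructor
    · by_contra hlt
      have hlt' : p * T.m j < 2 * T.m i := lt_of_le_of_ne g1 hlt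
      have : (p * T.m j) * (q * T.m i) < (2 * T.m i) * (2 * T.m j) := by
        calc (p * T.m j) * (q * T.m i) < (2 * T.m i) * (q * T.m i) :=
              mul_lt_mul_of_pos_right hlt' hqm
          _ ≤ (2 * T.m i) * (2 * T.m j) := mul_le_mul_of_nonneg_left g2 (by linarith)
      have h5 : 4 * (T.m i * T.m j) ≤ (p * q) * (T.m i * T.m j) :=
        mul_le_mul_of_nonneg_right hcon (mul_pos hmi hmj).le
      nlinarith
    · by_contra hlt
      have hlt' : q * T.m i < 2 * T.m j := lt_of_le_of_ne g2 hlt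
      have : (q * T.m i) * (p * T.m j) < (2 * T.m j) * (2 * T.m i) := by
        calc (q * T.m i) * (p * T.m j) < (2 * T.m j) * (p * T.m j) :=
              mul_lt_mul_of_pos_right hlt' hpm
          _ ≤ (2 * T.m j) * (2 * T.m i) := mul_le_mul_of_nonneg_left g1 (by linarith)
      have h5 : 4 * (T.m i * T.m j) ≤ (p * q) * (T.m i * T.m j) :=
        mul_le_mul_of_nonneg_right hcon (mul_pos hmi hmj).le
      nlinarith
  have hp4 : p < 4 := by nlinarith
  have hq4 : q < 4 := by nlinarith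
  have hpq : T.w i * p = T.w j * q := by rw [← hp, ← hq]
  interval_cases p <;> interval_cases q <;> first | (exfalso; omega) | skip
  · exact ⟨i, j, Or.inl ⟨rfl, rfl⟩, Or.inl ⟨by omega, by omega, by omega, by omega⟩⟩
  · exact ⟨j, i, Or.inr ⟨rfl, rfl⟩, Or.inr (Or.inl ⟨by omega, by omega, by omega, by omega⟩)⟩
  · exact ⟨j, i, Or.inr ⟨rfl, rfl⟩, Or.inr (Or.inr ⟨by omega, by omega, by omega, by omega⟩)⟩
  · exact ⟨i, j, Or.inl ⟨rfl, rfl⟩, Or.inr (Or.inl ⟨by omega, by omega, by omega, by omega⟩)⟩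
  · exact ⟨i, j, Or.inl ⟨rfl, rfl⟩, Or.inr (Or.inr ⟨by omega, by omega, by omega, by omega⟩)⟩

end Groth.Agent.S3350
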