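import Groth.Statements.S3351
import Mathlib.LinearAlgebra.Dimension.Finite
import Mathlib.LinearAlgebra.FreeModule.PID
import Mathlib.Algebra.Module.Projective
import Mathlib.LinearAlgebra.FreeModule.Finite.Basic
import Mathlib.LinearAlgebra.FreeModule.Finite.Matrix
import Mathlib.LinearAlgebra.Dual.Lemmas
-- import your own Groth.Agent.* helpers here

set_option autoImplicit false
open Models

namespace Groth.Agent.S3351

/-- restriction of functionals to a saturated sublattice is surjective -/
theorem exists_extend_of_saturated {L : Type} [AddCommGroup L] [Module.Finite ℤ L]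
    (A : Submodule ℤ L) (htf : ∀ (c : ℤ) (x : L), c ≠ 0 → c • x ∈ A → x ∈ A)
    (ψ : Module.Dual ℤ ↥A) : ∃ φ : Module.Dual ℤ L, φ ∘ₗ A.subtype = ψ := by
  have h1 : Module.IsTorsionFree ℤ (L ⧸ A) := by
    rw [Module.isTorsionFree_iff_smul_eq_zero]
    intro c x hcx
    by_cases hc : c = 0
    · exact Or.inl hc
    · right
      obtain ⟨y, rfl⟩ := A.mkQ_surjective x
      rw [← map_smul, Submodule.mkQ_apply, Submodule.Quotient.mk_eq_zero] at hcx
      rw [Submodule.mkQ_apply, Submodule.Quotient.mk_eq_zero]
      exact htf c y hc hcx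
  have h2 : Module.Free ℤ (L ⧸ A) := Module.free_of_finite_type_torsion_free'
  obtain ⟨s, hs⟩ := Module.projective_lifting_property A.mkQ LinearMap.id A.mkQ_surjective
  have h3 : ∀ x : L, x - s (A.mkQ x) ∈ A := by
    intro x
    rw [← Submodule.Quotient.mk_eq_zero, ← Submodule.mkQ_apply, map_sub]
    have := LinearMap.congr_fun hs (A.mkQ x)
    rw [LinearMap.comp_apply] at this
    rw [this]
    simp
  let p : L →ₗ[ℤ] A := LinearMap.codRestrict A (LinearMap.id - s ∘ₗ A.mkQ) h3
  refine ⟨ψ ∘ₗ p, ?_⟩
  ext a
  have : p a = a := by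
    ext
    have : A.mkQ (a : L) = 0 := by simp
    simp [p, this]
  simp [this]

/-- rational orthogonal decomposition, denominators cleared -/
theorem exists_smul_sub_mem {L : Type} [AddCommGroup L] [Module.Finite ℤ L] [Module.Free ℤ L]
    (B : LinearMap.BilinForm ℤ L) (hpos : ∀ x, x ≠ 0 → 0 < B x x)
    (hsymm : B.IsSymm) (A : Submodule ℤ L) (y : L) :
    ∃ (n : ℤ) (a : L), n ≠ 0 ∧ a ∈ A ∧ n • y - a ∈ B.orthogonal A := by
  let b := Module.finBasis ℤ A
  let r : L →ₗ[ℤ] Module.Dual ℤ A := (LinearMap.lcomp ℤ ℤ A.subtype) ∘ₗ B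
  have hr : ∀ (x : L) (a : A), r x a = B x a := fun x a => rfl
  let v : Option (Fin (Module.finrank ℤ A)) → Module.Dual ℤ A :=
    fun o => o.elim (r y) (fun i => r (b i))
  have hv : ¬ LinearIndependent ℤ v := by
    intro h
    have h1 := h.fintype_card_le_finrank
    rw [Fintype.card_option, Fintype.card_fin] at h1
    have h2 : Module.finrank ℤ (Module.Dual ℤ A) = Module.finrank ℤ A := by
      rw [Module.finrank_linearMap, Module.finrank_self, mul_one]
    omega
  rw [Fintype.not_linearIndependent_iff] at hv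
  obtain ⟨g, hg, o, ho⟩ := hv
  rw [Fintype.sum_option] at hg
  set a : A := ∑ i, g (some i) • b i with ha
  have hra : g none • r y + r a = 0 := by
    rw [← hg, ha]
    simp [v, map_sum]
  by_cases h0 : g none = 0
  · exfalso
    rw [h0, zero_smul, zero_add] at hra
    have h1 : (a : L) = 0 := by
      by_contra h
      have h2 := hpos _ h
      rw [← hr, hra] at h2
      simp at h2
    have h2 : a = 0 := by ext; exact h1
    have h3 := Fintype.linearIndependent_iff.1 b.linearIndependent (fun i => g (some i)) (by rw [← ha, h2])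
    cases o with
    | none => exact ho h0
    | some i => exact ho (h3 i)
  · refine ⟨g none, -a, h0, A.neg_mem a.2, ?_⟩
    rw [LinearMap.BilinForm.mem_orthogonal_iff]
    intro m hm
    have := LinearMap.congr_fun hra ⟨m, hm⟩
    simp only [LinearMap.add_apply, LinearMap.smul_apply, hr, LinearMap.zero_apply] at this
    change B m (g none • y - -(a : L)) = 0
    have e1 : B m y = B y m := hsymm.eq m y
    have e2 : B m a = B a m := hsymm.eq m a
    rw [sub_neg_eq_add, map_add, map_smul, e1, e2]
    exact this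

/-- a saturated sublattice is its own double orthogonal -/
theorem mem_of_mem_orthogonal_orthogonal {L : Type} [AddCommGroup L] [Module.Finite ℤ L] [Module.Free ℤ L]
    (B : LinearMap.BilinForm ℤ L) (hpos : ∀ x, x ≠ 0 → 0 < B x x)
    (hsymm : B.IsSymm) (A : Submodule ℤ L) (htf : ∀ (c : ℤ) (x : L), c ≠ 0 → c • x ∈ A → x ∈ A)
    (y : L) (hy : ∀ z ∈ B.orthogonal A, B y z = 0) : y ∈ A := by
  obtain ⟨n, a, hn, ha, h⟩ := exists_smul_sub_mem B hpos hsymm A y
  have h1 : B y (n • y - a) = 0 := hy _ h
  have h2 : B a (n • y - a) = 0 := h a ha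
  have h3 : n • y - a = 0 := by
    by_contra h4
    have h5 := hpos _ h4
    have h6 : B (n • y - a) (n • y - a) = 0 := by
      have : B (n • y - a) (n • y - a) = n • B y (n • y - a) - B a (n • y - a) := by
        simp [LinearMap.sub_apply]
      rw [this, h1, h2]; simp
    omega
  refine htf n y hn ?_
  rw [sub_eq_zero.1 h3]
  exact ha

/-- Let L be a finite free Z-module with a positive definite symmetric integral bilinear form, A ⊆ L a
submodule with L/A torsion free and B the orthogonal complement of A. Write M^# for the dual lattice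
of a sublattice M, identified here with the Z-dual Hom(M, Z) through the form. Then the natural maps
L/(A ⊕ B) → B^#/B and L/(A ⊕ B) → A^#/A are injective: an element x of L whose functional ⟨x, -⟩ on
B (resp. on A) is represented by an element of B (resp. of A) lies in A ⊕ B. Moreover the
restriction maps L^# → B^# and L^# → A^# are surjective, so that the cokernels of the two injections
are quotients of L^#/L. -/
theorem result {L : Type} [AddCommGroup L] [Module.Finite ℤ L] [Module.Free ℤ L]
    (B : LinearMap.BilinForm ℤ L) (hsymm : B.IsSymm) (hpos : ∀ x, x ≠ 0 → 0 < B x x)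
    (A : Submodule ℤ L) (htf : ∀ (c : ℤ) (x : L), c ≠ 0 → c • x ∈ A → x ∈ A) :
    (∀ x : L, (∃ b ∈ B.orthogonal A, ∀ b' ∈ B.orthogonal A, B x b' = B b b') → x ∈ A ⊔ B.orthogonal A) ∧
      (∀ x : L, (∃ a ∈ A, ∀ a' ∈ A, B x a' = B a a') → x ∈ A ⊔ B.orthogonal A) ∧
      (∀ ψ : Module.Dual ℤ ↥(B.orthogonal A), ∃ φ : Module.Dual ℤ L, φ ∘ₗ (B.orthogonal A).subtype = ψ) ∧
      (∀ ψ : Module.Dual ℤ ↥A, ∃ φ : Module.Dual ℤ L, φ ∘ₗ A.subtype = ψ) := by
  refine ⟨?_, ?_, ?_, ?_⟩
  · rintro x ⟨b, hb, h⟩
    have h1 : x - b ∈ A := by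
      apply mem_of_mem_orthogonal_orthogonal B hpos hsymm A htf
      intro z hz
      rw [map_sub, LinearMap.sub_apply, h z hz, sub_self]
    have h2 : x = (x - b) + b := by abel
    rw [h2]
    exact Submodule.add_mem_sup h1 hb
  · rintro x ⟨a, ha, h⟩
    have h1 : x - a ∈ B.orthogonal A := by
      rw [LinearMap.BilinForm.mem_orthogonal_iff]
      intro n hn
      have := h n hn
      change B n (x - a) = 0
      have e1 : B n x = B x n := hsymm.eq n x
      have e2 : B n a = B a n := hsymm.eq n a
      rw [map_sub, e1, e2, this, sub_self]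
    have h2 : x = a + (x - a) := by abel
    rw [h2]
    exact Submodule.add_mem_sup ha h1
  · intro ψ
    apply exists_extend_of_saturated
    intro c x hc hx
    rw [LinearMap.BilinForm.mem_orthogonal_iff] at hx ⊢
    intro n hn
    have h1 : B n (c • x) = 0 := hx n hn
    change B n x = 0
    rw [map_smul, smul_eq_mul] at h1
    exact (mul_eq_zero.1 h1).resolve_left hc
  · intro ψ
    exact exists_extend_of_saturated A htf ψ

end Groth.Agent.S3351
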