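import Groth.Statements.S3352
import Mathlib.LinearAlgebra.Dimension.Torsion.Finite
import Mathlib.LinearAlgebra.Dimension.RankNullity
import Mathlib.LinearAlgebra.Dimension.Localization
import Mathlib.LinearAlgebra.Dual.Lemmas
import Mathlib.LinearAlgebra.Dual.Basis
import Mathlib.LinearAlgebra.FreeModule.PID
import Mathlib.Tactic.Linarith

set_option autoImplicit false
open Models

namespace Groth.Agent.S3352

/-- The functional form `F : N → Dual N` which is injective on a finite free module has torsion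
cokernel. -/
theorem exists_smul_mem_range {N : Type} [AddCommGroup N] [Module.Finite ℤ N] [Module.Free ℤ N]
    (F : N →ₗ[ℤ] Module.Dual ℤ N) (hF : Function.Injective F) (ψ : Module.Dual ℤ N) :
    ∃ a : ℤ, a ≠ 0 ∧ ∃ z : N, F z = a • ψ := by
  have h1 : Module.finrank ℤ (LinearMap.range F) = Module.finrank ℤ N :=
    (LinearEquiv.ofInjective F hF).finrank_eq.symm
  have h2 : Module.finrank ℤ (Module.Dual ℤ N) = Module.finrank ℤ N :=
    (Module.Free.chooseBasis ℤ N).toDualEquiv.finrank_eq.symm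
  have h3 := Submodule.finrank_quotient_add_finrank (LinearMap.range F)
  have h4 : Module.finrank ℤ (Module.Dual ℤ N ⧸ LinearMap.range F) = 0 := by omega
  have h5 := Module.finrank_eq_zero_iff_isTorsion.mp h4
  obtain ⟨a, ha⟩ := @h5 (Submodule.Quotient.mk ψ)
  refine ⟨(a : ℤ), nonZeroDivisors.coe_ne_zero a, ?_⟩
  have h6 : Submodule.Quotient.mk (p := LinearMap.range F) ((a : ℤ) • ψ) = 0 := ha
  rw [Submodule.Quotient.mk_eq_zero] at h6
  obtain ⟨z, hz⟩ := h6
  exact ⟨z, hz⟩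

/-- Let L₀, L₁ be finite free ℤ-modules with positive definite symmetric integral bilinear forms, the
form on L₀ unimodular (x ↦ ⟨x, −⟩ is a bijection L₀ → Hom(L₀, ℤ)), and let d : L₀ → L₁ and d* : L₁ →
L₀ be adjoint. Identify Im(d)^# (the dual lattice of Im(d)) with Hom(Im(d), ℤ) through the form on
L₁. Then there is an isomorphism Φ from the torsion subgroup of Coker(d* d) onto Im(d)^#/Im(d),
determined by: for x ∈ L₀ whose class is torsion, Φ[x] is the class of the functional d(y') ↦ ⟨x,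
y'⟩ (equivalently the class of (1/a)·d(y) when a·x = d* d(y)). -/
theorem result {L₀ L₁ : Type} [AddCommGroup L₀] [AddCommGroup L₁]
    [Module.Finite ℤ L₀] [Module.Free ℤ L₀] [Module.Finite ℤ L₁] [Module.Free ℤ L₁]
    (B₀ : LinearMap.BilinForm ℤ L₀) (B₁ : LinearMap.BilinForm ℤ L₁) (h₀s : B₀.IsSymm) (h₁s : B₁.IsSymm)
    (h₀p : ∀ x, x ≠ 0 → 0 < B₀ x x) (h₁p : ∀ x, x ≠ 0 → 0 < B₁ x x) (huni : Function.Bijective B₀)
    (d : L₀ →ₗ[ℤ] L₁) (ds : L₁ →ₗ[ℤ] L₀) (hadj : ∀ x y, B₁ (d x) y = B₀ x (ds y)) :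
    ∃ Φ : ↥(Submodule.torsion ℤ (L₀ ⧸ LinearMap.range (ds ∘ₗ d))) ≃ₗ[ℤ]
        (Module.Dual ℤ ↥(LinearMap.range d) ⧸
          LinearMap.range ((B₁.compl₂ (LinearMap.range d).subtype) ∘ₗ (LinearMap.range d).subtype)),
      ∀ (x : L₀) (hx : Submodule.Quotient.mk x ∈ Submodule.torsion ℤ (L₀ ⧸ LinearMap.range (ds ∘ₗ d)))
        (ψ : Module.Dual ℤ ↥(LinearMap.range d)),
        (∀ y' : L₀, ψ ⟨d y', LinearMap.mem_range_self d y'⟩ = B₀ x y') →
          Φ ⟨Submodule.Quotient.mk x, hx⟩ = Submodule.Quotient.mk ψ := by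
  classical
  let N := LinearMap.range d
  let F : N →ₗ[ℤ] Module.Dual ℤ N := (B₁.compl₂ N.subtype) ∘ₗ N.subtype
  have hF : ∀ z w : N, F z w = B₁ z w := fun _ _ => rfl
  have hFinj : Function.Injective F := by
    rw [injective_iff_map_eq_zero]
    intro z hz
    by_contra hne
    have h1 : (z : L₁) ≠ 0 := fun h => hne (Subtype.ext h)
    have h2 := h₁p z h1
    rw [← hF z z, hz] at h2
    simp at h2
  have hinj : ∀ x y : L₀, (∀ k, B₀ x k = B₀ y k) → x = y := fun x y h =>
    huni.1 (LinearMap.ext h)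
  let e : L₀ ≃ₗ[ℤ] Module.Dual ℤ L₀ := LinearEquiv.ofBijective B₀ huni
  let θ : Module.Dual ℤ N →ₗ[ℤ] L₀ := e.symm.toLinearMap ∘ₗ d.rangeRestrict.dualMap
  have hθ : ∀ (ψ : Module.Dual ℤ N) (y : L₀), B₀ (θ ψ) y = ψ (d.rangeRestrict y) := by
    intro ψ y
    have h1 : e (θ ψ) = d.rangeRestrict.dualMap ψ := e.apply_symm_apply _
    exact LinearMap.congr_fun h1 y
  have hθinj : Function.Injective θ := by
    intro ψ ψ' h
    apply LinearMap.ext
    rintro ⟨_, y, rfl⟩
    have h1 := hθ ψ y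
    have h2 := hθ ψ' y
    rw [h] at h1
    exact h1.symm.trans h2
  have hsymm₀ : ∀ x y, B₀ x y = B₀ y x := fun x y => h₀s.eq x y
  have hsymm₁ : ∀ x y, B₁ x y = B₁ y x := fun x y => h₁s.eq x y
  have hθF : ∀ y : L₀, θ (F (d.rangeRestrict y)) = ds (d y) := by
    intro y
    apply hinj
    intro k
    rw [hθ, hF]
    change B₁ (d y) (d k) = _
    rw [hsymm₁, hadj, hsymm₀]
  have hle : LinearMap.range F ≤ (LinearMap.range (ds ∘ₗ d)).comap θ := by
    rintro _ ⟨⟨_, y, rfl⟩, rfl⟩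
    exact ⟨y, (hθF y).symm⟩
  let Θ : (Module.Dual ℤ N ⧸ LinearMap.range F) →ₗ[ℤ] (L₀ ⧸ LinearMap.range (ds ∘ₗ d)) :=
    Submodule.mapQ _ _ θ hle
  have hΘ : ∀ ψ, Θ (Submodule.Quotient.mk ψ) = Submodule.Quotient.mk (θ ψ) := fun _ => rfl
  have hΘinj : Function.Injective Θ := by
    rw [injective_iff_map_eq_zero]
    intro q hq
    obtain ⟨ψ, rfl⟩ := Submodule.Quotient.mk_surjective _ q
    rw [hΘ, Submodule.Quotient.mk_eq_zero] at hq
    obtain ⟨y, hy⟩ := hq
    rw [Submodule.Quotient.mk_eq_zero]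
    refine ⟨d.rangeRestrict y, hθinj ?_⟩
    rw [hθF]
    exact hy
  have hΘr : LinearMap.range Θ = Submodule.torsion ℤ (L₀ ⧸ LinearMap.range (ds ∘ₗ d)) := by
    apply le_antisymm
    · rintro _ ⟨q, rfl⟩
      obtain ⟨ψ, rfl⟩ := Submodule.Quotient.mk_surjective _ q
      obtain ⟨a, ha, z, hz⟩ := exists_smul_mem_range F hFinj ψ
      rw [Submodule.mem_torsion_iff]
      refine ⟨⟨a, mem_nonZeroDivisors_of_ne_zero ha⟩, ?_⟩
      change a • Θ (Submodule.Quotient.mk ψ) = 0
      rw [← map_smul, ← Submodule.Quotient.mk_smul, ← hz,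
        (Submodule.Quotient.mk_eq_zero _).mpr (LinearMap.mem_range_self F z), map_zero]
    · intro q hq
      obtain ⟨x, rfl⟩ := Submodule.Quotient.mk_surjective _ q
      rw [Submodule.mem_torsion_iff] at hq
      obtain ⟨a, ha⟩ := hq
      have ha0 : (a : ℤ) ≠ 0 := nonZeroDivisors.coe_ne_zero a
      have h6 : Submodule.Quotient.mk (p := LinearMap.range (ds ∘ₗ d)) ((a : ℤ) • x) = 0 := ha
      rw [Submodule.Quotient.mk_eq_zero] at h6
      obtain ⟨y, hy⟩ := h6
      have hy' : ds (d y) = (a : ℤ) • x := hy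
      have hker : LinearMap.ker d.rangeRestrict ≤ LinearMap.ker (B₀ x) := by
        intro k hk
        rw [LinearMap.mem_ker] at hk ⊢
        have hk' : d k = 0 := congrArg Subtype.val hk
        have h7 : (a : ℤ) * B₀ x k = 0 := by
          have h8 : B₀ ((a : ℤ) • x) k = (a : ℤ) * B₀ x k := by
            rw [map_smul]; rfl
          rw [← h8, ← hy', hsymm₀, ← hadj, hk', map_zero]
          rfl
        exact (mul_eq_zero.mp h7).resolve_left ha0
      -- the functional on `N`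
      let ψ : Module.Dual ℤ N :=
        ((LinearMap.ker d.rangeRestrict).liftQ (B₀ x) hker) ∘ₗ
          (d.rangeRestrict.quotKerEquivOfSurjective d.surjective_rangeRestrict).symm.toLinearMap
      have hψ : ∀ k, ψ (d.rangeRestrict k) = B₀ x k := by
        intro k
        have h9 : (d.rangeRestrict.quotKerEquivOfSurjective d.surjective_rangeRestrict).symm
            (d.rangeRestrict k) = Submodule.Quotient.mk k := by
          rw [LinearEquiv.symm_apply_eq]
          rfl
        change ((LinearMap.ker d.rangeRestrict).liftQ (B₀ x) hker)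
          ((d.rangeRestrict.quotKerEquivOfSurjective d.surjective_rangeRestrict).symm
            (d.rangeRestrict k)) = _
        rw [h9]
        rfl
      refine ⟨Submodule.Quotient.mk ψ, ?_⟩
      rw [hΘ]
      congr 1
      apply hinj
      intro k
      rw [hθ, hψ]
  let Φ' : (Module.Dual ℤ N ⧸ LinearMap.range F) ≃ₗ[ℤ]
      ↥(Submodule.torsion ℤ (L₀ ⧸ LinearMap.range (ds ∘ₗ d))) :=
    (LinearEquiv.ofInjective Θ hΘinj).trans (LinearEquiv.ofEq _ _ hΘr)
  refine ⟨Φ'.symm, ?_⟩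
  intro x hx ψ hψ
  rw [LinearEquiv.symm_apply_eq]
  apply Subtype.ext
  change Submodule.Quotient.mk x = Θ (Submodule.Quotient.mk ψ)
  rw [hΘ]
  congr 1
  apply hinj
  intro k
  rw [hθ]
  exact (hψ k).symm

end Groth.Agent.S3352
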