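import Groth.Statements.S3356
import Groth.Agent.Sga2lef.H78.LeffMain

set_option autoImplicit false
universe u
open CategoryTheory CategoryTheory.Limits AlgebraicGeometry
open LefX

namespace Groth.Agent.S3356

/-- Let X be a locally Noetherian scheme, 𝓘 a quasi-coherent ideal with Y = V(𝓘), X_n the closed
subscheme defined by 𝓘^(n+1), and p ≥ 0. Assume: (1) the effective Lefschetz condition Leff(X, Y)
holds; (2) H^i(X, 𝓘^(n+1)/𝓘^(n+2)) = 0 for i = 1, 2 and every n ≥ p; (3) for every open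
neighbourhood U of Y and every point x outside U, the local ring O_{X,x} is parafactorial. Then for
every n ≥ p and every open U ⊇ Y the pull-back maps Pic(X) → Pic(U) and Pic(X) → Pic(X_n) are
bijective (trivial kernel and surjective on isomorphism classes). -/
theorem result (X : Scheme.{u}) [IsLocallyNoetherian X] (𝓘 : X.IdealSheafData) (p : ℕ) (h1 : LefX.LeffCond X 𝓘) (h2 : (∀ n : ℕ, p ≤ n → ∀ i : ℕ, (i = 1 ∨ i = 2) → Subsingleton (Coh.HH X (kernel (Lef.quotMap (Lef.pow_succ_le 𝓘 n))) i))) (h3 : ∀ U : X.Opens, (𝓘.support : Set X) ⊆ (U : Set X) → ∀ x : X, x ∉ U → ParaF.IsParafactorialLocalRing (X.presheaf.stalk x)) (n : ℕ) (hn : p ≤ n) (U : X.Opens) (hU : (𝓘.support : Set X) ⊆ (U : Set X)) : (Formal2.PicPullbackInjective U.ι ∧ Formal2.PicPullbackSurjective U.ι) ∧ (Formal2.PicPullbackInjective (𝓘 ^ (n + 1)).subschemeι ∧ Formal2.PicPullbackSurjective (𝓘 ^ (n + 1)).subschemeι) :=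
  ⟨Sga2lef.H78.LeffMain.pic_open U (h3 U hU),
    Sga2lef.H78.LeffMain.pic_thick 𝓘 p h1 h2 h3 n hn⟩

end Groth.Agent.S3356
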