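import Groth.Statements.S3358
import Groth.Agent.S2948
import Groth.Agent.Lefx.H80.NhdPic

set_option autoImplicit false
universe u
open CategoryTheory CategoryTheory.Limits AlgebraicGeometry
open LefX

namespace Groth.Agent.S3358

/-- Let X be a locally Noetherian scheme, 𝓘 a quasi-coherent ideal with Y = V(𝓘), Y_n the closed
subscheme defined by 𝓘^(n+1) with its closed immersion ι_n into X, and p ≥ 0. Assume Leff(X, Y) and
H^i(X, 𝓘^(n+1)/𝓘^(n+2)) = 0 for i = 1, 2 and all n ≥ p. Then for n ≥ p the map colim_U Pic(U) →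
Pic(Y_n), U running over the open neighbourhoods of Y, is bijective: every invertible O_{Y_n}-module
is the pull-back of an invertible module on some open U ⊇ Y along the factorisation of ι_n through
U, and an invertible module on an open U ⊇ Y whose pull-back to Y_n is trivial becomes trivial on
some smaller open neighbourhood of Y. -/
theorem result (X : Scheme.{u}) [IsLocallyNoetherian X] (𝓘 : X.IdealSheafData) (p : ℕ) (h1 : LefX.LeffCond X 𝓘) (h2 : (∀ n : ℕ, p ≤ n → ∀ i : ℕ, (i = 1 ∨ i = 2) → Subsingleton (Coh.HH X (kernel (Lef.quotMap (Lef.pow_succ_le 𝓘 n))) i))) (n : ℕ) (hn : p ≤ n) : (∀ N : ((𝓘 ^ (n + 1)).subscheme).Modules, PicF.IsInvertible N → ∃ (U : X.Opens) (L : (U : Scheme.{u}).Modules) (g : (𝓘 ^ (n + 1)).subscheme ⟶ U), (𝓘.support : Set X) ⊆ (U : Set X) ∧ g ≫ U.ι = (𝓘 ^ (n + 1)).subschemeι ∧ PicF.IsInvertible L ∧ Nonempty ((Scheme.Modules.pullback g).obj L ≅ N)) ∧ (∀ (U : X.Opens) (L : (U : Scheme.{u}).Modules)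 (g : (𝓘 ^ (n + 1)).subscheme ⟶ U), (𝓘.support : Set X) ⊆ (U : Set X) → g ≫ U.ι = (𝓘 ^ (n + 1)).subschemeι → PicF.IsInvertible L → Nonempty ((Scheme.Modules.pullback g).obj L ≅ Coh.structureModule _) → ∃ (V : X.Opens) (hVU : V ≤ U), (𝓘.support : Set X) ⊆ (V : Set X) ∧ Nonempty ((Scheme.Modules.pullback (X.homOfLE hVU)).obj L ≅ Coh.structureModule _)) := by
  have h2' : ∀ m : ℕ, n ≤ m → ∀ i : ℕ, (i = 1 ∨ i = 2) →
      Subsingleton (Coh.HH X (kernel (Lef.quotMap (Lef.pow_succ_le 𝓘 m))) i) := fun m hm => h2 m (hn.trans hm)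
  refine ⟨fun N hN => Groth.Agent.Lefx.H80.NhdPic.exists_nhd 𝓘 h1 n (fun m hm => h2' m hm 2 (Or.inr rfl)) N hN,
    fun U L g hU hg hL e => ?_⟩
  obtain ⟨e⟩ := e
  obtain ⟨e'⟩ := Groth.Agent.S2948.result X 𝓘 h1.1 n (fun m hm => h2' m hm 1 (Or.inl rfl)) U hU n le_rfl L
    (Coh.structureModule _) hL Groth.Agent.Fdesc.LocGen.isInvertible_structureModule
    ⟨by
      have hk : Groth.Agent.Sga2.LefOpen.κ 𝓘 U n ≫ g = Groth.Agent.Sga2.LefThick.tι (𝓘.comap U.ι) n := by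
        rw [← cancel_mono U.ι, Category.assoc, hg, Groth.Agent.Sga2.LefOpen.κ_tι]
      exact Groth.Agent.Lefx.H80.NhdPic.pullCompIso (Groth.Agent.Sga2.LefOpen.κ 𝓘 U n) g _ hk e
        (Groth.Agent.PerfC.PullRestrict.pullbackUnit _) ≪≫
        (Groth.Agent.PerfC.PullRestrict.pullbackUnit _).symm⟩
  exact ⟨U, le_rfl, hU, ⟨(Scheme.Modules.pullback (X.homOfLE (le_refl U))).mapIso e' ≪≫
    Groth.Agent.PerfC.PullRestrict.pullbackUnit _⟩⟩

end Groth.Agent.S3358
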