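import Groth.Statements.S3363
import Groth.Agent.Sga2lef.H85.EtPunct
import Groth.Agent.Pi1A.ClopenCrit
import Groth.Agent.Fga.ConnExt

set_option autoImplicit false
universe u
open CategoryTheory CategoryTheory.Limits AlgebraicGeometry TopologicalSpace
open LefX

namespace Groth.Agent.S3363

open PrimeSpectrum IsLocalRing LocCoh

/-- The spectrum of a normal domain is a normal scheme. -/
theorem isNormalScheme_spec (R : Type u) [CommRing R] [IsDomain R] [IsIntegrallyClosed R] :
    Pi1.IsNormalScheme (Spec (CommRingCat.of R)) := by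
  intro x
  have hx : x.asIdeal.IsPrime := x.isPrime
  let _ : Algebra R ((Spec (CommRingCat.of R)).presheaf.stalk x) := StructureSheaf.stalkAlgebra R x
  have h1 : IsLocalization.AtPrime ((Spec (CommRingCat.of R)).presheaf.stalk x) x.asIdeal :=
    StructureSheaf.IsLocalization.to_stalk R x
  have h2 : IsDomain ((Spec (CommRingCat.of R)).presheaf.stalk x) :=
    IsLocalization.isDomain_of_atPrime _ x.asIdeal
  exact ⟨h2, isIntegrallyClosed_of_isLocalization _ x.asIdeal.primeCompl
    x.asIdeal.primeCompl_le_nonZeroDivisors⟩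

theorem mem_puncturedSpec (A : Type u) [CommRing A] [IsLocalRing A] (x : PrimeSpectrum A) :
    (x : Spec (CommRingCat.of A)) ∈ FEt.puncturedSpec A ↔ x ≠ closedPoint A := Iff.rfl

/-- Extending clopen subsets along an embedding meeting every connected component in a connected
set. -/
theorem exists_clopen_of_components {Y T : Type*} [TopologicalSpace Y] [TopologicalSpace T]
    (p : Y → T) (hp : Topology.IsEmbedding p)
    (hT : ∀ x : T, IsOpen (connectedComponent x) ∧
      _root_.IsConnected (Set.range p ∩ connectedComponent x))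
    (V : Set Y) (hV : IsClopen V) : ∃ W : Set T, IsClopen W ∧ p ⁻¹' W = V := by
  let W : Set T := {x | ∃ y ∈ V, p y ∈ connectedComponent x}
  have hsat : ∀ x x' : T, x' ∈ connectedComponent x → (x ∈ W ↔ x' ∈ W) := by
    intro x x' hx
    have h1 : connectedComponent x' = connectedComponent x := (connectedComponent_eq hx).symm
    constructor
    · rintro ⟨y, hy, h⟩
      exact ⟨y, hy, h1 ▸ h⟩
    · rintro ⟨y, hy, h⟩
      exact ⟨y, hy, h1 ▸ h⟩
  have hop : IsOpen W := by
    rw [isOpen_iff_forall_mem_open]
    intro x hx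
    exact ⟨connectedComponent x, fun x' hx' => (hsat x x' hx').1 hx, (hT x).1,
      mem_connectedComponent⟩
  have hop' : IsOpen Wᶜ := by
    rw [isOpen_iff_forall_mem_open]
    intro x hx
    exact ⟨connectedComponent x, fun x' hx' h => hx ((hsat x x' hx').2 h), (hT x).1,
      mem_connectedComponent⟩
  refine ⟨W, ⟨⟨hop'⟩, hop⟩, ?_⟩
  ext y
  constructor
  · rintro ⟨y', hy', h⟩
    have h1 : IsPreconnected (p ⁻¹' connectedComponent (p y)) := by
      rw [← hp.isInducing.isPreconnected_image, Set.image_preimage_eq_range_inter]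
      exact (hT (p y)).2.isPreconnected
    exact h1.subset_isClopen hV ⟨y', h, hy'⟩ mem_connectedComponent
  · intro hy
    exact ⟨y, hy, mem_connectedComponent⟩

/-- Connected components of a finite étale cover of the punctured spectrum are open. -/
theorem isOpen_connectedComponent_cover (A : Type u) [CommRing A] [IsNoetherianRing A]
    [IsLocalRing A] {T : Scheme.{u}} (g : T ⟶ (FEt.puncturedSpec A : Scheme.{u})) [IsFinite g]
    (x : T) : IsOpen (connectedComponent x) := by
  have h0 : IsNoetherian (Spec (CommRingCat.of A)) := inferInstance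
  have h1 : CompactSpace (FEt.puncturedSpec A : Scheme.{u}) :=
    isCompact_iff_compactSpace.mp (NoetherianSpace.isCompact _)
  have : IsLocallyNoetherian T := LocallyOfFiniteType.isLocallyNoetherian g
  have : CompactSpace T := QuasiCompact.compactSpace_of_compactSpace g
  have : IsNoetherian T := {}
  exact Groth.Agent.Fga.ConnExt.isOpen_connectedComponent
    (NoetherianSpace.finite_irreducibleComponents) x

section

variable (A : Type u) [CommRing A] [IsDomain A] [IsNoetherianRing A] [IsLocalRing A]
  [IsIntegrallyClosed A] [IsAdicComplete (IsLocalRing.maximalIdeal A) A] (k : ℕ)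
  (hdim : ((k + 2 : ℕ) : WithBot ℕ∞) ≤ ringKrullDim A)

include hdim in
theorem connected_cover {I : Ideal A} (hI : I ≠ ⊤)
    (hcd : CdLE A I k) {T : Scheme.{u}} [ConnectedSpace T]
    (g : T ⟶ (FEt.puncturedSpec A : Scheme.{u})) [IsFinite g] [Etale g] :
    _root_.IsConnected {t : T | I ≤ ((g ≫ (FEt.puncturedSpec A).ι) t : PrimeSpectrum A).asIdeal} := by
  have hne : Nonempty (FEt.puncturedSpec A : Scheme.{u}) := (inferInstance : Nonempty T).map g
  have hint : IsIntegral (FEt.puncturedSpec A : Scheme.{u}) :=
    isIntegral_of_isOpenImmersion (FEt.puncturedSpec A).ι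
  have hnorm : Pi1.IsNormalScheme (FEt.puncturedSpec A : Scheme.{u}) :=
    Groth.Agent.Pi1A.NormalEtale.isDomain_stalk_and_isIntegrallyClosed_stalk
      (isNormalScheme_spec A) (FEt.puncturedSpec A).ι
  have hTint : IsIntegral T := Groth.Agent.Pi1A.NormalEtale.isIntegral_of_connectedSpace hnorm g
  obtain ⟨t, -, ht⟩ := Groth.Agent.Pi1A.NormalEtale.exists_mem_fiber
    (g ≫ (FEt.puncturedSpec A).ι) Set.univ isOpen_univ Set.univ_nonempty
  refine Groth.Agent.Sga2lef.H85.EtPunct.isConnected_preimage hdim hI hcd
    (mem_puncturedSpec A) g ⟨t, ?_⟩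
  rw [ht]
  exact genericPoint_eq_bot_of_affine (CommRingCat.of A)

include hdim in
theorem component_cover {I : Ideal A} (hI : I ≠ ⊤)
    (hcd : CdLE A I k) {T : Scheme.{u}}
    (g : T ⟶ (FEt.puncturedSpec A : Scheme.{u})) [IsFinite g] [Etale g] (x : T)
    (hx : IsOpen (connectedComponent x)) :
    _root_.IsConnected ({t : T | I ≤ ((g ≫ (FEt.puncturedSpec A).ι) t : PrimeSpectrum A).asIdeal} ∩
      connectedComponent x) := by
  let C : T.Opens := ⟨connectedComponent x, hx⟩
  have hrange : Set.range C.ι = connectedComponent x := by simp [C]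
  have hcl : IsClosedImmersion C.ι := by
    apply IsClosedImmersion.of_isPreimmersion
    rw [hrange]
    exact isClosed_connectedComponent
  have hC : ConnectedSpace C := by
    have : ConnectedSpace (connectedComponent x) :=
      isConnected_iff_connectedSpace.mp isConnected_connectedComponent
    exact this
  have h1 := connected_cover A k hdim hI hcd (C.ι ≫ g)
  have h2 := h1.image C.ι C.ι.continuous.continuousOn
  convert h2 using 1
  ext t
  constructor
  · rintro ⟨ht1, ht2⟩
    refine ⟨⟨t, ht2⟩, ?_, rfl⟩
    exact ht1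
  · rintro ⟨t', ht', rfl⟩
    exact ⟨ht', t'.2⟩

end

/-- Let A be a normal complete Noetherian local domain of dimension ≥ k + 2, X' its punctured spectrum,
f_1, …, f_k elements of the maximal ideal and Y' = X' ∩ V(f_1, …, f_k), the closed subscheme of X'
cut out by the f_i. Then Y' is connected and restriction of finite étale covers from X' to Y' is
fully faithful (for the fundamental groups: π₁(Y') → π₁(X') is surjective). -/
theorem result (A : Type u) [CommRing A] [IsDomain A] [IsNoetherianRing A] [IsLocalRing A] [IsIntegrallyClosed A] [IsAdicComplete (IsLocalRing.maximalIdeal A) A] (k : ℕ) (hdim : ((k + 2 : ℕ) : WithBot ℕ∞) ≤ ringKrullDim A) (f : Fin k → A) (hf : ∀ i, f i ∈ IsLocalRing.maximalIdeal A) : ConnectedSpace ↥(((Spec.map (CommRingCat.ofHom (Ideal.Quotient.mk (Ideal.span (Set.range f))))).ker.comap (FEt.puncturedSpec A).ι).subscheme) ∧ (FEt.restrict ((Spec.map (CommRingCat.ofHom (Ideal.Quotient.mk (Ideal.span (Set.range f))))).ker.comap (FEt.puncturedSpec A).ι).subschemeι).Full ∧ (FEt.restrict ((Spec.map (CommRingCat.ofHom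 (Ideal.Quotient.mk (Ideal.span (Set.range f))))).ker.comap (FEt.puncturedSpec A).ι).subschemeι).Faithful := by
  classical
  -- the ideal
  have hI : Ideal.span (Set.range f) ≠ ⊤ := by
    intro h
    have h1 : Ideal.span (Set.range f) ≤ maximalIdeal A := by
      rw [Ideal.span_le]
      rintro _ ⟨i, rfl⟩
      exact hf i
    rw [h, top_le_iff] at h1
    exact (inferInstance : (maximalIdeal A).IsPrime).ne_top h1
  have hcd : CdLE A (Ideal.span (Set.range f)) k := by
    have h1 := Groth.Agent.S0326.result A (Finset.univ.image f)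
    have h2 : (Finset.univ.image f).card ≤ k := by
      refine Finset.card_image_le.trans ?_
      simp
    rw [Finset.coe_image, Finset.coe_univ, Set.image_univ] at h1
    intro M _ _ i hi
    exact h1 M i (lt_of_le_of_lt h2 hi)
  -- the range of the closed immersion
  have hrange : ∀ x : (FEt.puncturedSpec A : Scheme.{u}),
      x ∈ Set.range (((Spec.map (CommRingCat.ofHom (Ideal.Quotient.mk
        (Ideal.span (Set.range f))))).ker.comap (FEt.puncturedSpec A).ι).subschemeι) ↔
      Ideal.span (Set.range f) ≤ (((FEt.puncturedSpec A).ι x : Spec (CommRingCat.of A)) :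
        PrimeSpectrum A).asIdeal := by
    intro x
    have h1 : Set.range (Spec.map (CommRingCat.ofHom (Ideal.Quotient.mk (Ideal.span (Set.range f))))) =
        PrimeSpectrum.zeroLocus ((Ideal.span (Set.range f) : Ideal A) : Set A) := by
      have := range_comap_of_surjective _
        (Ideal.Quotient.mk (Ideal.span (Set.range f))) Ideal.Quotient.mk_surjective
      rw [Ideal.mk_ker] at this
      exact this
    rw [Scheme.IdealSheafData.range_subschemeι, Scheme.IdealSheafData.support_comap]
    change (FEt.puncturedSpec A).ι x ∈ ((Spec.map (CommRingCat.ofHom (Ideal.Quotient.mk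
        (Ideal.span (Set.range f))))).ker.support : Set (Spec (CommRingCat.of A))) ↔ _
    rw [Scheme.Hom.support_ker, h1]
    have h2 : IsClosed (X := Spec (CommRingCat.of A)) (PrimeSpectrum.zeroLocus ((Ideal.span (Set.range f) : Ideal A) : Set A)) :=
      PrimeSpectrum.isClosed_zeroLocus _
    rw [h2.closure_eq]
    rfl
  generalize (Spec.map (CommRingCat.ofHom (Ideal.Quotient.mk
    (Ideal.span (Set.range f))))).ker.comap (FEt.puncturedSpec A).ι = 𝓙 at hrange ⊢
  generalize Ideal.span (Set.range f) = I at hI hcd hrange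
  refine ⟨?_, ?_⟩
  · -- connectedness
    have h1 := Groth.Agent.Sga2lef.H85.ConnPunct.isConnected_zeroLocus_diff hdim hI hcd
    have h2 : PrimeSpectrum.zeroLocus (I : Set A) \ {closedPoint A} =
        (𝓙.subschemeι ≫ (FEt.puncturedSpec A).ι) '' Set.univ := by
      ext x
      constructor
      · rintro ⟨hx1, hx2⟩
        obtain ⟨y, hy⟩ := (hrange ⟨x, hx2⟩).2 hx1
        refine ⟨y, trivial, ?_⟩
        rw [Scheme.Hom.comp_apply, hy]
        rfl
      · rintro ⟨y, -, rfl⟩
        rw [Scheme.Hom.comp_apply]
        exact ⟨(hrange (𝓙.subschemeι y)).1 ⟨y, rfl⟩, (𝓙.subschemeι y).2⟩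
    rw [h2] at h1
    rw [connectedSpace_iff_univ]
    exact ⟨h1.1.of_image, ((𝓙.subschemeι ≫ (FEt.puncturedSpec A).ι).isEmbedding.isInducing.isPreconnected_image).mp h1.2⟩
  · have hT : ∀ {T : Scheme.{u}} (g : T ⟶ (FEt.puncturedSpec A : Scheme.{u})) [IsFinite g] [Etale g]
        (x : T), IsOpen (connectedComponent x) ∧ _root_.IsConnected
          (Set.range (pullback.fst g 𝓙.subschemeι) ∩ connectedComponent x) := by
      intro T g _ _ x
      have hop : IsOpen (connectedComponent x) := isOpen_connectedComponent_cover A g x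
      refine ⟨hop, ?_⟩
      have h1 := component_cover A k hdim hI hcd g x hop
      convert h1 using 2
      ext t
      rw [Scheme.Pullback.range_fst, Set.mem_preimage, hrange, ← Scheme.Hom.comp_apply]
      rfl
    apply Groth.Agent.Pi1A.ClopenCrit.restrict_fullyFaithful_of_isClopen
    · intro T W hW hWe
      by_contra hne
      obtain ⟨x, hx⟩ := Set.nonempty_iff_ne_empty.mpr hne
      obtain ⟨_, ⟨y, rfl⟩, hz⟩ := (hT T.hom x).2.1
      have : y ∈ pullback.fst T.hom 𝓙.subschemeι ⁻¹' W :=
        hW.connectedComponent_subset hx hz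
      rw [hWe] at this
      exact this
    · intro T V hV
      exact exists_clopen_of_components (pullback.fst T.hom 𝓙.subschemeι)
        (pullback.fst T.hom 𝓙.subschemeι).isEmbedding (hT T.hom) V hV

end Groth.Agent.S3363
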