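import Groth.Statements.S3364
import Groth.Agent.Sga2lef.H86.DepthEtConv
-- import your own Groth.Agent.* helpers here

set_option autoImplicit false
universe u
open CategoryTheory CategoryTheory.Limits AlgebraicGeometry Opposite
open EtDepth

namespace Groth.Agent.S3364

/-- Let X be a scheme, j : U → X an open immersion with closed complement Y, F an abelian sheaf on the
small étale site of X and n ≥ 0. Then the local cohomology sheaves H^p_Y(X, F) vanish for p < n if
and only if for every scheme X' étale over X, with U' = X' ×_X U, the restriction maps H^p(X', F) →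
H^p(U', F) are bijective for p < n − 1 and injective for p = n − 1. (The restriction maps are the
prelude's pull-back maps on étale cohomology, whose exactness instance is carried as a binder. The
published statement has further equivalent conditions and is not limited to a single sheaf; only
this equivalence, for one abelian sheaf, is stated here.) -/
theorem result {X U : Scheme.{u}} (j : U ⟶ X) [IsOpenImmersion j] [EtCoh.BCCont j] (F : EtCoh.Ab X) (n : ℕ) : EtDepth.DepthGE j F n ↔ ∀ (X' : Scheme.{u}) (g : X' ⟶ X) [Etale g] [PreservesFiniteLimits (EtCoh.pull (pullback.snd j g))], (∀ p : ℕ, p + 1 < n → Function.Bijective (EtCore.Hpull (pullback.snd j g) ((EtCoh.pull g).obj F) p)) ∧ (∀ p : ℕ, p + 1 = n → Function.Injective (EtCore.Hpull (pullback.snd j g) ((EtCoh.pull g).obj F) p)) := by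
  rw [Groth.Agent.Sga2lef.H86.DepthEt.depthGE_iff_cond]
  constructor
  · intro h X' g hg hp
    refine ⟨fun p hpn => ?_, fun p hpn => ?_⟩
    · exact (Groth.Agent.Sga2lef.H86.DepthEt.Cond.etale h g).bijective p hpn
    · exact (Groth.Agent.Sga2lef.H86.DepthEt.Cond.etale h g).injective p hpn
  · intro H
    have key : ∀ (X' : Scheme.{u}) (g : X' ⟶ X) (_ : Etale g),
        (∀ p : ℕ, p + 1 < n → Function.Bijective (@Groth.Agent.Etcore.HpullCalc.hp _ _ (pullback.snd j g)
          (Groth.Agent.Etcore.HQ.pfl _) ((EtCoh.pull g).obj F) p)) ∧
        (∀ p : ℕ, p + 1 = n → Function.Injective (@Groth.Agent.Etcore.HpullCalc.hp _ _ (pullback.snd j g)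
          (Groth.Agent.Etcore.HQ.pfl _) ((EtCoh.pull g).obj F) p)) := fun X' g hg =>
      @H X' g hg (Groth.Agent.Etcore.HQ.pfl _)
    exact Groth.Agent.Sga2lef.H86.DepthEtConv.cond_of_hp j F n
      (fun V p hpn => (key V.left V.hom V.prop).1 p hpn) (fun V p hpn => (key V.left V.hom V.prop).2 p hpn)

end Groth.Agent.S3364
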