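import Groth.Statements.S3366
import Groth.Agent.Sga2lef.H88.SemiPurityNe
-- import your own Groth.Agent.* helpers here

set_option autoImplicit false
universe u
open CategoryTheory CategoryTheory.Limits AlgebraicGeometry Opposite
open EtDepth

namespace Groth.Agent.S3366

/-- Semi-purity, for a scheme smooth over a field: let k be a field, X a smooth k-scheme, j : U → X an
open immersion whose closed complement Y is nonempty of codimension c (every local ring O_{X,y} with
y ∈ Y has dimension at least c, and some has dimension exactly c), and ℓ a prime number invertible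
in k. Then the Y-étale depth of the constant sheaf ℤ/ℓ on X is exactly 2c: it is at least 2c and not
at least 2c + 1 (the local cohomology sheaves H^p_Y(X, ℤ/ℓ) vanish for p < 2c and H^{2c}_Y(X, ℤ/ℓ)
does not vanish). -/
theorem result (k : Type u) [Field k] {X U : Scheme.{u}} (f : X ⟶ Spec (CommRingCat.of k)) [Smooth f] (j : U ⟶ X) [IsOpenImmersion j] [EtCoh.BCCont j] (c : ℕ) (hc : ∀ y : X, y ∉ Set.range j.base → (c : WithBot ℕ∞) ≤ ringKrullDim (X.presheaf.stalk y)) (hc' : ∃ y : X, y ∉ Set.range j.base ∧ ringKrullDim (X.presheaf.stalk y) = c) (ℓ : ℕ) (hℓ : ℓ.Prime) (hℓk : (ℓ : k) ≠ 0) : EtDepth.DepthGE j (EtCoh.const X (ZMod ℓ)) (2 * c) ∧ ¬ EtDepth.DepthGE j (EtCoh.const X (ZMod ℓ)) (2 * c + 1) := by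
  refine ⟨fun p hp => ?_, fun h => ?_⟩
  · exact Groth.Agent.Sga4B.SemiPurity.isZero_locCoh_const_smooth f j c hc ℓ hℓk p hp
  · obtain ⟨y, hy, hyc⟩ := hc'
    exact Groth.Agent.Sga2lef.H88.SemiPurityNe.not_isZero_locCoh_const_smooth f j c hc y hy hyc ℓ hℓk
      hℓ.one_lt.ne' (h (2 * c) (Nat.lt_succ_self _))

end Groth.Agent.S3366
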