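import Groth.Statements.S3372
import Groth.Agent.Sga2lef.H94.PrincLim
import Groth.Agent.Sga2lef.H94.PuncCoh

set_option autoImplicit false
universe u
open CategoryTheory CategoryTheory.Limits AlgebraicGeometry
open Formal

namespace Groth.Agent.S3372

/-- Let A be a Noetherian local ring which is a quotient of a regular ring, t an element of the maximal
ideal such that A is separated and complete for the t-adic topology, X the punctured spectrum of A
and F a coherent O_X-module on which multiplication by t is injective. Let n be a natural number and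
assume that for every closed point x of X (the primes p with dim A/p = 1) the stalk F_x has depth ≥
n + 1 over O_{X,x}. Then the canonical map H^i(X, F) → lim_k H^i(X, F/t^(k+1)F) is bijective for i <
n and injective for i = n. -/
theorem result (R : Type u) [CommRing R] [IsRegularRing R] (A : Type u) [CommRing A] [IsLocalRing A] [IsNoetherianRing A] (π : R →+* A) (hπ : Function.Surjective π) (t : A) (ht : t ∈ IsLocalRing.maximalIdeal A) [IsAdicComplete (Ideal.span {t}) A] (F : (↑(FEt.puncturedSpec A) : Scheme.{u}).Modules) (hF : Coh.IsCoh F) (hreg : Mono (Formal.smulMod A F t)) (n : ℕ) (hdepth : ∀ x : (↑(FEt.puncturedSpec A) : Scheme.{u}), IsClosed ({x} : Set (↑(FEt.puncturedSpec A) : Scheme.{u})) → ((n + 1 : ℕ) : ℕ∞) ≤ LocCoh.depth ((↑(FEt.puncturedSpec A) : Scheme.{u}).presheaf.stalk x) (F.presheaf.stalk x)) (i : ℕ) : (i < n → Function.Bijective (Formal.toHHlim (Ideal.span {t}) F i)) ∧ (i = n → Function.Injective (Formal.toHHlim (Ideal.span {t}) F i)) := by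
  have hfin : ∀ j, j ≤ n → Module.Finite A (Coh.HH (↑(FEt.puncturedSpec A) : Scheme.{u}) F j) :=
    fun j hj => Groth.Agent.Sga2lef.H94.PuncCoh.finite_HH R A π hπ F hF n hdepth j hj
  have hcomp : ∀ j, j ≤ n → IsAdicComplete (Ideal.span {t})
      (Coh.HH (↑(FEt.puncturedSpec A) : Scheme.{u}) F j) := fun j hj => by
    have := hfin j hj
    exact Groth.Agent.FormalA.AdicFin.isAdicComplete_of_finite (Ideal.span {t})
  constructor
  · intro hi
    have h0 := hcomp i hi.le
    have h1 := hcomp (i + 1) hi
    refine ⟨Groth.Agent.Sga2lef.H94.PrincLim.injective_toHHlim F t i,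
      Groth.Agent.Sga2lef.H94.PrincLim.surjective_toHHlim F t i fun z hz => ?_⟩
    refine IsHausdorff.haus (I := Ideal.span {t}) inferInstance z fun k => ?_
    obtain ⟨w, rfl⟩ := hz k
    rw [SModEq.zero]
    exact Submodule.smul_mem_smul (Ideal.pow_mem_pow (Ideal.mem_span_singleton_self t) k) trivial
  · rintro rfl
    have h0 := hcomp i le_rfl
    exact Groth.Agent.Sga2lef.H94.PrincLim.injective_toHHlim F t i

end Groth.Agent.S3372
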