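import Groth.Statements.S3380
import Groth.Agent.Sga2lef.H102.Final

set_option autoImplicit false
universe u
open CategoryTheory CategoryTheory.Limits AlgebraicGeometry
open Lef

namespace Groth.Agent.S3380

/-- Let k be a field, P a proper k-scheme, L an ample invertible O_P-module, s a global section of L
(not necessarily regular) with zero scheme Q and ideal 𝓘, Q_m the closed subscheme defined by 𝓘^m.
Assume depth(O_{P,p}) + dim cl(p) > n for every point p of P outside Q. Then the canonical map
H^i(P, O_P) → lim_m H^i(P, O_P/𝓘^(m+1)) (the groups H^i(Q_{m+1}, O_{Q_{m+1}}) computed on P through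
the closed immersions) is bijective for i < n: injective, and every compatible family comes from a
class on P. -/
theorem result (k : Type u) [Field k] (X : Scheme.{u}) (f : X ⟶ Spec (CommRingCat.of k)) [IsProper f] (L : X.Modules) (hL : CohB1.IsAmple L) (s : Coh.structureModule X ⟶ L) (n : ℕ) (hd : ∀ p : X, p ∉ ((PicF2.zeroScheme L s).support : Set X) → (n : WithBot ℕ∞) < (LocCoh.depth (X.presheaf.stalk p) (X.presheaf.stalk p) : WithBot ℕ∞) + topologicalKrullDim ↥(closure ({p} : Set X))) (i : ℕ) (hi : i < n) : (∀ x : Coh.HH X (Coh.structureModule X) i, (∀ m : ℕ, Sheaf.H.map ((SheafOfModules.toSheaf X.ringCatSheaf).map (ClSub.toSubscheme ((PicF2.zeroScheme L s) ^ (m + 1)))) i x = 0) → x = 0) ∧ (∀ y : (∀ m : ℕ, Coh.HH X (ClSub.quotMod ((PicF2.zeroScheme L s) ^ (m + 1))) i), (∀ m : ℕ, Sheaf.H.map ((SheafOfModules.toSheaf X.ringCatSheaf).map (Lef.quotMap (Lef.pow_succ_le (PicF2.zeroScheme L s) m))) i (y (m + 1)) = y m) → ∃ x : Coh.HH X (Coh.structureModule X) i, ∀ m : ℕ, Sheaf.H.map ((SheafOfModules.toSheaf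 X.ringCatSheaf).map (ClSub.toSubscheme ((PicF2.zeroScheme L s) ^ (m + 1)))) i x = y m) :=
  Groth.Agent.Sga2lef.H102.ProZero.bijective_of_prozero (PicF2.zeroScheme L s) n
    (fun i hi l => Groth.Agent.Sga2lef.H102.Final.prozero k X f L hL s n
      (fun p hp hpc => Groth.Agent.Sga2lef.H102.Final.lt_depth_of_isClosed n p hpc (hd p hp)) i hi l) i hi

end Groth.Agent.S3380
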