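import Groth.Statements.S3381
import Groth.Agent.Sga2lef.H103.RegCore
import Groth.Agent.Sga2lef.H78.AmpleSec
import Groth.Agent.Sga2lef.H81.LocFreeNhd

set_option autoImplicit false
universe u
open CategoryTheory CategoryTheory.Limits AlgebraicGeometry
open LefX

namespace Groth.Agent.S3381

/-- Let k be a field, X a proper k-scheme, L an ample invertible O_X-module, s a global section of L
with zero scheme Y and ideal 𝓘. Assume depth(O_{X,x}) + dim cl(x) > 2 for every point x of X outside
Y. Then every levelwise finite locally free system of modules on the completion of X along Y is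
isomorphic to the completion of ι_* E for some open U ⊇ Y with inclusion ι and some finite locally
free O_U-module E. (The source also asserts full faithfulness of completion on the colimit over the
open neighbourhoods of Y.) -/
theorem result (k : Type u) [Field k] (X : Scheme.{u}) (f : X ⟶ Spec (CommRingCat.of k)) [IsProper f] (L : X.Modules) (hL : CohB1.IsAmple L) (s : Coh.structureModule X ⟶ L) (hd : ∀ x : X, x ∉ ((PicF2.zeroScheme L s).support : Set X) → (2 : WithBot ℕ∞) < (LocCoh.depth (X.presheaf.stalk x) (X.presheaf.stalk x) : WithBot ℕ∞) + topologicalKrullDim ↥(closure ({x} : Set X))) (𝔐 : FSch.ModSys (FSch.completionAlong X (PicF2.zeroScheme L s))) (h𝔐 : LefX.LevelwiseFinLocFree 𝔐) : ∃ (U : X.Opens) (E : (U : Scheme.{u}).Modules), ((PicF2.zeroScheme L s).support : Set X) ⊆ (U : Set X) ∧ FlatMod.IsFinLocFree E ∧ Nonempty (FSch.completionMod (PicF2.zeroScheme L s) ((Scheme.Modules.pushforward U.ι).obj E) ≅ 𝔐) := by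
  exact Groth.Agent.Sga2lef.H78.AmpleSec.main Groth.Agent.Sga2lef.H103.RegCore.regCore
    (fun X _ 𝓘 F hF h => Groth.Agent.Sga2lef.H81.LocFreeNhd.exists_locFree_nhd 𝓘 F hF h) k X f L hL s hd 𝔐 h𝔐

end Groth.Agent.S3381
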