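import Groth.Statements.S3382
import Groth.Agent.Sga2lef.H24.ToPn
import Groth.Agent.Sga2lef.H104.PnRes

set_option autoImplicit false
universe u
open CategoryTheory CategoryTheory.Limits AlgebraicGeometry
open Lef

namespace Groth.Agent.S3382

/-- Stated over an affine base and with the hypothesis at every point of the base (a simplified form of
the published statement). Let A be a Noetherian ring, X a proper A-scheme with an O_X-module L which
is very ample relative to A through an immersion into some projective space P^r_A, L' an inverse of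
L, and F a coherent O_X-module flat over A. Fix i ≥ 0 and assume that for every s in Spec A and
every closed point x of the fibre X_s the local cohomology H^i_x(F_{s,x}) of the stalk of F_s at x,
with support in the maximal ideal of O_{X_s,x}, vanishes (for instance depth F_{s,x} > i). Then
there is m₀ such that H^i(X, F ⊗ L'^(⊗m)) = 0 for all m ≥ m₀ (R^i f_*(F(−m)) = 0 for m large).
Vanishing is stated as Subsingleton. -/
theorem result (A : Type u) [CommRing A] [IsNoetherianRing A] (X : Scheme.{u}) [X.Over (Spec (CommRingCat.of A))] [IsProper (X ↘ Spec (CommRingCat.of A))] (L L' : X.Modules) (hL : RelAmple.IsRelVeryAmplePn (X ↘ Spec (CommRingCat.of A)) L) (hL' : ClSub.IsInverseOf L' L) (F : X.Modules) (hF : Coh.IsCoh F) (hflat : FlatMod.IsFlatOver (X ↘ Spec (CommRingCat.of A)) F) (i : ℕ) (hdepth : ∀ x : X, IsClosed ({(X ↘ Spec (CommRingCat.of A)).asFiber x} : Set ↥((X ↘ Spec (CommRingCat.of A)).fiber ((X ↘ Spec (CommRingCat.of A)).base x))) → Subsingleton (LocCoh.H (IsLocalRing.maximalIdeal ↑(CInt.fiberStalk (X ↘ Spec (CommRingCat.of A)) x)) i ↑(((Scheme.Modules.pullback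 ((X ↘ Spec (CommRingCat.of A)).fiberι ((X ↘ Spec (CommRingCat.of A)).base x))).obj F).presheaf.stalk ((X ↘ Spec (CommRingCat.of A)).asFiber x)))) : ∃ m₀ : ℕ, ∀ m : ℕ, m₀ ≤ m → Subsingleton (Coh.HH X (CohB1.tensorMod F (CohB1.tensorPow L' m)) i) := by
  exact Groth.Agent.Sga2lef.H24.ToPn.main A i
    (fun r G hG hG' h => Groth.Agent.Sga2lef.H104.PnRes.main r A G hG hG' i h)
    (X ↘ Spec (CommRingCat.of A)) L L' hL hL' F hF hflat hdepth

end Groth.Agent.S3382
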