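import Groth.Statements.S3386
import Groth.Agent.Ega4fib.H174.EquidimAff
-- import your own Groth.Agent.* helpers here

set_option autoImplicit false
open CategoryTheory AlgebraicGeometry
universe u
open EGA43

namespace Groth.Agent.S3386

open CategoryTheory.Limits in
/-- Conditions a) and b): let f : X ⟶ Y be a morphism locally of finite type and x a point of X.
Condition a) is equidimensionality of f at x (the definition used here); condition b): there are a
natural number e, an open neighbourhood U of x and a Y-morphism g from U to the affine space of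
dimension e over Y which is locally quasi-finite and sends the generic point of every irreducible
component of U to the generic point of an irreducible component of the affine space. Then a) implies
b); and b) implies a) when Y is locally Noetherian. (The source states the equivalence over an
arbitrary base; the implication b) ⟹ a) uses that irreducible components are locally finite and
fails without some such hypothesis.) -/
theorem result {X Y : Scheme.{u}}
    (f : X ⟶ Y) [LocallyOfFiniteType f] (x : X) :
    (EGA43.IsEquidimAt f x → (∃ (e : ℕ) (U : X.Opens) (g : (U : Scheme.{u}) ⟶ 𝔸(ULift.{u} (Fin e); Y)),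
        x ∈ U ∧ g ≫ (𝔸(ULift.{u} (Fin e); Y) ↘ Y) = U.ι ≫ f ∧ LocallyQuasiFinite g ∧
        ∀ Z ∈ irreducibleComponents (↥U : Type u),
          closure (g.base '' Z) ∈ irreducibleComponents (↥𝔸(ULift.{u} (Fin e); Y) : Type u))) ∧
    (IsLocallyNoetherian Y → (∃ (e : ℕ) (U : X.Opens) (g : (U : Scheme.{u}) ⟶ 𝔸(ULift.{u} (Fin e); Y)),
        x ∈ U ∧ g ≫ (𝔸(ULift.{u} (Fin e); Y) ↘ Y) = U.ι ≫ f ∧ LocallyQuasiFinite g ∧
        ∀ Z ∈ irreducibleComponents (↥U : Type u),
          closure (g.base '' Z) ∈ irreducibleComponents (↥𝔸(ULift.{u} (Fin e); Y) : Type u)) → EGA43.IsEquidimAt f x) := by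
  refine ⟨fun h => Ega4fib.H174.EquidimAff.exists_affineSpace_of_isEquidimAt f x h, ?_⟩
  rintro hY ⟨e, U, g, hx, hg, hqf, h⟩
  have hX : IsLocallyNoetherian X := LocallyOfFiniteType.isLocallyNoetherian f
  exact Ega4fib.H174.EquidimAff.isEquidimAt_of_exists_affineSpace f x e U g hx hg h

end Groth.Agent.S3386
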