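import Groth.Statements.S3387
import Groth.Agent.Flat2G.ProperDim

set_option autoImplicit false
open CategoryTheory AlgebraicGeometry
universe u
open EGA43

namespace Groth.Agent.S3387

theorem natCast_succ_le_iff (m : ℕ) (a : WithBot ℕ∞) : ((m + 1 : ℕ) : WithBot ℕ∞) ≤ a ↔ ¬ a ≤ (m : WithBot ℕ∞) := by
  rw [not_le]
  induction a using WithBot.recBotCoe with
  | bot => exact ⟨fun h => absurd h (by simp), fun h => absurd h (by simp)⟩
  | coe a =>
    have h1 : ((m + 1 : ℕ) : WithBot ℕ∞) = (((m + 1 : ℕ) : ℕ∞) : WithBot ℕ∞) := rfl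
    have h2 : ((m : ℕ) : WithBot ℕ∞) = (((m : ℕ) : ℕ∞) : WithBot ℕ∞) := rfl
    rw [h1, h2, WithBot.coe_le_coe, WithBot.coe_lt_coe, Nat.cast_add, Nat.cast_one]
    exact ENat.add_one_le_iff (ENat.natCast_ne_top m)

/-- Let f : X ⟶ Y be locally of finite type and closed (as a map of underlying spaces). Then for every
natural number n the set of points y of Y whose fibre has dimension at least n is closed; that is,
the dimension of the fibre is upper semicontinuous on Y. -/
theorem result {X Y : Scheme.{u}} (f : X ⟶ Y) [LocallyOfFiniteType f]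
    (hf : IsClosedMap f.base) (n : ℕ) :
    IsClosed {y : Y | (n : WithBot ℕ∞) ≤ topologicalKrullDim ↥(f.fiber y)} := by
  cases n with
  | zero =>
    have h : {y : Y | ((0 : ℕ) : WithBot ℕ∞) ≤ topologicalKrullDim ↥(f.fiber y)} = Set.range f := by
      ext y
      change ((0 : ℕ) : WithBot ℕ∞) ≤ topologicalKrullDim ↥(f.fiber y) ↔ y ∈ Set.range f
      rw [FlatA.FibreDim.topologicalKrullDim_fiber_eq]
      constructor
      · intro h
        by_contra hy
        have he : IsEmpty ((f : X → Y) ⁻¹' {y}) := ⟨fun x => hy ⟨x.1, x.2⟩⟩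
        have he' : IsEmpty (TopologicalSpace.IrreducibleCloseds ((f : X → Y) ⁻¹' {y})) :=
          ⟨fun T => T.2.nonempty.elim fun x _ => he.elim x⟩
        have : topologicalKrullDim ((f : X → Y) ⁻¹' {y}) = ⊥ := Order.krullDim_eq_bot
        rw [this] at h
        exact absurd h (by simp)
      · rintro ⟨x, rfl⟩
        have : Nonempty (TopologicalSpace.IrreducibleCloseds ((f : X → Y) ⁻¹' {f x})) :=
          ⟨⟨closure {⟨x, rfl⟩}, isIrreducible_singleton.closure, isClosed_closure⟩⟩
        exact Order.krullDim_nonneg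
    rw [h]
    exact hf.isClosed_range
  | succ m =>
    have h : {y : Y | ((m + 1 : ℕ) : WithBot ℕ∞) ≤ topologicalKrullDim ↥(f.fiber y)} =
        {y : Y | topologicalKrullDim (f.fiber y) ≤ m}ᶜ := by
      ext y
      exact natCast_succ_le_iff m _
    rw [h]
    exact (Flat2G.ProperDim.isOpen_topologicalKrullDim_fiber_le f hf m).isClosed_compl

end Groth.Agent.S3387
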