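import Groth.Statements.S3389
import Groth.Agent.FlatA.FibreQF
import Groth.Agent.VarietyB.DimTop

set_option autoImplicit false
open CategoryTheory AlgebraicGeometry
universe u
open EGA43

namespace Groth.Agent.S3389

/-- The local fibre dimension is bounded on an affine chart. -/
theorem exists_bound_affine {X Y : Scheme.{u}} (f : X ⟶ Y) [LocallyOfFiniteType f]
    {V : Y.Opens} (hV : IsAffineOpen V) {U : X.Opens} (hU : IsAffineOpen U) (e : U ≤ f ⁻¹ᵁ V) :
    ∃ n : ℕ, ∀ x ∈ U, FlatMor.fibreDimAt f x ≤ n := by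
  have hft : (f.appLE V U e).hom.FiniteType := f.finiteType_appLE hV hU e
  let := (f.appLE V U e).hom.toAlgebra
  have : Algebra.FiniteType Γ(Y, V) Γ(X, U) := hft
  obtain ⟨n, φ, hφ⟩ := (Algebra.FiniteType.iff_quotient_mvPolynomial'' (R := Γ(Y, V)) (S := Γ(X, U))).mp this
  have hqf : φ.toRingHom.QuasiFinite := by
    algebraize [φ.toRingHom]
    have : Module.Finite (MvPolynomial (Fin n) Γ(Y, V)) Γ(X, U) :=
      Module.Finite.of_surjective (Algebra.linearMap _ _) hφ
    change Algebra.QuasiFinite _ _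
    infer_instance
  refine ⟨n, fun x hxU => ?_⟩
  have h1 := FlatA.FibreDim.fibreDimAt_fromSpec f hV hU e (hU.primeIdealOf ⟨x, hxU⟩)
  rw [hU.fromSpec_primeIdealOf ⟨x, hxU⟩] at h1
  rw [h1]
  refine (VarietyB.DimTop.localDim_le_dim _).trans ?_
  have := FlatA.FibreQF.topologicalKrullDim_fibre_eq Γ(Y, V) Γ(X, U)
    (PrimeSpectrum.comap (algebraMap Γ(Y, V) Γ(X, U)) (hU.primeIdealOf ⟨x, hxU⟩))
  refine this.trans_le ?_
  exact FlatA.FibreQF.ringKrullDim_fiber_le Γ(Y, V) Γ(X, U) φ hqf _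

theorem exists_bound_nhds {X Y : Scheme.{u}} (f : X ⟶ Y) [LocallyOfFiniteType f] (x : X) :
    ∃ U : X.Opens, x ∈ U ∧ ∃ n : ℕ, ∀ x ∈ U, FlatMor.fibreDimAt f x ≤ n := by
  obtain ⟨V, hV, hxV, -⟩ := exists_isAffineOpen_mem_and_subset (U := ⊤) (x := f x) (by trivial)
  obtain ⟨U, hU, hxU, hUV⟩ := exists_isAffineOpen_mem_and_subset (U := f ⁻¹ᵁ V) (x := x) hxV
  exact ⟨U, hxU, exists_bound_affine f hV hU hUV⟩

/-- Let Y be a quasi-compact scheme and f : X ⟶ Y a morphism of finite type. Then there is a natural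
number n bounding the dimension of every fibre of f. -/
theorem result {X Y : Scheme.{u}} [CompactSpace Y] (f : X ⟶ Y)
    [LocallyOfFiniteType f] [QuasiCompact f] :
    ∃ n : ℕ, ∀ y : Y, topologicalKrullDim ↥(f.fiber y) ≤ n := by
  have hX : CompactSpace X := QuasiCompact.compactSpace_of_compactSpace f
  choose U hxU n hn using exists_bound_nhds f
  obtain ⟨t, ht⟩ := isCompact_univ.elim_finite_subcover (fun x => (U x : Set X)) (fun x => (U x).2)
    (fun x _ => Set.mem_iUnion.2 ⟨x, hxU x⟩)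
  refine ⟨t.sup n, fun y => ?_⟩
  rw [VarietyB.DimTop.topologicalKrullDim_eq_iSup_localDim]
  refine iSup_le fun z => ?_
  have hz : f (f.fiberι y z) = y := by
    have : f.fiberι y z ∈ Set.range (f.fiberι y) := ⟨z, rfl⟩
    rw [Scheme.Hom.range_fiberι] at this
    exact this
  have h1 : ∀ x : X, FlatMor.fibreDimAt f x ≤ (t.sup n : ℕ) := by
    intro x
    obtain ⟨i, hi, hxi⟩ := Set.mem_iUnion₂.1 (ht (Set.mem_univ x))
    refine (hn i x hxi).trans ?_
    exact_mod_cast Finset.le_sup (f := n) hi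
  have h2 := h1 (f.fiberι y z)
  have h3 : FlatMor.fibreDimAt f (f.fiberι y z) = FlatMor.localDim (f.fiber y) z := by
    have key : ∀ (y' : Y) (h : f (f.fiberι y z) = y') (w : f.fiber y') (hw : f.fiberι y' w = f.fiberι y z),
        FlatMor.fibreDimAt f (f.fiberι y z) = FlatMor.localDim (f.fiber y') w := by
      rintro _ rfl w hw
      unfold FlatMor.fibreDimAt
      congr 1
      apply (f.fiberι (f (f.fiberι y z))).isEmbedding.injective
      rw [hw]
      exact Scheme.Hom.fiberι_asFiber _ _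
    exact key y hz z rfl
  rw [← h3]
  exact h2

end Groth.Agent.S3389
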