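import Groth.Statements.S3391
import Groth.Agent.Ega4fib.H112.DimGen
import Groth.Agent.Ega4fib.H117.DimStalk
-- import your own Groth.Agent.* helpers here

set_option autoImplicit false
open CategoryTheory AlgebraicGeometry
universe u
open EGA43

namespace Groth.Agent.S3391

/-- With X, Y, f, x, y as in the first assertion, suppose O_{Y,y} is universally catenary and the local
dimension at x of the fibre through x equals the dimension of the generic fibre. Then dim O_{X,x} =
dim O_{Y,y} + dim O_{X_y,x}. -/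
theorem result {X Y : Scheme.{u}} [IrreducibleSpace X] [IrreducibleSpace Y]
    [IsLocallyNoetherian Y] (f : X ⟶ Y) [LocallyOfFiniteType f] [IsDominant f] (x : X)
    (hcat : CAlg.IsUniversallyCatenary (Y.presheaf.stalk (f.base x)))
    (h : FlatMor.fibreDimAt f x = topologicalKrullDim ↥(f.fiber (genericPoint Y))) :
    ringKrullDim (X.presheaf.stalk x) =
        ringKrullDim (Y.presheaf.stalk (f.base x)) + ringKrullDim ((f.fiber (f.base x)).presheaf.stalk (f.asFiber x)) := by
  obtain ⟨m, hm⟩ := Cardinal.lt_aleph0.1 (CycB.RelDim.rtd_lt_aleph0 f x)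
  obtain ⟨n, hn⟩ := Cardinal.lt_aleph0.1 (CycB.RelDim.rtd_lt_aleph0 f (genericPoint X))
  have h1 := Ega4fib.H112.FibreFormula.fibreDimAt_eq_add f x m hm
  have h2 := Ega4fib.H112.FibreFormula.topologicalKrullDim_fiber_genericPoint f n hn
  obtain ⟨a, b, ha, hb, hab⟩ := Ega4fib.H117.DimStalk.dimension_formula f hcat
    (genericPoint_specializes x)
  rw [Ega4fib.H112.DimGen.ringKrullDim_locQuot_genericPoint] at ha
  have hξ : ∀ z : Y, z ⤳ f x → f (genericPoint X) ⤳ z := by
    intro z _
    rw [Ega4fib.H112.FibreFormula.map_genericPoint f]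
    exact genericPoint_specializes z
  rw [Ega4fib.H112.DimGen.ringKrullDim_locQuot_of_forall _ hξ] at hb
  rw [hm, hn] at hab
  have hab' : a + (m : ℕ∞) = b + (n : ℕ∞) := by
    rw [← Cardinal.ofENat_nat m, ← Cardinal.ofENat_nat n, ← Cardinal.ofENat_add,
      ← Cardinal.ofENat_add] at hab
    exact Cardinal.ofENat_inj.1 hab
  have h3 : ringKrullDim ((f.fiber (f x)).presheaf.stalk (f.asFiber x)) + (m : WithBot ℕ∞) =
      (n : WithBot ℕ∞) := by
    rw [← h1, ← h2]
    exact h
  have hne : (0 : WithBot ℕ∞) ≤ ringKrullDim ((f.fiber (f x)).presheaf.stalk (f.asFiber x)) :=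
    ringKrullDim_nonneg_of_nontrivial
  change ringKrullDim (X.presheaf.stalk x) = ringKrullDim (Y.presheaf.stalk (f x)) +
    ringKrullDim ((f.fiber (f x)).presheaf.stalk (f.asFiber x))
  rw [← ha, ← hb]
  generalize ringKrullDim ((f.fiber (f x)).presheaf.stalk (f.asFiber x)) = c at h3 hne ⊢
  induction c using WithBot.recBotCoe with
  | bot => exact absurd hne (by simp)
  | coe c =>
    have h4 : c + (m : ℕ∞) = (n : ℕ∞) := by exact_mod_cast h3
    rw [← h4, ← add_assoc] at hab'
    have h5 : a = b + c := ENat.add_left_injective_of_ne_top (ENat.natCast_ne_top m) hab'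
    rw [h5]
    rfl

end Groth.Agent.S3391
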