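import Groth.Statements.S3392
import Groth.Agent.Ega4fib.H113.DimFibre

set_option autoImplicit false
open CategoryTheory AlgebraicGeometry
universe u
open EGA43

namespace Groth.Agent.S3392

/-- Let Y be an irreducible locally Noetherian scheme, f : X ⟶ Y a morphism of finite type and y a point
of Y. Condition (a): for every point x of the fibre over y, dim O_{X,x} = dim O_{Y,y} + dim
O_{X_y,x}. Condition (b): for every point z of the fibre over y at which the local ring of the fibre
has dimension 0 (the generic points of the irreducible components of the fibre), dim O_{X,z} = dim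
O_{Y,y}. Then (a) implies (b), and (b) implies (a) if O_{Y,y} is universally catenary. -/
theorem result {X Y : Scheme.{u}} [IrreducibleSpace Y] [IsLocallyNoetherian Y]
    (f : X ⟶ Y) [LocallyOfFiniteType f] [QuasiCompact f] (y : Y) :
    ((∀ x : X, f.base x = y → ringKrullDim (X.presheaf.stalk x) =
        ringKrullDim (Y.presheaf.stalk (f.base x)) + ringKrullDim ((f.fiber (f.base x)).presheaf.stalk (f.asFiber x))) →
      (∀ z : X, f.base z = y → ringKrullDim ((f.fiber (f.base z)).presheaf.stalk (f.asFiber z)) = 0 →
        ringKrullDim (X.presheaf.stalk z) = ringKrullDim (Y.presheaf.stalk (f.base z)))) ∧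
    (CAlg.IsUniversallyCatenary (Y.presheaf.stalk y) →
      (∀ z : X, f.base z = y → ringKrullDim ((f.fiber (f.base z)).presheaf.stalk (f.asFiber z)) = 0 →
        ringKrullDim (X.presheaf.stalk z) = ringKrullDim (Y.presheaf.stalk (f.base z))) →
      (∀ x : X, f.base x = y → ringKrullDim (X.presheaf.stalk x) =
        ringKrullDim (Y.presheaf.stalk (f.base x)) + ringKrullDim ((f.fiber (f.base x)).presheaf.stalk (f.asFiber x)))) := by
  refine ⟨fun h z hz h0 => ?_, fun _ h x hx => ?_⟩
  · rw [h z hz, h0, add_zero]
  · have := Groth.Agent.Ega4fib.H113.DimFibre.coheight_eq_add_of_generic f y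
      (fun z hz h0 => ?_) x hx
    · rw [ringKrullDim_stalk_eq_coheight, ringKrullDim_stalk_eq_coheight,
        ringKrullDim_stalk_eq_coheight]
      exact_mod_cast this
    · have h1 := h z hz (by rw [ringKrullDim_stalk_eq_coheight, h0]; rfl)
      rw [ringKrullDim_stalk_eq_coheight, ringKrullDim_stalk_eq_coheight] at h1
      exact_mod_cast h1

end Groth.Agent.S3392
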