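import Groth.Statements.S3393
import Groth.Agent.Ega4fib.H114.GenComp
import Groth.Agent.Ega4fib.H117.EquidimDim

set_option autoImplicit false
open CategoryTheory AlgebraicGeometry
universe u
open EGA43

namespace Groth.Agent.S3393

open Groth.Agent.CycB.RelDim Groth.Agent.CycB.LocQuot Groth.Agent.Flat2D.RelDimClosure
open Groth.Agent.Ega4fib.H113.DimFibre Groth.Agent.Ega4fib.H114.GenComp
open Groth.Agent.Ega4fib.H117.EquidimDim

/-- (b) implies (c) at a point `z`. -/
theorem exists_component {X Y : Scheme.{u}} [IrreducibleSpace Y] [IsLocallyNoetherian Y]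
    (f : X ⟶ Y) [LocallyOfFiniteType f] (z : X)
    (h0 : ringKrullDim ((f.fiber (f z)).presheaf.stalk (f.asFiber z)) = 0)
    (hd : ringKrullDim (X.presheaf.stalk z) = ringKrullDim (Y.presheaf.stalk (f z))) :
    ∃ X' ∈ irreducibleComponents (X : Type u), z ∈ X' ∧
      topologicalKrullDim ↥(X' ∩ f ⁻¹' {genericPoint Y}) = FlatMor.fibreDimAt f z := by
  have : IsLocallyNoetherian X := LocallyOfFiniteType.isLocallyNoetherian f
  have hz := eq_of_specializes_of_dim_zero f h0
  obtain ⟨n, hn, hn'⟩ := exists_fibreDimAt_eq f hz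
  obtain ⟨ζ, hζ, hmax, hdim⟩ := exists_generic_dim z
  have hle : rtd f ζ ≤ rtd f z :=
    Groth.Agent.Ega4fib.H174.EquidimCrit.rtd_le_of_maximal_fib f hζ fun w' _ h2 h3 => hz w' h2 h3
  obtain ⟨m, hm, hm'⟩ := exists_dim_fib f ζ
  rw [hm, hn] at hle
  have hmn : m ≤ n := by exact_mod_cast hle
  obtain ⟨dX, dY, hX, hY, hineq⟩ := Groth.Agent.CycB.DimIneq.dim_ineq f hζ
  change (dX : Cardinal.{u}) + rtd f z ≤ (dY : Cardinal.{u}) + rtd f ζ at hineq
  rw [hm, hn] at hineq
  have hineq' : dX + n ≤ dY + m := by exact_mod_cast hineq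
  have hη : genericPoint Y ⤳ f ζ := genericPoint_specializes _
  rw [hd, hX] at hdim
  have heq : genericPoint Y = f ζ := by
    by_contra hne
    have h1 := ringKrullDim_locQuot_add_one_le (hζ.map f.continuous) hη hne
    rw [hY] at h1
    have h2 : ((dY : WithBot ℕ∞) + 1) ≤ dX := h1.trans hdim
    have h3 : dY + 1 ≤ dX := by exact_mod_cast h2
    omega
  have hYle : ringKrullDim (Cyc.LocQuot (f z) (f ζ) (hζ.map f.continuous)) ≤
    ringKrullDim (Y.presheaf.stalk (f z)) := ringKrullDim_locQuot_le _
  rw [hY] at hYle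
  have h4 : (dY : WithBot ℕ∞) ≤ dX := hYle.trans hdim
  have h5 : dY ≤ dX := by exact_mod_cast h4
  have h6 : m = n := by omega
  refine ⟨closure {ζ}, Groth.Agent.Ega4fib.H174.Equidim.mem_irreducibleComponents_iff.mpr
    ⟨ζ, hmax, rfl⟩, specializes_iff_mem_closure.mp hζ, ?_⟩
  rw [hn', heq, ← h6]
  exact hm'

/-- (c) implies (b) at a point `z`. -/
theorem dim_eq {X Y : Scheme.{u}} [IrreducibleSpace Y] [IsLocallyNoetherian Y]
    (f : X ⟶ Y) [LocallyOfFiniteType f] (z : X)
    (hcat : CAlg.IsUniversallyCatenary (Y.presheaf.stalk (f z)))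
    (h0 : ringKrullDim ((f.fiber (f z)).presheaf.stalk (f.asFiber z)) = 0)
    (hc : ∃ X' ∈ irreducibleComponents (X : Type u), z ∈ X' ∧
      topologicalKrullDim ↥(X' ∩ f ⁻¹' {genericPoint Y}) = FlatMor.fibreDimAt f z) :
    ringKrullDim (X.presheaf.stalk z) = ringKrullDim (Y.presheaf.stalk (f z)) := by
  have : IsLocallyNoetherian X := LocallyOfFiniteType.isLocallyNoetherian f
  have hz := eq_of_specializes_of_dim_zero f h0
  obtain ⟨n, hn, hn'⟩ := exists_fibreDimAt_eq f hz
  obtain ⟨X', hX', hzX', hdim⟩ := hc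
  obtain ⟨ζ, hmax, rfl⟩ := Groth.Agent.Ega4fib.H174.Equidim.mem_irreducibleComponents_iff.mp hX'
  have hζ : ζ ⤳ z := specializes_iff_mem_closure.mpr hzX'
  have heq : f ζ = genericPoint Y := by
    have hne : (closure {ζ} ∩ f ⁻¹' {genericPoint Y} : Set X).Nonempty := by
      by_contra hempty
      rw [Set.not_nonempty_iff_eq_empty] at hempty
      rw [hempty, hn'] at hdim
      have : topologicalKrullDim ↥(∅ : Set X) = ⊥ := by
        have : IsEmpty (TopologicalSpace.IrreducibleCloseds ↥(∅ : Set X)) := ⟨fun T => by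
          obtain ⟨w, -⟩ := T.isIrreducible.nonempty
          exact w.2⟩
        exact Order.krullDim_eq_bot
      rw [this] at hdim
      exact absurd hdim.symm (by exact WithBot.coe_ne_bot)
    obtain ⟨w, hw1, hw2⟩ := hne
    have hw : ζ ⤳ w := specializes_iff_mem_closure.mpr hw1
    have h1 : f ζ ⤳ genericPoint Y := by
      rw [← (show f w = genericPoint Y from hw2)]
      exact hw.map f.continuous
    exact (h1.antisymm (genericPoint_specializes _)).eq
  obtain ⟨m, hm, hm'⟩ := exists_dim_fib f ζ
  rw [← heq, hm', hn'] at hdim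
  have hmn : m = n := by exact_mod_cast hdim
  have hformula := ringKrullDim_add_rtd f hcat hζ n m hn hm
  apply le_antisymm
  · have h1 := coheight_le_add_fiber f z
    rw [ringKrullDim_stalk_eq_coheight] at h0
    have h2 : Order.coheight (f.asFiber z) = 0 := by exact_mod_cast h0
    rw [h2, add_zero] at h1
    rw [ringKrullDim_stalk_eq_coheight, ringKrullDim_stalk_eq_coheight]
    exact_mod_cast h1
  · rw [hmn, ker_specMap_comap] at hformula
    have hgen : ringKrullDim (Cyc.LocQuot (f z) (f ζ) (hζ.map f.continuous)) =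
        ringKrullDim (Y.presheaf.stalk (f z)) :=
      ringKrullDim_locQuot_generic (ξ := f ζ) (fun y' => by
        rw [heq]; exact genericPoint_specializes _)
    have h1 : ringKrullDim (Y.presheaf.stalk (f z)) + (n : WithBot ℕ∞) =
        ringKrullDim (Cyc.LocQuot z ζ hζ) + (n : WithBot ℕ∞) := by
      rw [← hgen]; exact hformula.symm
    have h2 : ringKrullDim (Y.presheaf.stalk (f z)) = ringKrullDim (Cyc.LocQuot z ζ hζ) :=
      ENat.WithBot.add_natCast_cancel.1 h1
    rw [h2]
    exact ringKrullDim_quotient_le _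

/-- Let Y be an irreducible locally Noetherian scheme with generic point η, f : X ⟶ Y a morphism of
finite type and y a point of Y. Condition (b): for every point z of the fibre over y at which the
local ring of the fibre has dimension 0, dim O_{X,z} = dim O_{Y,y}. Condition (c): for every such z
there is an irreducible component X' of X containing z such that the dimension of X' ∩ f⁻¹(η)
(topology induced from X) equals the local dimension at z of the fibre over y (the dimension of the
irreducible component of the fibre with generic point z). Then (b) implies (c), and (c) implies (b)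
if O_{Y,y} is universally catenary. -/
theorem result {X Y : Scheme.{u}} [IrreducibleSpace Y] [IsLocallyNoetherian Y]
    (f : X ⟶ Y) [LocallyOfFiniteType f] [QuasiCompact f] (y : Y) :
    ((∀ z : X, f.base z = y → ringKrullDim ((f.fiber (f.base z)).presheaf.stalk (f.asFiber z)) = 0 →
        ringKrullDim (X.presheaf.stalk z) = ringKrullDim (Y.presheaf.stalk (f.base z))) →
      (∀ z : X, f.base z = y → ringKrullDim ((f.fiber (f.base z)).presheaf.stalk (f.asFiber z)) = 0 →
        ∃ X' ∈ irreducibleComponents (X : Type u), z ∈ X' ∧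
          topologicalKrullDim ↥(X' ∩ f.base ⁻¹' {genericPoint Y}) = FlatMor.fibreDimAt f z)) ∧
    (CAlg.IsUniversallyCatenary (Y.presheaf.stalk y) →
      (∀ z : X, f.base z = y → ringKrullDim ((f.fiber (f.base z)).presheaf.stalk (f.asFiber z)) = 0 →
        ∃ X' ∈ irreducibleComponents (X : Type u), z ∈ X' ∧
          topologicalKrullDim ↥(X' ∩ f.base ⁻¹' {genericPoint Y}) = FlatMor.fibreDimAt f z) →
      (∀ z : X, f.base z = y → ringKrullDim ((f.fiber (f.base z)).presheaf.stalk (f.asFiber z)) = 0 →
        ringKrullDim (X.presheaf.stalk z) = ringKrullDim (Y.presheaf.stalk (f.base z)))) := by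
  refine ⟨fun hb z hz h0 => exists_component f z h0 (hb z hz h0),
    fun hcat hc z hz h0 => dim_eq f z ?_ h0 (hc z hz h0)⟩
  subst hz
  exact hcat

end Groth.Agent.S3393
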