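import Groth.Statements.S3394
import Groth.Agent.Ega4fib.H115.NoetherFibre

set_option autoImplicit false
open CategoryTheory AlgebraicGeometry
universe u
open EGA43

namespace Groth.Agent.S3394

open CategoryTheory.Limits in
/-- Let X and Y be affine schemes, f : X ⟶ Y a morphism of finite type, y a point of f(X) and e the
dimension of the fibre of f over y. Then there is a Y-morphism g from X to the affine space of
dimension e over Y such that the morphism induced by g on the fibres over y is finite (here written
as the base change of g along the inclusion of the fibre of the affine space over y). -/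
theorem result {X Y : Scheme.{u}} [IsAffine X] [IsAffine Y] (f : X ⟶ Y)
    [LocallyOfFiniteType f] (y : Y) (hy : y ∈ Set.range f.base) (e : ℕ)
    (he : topologicalKrullDim ↥(f.fiber y) = e) :
    ∃ g : X ⟶ 𝔸(ULift.{u} (Fin e); Y), g ≫ (𝔸(ULift.{u} (Fin e); Y) ↘ Y) = f ∧
      IsFinite (pullback.snd g ((𝔸(ULift.{u} (Fin e); Y) ↘ Y).fiberι y)) := by
  obtain ⟨v, hv⟩ := Groth.Agent.Ega4fib.H115.NoetherFibre.exists_vector f y e he
  exact ⟨AffineSpace.homOfVector f v, AffineSpace.homOfVector_over f v, hv⟩

end Groth.Agent.S3394
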