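import Groth.Statements.S3395
import Groth.Agent.Ega4fib.H116.FinSurj

set_option autoImplicit false
open CategoryTheory AlgebraicGeometry
universe u
open EGA43

namespace Groth.Agent.S3395

open CategoryTheory.Limits in
/-- Let X and Y be affine schemes, f : X ⟶ Y of finite type, y a point of f(X), e the dimension of the
fibre over y, and g a Y-morphism from X to the affine space of dimension e over Y whose base change
to the fibre of the affine space over y is finite. Then that base change is surjective, and there is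
an open subset U of X containing the fibre f⁻¹(y) on which g is locally quasi-finite. -/
theorem result {X Y : Scheme.{u}} [IsAffine X] [IsAffine Y]
    (f : X ⟶ Y) [LocallyOfFiniteType f] (y : Y) (hy : y ∈ Set.range f.base) (e : ℕ)
    (he : topologicalKrullDim ↥(f.fiber y) = e) (g : X ⟶ 𝔸(ULift.{u} (Fin e); Y)) (hg : g ≫ (𝔸(ULift.{u} (Fin e); Y) ↘ Y) = f)
    (hfin : IsFinite (pullback.snd g ((𝔸(ULift.{u} (Fin e); Y) ↘ Y).fiberι y))) :
    Function.Surjective (pullback.snd g ((𝔸(ULift.{u} (Fin e); Y) ↘ Y).fiberι y)).base ∧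
      ∃ U : X.Opens, f.base ⁻¹' {y} ⊆ (U : Set X) ∧ LocallyQuasiFinite (U.ι ≫ g) := by
  have hgft : LocallyOfFiniteType (g ≫ (𝔸(ULift.{u} (Fin e); Y) ↘ Y)) := by rw [hg]; infer_instance
  have hgft' : LocallyOfFiniteType g := locallyOfFiniteType_of_comp g (𝔸(ULift.{u} (Fin e); Y) ↘ Y)
  refine ⟨?_, g.quasiFiniteLocus, ?_, inferInstance⟩
  · have h := AffineSpace.isPullback_map (n := ULift.{u} (Fin e)) (Y.fromSpecResidueField y)
    let i : (𝔸(ULift.{u} (Fin e); Y) ↘ Y).fiber y ≅
        Spec (.of (MvPolynomial (ULift.{u} (Fin e)) (Y.residueField y))) :=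
      h.isoPullback.symm ≪≫ AffineSpace.SpecIso (ULift.{u} (Fin e)) (Y.residueField y)
    let j : pullback g ((𝔸(ULift.{u} (Fin e); Y) ↘ Y).fiberι y) ≅ f.fiber y :=
      pullbackRightPullbackFstIso (𝔸(ULift.{u} (Fin e); Y) ↘ Y) (Y.fromSpecResidueField y) g ≪≫
        pullback.congrHom hg rfl
    refine Groth.Agent.Ega4fib.H116.FinSurj.surjective_of_isFinite_of_dim _
      (MvPolynomial (ULift.{u} (Fin e)) (Y.residueField y)) i e
      (Groth.Agent.Ega4fib.H116.FinSurj.ringKrullDim_mvPolynomial _ e) ?_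
    rw [← he]
    exact Groth.Agent.Ega4fib.H116.FinSurj.topologicalKrullDim_iso j
  · intro x hx
    refine Groth.Agent.Ega4fib.H116.FinSurj.quasiFiniteAt_of_fiber g
      (𝔸(ULift.{u} (Fin e); Y) ↘ Y) y x ?_
    rw [← Scheme.Hom.comp_apply, hg]
    exact hx

end Groth.Agent.S3395
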