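import Groth.Statements.S3396
import Groth.Agent.Ega4fib.H117.EquidimDim

set_option autoImplicit false
open CategoryTheory AlgebraicGeometry
universe u
open EGA43

namespace Groth.Agent.S3396

/-- Let Y be locally Noetherian, f : X ⟶ Y locally of finite type and equidimensional at the point x,
and suppose the local ring O_{Y,f x} is universally catenary. If O_{Y,f x} is equidimensional, then
so is O_{X,x}. -/
theorem result {X Y : Scheme.{u}} [IsLocallyNoetherian Y] (f : X ⟶ Y)
    [LocallyOfFiniteType f] (x : X) (h : EGA43.IsEquidimAt f x)
    (hcat : CAlg.IsUniversallyCatenary (Y.presheaf.stalk (f.base x)))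
    (hY : EGA4.IsEquidim (Y.presheaf.stalk (f.base x))) :
    EGA4.IsEquidim (X.presheaf.stalk x) :=
  Groth.Agent.Ega4fib.H117.EquidimDim.isEquidim_stalk f x h hcat hY

end Groth.Agent.S3396
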