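import Groth.Statements.S3407
import Groth.Agent.Ega4fib.H128.RedBase
import Groth.Agent.Sga3C.QFlatOpen
import Groth.Agent.S2549

set_option autoImplicit false
open CategoryTheory AlgebraicGeometry
universe u
open EGA43

namespace Groth.Agent.S3407

open Groth.Agent.Ega4fib.H128.RedBase Groth.Agent.Ega43.GeomAt in
/-- The flat points with geometrically reduced fibre form an open set. -/
theorem isOpen_flat_geomAt {X Y : Scheme.{u}} [IsLocallyNoetherian Y] (f : X ⟶ Y)
    [LocallyOfFiniteType f] :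
    IsOpen {x : X | (f.stalkMap x).hom.Flat ∧ GeomAt (fun R _ => _root_.IsReduced R) f x} := by
  let W : X.Opens := ⟨{x : X | (f.stalkMap x).hom.Flat}, Groth.Agent.Sga3C.QFlatOpen.isOpen_flatLocus f⟩
  have hW : Flat (W.ι ≫ f) := by
    rw [Flat.iff_flat_stalkMap]
    intro w
    rw [Scheme.Hom.stalkMap_comp]
    have h1 : (f.stalkMap (W.ι w)).hom.Flat := w.2
    have h2 : (W.ι.stalkMap w).hom.Flat :=
      RingHom.Flat.of_bijective (ConcreteCategory.bijective_of_isIso (W.ι.stalkMap w))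
    exact h1.comp h2
  have hP := Groth.Agent.Ega43.GeomRedMain.isoClosed_isReduced.{u}
  have h1 := Groth.Agent.S2549.result (W.ι ≫ f)
  have h2 := W.ι.isOpenEmbedding.isOpenMap _ h1
  convert h2 using 1
  ext x
  constructor
  · rintro ⟨hx, hg⟩
    refine ⟨⟨x, hx⟩, ?_, rfl⟩
    exact (geomAt_fiber_iff hP (W.ι ≫ f) (⟨x, hx⟩ : ↥W)).2
      ((geomAt_comp_openImmersion hP W.ι f (⟨x, hx⟩ : ↥W)).2 hg)
  · rintro ⟨w, hw, rfl⟩
    exact ⟨w.2, (geomAt_comp_openImmersion hP W.ι f w).1
      ((geomAt_fiber_iff hP (W.ι ≫ f) w).1 hw)⟩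

open Groth.Agent.Ega4fib.H128.RedBase Groth.Agent.Ega43.GeomAt Limits in
/-- Let Y be locally Noetherian, f : X ⟶ Y locally of finite type, x a point of X and y = f x. Suppose f
is universally open at the generic point of every irreducible component of the fibre X_y passing
through x, and X_y is geometrically reduced at x. Then there is an open neighbourhood U of x such
that the restriction of f to U is universally open and, for every point x' of U, the fibre of f
through x' is geometrically reduced at x'. -/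
theorem result {X Y : Scheme.{u}} [IsLocallyNoetherian Y] (f : X ⟶ Y)
    [LocallyOfFiniteType f] (x : X)
    (hopen : ∀ z : ↥(f.fiber (f.base x)), f.asFiber x ∈ closure {z} →
      (∀ z' : ↥(f.fiber (f.base x)), z ∈ closure {z'} → z' = z) →
      EGA43.IsUnivOpenAt f ((f.fiberι (f.base x)).base z))
    (hred : FBase.IsGeomReducedAt (f.fiberToSpecResidueField (f.base x)) (f.asFiber x)) :
    ∃ U : X.Opens, x ∈ U ∧ UniversallyOpen (U.ι ≫ f) ∧
      ∀ x' : X, x' ∈ U → FBase.IsGeomReducedAt (f.fiberToSpecResidueField (f.base x')) (f.asFiber x') := by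
  have hP := Groth.Agent.Ega43.GeomRedMain.isoClosed_isReduced.{u}
  obtain ⟨Y₀, i, hY₀, hi, hsi⟩ := exists_red Y
  have hLN : IsLocallyNoetherian Y₀ := LocallyOfFiniteType.isLocallyNoetherian i
  let p : pullback f i ⟶ X := pullback.fst f i
  let f₀ : pullback f i ⟶ Y₀ := pullback.snd f i
  have sq : IsPullback p f₀ f i := IsPullback.of_hasPullback f i
  obtain ⟨x₀, hx₀⟩ := p.surjective x
  -- the hypotheses for `f₀`
  have hopen₀ : OpenGen f₀ x₀ := by
    refine OpenGen.of_isPullback sq x₀ ?_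
    rw [hx₀]
    exact (openGen_iff f x).2 hopen
  have hred₀ : GeomAt (fun R _ => _root_.IsReduced R) f₀ x₀ := by
    refine geomAt_of_isPullback sq x₀ ?_
    rw [hx₀]
    exact (geomAt_fiber_iff hP f x).1 hred
  have hflat₀ : (f₀.stalkMap x₀).hom.Flat :=
    Groth.Agent.Ega43.UnivOpenFlatGeom.flat_stalkMap f₀ x₀ ((openGen_iff f₀ x₀).1 hopen₀)
      ((geomAt_fiber_iff hP f₀ x₀).2 hred₀) inferInstance
  let V₀ : (pullback f i).Opens := ⟨_, isOpen_flat_geomAt f₀⟩
  have hV₀ : Flat (V₀.ι ≫ f₀) := by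
    rw [Flat.iff_flat_stalkMap]
    intro w
    rw [Scheme.Hom.stalkMap_comp]
    have h1 : (f₀.stalkMap (V₀.ι w)).hom.Flat := w.2.1
    have h2 : (V₀.ι.stalkMap w).hom.Flat :=
      RingHom.Flat.of_bijective (ConcreteCategory.bijective_of_isIso (V₀.ι.stalkMap w))
    exact h1.comp h2
  -- the image in `X`
  have hemb : Topology.IsOpenEmbedding p := by
    refine ⟨p.isClosedEmbedding.toIsEmbedding, ?_⟩
    rw [p.surjective.range_eq]
    exact isOpen_univ
  let U : X.Opens := ⟨p '' (V₀ : Set ↥(pullback f i)), hemb.isOpenMap _ V₀.isOpen⟩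
  refine ⟨U, ⟨x₀, ⟨hflat₀, hred₀⟩, hx₀⟩, ?_, ?_⟩
  · have hUV : ∀ v : ↥(V₀ : Scheme.{u}), (V₀.ι ≫ p) v ∈ U := by
      intro v
      exact ⟨V₀.ι v, v.2, (Scheme.Hom.comp_apply _ _ _).symm⟩
    let q : (V₀ : Scheme.{u}) ⟶ (U : Scheme.{u}) := IsOpenImmersion.lift U.ι (V₀.ι ≫ p) (by
      rw [Scheme.Opens.range_ι]
      rintro _ ⟨v, rfl⟩
      exact hUV v)
    have hq : q ≫ U.ι = V₀.ι ≫ p := IsOpenImmersion.lift_fac _ _ _
    have hqs : Surjective q := by
      refine ⟨fun u => ?_⟩
      obtain ⟨v, hv, hv2⟩ := u.2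
      refine ⟨⟨v, hv⟩, ?_⟩
      apply U.ι.injective
      rw [← Scheme.Hom.comp_apply, hq]
      exact hv2
    have hi2 : UniversallyOpen i :=
      Groth.Agent.Sga3C.ArtinBase.universallyOpen_of_isClosedImmersion_surjective i
    have h1 : UniversallyOpen (V₀.ι ≫ f₀) := inferInstance
    have h2 : UniversallyOpen (q ≫ U.ι ≫ f) := by
      have h3 : q ≫ U.ι ≫ f = (V₀.ι ≫ f₀) ≫ i := by
        rw [← Category.assoc, hq, Category.assoc, Category.assoc, sq.w]
      rw [h3]
      infer_instance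
    exact Groth.Agent.Ega43.UnivOpenDescent.universallyOpen_of_comp_surjective q (U.ι ≫ f)
  · rintro _ ⟨v, hv, rfl⟩
    exact (geomAt_fiber_iff hP f (p v)).2 ((geomAt_iff_of_isPullback sq v).1 hv.2)

end Groth.Agent.S3407
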