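import Groth.Statements.S3408
import Groth.Agent.Ega43.UnivOpenFlatGeom
import Groth.Agent.S2567
import Groth.Agent.Ega1.LocNoethNhd
import Groth.Agent.Sga3C.QFlatOpen

set_option autoImplicit false
open CategoryTheory AlgebraicGeometry
universe u
open EGA43

namespace Groth.Agent.S3408

/-- Let Y be locally Noetherian, f : X ⟶ Y locally of finite type, x a point of X and y = f x. Suppose f
is universally open at the generic point of every irreducible component of X_y passing through x,
X_y is geometrically reduced at x, and the local ring O_{Y,y} is reduced. Then there is an open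
neighbourhood U of x such that the restriction of f to U is flat and U is a reduced scheme. -/
theorem result {X Y : Scheme.{u}} [IsLocallyNoetherian Y] (f : X ⟶ Y)
    [LocallyOfFiniteType f] (x : X)
    (hopen : ∀ z : ↥(f.fiber (f.base x)), f.asFiber x ∈ closure {z} →
      (∀ z' : ↥(f.fiber (f.base x)), z ∈ closure {z'} → z' = z) →
      EGA43.IsUnivOpenAt f ((f.fiberι (f.base x)).base z))
    (hred : FBase.IsGeomReducedAt (f.fiberToSpecResidueField (f.base x)) (f.asFiber x))
    (hy : _root_.IsReduced (Y.presheaf.stalk (f.base x))) :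
    ∃ U : X.Opens, x ∈ U ∧ Flat (U.ι ≫ f) ∧ IsReduced (U : Scheme.{u}) := by
  have hflat : (f.stalkMap x).hom.Flat :=
    Groth.Agent.Ega43.UnivOpenFlatGeom.flat_stalkMap f x hopen hred hy
  let W : X.Opens := ⟨{x : X | (f.stalkMap x).hom.Flat}, Groth.Agent.Sga3C.QFlatOpen.isOpen_flatLocus f⟩
  have hflatU : ∀ U : X.Opens, U ≤ W → Flat (U.ι ≫ f) := by
    intro U hU
    rw [Flat.iff_flat_stalkMap]
    intro w
    rw [Scheme.Hom.stalkMap_comp]
    have h1 : (f.stalkMap (U.ι w)).hom.Flat := hU w.2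
    have h2 : (U.ι.stalkMap w).hom.Flat :=
      RingHom.Flat.of_bijective (ConcreteCategory.bijective_of_isIso (U.ι.stalkMap w))
    exact h1.comp h2
  have : IsLocallyNoetherian X := LocallyOfFiniteType.isLocallyNoetherian f
  have hxW : x ∈ W := hflat
  have hW := hflatU W le_rfl
  have hP := Groth.Agent.Ega43.GeomRedMain.isoClosed_isReduced.{u}
  let w : ↥(W : Scheme.{u}) := ⟨x, hxW⟩
  have hgeomX : Groth.Agent.Ega43.GeomAt.GeomAt (fun R _ => _root_.IsReduced R) f (W.ι w) :=
    (Groth.Agent.Ega43.GeomAt.geomAt_fiber_iff hP f x).1 hred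
  have hgeomW : Groth.Agent.Ega43.GeomAt.GeomAt (fun R _ => _root_.IsReduced R) (W.ι ≫ f) w :=
    (Groth.Agent.Ega43.GeomAt.geomAt_comp_openImmersion hP W.ι f w).2 hgeomX
  have hredW : FBase.IsReducedAt (W : Scheme.{u}) w :=
    Groth.Agent.S2567.result (W.ι ≫ f) w hy
      ((Groth.Agent.Ega43.GeomAt.geomAt_fiber_iff hP (W.ι ≫ f) w).2 hgeomW)
  have hredx : _root_.IsReduced (X.presheaf.stalk x) :=
    (Groth.Agent.Ega43.GeomAt.stalk_iff_of_isOpenImmersion
      (P := fun R _ => _root_.IsReduced R) hP W.ι w).2 hredW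
  obtain ⟨U, hxU, hU, hUred⟩ := Groth.Agent.Ega1.LocNoethNhd.exists_reduced_nhd x
  have hU2 : IsReduced (U : Scheme.{u}) := Groth.Agent.Ega1.LocNoethNhd.isReduced_of_isAffineOpen X hU
  refine ⟨U ⊓ W, ⟨hxU, hxW⟩, hflatU _ inf_le_right, ?_⟩
  exact isReduced_of_isOpenImmersion (X.homOfLE (inf_le_left : U ⊓ W ≤ U))

end Groth.Agent.S3408
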