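import Groth.Statements.S3415
import Groth.Agent.Flat2E.SplitCount
import Groth.Agent.Flat2E.SteinSplit

set_option autoImplicit false
open CategoryTheory AlgebraicGeometry
universe u
open EGA43

namespace Groth.Agent.S3415

/-- Universal openness at a point gives openness at the points above it in a cartesian square. -/
theorem isOpenAt_of_isPullback {X Y X' Y' : Scheme.{u}} {f : X ⟶ Y} {f' : X' ⟶ Y'} {g' : X' ⟶ X} {g : Y' ⟶ Y}
    (hc : IsPullback g' f' f g) (x' : X') (h : EGA43.IsUnivOpenAt f (g' x')) :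
    EGA43.IsOpenAt f' x' := by
  intro U hU
  let e := hc.isoPullback
  have h1 := h Y' g (e.hom x') (by
    rw [← Scheme.Hom.comp_apply, hc.isoPullback_hom_fst])
  have h2 : (e.hom '' U) ∈ nhds (e.hom x') := e.hom.isOpenEmbedding.isOpenMap.image_mem_nhds hU
  have h3 := h1 _ h2
  have h4 : ∀ z : X', (Limits.pullback.snd f g) (e.hom z) = f' z := fun z => by
    rw [← Scheme.Hom.comp_apply, hc.isoPullback_hom_snd]
  have h5 : (Limits.pullback.snd f g).base '' (e.hom '' U) = f' '' U := by
    rw [Set.image_image]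
    exact Set.image_congr fun z _ => h4 z
  rw [h5] at h3
  have h6 : (Limits.pullback.snd f g).base (e.hom x') = f' x' := h4 x'
  rw [h6] at h3
  exact h3

/-- Let Y be locally Noetherian, f : X ⟶ Y proper and n(z) the geometric number of connected components
of the fibre over z. If y is a point such that f is universally open at every point of the fibre
over y, then n is lower semicontinuous at y. -/
theorem result {X Y : Scheme.{u}} [IsLocallyNoetherian Y] (f : X ⟶ Y)
    [IsProper f] (y : Y) (h : ∀ x : X, f.base x = y → EGA43.IsUnivOpenAt f x) :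
    ∃ V ∈ nhds y, ∀ z ∈ V, MoreMor.nGeomConnComp f y ≤ MoreMor.nGeomConnComp f z := by
  obtain ⟨S', g, s', X', fX, f', m, U, -, hg, hs, hsq, hU⟩ := Flat2E.SteinSplit.exists_splitting f y
  have hopen : ∀ x' : X', f' x' = s' → EGA43.IsOpenAt f' x' := fun x' hx' => by
    refine isOpenAt_of_isPullback hsq x' (h _ ?_)
    rw [← Scheme.Hom.comp_apply, hsq.w, Scheme.Hom.comp_apply, hx', hs]
  have hV : (⋂ i, f' '' (U i : Set X')) ∈ nhds s' := by
    rw [Filter.iInter_mem]
    intro i
    obtain ⟨x, hx⟩ := Flat2E.SplitCount.exists_point_of_connectedFibreAt (hU.conn i)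
    have hx' : f' ((U i).ι x) = s' := by rw [← Scheme.Hom.comp_apply]; exact hx
    have h1 := hopen _ hx' (U i) ((U i).2.mem_nhds x.2)
    rw [show f'.base ((U i).ι x) = s' from hx'] at h1
    exact h1
  refine ⟨g '' (⋂ i, f' '' (U i : Set X')), ?_, ?_⟩
  · rw [← hs]
    exact g.isOpenMap.image_mem_nhds hV
  · rintro _ ⟨t, ht, rfl⟩
    rw [← Flat2D.GeomFib.nGeomConnComp_baseChange f f' fX g hsq t]
    have h4 : MoreMor.nGeomConnComp f y = m := by
      rw [← hs, ← Flat2D.GeomFib.nGeomConnComp_baseChange f f' fX g hsq s']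
      exact Flat2E.SplitCount.nGeomConnComp_eq hU
    rw [h4]
    rw [Set.mem_iInter] at ht
    exact Flat2E.SplitCount.le_nGeomConnComp hU t fun i => by
      obtain ⟨x, hx, hxt⟩ := ht i
      exact ⟨x, hx, hxt⟩

end Groth.Agent.S3415
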