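import Groth.Statements.S3417
import Groth.Agent.Ega4fib.H138.DvrGlob

set_option autoImplicit false
open CategoryTheory AlgebraicGeometry
universe u
open EGA43

namespace Groth.Agent.S3417

/-- Let A be a discrete valuation ring, Y = Spec A with closed point a and generic point b, and f : X ⟶
Y a morphism locally of finite type which is open (as a map of spaces). If X is connected and the
fibre over a is a reduced scheme, then the fibre over b is connected. (Stated with 'preconnected',
which also covers the empty case; a is the closed point and b the point specialising to every
point.) -/
theorem result (A : Type u) [CommRing A] [IsDomain A]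
    [IsDiscreteValuationRing A] {X : Scheme.{u}} (f : X ⟶ Spec (CommRingCat.of A)) [LocallyOfFiniteType f]
    (hopen : IsOpenMap f.base) [PreconnectedSpace X]
    (a b : ↥(Spec (CommRingCat.of A))) (ha : IsClosed ({a} : Set ↥(Spec (CommRingCat.of A))))
    (hb : ∀ z : ↥(Spec (CommRingCat.of A)), b ⤳ z)
    (hred : AlgebraicGeometry.IsReduced (f.fiber a)) :
    PreconnectedSpace ↥(f.fiber b) := by
  exact Groth.Agent.Ega4fib.H138.DvrGlob.main A f hopen a b ha hb hred

end Groth.Agent.S3417
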