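import Groth.Statements.S3421
import Groth.Agent.Ega4fib.H142.CMInputs
-- import your own Groth.Agent.* helpers here

set_option autoImplicit false
open CategoryTheory AlgebraicGeometry
universe u
open EGA43

namespace Groth.Agent.S3421

/-- Let f : X ⟶ S be locally of finite presentation. The set of points x of X such that the local ring
at x of the fibre of f through x is Cohen–Macaulay is locally constructible in X. -/
theorem result {X S : Scheme.{u}} (f : X ⟶ S)
    [LocallyOfFinitePresentation f] :
    Topology.IsLocallyConstructible {x : X |
      LocCoh.IsCohenMacaulayLocalRing ((f.fiber (f.base x)).presheaf.stalk (f.asFiber x))} := by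
  exact Groth.Agent.Ega4fib.H142.CMInputs.isLocallyConstructible_cmFibre f

end Groth.Agent.S3421
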