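import Groth.Statements.S3423
import Groth.Agent.Smoothlim.SmoothLocusBC
import Groth.Agent.Ega4fib.H144.SrcLocusForms
-- import your own Groth.Agent.* helpers here

set_option autoImplicit false
open CategoryTheory AlgebraicGeometry
universe u
open EGA43

namespace Groth.Agent.S3423

open Groth.Agent.Ega4fib.H144.SrcLocus Groth.Agent.Smoothlim.SmoothLocusBC CategoryTheory.Limits

/-- formal smoothness of the stalk map -/
def P {K : CommRingCat.{u}} {Z : Scheme.{u}} (g : Z ⟶ Spec K) (z : Z) : Prop :=
  (g.stalkMap z).hom.FormallySmooth

theorem lfp_of_isField {K : CommRingCat.{u}} (hK : IsField K) {Z : Scheme.{u}} (g : Z ⟶ Spec K)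
    [LocallyOfFiniteType g] : LocallyOfFinitePresentation g := by
  let _ := hK.toField
  have : IsNoetherianRing K := inferInstance
  infer_instance

theorem flat_of_isField {K L : CommRingCat.{u}} (hK : IsField K) (i : K ⟶ L) : Flat (Spec.map i) := by
  rw [HasRingHomProperty.Spec_iff (P := @Flat)]
  algebraize [i.hom]
  let _ := hK.toField
  exact (inferInstance : Module.Flat K L)

theorem fibreCond : FibreCond @P where
  bc {K L i Z Z' g g' p} hK hL h hg z' := by
    have := lfp_of_isField hK g
    have h2 : LocallyOfFiniteType g' := MorphismProperty.of_isPullback (P := @LocallyOfFiniteType) h hg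
    have := lfp_of_isField hL g'
    exact mem_smoothLocus_iff_of_isPullback h z' (Or.inr (flat_of_isField hK i))
  openSrc {K U Z} j g hK hj hg v := by
    have := lfp_of_isField hK g
    have h1 := Scheme.Hom.preimage_smoothLocus_eq j g
    have h2 : v ∈ j ⁻¹ᵁ g.smoothLocus ↔ v ∈ (j ≫ g).smoothLocus := by rw [h1]
    exact h2.symm

/-- Let f : X ⟶ S be locally of finite presentation. The set of points x of X such that the fibre of f
through x is geometrically regular at x over the residue field of f x — equivalently, such that x
lies in the smooth locus of that fibre over the residue field — is locally constructible in X. -/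
theorem result {X S : Scheme.{u}} (f : X ⟶ S)
    [LocallyOfFinitePresentation f]
    [∀ s : S, LocallyOfFinitePresentation (f.fiberToSpecResidueField s)] :
    Topology.IsLocallyConstructible {x : X | f.asFiber x ∈ (f.fiberToSpecResidueField (f.base x)).smoothLocus} := by
  refine fibreCond.isSrcLocus.isLocallyConstructible_of_flat (fun {A B} _ φ hA hφ hflat => ?_) f
  have hAn : IsNoetherianRing A := Algebra.FiniteType.isNoetherianRing ℤ A
  have hBn : IsNoetherianRing B := by
    algebraize [φ.hom]
    have : Algebra.FiniteType A B := hφ
    exact Algebra.FiniteType.isNoetherianRing A B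
  have hφfp : LocallyOfFinitePresentation (Spec.map φ) := by
    rw [HasRingHomProperty.Spec_iff (P := @LocallyOfFinitePresentation)]
    exact RingHom.FinitePresentation.of_finiteType.mp hφ
  have hfl : Flat (Spec.map φ) := by
    rw [HasRingHomProperty.Spec_iff (P := @Flat)]
    exact hflat
  have heq : {x : ↥(Spec B) | onFibre @P (Spec.map φ) x} = ((Spec.map φ).smoothLocus : Set ↥(Spec B)) := by
    refine Set.ext fun x => ?_
    have h := isPullback_fiber (Spec.map φ) ((Spec.map φ) x)
    have h2 : LocallyOfFinitePresentation ((Spec.map φ).fiberToSpecResidueField ((Spec.map φ) x)) :=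
      MorphismProperty.of_isPullback (P := @LocallyOfFinitePresentation) h inferInstance
    have h3 := mem_smoothLocus_iff_of_isPullback h ((Spec.map φ).asFiber x) (Or.inl (Flat.stalkMap _ _))
    rw [Scheme.Hom.fiberι_asFiber] at h3
    exact h3
  change Topology.IsConstructible {x : ↥(Spec B) | onFibre @P (Spec.map φ) x}
  rw [heq]
  have : TopologicalSpace.NoetherianSpace ↥(Spec B) := inferInstanceAs (TopologicalSpace.NoetherianSpace (PrimeSpectrum B))
  have h5 := (Spec.map φ).smoothLocus.isOpen
  exact IsRetrocompact.isConstructible h5 (fun U _ _ => TopologicalSpace.NoetherianSpace.isCompact _)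

end Groth.Agent.S3423
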