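import Groth.Statements.S3424
import Groth.Agent.Ega43.LocusSep
-- import your own Groth.Agent.* helpers here

set_option autoImplicit false
open CategoryTheory AlgebraicGeometry
universe u
open EGA43

namespace Groth.Agent.S3424

open CategoryTheory.Limits in
/-- Let g : Y ⟶ S and f : X ⟶ Y be such that X and Y are of finite presentation over S (locally of
finite presentation, quasi-compact and quasi-separated). For each point s of S let f_s be the
induced morphism from the fibre of f ≫ g over s to the fibre of g over s. Then the set of s for
which f_s is separated is locally constructible in S. -/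
theorem result {X Y S : Scheme.{u}} (f : X ⟶ Y) (g : Y ⟶ S)
    [LocallyOfFinitePresentation g] [QuasiCompact g] [QuasiSeparated g]
    [LocallyOfFinitePresentation (f ≫ g)] [QuasiCompact (f ≫ g)] [QuasiSeparated (f ≫ g)] :
    Topology.IsLocallyConstructible {s : S |
      IsSeparated (pullback.lift (pullback.fst (f ≫ g) (S.fromSpecResidueField s) ≫ f) (pullback.snd (f ≫ g) (S.fromSpecResidueField s))
          ((Category.assoc _ _ _).trans pullback.condition) :
        pullback (f ≫ g) (S.fromSpecResidueField s) ⟶ pullback g (S.fromSpecResidueField s))} := by
  exact Groth.Agent.Ega43.LocusSep.isLocallyConstructible_locus_isSeparated f g (.mk' g) (.mk' (f ≫ g))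

end Groth.Agent.S3424
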