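import Groth.Statements.S3426
import Groth.Agent.Ega43.LocusUnram

set_option autoImplicit false
open CategoryTheory AlgebraicGeometry
universe u
open EGA43

namespace Groth.Agent.S3426

open CategoryTheory.Limits in
/-- Let g : Y ⟶ S and f : X ⟶ Y be such that X and Y are of finite presentation over S (locally of
finite presentation, quasi-compact and quasi-separated). For each point s of S let f_s be the
induced morphism from the fibre of f ≫ g over s to the fibre of g over s. Then the set of s for
which f_s is a monomorphism is locally constructible in S. -/
theorem result {X Y S : Scheme.{u}} (f : X ⟶ Y) (g : Y ⟶ S)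
    [LocallyOfFinitePresentation g] [QuasiCompact g] [QuasiSeparated g]
    [LocallyOfFinitePresentation (f ≫ g)] [QuasiCompact (f ≫ g)] [QuasiSeparated (f ≫ g)] :
    Topology.IsLocallyConstructible {s : S |
      Mono (pullback.lift (pullback.fst (f ≫ g) (S.fromSpecResidueField s) ≫ f) (pullback.snd (f ≫ g) (S.fromSpecResidueField s))
          ((Category.assoc _ _ _).trans pullback.condition) :
        pullback (f ≫ g) (S.fromSpecResidueField s) ⟶ pullback g (S.fromSpecResidueField s))} := by
  have h := Groth.Agent.Ega43.LocusUnram.isLocallyConstructible_locus_mono f g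
    (Groth.Agent.Ega43.LocusAff.FP.mk' g) (Groth.Agent.Ega43.LocusAff.FP.mk' (f ≫ g))
  exact h

end Groth.Agent.S3426
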