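import Groth.Statements.S3427
import Groth.Agent.Ega4fib.H146.DenseLocusSch

set_option autoImplicit false
open CategoryTheory AlgebraicGeometry
universe u
open EGA43

namespace Groth.Agent.S3427

/-- Let f : X ⟶ S be of finite presentation (locally of finite presentation, quasi-compact,
quasi-separated) and Z ⊆ Z' two locally constructible subsets of X. Then the set of points s of S
such that Z ∩ f⁻¹(s) is dense in Z' ∩ f⁻¹(s) (for the topology induced from X, which is that of the
fibre) is locally constructible in S. -/
theorem result {X S : Scheme.{u}} (f : X ⟶ S) [LocallyOfFinitePresentation f]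
    [QuasiCompact f] [QuasiSeparated f] (Z Z' : Set X) (hZ : Topology.IsLocallyConstructible Z)
    (hZ' : Topology.IsLocallyConstructible Z') (hle : Z ⊆ Z') :
    Topology.IsLocallyConstructible {s : S | Z' ∩ f.base ⁻¹' {s} ⊆ closure (Z ∩ f.base ⁻¹' {s})} := by
  exact Groth.Agent.Ega4fib.H146.DenseLocusSch.isLocallyConstructible_setOf_subset_closure f hZ hZ'

end Groth.Agent.S3427
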