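import Groth.Statements.S3428
import Groth.Agent.Ega4fib.H149.FibreTopLoc

set_option autoImplicit false
open CategoryTheory AlgebraicGeometry
universe u
open EGA43

namespace Groth.Agent.S3428

/-- Let f : X ⟶ S be of finite presentation (locally of finite presentation, quasi-compact,
quasi-separated) and Z a locally constructible subset of X. Then the set of points s of S such that
Z ∩ f⁻¹(s) is closed in the fibre f⁻¹(s) (with the topology induced from X), the set of s such that
it is open in the fibre, and the set of s such that it is locally closed in the fibre, are locally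
constructible in S. -/
theorem result {X S : Scheme.{u}} (f : X ⟶ S)
    [LocallyOfFinitePresentation f] [QuasiCompact f] [QuasiSeparated f] (Z : Set X)
    (hZ : Topology.IsLocallyConstructible Z) :
    Topology.IsLocallyConstructible {s : S | IsClosed (Subtype.val ⁻¹' Z : Set ↥(f.base ⁻¹' {s}))} ∧
      Topology.IsLocallyConstructible {s : S | IsOpen (Subtype.val ⁻¹' Z : Set ↥(f.base ⁻¹' {s}))} ∧
      Topology.IsLocallyConstructible {s : S | IsLocallyClosed (Subtype.val ⁻¹' Z : Set ↥(f.base ⁻¹' {s}))} :=
  ⟨Groth.Agent.Ega4fib.H149.FibreTopLoc.isLocallyConstructible_isClosed f hZ,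
    Groth.Agent.Ega4fib.H149.FibreTopLoc.isLocallyConstructible_isOpen f hZ,
    Groth.Agent.Ega4fib.H149.FibreTopLoc.isLocallyConstructible_isLocallyClosed f hZ⟩

end Groth.Agent.S3428
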