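import Groth.Statements.S3429
import Groth.Agent.Fdesc.QuasiFlat
import Groth.Agent.Fdesc.FinStalk
import Groth.Agent.Fdesc.FlatBC
-- import your own Groth.Agent.* helpers here

set_option autoImplicit false
open CategoryTheory AlgebraicGeometry
universe u
open EGA42

namespace Groth.Agent.S3429

open TensorProduct in
/-- A nonzero finite module over a local ring stays nonzero under a local base change. -/
theorem nontrivial_tensor_of_local {A B : Type*} [CommRing A] [CommRing B] [IsLocalRing A]
    [IsLocalRing B] [Algebra A B] [IsLocalHom (algebraMap A B)] (N : Type*) [AddCommGroup N]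
    [Module A N] [Module.Finite A N] [Nontrivial N] : Nontrivial (B ⊗[A] N) := by
  by_contra hcon
  rw [not_nontrivial_iff_subsingleton] at hcon
  have h1 : Subsingleton (IsLocalRing.ResidueField B ⊗[B] (B ⊗[A] N)) := inferInstance
  have h2 : Subsingleton (IsLocalRing.ResidueField B ⊗[A] N) :=
    (TensorProduct.AlgebraTensorModule.cancelBaseChange A B B
      (IsLocalRing.ResidueField B) N).symm.toEquiv.subsingleton
  have h3 : Nontrivial (IsLocalRing.ResidueField A ⊗[A] N) := by
    by_contra h
    rw [not_nontrivial_iff_subsingleton, IsLocalRing.subsingleton_tensorProduct] at h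
    exact not_subsingleton N h
  have h4 : Nontrivial (IsLocalRing.ResidueField B ⊗[IsLocalRing.ResidueField A]
      (IsLocalRing.ResidueField A ⊗[A] N)) := inferInstance
  have h5 : Nontrivial (IsLocalRing.ResidueField B ⊗[A] N) :=
    (TensorProduct.AlgebraTensorModule.cancelBaseChange A (IsLocalRing.ResidueField A)
      (IsLocalRing.ResidueField A) (IsLocalRing.ResidueField B) N).symm.toEquiv.nontrivial
  exact not_subsingleton _ h2

/-- The data of a finite flat fully supported module passes to a base change. -/
theorem generalizingMap_of_isPullback {P X Y' Y : Scheme.{u}} {p : P ⟶ X} {q : P ⟶ Y'} {f : X ⟶ Y}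
    {g : Y' ⟶ Y} (H : IsPullback p q f g) (hf : FDesc.IsQuasiFlat f) : GeneralizingMap q.base := by
  obtain ⟨M, hM, hflat, hnt⟩ := hf
  have key : ∀ z : P, Module.Finite (P.presheaf.stalk z)
      (((Scheme.Modules.pullback p).obj M).presheaf.stalk z) ∧
      Nontrivial (((Scheme.Modules.pullback p).obj M).presheaf.stalk z) := by
    intro z
    letI := Groth.Agent.Fdesc.PullbackStalk.stalkAlg p z
    have : IsLocalHom (algebraMap (X.presheaf.stalk (p.base z)) (P.presheaf.stalk z)) :=
      inferInstanceAs (IsLocalHom (p.stalkMap z).hom)
    have := Groth.Agent.Fdesc.FinStalk.finite_stalk_of_isCoh M hM (p.base z)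
    have := hnt (p.base z)
    have e := Groth.Agent.Fdesc.PullbackStalk.stalkPullbackEquiv p M z
    have h1 := nontrivial_tensor_of_local (A := X.presheaf.stalk (p.base z))
      (B := P.presheaf.stalk z) (M.presheaf.stalk (p.base z))
    exact ⟨Module.Finite.equiv e, e.symm.toEquiv.nontrivial⟩
  exact Groth.Agent.Fdesc.QuasiFlat.generalizingMap_of_stalks q ((Scheme.Modules.pullback p).obj M)
    (fun z => (key z).1)
    (fun z => Groth.Agent.Fdesc.FlatBC.isFlatOverAt_pullback H M z (hflat _))
    (fun z => (key z).2)

/-- A morphism of schemes which is quasi-flat (some quasi-coherent module of finite type on the source,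
flat over the base, has support the whole source) and locally of finite presentation is universally
open. -/
theorem result {X Y : Scheme.{u}} (f : X ⟶ Y)
    (hf : FDesc.IsQuasiFlat f) [LocallyOfFinitePresentation f] : UniversallyOpen f := by
  refine ⟨?_⟩
  intro X' Y' i₁ i₂ f' H
  have : LocallyOfFinitePresentation f' := MorphismProperty.of_isPullback H.flip ‹_›
  exact isOpenMap_of_generalizingMap f' (generalizingMap_of_isPullback H.flip hf)

end Groth.Agent.S3429
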