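import Groth.Statements.S3430
import Groth.Agent.Ega4fib.H151.DimRtd
import Groth.Agent.Ega4fib.H151.NoetherSch
import Groth.Agent.Ega4fib.H174.EquidimAff
import Groth.Agent.CohqA.DenseAffine

set_option autoImplicit false
open CategoryTheory AlgebraicGeometry
universe u
open EGA42

namespace Groth.Agent.S3430

open Groth.Agent.CycB.RelDim Groth.Agent.Ega4fib.H151

section

variable {k : Type u} [Field k] {X : Scheme.{u}} (f : X ⟶ Spec (CommRingCat.of k))
  [LocallyOfFiniteType f]

omit [LocallyOfFiniteType f] in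
theorem rtd_eq (n : ℕ) (U : X.Opens)
    (g : (U : Scheme.{u}) ⟶ 𝔸(ULift.{u} (Fin n); Spec (CommRingCat.of k)))
    (hg : g ≫ (𝔸(ULift.{u} (Fin n); Spec (CommRingCat.of k)) ↘ Spec (CommRingCat.of k)) = U.ι ≫ f)
    (z : U) :
    rtd f z.1 = rtd (𝔸(ULift.{u} (Fin n); Spec (CommRingCat.of k)) ↘ Spec (CommRingCat.of k)) (g z) +
      rtd g z := by
  rw [← rtd_comp, hg]
  exact (VarietyA.LocDim.rtd_ι_comp U f z).symm

theorem le_dim_affine (n : ℕ) :
    ∃ t : 𝔸(ULift.{u} (Fin n); Spec (CommRingCat.of k)),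
      rtd (𝔸(ULift.{u} (Fin n); Spec (CommRingCat.of k)) ↘ Spec (CommRingCat.of k)) t = n := by
  have : Nonempty 𝔸(ULift.{u} (Fin n); Spec (CommRingCat.of k)) := by
    have h := (AffineSpace.SpecIso (ULift.{u} (Fin n)) (CommRingCat.of k)).inv
    exact ⟨h (Nonempty.some (inferInstance :
      Nonempty (PrimeSpectrum (MvPolynomial (ULift.{u} (Fin n)) k))))⟩
  obtain ⟨t₀⟩ := this
  obtain ⟨t, -, -, ht⟩ := Ega4fib.H174.Equidim.exists_maximal_fiber
    (𝔸(ULift.{u} (Fin n); Spec (CommRingCat.of k)) ↘ Spec (CommRingCat.of k)) t₀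
  exact ⟨t, Ega4fib.H174.EquidimAff.rtd_affineSpace_of_maximal n t ht⟩

/-- A dense (or arbitrary) open with a surjection to `n`-space bounds the dimension from below. -/
theorem le_of_surjective (n : ℕ) (U : X.Opens)
    (g : (U : Scheme.{u}) ⟶ 𝔸(ULift.{u} (Fin n); Spec (CommRingCat.of k)))
    (hg : g ≫ (𝔸(ULift.{u} (Fin n); Spec (CommRingCat.of k)) ↘ Spec (CommRingCat.of k)) = U.ι ≫ f)
    (hs : Function.Surjective g.base) : (n : WithBot ℕ∞) ≤ topologicalKrullDim (X : Type u) := by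
  rw [DimRtd.le_dim_iff f n]
  obtain ⟨t, ht⟩ := le_dim_affine (k := k) n
  obtain ⟨z, hz⟩ := hs t
  refine ⟨z.1, ?_⟩
  rw [rtd_eq f n U g hg z]
  have h : g z = t := hz
  rw [h, ht]
  exact le_self_add

theorem le_of_finite [QuasiCompact f] (n : ℕ) (U : X.Opens) (hU : Dense (U : Set X))
    (g : (U : Scheme.{u}) ⟶ 𝔸(ULift.{u} (Fin n); Spec (CommRingCat.of k)))
    (hg : g ≫ (𝔸(ULift.{u} (Fin n); Spec (CommRingCat.of k)) ↘ Spec (CommRingCat.of k)) = U.ι ≫ f)
    (hf : IsFinite g) : topologicalKrullDim (X : Type u) ≤ n := by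
  rw [DimRtd.dim_le_iff f n]
  refine DimRtd.forall_rtd_le_of_dense f U hU n fun x hx => ?_
  have h := rtd_eq f n U g hg ⟨x, hx⟩
  rw [Ega4fib.H174.EquidimAff.rtd_eq_zero_of_locallyQuasiFinite g, add_zero] at h
  exact (le_of_eq h).trans (Ega4fib.H174.EquidimAff.rtd_affineSpace_le n _)

/-- Noether normalisation of a dense affine open. -/
theorem exists_normalization [QuasiCompact f] [Nonempty X] :
    ∃ (U : X.Opens) (s : ℕ) (R : Type u) (_ : CommRing R) (_ : Algebra k R)
      (e : (U : Scheme.{u}) ≅ Spec (CommRingCat.of R)) (ψ : MvPolynomial (Fin s) k →ₐ[k] R),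
      Dense (U : Set X) ∧ e.hom ≫ Spec.map (CommRingCat.ofHom (algebraMap k R)) = U.ι ≫ f ∧
      ψ.toRingHom.Finite ∧ Function.Surjective (PrimeSpectrum.comap ψ.toRingHom) := by
  have hX : IsLocallyNoetherian X := LocallyOfFiniteType.isLocallyNoetherian f
  have hc : CompactSpace X := QuasiCompact.compactSpace_of_compactSpace f
  have : IsNoetherian X := {}
  have hfin : (irreducibleComponents X).Finite :=
    TopologicalSpace.NoetherianSpace.finite_irreducibleComponents
  obtain ⟨x⟩ := ‹Nonempty X›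
  obtain ⟨U, hU, hxU, hd⟩ := CohqA.DenseAffine.exists_dense_isAffineOpen X hfin x
  have hUa : IsAffine (U : Scheme.{u}) := hU
  obtain ⟨φ, hφ⟩ := Spec.map_surjective ((U : Scheme.{u}).isoSpec.inv ≫ U.ι ≫ f)
  let R : CommRingCat.{u} := Γ((U : Scheme.{u}), ⊤)
  let _ : Algebra k R := φ.hom.toAlgebra
  have hft : φ.hom.FiniteType := by
    refine (HasRingHomProperty.Spec_iff (P := @LocallyOfFiniteType)).mp ?_
    rw [hφ]
    infer_instance
  have hfta : Algebra.FiniteType k R := hft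
  have hne : Nonempty (U : Scheme.{u}) := ⟨⟨x, hxU⟩⟩
  have hne' : Nonempty (⊤ : (U : Scheme.{u}).Opens) := ⟨⟨⟨x, hxU⟩, trivial⟩⟩
  have hR : Nontrivial R := Scheme.component_nontrivial (U : Scheme.{u}) ⊤
  obtain ⟨s, ψ, h1, h2⟩ := NoetherSch.exists_noether (k := k) R
  refine ⟨U, s, R, inferInstance, inferInstance, (U : Scheme.{u}).isoSpec, ψ, hd, ?_, h1, h2⟩
  have h3 : Spec.map (CommRingCat.ofHom (algebraMap k R)) =
      (U : Scheme.{u}).isoSpec.inv ≫ U.ι ≫ f := hφ
  rw [h3, Iso.hom_inv_id_assoc]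

end

/-- Let X be a scheme of finite type over a field k and n a natural number. Then: dim X ≥ n if and only
if there are a dense open subscheme U of X and a surjective k-morphism from U to affine n-space over
k; dim X ≤ n if and only if there are such U and g with g finite; dim X = n if and only if there are
such U and g with g finite and surjective. -/
theorem result (k : Type u) [Field k] {X : Scheme.{u}}
    (f : X ⟶ Spec (CommRingCat.of k)) [LocallyOfFiniteType f] [QuasiCompact f] (n : ℕ) :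
    ((n : WithBot ℕ∞) ≤ topologicalKrullDim (X : Type u) ↔
      ∃ (U : X.Opens) (g : (U : Scheme.{u}) ⟶ 𝔸(ULift.{u} (Fin n); Spec (CommRingCat.of k))),
        Dense (U : Set X) ∧ g ≫ (𝔸(ULift.{u} (Fin n); Spec (CommRingCat.of k)) ↘ Spec (CommRingCat.of k)) = U.ι ≫ f ∧ Function.Surjective g.base) ∧
    (topologicalKrullDim (X : Type u) ≤ n ↔
      ∃ (U : X.Opens) (g : (U : Scheme.{u}) ⟶ 𝔸(ULift.{u} (Fin n); Spec (CommRingCat.of k))),
        Dense (U : Set X) ∧ g ≫ (𝔸(ULift.{u} (Fin n); Spec (CommRingCat.of k)) ↘ Spec (CommRingCat.of k)) = U.ι ≫ f ∧ IsFinite g) ∧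
    (topologicalKrullDim (X : Type u) = n ↔
      ∃ (U : X.Opens) (g : (U : Scheme.{u}) ⟶ 𝔸(ULift.{u} (Fin n); Spec (CommRingCat.of k))),
        Dense (U : Set X) ∧ g ≫ (𝔸(ULift.{u} (Fin n); Spec (CommRingCat.of k)) ↘ Spec (CommRingCat.of k)) = U.ι ≫ f ∧ IsFinite g ∧ Function.Surjective g.base) := by
  -- the three converse directions
  refine ⟨⟨fun h => ?_, ?_⟩, ⟨fun h => ?_, ?_⟩, ⟨fun h => ?_, ?_⟩⟩
  rotate_left
  · rintro ⟨U, g, -, hg, hs⟩
    exact le_of_surjective f n U g hg hs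
  rotate_left
  · rintro ⟨U, g, hd, hg, hf⟩
    exact le_of_finite f n U hd g hg hf
  rotate_left
  · rintro ⟨U, g, hd, hg, hf, hs⟩
    exact le_antisymm (le_of_finite f n U hd g hg hf) (le_of_surjective f n U g hg hs)
  all_goals rcases isEmpty_or_nonempty X with hX | hX
  · -- `n ≤ dim ∅` is impossible
    obtain ⟨x, -⟩ := (DimRtd.le_dim_iff f n).mp h
    exact hX.elim x
  · obtain ⟨U, s, R, _, _, e, ψ, hd, he, h1, h2⟩ := exists_normalization f
    obtain ⟨ψs, hs1, hs2⟩ := NoetherSch.exists_ulift ψ h1 h2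
    have hdim : topologicalKrullDim (X : Type u) ≤ s := by
      have := NoetherSch.isFinite_toAff s ψs hs1
      refine le_of_finite f s U hd (e.hom ≫ NoetherSch.toAff s ψs) ?_ inferInstance
      rw [Category.assoc, NoetherSch.toAff_over, he]
    have hns : n ≤ s := by exact_mod_cast h.trans hdim
    obtain ⟨ψ', hψ'⟩ := NoetherSch.exists_down hns ψ h2
    have := NoetherSch.surjective_toAff n ψ' hψ'
    refine ⟨U, e.hom ≫ NoetherSch.toAff n ψ', hd, ?_, ?_⟩
    · rw [Category.assoc, NoetherSch.toAff_over, he]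
    · exact (inferInstance : Surjective (e.hom ≫ NoetherSch.toAff n ψ')).surj
  · -- the empty scheme maps finitely to everything
    have hU : IsEmpty ((⊤ : X.Opens) : Scheme.{u}) := ⟨fun x => hX.elim x.1⟩
    have hc := isInitialOfIsEmpty (X := ((⊤ : X.Opens) : Scheme.{u}))
    let g : ((⊤ : X.Opens) : Scheme.{u}) ⟶ 𝔸(ULift.{u} (Fin n); Spec (CommRingCat.of k)) := hc.to _
    refine ⟨⊤, g, dense_univ, hc.hom_ext _ _, ?_⟩
    have : IsClosedImmersion g := by
      infer_instance
    infer_instance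
  · obtain ⟨U, s, R, _, _, e, ψ, hd, he, h1, h2⟩ := exists_normalization f
    obtain ⟨ψs, hs1, hs2⟩ := NoetherSch.exists_ulift ψ h1 h2
    have hdim : (s : WithBot ℕ∞) ≤ topologicalKrullDim (X : Type u) := by
      have := NoetherSch.surjective_toAff s ψs hs2
      refine le_of_surjective f s U (e.hom ≫ NoetherSch.toAff s ψs) ?_
        (inferInstance : Surjective (e.hom ≫ NoetherSch.toAff s ψs)).surj
      rw [Category.assoc, NoetherSch.toAff_over, he]
    have hns : s ≤ n := by exact_mod_cast hdim.trans h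
    obtain ⟨ψ', hψ'⟩ := NoetherSch.exists_up hns ψ h1
    have := NoetherSch.isFinite_toAff n ψ' hψ'
    refine ⟨U, e.hom ≫ NoetherSch.toAff n ψ', hd, ?_, inferInstance⟩
    rw [Category.assoc, NoetherSch.toAff_over, he]
  · obtain ⟨x, -⟩ := (DimRtd.le_dim_iff f n).mp h.ge
    exact hX.elim x
  · obtain ⟨U, s, R, _, _, e, ψ, hd, he, h1, h2⟩ := exists_normalization f
    obtain ⟨ψs, hs1, hs2⟩ := NoetherSch.exists_ulift ψ h1 h2
    have hS := NoetherSch.surjective_toAff s ψs hs2
    have hF := NoetherSch.isFinite_toAff s ψs hs1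
    have hcomm : (e.hom ≫ NoetherSch.toAff s ψs) ≫
        (𝔸(ULift.{u} (Fin s); Spec (CommRingCat.of k)) ↘ Spec (CommRingCat.of k)) = U.ι ≫ f := by
      rw [Category.assoc, NoetherSch.toAff_over, he]
    have hsurj : Function.Surjective (e.hom ≫ NoetherSch.toAff s ψs).base :=
      (inferInstance : Surjective (e.hom ≫ NoetherSch.toAff s ψs)).surj
    have hdim : topologicalKrullDim (X : Type u) = s :=
      le_antisymm (le_of_finite f s U hd _ hcomm inferInstance) (le_of_surjective f s U _ hcomm hsurj)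
    have hsn : s = n := by
      have h3 := hdim.symm.trans h
      exact_mod_cast h3
    subst hsn
    exact ⟨U, e.hom ≫ NoetherSch.toAff s ψs, hd, hcomm, inferInstance, hsurj⟩

end Groth.Agent.S3430
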