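import Groth.Statements.S3431
import Groth.Agent.Etalg.GoldmanBasic
import Mathlib.RingTheory.KrullDimension.PID
import Mathlib.RingTheory.KrullDimension.Field

set_option autoImplicit false
universe u
open EGA43

namespace Groth.Agent.S3431

/-- A Noetherian ring with no semi-local one-dimensional quotient domain is Jacobson. -/
theorem aux_mpr (A : Type u) [CommRing A] [IsNoetherianRing A]
    (H : ∀ (p : Ideal A) [p.IsPrime], ¬ (Finite (MaximalSpectrum (A ⧸ p)) ∧ ringKrullDim (A ⧸ p) = 1)) :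
    IsJacobsonRing A := by
  rw [isJacobsonRing_iff_prime_eq]
  by_contra hcon
  push Not at hcon
  obtain ⟨P0, hP0, hne0⟩ := hcon
  obtain ⟨(p : Ideal A), ⟨hp, hpne⟩, hpmax⟩ :=
    set_has_maximal_iff_noetherian.mpr (inferInstance : IsNoetherianRing A)
      {Q : Ideal A | Q.IsPrime ∧ Q.jacobson ≠ Q} ⟨P0, hP0, hne0⟩
  have hpmax' : ∀ q : Ideal A, q.IsPrime → p < q → q.jacobson = q := by
    intro q hq hlt
    by_contra h
    exact hpmax q ⟨hq, h⟩ hlt
  have hlt : p < p.jacobson := lt_of_le_of_ne Ideal.le_jacobson (Ne.symm hpne)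
  obtain ⟨b, hbJ, hbp⟩ := SetLike.exists_of_lt hlt
  have hsurj := Ideal.Quotient.mk_surjective (I := p)
  have h0 : Ideal.Quotient.mk p b ≠ 0 := fun e => hbp (Ideal.Quotient.eq_zero_iff_mem.1 e)
  have Hall : ∀ P : Ideal (A ⧸ p), P.IsPrime → P ≠ ⊥ → Ideal.Quotient.mk p b ∈ P := by
    intro P hP hP0
    have h1 : p ≤ P.comap (Ideal.Quotient.mk p) := by
      intro x hx
      rw [Ideal.mem_comap, Ideal.Quotient.eq_zero_iff_mem.2 hx]
      exact P.zero_mem
    have h2 : p ≠ P.comap (Ideal.Quotient.mk p) := by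
      intro e
      apply hP0
      rw [eq_bot_iff]
      intro x hx
      obtain ⟨x, rfl⟩ := hsurj x
      have : x ∈ p := by rw [e]; exact hx
      rw [Ideal.Quotient.eq_zero_iff_mem.2 this]
      exact Submodule.zero_mem _
    have hPc : (P.comap (Ideal.Quotient.mk p)).IsPrime := hP.comap _
    have h3 := hpmax' _ hPc (lt_of_le_of_ne h1 h2)
    have h4 : b ∈ (P.comap (Ideal.Quotient.mk p)).jacobson := Ideal.jacobson_mono h1 hbJ
    rw [h3] at h4
    exact h4
  have hfin := Etalg.GoldmanBasic.finite_primes_of_forall _ h0 Hall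
  have hmax := Etalg.GoldmanBasic.isMaximal_of_forall _ h0 Hall
  refine H p ⟨?_, ?_⟩
  · have : Finite {P : Ideal (A ⧸ p) | P.IsPrime} := hfin
    refine Finite.of_injective
      (fun m : MaximalSpectrum (A ⧸ p) => (⟨m.asIdeal, m.isMaximal.isPrime⟩ : {P : Ideal (A ⧸ p) | P.IsPrime})) ?_
    intro m m' h
    exact MaximalSpectrum.ext (congrArg Subtype.val h)
  · have hnf : ¬ IsField (A ⧸ p) := by
      intro hf
      have hm : p.IsMaximal := Ideal.Quotient.maximal_of_isField p hf
      exact hpne Ideal.jacobson_eq_self_of_isMaximal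
    apply eq_of_le_of_not_lt ?_ fun h' ↦ hnf ?_
    · rw [← Nat.cast_one, ← Ring.krullDimLE_iff]
      refine Ring.krullDimLE_one_iff.2 fun I hI ↦ ?_
      by_cases hI0 : I = ⊥
      · left
        rw [hI0, IsDomain.minimalPrimes_eq_singleton_bot]
        rfl
      · right
        exact hmax I hI hI0
    · have h'' : ringKrullDim (A ⧸ p) ≤ 0 := Order.le_of_lt_succ h'
      rw [← Nat.cast_zero, ← Ring.krullDimLE_iff] at h''
      exact Ring.KrullDimLE.isField_of_isDomain

/-- A Jacobson domain with finitely many maximal ideals is a field. -/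
theorem isField_of_finite (B : Type u) [CommRing B] [IsDomain B] [IsJacobsonRing B]
    [Finite (MaximalSpectrum B)] : IsField B := by
  have h1 : (⊥ : Ideal B).jacobson = ⊥ :=
    IsJacobsonRing.out inferInstance Ideal.isPrime_bot.isRadical
  have : Fintype (MaximalSpectrum B) := Fintype.ofFinite _
  have h2 : (Finset.univ.inf fun m : MaximalSpectrum B => m.asIdeal) ≤ ⊥ := by
    rw [← h1, Ideal.jacobson]
    refine le_sInf ?_
    rintro J ⟨-, hJ⟩
    exact Finset.inf_le (f := fun m : MaximalSpectrum B => m.asIdeal) (Finset.mem_univ ⟨J, hJ⟩)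
  obtain ⟨m, -, hm⟩ := (Ideal.IsPrime.inf_le' (Ideal.isPrime_bot (α := B))).1 h2
  have h3 : m.asIdeal = ⊥ := le_bot_iff.1 hm
  have h4 : (⊥ : Ideal B).IsMaximal := h3 ▸ m.isMaximal
  exact Ring.isField_iff_maximal_bot.2 h4

/-- Let A be a Noetherian ring. Then A is a Jacobson ring if and only if there is no prime ideal p of A
such that A/p is semi-local (finitely many maximal ideals) of Krull dimension 1. -/
theorem result (A : Type u) [CommRing A] [IsNoetherianRing A] :
    IsJacobsonRing A ↔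
      ∀ (p : Ideal A) [p.IsPrime], ¬ (Finite (MaximalSpectrum (A ⧸ p)) ∧ ringKrullDim (A ⧸ p) = 1) := by
  refine ⟨fun hA p hp => ?_, aux_mpr A⟩
  rintro ⟨hfin, hdim⟩
  have hJ : IsJacobsonRing (A ⧸ p) :=
    isJacobsonRing_of_surjective ⟨Ideal.Quotient.mk p, Ideal.Quotient.mk_surjective⟩
  have hf := isField_of_finite (A ⧸ p)
  have h0 : ringKrullDim (A ⧸ p) = 0 := ringKrullDim_eq_zero_of_isField hf
  rw [h0] at hdim
  exact absurd hdim (by norm_num)

end Groth.Agent.S3431
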