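import Groth.Statements.S3433
import Mathlib.RingTheory.Ideal.KrullsHeightTheorem
import Mathlib.RingTheory.KrullDimension.LocalRing
import Mathlib.RingTheory.KrullDimension.NonZeroDivisors
import Mathlib.RingTheory.Spectrum.Prime.Noetherian

set_option autoImplicit false
universe u
open EGA43

namespace Groth.Agent.S3433

open IsLocalRing PrimeSpectrum

/-- A prime which is maximal among the primes not containing `f ∈ 𝔪` has `dim A/q = 1`. -/
lemma dim_quot_eq_one {A : Type u} [CommRing A] [IsNoetherianRing A] [IsLocalRing A] {f : A}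
    (hf : f ∈ maximalIdeal A) (q : Ideal A) [q.IsPrime] (hfq : f ∉ q)
    (hmax : ∀ q' : Ideal A, q'.IsPrime → q ≤ q' → f ∉ q' → q' = q) :
    ringKrullDim (A ⧸ q) = 1 := by
  have hne : Nontrivial (A ⧸ q) := Ideal.Quotient.nontrivial_iff.mpr (Ideal.IsPrime.ne_top inferInstance)
  have hloc : IsLocalRing (A ⧸ q) :=
    IsLocalRing.of_surjective' (Ideal.Quotient.mk q) Ideal.Quotient.mk_surjective
  have hmap : (maximalIdeal A).map (Ideal.Quotient.mk q) = maximalIdeal (A ⧸ q) :=
    IsLocalRing.map_maximalIdeal_of_surjective _ Ideal.Quotient.mk_surjective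
  set g : A ⧸ q := Ideal.Quotient.mk q f with hg
  have hg0 : g ≠ 0 := fun h => hfq (Ideal.Quotient.eq_zero_iff_mem.mp h)
  have hgm : g ∈ maximalIdeal (A ⧸ q) := by
    rw [← hmap]
    exact Ideal.mem_map_of_mem _ hf
  -- every nonzero prime contains `g`
  have hall : ∀ Q : Ideal (A ⧸ q), Q.IsPrime → Q ≠ ⊥ → g ∈ Q := by
    intro Q hQ hQ0
    by_contra hgQ
    have h1 : q ≤ Q.comap (Ideal.Quotient.mk q) := by
      intro x hx
      rw [Ideal.mem_comap, Ideal.Quotient.eq_zero_iff_mem.mpr hx]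
      exact Q.zero_mem
    have h2 := hmax (Q.comap (Ideal.Quotient.mk q)) (Ideal.comap_isPrime _ _) h1
      (fun h => hgQ h)
    apply hQ0
    rw [eq_bot_iff]
    intro y hy
    obtain ⟨a, rfl⟩ := Ideal.Quotient.mk_surjective y
    have h3 : a ∈ q := by
      rw [← h2]
      exact hy
    exact Ideal.Quotient.eq_zero_iff_mem.mpr h3
  have hmin : maximalIdeal (A ⧸ q) ∈ (Ideal.span {g}).minimalPrimes := by
    by_contra hcon
    have hfin : (Ideal.span {g}).minimalPrimes.Finite :=
      Ideal.finite_minimalPrimes_of_isNoetherianRing _ _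
    have hnle : ¬ (maximalIdeal (A ⧸ q) : Set (A ⧸ q)) ⊆
        ⋃ Q ∈ (Ideal.span {g}).minimalPrimes, (Q : Set (A ⧸ q)) := by
      intro hsub
      rw [Ideal.subset_union_prime_finite hfin ⊥ ⊥
        (fun Q hQ _ _ => hQ.1.1)] at hsub
      obtain ⟨Q, hQ, hle⟩ := hsub
      have : maximalIdeal (A ⧸ q) = Q :=
        le_antisymm hle (le_maximalIdeal hQ.1.1.ne_top)
      exact hcon (this ▸ hQ)
    rw [Set.not_subset] at hnle
    obtain ⟨y, hym, hy⟩ := hnle
    simp only [Set.mem_iUnion, not_exists] at hy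
    obtain ⟨Q₀, hQ₀⟩ : (Ideal.span {g}).minimalPrimes.Nonempty :=
      Set.nonempty_coe_sort.mp (Ideal.nonempty_minimalPrimes (fun h => (maximalIdeal.isMaximal (A ⧸ q)).ne_top
        (top_le_iff.mp (h ▸ (Ideal.span_singleton_le_iff_mem _).mpr hgm))))
    have hy0 : y ≠ 0 := by
      rintro rfl
      exact hy Q₀ hQ₀ Q₀.zero_mem
    obtain ⟨Q, hQ, -⟩ := Ideal.exists_minimalPrimes_le
      ((Ideal.span_singleton_le_iff_mem (maximalIdeal (A ⧸ q))).mpr hym)
    have hQp : Q.IsPrime := hQ.1.1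
    have hyQ : y ∈ Q := (Ideal.span_singleton_le_iff_mem _).mp hQ.1.2
    have hQ0 : Q ≠ ⊥ := by
      rintro rfl
      exact hy0 hyQ
    have hht : Q.height ≤ 1 := Ideal.height_le_one_of_isPrincipal_of_mem_minimalPrimes _ _ hQ
    obtain ⟨Q', hQ', hle⟩ := Ideal.exists_minimalPrimes_le
      ((Ideal.span_singleton_le_iff_mem Q).mpr (hall Q hQp hQ0))
    have hQ'p : Q'.IsPrime := hQ'.1.1
    have hlt : Q' < Q := lt_of_le_of_ne hle (by
      rintro rfl
      exact hy Q' hQ' hyQ)
    have h1 := Ideal.height_add_one_le_of_lt_of_isPrime hlt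
    have h2 : Q'.height = 0 := by
      have h3 : Q'.height + 1 ≤ 0 + 1 := by simpa using h1.trans hht
      exact nonpos_iff_eq_zero.mp ((ENat.add_le_add_iff_right (by simp)).mp h3)
    have h3 : Q' = ⊥ := Ideal.height_eq_zero_iff_eq_bot.1 h2
    exact hg0 (by simpa [h3] using (Ideal.span_singleton_le_iff_mem _).mp hQ'.1.2)
  have hle : (maximalIdeal (A ⧸ q)).height ≤ 1 :=
    Ideal.height_le_one_of_isPrincipal_of_mem_minimalPrimes _ _ hmin
  have hne' : (maximalIdeal (A ⧸ q)).height ≠ 0 := by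
    intro h0
    have h1 : maximalIdeal (A ⧸ q) = ⊥ := Ideal.height_eq_zero_iff_eq_bot.1 h0
    rw [h1] at hgm
    exact hg0 hgm
  have h1 : (maximalIdeal (A ⧸ q)).height = 1 := le_antisymm hle (Order.one_le_iff_ne_zero.2 hne')
  rw [← IsLocalRing.maximalIdeal_height_eq_ringKrullDim, h1]
  rfl

/-- Closed points of the punctured spectrum: nothing strictly between `p` and `𝔪`. -/
lemma isClosed_singleton_iff {A : Type u} [CommRing A] [IsLocalRing A]
    (p : ↥({IsLocalRing.closedPoint A}ᶜ : Set (PrimeSpectrum A))) :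
    IsClosed ({p} : Set ↥({IsLocalRing.closedPoint A}ᶜ : Set (PrimeSpectrum A))) ↔
      ∀ q : PrimeSpectrum A, p.1 ≤ q → q ≠ closedPoint A → q = p.1 := by
  constructor
  · intro h q hpq hq
    have h1 : (⟨q, hq⟩ : ↥({IsLocalRing.closedPoint A}ᶜ : Set (PrimeSpectrum A))) ∈ closure {p} := by
      rw [closure_subtype]
      simpa [← PrimeSpectrum.le_iff_mem_closure] using hpq
    rw [h.closure_eq] at h1
    exact congrArg Subtype.val (Set.mem_singleton_iff.1 h1)
  · intro h
    have h1 : closure ({p} : Set ↥({IsLocalRing.closedPoint A}ᶜ : Set (PrimeSpectrum A))) = {p} := by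
      refine subset_antisymm ?_ subset_closure
      rintro ⟨q, hq⟩ hqc
      rw [closure_subtype] at hqc
      have hpq : p.1 ≤ q := by
        simpa [← PrimeSpectrum.le_iff_mem_closure] using hqc
      exact Set.mem_singleton_iff.2 (Subtype.ext (h q hpq hq))
    exact h1 ▸ isClosed_closure

/-- dim A/p = 1 iff nothing strictly between `p` and `𝔪` (for `p ≠ 𝔪`), A noetherian local. -/
lemma dim_iff {A : Type u} [CommRing A] [IsNoetherianRing A] [IsLocalRing A]
    (p : PrimeSpectrum A) (hp : p ≠ closedPoint A) :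
    (∀ q : PrimeSpectrum A, p ≤ q → q ≠ closedPoint A → q = p) ↔
      ringKrullDim (A ⧸ p.asIdeal) = 1 := by
  constructor
  · intro h
    have hlt : p < closedPoint A := lt_of_le_of_ne (IsLocalRing.le_maximalIdeal p.2.ne_top) hp
    obtain ⟨f, hf, hfp⟩ := SetLike.exists_of_lt (show p.asIdeal < maximalIdeal A from hlt)
    refine dim_quot_eq_one hf p.asIdeal hfp ?_
    intro q' hq' hle hfq'
    have := h ⟨q', hq'⟩ hle (by
      intro h1
      apply hfq'
      have : q' = maximalIdeal A := congrArg PrimeSpectrum.asIdeal h1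
      rw [this]; exact hf)
    exact congrArg PrimeSpectrum.asIdeal this
  · intro h q hpq hq
    by_contra hne
    have hlt1 : p.asIdeal < q.asIdeal := lt_of_le_of_ne hpq (fun h => hne (PrimeSpectrum.ext h.symm))
    have hlt2 : q.asIdeal < maximalIdeal A :=
      lt_of_le_of_ne (IsLocalRing.le_maximalIdeal q.2.ne_top) (fun h => hq (PrimeSpectrum.ext h))
    rw [ringKrullDim_quotient] at h
    have hmem : ∀ x : PrimeSpectrum A, p ≤ x → x ∈ PrimeSpectrum.zeroLocus (p.asIdeal : Set A) :=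
      fun x hx => hx
    let a0 : PrimeSpectrum.zeroLocus (p.asIdeal : Set A) := ⟨p, hmem p le_rfl⟩
    let a1 : PrimeSpectrum.zeroLocus (p.asIdeal : Set A) := ⟨q, hmem q hpq⟩
    let a2 : PrimeSpectrum.zeroLocus (p.asIdeal : Set A) :=
      ⟨closedPoint A, hmem _ (hlt1.trans hlt2).le⟩
    have h01 : a0 < a1 := hlt1
    have h12 : a1 < a2 := hlt2
    let s : LTSeries (PrimeSpectrum.zeroLocus (p.asIdeal : Set A)) :=
      { length := 2
        toFun := ![a0, a1, a2]
        step := fun i => by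
          fin_cases i
          · exact h01
          · exact h12 }
    have h2 := Order.LTSeries.length_le_krullDim s
    rw [h] at h2
    have h3 : s.length = 2 := rfl
    rw [h3] at h2
    exact absurd h2 (by decide)

/-- Let A be a Noetherian local ring with maximal ideal m and let Y be the punctured spectrum Spec A ∖
{m}. Then Y is a Jacobson space, and a point p of Y is closed in Y if and only if dim A/p = 1. -/
theorem result (A : Type u) [CommRing A] [IsNoetherianRing A] [IsLocalRing A] :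
    JacobsonSpace ↥({IsLocalRing.closedPoint A}ᶜ : Set (PrimeSpectrum A)) ∧
      ∀ p : ↥({IsLocalRing.closedPoint A}ᶜ : Set (PrimeSpectrum A)),
        IsClosed ({p} : Set ↥({IsLocalRing.closedPoint A}ᶜ : Set (PrimeSpectrum A))) ↔
          ringKrullDim (A ⧸ p.1.asIdeal) = 1 := by
  refine ⟨?_, fun p => (isClosed_singleton_iff p).trans (dim_iff p.1 p.2)⟩
  rw [jacobsonSpace_iff_locallyClosed]
  rintro Z ⟨z, hz⟩ hZ'
  obtain ⟨U, C, hU, hC, rfl⟩ := hZ'
  obtain ⟨U', hU', rfl⟩ := isOpen_induced_iff.1 hU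
  obtain ⟨C', hC', rfl⟩ := isClosed_induced_iff.1 hC
  obtain ⟨_, ⟨g, rfl⟩, hzg, hgU⟩ :=
    PrimeSpectrum.isTopologicalBasis_basic_opens.exists_subset_of_mem_open hz.1 hU'
  have hlt : z.1.asIdeal < maximalIdeal A :=
    lt_of_le_of_ne (IsLocalRing.le_maximalIdeal z.1.2.ne_top) (fun h => z.2 (PrimeSpectrum.ext h))
  obtain ⟨h, hh, hhz⟩ := SetLike.exists_of_lt hlt
  have hf : g * h ∈ maximalIdeal A := Ideal.mul_mem_left _ _ hh
  have hfz : g * h ∉ z.1.asIdeal := fun H => (z.1.2.mem_or_mem H).elim hzg hhz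
  -- choose `q` maximal
  obtain ⟨q, ⟨hq, hzq, hfq⟩, hqmax⟩ := (wellFounded_gt :
    WellFounded ((· > ·) : Ideal A → Ideal A → Prop)).has_min
    {I : Ideal A | I.IsPrime ∧ z.1.asIdeal ≤ I ∧ g * h ∉ I} ⟨z.1.asIdeal, z.1.2, le_rfl, hfz⟩
  have hqm : (⟨q, hq⟩ : PrimeSpectrum A) ≠ closedPoint A := by
    intro H
    have : q = maximalIdeal A := congrArg PrimeSpectrum.asIdeal H
    exact hfq (this ▸ hf)
  have hdim : ringKrullDim (A ⧸ q) = 1 := by
    refine dim_quot_eq_one hf q hfq ?_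
    intro q' hq' hle hfq'
    by_contra hne
    exact hqmax q' ⟨hq', hzq.trans hle, hfq'⟩ (lt_of_le_of_ne hle (Ne.symm hne))
  refine ⟨⟨⟨q, hq⟩, hqm⟩, ⟨?_, ?_⟩, ?_⟩
  · exact hgU (fun H => hfq (Ideal.mul_mem_right _ _ H))
  · exact (PrimeSpectrum.le_iff_specializes z.1 ⟨q, hq⟩ |>.1 hzq).mem_closed hC' hz.2
  · exact (isClosed_singleton_iff _).2 ((dim_iff _ hqm).2 hdim)

end Groth.Agent.S3433
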