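import Groth.Statements.S3434
import Groth.Agent.Ega4fib.H108.ProperNearDvr

set_option autoImplicit false
open CategoryTheory AlgebraicGeometry
universe u
open EGA43

namespace Groth.Agent.S3434

open Groth.Agent.Ega4fib.H108.ProperNearCompactif Groth.Agent.Ega4fib.H108.ProperNearDvr

/-- The stalk map to the function field attached to `Spec R ⟶ Y`. -/
lemma key {X Y : Scheme.{u}} [IsIntegral X] (f : X ⟶ Y) (R : Type u) [CommRing R] [IsLocalRing R]
    [Algebra R X.functionField] (i₂ : Spec (CommRingCat.of R) ⟶ Y)
    (hcomm : X.fromSpecStalk (genericPoint X) ≫ f =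
      Spec.map (CommRingCat.ofHom (algebraMap R X.functionField)) ≫ i₂)
    (hy : f.base (genericPoint X) ⤳ i₂ (IsLocalRing.closedPoint R)) :
    Y.presheaf.stalkSpecializes hy ≫ f.stalkMap (genericPoint X) =
      Scheme.stalkClosedPointTo (R := CommRingCat.of R) i₂ ≫
        CommRingCat.ofHom (algebraMap R X.functionField) := by
  have hst : Spec.map (Scheme.stalkClosedPointTo (R := CommRingCat.of R) i₂) ≫
      Y.fromSpecStalk (i₂ (IsLocalRing.closedPoint R)) = i₂ :=
    Scheme.Spec_stalkClosedPointTo_fromSpecStalk (R := CommRingCat.of R) i₂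
  have h1 : Spec.map (Y.presheaf.stalkSpecializes hy ≫ f.stalkMap (genericPoint X)) ≫
      Y.fromSpecStalk (i₂ (IsLocalRing.closedPoint R)) =
        Spec.map (Scheme.stalkClosedPointTo (R := CommRingCat.of R) i₂ ≫
          CommRingCat.ofHom (algebraMap R X.functionField)) ≫
            Y.fromSpecStalk (i₂ (IsLocalRing.closedPoint R)) := by
    rw [Spec.map_comp, Category.assoc, Scheme.SpecMap_stalkSpecializes_fromSpecStalk,
      Scheme.SpecMap_stalkMap_fromSpecStalk, Spec.map_comp, Category.assoc, hst, hcomm]
  rw [cancel_mono] at h1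
  exact Spec.map_injective h1

lemma key' {X : Scheme.{u}} [IsIntegral X] (R : Type u) [CommRing R] [IsLocalRing R]
    [Algebra R X.functionField] (l : Spec (CommRingCat.of R) ⟶ X)
    (hl : Spec.map (CommRingCat.ofHom (algebraMap R X.functionField)) ≫ l =
      X.fromSpecStalk (genericPoint X)) :
    X.presheaf.stalkSpecializes (genericPoint_specializes (l (IsLocalRing.closedPoint R))) =
      Scheme.stalkClosedPointTo (R := CommRingCat.of R) l ≫
        CommRingCat.ofHom (algebraMap R X.functionField) := by
  have hst : Spec.map (Scheme.stalkClosedPointTo (R := CommRingCat.of R) l) ≫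
      X.fromSpecStalk (l (IsLocalRing.closedPoint R)) = l :=
    Scheme.Spec_stalkClosedPointTo_fromSpecStalk (R := CommRingCat.of R) l
  have h1 : Spec.map (X.presheaf.stalkSpecializes
      (genericPoint_specializes (l (IsLocalRing.closedPoint R)))) ≫
      X.fromSpecStalk (l (IsLocalRing.closedPoint R)) =
        Spec.map (Scheme.stalkClosedPointTo (R := CommRingCat.of R) l ≫
          CommRingCat.ofHom (algebraMap R X.functionField)) ≫
            X.fromSpecStalk (l (IsLocalRing.closedPoint R)) := by
    rw [Scheme.SpecMap_stalkSpecializes_fromSpecStalk, Spec.map_comp, Category.assoc, hst, hl]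
  rw [cancel_mono] at h1
  exact Spec.map_injective h1

/-- Let Y be an integral locally Noetherian scheme, X an integral scheme, f : X ⟶ Y separated, dominant
and of finite type, and y a point of Y; write K for the function field of X (the local ring at its
generic point ξ), into which O_{Y,y} maps through O_{Y,f ξ}. Then f is proper over some open
neighbourhood of y if and only if every discrete valuation ring of K which dominates (the image of)
O_{Y,y} dominates (the image of) O_{X,x} for some point x of X; such an x lies over y. -/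
theorem result {X Y : Scheme.{u}} [IsIntegral X] [IsIntegral Y] [IsLocallyNoetherian Y]
    (f : X ⟶ Y) [IsSeparated f] [IsDominant f] [LocallyOfFiniteType f] [QuasiCompact f] (y : Y)
    (hξ : f.base (genericPoint X) ⤳ y) :
    (∃ U : Y.Opens, y ∈ U ∧ IsProper (f ∣_ U)) ↔
      ∀ A : ValuationSubring X.functionField, IsDiscreteValuationRing A →
        (∀ r : Y.presheaf.stalk y, A.valuation ((Y.presheaf.stalkSpecializes hξ ≫ f.stalkMap (genericPoint X)) r) ≤ 1) →
        (∀ r ∈ IsLocalRing.maximalIdeal (Y.presheaf.stalk y),
            A.valuation ((Y.presheaf.stalkSpecializes hξ ≫ f.stalkMap (genericPoint X)) r) < 1) →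
        ∃ x : X, f.base x = y ∧
          (∀ r : X.presheaf.stalk x, A.valuation (X.presheaf.stalkSpecializes (genericPoint_specializes x) r) ≤ 1) ∧
          (∀ r ∈ IsLocalRing.maximalIdeal (X.presheaf.stalk x),
            A.valuation (X.presheaf.stalkSpecializes (genericPoint_specializes x) r) < 1) := by
  constructor
  · rintro ⟨U, hyU, hU⟩ A hA h1 h2
    let φ : Y.presheaf.stalk y →+* A :=
      (Y.presheaf.stalkSpecializes hξ ≫ f.stalkMap (genericPoint X)).hom.codRestrict A.toSubring
        (fun r => (A.valuation_le_one_iff _).1 (h1 r))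
    have hφ : CommRingCat.ofHom φ ≫ CommRingCat.ofHom (algebraMap A X.functionField) =
        Y.presheaf.stalkSpecializes hξ ≫ f.stalkMap (genericPoint X) := rfl
    have hφloc : IsLocalHom φ := by
      refine ⟨fun a ha => ?_⟩
      by_contra hna
      have h3 := h2 a ((IsLocalRing.mem_maximalIdeal _).2 hna)
      have h4 : ((φ a : A) : X.functionField) =
        (Y.presheaf.stalkSpecializes hξ ≫ f.stalkMap (genericPoint X)) a := rfl
      rw [← h4, ← A.valuation_lt_one_iff] at h3
      exact (IsLocalRing.mem_maximalIdeal _).1 h3 ha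
    let i₂ : Spec (CommRingCat.of A) ⟶ Y := Spec.map (CommRingCat.ofHom φ) ≫ Y.fromSpecStalk y
    have hi₂ : i₂ (IsLocalRing.closedPoint A) = y := by
      rw [Scheme.Hom.comp_apply]
      have h1 : (Spec.map (CommRingCat.ofHom φ)) (IsLocalRing.closedPoint A) =
          IsLocalRing.closedPoint (Y.presheaf.stalk y) := IsLocalRing.comap_closedPoint φ
      rw [h1]
      exact Scheme.fromSpecStalk_closedPoint
    have hsq : X.fromSpecStalk (genericPoint X) ≫ f =
        Spec.map (CommRingCat.ofHom (algebraMap A X.functionField)) ≫ i₂ := by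
      rw [← Category.assoc, ← Spec.map_comp, hφ, Spec.map_comp, Category.assoc,
        Scheme.SpecMap_stalkSpecializes_fromSpecStalk, Scheme.SpecMap_stalkMap_fromSpecStalk]
    have hr2 : Set.range i₂ ⊆ Set.range U.ι := by
      rintro _ ⟨t, rfl⟩
      rw [Scheme.Opens.range_ι]
      have h3 : i₂ t ⤳ i₂ (IsLocalRing.closedPoint A) :=
        (IsLocalRing.specializes_closedPoint (R := A) t).map i₂.continuous
      rw [hi₂] at h3
      exact h3.mem_open U.2 hyU
    have hr1 : Set.range (X.fromSpecStalk (genericPoint X)) ⊆ Set.range (f ⁻¹ᵁ U).ι := by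
      rintro _ ⟨t, rfl⟩
      rw [Scheme.Opens.range_ι]
      change f (X.fromSpecStalk (genericPoint X) t) ∈ U
      rw [← Scheme.Hom.comp_apply, hsq, Scheme.Hom.comp_apply]
      have h3 := hr2 ⟨(Spec.map (CommRingCat.ofHom (algebraMap A X.functionField))) t, rfl⟩
      rwa [Scheme.Opens.range_ι] at h3
    let i₂' := IsOpenImmersion.lift U.ι i₂ hr2
    let i₁' := IsOpenImmersion.lift (f ⁻¹ᵁ U).ι (X.fromSpecStalk (genericPoint X)) hr1
    have hi₂' : i₂' ≫ U.ι = i₂ := IsOpenImmersion.lift_fac _ _ _
    have hi₁' : i₁' ≫ (f ⁻¹ᵁ U).ι = X.fromSpecStalk (genericPoint X) :=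
      IsOpenImmersion.lift_fac _ _ _
    have hsq' : i₁' ≫ (f ∣_ U) =
        Spec.map (CommRingCat.ofHom (algebraMap A X.functionField)) ≫ i₂' := by
      rw [← cancel_mono U.ι, Category.assoc, Category.assoc, hi₂', morphismRestrict_ι,
        reassoc_of% hi₁', hsq]
    have hex : (ValuativeCriterion.Existence ⊓ @QuasiCompact : MorphismProperty Scheme.{u})
        (f ∣_ U) := by
      rw [← UniversallyClosed.eq_valuativeCriterion]; infer_instance
    let S1 : ValuativeCommSq (f ∣_ U) :=
      { R := A
        K := X.functionField
        i₁ := i₁'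
        i₂ := i₂'
        commSq := ⟨hsq'⟩ }
    have hs := hex.1 S1
    obtain ⟨l', hl'1, hl'2⟩ := hs.exists_lift.some
    have hl'1 : Spec.map (CommRingCat.ofHom (algebraMap A X.functionField)) ≫ l' = i₁' := hl'1
    have hl'2 : l' ≫ (f ∣_ U) = i₂' := hl'2
    let l : Spec (CommRingCat.of A) ⟶ X := l' ≫ (f ⁻¹ᵁ U).ι
    have hl1 : Spec.map (CommRingCat.ofHom (algebraMap A X.functionField)) ≫ l =
        X.fromSpecStalk (genericPoint X) := by
      rw [← hi₁', ← hl'1, Category.assoc]
    have hl2 : l ≫ f = i₂ := by
      rw [← hi₂', ← hl'2, Category.assoc, Category.assoc, morphismRestrict_ι]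
    have hk := key' A l hl1
    refine ⟨l (IsLocalRing.closedPoint A), ?_, ?_, ?_⟩
    · have h3 : (l ≫ f) (IsLocalRing.closedPoint A) = y := by rw [hl2]; exact hi₂
      rwa [Scheme.Hom.comp_apply] at h3
    · intro r
      rw [hk]
      exact A.valuation_le_one ((Scheme.stalkClosedPointTo (R := CommRingCat.of A) l).hom r)
    · intro r hr
      rw [hk]
      have hloc : IsLocalHom (Scheme.stalkClosedPointTo (R := CommRingCat.of A) l).hom :=
        Scheme.isLocalHom_stalkClosedPointTo (R := CommRingCat.of A) l
      refine (A.valuation_lt_one_iff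
        ((Scheme.stalkClosedPointTo (R := CommRingCat.of A) l).hom r)).1 ?_
      exact (IsLocalRing.mem_maximalIdeal _).2 (fun hu =>
            (IsLocalRing.mem_maximalIdeal _).1 hr (hloc.map_nonunit _ hu))
  · intro h
    refine exists_isProper_of_liftAtGen f X.functionField (X.fromSpecStalk (genericPoint X))
      ?_ ?_ y ?_ ?_
    · intro x
      have : (X.fromSpecStalk (genericPoint X)) (IsLocalRing.closedPoint X.functionField) =
        genericPoint X := Scheme.fromSpecStalk_closedPoint
      rw [this]
      exact genericPoint_specializes x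
    · rw [Scheme.stalkClosedPointTo_fromSpecStalk]
      exact (ConcreteCategory.bijective_of_isIso
          (X.presheaf.stalkCongr (by rw [Scheme.fromSpecStalk_closedPoint]; rfl)).hom).2
    · have : (X.fromSpecStalk (genericPoint X)) (IsLocalRing.closedPoint X.functionField) =
        genericPoint X := Scheme.fromSpecStalk_closedPoint
      rw [this]
      exact hξ
    · intro R _ _ _ _ _ i₂ hi₂ hcomm
      subst hi₂
      have hkey := key f R i₂ hcomm hξ
      have hval : ∀ a, (Y.presheaf.stalkSpecializes hξ ≫ f.stalkMap (genericPoint X)) a =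
          algebraMap R X.functionField
            ((Scheme.stalkClosedPointTo (R := CommRingCat.of R) i₂).hom a) :=
        fun a => congr($(hkey).hom a)
      have hinj : Function.Injective (algebraMap R X.functionField) :=
        IsFractionRing.injective R X.functionField
      let A : ValuationSubring X.functionField :=
        ⟨(algebraMap R X.functionField).range, ValuationRing.isInteger_or_isInteger R⟩
      have hmemA : ∀ z, z ∈ A ↔ ∃ r : R, algebraMap R X.functionField r = z := fun z => Iff.rfl
      let e : R ≃+* A := RingEquiv.ofBijective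
        ((algebraMap R X.functionField).codRestrict A.toSubring (fun r => ⟨r, rfl⟩))
        ⟨fun a b hab => hinj (congrArg Subtype.val hab), by
          rintro ⟨z, r, hr⟩
          exact ⟨r, Subtype.ext hr⟩⟩
      have he : ∀ r : R, ((e r : A) : X.functionField) = algebraMap R X.functionField r :=
        fun r => rfl
      have hA : IsDiscreteValuationRing A :=
        IsDiscreteValuationRing.RingEquivClass.isDiscreteValuationRing e
      have hle : ∀ r : R, A.valuation (algebraMap R X.functionField r) ≤ 1 := fun r =>
        (A.valuation_le_one_iff _).2 ⟨r, rfl⟩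
      have hlt : ∀ r : R, A.valuation (algebraMap R X.functionField r) < 1 ↔
          r ∈ IsLocalRing.maximalIdeal R := by
        intro r
        rw [← he, ← A.valuation_lt_one_iff, IsLocalRing.mem_maximalIdeal,
          IsLocalRing.mem_maximalIdeal, mem_nonunits_iff, mem_nonunits_iff, MulEquiv.isUnit_map]
      have hloc : IsLocalHom (Scheme.stalkClosedPointTo (R := CommRingCat.of R) i₂).hom :=
        Scheme.isLocalHom_stalkClosedPointTo (R := CommRingCat.of R) i₂
      obtain ⟨x, hx, hx1, hx2⟩ := h A hA (fun r => by
          rw [hval]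
          exact hle _) (fun r hr => by
          rw [hval, hlt]
          exact (IsLocalRing.mem_maximalIdeal _).2 (fun hu =>
            (IsLocalRing.mem_maximalIdeal _).1 hr (hloc.map_nonunit _ hu)))
      let φ₀ : X.presheaf.stalk x →+* A :=
        (X.presheaf.stalkSpecializes (genericPoint_specializes x)).hom.codRestrict A.toSubring
          (fun r => (A.valuation_le_one_iff _).1 (hx1 r))
      let φ : X.presheaf.stalk x →+* R := (e.symm : A →+* R).comp φ₀
      have hφ : ∀ r, algebraMap R X.functionField (φ r) =
          X.presheaf.stalkSpecializes (genericPoint_specializes x) r := by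
        intro r
        rw [← he]
        change ((e (e.symm (φ₀ r)) : A) : X.functionField) = _
        rw [RingEquiv.apply_symm_apply]
        rfl
      have hφloc : IsLocalHom φ := by
        refine ⟨fun a ha => ?_⟩
        by_contra hna
        have h3 := hx2 a ((IsLocalRing.mem_maximalIdeal _).2 hna)
        rw [← hφ, hlt] at h3
        exact (IsLocalRing.mem_maximalIdeal _).1 h3 ha
      have hl : Spec.map (CommRingCat.ofHom (algebraMap R X.functionField)) ≫
          Spec.map (CommRingCat.ofHom φ) ≫ X.fromSpecStalk x =
            X.fromSpecStalk (genericPoint X) := by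
        rw [← Category.assoc, ← Spec.map_comp,
          ← Scheme.SpecMap_stalkSpecializes_fromSpecStalk (genericPoint_specializes x)]
        congr 2
        ext r
        exact hφ r
      refine ⟨Spec.map (CommRingCat.ofHom φ) ≫ X.fromSpecStalk x, hl, ?_⟩
      apply hom_ext_of_closedPoint hinj
      · rw [Category.assoc, Scheme.Hom.comp_apply, Scheme.Hom.comp_apply]
        have h1 : (Spec.map (CommRingCat.ofHom φ)) (IsLocalRing.closedPoint R) =
            IsLocalRing.closedPoint (X.presheaf.stalk x) := IsLocalRing.comap_closedPoint φ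
        rw [h1]
        have h2 : (X.fromSpecStalk x) (IsLocalRing.closedPoint (X.presheaf.stalk x)) = x :=
          Scheme.fromSpecStalk_closedPoint
        rw [h2]
        exact hx
      · rw [← hcomm, ← hl]
        simp only [Category.assoc]

end Groth.Agent.S3434
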