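import Groth.Statements.S3436
import Groth.Agent.UnramB.ArtinLift
import Groth.Agent.UnramB.StalkNhd

set_option autoImplicit false
open CategoryTheory AlgebraicGeometry
universe u
open EGA42

namespace Groth.Agent.S3436

open IsLocalRing Groth.Agent.UnramB.ArtinLift in
/-- Adic formal smoothness gives the lifting property against Artinian local rings. -/
theorem hasArtinLift_of_adic {A B : Type u} [CommRing A] [IsLocalRing A] [CommRing B] [IsLocalRing B]
    [Algebra A B] (H : EGA41.IsFormallySmoothAdic A (maximalIdeal A) B (maximalIdeal B)) :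
    HasArtinLift A B := by
  intro A' _ _ _ h _ I hI hI' g₀ hg₀ hg₀m _
  algebraize [h]
  let g₀' : B →ₐ[A] A' ⧸ I :=
    { g₀ with commutes' := fun a ↦ congr($hg₀ a) }
  have hI2 : I ^ 2 = ⊥ := by
    rw [eq_bot_iff, ← hI', pow_two]
    exact Ideal.mul_mono_right (IsLocalRing.le_maximalIdeal hI)
  obtain ⟨N, hN⟩ : IsNilpotent (maximalIdeal A') := by
    rw [← IsLocalRing.jacobson_eq_maximalIdeal (⊥ : Ideal A') bot_ne_top]
    exact IsArtinianRing.isNilpotent_jacobson_bot
  have hA : ((maximalIdeal A) ^ N).map (algebraMap A A') = ⊥ := by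
    rw [Ideal.map_pow, eq_bot_iff, ← Ideal.zero_eq_bot, ← hN]
    refine Ideal.pow_right_mono ?_ N
    rw [Ideal.map_le_iff_le_comap]
    intro a ha
    exact (mem_maximalIdeal _).mpr fun hu =>
      ((mem_maximalIdeal a).mp ha) (isUnit_of_map_unit h a hu)
  have hB : ∀ x ∈ (maximalIdeal B) ^ N, g₀' x = 0 := by
    intro x hx
    have h1 : ((maximalIdeal B) ^ N).map g₀ ≤ ⊥ := by
      rw [Ideal.map_pow]
      calc ((maximalIdeal B).map g₀) ^ N ≤ ((maximalIdeal A').map (Ideal.Quotient.mk I)) ^ N :=
            Ideal.pow_right_mono (Ideal.map_le_iff_le_comap.mpr hg₀m) N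
        _ = ((maximalIdeal A') ^ N).map (Ideal.Quotient.mk I) := (Ideal.map_pow _ _ _).symm
        _ = ⊥ := by rw [hN, Ideal.zero_eq_bot, Ideal.map_bot]
    exact (Submodule.mem_bot _).mp (h1 (Ideal.mem_map_of_mem g₀ hx))
  obtain ⟨v, hv⟩ := H A' I ⟨2, hI2⟩ ⟨N, hA⟩ g₀' ⟨N, hB⟩
  refine ⟨v.toRingHom, v.comp_algebraMap, ?_⟩
  ext b
  exact congrArg (fun t => t b) hv

/-- Let X and Y be locally Noetherian schemes, f : X ⟶ Y locally of finite type, x a point of X and y =
f x; give O_{X,x} the O_{Y,y}-algebra structure coming from f. Then O_{X,x} is formally smooth over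
O_{Y,y} for the adic topologies of the two local rings (topologies defined by the maximal ideals) if
and only if it is formally smooth for the discrete topologies. -/
theorem result {X Y : Scheme.{u}} [IsLocallyNoetherian X] [IsLocallyNoetherian Y]
    (f : X ⟶ Y) [LocallyOfFiniteType f] (x : X) :
    letI : Algebra (Y.presheaf.stalk (f.base x)) (X.presheaf.stalk x) := (f.stalkMap x).hom.toAlgebra
    EGA41.IsFormallySmoothAdic (Y.presheaf.stalk (f.base x)) (IsLocalRing.maximalIdeal (Y.presheaf.stalk (f.base x)))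
        (X.presheaf.stalk x) (IsLocalRing.maximalIdeal (X.presheaf.stalk x)) ↔
      Algebra.FormallySmooth (Y.presheaf.stalk (f.base x)) (X.presheaf.stalk x) := by
  have : LocallyOfFinitePresentation f := LocallyOfFinitePresentation.iff_locallyOfFiniteType.mpr ‹_›
  let _ : Algebra (Y.presheaf.stalk (f.base x)) (X.presheaf.stalk x) := (f.stalkMap x).hom.toAlgebra
  have hft := LocallyOfFiniteType.stalkMap f x
  have hess : Algebra.EssFiniteType (Y.presheaf.stalk (f.base x)) (X.presheaf.stalk x) := hft
  have hloc : IsLocalHom (algebraMap (Y.presheaf.stalk (f.base x)) (X.presheaf.stalk x)) :=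
    inferInstanceAs (IsLocalHom (f.stalkMap x).hom)
  constructor
  · intro H
    exact (Groth.Agent.UnramB.ArtinLift.formallySmooth_iff_hasArtinLift
      (A := Y.presheaf.stalk (f.base x)) (B := X.presheaf.stalk x)).mpr (hasArtinLift_of_adic H)
  · intro H C _ _ J hJ _ u _
    exact ⟨Algebra.FormallySmooth.lift J hJ u, AlgHom.ext fun b =>
      Algebra.FormallySmooth.mk_lift J hJ u b⟩

end Groth.Agent.S3436
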