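import Groth.Statements.S3438
import Groth.Agent.Ega4fib.H157.FibreEq

set_option autoImplicit false
open CategoryTheory AlgebraicGeometry
universe u
open EGA43

namespace Groth.Agent.S3438

/-- Let Y be locally Noetherian, f : X ⟶ Y locally of finite type, x a point of X with y = f x, and
suppose O_{Y,y} is equidimensional and universally catenary. If f is equidimensional at x, then dim
O_{X,x} = dim O_{Y,y} + dim O_{X_y,x}. (That O_{X,x} is then also equidimensional is a separate
result, not asserted here.) -/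
theorem result {X Y : Scheme.{u}} [IsLocallyNoetherian Y] (f : X ⟶ Y)
    [LocallyOfFiniteType f] (x : X) (hY : EGA4.IsEquidim (Y.presheaf.stalk (f.base x)))
    (hcat : CAlg.IsUniversallyCatenary (Y.presheaf.stalk (f.base x))) (h : EGA43.IsEquidimAt f x) :
    ringKrullDim (X.presheaf.stalk x) =
        ringKrullDim (Y.presheaf.stalk (f.base x)) + ringKrullDim ((f.fiber (f.base x)).presheaf.stalk (f.asFiber x)) := by
  obtain ⟨e, t, ht, he, h1⟩ :=
    Ega4fib.H117.EquidimDim.exists_ringKrullDim_formula f x h hcat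
  have hXN : IsLocallyNoetherian X := LocallyOfFiniteType.isLocallyNoetherian f
  have hF : LocallyOfFiniteType (f.fiberToSpecResidueField (f x)) :=
    inferInstanceAs (LocallyOfFiniteType (Limits.pullback.snd f (Y.fromSpecResidueField (f x))))
  have hFN : IsLocallyNoetherian (f.fiber (f x)) :=
    LocallyOfFiniteType.isLocallyNoetherian (f.fiberToSpecResidueField (f x))
  obtain ⟨c, hc⟩ := Ega4fib.H118.FibreStalkDim.exists_nat_ringKrullDim
    ((f.fiber (f x)).presheaf.stalk (f.asFiber x))
  obtain ⟨a, ha⟩ := Ega4fib.H118.FibreStalkDim.exists_nat_ringKrullDim (X.presheaf.stalk x)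
  obtain ⟨b, hb⟩ := Ega4fib.H118.FibreStalkDim.exists_nat_ringKrullDim (Y.presheaf.stalk (f x))
  have hcte := Ega4fib.H157.FibreEq.dim_fibre_add_rtd_eq f x h e t c he ht hc
  obtain ⟨𝔭, h𝔭, hd⟩ := Ega4A.EquidimFlat.exists_minimalPrimes_dim_eq' (R := X.presheaf.stalk x)
  obtain ⟨h2, h3⟩ := h1 𝔭 h𝔭
  rw [hY _ h2, hd] at h3
  change ringKrullDim (X.presheaf.stalk x) + (t : WithBot ℕ∞) =
    ringKrullDim (Y.presheaf.stalk (f x)) + (e : WithBot ℕ∞) at h3
  change ringKrullDim (X.presheaf.stalk x) = ringKrullDim (Y.presheaf.stalk (f x)) +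
    ringKrullDim ((f.fiber (f x)).presheaf.stalk (f.asFiber x))
  rw [ha, hb] at h3
  rw [ha, hb, hc]
  have h4 : a + t = b + e := by exact_mod_cast h3
  have h5 : a = b + c := by omega
  exact_mod_cast h5

end Groth.Agent.S3438
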