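import Groth.Statements.S3447
import Groth.Agent.Ega4fib.H113.DimFibre

set_option autoImplicit false
open CategoryTheory AlgebraicGeometry
universe u
open EGA43

namespace Groth.Agent.S3447

/-- Let Y be locally Noetherian, f : X ⟶ Y of finite type and x a point of X with y = f x. Then dim
O_{X,x} ≤ dim O_{Y,y} + dim O_{X_y,x}, where X_y is the fibre through x. -/
theorem result {X Y : Scheme.{u}} [IsLocallyNoetherian Y] (f : X ⟶ Y)
    [LocallyOfFiniteType f] [QuasiCompact f] (x : X) :
    ringKrullDim (X.presheaf.stalk x) ≤
      ringKrullDim (Y.presheaf.stalk (f.base x)) + ringKrullDim ((f.fiber (f.base x)).presheaf.stalk (f.asFiber x)) := by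
  have hX : IsLocallyNoetherian X := LocallyOfFiniteType.isLocallyNoetherian f
  have h := Groth.Agent.Ega4fib.H113.DimFibre.coheight_le_add_fiber f x
  rw [ringKrullDim_stalk_eq_coheight, ringKrullDim_stalk_eq_coheight,
    ringKrullDim_stalk_eq_coheight]
  exact_mod_cast h

end Groth.Agent.S3447
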