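import Groth.Statements.S3448
import Groth.Agent.Ega4fib.H129.DimFib

set_option autoImplicit false
open CategoryTheory AlgebraicGeometry
universe u
open EGA43

namespace Groth.Agent.S3448

/-- Let Y be locally Noetherian, f : X ⟶ Y of finite type, x a point of X with y = f x, and suppose
O_{Y,y} is universally catenary. Then dim O_{X,x} = dim O_{Y,y} + dim O_{X_y,x} if and only if there
is a point z of the fibre over y which is a generization of x, is maximal in the fibre (the generic
point of an irreducible component Z of X_y containing x), has local fibre dimension at z equal to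
that at x (dim Z = dim_x X_y), and satisfies dim O_{X,z} = dim O_{Y,y}. -/
theorem result {X Y : Scheme.{u}} [IsLocallyNoetherian Y]
    (f : X ⟶ Y) [LocallyOfFiniteType f] [QuasiCompact f] (x : X)
    (hcat : CAlg.IsUniversallyCatenary (Y.presheaf.stalk (f.base x))) :
    ringKrullDim (X.presheaf.stalk x) =
        ringKrullDim (Y.presheaf.stalk (f.base x)) + ringKrullDim ((f.fiber (f.base x)).presheaf.stalk (f.asFiber x)) ↔
      ∃ z : X, f.base z = f.base x ∧ z ⤳ x ∧ (∀ z' : X, f.base z' = f.base x → z' ⤳ z → z' = z) ∧
        FlatMor.fibreDimAt f z = FlatMor.fibreDimAt f x ∧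
        ringKrullDim (X.presheaf.stalk z) = ringKrullDim (Y.presheaf.stalk (f.base z)) := by
  exact Groth.Agent.Ega4fib.H129.DimFib.dim_formula_iff f x hcat

end Groth.Agent.S3448
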