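import Groth.Statements.S3449
import Groth.Agent.Ega4fib.H175.JacobsonDim

set_option autoImplicit false
open CategoryTheory AlgebraicGeometry
universe u
open EGA43

namespace Groth.Agent.S3449

open Groth.Agent.CycB Groth.Agent.CycB.RelDim Groth.Agent.Ega4fib.H175.JacobsonDim
  TopologicalSpace Topology

/-- Over the base of S3449, `dim O_{S,s}/𝔭_t` does not depend on the closed specialization `s` of
`t`. -/
theorem exists_codim {S : Scheme.{u}} [IsLocallyNoetherian S]
    (h2 : ∀ s : S, CAlg.IsUniversallyCatenary (S.presheaf.stalk s))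
    (h3 : ∀ S' ∈ irreducibleComponents (S : Type u), ∀ s ∈ S', IsClosed ({s} : Set S) →
      topologicalKrullDim (↥S' : Type u) = topologicalKrullDim ↥{t : S | t ∈ S' ∧ t ⤳ s})
    (t : S) : ∃ c : ℕ, ∀ (s : S) (h : t ⤳ s), IsClosed ({s} : Set S) →
      ringKrullDim (Cyc.LocQuot s t h) = c := by
  let S' := irreducibleComponent t
  have hS' : S' ∈ irreducibleComponents (S : Type u) :=
    irreducibleComponent_mem_irreducibleComponents t
  obtain ⟨η, hη⟩ := QuasiSober.sober hS'.1 isClosed_irreducibleComponent
  have hmem : ∀ s : S, s ∈ S' ↔ η ⤳ s := fun s => by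
    rw [specializes_iff_mem_closure, hη.def]
  have hηt : η ⤳ t := (hmem t).1 mem_irreducibleComponent
  obtain ⟨a, ha⟩ := exists_dim_locQuot hηt
  by_cases hex : ∃ s : S, t ⤳ s ∧ IsClosed ({s} : Set S)
  · obtain ⟨s₀, hs₀, hc₀⟩ := hex
    obtain ⟨c, hc⟩ := exists_dim_locQuot hs₀
    refine ⟨c, fun s hs hsc => ?_⟩
    obtain ⟨c', hc'⟩ := exists_dim_locQuot hs
    have key : ∀ (s : S) (hs : t ⤳ s), IsClosed ({s} : Set S) →
        topologicalKrullDim (↥S' : Type u) = (a : WithBot ℕ∞) + ringKrullDim (Cyc.LocQuot s t hs) := by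
      intro s hs hsc
      rw [← ha, ← dim_locQuot_add h2 hηt hs, ← dim_between (hηt.trans hs),
        h3 S' hS' s ((hmem s).2 (hηt.trans hs)) hsc]
      have : {t : S | t ∈ S' ∧ t ⤳ s} = {t : S | η ⤳ t ∧ t ⤳ s} := by
        ext z
        simp only [Set.mem_ofPred_eq, hmem]
      rw [this]
    have e1 := key s hs hsc
    have e2 := key s₀ hs₀ hc₀
    rw [e1, hc, hc'] at e2
    rw [hc']
    have e3 : a + c' = a + c := by exact_mod_cast e2
    have : c' = c := by omega
    rw [this]
  · push Not at hex
    exact ⟨0, fun s hs hsc => absurd hsc (hex s hs)⟩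

/-- The dimension of an irreducible scheme locally of finite type over the base of S3449. -/
theorem dim_eq {X S : Scheme.{u}} [IsLocallyNoetherian S] [JacobsonSpace S]
    (h2 : ∀ s : S, CAlg.IsUniversallyCatenary (S.presheaf.stalk s))
    (p : X ⟶ S) [LocallyOfFiniteType p] [IrreducibleSpace X] (c n : ℕ)
    (hc : ∀ (s : S) (h : p (genericPoint X) ⤳ s), IsClosed ({s} : Set S) →
      ringKrullDim (Cyc.LocQuot s (p (genericPoint X)) h) = c)
    (hn : rtd p (genericPoint X) = n) :
    topologicalKrullDim (X : Type u) = ((c + n : ℕ) : WithBot ℕ∞) := by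
  have hJ : JacobsonSpace X := LocallyOfFiniteType.jacobsonSpace p
  have hXN : IsLocallyNoetherian X := LocallyOfFiniteType.isLocallyNoetherian p
  have := Localalg.GrpDim.topologicalKrullDim_eq_of_coheight X ((c + n : ℕ) : ℕ∞) ?_
  · rw [this]; rfl
  intro x hx
  have hpx : IsClosed ({p x} : Set S) :=
    p.closePoints_subset_preimage_closedPoints hx
  obtain ⟨a, b, ha, hb, hab⟩ := SetupLft.dimension_formula_specializes p h2
    (genericPoint_specializes x)
  have hab' : (a : Cardinal.{u}) + rtd p x = (b : Cardinal.{u}) + rtd p (genericPoint X) := hab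
  rw [rtd_eq_zero_of_isClosed p hx, add_zero, hn] at hab'
  rw [hc _ _ hpx] at hb
  have hb' : b = (c : ℕ∞) := by exact_mod_cast hb
  subst hb'
  rw [coheight_eq_dim_locQuot] at ha
  have ha' : a = Order.coheight x := by exact_mod_cast ha
  rw [← ha']
  have : (((a : ℕ∞)) : Cardinal.{u}) = (((c + n : ℕ) : ℕ∞) : Cardinal.{u}) := by
    rw [hab']
    push_cast
    rfl
  exact_mod_cast this

/-- Let S be a locally Noetherian scheme which is Jacobson, whose local rings are universally catenary,
and whose irreducible components S' are equidimensional in the sense that for every closed point s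
of S' the dimension of S' equals the dimension of S' at s (the Krull dimension of the set of
generizations of s inside S'). Let X and Y be schemes locally of finite type over S and f : X ⟶ Y an
S-morphism with X irreducible and f dominant; let η be the generic point of Y and e the dimension of
the fibre over η. Then dim X = dim Y + e. -/
theorem result {X Y S : Scheme.{u}} [IsLocallyNoetherian S]
    [JacobsonSpace S] (h2 : ∀ s : S, CAlg.IsUniversallyCatenary (S.presheaf.stalk s))
    (h3 : ∀ S' ∈ irreducibleComponents (S : Type u), ∀ s ∈ S', IsClosed ({s} : Set S) →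
      topologicalKrullDim (↥S' : Type u) = topologicalKrullDim ↥{t : S | t ∈ S' ∧ t ⤳ s})
    (p : X ⟶ S) (q : Y ⟶ S) [LocallyOfFiniteType p] [LocallyOfFiniteType q] (f : X ⟶ Y) (hf : f ≫ q = p)
    [IrreducibleSpace X] [IrreducibleSpace Y] [IsDominant f] :
    topologicalKrullDim (X : Type u) =
      topologicalKrullDim (Y : Type u) + topologicalKrullDim ↥(f.fiber (genericPoint Y)) := by
  subst hf
  have hlf : LocallyOfFiniteType f := locallyOfFiniteType_of_comp f q
  -- the generic points
  have hfη : f (genericPoint X) = genericPoint Y := by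
    have h1 : IsGenericPoint (f (genericPoint X)) (closure (f '' Set.univ)) :=
      (genericPoint_spec X).image f.continuous
    rw [Set.image_univ, f.denseRange.closure_range] at h1
    exact (genericPoint_spec Y).eq h1 |>.symm
  obtain ⟨c, hc⟩ := exists_codim h2 h3 (q (genericPoint Y))
  obtain ⟨n, hn⟩ := Cardinal.lt_aleph0.1 (rtd_lt_aleph0 q (genericPoint Y))
  obtain ⟨m, hm, hm'⟩ := exists_dim_closure_fiber f (f (genericPoint X))
    (f.asFiber (genericPoint X))
  rw [Scheme.Hom.fiberι_asFiber] at hm
  have hX : topologicalKrullDim (X : Type u) = ((c + (n + m) : ℕ) : WithBot ℕ∞) := by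
    refine dim_eq h2 (f ≫ q) c (n + m) ?_ ?_
    · have : (f ≫ q) (genericPoint X) = q (genericPoint Y) := by
        rw [Scheme.Hom.comp_apply, hfη]
      rw [this]
      exact hc
    · rw [rtd_comp, hm, hfη, hn, Nat.cast_add]
  have hY : topologicalKrullDim (Y : Type u) = ((c + n : ℕ) : WithBot ℕ∞) :=
    dim_eq h2 q c n hc hn
  -- the generic fibre
  have hcl : closure {f.asFiber (genericPoint X)} = Set.univ := by
    refine Set.eq_univ_of_forall fun z => ?_
    rw [← specializes_iff_mem_closure]
    have := (f.fiberι (f (genericPoint X))).isEmbedding.isInducing.specializes_iff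
      (x := f.asFiber (genericPoint X)) (y := z)
    rw [← this, Scheme.Hom.fiberι_asFiber]
    exact genericPoint_specializes _
  have hF : topologicalKrullDim ↥(f.fiber (genericPoint Y)) = (m : WithBot ℕ∞) := by
    rw [← hfη, ← hm', hcl]
    exact (IsHomeomorph.topologicalKrullDim_eq _
      (Homeomorph.Set.univ ↥(f.fiber (f (genericPoint X)))).isHomeomorph).symm
  rw [hX, hY, hF]
  push_cast
  rw [add_assoc]

end Groth.Agent.S3449
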