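import Groth.Statements.S3450
import Groth.Agent.Ega4C.DimOneNormalization
import Groth.Agent.LoccohA.ChevalleyAdic
import Groth.Agent.Ega4B.ArcPrime
import Groth.Agent.Flat2A.MinFlatIdeal
import Mathlib.RingTheory.Filtration

set_option autoImplicit false
universe u
open EGA43

namespace Groth.Agent.S3450

open IsLocalRing

/-- The ideals which are kernels of finite local homomorphisms to discrete valuation rings. -/
def IsDvrKer (A : Type u) [CommRing A] (P : Ideal A) : Prop :=
  ∃ (V : Type u) (_ : CommRing V) (_ : IsDomain V) (_ : IsDiscreteValuationRing V) (φ : A →+* V),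
    IsLocalHom φ ∧ φ.Finite ∧ RingHom.ker φ = P

theorem isDvrKer_of_krullDimLE_one (A : Type u) [CommRing A] [IsNoetherianRing A]
    [IsLocalRing A] [IsAdicComplete (maximalIdeal A) A] (P : Ideal A) [hP : P.IsPrime]
    (hne : P ≠ maximalIdeal A) (hdim : Ring.KrullDimLE 1 (A ⧸ P)) : IsDvrKer A P := by
  have hloc : IsLocalRing (A ⧸ P) :=
    IsLocalRing.of_surjective' (Ideal.Quotient.mk P) Ideal.Quotient.mk_surjective
  have hcpl : IsAdicComplete (maximalIdeal (A ⧸ P)) (A ⧸ P) :=
    Groth.Agent.Ega4C.CplFinite.isAdicComplete_of_finite A (A ⧸ P)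
  have hD : Ring.DimensionLEOne (A ⧸ P) := by
    constructor
    intro p hp hpp
    exact (Ring.krullDimLE_one_iff_of_noZeroDivisors.mp hdim) p hp hpp
  have hnf : ¬ IsField (A ⧸ P) := by
    intro h
    have : P.IsMaximal := Ideal.Quotient.maximal_of_isField P h
    exact hne (IsLocalRing.eq_maximalIdeal this)
  let K := FractionRing (A ⧸ P)
  let V := integralClosure (A ⧸ P) K
  have hV : IsDiscreteValuationRing V :=
    Groth.Agent.Ega4C.DimOneNormalization.isDiscreteValuationRing_integralClosure (A ⧸ P) K hnf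
  have hfin : Module.Finite (A ⧸ P) V :=
    Groth.Agent.Ega4C.DimOneNormalization.finite_integralClosure (A ⧸ P) K hnf
  have hinj : Function.Injective (algebraMap (A ⧸ P) V) := by
    intro a b hab
    exact IsFractionRing.injective (A ⧸ P) K (congrArg (Subtype.val : V → K) hab)
  have hfaith : FaithfulSMul (A ⧸ P) V := (faithfulSMul_iff_algebraMap_injective _ _).mpr hinj
  refine ⟨V, inferInstance, inferInstance, hV, (algebraMap (A ⧸ P) V).comp (Ideal.Quotient.mk P),
    ?_, ?_, ?_⟩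
  · have h1 : IsLocalHom (algebraMap (A ⧸ P) V) := ⟨fun x hx => (isUnit_map_iff _ x).mp hx⟩
    have h2 : IsLocalHom (Ideal.Quotient.mk P) :=
      IsLocalHom.of_surjective _ Ideal.Quotient.mk_surjective
    exact RingHom.isLocalHom_comp _ _
  · refine RingHom.Finite.comp ?_ ?_
    · exact RingHom.finite_algebraMap.mpr hfin
    · exact RingHom.Finite.of_surjective _ Ideal.Quotient.mk_surjective
  · rw [RingHom.ker_comp_of_injective _ hinj, Ideal.mk_ker]

/-- Chevalley's theorem for families of ideals stable under finite intersections. -/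
theorem chevalley_filtered (A : Type u) [CommRing A] [IsNoetherianRing A]
    [IsLocalRing A] [IsAdicComplete (maximalIdeal A) A] (T : Set (Ideal A))
    (hT0 : ⊤ ∈ T) (hT : ∀ I ∈ T, ∀ J ∈ T, I ⊓ J ∈ T) (hbot : sInf T = ⊥) (n : ℕ) :
    ∃ I ∈ T, I ≤ maximalIdeal A ^ n := by
  have hstab : ∀ j : ℕ, ∃ I ∈ T, ∀ J ∈ T, I ≤ J ⊔ maximalIdeal A ^ j := by
    intro j
    have hart : IsArtinianRing (A ⧸ maximalIdeal A) := by
      let _ := Ideal.Quotient.field (maximalIdeal A)
      infer_instance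
    have hart' : IsArtinianRing (A ⧸ maximalIdeal A ^ j) :=
      Groth.Agent.LoccohA.ChevalleyAdic.isArtinianRing_quotient_pow (maximalIdeal A) j
    have hwf : WellFounded (fun (a b : Ideal (A ⧸ maximalIdeal A ^ j)) => a < b) :=
      (inferInstance : IsArtinian (A ⧸ maximalIdeal A ^ j) (A ⧸ maximalIdeal A ^ j)).wf
    let g : T → Ideal (A ⧸ maximalIdeal A ^ j) :=
      fun I => I.1.map (Ideal.Quotient.mk (maximalIdeal A ^ j))
    obtain ⟨_, ⟨I, rfl⟩, hK⟩ := hwf.has_min (Set.range g) ⟨_, ⟨⟨⊤, hT0⟩, rfl⟩⟩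
    refine ⟨I.1, I.2, fun J hJ => ?_⟩
    have h1 : g ⟨I.1 ⊓ J, hT _ I.2 _ hJ⟩ ≤ g I := Ideal.map_mono inf_le_left
    have h2 : g ⟨I.1 ⊓ J, hT _ I.2 _ hJ⟩ ≤ g ⟨J, hJ⟩ := Ideal.map_mono inf_le_right
    have h3 : g I ≤ g ⟨I.1 ⊓ J, hT _ I.2 _ hJ⟩ := by
      by_contra h4
      exact hK _ ⟨_, rfl⟩ (lt_of_le_not_ge h1 h4)
    have h5 : I.1 ≤ Ideal.comap (Ideal.Quotient.mk (maximalIdeal A ^ j)) (g ⟨J, hJ⟩) :=
      Ideal.map_le_iff_le_comap.mp (h3.trans h2)
    refine h5.trans ?_
    rw [Ideal.comap_map_of_surjective _ Ideal.Quotient.mk_surjective, ← RingHom.ker_eq_comap_bot,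
      Ideal.mk_ker]
  choose I hI hI' using hstab
  let J : ℕ → Ideal A := fun n => Nat.rec (I 0) (fun k K => K ⊓ I (k + 1)) n
  have hJs : ∀ n, J (n + 1) = J n ⊓ I (n + 1) := fun n => rfl
  have hJT : ∀ n, J n ∈ T := by
    intro n
    induction n with
    | zero => exact hI 0
    | succ n ih => rw [hJs]; exact hT _ ih _ (hI _)
  have hJI : ∀ n, J n ≤ I n := by
    intro n
    cases n with
    | zero => exact le_rfl
    | succ n => rw [hJs]; exact inf_le_right
  have hJa : Antitone J := antitone_nat_of_succ_le (fun n => by rw [hJs]; exact inf_le_left)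
  have hJbot : ⨅ n, J n = ⊥ := by
    rw [eq_bot_iff, ← hbot]
    refine le_sInf fun K hK x hx => ?_
    refine Groth.Agent.Flat2A.MinFlatIdeal.mem_of_forall_mem_sup_pow K x (fun j => ?_)
    exact hI' j K hK (hJI j ((Submodule.mem_iInf _).mp hx j))
  obtain ⟨m, hm⟩ := Groth.Agent.LoccohA.ChevalleyAdic.chevalley_local J hJa hJbot n
  exact ⟨J m, hJT m, hm⟩

theorem sInf_isDvrKer (A : Type u) [CommRing A] [IsNoetherianRing A]
    [IsLocalRing A] [IsReduced A] [IsAdicComplete (IsLocalRing.maximalIdeal A) A]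
    (hA : ¬ IsField A) : sInf {P : Ideal A | IsDvrKer A P} = ⊥ := by
  have key : ∀ a ∈ maximalIdeal A, a ≠ 0 → ∃ P : Ideal A, IsDvrKer A P ∧ a ∉ P := by
    intro a ha ha0
    obtain ⟨P, hP, haP, hdim⟩ :=
      Groth.Agent.Ega4B.ArcPrime.exists_prime_krullDimLE_one A a
        (fun h => ha0 (IsReduced.eq_zero a h))
    exact ⟨P, isDvrKer_of_krullDimLE_one A P (fun h => haP (h ▸ ha)) hdim, haP⟩
  rw [eq_bot_iff]
  intro a ha
  rw [Submodule.mem_bot]
  by_contra ha0
  by_cases ham : a ∈ maximalIdeal A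
  · obtain ⟨P, hP, haP⟩ := key a ham ha0
    exact haP (Submodule.mem_sInf.mp ha P hP)
  · obtain ⟨x, hxm, hx0⟩ : ∃ x ∈ maximalIdeal A, x ≠ 0 := by
      have := (IsLocalRing.isField_iff_maximalIdeal_eq (R := A)).not.mp hA
      exact Submodule.exists_mem_ne_zero_of_ne_bot this
    obtain ⟨P, hP, hxP⟩ := key x hxm hx0
    have hu : IsUnit a := by
      by_contra hu
      exact ham ((IsLocalRing.mem_maximalIdeal a).mpr hu)
    have h1 : a ∈ P := Submodule.mem_sInf.mp ha P hP
    exact hxP (Ideal.eq_top_of_isUnit_mem P h1 hu ▸ Submodule.mem_top)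

/-- Let A be a Noetherian local ring which is reduced, complete (for the topology defined by its maximal
ideal m) and not a field. Then for every n there are finitely many local homomorphisms φ_i : A → V_i
into discrete valuation rings, each making V_i a finite A-algebra, such that the intersection of
their kernels is contained in mⁿ. (Equivalently: such finite intersections form a base of
neighbourhoods of 0 for the m-adic topology.) -/
theorem result (A : Type u) [CommRing A] [IsNoetherianRing A]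
    [IsLocalRing A] [IsReduced A] [IsAdicComplete (IsLocalRing.maximalIdeal A) A] (hA : ¬ IsField A) (n : ℕ) :
    ∃ (k : ℕ) (V : Fin k → Type u) (_ : ∀ i, CommRing (V i)) (_ : ∀ i, IsDomain (V i))
      (_ : ∀ i, IsDiscreteValuationRing (V i)) (φ : ∀ i, A →+* V i),
      (∀ i, IsLocalHom (φ i) ∧ (φ i).Finite) ∧
        ⨅ i, RingHom.ker (φ i) ≤ IsLocalRing.maximalIdeal A ^ n := by
  let T : Set (Ideal A) := {I | ∃ s : Finset (Ideal A), (∀ P ∈ s, IsDvrKer A P) ∧ s.inf id = I}
  obtain ⟨I, ⟨s, hs, rfl⟩, hI⟩ := chevalley_filtered A T ⟨∅, by simp, by simp⟩ (by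
    classical
    rintro I ⟨s, hs, rfl⟩ J ⟨t, ht, rfl⟩
    refine ⟨s ∪ t, fun P hP => ?_, Finset.inf_union⟩
    rcases Finset.mem_union.mp hP with h | h
    · exact hs P h
    · exact ht P h) (by
    rw [eq_bot_iff, ← sInf_isDvrKer A hA]
    refine le_sInf fun P hP => sInf_le ?_
    exact ⟨{P}, by simpa using hP, by simp⟩) n
  have h := fun i : Fin s.card => hs (s.equivFin.symm i).1 (s.equivFin.symm i).2
  choose V h1 h2 h3 φ h4 h5 h6 using h
  refine ⟨s.card, V, h1, h2, h3, φ, fun i => ⟨h4 i, h5 i⟩, le_trans ?_ hI⟩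
  refine Finset.le_inf fun P hP => ?_
  refine (iInf_le _ (s.equivFin ⟨P, hP⟩)).trans ?_
  rw [h6, Equiv.symm_apply_apply]
  exact le_rfl

end Groth.Agent.S3450
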