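import Groth.Statements.S3452
import Groth.Agent.S2550
import Groth.Agent.Ega4fib.H170.GeomAtBC
import Groth.Agent.Ega4fib.H170.SrcConstr
-- import your own Groth.Agent.* helpers here

set_option autoImplicit false
open CategoryTheory AlgebraicGeometry
universe u
open EGA43

namespace Groth.Agent.S3452

theorem flatOpen : Groth.Agent.Ega4fib.H170.SrcConstr.FlatOpen.{u}
    (fun {_ _} f x => Groth.Agent.Ega43.GeomAt.GeomAt Groth.Agent.Ega43.Geom758One.Dom f x) where
  bc h x' := Groth.Agent.Ega4fib.H170.GeomAtBC.geomAt_iff_of_isPullback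
    Groth.Agent.Ega4fib.H170.GeomAtBC.flatDesc_isDomain h x'
  openSrc j _ f _ v := Groth.Agent.Ega43.GeomAt.geomAt_comp_openImmersion
    Groth.Agent.Ega43.Geom758One.isoClosed_dom j f v
  flat {X S} f _ _ _ := by
    have hset : {x : X | FBase.IsGeomPtIntegralAt (f.fiberToSpecResidueField (f.base x)) (f.asFiber x)} =
        {x : X | Groth.Agent.Ega43.GeomAt.GeomAt Groth.Agent.Ega43.Geom758One.Dom f x} := by
      ext x
      exact Groth.Agent.Ega43.GeomAt.geomAt_fiber_iff Groth.Agent.Ega43.Geom758One.isoClosed_dom f x
    rw [← hset]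
    exact Groth.Agent.S2550.result f

/-- Let f : X ⟶ S be locally of finite presentation. The set of points x of X such that the fibre of f
through x is geometrically pointwise integral at x over the residue field of f x is locally
constructible in X. -/
theorem result {X S : Scheme.{u}} (f : X ⟶ S)
    [LocallyOfFinitePresentation f] :
    Topology.IsLocallyConstructible {x : X |
      FBase.IsGeomPtIntegralAt (f.fiberToSpecResidueField (f.base x)) (f.asFiber x)} := by
  have hset : {x : X | FBase.IsGeomPtIntegralAt (f.fiberToSpecResidueField (f.base x)) (f.asFiber x)} =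
      {x : X | Groth.Agent.Ega43.GeomAt.GeomAt Groth.Agent.Ega43.Geom758One.Dom f x} := by
    ext x
    exact Groth.Agent.Ega43.GeomAt.geomAt_fiber_iff Groth.Agent.Ega43.Geom758One.isoClosed_dom f x
  rw [hset]
  exact Groth.Agent.Ega4fib.H170.SrcConstr.isLocallyConstructible flatOpen f

end Groth.Agent.S3452
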