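import Groth.Statements.S3456
import Groth.Agent.Ega4fib.H174.EquidimCrit
-- import your own Groth.Agent.* helpers here

set_option autoImplicit false
open CategoryTheory AlgebraicGeometry
universe u
open EGA43

namespace Groth.Agent.S3456

open TopologicalSpace Topology Ega4fib.H174.Equidim Ega4fib.H174.EquidimCrit CycB.RelDim
  Flat2D.RelDimClosure

/-- Let Y be locally Noetherian, f : X ⟶ Y locally of finite type and x a point of X; let X_j run over
the (finitely many) irreducible components of X containing x. Then f is equidimensional at x if and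
only if there is a natural number e such that for every X_j: the closure Y_j of f(X_j) is an
irreducible component of Y; for every point η of Y whose closure equals Y_j (i.e. the generic point
of Y_j), the fibre X_j ∩ f⁻¹(η) has topological Krull dimension e; and the local dimension at x of
X_j ∩ f⁻¹(f x) is e. All subsets of X carry the induced topology. -/
theorem result {X Y : Scheme.{u}} [IsLocallyNoetherian Y] (f : X ⟶ Y)
    [LocallyOfFiniteType f] (x : X) :
    EGA43.IsEquidimAt f x ↔
      ∃ e : ℕ, ∀ Xj ∈ irreducibleComponents (X : Type u), ∀ hx : x ∈ Xj,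
        closure (f.base '' Xj) ∈ irreducibleComponents (Y : Type u) ∧
        (∀ η : Y, closure ({η} : Set Y) = closure (f.base '' Xj) →
          topologicalKrullDim ↥(Xj ∩ f.base ⁻¹' {η}) = e) ∧
        FlatMor.localDim ↥(Xj ∩ f.base ⁻¹' {f.base x}) ⟨x, ⟨hx, Set.mem_singleton (f.base x)⟩⟩ = e := by
  have hX : IsLocallyNoetherian X := LocallyOfFiniteType.isLocallyNoetherian f
  rw [isEquidimAt_iff_generic]
  refine exists_congr fun e => ?_
  constructor
  · intro h Xj hXj hx
    obtain ⟨ζ, hζ, rfl⟩ := mem_irreducibleComponents_iff.mp hXj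
    have hζx : ζ ⤳ x := specializes_iff_mem_closure.mpr hx
    obtain ⟨h1, h2, h3⟩ := h ζ hζ hζx
    have h4 : closure (f '' closure {ζ}) = closure {f ζ} := closure_image_closure_singleton f ζ
    refine ⟨?_, ?_, ?_⟩
    · exact mem_irreducibleComponents_iff.mpr ⟨f ζ, h1, h4.symm⟩
    · intro η hη
      have h5 : η = f ζ := by
        have : Inseparable η (f ζ) := by
          rw [inseparable_iff_closure_eq, ← h4]
          exact hη
        exact this.eq
      subst h5
      obtain ⟨n, hn, hn'⟩ := exists_dim_fib f ζ
      have h6 : n = e := by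
        rw [hn] at h2
        exact_mod_cast h2
      rw [← h6]
      exact hn'
    · exact (localDim_fib_eq_iff f hζx e h2).mpr h3
  · intro h ζ hζ hζx
    obtain ⟨h1, h2, h3⟩ := h (closure {ζ}) (mem_irreducibleComponents_iff.mpr ⟨ζ, hζ, rfl⟩)
      (specializes_iff_mem_closure.mp hζx)
    have h4 : closure (f '' closure {ζ}) = closure {f ζ} := closure_image_closure_singleton f ζ
    have h5 : rtd f ζ = e := by
      obtain ⟨n, hn, hn'⟩ := exists_dim_fib f ζ
      have h6 : (n : WithBot ℕ∞) = e := by
        rw [← hn']
        exact h2 (f ζ) h4.symm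
      rw [hn]
      exact_mod_cast h6
    refine ⟨?_, h5, (localDim_fib_eq_iff f hζx e h5).mp h3⟩
    obtain ⟨η, hη, hη'⟩ := mem_irreducibleComponents_iff.mp h1
    have h6 : η = f ζ := by
      have : Inseparable η (f ζ) := by
        rw [inseparable_iff_closure_eq, ← h4]
        exact hη'
      exact this.eq
    subst h6
    exact hη

end Groth.Agent.S3456
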