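import Groth.Statements.S3457
import Groth.Agent.Ega4fib.H174.EquidimCrit
import Groth.Agent.Ega4fib.H117.DimStalk

set_option autoImplicit false
open CategoryTheory AlgebraicGeometry
universe u
open EGA43

namespace Groth.Agent.S3457

open Groth.Agent.CycB.RelDim Groth.Agent.CycB Groth.Agent.Ega4fib.H174

/-- Let Y be locally Noetherian, f : X ⟶ Y locally of finite type, x a point of X with y = f x, and
suppose f is equidimensional at x and O_{Y,y} is universally catenary. Let e be the local dimension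
at x of the fibre X_y. Then for every minimal prime 𝔭 of O_{X,x} (that is, for every irreducible
component X_j of X through x, with O_{X_j,x} = O_{X,x}/𝔭 and O_{Y_j,y} = O_{Y,y}/(𝔭 ∩ O_{Y,y})) one
has dim(O_{X,x}/𝔭) + trdeg_{κ(y)} κ(x) = dim(O_{Y,y}/(𝔭 ∩ O_{Y,y})) + e. -/
theorem result {X Y : Scheme.{u}} [IsLocallyNoetherian Y] (f : X ⟶ Y)
    [LocallyOfFiniteType f] (x : X) (h : EGA43.IsEquidimAt f x)
    (hcat : CAlg.IsUniversallyCatenary (Y.presheaf.stalk (f.base x))) :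
    letI : Algebra (Y.residueField (f.base x)) (X.residueField x) := (f.residueFieldMap x).hom.toAlgebra
    ∀ 𝔭 ∈ minimalPrimes (X.presheaf.stalk x),
      ringKrullDim (X.presheaf.stalk x ⧸ 𝔭) +
          (Cardinal.toNat (Algebra.trdeg (Y.residueField (f.base x)) (X.residueField x)) : WithBot ℕ∞) =
        ringKrullDim (Y.presheaf.stalk (f.base x) ⧸ 𝔭.comap (f.stalkMap x).hom) + FlatMor.fibreDimAt f x := by
  intro 𝔭 h𝔭
  have hXN : IsLocallyNoetherian X := LocallyOfFiniteType.isLocallyNoetherian f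
  obtain ⟨e, he⟩ := (EquidimCrit.isEquidimAt_iff_generic f x).1 h
  have hpp : 𝔭.IsPrime := h𝔭.1.1
  -- the point attached to 𝔭
  let P : PrimeSpectrum (X.presheaf.stalk x) := ⟨𝔭, hpp⟩
  let ζ : X := LocQuot.ptOf P
  have hζx : ζ ⤳ x := LocQuot.ptOf_specializes P
  have hPζ : LocQuot.primeOf hζx = P := LocQuot.primeOf_ptOf P
  have hker : RingHom.ker (Cyc.specMap x ζ hζx) = 𝔭 := by
    rw [← LocQuot.primeOf_asIdeal, hPζ]
  have hmax : ∀ z : X, z ⤳ ζ → z = ζ := by
    intro z hz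
    have hzx : z ⤳ x := hz.trans hζx
    have h1 : LocQuot.primeOf hzx ≤ P := by
      rw [← hPζ]; exact (LocQuot.primeOf_le_iff hzx hζx).2 hz
    have h2 : LocQuot.primeOf hzx = P := by
      apply le_antisymm h1
      exact h𝔭.2 ⟨(LocQuot.primeOf hzx).isPrime, bot_le⟩ h1
    rw [← hPζ] at h2
    exact (LocQuot.primeOf_inj hzx hζx).1 h2
  obtain ⟨-, hrtd, -⟩ := he ζ hmax hζx
  -- the fibre dimension
  have hfib : FlatMor.fibreDimAt f x = (e : WithBot ℕ∞) := by
    apply le_antisymm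
    · apply VarietyA.LocDim.fibreDimAt_le f x e
      intro z hz hfz
      obtain ⟨z', hz', hz'z⟩ := Equidim.exists_maximal_specializes z
      exact (he z' hz' (hz'z.trans hz)).2.2 z hz'z hz hfz
    · obtain ⟨w, h1, h2, h3, h4⟩ := EquidimCrit.exists_maximal_fib f hζx
      have h5 := EquidimCrit.rtd_le_of_maximal_fib f h1 h4
      obtain ⟨n, hn, hn'⟩ := VarietyA.LocDim.le_fibreDimAt f x w h2 h3
      rw [hrtd, hn] at h5
      refine le_trans ?_ hn'
      exact_mod_cast h5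
  obtain ⟨m, n, hm, hn, hmn⟩ := Groth.Agent.Ega4fib.H117.DimStalk.dimension_formula f hcat hζx
  have hkerY : RingHom.ker (Cyc.specMap (f x) (f ζ) (hζx.map f.continuous)) =
      𝔭.comap (f.stalkMap x).hom := by
    ext a
    rw [← hker, Ideal.mem_comap, LocQuot.mem_ker_specMap_iff, LocQuot.mem_ker_specMap_iff]
    have : (X.presheaf.stalkSpecializes hζx).hom ((f.stalkMap x).hom a) =
        (f.stalkMap ζ).hom ((Y.presheaf.stalkSpecializes (hζx.map f.continuous)).hom a) := by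
      have := congrArg (fun φ => φ.hom a) (Scheme.Hom.stalkSpecializes_stalkMap f ζ x hζx)
      simpa using this.symm
    rw [this]
    rw [isUnit_map_iff (f.stalkMap ζ).hom]
  rw [hfib]
  obtain ⟨d, hd⟩ := Cardinal.lt_aleph0.1 (rtd_lt_aleph0 f x)
  change ringKrullDim (X.presheaf.stalk x ⧸ 𝔭) + ((Cardinal.toNat (rtd f x) : ℕ) : WithBot ℕ∞) =
    ringKrullDim (Y.presheaf.stalk (f.base x) ⧸ 𝔭.comap (f.stalkMap x).hom) + (e : WithBot ℕ∞)
  rw [hd, Cardinal.toNat_natCast]
  have e1 : ringKrullDim (X.presheaf.stalk x ⧸ 𝔭) = (m : WithBot ℕ∞) := by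
    rw [hm]
    exact ringKrullDim_eq_of_ringEquiv (Ideal.quotEquivOfEq hker.symm)
  have e2 : ringKrullDim (Y.presheaf.stalk (f.base x) ⧸ 𝔭.comap (f.stalkMap x).hom) =
      (n : WithBot ℕ∞) := by
    rw [hn]
    exact ringKrullDim_eq_of_ringEquiv (Ideal.quotEquivOfEq hkerY.symm)
  rw [e1, e2]
  rw [hd, hrtd] at hmn
  have : m + (d : ℕ∞) = n + (e : ℕ∞) := by
    have h1 : (((m + (d : ℕ∞) : ℕ∞)) : Cardinal.{u}) = ((n + (e : ℕ∞) : ℕ∞) : Cardinal.{u}) := by
      push_cast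
      exact hmn
    exact_mod_cast h1
  have h2 : (((m + (d : ℕ∞) : ℕ∞)) : WithBot ℕ∞) = ((n + (e : ℕ∞) : ℕ∞) : WithBot ℕ∞) := by
    rw [this]
  simpa using h2

end Groth.Agent.S3457
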