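import Groth.Statements.S3460
-- import your own Groth.Agent.* helpers here

set_option autoImplicit false
open CategoryTheory AlgebraicGeometry
universe u
open EGA43

namespace Groth.Agent.S3460

set_option backward.defeqAttrib.useBackward true in
/-- If `f` is proper over each member of a family of opens covering `f(X)`, then the corestriction
of `f` to the union of the family is proper. -/
theorem exists_isProper_lift {X Y : Scheme.{u}} (f : X ⟶ Y) {ι : Type*} (U : ι → Y.Opens)
    (H : Set.range f ⊆ (⨆ i, U i : Y.Opens)) (hf : ∀ i, IsProper (f ∣_ U i)) :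
    ∃ g : X ⟶ (⨆ i, U i : Y.Opens), IsProper g ∧ g ≫ (⨆ i, U i : Y.Opens).ι = f := by
  let g : X ⟶ (⨆ i, U i : Y.Opens) := IsOpenImmersion.lift (Scheme.Opens.ι _) f (by simpa using H)
  have hg : g ≫ (⨆ i, U i : Y.Opens).ι = f :=
    IsOpenImmersion.lift_fac (⨆ i, U i).ι f (by simpa using H)
  refine ⟨g, ?_, hg⟩
  rw [IsZariskiLocalAtTarget.iff_of_iSup_eq_top (P := @IsProper)
    (U := fun i : ι ↦ (⨆ i, U i).ι ⁻¹ᵁ U i)]
  · intro i
    have heq : g ⁻¹ᵁ (⨆ i, U i).ι ⁻¹ᵁ U i = f ⁻¹ᵁ U i := by
      change (g ≫ (⨆ i, U i).ι) ⁻¹ᵁ U i = _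
      simp [g]
    let e : Arrow.mk (g ∣_ (⨆ i, U i).ι ⁻¹ᵁ U i) ≅ Arrow.mk (f ∣_ U i) :=
        Arrow.isoMk (X.isoOfEq heq) (Scheme.Opens.isoOfLE (le_iSup U i)) <| by
      simp [← CategoryTheory.cancel_mono (U i).ι, g]
    rw [MorphismProperty.arrow_mk_iso_iff @IsProper e]
    exact hf i
  apply (⨆ i, U i).ι.image_injective
  dsimp
  rw [Scheme.Hom.image_iSup, Scheme.Hom.image_top_eq_opensRange, Scheme.Opens.opensRange_ι]
  simp [Scheme.Hom.image_preimage_eq_opensRange_inf, le_iSup U]

/-- Let Y be locally Noetherian and f : X ⟶ Y of finite type. Then there exist a scheme Z, a proper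
morphism g : X ⟶ Z and an immersion h : Z ⟶ Y with f = g ≫ h if and only if f is proper at every
point of f(X), i.e. every point of f(X) has an open neighbourhood U in Y over which the restriction
of f is proper. -/
theorem result {X Y : Scheme.{u}} [IsLocallyNoetherian Y]
    (f : X ⟶ Y) [LocallyOfFiniteType f] [QuasiCompact f] :
    (∃ (Z : Scheme.{u}) (g : X ⟶ Z) (h : Z ⟶ Y), IsProper g ∧ IsImmersion h ∧ g ≫ h = f) ↔
      ∀ x : X, ∃ U : Y.Opens, f.base x ∈ U ∧ IsProper (f ∣_ U) := by
  constructor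
  · rintro ⟨Z, g, h, hg, hh, rfl⟩ x
    have hfac : h.liftCoborder ≫ h.coborderRange.ι = h := Scheme.Hom.liftCoborder_ι h
    have hmem : ∀ z : Z, h z ∈ h.coborderRange := by
      intro z
      have : h z = h.coborderRange.ι (h.liftCoborder z) := by
        rw [← Scheme.Hom.comp_apply, hfac]
      rw [this]
      exact (h.liftCoborder z).2
    refine ⟨h.coborderRange, ?_, ?_⟩
    · rw [Scheme.Hom.comp_apply]
      exact hmem _
    · have heq : (g ≫ h) ⁻¹ᵁ h.coborderRange = ⊤ := by
        apply top_le_iff.mp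
        intro y _
        change (g ≫ h) y ∈ h.coborderRange
        rw [Scheme.Hom.comp_apply]
        exact hmem _
      have h1 : (g ≫ h) ∣_ h.coborderRange =
          ((g ≫ h) ⁻¹ᵁ h.coborderRange).ι ≫ g ≫ h.liftCoborder := by
        rw [← cancel_mono h.coborderRange.ι, morphismRestrict_ι, Category.assoc, Category.assoc,
          hfac]
      have h2 : IsIso ((g ≫ h) ⁻¹ᵁ h.coborderRange).ι := by
        have : ∀ V : X.Opens, V = ⊤ → IsIso V.ι := by
          rintro V rfl
          exact inferInstanceAs (IsIso X.topIso.hom)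
        exact this _ heq
      rw [h1]
      infer_instance
  · intro H
    choose U hU hf using H
    obtain ⟨g, hg, hfac⟩ := exists_isProper_lift f U (by
      rintro _ ⟨x, rfl⟩
      simp only [TopologicalSpace.Opens.coe_iSup, Set.mem_iUnion, SetLike.mem_coe]
      exact ⟨x, hU x⟩) hf
    exact ⟨_, g, (⨆ i, U i : Y.Opens).ι, hg, inferInstance, hfac⟩

end Groth.Agent.S3460
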