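import Groth.Statements.S3463
import Groth.Agent.Etrest.PBC
import Groth.Agent.Etbc.H185.BcMap

set_option autoImplicit false
universe u
open CategoryTheory CategoryTheory.Limits AlgebraicGeometry Opposite
attribute [local instance] HasDerivedCategory.standard
open EtBC

namespace Groth.Agent.S3463

/-- Let X' = Y' ×_Y X be a cartesian square of schemes with f : X → Y proper and projections f' : X' →
Y', g' : X' → X over g : Y' → Y, and let E be a bounded below object of the derived category of
abelian etale sheaves on X all of whose cohomology sheaves are torsion. Then the base change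
morphism g⁻¹ Rf_* E → Rf'_* g'⁻¹ E (transpose of Rf_* E → Rg_* Rf'_* g'⁻¹ E under an adjunction g⁻¹
⊣ Rg_*) is an isomorphism. -/
theorem result {X Y X' Y' : Scheme.{u}} (f : X ⟶ Y) (g : Y' ⟶ Y)
    (f' : X' ⟶ Y') (g' : X' ⟶ X) (h : IsPullback g' f' f g) [IsProper f]
    [PreservesFiniteLimits (EtCoh.pull g)] [PreservesFiniteLimits (EtCoh.pull g')]
    [DCoh.HasRpushEt X f] [DCoh.HasRpushEt X' f'] [DCoh.HasRpushEt Y' g]
    (adj : EtBC.pullD g ⊣ DCoh.RpushEt Y' g) (E : DCoh.DEt X) (n : ℤ) [E.IsGE n]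
    (hE : ∀ i : ℤ, EtCoh.IsTorsion (DCoh.HDEt E i)) :
    IsIso (EtBC.bcMap f g f' g' h.w adj E) :=
  (Groth.Agent.Etbc.H185.BcMap.isIso_bcMap_iff f g f' g' h.w adj E).2
    (Groth.Agent.Etrest.PBC.isIso_bcEt h E
      ⟨n, fun i hi => DerivedCategory.isZero_of_isGE E n i hi⟩ hE)

end Groth.Agent.S3463
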