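import Groth.Agent.EtpbcA.ArtinMain
-- Template for statement S3506 (row 3505; see the milestone table for weights).
-- Copy to Groth/Agent/S3506.lean and replace the sorry. The statement below is byte-identical to the frozen
-- statement EtCd.GrothFrozen.S3506 (Groth/Statements/S3506.lean; the theorem EtCd.H_vanishing_affine_support_trdeg);
-- the grader kernel-checks Groth.Agent.S3506.result against that frozen type. Keep the theorem IN THIS FILE
-- (a `result` declared elsewhere and merely imported here is not credited); helpers may live anywhere
-- under Groth/Agent/.
import Groth.Statements.S3506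
-- import your own Groth.Agent.* helpers here

set_option autoImplicit false
universe u
open CategoryTheory CategoryTheory.Limits AlgebraicGeometry Opposite
open EtCd

namespace Groth.Agent.S3506

/-- Let K be a field with cd(K) ≤ e, X an affine scheme of finite type over K, and F a torsion abelian
sheaf on the small etale site of X every point of whose support has residue field of transcendence
degree ≤ a over K. Then H^b(X, F) = 0 for every b > a + e. -/
theorem result (K : Type u) [Field K] (X : Scheme.{u}) [IsAffine X]
    (f : X ⟶ Spec (CommRingCat.of K)) [LocallyOfFiniteType f] (a e : ℕ)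
    (hK : EtCoh.CohDimLE (Spec (CommRingCat.of K)) e) (F : EtCoh.Ab X) (hF : EtCoh.IsTorsion F)
    (hsupp : ∀ x ∈ EtPBC.supp F, EtPBC.ResTrdegLE f x a) (b : ℕ) (hb : a + e < b) :
    Subsingleton (EtCoh.H X F b) := by
  exact Groth.Agent.EtpbcA.Artin.QK_of_PK K e a
    (Groth.Agent.EtpbcA.Artin.PK_of_PA a (Groth.Agent.EtpbcA.Artin.PA_all a) K e hK) X f F hF hsupp b hb

end Groth.Agent.S3506
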