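import Groth.Statements.S3508
import Groth.Agent.S0138
import Groth.Agent.EtpbcA.KilledBy
import Groth.Agent.EtpbcA.Present2

set_option autoImplicit false
universe u
open CategoryTheory CategoryTheory.Limits AlgebraicGeometry Opposite
open EtCd

namespace Groth.Agent.S3508

/-- Let X be a quasi-compact and quasi-separated scheme. An abelian sheaf F on the small etale site of X
is constructible if and only if it is isomorphic to the cokernel of a morphism ⨁_j j_{V_j !} Z/m_j →
⨁_i j_{U_i !} Z/n_i for finite families of affine etale X-schemes U_i, V_j (the source first states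
it with quasi-compact quasi-separated objects and then notes that U_i, V_j may even be taken affine)
and positive integers n_i, m_j (j_! the extension by zero of the constant sheaf). -/
theorem result (X : Scheme.{u}) [CompactSpace X] [QuasiSeparatedSpace X]
    (F : EtCoh.Ab X) :
    EtPBC.IsConstructible F ↔
      ∃ (a b : ℕ) (U : Fin a → X.Etale) (V : Fin b → X.Etale) (n : Fin a → ℕ) (m : Fin b → ℕ),
        (∀ i, 0 < n i ∧ IsAffine (U i).left) ∧ (∀ j, 0 < m j ∧ IsAffine (V j).left) ∧
        ∃ φ : (⨁ fun j => EtPBC.extZeroConst (V j) (ZMod (m j))) ⟶ (⨁ fun i => EtPBC.extZeroConst (U i) (ZMod (n i))),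
          Nonempty (F ≅ cokernel φ) := by
  have key : ∀ (b : ℕ) (U : Fin b → X.Etale) (n : Fin b → ℕ), (∀ i, 0 < n i ∧ IsAffine (U i).left) →
      EtPBC.IsConstructible (⨁ fun i => EtPBC.extZeroConst (U i) (ZMod (n i))) := by
    intro b U n h
    have hc : ∀ i, EtPBC.IsConstructible (EtPBC.extZeroConst (U i) (ZMod (n i))) := by
      intro i
      have := (h i).2
      have : NeZero (n i) := ⟨(h i).1.ne'⟩
      exact Groth.Agent.S0133.result X (U i) (ZMod (n i))
    choose k hk hk' using fun i =>
      Groth.Agent.EtpbcA.KilledBy.exists_killedBy_of_isConstructible (hc i)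
    refine Groth.Agent.EtpbcA.Present2.isConstructible_biproduct
      (n := ∏ i, k i) (Finset.prod_pos fun i _ => hk i) b _ hc fun i => ?_
    obtain ⟨c, hcc⟩ := Finset.dvd_prod_of_mem k (Finset.mem_univ i)
    intro V s
    rw [hcc, mul_comm, mul_smul, hk' i V s, smul_zero]
  constructor
  · intro hF
    obtain ⟨N, hN, hk⟩ := Groth.Agent.EtpbcA.KilledBy.exists_killedBy_of_isConstructible hF
    obtain ⟨a, b, V, U, hV, hU, φ, e⟩ := Groth.Agent.S0138.result X N hN F hF hk
    exact ⟨b, a, U, V, fun _ => N, fun _ => N, fun i => ⟨hN, hU i⟩, fun j => ⟨hN, hV j⟩, φ, e⟩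
  · rintro ⟨a, b, U, V, n, m, hU, hV, φ, ⟨e⟩⟩
    exact Groth.Agent.EtpbcA.StrataGlob.isConstructible_of_iso e.symm
      (Groth.Agent.EtpbcA.ConsExact.isConstructible_cokernel φ (key b V m hV) (key a U n hU))

end Groth.Agent.S3508
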