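import Groth.Statements.S3522
import Groth.Agent.Htor.H240.FlatTens
-- import your own Groth.Agent.* helpers here

set_option autoImplicit false
universe u
attribute [local instance] HasDerivedCategory.standard
open HTor

namespace Groth.Agent.S3522

open CategoryTheory CategoryTheory.Limits in
/-- In cochain indexing: let L be a complex of flat A-modules and η : M ⟶ Q a quasi-isomorphism of
complexes of A-modules, the three complexes vanishing in large degrees. Then L ⊗ η : L ⊗ M ⟶ L ⊗ Q
is a quasi-isomorphism. (Consequently the hypertor modules of L and Q, the cohomology of L' ⊗ M' for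
projective resolutions, are computed by the plain tensor product complex L ⊗ Q; only the
quasi-isomorphism is asserted.) -/
theorem result (A : Type u) [CommRing A] (L M Q : DRing.Cx A)
    (η : M ⟶ Q) [QuasiIso η] (hL : DRing.TermwiseFlat L) (bL : ∃ b : ℤ, DRing.VanishesAbove L b)
    (bM : ∃ b : ℤ, DRing.VanishesAbove M b) (bQ : ∃ b : ℤ, DRing.VanishesAbove Q b) :
    QuasiIso (HomologicalComplex.tensorHom (𝟙 L) η) := by
  obtain ⟨b, hb⟩ := bL
  exact Groth.Agent.Htor.H240.FlatTens.quasiIso_tensorHom_left L hL hb η

end Groth.Agent.S3522
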