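import Groth.Statements.S3523
import Groth.Agent.Htor.H240.KunnCor
-- import your own Groth.Agent.* helpers here

set_option autoImplicit false
universe u
attribute [local instance] HasDerivedCategory.standard
open HTor

namespace Groth.Agent.S3523

open CategoryTheory CategoryTheory.Limits in
/-- (Cochain indexing.) Let A be a ring and L, M complexes of A-modules vanishing in large degrees, with
every term of L flat and every cohomology module H^i(L) flat. Then for every n there is a Künneth
map ⊕_{i+j=n} H^i(L) ⊗_A H^j(M) → H^n(L ⊗_A M), sending [z] ⊗ [z'] to the class of z ⊗ z', and it is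
bijective. -/
theorem result (A : Type u) [CommRing A] (L M : DRing.Cx A)
    (hL : DRing.TermwiseFlat L) (bL : ∃ b : ℤ, DRing.VanishesAbove L b)
    (bM : ∃ b : ℤ, DRing.VanishesAbove M b) (hH : ∀ i : ℤ, Module.Flat A (L.homology i)) (n : ℤ) :
    ∃ Φ : HTor.KunnethSum L M n →ₗ[A] (HTor.tensorCx L M).homology n,
      HTor.IsKunnethMap L M n Φ ∧ Function.Bijective Φ := by
  exact ⟨Groth.Agent.Htor.H240.KunnMap.Φ L M n, Groth.Agent.Htor.H240.KunnMap.isKunnethMap_Φ L M n,
    Groth.Agent.Htor.H240.KunnCor.Φ_bijective_of_flat_homology L M hL bL bM hH n⟩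

end Groth.Agent.S3523
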