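import Groth.Statements.S3524
import Groth.Agent.Htor.H240.KunnCor
-- import your own Groth.Agent.* helpers here

set_option autoImplicit false
universe u
attribute [local instance] HasDerivedCategory.standard
open HTor

namespace Groth.Agent.S3524

open CategoryTheory CategoryTheory.Limits in
/-- Consequence of the biregular Künneth/hypertor spectral sequence; cochain indexing. Let L and M be
complexes of A-modules vanishing in large degrees, every term of L flat (so that L ⊗ M computes the
hypertor of L and M). If Tor_p^A(H^i(L), H^j(M)) = 0 for all p ≥ 0 and all i, j with i + j - p = n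
(vanishing stated as Subsingleton), then H^n(L ⊗ M) = 0. (Tor is Mathlib's, left derived in the
second variable.) -/
theorem result (A : Type u) [CommRing A] (L M : DRing.Cx A)
    (hL : DRing.TermwiseFlat L) (bL : ∃ b : ℤ, DRing.VanishesAbove L b)
    (bM : ∃ b : ℤ, DRing.VanishesAbove M b) (n : ℤ)
    (h : ∀ (p : ℕ) (i j : ℤ), i + j - p = n → Subsingleton (DRing.Tor A p (L.homology i) (M.homology j))) :
    IsZero ((HTor.tensorCx L M).homology n) := by
  exact Groth.Agent.Htor.H240.KunnCor.isZero_homology L M hL bL bM n h

end Groth.Agent.S3524
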