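import Groth.Statements.S3525
import Groth.Agent.Htor.H244.TorFlipColim
-- import your own Groth.Agent.* helpers here

set_option autoImplicit false
universe u
open HTor

namespace Groth.Agent.S3525

open CategoryTheory CategoryTheory.Limits in
/-- For a commutative ring A, an A-module N and p ≥ 0, the functor M ↦ Tor_p^A(M, N) preserves filtered
colimits. (Tor is Mathlib's, left derived in the second variable; this is the case of single modules
rather than complexes.) -/
theorem result (A : Type u) [CommRing A] (p : ℕ) (N : ModuleCat.{u} A)
    (J : Type u) [SmallCategory J] [IsFiltered J] :
    PreservesColimitsOfShape J ((CategoryTheory.Tor (ModuleCat.{u} A) p).flip.obj N) :=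
  Groth.Agent.Htor.H244.TorFlipColim.tor_flip_preserves J p N

end Groth.Agent.S3525
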