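import Groth.Statements.S3526
import Groth.Agent.Htor.H244.TorColim
-- import your own Groth.Agent.* helpers here

set_option autoImplicit false
universe u
open HTor

namespace Groth.Agent.S3526

open CategoryTheory CategoryTheory.Limits in
/-- In the case of single modules, second variable: for an A-module M and p ≥ 0, the functor N ↦
Tor_p^A(M, N) preserves filtered colimits. (Tor is Mathlib's, left derived in the second variable.) -/
theorem result (A : Type u) [CommRing A] (p : ℕ) (M : ModuleCat.{u} A)
    (J : Type u) [SmallCategory J] [IsFiltered J] :
    PreservesColimitsOfShape J ((CategoryTheory.Tor (ModuleCat.{u} A) p).obj M) :=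
  Groth.Agent.Htor.H244.TorColim.tor_preserves J p M

end Groth.Agent.S3526
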