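import Groth.Statements.S3528
import Groth.Agent.Htor.H246.RGammaBound
import Groth.Agent.PerfA.QCohD

set_option autoImplicit false
universe u
attribute [local instance] HasDerivedCategory.standard
open HTor

namespace Groth.Agent.S3528

open CategoryTheory CategoryTheory.Limits AlgebraicGeometry in
/-- (Derived form.) Let X be a quasi-compact separated scheme over Spec A covered by N + 1 affine opens,
and P a complex of quasi-coherent O_X-modules with P^k = 0 for k > b. Then RΓ(X, P) ∈ D(A) (derived
global sections as A-modules) is represented by a complex L of free A-modules with L^k = 0 for k > b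
+ N. (Consequently the hypercohomology modules H^k(X, P) vanish for k > b + N; this consequence is
not restated in the conclusion.) (The published statement gives a canonical isomorphism; here only
the existence of an isomorphism in D(A) is asserted.) -/
theorem result (A : Type u) [CommRing A] (X : Scheme.{u})
    (f : X ⟶ Spec (CommRingCat.of A)) [QuasiCompact f] [IsSeparated f] [HTor.HasRΓA f]
    (N : ℕ) (U : Fin (N + 1) → X.Opens) (hU : ∀ i, IsAffineOpen (U i)) (hcov : ⨆ i, U i = ⊤)
    (P : CochainComplex X.Modules ℤ) (hq : ∀ i : ℤ, Coh.IsQCoh (P.X i)) (b : ℤ)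
    (hb : ∀ i : ℤ, b < i → IsZero (P.X i)) :
    ∃ L : DRing.Cx A, (∀ i : ℤ, Module.Free A (L.X i)) ∧ DRing.VanishesAbove L (b + N) ∧
      HTor.Computes f L (DCoh.toD X P) := by
  have hP : DCoh.IsQCohD (DCoh.toD X P) := PerfA.QCohD.isQCohD_Q_of_terms P hq
  have hP' : (DCoh.toD X P).IsLE b := by
    have : P.IsStrictlyLE b := (CochainComplex.isStrictlyLE_iff _ _).2 hb
    rw [DerivedCategory.isLE_Q_obj_iff]
    infer_instance
  exact Htor.H246.RGammaBound.exists_free_rep _ _
    (Htor.H246.RGammaBound.isLE_RΓA f N U hU hcov _ hP b hP')

end Groth.Agent.S3528
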