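import Groth.Statements.S3532
-- import your own Groth.Agent.* helpers here

set_option autoImplicit false
universe u
open HomAlg3

namespace Groth.Agent.S3532

open CategoryTheory

/-- Equality of ranges in terms of the underlying sets. -/
theorem mem_range_map (F : ℕᵒᵖ ⥤ AddCommGrpCat.{u}) {i j : ℕᵒᵖ} (f : i ⟶ j) (x : F.obj j) :
    x ∈ (F.map f).hom.range ↔ ∃ y : F.obj i, (F.map f).hom y = x := by
  rw [AddMonoidHom.mem_range]

theorem range_mono (F : ℕᵒᵖ ⥤ AddCommGrpCat.{u}) {i j k : ℕ} (hij : i ≤ j) (hjk : j ≤ k) :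
    (F.map (homOfLE (hij.trans hjk)).op).hom.range ≤ (F.map (homOfLE hij).op).hom.range := by
  rintro x ⟨y, rfl⟩
  refine ⟨(F.map (homOfLE hjk).op).hom y, ?_⟩
  have h : F.map (homOfLE (hij.trans hjk)).op
      = F.map (homOfLE hjk).op ≫ F.map (homOfLE hij).op := by
    rw [← F.map_comp]; rfl
  rw [h]; rfl

theorem map_map_apply (F : ℕᵒᵖ ⥤ AddCommGrpCat.{u}) {i j k : ℕ} (hij : i ≤ j) (hjk : j ≤ k)
    (y : F.obj (Opposite.op k)) :
    (F.map (homOfLE hij).op).hom ((F.map (homOfLE hjk).op).hom y)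
      = (F.map (homOfLE (hij.trans hjk)).op).hom y := by
  have h : F.map (homOfLE (hij.trans hjk)).op
      = F.map (homOfLE hjk).op ≫ F.map (homOfLE hij).op := by
    rw [← F.map_comp]; rfl
  rw [h]; rfl

/-- The elementwise stabilisation statement. -/
def Stab (F : ℕᵒᵖ ⥤ AddCommGrpCat.{u}) (p : ℕ) : Prop :=
  ∃ k₀ : ℕ, ∃ h₀ : p ≤ k₀, ∀ (k : ℕ) (hk : k₀ ≤ k),
    (F.map (homOfLE h₀).op).hom.range ≤ (F.map (homOfLE (h₀.trans hk)).op).hom.range

theorem isMittagLeffler_iff_stab (F : ℕᵒᵖ ⥤ AddCommGrpCat.{u}) :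
    (F ⋙ forget AddCommGrpCat).IsMittagLeffler ↔ ∀ p, Stab F p := by
  constructor
  · intro h p
    obtain ⟨i, f, hf⟩ := h (Opposite.op p)
    obtain ⟨k₀⟩ := i
    have h₀ : p ≤ k₀ := leOfHom f.unop
    refine ⟨k₀, h₀, fun k hk => ?_⟩
    rintro x ⟨y, rfl⟩
    have hx : (F.map (homOfLE h₀).op).hom y ∈ Set.range ((F ⋙ forget AddCommGrpCat).map f) :=
      ⟨y, rfl⟩
    obtain ⟨z, hz⟩ := hf (homOfLE (h₀.trans hk)).op hx
    exact ⟨z, hz⟩
  · intro h j
    obtain ⟨p⟩ := j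
    obtain ⟨k₀, h₀, hs⟩ := h p
    refine ⟨Opposite.op k₀, (homOfLE h₀).op, ?_⟩
    rintro ⟨k⟩ g x ⟨y, rfl⟩
    have hpk : p ≤ k := leOfHom g.unop
    rcases le_total k₀ k with hk | hk
    · obtain ⟨z, hz⟩ := hs k hk ⟨y, rfl⟩
      exact ⟨z, hz⟩
    · refine ⟨(F.map (homOfLE hk).op).hom y, ?_⟩
      exact map_map_apply F hpk hk y

open CategoryTheory in
/-- Category of abelian groups, system indexed by the natural numbers: Let (A_k)_{k ≥ 0} be an inverse
system of abelian groups. For p ≤ k write Im_k(A_p) for the image of A_k → A_p, and K_p for the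
kernel of A_p → A_{p-1} (K_0 = A_0). Then (A_k) satisfies the Mittag-Leffler condition (for each p
the subgroups Im_k(A_p) are eventually constant in k) if and only if for each p the subgroups
Im_k(A_p) ∩ K_p are eventually constant in k. -/
theorem result (F : ℕᵒᵖ ⥤ AddCommGrpCat.{u}) :
    (F ⋙ forget AddCommGrpCat).IsMittagLeffler ↔
      ((∃ k₀ : ℕ, ∀ (k : ℕ) (hk : k₀ ≤ k),
          (F.map (homOfLE (Nat.zero_le k)).op).hom.range = (F.map (homOfLE (Nat.zero_le k₀)).op).hom.range) ∧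
        ∀ p : ℕ, ∃ k₀ : ℕ, ∃ h₀ : p + 1 ≤ k₀, ∀ (k : ℕ) (hk : k₀ ≤ k),
          (F.map (homOfLE (h₀.trans hk)).op).hom.range ⊓ (F.map (homOfLE (Nat.le_succ p)).op).hom.ker =
            (F.map (homOfLE h₀).op).hom.range ⊓ (F.map (homOfLE (Nat.le_succ p)).op).hom.ker) := by
  rw [isMittagLeffler_iff_stab]
  constructor
  · intro h
    refine ⟨?_, fun p => ?_⟩
    · obtain ⟨k₀, h₀, hs⟩ := h 0
      exact ⟨k₀, fun k hk => le_antisymm (range_mono F h₀ hk) (hs k hk)⟩
    · obtain ⟨k₀, h₀, hs⟩ := h (p + 1)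
      exact ⟨k₀, h₀, fun k hk => by
        rw [le_antisymm (range_mono F h₀ hk) (hs k hk)]⟩
  · rintro ⟨⟨k₀, h0⟩, hp⟩ p
    induction p with
    | zero => exact ⟨k₀, Nat.zero_le _, fun k hk => (h0 k hk).ge⟩
    | succ p ih =>
      obtain ⟨k₁, h₁, hs₁⟩ := ih
      obtain ⟨k₂, h₂, hs₂⟩ := hp p
      have hle : p + 1 ≤ max k₁ k₂ := h₂.trans (le_max_right _ _)
      refine ⟨max k₁ k₂, hle, fun k hk => ?_⟩
      rintro x ⟨y, rfl⟩
      have hk1 : k₁ ≤ k := (le_max_left _ _).trans hk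
      have hk2 : k₂ ≤ k := (le_max_right _ _).trans hk
      -- the image in `A_p`
      have h1 : (F.map (homOfLE (Nat.le_succ p)).op).hom ((F.map (homOfLE hle).op).hom y) ∈
          (F.map (homOfLE h₁).op).hom.range := by
        refine ⟨(F.map (homOfLE (le_max_left k₁ k₂)).op).hom y, ?_⟩
        rw [map_map_apply, map_map_apply]
      obtain ⟨z, hz⟩ := hs₁ k hk1 h1
      set x := (F.map (homOfLE hle).op).hom y with hx
      have hpk : p + 1 ≤ k := hle.trans hk
      set x' := (F.map (homOfLE hpk).op).hom z with hx'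
      have h2 : x - x' ∈ (F.map (homOfLE h₂).op).hom.range ⊓
          (F.map (homOfLE (Nat.le_succ p)).op).hom.ker := by
        refine ⟨?_, ?_⟩
        · refine AddSubgroup.sub_mem _ ?_ ?_
          · exact ⟨(F.map (homOfLE (le_max_right k₁ k₂)).op).hom y, map_map_apply F _ _ _⟩
          · exact ⟨(F.map (homOfLE hk2).op).hom z, map_map_apply F _ _ _⟩
        · refine (AddMonoidHom.mem_ker).2 ?_
          have h5 : (F.map (homOfLE (Nat.le_succ p)).op).hom x' =
              (F.map (homOfLE (Nat.le_succ p)).op).hom x :=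
            (map_map_apply F _ _ _).trans hz
          rw [map_sub, sub_eq_zero]
          exact h5.symm
      rw [← hs₂ k hk2] at h2
      have h3 : x = (x - x') + x' := (sub_add_cancel _ _).symm
      rw [h3]
      exact AddSubgroup.add_mem _ h2.1 ⟨z, rfl⟩

end Groth.Agent.S3532
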