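import Groth.Statements.S3534
import Groth.Agent.CycA.TorRestr
import Mathlib.Algebra.Module.LocalizedModule.IsLocalization
import Mathlib.RingTheory.Localization.BaseChange
import Mathlib.RingTheory.Flat.Localization

set_option autoImplicit false
universe u
open HTor

namespace Groth.Agent.S3534

open TensorProduct in
lemma exists_equiv (A B : Type u) [CommRing A] [CommRing B] [Algebra A B]
    (S : Submonoid A) [IsLocalization S B] (N : Type u) [AddCommGroup N] [Module B N] [Module A N]
    [IsScalarTower A B N] : Nonempty (B ⊗[A] N ≃ₗ[B] N) := by
  have h1 : IsLocalizedModule S (LinearMap.id : N →ₗ[A] N) := by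
    refine ⟨fun s => ?_, fun y => ⟨(y, 1), by simp⟩, fun {x y} hxy => ⟨1, by simpa using hxy⟩⟩
    rw [Module.End.isUnit_iff]
    have hs : IsUnit (algebraMap A B s) := IsLocalization.map_units B s
    have : (algebraMap A (Module.End A N) s : N → N) = fun x => (algebraMap A B s) • x := by
      ext x
      simp [Module.algebraMap_end_apply]
    rw [this]
    exact hs.smul_bijective
  exact ⟨((isLocalizedModule_iff_isBaseChange S B _).1 h1).equiv⟩

/-- Let S be a multiplicative subset of a commutative ring A, A' = S⁻¹A, and P, Q two A'-modules, viewed
as A-modules by restriction of scalars. Then for every n there is a bijective map Tor_n^A(P, Q) →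
Tor_n^{A'}(P, Q) which is semilinear over A → A' (so that, in particular, every s ∈ S acts
bijectively on Tor_n^A(P, Q)). (Tor is taken as the left derived functor of the tensor product in
the second variable. The published statement gives a canonical isomorphism, for hyper-Tor of
complexes; this is the case of single modules.) -/
theorem result (A A' : Type u) [CommRing A] [CommRing A'] [Algebra A A']
    (S : Submonoid A) [IsLocalization S A'] (P Q : Type u) [AddCommGroup P] [Module A' P] [Module A P]
    [IsScalarTower A A' P] [AddCommGroup Q] [Module A' Q] [Module A Q] [IsScalarTower A A' Q] (n : ℕ) :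
    ∃ φ : DRing.Tor A n P Q →ₛₗ[algebraMap A A'] DRing.Tor A' n P Q, Function.Bijective φ := by
  have : Module.Flat A A' := IsLocalization.flat A' S
  obtain ⟨e, he⟩ := Groth.Agent.CycA.TorRestr.semi_tor (A := A) A' P n Q
  obtain ⟨q⟩ := exists_equiv A A' S Q
  let i : DRing.Tor A' n P (TensorProduct A A' Q) ≃ₗ[A'] DRing.Tor A' n P Q :=
    (((CategoryTheory.Tor (ModuleCat.{u} A') n).obj (ModuleCat.of A' P)).mapIso
      q.toModuleIso).toLinearEquiv
  have he' : ∀ (a : A) (y : DRing.Tor A n P Q), e.symm (a • y) = algebraMap A A' a • e.symm y := by
    intro a y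
    apply e.injective
    rw [he]
    simp
  refine ⟨{ toFun := fun y => i (e.symm y)
            map_add' := fun x y => by rw [map_add, map_add]
            map_smul' := fun a y => by rw [he', map_smul] }, ?_⟩
  exact i.bijective.comp e.symm.bijective

end Groth.Agent.S3534
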