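import Groth.Statements.S3535
import Groth.Agent.CycA.TorShift

set_option autoImplicit false
universe u
open HTor

namespace Groth.Agent.S3535

open CategoryTheory CategoryTheory.MonoidalCategory in
/-- Balancing of Tor for modules: let A be a commutative ring, M and N A-modules and P any projective
resolution of M. Then for every n the module Tor_n^A(M, N) — Mathlib's Tor, defined by resolving the
second variable N — is isomorphic to H_n(P ⊗_A N), the n-th homology of the complex obtained by
tensoring P termwise with N. (Only the existence of an isomorphism is asserted; the published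
statement gives canonical isomorphisms and treats hypertor of complexes and flat resolutions.) -/
theorem result (A : Type u) [CommRing A] (M N : ModuleCat.{u} A)
    (P : ProjectiveResolution M) (n : ℕ) :
    Nonempty (((CategoryTheory.Tor (ModuleCat.{u} A) n).obj M).obj N ≅
      (((tensorRight N).mapHomologicalComplex (ComplexShape.down ℕ)).obj P.complex).homology n) := by
  obtain ⟨e⟩ := Groth.Agent.CycA.TorShift.comm (A := A) n M N
  let e1 : ((CategoryTheory.Tor (ModuleCat.{u} A) n).obj M).obj N ≅
    ((CategoryTheory.Tor (ModuleCat.{u} A) n).obj N).obj M := e.toModuleIso
  refine ⟨e1 ≪≫ P.isoLeftDerivedObj ((tensoringLeft (ModuleCat.{u} A)).obj N) n ≪≫ ?_⟩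
  exact (HomologicalComplex.homologyFunctor _ _ n).mapIso
    ((NatIso.mapHomologicalComplex (BraidedCategory.tensorLeftIsoTensorRight N)
      (ComplexShape.down ℕ)).app P.complex)

end Groth.Agent.S3535
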