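import Groth.Statements.S3536
import Groth.Agent.Htor.H253.CechHyper
-- import your own Groth.Agent.* helpers here

set_option autoImplicit false
universe u
open CechTot

namespace Groth.Agent.S3536

open CategoryTheory CategoryTheory.Limits TopologicalSpace in
/-- Let X be a topological space, U = (U_i) an open cover of X and K a complex of abelian sheaves on X
with K^i = 0 for i < a. If H^q(U_{i_0} ∩ … ∩ U_{i_p}, K^i) = 0 for all q > 0, all i and all finite
families of indices, then for every n the Čech hypercohomology group Ȟ^n(U, K) (cohomology of the
total complex of the double complex C^p(U, K^q)) is isomorphic to the hypercohomology group H^n(X,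
K) (maps from the free abelian sheaf on X to K[n] in the derived category). (The published statement
gives a canonical isomorphism; here only the existence of an additive isomorphism is asserted, and K
is taken bounded below.) -/
theorem result {X : TopCat.{u}} [HasDerivedCategory.{u} (CohTop.Ab X)]
    {ι : Type u} (U : ι → Opens X) (hcov : iSup U = ⊤) (K : CochainComplex (CohTop.Ab X) ℤ) (a : ℤ)
    (ha : ∀ i : ℤ, i < a → IsZero (K.X i))
    (h : ∀ (p : ℕ) (c : Fin (p + 1) → ι) (i : ℤ) (q : ℕ),
      Subsingleton (CohTop.HU (K.X i) (q + 1) (iInf fun k => U (c k)))) (n : ℤ) :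
    Nonempty (↑(CechTot.hyperH U ((CechTot.presheafCx X).obj K) n) ≃+
      CohCx.HDU (DerivedCategory.Q.obj K) n (⊤ : Opens X)) := by
  have h1 := Groth.Agent.Htor.H253.CechHyper.main U K a ha h n
  rwa [hcov] at h1

end Groth.Agent.S3536
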