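import Groth.Statements.S3537
import Groth.Agent.Htor.H254.TorBaseChange

set_option autoImplicit false
universe u
open HTor

namespace Groth.Agent.S3537

/-- Base change for Tor: let A → A′ be a homomorphism of commutative rings, P an A-module with
Tor_q^A(P, A′) = 0 for all q ≥ 1, and Q′ an A′-module, regarded also as an A-module. Then for every
n ≥ 0 there is a bijective map Tor_n^A(P, Q′) → Tor_n^{A′}(A′ ⊗_A P, Q′) that is semilinear over A →
A′. Here Tor is the left derived functor of the tensor product in the second variable, and only the
existence of such a bijective semilinear map is asserted. The published statement is the degenerate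
case of a base-change spectral sequence for hypertor of modules over schemes; stated here in the
affine case with a single module. -/
theorem result (A A' : Type u) [CommRing A] [CommRing A'] [Algebra A A']
    (P : Type u) [AddCommGroup P] [Module A P] (Q' : Type u) [AddCommGroup Q'] [Module A' Q'] [Module A Q']
    [IsScalarTower A A' Q'] (hP : ∀ q : ℕ, 0 < q → Subsingleton (DRing.Tor A q P A')) (n : ℕ) :
    ∃ φ : DRing.Tor A n P Q' →ₛₗ[algebraMap A A'] DRing.Tor A' n (TensorProduct A A' P) Q',
      Function.Bijective φ := 
  Groth.Agent.Htor.H254.TorBaseChange.exists_semilinear_bijective A' Q' P hP n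

end Groth.Agent.S3537
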