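import Groth.Statements.S3538
import Groth.Agent.Htor.H255.PullExt

set_option autoImplicit false
universe u
attribute [local instance] HasDerivedCategory.standard
open HomAlg3

namespace Groth.Agent.S3538

open CategoryTheory CategoryTheory.Limits AlgebraicGeometry in
/-- Let f : X ⟶ Y be a flat morphism of schemes with Y locally Noetherian, F a coherent O_Y-module and G
any O_Y-module. Then for every p the O_X-modules f^* Ext^p_{O_Y}(F, G) and Ext^p_{O_X}(f^* F, f^* G)
are isomorphic. Here Ext^p(F, G) is the p-th cohomology sheaf of RHom(F, G), the internal hom of the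
derived category, taken under instance hypotheses asserting its existence. (Only the existence of an
isomorphism is asserted; the published statement is stronger: the canonical comparison maps are
isomorphisms.) -/
theorem result (X Y : Scheme.{u}) (f : X ⟶ Y) [Flat f] [IsLocallyNoetherian Y]
    (F G : Y.Modules) (hF : Coh.IsCoh F)
    [DCoh.HasLTensorCx ((HomologicalComplex.single Y.Modules (ComplexShape.up ℤ) 0).obj F)]
    [DCoh.HasRSheafHom ((HomologicalComplex.single Y.Modules (ComplexShape.up ℤ) 0).obj F)]
    [DCoh.HasLTensorCx ((HomologicalComplex.single X.Modules (ComplexShape.up ℤ) 0).obj ((Scheme.Modules.pullback f).obj F))]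
    [DCoh.HasRSheafHom ((HomologicalComplex.single X.Modules (ComplexShape.up ℤ) 0).obj ((Scheme.Modules.pullback f).obj F))]
    (p : ℤ) :
    Nonempty ((Scheme.Modules.pullback f).obj
        (DCoh.HD ((DCoh.RSheafHom ((HomologicalComplex.single Y.Modules (ComplexShape.up ℤ) 0).obj F)).obj (DCoh.inD Y G)) p) ≅
      DCoh.HD ((DCoh.RSheafHom ((HomologicalComplex.single X.Modules (ComplexShape.up ℤ) 0).obj
        ((Scheme.Modules.pullback f).obj F))).obj (DCoh.inD X ((Scheme.Modules.pullback f).obj G))) p) := by
  obtain ⟨e⟩ := Groth.Agent.Htor.H255.PullExt.nonempty_pull f hF G p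
  exact ⟨(Scheme.Modules.pullback f).mapIso ((DerivedCategory.homologyFunctor _ p).mapIso
    ((Groth.Agent.PerfC.RHomD.rsIso _).app _)) ≪≫ e ≪≫ ((DerivedCategory.homologyFunctor _ p).mapIso
    ((Groth.Agent.PerfC.RHomD.rsIso _).app _)).symm⟩

end Groth.Agent.S3538
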