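import Groth.Statements.S3540
import Groth.Agent.Htor.H257.CechTopHyper

set_option autoImplicit false
universe u
open CechTot

namespace Groth.Agent.S3540

open CategoryTheory CategoryTheory.Limits TopologicalSpace in
/-- For abelian sheaves and a complex bounded below (the biregular case), stated through the finite
filtration the spectral sequence induces on its abutment and its edge (the source's graded pieces
are the E∞ terms, which is stronger). Let U = (U_i) be an open cover of X and K a complex of abelian
sheaves with K^i = 0 for i < a. For q ∈ ℤ let h^q(K) be the presheaf V ↦ H^q(V, K) of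
hypercohomology groups and Ȟ^p(U, h^q(K)) its Čech cohomology for the cover. Then for every n the
group H^n(X, K) carries a decreasing sequence of subgroups G_0 ≥ G_1 ≥ … with G_0 everything, G_1
the kernel of the restriction map H^n(X, K) → ∏_i H^n(U_i, K), and G_N = 0 for some N, such that
every quotient G_p/G_{p+1} is isomorphic to a subquotient of Ȟ^p(U, h^{n-p}(K)). -/
theorem result {X : TopCat.{u}}
    [HasDerivedCategory.{u} (CohTop.Ab X)] {ι : Type u} (U : ι → Opens X) (hcov : iSup U = ⊤)
    (K : CochainComplex (CohTop.Ab X) ℤ) (a : ℤ) (ha : ∀ i : ℤ, i < a → IsZero (K.X i)) (n : ℤ) :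
    ∃ (N : ℕ) (G : ℕ → Submodule ℤ (CohCx.HDU (DerivedCategory.Q.obj K) n (⊤ : Opens X))),
      Antitone G ∧ G 0 = ⊤ ∧ G N = ⊥ ∧
      G 1 = ⨅ i, AddSubgroup.toIntSubmodule
        (CohCx.HDUres (DerivedCategory.Q.obj K) n (homOfLE le_top : U i ⟶ (⊤ : Opens X))).ker ∧
      ∀ p : ℕ, HTor.IsSubquotient ℤ (HTor.grDesc G p)
        (CohB1.cechHTop U (CohCx.HDUPresheaf (DerivedCategory.Q.obj K) (n - p)) p) := by
  have h1 : K.IsStrictlyGE a := by
    rw [CochainComplex.isStrictlyGE_iff]
    exact ha
  have h2 : (DerivedCategory.Q.obj K).IsGE a := inferInstance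
  exact Groth.Agent.Htor.H257.CechTopHyper.exists_filtration_opens
    (presheafToSheaf (Opens.grothendieckTopology X) AddCommGrpCat.{u}) (DerivedCategory.Q.obj K) n a U
    (Groth.Agent.Htor.H257.CechFree.dF_ε (Groth.Agent.CohtopA.CechOpens.aug U)
      (Groth.Agent.CohtopA.CechOpens.augExact U))
    (Groth.Agent.Htor.H257.CechFree.isColimitε (Groth.Agent.CohtopA.CechOpens.aug U)
      (Groth.Agent.CohtopA.CechOpens.augExact U)) hcov
    (fun p => CohCx.HDUPresheaf (DerivedCategory.Q.obj K) (n - p)) (fun _ => rfl)
    (fun i => CohCx.HDUres (DerivedCategory.Q.obj K) n (homOfLE le_top : U i ⟶ (⊤ : Opens X))) (fun _ => rfl)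

end Groth.Agent.S3540
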