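import Groth.Statements.S3541
import Groth.Agent.Htor.H246.RGammaBound
import Groth.Agent.Htor.H258.RGammaGE
import Groth.Agent.PerfA.QCohD

set_option autoImplicit false
universe u
attribute [local instance] HasDerivedCategory.standard
open HTor

namespace Groth.Agent.S3541

open CategoryTheory CategoryTheory.Limits AlgebraicGeometry in
/-- Let A be a ring all of whose modules have projective dimension ≤ d, X a scheme with a quasi-compact
separated morphism f : X → Spec A, covered by N + 1 affine opens, and P a complex of quasi-coherent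
O_X-modules with P^k = 0 unless a ≤ k ≤ b. Then RΓ(X, P) ∈ D(A) is represented by a complex L of
projective A-modules with L^k = 0 unless a - d ≤ k ≤ b + N. (The published statement gives a
canonical isomorphism, in a more general relative setting with several factors; here only one factor
over the base Spec A is treated and only the existence of an isomorphism in D(A) is asserted.) -/
theorem result (A : Type u) [CommRing A] (d : ℕ)
    (hA : ∀ M : ModuleCat.{u} A, HasProjectiveDimensionLT M (d + 1)) (X : Scheme.{u})
    (f : X ⟶ Spec (CommRingCat.of A)) [QuasiCompact f] [IsSeparated f] [HTor.HasRΓA f]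
    (N : ℕ) (U : Fin (N + 1) → X.Opens) (hU : ∀ i, IsAffineOpen (U i)) (hcov : ⨆ i, U i = ⊤)
    (P : CochainComplex X.Modules ℤ) (hq : ∀ i : ℤ, Coh.IsQCoh (P.X i)) (a b : ℤ)
    (hab : ∀ i : ℤ, i < a ∨ b < i → IsZero (P.X i)) :
    ∃ L : DRing.Cx A, (∀ i : ℤ, Module.Projective A (L.X i)) ∧ DRing.VanishesOutside L (a - d) (b + N) ∧
      HTor.Computes f L (DCoh.toD X P) := by
  have hP : DCoh.IsQCohD (DCoh.toD X P) := PerfA.QCohD.isQCohD_Q_of_terms P hq
  have hP' : (DCoh.toD X P).IsLE b := by
    have : P.IsStrictlyLE b := (CochainComplex.isStrictlyLE_iff _ _).2 fun i hi => hab i (Or.inr hi)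
    rw [DerivedCategory.isLE_Q_obj_iff]
    infer_instance
  have hP'' : (DCoh.toD X P).IsGE a := Htor.H258.RGammaGE.isGE_toD P a fun i hi => hab i (Or.inl hi)
  have h1 := Htor.H258.RGammaGE.isGE_RGammaA f (DCoh.toD X P) a
  have h2 := Htor.H246.RGammaBound.isLE_RΓA f N U hU hcov _ hP b hP'
  exact Htor.H258.RGammaGE.exists_projective_bounded d hA _ a (b + N) h1
    (fun i hi => DerivedCategory.isZero_of_isLE _ (b + N) i hi)

end Groth.Agent.S3541
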