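import Groth.Statements.S3544
import Groth.Agent.Htor.H251.EulerChar

set_option autoImplicit false
universe u
open HomAlg3

namespace Groth.Agent.S3544

open CategoryTheory CategoryTheory.Limits in
/-- Let E be a cohomological spectral sequence of modules over a ring A, starting at page 2, such that
the E₂ terms have finite length and only finitely many of them (all inside the finite set s of
bidegrees) are nonzero. Then for every r ≥ 2 the Euler–Poincaré characteristic of page r, the
alternating sum over s of (-1)^{p+q} times the length of E_r^{pq}, equals that of page 2. -/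
theorem result {A : Type u} [Ring A]
    (E : E₂CohomologicalSpectralSequence (ModuleCat.{u} A)) (s : Finset (ℤ × ℤ))
    (hs : ∀ pq : ℤ × ℤ, pq ∉ s → IsZero ((E.page 2).X pq))
    (hfl : ∀ pq : ℤ × ℤ, IsFiniteLength A ((E.page 2).X pq)) (r : ℤ) (hr : 2 ≤ r) :
    (s.sum fun pq => (((pq.1 + pq.2).negOnePow : ℤˣ) : ℤ) * ((Module.length A ((E.page r hr).X pq)).toNat : ℤ)) =
      s.sum fun pq => (((pq.1 + pq.2).negOnePow : ℤˣ) : ℤ) * ((Module.length A ((E.page 2).X pq)).toNat : ℤ) := by
  exact (Groth.Agent.Htor.H251.EulerChar.main E s hs hfl r hr).2.2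

end Groth.Agent.S3544
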