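import Groth.Statements.S3545
import Groth.Agent.Ega2.H261.TildeQCoh
-- import your own Groth.Agent.* helpers here

set_option autoImplicit false
universe u
open CategoryTheory CategoryTheory.Limits AlgebraicGeometry
open EGA2

namespace Groth.Agent.S3545

/-- Let S be a graded ring, M a graded S-module and X = Proj S. For every integer n the O_X-module M(n)~
(sections locally given by fractions m/f with m and f homogeneous, deg m = deg f + n) is
quasi-coherent. -/
theorem result {R A : Type u} [CommRing R] [CommRing A] [Algebra R A] (𝒜 : ℕ → Submodule R A) [GradedAlgebra 𝒜]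
    {M : Type u} [AddCommGroup M] [Module R M] [Module A M] [IsScalarTower R A M] (ℳ : ℕ → Submodule R M) [DirectSum.Decomposition ℳ] [SetLike.GradedSMul 𝒜 ℳ] (n : ℤ) :
    Coh.IsQCoh (GrTilde.tilde 𝒜 ℳ n) := by
  exact Groth.Agent.Ega2.H261.TildeQCoh.isQCoh_tilde n

end Groth.Agent.S3545
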