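import Groth.Statements.S3546
import Groth.Agent.Ega3B.TwistCoh

set_option autoImplicit false
universe u
open CategoryTheory CategoryTheory.Limits AlgebraicGeometry
open EGA2

namespace Groth.Agent.S3546

/-- Let S be a graded ring and X = Proj S. For every integer n the twisting sheaf O_X(n) = S(n)~ is a
quasi-coherent O_X-module. -/
theorem result {R A : Type u} [CommRing R] [CommRing A] [Algebra R A] (𝒜 : ℕ → Submodule R A) [GradedAlgebra 𝒜] (n : ℤ) :
    Coh.IsQCoh (Twist.twist 𝒜 n) := by
  exact Groth.Agent.Ega3B.TwistCoh.isQCoh_twist 𝒜 n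

end Groth.Agent.S3546
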