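import Groth.Statements.S3547
import Groth.Agent.Ega2.H263.GrStalk

set_option autoImplicit false
universe u
open CategoryTheory CategoryTheory.Limits AlgebraicGeometry
open EGA2

namespace Groth.Agent.S3547

/-- Let S be a graded ring, M a graded S-module, X = Proj S and p a point of X. The stalk of M(n)~ at p
is the module of fractions m/f in M_p with m, f homogeneous, f not in p and deg m = deg f + n:
precisely, evaluation at p is a bijection from the stalk at p of the sheaf of local sections of
M(n)~ onto that module of fractions. -/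
theorem result {R A : Type u} [CommRing R] [CommRing A] [Algebra R A] (𝒜 : ℕ → Submodule R A) [GradedAlgebra 𝒜]
    {M : Type u} [AddCommGroup M] [Module R M] [Module A M] [IsScalarTower R A M] (ℳ : ℕ → Submodule R M) [DirectSum.Decomposition ℳ] [SetLike.GradedSMul 𝒜 ℳ] (n : ℤ)
    (p : ProjectiveSpectrum 𝒜) :
    Function.Bijective (TopCat.stalkToFiber (GrTilde.isLocFrac 𝒜 ℳ n) p) := by
  exact ⟨Groth.Agent.Ega2.H263.GrStalk.injective 𝒜 ℳ n p, Groth.Agent.Ega2.H263.GrStalk.surjective 𝒜 ℳ n p⟩

end Groth.Agent.S3547
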