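import Groth.Statements.S3548
import Groth.Agent.Ega2.H263.GrZero

set_option autoImplicit false
universe u
open CategoryTheory CategoryTheory.Limits AlgebraicGeometry
open EGA2

namespace Groth.Agent.S3548

/-- Let S be a graded ring, M a graded S-module and X = Proj S. If for every z in M and every
homogeneous f of positive degree some power of f annihilates z, then the O_X-module M~ is zero. -/
theorem result {R A : Type u} [CommRing R] [CommRing A] [Algebra R A] (𝒜 : ℕ → Submodule R A) [GradedAlgebra 𝒜]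
    {M : Type u} [AddCommGroup M] [Module R M] [Module A M] [IsScalarTower R A M] (ℳ : ℕ → Submodule R M) [DirectSum.Decomposition ℳ] [SetLike.GradedSMul 𝒜 ℳ]
    (h : ∀ (z : M) (d : ℕ) (f : A), 0 < d → f ∈ 𝒜 d → ∃ k : ℕ, f ^ k • z = 0) :
    IsZero (GrTilde.tilde 𝒜 ℳ 0) := by
  refine Groth.Agent.Ega2.H263.GrZero.isZero_tilde_of_locMod fun x =>
    Groth.Agent.Ega2.H263.GrZero.locMod_eq_zero x fun m => ?_
  obtain ⟨d, f, hd, hf, hfx⟩ := Groth.Agent.FormalB.GrTildeSect.exists_pos_notMem 𝒜 x
  obtain ⟨k, hk⟩ := h m d f hd hf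
  exact ⟨f ^ k, Groth.Agent.FormalB.GrTildeSect.pow_notMem hfx k, hk⟩

end Groth.Agent.S3548
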