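import Groth.Statements.S3549
import Groth.Agent.Ega2.H263.GrZero

set_option autoImplicit false
universe u
open CategoryTheory CategoryTheory.Limits AlgebraicGeometry
open EGA2

namespace Groth.Agent.S3549

/-- Let S be a graded ring whose irrelevant ideal S_+ is generated by the degree-one elements, M a
graded S-module and X = Proj S. If the O_X-module M~ is zero, then for every z in M and every
homogeneous f of positive degree some power of f annihilates z. -/
theorem result {R A : Type u} [CommRing R] [CommRing A] [Algebra R A] (𝒜 : ℕ → Submodule R A) [GradedAlgebra 𝒜]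
    (hgen : (HomogeneousIdeal.irrelevant 𝒜).toIdeal = Ideal.span (𝒜 1 : Set A))
    {M : Type u} [AddCommGroup M] [Module R M] [Module A M] [IsScalarTower R A M] (ℳ : ℕ → Submodule R M) [DirectSum.Decomposition ℳ] [SetLike.GradedSMul 𝒜 ℳ]
    (h : IsZero (GrTilde.tilde 𝒜 ℳ 0)) (z : M) (d : ℕ) (f : A) (hd : 0 < d) (hf : f ∈ 𝒜 d) :
    ∃ k : ℕ, f ^ k • z = 0 := by
  classical
  -- homogeneous elements are killed by powers of degree-one elements
  have key : ∀ (i : ℕ) (y : M), y ∈ ℳ i → ∀ g ∈ 𝒜 1, ∃ N : ℕ, g ^ N • y = 0 := by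
    intro i y hy g hg
    have hgi : g ^ i ∈ 𝒜 i := by simpa using SetLike.pow_mem_graded i hg
    refine Groth.Agent.FormalB.GrTildeSect.exists_pow_smul_eq_zero 𝒜 (ℳ := ℳ) (k := (i : ℤ)) one_pos hg
      (by simpa using hy) fun x hx => ?_
    have hfr : y ∈ Groth.Agent.FormalB.GrTildeSect.zdeg ℳ ((i : ℤ) + 0) := by simpa using hy
    have h0 := Groth.Agent.Ega2.H263.GrZero.sect_eq_zero_of_isZero h (ProjectiveSpectrum.basicOpen 𝒜 g)
      (Groth.Agent.FormalB.GrTildeSect.frac 0 (ProjectiveSpectrum.basicOpen 𝒜 g) hgi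
        (fun x hx => Groth.Agent.FormalB.GrTildeSect.pow_notMem hx i) hfr)
    have h1 : (LocalizedModule.mk y ⟨g ^ i, Groth.Agent.FormalB.GrTildeSect.pow_notMem hx i⟩ :
        GrTilde.LocMod 𝒜 (M := M) x) = LocalizedModule.mk 0 1 := (congrArg (fun s : GrTilde.sect 𝒜 ℳ 0
          (Opposite.op (ProjectiveSpectrum.basicOpen 𝒜 g)) => (s.1 ⟨x, hx⟩).1) h0).trans
            (LocalizedModule.zero_mk _).symm
    obtain ⟨c, hc⟩ := LocalizedModule.mk_eq.mp h1
    refine ⟨c.1, c.2, ?_⟩
    rw [one_smul, smul_zero, smul_zero] at hc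
    exact hc
  -- the radical of the annihilator of a homogeneous element contains `f`
  have key2 : ∀ (i : ℕ) (y : M), y ∈ ℳ i → ∃ N : ℕ, f ^ N • y = 0 := by
    intro i y hy
    have hfI : f ∈ (HomogeneousIdeal.irrelevant 𝒜).toIdeal := HomogeneousIdeal.mem_irrelevant_of_mem 𝒜 hd hf
    let I : Ideal A := LinearMap.ker (LinearMap.toSpanSingleton A M y)
    have memI : ∀ a : A, a ∈ I ↔ a • y = 0 := fun a => by
      simp only [I, LinearMap.mem_ker, LinearMap.toSpanSingleton_apply]
    have hle : Ideal.span (𝒜 1 : Set A) ≤ I.radical := by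
      rw [Ideal.span_le]
      intro g hg
      obtain ⟨N, hN⟩ := key i y hy g hg
      exact ⟨N, (memI _).2 hN⟩
    rw [hgen] at hfI
    obtain ⟨N, hN⟩ := hle hfI
    exact ⟨N, (memI _).1 hN⟩
  -- general elements
  choose N hN using fun i => key2 i (DirectSum.decompose ℳ z i : M) (SetLike.coe_mem _)
  obtain ⟨K, hK⟩ : ∃ K : ℕ, K = (DirectSum.decompose ℳ z).support.sup N := ⟨_, rfl⟩
  refine ⟨K, ?_⟩
  rw [← DirectSum.sum_support_decompose ℳ z, Finset.smul_sum]
  refine Finset.sum_eq_zero fun i hi => ?_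
  obtain ⟨c, hc⟩ := Nat.exists_eq_add_of_le' (Finset.le_sup (f := N) hi)
  rw [hK, hc, pow_add, mul_smul, hN, smul_zero]

end Groth.Agent.S3549
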