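import Groth.Statements.S3550
import Groth.Agent.Ega2.H264.QCohTilde

set_option autoImplicit false
universe u
open CategoryTheory CategoryTheory.Limits AlgebraicGeometry
open EGA2

namespace Groth.Agent.S3550

/-- Let S be a graded ring whose irrelevant ideal S_+ is generated by finitely many elements of degree
one, and X = Proj S. Then every quasi-coherent O_X-module F is isomorphic to M~ for some graded
S-module M (graded in nonnegative degrees). -/
theorem result {R A : Type u} [CommRing R] [CommRing A] [Algebra R A] (𝒜 : ℕ → Submodule R A) [GradedAlgebra 𝒜]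
    (s : Finset A) (hs1 : ∀ f ∈ s, f ∈ 𝒜 1)
    (hs : (HomogeneousIdeal.irrelevant 𝒜).toIdeal = Ideal.span (s : Set A))
    (F : (Proj 𝒜).Modules) (hF : Coh.IsQCoh F) :
    ∃ (M : Type u) (_ : AddCommGroup M) (_ : Module R M) (_ : Module A M) (_ : IsScalarTower R A M)
      (ℳ : ℕ → Submodule R M) (_ : DirectSum.Decomposition ℳ) (_ : SetLike.GradedSMul 𝒜 ℳ),
      Nonempty (GrTilde.tilde 𝒜 ℳ 0 ≅ F) := by
  have hf : ∀ i : Fin s.card, ((s.equivFin.symm i : A)) ∈ 𝒜 1 := fun i => hs1 _ (s.equivFin.symm i).2
  refine Groth.Agent.Ega2.H264.QCohTilde.exists_tilde_iso one_pos hf (fun x => ?_) hF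
  by_contra! H
  apply x.not_irrelevant_le
  have h1 : (HomogeneousIdeal.irrelevant 𝒜).toIdeal ≤ x.asHomogeneousIdeal.toIdeal := by
    rw [hs, Ideal.span_le]
    intro a ha
    have := H (s.equivFin ⟨a, ha⟩)
    rw [Equiv.symm_apply_apply] at this
    exact this
  exact h1

end Groth.Agent.S3550
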