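import Groth.Statements.S3551
import Groth.Agent.Ega2.H271.ProjTilde

set_option autoImplicit false
universe u
open CategoryTheory CategoryTheory.Limits AlgebraicGeometry
open EGA2

namespace Groth.Agent.S3551

/-- Let S be a graded ring whose irrelevant ideal S_+ is generated by finitely many elements of degree
one, and X = Proj S. Then every quasi-coherent O_X-module of finite type is isomorphic to N~ for
some finitely generated graded S-module N (graded in nonnegative degrees). -/
theorem result {R A : Type u} [CommRing R] [CommRing A] [Algebra R A] (𝒜 : ℕ → Submodule R A) [GradedAlgebra 𝒜]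
    (s : Finset A) (hs1 : ∀ f ∈ s, f ∈ 𝒜 1)
    (hs : (HomogeneousIdeal.irrelevant 𝒜).toIdeal = Ideal.span (s : Set A))
    (F : (Proj 𝒜).Modules) (hF : Coh.IsQCoh F) (hFT : CohB1.IsFT F) :
    ∃ (N : Type u) (_ : AddCommGroup N) (_ : Module R N) (_ : Module A N) (_ : IsScalarTower R A N)
      (𝒩 : ℕ → Submodule R N) (_ : DirectSum.Decomposition 𝒩) (_ : SetLike.GradedSMul 𝒜 𝒩),
      Module.Finite A N ∧ Nonempty (GrTilde.tilde 𝒜 𝒩 0 ≅ F) := by
  classical
  let e := s.equivFin
  have hf : ∀ i, ((e.symm i : s) : A) ∈ 𝒜 1 := fun i => hs1 _ (e.symm i).2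
  have hcov : ∀ x : ProjectiveSpectrum 𝒜, ∃ i, ((e.symm i : s) : A) ∉ x.asHomogeneousIdeal := by
    intro x
    by_contra! H
    apply x.not_irrelevant_le
    change (HomogeneousIdeal.irrelevant 𝒜).toIdeal ≤ x.asHomogeneousIdeal.toIdeal
    rw [hs, Ideal.span_le]
    intro a ha
    have := H (e ⟨a, ha⟩)
    rwa [Equiv.symm_apply_apply] at this
  obtain ⟨r, d, φ, hφ⟩ := Groth.Agent.Ega2.H271.ProjTilde.exists_quotient one_pos hf hcov F ⟨hF, hFT⟩
  obtain ⟨J, hJ, e', ψ, h⟩ := Groth.Agent.Ega2.H271.ProjTilde.exists_of_epi one_pos hf hcov hF d φ hφ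
  exact ⟨(J → A) ⧸ Groth.Agent.FormalB.TildeOfPres.ker e' ψ, inferInstance, inferInstance, inferInstance,
    inferInstance, Groth.Agent.FormalB.TildeOfPres.qpart e' ψ, Groth.Agent.FormalB.TildeOfPres.qdecomp e' ψ,
    inferInstance, inferInstance, h⟩

end Groth.Agent.S3551
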