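import Groth.Statements.S3553

set_option autoImplicit false
universe u
open CategoryTheory CategoryTheory.Limits AlgebraicGeometry
open EGA2

namespace Groth.Agent.S3553

open HomogeneousLocalization in
/-- If `D_+(f)` is empty then `f` is nilpotent (`f` homogeneous of positive degree). -/
theorem isNilpotent_of_basicOpen_eq_bot {R A : Type u} [CommRing R] [CommRing A] [Algebra R A]
    (𝒜 : ℕ → Submodule R A) [GradedAlgebra 𝒜] {d : ℕ} (hd : 0 < d) {f : A} (hf : f ∈ 𝒜 d)
    (h : Proj.basicOpen 𝒜 f = ⊥) : IsNilpotent f := by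
  have hE : IsEmpty (Spec (CommRingCat.of (Away 𝒜 f))) := by
    constructor
    intro x
    have h1 : (Proj.awayι 𝒜 f hf hd) x ∈ (Proj.awayι 𝒜 f hf hd).opensRange := ⟨x, rfl⟩
    rw [Proj.opensRange_awayι, h] at h1
    exact h1
  have h2 : Subsingleton (Away 𝒜 f) := by
    have : IsEmpty (PrimeSpectrum (Away 𝒜 f)) := hE
    exact not_nontrivial_iff_subsingleton.1 fun _ => this.false (Classical.arbitrary _)
  have h3 : (1 : Away 𝒜 f) = 0 := Subsingleton.elim _ _
  have h4 : (1 : Localization.Away f) = 0 := by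
    have := congrArg HomogeneousLocalization.val h3
    rwa [HomogeneousLocalization.val_one, HomogeneousLocalization.val_zero] at this
  have h5 : algebraMap A (Localization.Away f) 1 = algebraMap A (Localization.Away f) 0 := by
    rw [map_one, map_zero, h4]
  obtain ⟨⟨c, n, rfl⟩, hc⟩ := (IsLocalization.eq_iff_exists (Submonoid.powers f) _).1 h5
  refine ⟨n, ?_⟩
  simpa using hc

/-- In the case where the induced morphism is defined on all of Proj S: let φ : S' → S be a homomorphism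
of graded rings such that S_+ is contained in the ideal generated by φ(S'_+), and suppose every
element of the kernel of φ is nilpotent. Then the induced morphism from Proj S to Proj S' has dense
image. -/
theorem result {R A : Type u} [CommRing R] [CommRing A] [Algebra R A] (𝒜 : ℕ → Submodule R A) [GradedAlgebra 𝒜]
    {B : Type u} [CommRing B] [Algebra R B] (ℬ : ℕ → Submodule R B) [GradedAlgebra ℬ]
    (φ : 𝒜 →+*ᵍ ℬ) (hφ : HomogeneousIdeal.irrelevant ℬ ≤ (HomogeneousIdeal.irrelevant 𝒜).map φ)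
    (hker : ∀ a : A, φ a = 0 → IsNilpotent a) :
    DenseRange (Proj.map φ hφ).base := by
  intro x
  rw [mem_closure_iff]
  intro U hU hxU
  -- a chart `D_+(s)` around `x`
  have hx : x ∈ ⨆ s, ((Proj.affineOpenCover 𝒜).openCover.f s).opensRange := by
    rw [Scheme.OpenCover.iSup_opensRange (Proj.affineOpenCover 𝒜).openCover]
    trivial
  obtain ⟨s, hs⟩ := TopologicalSpace.Opens.mem_iSup.mp hx
  have hs' : x ∈ Proj.basicOpen 𝒜 (s.2 : A) := by
    rw [← Proj.opensRange_awayι 𝒜 (s.2 : A) s.2.2 s.1.2]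
    exact hs
  -- a basic open around `x` in `U`
  obtain ⟨_, ⟨f, rfl⟩, hxf, hfU⟩ := TopologicalSpace.Opens.isBasis_iff_nbhd.mp
    (Proj.isBasis_basicOpen 𝒜) (U := ⟨U, hU⟩) (x := x) hxU
  rw [Proj.basicOpen_eq_iSup_proj] at hxf hfU
  obtain ⟨i, hi⟩ := TopologicalSpace.Opens.mem_iSup.mp hxf
  have hiU : Proj.basicOpen 𝒜 (GradedRing.proj 𝒜 i f) ≤ (⟨U, hU⟩ : (Proj 𝒜).Opens) :=
    (le_iSup (fun i ↦ Proj.basicOpen 𝒜 (GradedRing.proj 𝒜 i f)) i).trans hfU
  set g : A := GradedRing.proj 𝒜 i f * s.2 with hg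
  have hgmem : g ∈ 𝒜 (i + s.1.1) := SetLike.mul_mem_graded (SetLike.coe_mem _) s.2.2
  have hxg : x ∈ Proj.basicOpen 𝒜 g := by
    rw [hg, Proj.basicOpen_mul]
    exact ⟨hi, hs'⟩
  have hgU : Proj.basicOpen 𝒜 g ≤ (⟨U, hU⟩ : (Proj 𝒜).Opens) := by
    rw [hg, Proj.basicOpen_mul]
    exact inf_le_left.trans hiU
  have hpos : 0 < i + s.1.1 := Nat.add_pos_right i s.1.2
  by_contra hcon
  have hbot : Proj.basicOpen ℬ (φ g) = ⊥ := by
    rw [← Proj.map_preimage_basicOpen φ hφ, eq_bot_iff]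
    intro y hy
    exact hcon ⟨(Proj.map φ hφ).base y, hgU hy, ⟨y, rfl⟩⟩
  obtain ⟨n, hn⟩ := isNilpotent_of_basicOpen_eq_bot ℬ hpos (φ.2 hgmem) hbot
  rw [← map_pow] at hn
  obtain ⟨m, hm⟩ := hker _ hn
  rw [← pow_mul] at hm
  apply (Proj.mem_basicOpen 𝒜 g x).mp hxg
  have : g ^ (n * m) ∈ x.asHomogeneousIdeal := by
    rw [hm]; exact zero_mem _
  exact x.isPrime.mem_of_pow_mem _ this

end Groth.Agent.S3553
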