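import Groth.Statements.S3554
import Groth.Agent.Ega2.H267.ProjBC
-- import your own Groth.Agent.* helpers here

set_option autoImplicit false
universe u
open CategoryTheory CategoryTheory.Limits AlgebraicGeometry
open EGA2

namespace Groth.Agent.S3554

/-- Let A' → A be a ring homomorphism, S' a graded A'-algebra and S = S' ⊗_{A'} A with the induced
grading (here: any graded A-algebra S with a graded homomorphism S' → S exhibiting S as the base
change of S'). Then the square formed by Proj S → Proj S', the structure morphisms to Spec A and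
Spec A', and Spec A → Spec A' is cartesian. -/
theorem result {R R' A B : Type u} [CommRing R'] [CommRing R] [Algebra R' R]
    [CommRing B] [Algebra R' B] (ℬ : ℕ → Submodule R' B) [GradedAlgebra ℬ]
    [CommRing A] [Algebra R A] [Algebra R' A] [IsScalarTower R' R A] (𝒜 : ℕ → Submodule R A) [GradedAlgebra 𝒜]
    [Algebra B A] [IsScalarTower R' B A] [Algebra.IsPushout R' R B A]
    (φ : ℬ →+*ᵍ 𝒜) (hφA : ∀ b : B, φ b = algebraMap B A b)
    (hφ : HomogeneousIdeal.irrelevant 𝒜 ≤ (HomogeneousIdeal.irrelevant ℬ).map φ) :
    IsPullback (Proj.map φ hφ)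
      (Proj.toSpecZero 𝒜 ≫ Spec.map (CommRingCat.ofHom (algebraMap R (𝒜 0))))
      (Proj.toSpecZero ℬ ≫ Spec.map (CommRingCat.ofHom (algebraMap R' (ℬ 0))))
      (Spec.map (CommRingCat.ofHom (algebraMap R' R))) :=
  Groth.Agent.Ega2.H267.ProjBC.isPullback_proj_map φ hφA hφ

end Groth.Agent.S3554
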