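import Groth.Statements.S3555

set_option autoImplicit false
universe u
open CategoryTheory CategoryTheory.Limits AlgebraicGeometry
open EGA2

namespace Groth.Agent.S3555

/-- Let S be a graded ring whose irrelevant ideal S_+ is generated by the degree-one elements, X = Proj
S, and f homogeneous of degree d > 0. Then D_+(f) is the set of points p of X at which the global
section f/1 of O_X(d) does not vanish, i.e. at which its value generates the module of degree-d
fractions at p. -/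
theorem result {R A : Type u} [CommRing R] [CommRing A] [Algebra R A] (𝒜 : ℕ → Submodule R A) [GradedAlgebra 𝒜]
    (hgen : (HomogeneousIdeal.irrelevant 𝒜).toIdeal = Ideal.span (𝒜 1 : Set A))
    {d : ℕ} (hd : 0 < d) (f : 𝒜 d) (p : ProjectiveSpectrum 𝒜) :
    p ∈ ProjectiveSpectrum.basicOpen 𝒜 (f : A) ↔
      Submodule.span (Twist.A0 𝒜 p) {(Twist.globalOf 𝒜 f).1 ⟨p, trivial⟩} = ⊤ := by
  have h1p : (1 : A) ∉ p.asHomogeneousIdeal.toIdeal := fun h => p.isPrime.ne_top ((Ideal.eq_top_iff_one _).mpr h)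
  have hval : ((Twist.globalOf 𝒜 f).1 ⟨p, trivial⟩ : Twist.Loc 𝒜 p) =
      Localization.mk (f : A) ⟨1, h1p⟩ := rfl
  rw [ProjectiveSpectrum.mem_basicOpen]
  constructor
  · intro hf
    rw [eq_top_iff]
    rintro ⟨q, hq⟩ -
    have key : ∀ q ∈ Twist.twistAt 𝒜 (d : ℤ) p, ∃ c : Twist.A0 𝒜 p,
        c.val * Localization.mk (f : A) ⟨1, h1p⟩ = q := by
      intro q hq
      refine Submodule.span_induction ?_ ?_ ?_ ?_ hq
      · rintro q ⟨i, j, a, s, hs, hij, rfl⟩
        have hij' : i = j + d := by exact_mod_cast hij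
        subst hij'
        have hsf : (s : A) * (f : A) ∉ p.asHomogeneousIdeal.toIdeal := fun h =>
          (p.isPrime.mem_or_mem h).elim hs hf
        refine ⟨HomogeneousLocalization.mk ⟨j + d, a, ⟨(s : A) * (f : A), SetLike.mul_mem_graded s.2 f.2⟩, hsf⟩, ?_⟩
        rw [HomogeneousLocalization.val_mk, Localization.mk_mul]
        rw [Localization.mk_eq_mk_iff, Localization.r_iff_exists]
        refine ⟨1, ?_⟩
        simp only [OneMemClass.coe_one, one_mul, Submonoid.coe_mul, mul_one]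
        ring
      · exact ⟨0, by rw [HomogeneousLocalization.val_zero, zero_mul]⟩
      · rintro x y - - ⟨c, rfl⟩ ⟨c', rfl⟩
        exact ⟨c + c', by rw [HomogeneousLocalization.val_add, add_mul]⟩
      · rintro b x - ⟨c, rfl⟩
        refine ⟨b * c, ?_⟩
        rw [HomogeneousLocalization.val_mul, Algebra.smul_def, HomogeneousLocalization.algebraMap_apply, mul_assoc]
    obtain ⟨c, hc⟩ := key q hq
    rw [Submodule.mem_span_singleton]
    refine ⟨c, Subtype.ext ?_⟩
    rw [Twist.coe_smul_val, hval]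
    exact hc
  · intro h hf
    obtain ⟨x, hx1, hxp⟩ : ∃ x ∈ 𝒜 1, x ∉ p.asHomogeneousIdeal.toIdeal := by
      by_contra hcon
      push Not at hcon
      apply p.not_irrelevant_le
      change (HomogeneousIdeal.irrelevant 𝒜).toIdeal ≤ p.asHomogeneousIdeal.toIdeal
      rw [hgen]
      exact Ideal.span_le.mpr hcon
    have hxd : x ^ d ∈ 𝒜 d := by
      have := SetLike.pow_mem_graded d hx1
      rwa [smul_eq_mul, mul_one] at this
    have hmem : (Localization.mk (x ^ d) ⟨1, h1p⟩ : Twist.Loc 𝒜 p) ∈ Twist.twistAt 𝒜 (d : ℤ) p :=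
      Submodule.subset_span ⟨d, 0, ⟨x ^ d, hxd⟩, ⟨1, SetLike.GradedOne.one_mem⟩, h1p, by simp, rfl⟩
    have hin : (⟨_, hmem⟩ : Twist.twistAt 𝒜 (d : ℤ) p) ∈
        Submodule.span (Twist.A0 𝒜 p) {(Twist.globalOf 𝒜 f).1 ⟨p, trivial⟩} := by
      rw [h]; trivial
    rw [Submodule.mem_span_singleton] at hin
    obtain ⟨c, hc⟩ := hin
    have hc' := congrArg Subtype.val hc
    rw [Twist.coe_smul_val, hval] at hc'
    have hmax : (Localization.mk (x ^ d) ⟨1, h1p⟩ : Twist.Loc 𝒜 p) ∈
        IsLocalRing.maximalIdeal (Twist.Loc 𝒜 p) := by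
      have hc'' : c.val * Localization.mk (f : A) ⟨1, h1p⟩ =
          (Localization.mk (x ^ d) ⟨1, h1p⟩ : Twist.Loc 𝒜 p) := hc'
      refine hc'' ▸ ?_
      refine Ideal.mul_mem_left _ _ ?_
      rw [Localization.mk_eq_mk']
      exact (IsLocalization.AtPrime.mk'_mem_maximal_iff (Twist.Loc 𝒜 p) p.asHomogeneousIdeal.toIdeal (f : A) ⟨1, h1p⟩ inferInstance).mpr hf
    rw [Localization.mk_eq_mk'] at hmax
    have := (IsLocalization.AtPrime.mk'_mem_maximal_iff (Twist.Loc 𝒜 p) p.asHomogeneousIdeal.toIdeal (x ^ d) ⟨1, h1p⟩ inferInstance).mp hmax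
    exact hxp (p.isPrime.mem_of_pow_mem d this)

end Groth.Agent.S3555
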