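import Groth.Statements.S3556

set_option autoImplicit false
universe u
open CategoryTheory CategoryTheory.Limits AlgebraicGeometry
open EGA2

namespace Groth.Agent.S3556

/-- If no nonzero homogeneous element of positive degree of `A` is nilpotent, then each
`Away 𝒜 s`, with `s` homogeneous of positive degree, is reduced. -/
theorem away_isReduced {R A : Type u} [CommRing R] [CommRing A] [Algebra R A] (𝒜 : ℕ → Submodule R A)
    [GradedAlgebra 𝒜] (hred : ∀ i : ℕ, 0 < i → ∀ a ∈ 𝒜 i, IsNilpotent a → a = 0)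
    {d : ℕ} (hd0 : 0 < d) (s : A) (hs : s ∈ 𝒜 d) :
    _root_.IsReduced (HomogeneousLocalization.Away 𝒜 s) := by
  constructor
  intro z hz
  obtain ⟨n, a, ha, rfl⟩ := HomogeneousLocalization.Away.mk_surjective 𝒜 hs z
  obtain ⟨k, hk⟩ := hz
  have hval : (HomogeneousLocalization.Away.mk 𝒜 hs n a ha).val =
      (Localization.mk a ⟨s ^ n, ⟨n, rfl⟩⟩ : Localization (Submonoid.powers s)) := rfl
  have h1 : (Localization.mk a ⟨s ^ n, ⟨n, rfl⟩⟩ : Localization (Submonoid.powers s)) ^ k = 0 := by
    rw [← hval, ← HomogeneousLocalization.val_pow, hk, HomogeneousLocalization.val_zero]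
  rw [Localization.mk_pow, Localization.mk_eq_mk', IsLocalization.mk'_eq_zero_iff] at h1
  obtain ⟨⟨_, m, rfl⟩, hm⟩ := h1
  have h2 : s * a = 0 := by
    refine hred (d + n • d) (by omega) _ (SetLike.mul_mem_graded hs ha) ⟨m + k, ?_⟩
    have : (s * a) ^ (m + k) = (s ^ k * a ^ m) * (s ^ m * a ^ k) := by ring
    rw [this]
    simp only at hm
    rw [hm, mul_zero]
  apply HomogeneousLocalization.val_injective
  rw [hval, HomogeneousLocalization.val_zero, Localization.mk_eq_mk', IsLocalization.mk'_eq_zero_iff]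
  exact ⟨⟨s, ⟨1, pow_one s⟩⟩, h2⟩

/-- Let S be a graded ring which is essentially reduced, i.e. its irrelevant ideal S_+ contains no
nonzero nilpotent element. Then Proj S is a reduced scheme. -/
theorem result {R A : Type u} [CommRing R] [CommRing A] [Algebra R A] (𝒜 : ℕ → Submodule R A) [GradedAlgebra 𝒜]
    (hred : ∀ f ∈ (HomogeneousIdeal.irrelevant 𝒜).toIdeal, IsNilpotent f → f = 0) :
    AlgebraicGeometry.IsReduced (Proj 𝒜) := by
  have hred' : ∀ i : ℕ, 0 < i → ∀ a ∈ 𝒜 i, IsNilpotent a → a = 0 := by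
    intro i hi a ha hn
    refine hred a ?_ hn
    change _ ∈ HomogeneousIdeal.irrelevant 𝒜
    rw [HomogeneousIdeal.mem_irrelevant_iff, GradedRing.proj_apply,
      DirectSum.decompose_of_mem_ne 𝒜 ha hi.ne']
  have : ∀ i, AlgebraicGeometry.IsReduced ((Proj.affineOpenCover 𝒜).openCover.X i) := by
    intro i
    have h := away_isReduced 𝒜 hred' i.1.2 (i.2 : A) i.2.2
    exact inferInstanceAs (AlgebraicGeometry.IsReduced
      (Spec (CommRingCat.of (HomogeneousLocalization.Away 𝒜 (i.2 : A)))))
  exact AlgebraicGeometry.IsReduced.of_openCover _ (Proj.affineOpenCover 𝒜).openCover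

end Groth.Agent.S3556
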