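import Groth.Statements.S3557
-- import your own Groth.Agent.* helpers here

set_option autoImplicit false
universe u
open CategoryTheory CategoryTheory.Limits AlgebraicGeometry
open EGA2

namespace Groth.Agent.S3557

section Aux

open HomogeneousLocalization

variable {R A : Type u} [CommRing R] [CommRing A] [Algebra R A] (𝒜 : ℕ → Submodule R A)
  [GradedAlgebra 𝒜]

theorem mem_irrelevant_of_mem {d : ℕ} (hd : 0 < d) {f : A} (hf : f ∈ 𝒜 d) :
    f ∈ (HomogeneousIdeal.irrelevant 𝒜).toIdeal := by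
  change f ∈ HomogeneousIdeal.irrelevant 𝒜
  rw [HomogeneousIdeal.mem_irrelevant_iff, GradedRing.proj_apply,
    DirectSum.decompose_of_mem_ne 𝒜 hf hd.ne']

/-- If `D_+(f)` is empty then `f` is nilpotent (`f` homogeneous of positive degree). -/
theorem isNilpotent_of_basicOpen_eq_bot {d : ℕ} (hd : 0 < d) {f : A} (hf : f ∈ 𝒜 d)
    (h : Proj.basicOpen 𝒜 f = ⊥) : IsNilpotent f := by
  have hE : IsEmpty (Spec (CommRingCat.of (Away 𝒜 f))) := by
    constructor
    intro x
    have h1 : (Proj.awayι 𝒜 f hf hd) x ∈ (Proj.awayι 𝒜 f hf hd).opensRange := ⟨x, rfl⟩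
    rw [Proj.opensRange_awayι, h] at h1
    exact h1
  have h2 : Subsingleton (Away 𝒜 f) := by
    have : IsEmpty (PrimeSpectrum (Away 𝒜 f)) := hE
    exact not_nontrivial_iff_subsingleton.1 fun _ => this.false (Classical.arbitrary _)
  have h3 : (1 : Away 𝒜 f) = 0 := Subsingleton.elim _ _
  have h4 : (1 : Localization.Away f) = 0 := by
    have := congrArg HomogeneousLocalization.val h3
    rwa [HomogeneousLocalization.val_one, HomogeneousLocalization.val_zero] at this
  have h5 : algebraMap A (Localization.Away f) 1 = algebraMap A (Localization.Away f) 0 := by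
    rw [map_one, map_zero, h4]
  obtain ⟨⟨c, n, rfl⟩, hc⟩ := (IsLocalization.eq_iff_exists (Submonoid.powers f) _).1 h5
  refine ⟨n, ?_⟩
  simpa using hc

theorem isReduced_away (hred : ∀ f ∈ (HomogeneousIdeal.irrelevant 𝒜).toIdeal, IsNilpotent f → f = 0)
    {d : ℕ} (hd : 0 < d) {f : A} (hf : f ∈ 𝒜 d) : _root_.IsReduced (Away 𝒜 f) := by
  constructor
  rintro x ⟨k, hk⟩
  obtain ⟨n, a, ha, rfl⟩ := Away.mk_surjective 𝒜 hf x
  have h1 := congrArg HomogeneousLocalization.val hk
  rw [HomogeneousLocalization.val_pow, HomogeneousLocalization.val_zero, Away.val_mk,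
    Localization.mk_pow, Localization.mk_eq_mk', IsLocalization.mk'_eq_zero_iff] at h1
  obtain ⟨⟨c, m, rfl⟩, hc⟩ := h1
  have h2 : IsNilpotent (f * a) := by
    refine ⟨m + k, ?_⟩
    have : (f * a) ^ (m + k) = f ^ k * a ^ m * (f ^ m * a ^ k) := by ring
    rw [this]
    have hc' : f ^ m * a ^ k = 0 := hc
    rw [hc', mul_zero]
  have h3 : f * a = 0 := hred _ (Ideal.mul_mem_right _ _ (mem_irrelevant_of_mem 𝒜 hd hf)) h2
  apply HomogeneousLocalization.val_injective
  rw [Away.val_mk, HomogeneousLocalization.val_zero, Localization.mk_eq_mk',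
    IsLocalization.mk'_eq_zero_iff]
  exact ⟨⟨f, 1, pow_one f⟩, h3⟩

theorem isReduced_proj
    (hred : ∀ f ∈ (HomogeneousIdeal.irrelevant 𝒜).toIdeal, IsNilpotent f → f = 0) :
    AlgebraicGeometry.IsReduced (Proj 𝒜) := by
  have : ∀ i, AlgebraicGeometry.IsReduced ((Proj.affineOpenCover 𝒜).openCover.X i) := by
    intro i
    have h := isReduced_away 𝒜 hred i.1.2 i.2.2
    change AlgebraicGeometry.IsReduced (Spec (CommRingCat.of (Away 𝒜 (i.2 : A))))
    have : _root_.IsReduced (CommRingCat.of (Away 𝒜 (i.2 : A))) := h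
    infer_instance
  exact AlgebraicGeometry.IsReduced.of_openCover _ (Proj.affineOpenCover 𝒜).openCover

end Aux

/-- Let S be a graded ring which is essentially reduced (S_+ contains no nonzero nilpotent). Then Proj S
is an integral scheme if and only if S is essentially integral, i.e. S_+ is nonzero and the product
of two nonzero elements of S_+ is nonzero. -/
theorem result {R A : Type u} [CommRing R] [CommRing A] [Algebra R A] (𝒜 : ℕ → Submodule R A) [GradedAlgebra 𝒜]
    (hred : ∀ f ∈ (HomogeneousIdeal.irrelevant 𝒜).toIdeal, IsNilpotent f → f = 0) :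
    AlgebraicGeometry.IsIntegral (Proj 𝒜) ↔
      ((∃ f ∈ (HomogeneousIdeal.irrelevant 𝒜).toIdeal, f ≠ 0) ∧
        ∀ f ∈ (HomogeneousIdeal.irrelevant 𝒜).toIdeal, ∀ g ∈ (HomogeneousIdeal.irrelevant 𝒜).toIdeal,
          f * g = 0 → f = 0 ∨ g = 0) := by
  classical
  constructor
  · intro hI
    constructor
    · by_contra hcon
      push Not at hcon
      obtain ⟨x⟩ := hI.nonempty
      refine x.not_irrelevant_le fun f hf => ?_
      rw [hcon f hf]
      exact zero_mem _
    · intro f hf g hg hfg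
      -- the generic point
      let p : Proj 𝒜 := genericPoint (Proj 𝒜)
      have key : ∀ f ∈ (HomogeneousIdeal.irrelevant 𝒜).toIdeal,
          f ∈ (ProjectiveSpectrum.asHomogeneousIdeal p).toIdeal → f = 0 := by
        intro f hf hfp
        rw [← DirectSum.sum_support_decompose 𝒜 f]
        refine Finset.sum_eq_zero fun i _ => ?_
        by_cases hi : i = 0
        · subst hi
          exact (HomogeneousIdeal.mem_irrelevant_iff 𝒜 f).1 hf
        · have hi' : 0 < i := Nat.pos_of_ne_zero hi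
          have h1 : ((DirectSum.decompose 𝒜 f i : 𝒜 i) : A) ∈
              (ProjectiveSpectrum.asHomogeneousIdeal p).toIdeal :=
            (ProjectiveSpectrum.asHomogeneousIdeal p).isHomogeneous i hfp
          refine hred _ (mem_irrelevant_of_mem 𝒜 hi' (SetLike.coe_mem _)) ?_
          refine isNilpotent_of_basicOpen_eq_bot 𝒜 hi' (SetLike.coe_mem _) ?_
          rw [eq_bot_iff]
          intro y hy
          exfalso
          have h2 : p ∈ Proj.basicOpen 𝒜 ((DirectSum.decompose 𝒜 f i : 𝒜 i) : A) :=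
            ((genericPoint_spec (Proj 𝒜)).mem_open_set_iff
              (Proj.basicOpen 𝒜 ((DirectSum.decompose 𝒜 f i : 𝒜 i) : A)).2).2
              ⟨y, Set.mem_univ _, hy⟩
          exact h2 h1
      have hp : (ProjectiveSpectrum.asHomogeneousIdeal p).toIdeal.IsPrime := p.isPrime
      have h0 : f * g ∈ (ProjectiveSpectrum.asHomogeneousIdeal p).toIdeal := by
        rw [hfg]; exact zero_mem _
      rcases hp.mem_or_mem h0 with h | h
      · exact Or.inl (key f hf h)
      · exact Or.inr (key g hg h)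
  · rintro ⟨⟨f, hf, hf0⟩, hmul⟩
    have hR := isReduced_proj 𝒜 hred
    have hne : ∀ {d : ℕ}, 0 < d → ∀ {g : A}, g ∈ 𝒜 d → g ≠ 0 → Proj.basicOpen 𝒜 g ≠ ⊥ := by
      intro d hd g hg hg0 hbot
      exact hg0 (hred _ (mem_irrelevant_of_mem 𝒜 hd hg)
        (isNilpotent_of_basicOpen_eq_bot 𝒜 hd hg hbot))
    have hcomp : ∀ {U : Set (Proj 𝒜)}, IsOpen U → U.Nonempty → ∃ (d : ℕ) (g : A), 0 < d ∧
        g ∈ 𝒜 d ∧ g ≠ 0 ∧ (Proj.basicOpen 𝒜 g : Set (Proj 𝒜)) ⊆ U := by
      rintro U hU ⟨x, hx⟩
      obtain ⟨_, ⟨r, rfl⟩, hxr, hrU⟩ :=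
        (ProjectiveSpectrum.isTopologicalBasis_basic_opens 𝒜).exists_subset_of_mem_open hx hU
      have hxr' : r ∉ (ProjectiveSpectrum.asHomogeneousIdeal x).toIdeal := hxr
      obtain ⟨h, hh, hhx⟩ := Set.not_subset.1 x.not_irrelevant_le
      have hx' : (ProjectiveSpectrum.asHomogeneousIdeal x).toIdeal.IsPrime := x.isPrime
      have hrh : r * h ∉ (ProjectiveSpectrum.asHomogeneousIdeal x).toIdeal := by
        intro hcon
        rcases hx'.mem_or_mem hcon with h1 | h1
        · exact hxr' h1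
        · exact hhx h1
      have hrh1 : r * h ∈ (HomogeneousIdeal.irrelevant 𝒜).toIdeal := Ideal.mul_mem_left _ _ hh
      obtain ⟨i, hi⟩ : ∃ i, ((DirectSum.decompose 𝒜 (r * h) i : 𝒜 i) : A) ∉
          (ProjectiveSpectrum.asHomogeneousIdeal x).toIdeal := by
        by_contra hcon
        push Not at hcon
        apply hrh
        rw [← DirectSum.sum_support_decompose 𝒜 (r * h)]
        exact Ideal.sum_mem _ fun i _ => hcon i
      have hi0 : i ≠ 0 := by
        rintro rfl
        apply hi
        have : ((DirectSum.decompose 𝒜 (r * h) 0 : 𝒜 0) : A) = 0 :=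
          (HomogeneousIdeal.mem_irrelevant_iff 𝒜 _).1 hrh1
        rw [this]
        exact zero_mem _
      refine ⟨i, _, Nat.pos_of_ne_zero hi0, SetLike.coe_mem (DirectSum.decompose 𝒜 (r * h) i), ?_, ?_⟩
      · intro h0
        apply hi
        rw [h0]
        exact zero_mem _
      · refine subset_trans ?_ hrU
        intro y hy
        have h1 : y ∈ Proj.basicOpen 𝒜 (r * h) := by
          rw [Proj.basicOpen_eq_iSup_proj]
          exact TopologicalSpace.Opens.mem_iSup.2 ⟨i, hy⟩
        rw [Proj.basicOpen_mul] at h1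
        exact h1.1
    have hirr : IrreducibleSpace (Proj 𝒜) := by
      have hne' : Nonempty (Proj 𝒜) := by
        obtain ⟨i, hi⟩ : ∃ i, ((DirectSum.decompose 𝒜 f i : 𝒜 i) : A) ≠ 0 := by
          by_contra hcon
          push Not at hcon
          apply hf0
          rw [← DirectSum.sum_support_decompose 𝒜 f]
          exact Finset.sum_eq_zero fun i _ => hcon i
        have hi0 : i ≠ 0 := by
          rintro rfl
          exact hi ((HomogeneousIdeal.mem_irrelevant_iff 𝒜 _).1 hf)
        have := hne (Nat.pos_of_ne_zero hi0) (SetLike.coe_mem (DirectSum.decompose 𝒜 f i)) hi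
        obtain ⟨y, _⟩ := (TopologicalSpace.Opens.ne_bot_iff_nonempty _).1 this
        exact ⟨y⟩
      have hpre : PreirreducibleSpace (Proj 𝒜) := by
        constructor
        rintro U V hU hV ⟨x, -, hx⟩ ⟨y, -, hy⟩
        obtain ⟨d, g, hd, hg, hg0, hgU⟩ := hcomp hU ⟨x, hx⟩
        obtain ⟨d', g', hd', hg', hg0', hgV⟩ := hcomp hV ⟨y, hy⟩
        have hgg : g * g' ≠ 0 := fun h0 =>
          (hmul g (mem_irrelevant_of_mem 𝒜 hd hg) g' (mem_irrelevant_of_mem 𝒜 hd' hg') h0).elim
            hg0 hg0'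
        have hdd : g * g' ∈ 𝒜 (d + d') := SetLike.mul_mem_graded hg hg'
        obtain ⟨z, hz⟩ := (TopologicalSpace.Opens.ne_bot_iff_nonempty _).1
          (hne (Nat.add_pos_left hd d') hdd hgg)
        rw [Proj.basicOpen_mul] at hz
        exact ⟨z, Set.mem_univ _, hgU hz.1, hgV hz.2⟩
      exact ⟨hne'⟩
    exact isIntegral_of_irreducibleSpace_of_isReduced _

end Groth.Agent.S3557
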