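import Groth.Statements.S3558
import Groth.Agent.Ega2.H270.ProjCover

set_option autoImplicit false
universe u
open CategoryTheory CategoryTheory.Limits AlgebraicGeometry
open EGA2

namespace Groth.Agent.S3558

/-- For a graded ring S, Proj S is empty if and only if every element of the irrelevant ideal S_+ is
nilpotent. -/
theorem result {R A : Type u} [CommRing R] [CommRing A] [Algebra R A] (𝒜 : ℕ → Submodule R A) [GradedAlgebra 𝒜] :
    IsEmpty (Proj 𝒜) ↔ ∀ f ∈ (HomogeneousIdeal.irrelevant 𝒜).toIdeal, IsNilpotent f := by
  exact Groth.Agent.Ega2.H270.ProjCover.proj_isEmpty_iff 𝒜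

end Groth.Agent.S3558
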