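import Groth.Statements.S3560
import Groth.Agent.Ega2.H270.ProjCover

set_option autoImplicit false
universe u
open CategoryTheory CategoryTheory.Limits AlgebraicGeometry
open EGA2

namespace Groth.Agent.S3560

/-- Let S be a graded ring whose irrelevant ideal S_+ is finitely generated. Then Proj S is empty if and
only if there is n such that S_k = 0 for all k ≥ n. -/
theorem result {R A : Type u} [CommRing R] [CommRing A] [Algebra R A] (𝒜 : ℕ → Submodule R A) [GradedAlgebra 𝒜]
    (hfg : (HomogeneousIdeal.irrelevant 𝒜).toIdeal.FG) :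
    IsEmpty (Proj 𝒜) ↔ ∃ n : ℕ, ∀ k : ℕ, n ≤ k → 𝒜 k = ⊥ := by
  rw [Groth.Agent.Ega2.H270.ProjCover.proj_isEmpty_iff_eventually_zero 𝒜 hfg]
  simp only [Submodule.eq_bot_iff]

end Groth.Agent.S3560
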