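import Groth.Statements.S3561
import Groth.Agent.Ega2.H271.TildeFT

set_option autoImplicit false
universe u
open CategoryTheory CategoryTheory.Limits AlgebraicGeometry
open EGA2

namespace Groth.Agent.S3561

/-- Let S be a graded ring whose irrelevant ideal S_+ is finitely generated, and M a graded S-module
satisfying (TF): for some n the submodule generated by the homogeneous elements of degree at least n
is a finitely generated S-module. Then the O_X-module M~ on X = Proj S is of finite type. -/
theorem result {R A : Type u} [CommRing R] [CommRing A] [Algebra R A] (𝒜 : ℕ → Submodule R A) [GradedAlgebra 𝒜]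
    (hfg : (HomogeneousIdeal.irrelevant 𝒜).toIdeal.FG)
    {M : Type u} [AddCommGroup M] [Module R M] [Module A M] [IsScalarTower R A M] (ℳ : ℕ → Submodule R M) [DirectSum.Decomposition ℳ] [SetLike.GradedSMul 𝒜 ℳ]
    (hTF : ∃ n : ℕ, (Submodule.span A (⋃ k ∈ Set.Ici n, (ℳ k : Set M))).FG) :
    CohB1.IsFT (GrTilde.tilde 𝒜 ℳ 0) := by
  exact Groth.Agent.Ega2.H271.TildeFT.isFT_tilde hfg hTF

end Groth.Agent.S3561
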