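import Groth.Statements.S3562
import Groth.Agent.S3548
import Groth.Agent.S3549
import Groth.Agent.Ega2.H272.GrTail

set_option autoImplicit false
universe u
open CategoryTheory CategoryTheory.Limits AlgebraicGeometry
open EGA2

namespace Groth.Agent.S3562

/-- Let S be a graded ring whose irrelevant ideal S_+ is finitely generated and generated by the
degree-one elements, and M a graded S-module satisfying (TF) (some tail of M generates a finitely
generated submodule). Then M~ = 0 on Proj S if and only if M satisfies (TN): M_k = 0 for all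
sufficiently large k. (The published statement assumes only that S_+ is finitely generated; the
statement then fails when S_+ has no system of degree-one generators, e.g. S = k[t] with t of degree
2 and M = S shifted into odd degrees, whose M~ vanishes although no M_k does. Stated here with S_+
generated by degree-one elements, where the published proof applies.) -/
theorem result {R A : Type u} [CommRing R] [CommRing A] [Algebra R A] (𝒜 : ℕ → Submodule R A) [GradedAlgebra 𝒜]
    (hfg : (HomogeneousIdeal.irrelevant 𝒜).toIdeal.FG)
    (hgen : (HomogeneousIdeal.irrelevant 𝒜).toIdeal = Ideal.span (𝒜 1 : Set A))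
    {M : Type u} [AddCommGroup M] [Module R M] [Module A M] [IsScalarTower R A M] (ℳ : ℕ → Submodule R M) [DirectSum.Decomposition ℳ] [SetLike.GradedSMul 𝒜 ℳ]
    (hTF : ∃ n : ℕ, (Submodule.span A (⋃ k ∈ Set.Ici n, (ℳ k : Set M))).FG) :
    IsZero (GrTilde.tilde 𝒜 ℳ 0) ↔ ∃ n : ℕ, ∀ k : ℕ, n ≤ k → ℳ k = ⊥ := by
  constructor
  · intro h
    obtain ⟨n, hn⟩ := hTF
    exact Groth.Agent.Ega2.H272.GrTail.eventually_zero 𝒜 ℳ hfg hgen hn
      (fun z f hf => Groth.Agent.S3549.result 𝒜 hgen ℳ h z 1 f one_pos hf)
  · rintro ⟨n, hn⟩
    exact Groth.Agent.S3548.result 𝒜 ℳ fun z d f hd hf =>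
      ⟨n, Groth.Agent.Ega2.H272.GrTail.nilpotent_of_eventually_zero 𝒜 ℳ hn z hd hf⟩

end Groth.Agent.S3562
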