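import Groth.Statements.S3563
import Groth.Agent.Sga5.ProjSurj

set_option autoImplicit false
universe u
open CategoryTheory CategoryTheory.Limits AlgebraicGeometry
open EGA2

namespace Groth.Agent.S3563

/-- Let φ : S → S' be a surjective homomorphism of graded rings (graded algebras over a base ring R).
Then the induced morphism Proj S' → Proj S is defined everywhere and is a closed immersion. The
hypothesis that the irrelevant ideal of S' is contained in the extension of the irrelevant ideal of
S, needed to define the morphism on all of Proj S', is carried explicitly; it follows from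
surjectivity. This is the case of a surjective φ; the published statement is more general. -/
theorem result {R A : Type u} [CommRing R] [CommRing A] [Algebra R A] (𝒜 : ℕ → Submodule R A) [GradedAlgebra 𝒜]
    {B : Type u} [CommRing B] [Algebra R B] (ℬ : ℕ → Submodule R B) [GradedAlgebra ℬ]
    (φ : 𝒜 →+*ᵍ ℬ) (hsurj : Function.Surjective φ)
    (hφ : HomogeneousIdeal.irrelevant ℬ ≤ (HomogeneousIdeal.irrelevant 𝒜).map φ) :
    IsClosedImmersion (Proj.map φ hφ) := by
  refine Groth.Agent.Sga5.ProjSurj.isClosedImmersion_map hφ ?_
  intro i b hb
  obtain ⟨a, rfl⟩ := hsurj b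
  refine ⟨GradedRing.proj 𝒜 i a, SetLike.coe_mem _, ?_⟩
  rw [GradedRing.proj_apply, map_directSumDecompose 𝒜 ℬ]
  exact DirectSum.decompose_of_mem_same ℬ hb

end Groth.Agent.S3563
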