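import Groth.Statements.S3564
import Groth.Agent.Ega2.H291.ProjClosed

set_option autoImplicit false
universe u
open CategoryTheory CategoryTheory.Limits AlgebraicGeometry
open EGA2

namespace Groth.Agent.S3564

/-- Let S be a graded ring whose irrelevant ideal S_+ is generated by finitely many elements of degree
one, X = Proj S, and Z → X a closed immersion. Then Z is X-isomorphic to Proj S' for a graded
quotient S' of S (a surjective homomorphism of graded rings S → S'), the isomorphism being
compatible with the morphism Proj S' → X induced by the quotient map. (The source moreover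
identifies the kernel: the largest graded ideal with this property, the inverse image of Γ_*(J)
under α; that description is not stated here.) -/
theorem result {R A : Type u} [CommRing R] [CommRing A] [Algebra R A] (𝒜 : ℕ → Submodule R A) [GradedAlgebra 𝒜]
    (s : Finset A) (hs1 : ∀ f ∈ s, f ∈ 𝒜 1)
    (hs : (HomogeneousIdeal.irrelevant 𝒜).toIdeal = Ideal.span (s : Set A))
    {Z : Scheme.{u}} (i : Z ⟶ Proj 𝒜) [IsClosedImmersion i] :
    ∃ (B : Type u) (_ : CommRing B) (_ : Algebra R B) (ℬ : ℕ → Submodule R B) (_ : GradedAlgebra ℬ)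
      (φ : 𝒜 →+*ᵍ ℬ) (_ : Function.Surjective φ)
      (hφ : HomogeneousIdeal.irrelevant ℬ ≤ (HomogeneousIdeal.irrelevant 𝒜).map φ)
      (e : Z ≅ Proj ℬ), e.hom ≫ Proj.map φ hφ = i := by
  have hcov : (HomogeneousIdeal.irrelevant 𝒜).toIdeal ≤ Ideal.span (Set.range fun f : s => (f : A)) := by
    rw [hs, Subtype.range_coe_subtype]
    exact le_of_eq (by congr 1)
  obtain ⟨e, he⟩ := Groth.Agent.Ega2.H291.ProjClosed.exists_iso (fun f : s => (f : A)) (fun f => hs1 f.1 f.2) hcov i
  exact ⟨_, _, _, _, _, _, Groth.Agent.Ega2.H291.QuotGr.mkHom_surjective 𝒜 _, _, e, he⟩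

end Groth.Agent.S3564
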