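import Groth.Statements.S3565
import Groth.Agent.Ega2.H275.RelDesc

set_option autoImplicit false
universe u
open CategoryTheory CategoryTheory.Limits AlgebraicGeometry
open EGA2

namespace Groth.Agent.S3565

/-- Let f : X → Y be a quasi-compact morphism, g : X' → X a finite surjective morphism such that the
direct image of the structure sheaf of X' is a finite locally free O_X-module, and L an invertible
O_X-module. Then L is ample relative to f if and only if its inverse image on X' is ample relative
to f ∘ g. -/
theorem result {X X' Y : Scheme.{u}} (f : X ⟶ Y) [QuasiCompact f]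
    (g : X' ⟶ X) [IsFinite g] [Surjective g]
    (hfree : FlatMod.IsFinLocFree ((Coh.push g).obj (Coh.structureModule X')))
    (L : X.Modules) (hL : PicF.IsInvertible L) :
    RelAmple.IsRelAmple f L ↔ RelAmple.IsRelAmple (g ≫ f) ((Scheme.Modules.pullback g).obj L) := by
  exact Groth.Agent.Ega2.H275.RelDesc.isRelAmple_iff f g
    (fun x => Groth.Agent.Ega2.H275.FrameNorm.exists_fr hfree x) L hL

end Groth.Agent.S3565
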