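import Groth.Statements.S3566
import Groth.Agent.Smoothlim.AmpleBasis

set_option autoImplicit false
universe u
open CategoryTheory CategoryTheory.Limits AlgebraicGeometry
open EGA2

namespace Groth.Agent.S3566

open Groth.Agent.Ega4dA.GenSec Groth.Agent.Smoothlim.PowSec Groth.Agent.Smoothlim.PowGlue
open Groth.Agent.Smoothlim.AmpleBasis

/-- The locus where a section generates, in terms of the associated global section. -/
theorem gl_sec {X : Scheme.{u}} {M : X.Modules} (s : Coh.structureModule X ⟶ M) :
    gl (sec s) = CohB1.genLocus M s := by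
  apply le_antisymm
  · rw [le_genLocus_iff, ← le_gl_iff]
  · rw [le_gl_iff, ← le_genLocus_iff]

/-- Let X be a quasi-compact separated scheme (the published statement also allows a prescheme with
Noetherian underlying space) and L an invertible O_X-module. Then L is ample, i.e. the affine ones
among the opens X_s (s a global section of a positive tensor power of L, X_s the locus where s
generates) cover X, if and only if all the opens X_s form a base of the topology of X. -/
theorem result (X : Scheme.{u}) [CompactSpace X] [X.IsSeparated]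
    (L : X.Modules) (hL : PicF.IsInvertible L) :
    CohB1.IsAmple L ↔
      TopologicalSpace.IsTopologicalBasis
        {U : Set X | ∃ (n : ℕ) (s : Coh.structureModule X ⟶ CohB1.tensorPow L (n + 1)),
          U = (CohB1.genLocus (CohB1.tensorPow L (n + 1)) s : Set X)} := by
  constructor
  · intro hA
    obtain ⟨ι, hι, D, hD, s, haff, hcov⟩ := exists_common hA
    refine TopologicalSpace.isTopologicalBasis_of_isOpen_of_nhds ?_ ?_
    · rintro U ⟨n, t, rfl⟩
      exact (CohB1.genLocus _ t).isOpen
    · intro x U hx hU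
      obtain ⟨i, hi⟩ := hcov x
      obtain ⟨f, hf, hxf⟩ := (haff i).exists_basicOpen_le
        (V := ⟨U, hU⟩) ⟨x, hx⟩ hi
      obtain ⟨n, hn, t, ht⟩ := exists_section_gl_eq hL hD s haff hcov i f
      obtain ⟨m, rfl⟩ := Nat.exists_eq_succ_of_ne_zero hn
      refine ⟨_, ⟨m, homOfSec _ t, rfl⟩, ?_, ?_⟩
      · change x ∈ gl t
        rw [ht]
        exact hxf
      · change ((gl t : X.Opens) : Set X) ⊆ U
        rw [ht]
        exact hf
  · intro hB
    refine ⟨hL, inferInstance, fun x => ?_⟩
    obtain ⟨U, e, hxU, he⟩ : ∃ (U : X.Opens) (e : Γ(L, U)), x ∈ U ∧ IsGen L U e := by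
      obtain ⟨U, -, hxU, e, he⟩ := exists_gen_le (U := ⊤) hL x trivial
      exact ⟨U, e, hxU, he⟩
    obtain ⟨_, ⟨U', hU', rfl⟩, hxU', hUU'⟩ :=
      X.isBasis_affineOpens.exists_subset_of_mem_open hxU U.2
    have hle : U' ≤ U := hUU'
    obtain ⟨V, ⟨n, s, rfl⟩, hxV, hVU⟩ := hB.exists_subset_of_mem_open hxU' U'.2
    have hVU' : CohB1.genLocus _ s ≤ U' := hVU
    refine ⟨n, s, hxV, ?_⟩
    have hg := isGen_powSec (he.mono hle) (n + 1)
    obtain ⟨a, ha⟩ := hg.exists_eq' (res _ le_top (sec s))
    have h1 := genLocus_inf_eq_basicOpen s hg a ha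
    rw [inf_eq_left.mpr hVU'] at h1
    rw [h1]
    exact IsAffineOpen.basicOpen hU' a

end Groth.Agent.S3566
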