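import Groth.Statements.S3567
-- import your own Groth.Agent.* helpers here

set_option autoImplicit false
universe u
open CategoryTheory CategoryTheory.Limits AlgebraicGeometry
open EGA2

namespace Groth.Agent.S3567


section Aux

variable {U V W : Scheme.{u}} (h : U ⟶ V) [hc : IsIso h.c]

instance isIso_app (O : V.Opens) : IsIso (h.app O) := inferInstanceAs (IsIso (h.c.app (Opposite.op O)))

omit hc in
theorem pre_eq (w : U ⟶ W) (vb : V.carrier ⟶ W.carrier) (hb : h.base ≫ vb = w.base) (O : W.Opens) :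
    h ⁻¹ᵁ ((TopologicalSpace.Opens.map vb).obj O) = w ⁻¹ᵁ O := by
  rw [← hb]; rfl

/-- The descended sheaf map. -/
noncomputable def vc (w : U ⟶ W) (vb : V.carrier ⟶ W.carrier) (hb : h.base ≫ vb = w.base) :
    W.presheaf ⟶ (TopCat.Presheaf.pushforward _ vb).obj V.presheaf where
  app O := w.appLE O.unop (h ⁻¹ᵁ ((TopologicalSpace.Opens.map vb).obj O.unop)) (pre_eq h w vb hb O.unop).le ≫
    inv (h.app ((TopologicalSpace.Opens.map vb).obj O.unop))
  naturality O O' i := by
    rw [← cancel_mono (h.app ((TopologicalSpace.Opens.map vb).obj O'.unop))]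
    have h1 := h.naturality (((TopologicalSpace.Opens.map vb).map i.unop).op)
    simp only [Category.assoc, IsIso.inv_hom_id, Category.comp_id]
    change _ = _ ≫ _ ≫ V.presheaf.map (((TopologicalSpace.Opens.map vb).map i.unop).op) ≫ _
    rw [h1, IsIso.inv_hom_id_assoc, Scheme.Hom.appLE_map]
    exact Scheme.Hom.map_appLE _ _ _

/-- The descended morphism of presheafed spaces. -/
noncomputable def vP (w : U ⟶ W) (vb : V.carrier ⟶ W.carrier) (hb : h.base ≫ vb = w.base) :
    V.toPresheafedSpace ⟶ W.toPresheafedSpace where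
  base := vb
  c := vc h w vb hb

theorem vP_comp (w : U ⟶ W) (vb : V.carrier ⟶ W.carrier) (hb : h.base ≫ vb = w.base) :
    (h.toHom ≫ vP h w vb hb : U.toPresheafedSpace ⟶ W.toPresheafedSpace) = w.toHom := by
  refine PresheafedSpace.ext _ _ hb ?_
  refine TopCat.Presheaf.ext (fun O => ?_)
  have h1 : (vc h w vb hb).app (Opposite.op O) ≫ h.app ((TopologicalSpace.Opens.map vb).obj O) =
      w.appLE O (h ⁻¹ᵁ ((TopologicalSpace.Opens.map vb).obj O)) (pre_eq h w vb hb O).le := by
    simp [vc]
  have key : ∀ i : Opposite.op (h ⁻¹ᵁ ((TopologicalSpace.Opens.map vb).obj O)) ⟶ Opposite.op (w ⁻¹ᵁ O),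
      ((vc h w vb hb).app (Opposite.op O) ≫ h.app ((TopologicalSpace.Opens.map vb).obj O)) ≫
        U.presheaf.map i = w.app O := by
    intro i
    rw [h1, Scheme.Hom.appLE_map, Scheme.Hom.appLE_eq_app]
  exact key _

end Aux

/-- Let h : U → V be a surjective morphism of schemes such that the map of sheaves of rings O_V → h_*O_U
is an isomorphism and the underlying space of V carries the quotient topology of that of U. Then for
every scheme W, composition with h is a bijection from the morphisms V → W onto the morphisms U → W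
whose underlying map is constant on each fibre of h. -/
theorem result {U V : Scheme.{u}} (h : U ⟶ V) [Surjective h]
    [IsIso h.c] (hq : Topology.IsQuotientMap h.base) (W : Scheme.{u}) :
    (∀ v₁ v₂ : V ⟶ W, h ≫ v₁ = h ≫ v₂ → v₁ = v₂) ∧
      ∀ u : U ⟶ W, (∀ x y : U, h.base x = h.base y → u.base x = u.base y) → ∃ v : V ⟶ W, h ≫ v = u := by
  refine ⟨fun v₁ v₂ e => ?_, fun w hw => ?_⟩
  · have hb : v₁.base = v₂.base := by
      ext y
      obtain ⟨x, rfl⟩ := h.surjective y
      exact congrArg (fun t : U ⟶ W => t.base x) e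
    refine Scheme.Hom.ext hb (fun O => ?_)
    rw [← cancel_mono (h.app (v₂ ⁻¹ᵁ O))]
    have h1 : ∀ (v : V ⟶ W) (P : V.Opens) (e : P ≤ v ⁻¹ᵁ O),
        v.appLE O P e ≫ h.app P = (h ≫ v).appLE O (h ⁻¹ᵁ P) (h.preimage_mono e) := by
      intro v P e
      rw [Scheme.Hom.comp_appLE, Scheme.Hom.appLE, Category.assoc, h.naturality]
      rfl
    change v₁.appLE O (v₂ ⁻¹ᵁ O) (le_of_eq (by rw [hb])) ≫ _ = _
    rw [h1, Scheme.Hom.app_eq_appLE (f := v₂), h1]
    congr 1
  · obtain ⟨vb, hvb⟩ : ∃ vb : V.carrier ⟶ W.carrier, h.base ≫ vb = w.base := by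
      refine ⟨TopCat.ofHom (hq.lift (f := h.base.hom) w.base.hom hw), ?_⟩
      ext x
      exact DFunLike.congr_fun (hq.lift_comp (f := h.base.hom) w.base.hom hw) x
    have hP := vP_comp h w vb hvb
    refine ⟨⟨⟨vP h w vb hvb, fun y => ?_⟩⟩, ?_⟩
    · obtain ⟨x, rfl⟩ := h.surjective y
      have h1 := PresheafedSpace.stalkMap.comp (h.toHom : U.toPresheafedSpace ⟶ V.toPresheafedSpace) (vP h w vb hvb) x
      have h3 : ∀ x, IsLocalHom (PresheafedSpace.Hom.stalkMap (h.toHom ≫ vP h w vb hvb : U.toPresheafedSpace ⟶ W.toPresheafedSpace) x).hom := by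
        rw [hP]
        exact w.prop
      have h4 := h3 x
      rw [h1] at h4
      refine ⟨fun a ha => ?_⟩
      have h5 : IsUnit ((PresheafedSpace.Hom.stalkMap (vP h w vb hvb) (h x) ≫
        PresheafedSpace.Hom.stalkMap (h.toHom : U.toPresheafedSpace ⟶ V.toPresheafedSpace) x).hom a) := by
        rw [CommRingCat.hom_comp, RingHom.comp_apply]
        exact ha.map _
      exact h4.map_nonunit a h5
    · exact Scheme.Hom.ext' (LocallyRingedSpace.Hom.ext' hP)

end Groth.Agent.S3567
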