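import Groth.Statements.S3568
import Groth.Agent.Ega2.H277.UnivHomeo
-- import your own Groth.Agent.* helpers here

set_option autoImplicit false
universe u
open CategoryTheory CategoryTheory.Limits AlgebraicGeometry
open EGA2

namespace Groth.Agent.S3568

/-- Let U be an integral scheme, V a normal integral scheme (all local rings integrally closed domains)
and h : U → V a morphism which is universally closed, radicial (universally injective) and
birational (it sends the generic point of U to that of V and induces an isomorphism of the residue
fields there). Then h is an isomorphism. (The source assumes only V normal; integrality of V, needed
here to speak of its generic point, follows from the other hypotheses.) -/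
theorem result {U V : Scheme.{u}} [AlgebraicGeometry.IsIntegral U] [AlgebraicGeometry.IsIntegral V]
    (hN : Pi1.IsNormalScheme V) (h : U ⟶ V) [UniversallyClosed h]
    [UniversallyInjective h] (hgen : h.base (genericPoint U) = genericPoint V)
    (hbir : Function.Bijective (h.residueFieldMap (genericPoint U)).hom) :
    IsIso h := by
  have := Ega2.H277.UnivHomeo.isIntegralHom_of_universallyClosed_of_universallyInjective h
  obtain ⟨t, ht⟩ := Ega2.H277.UnivHomeo.exists_functionField_section h (genericPoint U) hgen hbir
  exact Ega2.Normal.isIso_of_functionField_section hN h t ht

end Groth.Agent.S3568
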