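import Groth.Statements.S3569
import Groth.Agent.Ega2.H278.AlgOf

set_option autoImplicit false
universe u
open CategoryTheory CategoryTheory.Limits AlgebraicGeometry
open EGA2

namespace Groth.Agent.S3569

/-- Let f : X → S be an affine morphism and g : Y → S any morphism. Then h ↦ A(h) = f_*(h^♯) is a
bijection from the set of S-morphisms Y → X onto the set of O_S-algebra homomorphisms f_*O_X →
g_*O_Y (morphisms of sheaves of rings compatible with the structure maps from O_S). -/
theorem result {X Y S : Scheme.{u}} (f : X ⟶ S) [IsAffineHom f] (g : Y ⟶ S) :
    Function.Bijective (AffAlg.algOf f g) := by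
  exact Groth.Agent.Ega2.H278.AlgOf.bijective f g

end Groth.Agent.S3569
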