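import Groth.Statements.S3570
import Mathlib.AlgebraicGeometry.Morphisms.Affine
import Mathlib.AlgebraicGeometry.Morphisms.Separated

set_option autoImplicit false
universe u
open CategoryTheory CategoryTheory.Limits AlgebraicGeometry
open EGA2

namespace Groth.Agent.S3570

open TopologicalSpace Opposite

theorem isIso_of_app {X Y S : Scheme.{u}} (f : X ⟶ S) [IsAffineHom f] (h : Y ⟶ X)
    [IsAffineHom (h ≫ f)]
    (H : ∀ U : S.Opens, IsIso (h.app (f ⁻¹ᵁ U))) : IsIso h := by
  have : IsAffineHom h := IsAffineHom.of_comp h f
  have key := (IsZariskiLocalAtTarget.iff_of_iSup_eq_top (P := MorphismProperty.isomorphisms Scheme.{u})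
    (f := h) (fun U : S.affineOpens => f ⁻¹ᵁ U.1) (by
      have h1 := iSup_affineOpens_eq_top S
      ext x
      simp only [Opens.coe_iSup, Set.mem_iUnion, Opens.coe_top, Set.mem_univ, iff_true]
      have hx : f x ∈ (⨆ U : S.affineOpens, (U : S.Opens)) := by rw [h1]; trivial
      obtain ⟨U, hU⟩ := Opens.mem_iSup.mp hx
      exact ⟨U, hU⟩)).mpr
  apply key
  intro U
  exact (isIso_morphismRestrict_iff_isIso_app h (U.2.preimage f)).mpr (H U.1)

/-- Let f : X → S and g : Y → S be affine morphisms and h : Y → X an S-morphism. Then h is an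
isomorphism if and only if A(h) : f_*O_X → g_*O_Y is an isomorphism (of presheaves of rings on S). -/
theorem result {X Y S : Scheme.{u}} (f : X ⟶ S) [IsAffineHom f] (g : Y ⟶ S)
    [IsAffineHom g] (h : Y ⟶ X) (w : h ≫ f = g) :
    IsIso h ↔ IsIso (AffAlg.algHom f g h w) := by
  subst w
  constructor
  · intro hh
    have : IsIso h.c := inferInstance
    unfold AffAlg.algHom
    infer_instance
  · intro hh
    have h2 : IsIso ((TopCat.Presheaf.pushforward CommRingCat.{u} f.base).map h.c) := by
      have : AffAlg.algHom f (h ≫ f) h rfl =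
        (TopCat.Presheaf.pushforward CommRingCat.{u} f.base).map h.c := by
        simp [AffAlg.algHom]
        exact Category.comp_id _
      rwa [this] at hh
    apply isIso_of_app f h
    intro U
    have := NatIso.isIso_app_of_isIso ((TopCat.Presheaf.pushforward CommRingCat.{u} f.base).map h.c) (op U)
    exact this

end Groth.Agent.S3570
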