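import Groth.Statements.S3571
import Groth.Agent.Ega2.H280.RelSpecAlg

set_option autoImplicit false
universe u
open CategoryTheory AlgebraicGeometry TopologicalSpace
open EGA2

namespace Groth.Agent.S3571

/-- Let S be a scheme and B a sheaf of commutative rings on S with a morphism O_S → B making B a
quasi-coherent O_S-module (a quasi-coherent O_S-algebra). Then there are a scheme X and an affine
morphism f : X → S together with an isomorphism of sheaves of rings B ≅ f_*O_X compatible with the
two structure maps from O_S (X is the relative spectrum of B; it is in fact unique up to unique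
S-isomorphism, but only existence is asserted here). -/
theorem result {S : Scheme.{u}}
    (B : Sheaf (Opens.grothendieckTopology S) CommRingCat.{u}) (φ : S.sheaf ⟶ B)
    (hB : Coh.IsQCoh ((SheafOfModules.restrictScalars
      ((sheafCompose (Opens.grothendieckTopology S) (forget₂ CommRingCat.{u} RingCat.{u})).map φ)).obj
      (SheafOfModules.unit ((sheafCompose (Opens.grothendieckTopology S) (forget₂ CommRingCat.{u} RingCat.{u})).obj B)))) :
    ∃ (X : Scheme.{u}) (f : X ⟶ S) (_ : IsAffineHom f)
      (e : B ≅ (TopCat.Sheaf.pushforward CommRingCat.{u} f.base).obj X.sheaf),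
      (φ ≫ e.hom).hom = f.c := by
  exact Groth.Agent.Ega2.H280.RelSpecAlg.exists_relSpec B φ hB

end Groth.Agent.S3571
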