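import Groth.Statements.S3572
import Groth.Agent.Ega2.H18.PnExist

set_option autoImplicit false
universe u
open CategoryTheory CategoryTheory.Limits AlgebraicGeometry
open EGA2

namespace Groth.Agent.S3572

/-- Existence part of the universal property of projective n-space over an affine base Spec R (the
published statement is for P(E) with E an arbitrary quasi-coherent module; here E is the free module
of rank n+1, so that P(E) is projective n-space over R): let X be a scheme over R, L an invertible
O_X-module and s_0, …, s_n global sections of L generating L. Then there is an R-morphism r from X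
to projective n-space over R and an isomorphism r^*O(1) ≅ L carrying the inverse image of the
coordinate T_i to s_i for every i. -/
theorem result {R : Type u} [CommRing R] (n : ℕ) {X : Scheme.{u}}
    (q : X ⟶ Spec (CommRingCat.of R)) (L : X.Modules) (hL : PicF.IsInvertible L)
    (s : Fin (n + 1) → ProjUP.Γm L) (hs : ProjUP.GeneratedBy L s) :
    ∃ (r : X ⟶ CohB1.ProjSpace n R) (_ : r ≫ CohB1.ProjSpace.toSpec n R = q)
      (τ : (Scheme.Modules.pullback r).obj (Twist.twistProjSpace n R 1) ≅ L),
      ∀ i, τ.hom.app ⊤ (ProjUP.pullSec r (Twist.twistProjSpace n R 1) (ProjUP.coord n R i)) = s i := by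
  exact Groth.Agent.Ega2.H18.PnExist.exists_map n q L s
    (Groth.Agent.Ega2.H18.PnExist.iSup_genLocus_eq_top hL s hs)

end Groth.Agent.S3572
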