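import Groth.Statements.S3573
import Groth.Agent.Ega2.H295.PnExt
-- import your own Groth.Agent.* helpers here

set_option autoImplicit false
universe u
open CategoryTheory CategoryTheory.Limits AlgebraicGeometry
open EGA2

namespace Groth.Agent.S3573

/-- Let R be a commutative ring, X a scheme, and r, r' : X → P^n_R two morphisms over Spec R. If there
is an isomorphism τ : r^*O(1) ≅ r'^*O(1) carrying, for each i = 0, …, n, the pullback under r of the
coordinate section T_i of O(1) to its pullback under r', then r = r'. (Stated here for projective
n-space over an affine base Spec R, that is, for a free module of rank n + 1; the published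
statement is for the projective bundle of a more general module over a general base.) -/
theorem result {R : Type u} [CommRing R] (n : ℕ) {X : Scheme.{u}}
    (r r' : X ⟶ CohB1.ProjSpace n R) (hrr' : r ≫ CohB1.ProjSpace.toSpec n R = r' ≫ CohB1.ProjSpace.toSpec n R)
    (τ : (Scheme.Modules.pullback r).obj (Twist.twistProjSpace n R 1) ≅
      (Scheme.Modules.pullback r').obj (Twist.twistProjSpace n R 1))
    (hτ : ∀ i, τ.hom.app ⊤ (ProjUP.pullSec r (Twist.twistProjSpace n R 1) (ProjUP.coord n R i)) =
      ProjUP.pullSec r' (Twist.twistProjSpace n R 1) (ProjUP.coord n R i)) :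
    r = r' :=
  Groth.Agent.Ega2.H295.PnExt.ext_of_hom r r' hrr' τ.hom hτ

end Groth.Agent.S3573
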