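import Groth.Statements.S3574
import Groth.Agent.Ega2.H283.ConeRetr

set_option autoImplicit false
universe u
open CategoryTheory CategoryTheory.Limits AlgebraicGeometry
open EGA2

namespace Groth.Agent.S3574

/-- Let S be an ℕ-graded algebra over a ring, C = Spec S its affine cone, E = C − V(S_+) the pointed
affine cone and X = Proj S. Then there is exactly one morphism π : E → X (the canonical retraction)
whose restriction to each chart Spec S_f of E, for f homogeneous of positive degree, is the
composite Spec S_f → Spec S_(f) ≅ D_+(f) ⊆ X induced by the inclusion S_(f) → S_f. The published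
statement is not limited to an affine base. -/
theorem result {R A : Type u} [CommRing R] [CommRing A] [Algebra R A] (𝒜 : ℕ → Submodule R A) [GradedAlgebra 𝒜] :
    ∃! π : (Cone.pointed 𝒜 : Scheme.{u}) ⟶ Proj 𝒜,
      ∀ (d : ℕ) (f : A) (hd : 0 < d) (hf : f ∈ 𝒜 d),
        Cone.chart hf hd ≫ π =
          Spec.map (CommRingCat.ofHom (algebraMap (HomogeneousLocalization.Away 𝒜 f) (Localization.Away f))) ≫
            Proj.awayι 𝒜 f hf hd := by
  refine ⟨Groth.Agent.Ega2.H283.ConeRetr.retr 𝒜,
    fun d f hd hf => Groth.Agent.Ega2.H283.ConeRetr.chart_retr hf hd, fun π' hπ' => ?_⟩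
  refine Groth.Agent.Ega2.H283.ConeRetr.hom_ext_charts _ _ fun d f hd hf => ?_
  rw [hπ' d f hd hf, Groth.Agent.Ega2.H283.ConeRetr.chart_retr hf hd]

end Groth.Agent.S3574
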