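import Groth.Statements.S3575
import Groth.Agent.Ega2.H284.ConeBasic

set_option autoImplicit false
universe u
open CategoryTheory CategoryTheory.Limits AlgebraicGeometry
open EGA2

namespace Groth.Agent.S3575

/-- Let S be a commutative ℕ-graded R-algebra, E the pointed affine cone (the open complement of the
vertex V(S_+) in Spec S) and X = Proj S, and let π : E → X be the canonical retraction,
characterised (hypothesis hπ) by its agreement on each chart Spec S_f → E, f homogeneous of positive
degree, with Spec of S_(f) → S_f followed by the standard open immersion Spec S_(f) → X. Then π is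
an affine and surjective morphism; the inverse image under π of D_+(f) is the open D(f) ∩ E = D(f)
of E for every homogeneous f of positive degree; and π sends a point of E, a prime p of S not
containing S_+, to the homogeneous prime whose homogeneous elements are those of p. -/
theorem result {R A : Type u} [CommRing R] [CommRing A] [Algebra R A] (𝒜 : ℕ → Submodule R A) [GradedAlgebra 𝒜]
    (π : (Cone.pointed 𝒜 : Scheme.{u}) ⟶ Proj 𝒜)
    (hπ : ∀ (d : ℕ) (f : A) (hd : 0 < d) (hf : f ∈ 𝒜 d),
        Cone.chart hf hd ≫ π =
          Spec.map (CommRingCat.ofHom (algebraMap (HomogeneousLocalization.Away 𝒜 f) (Localization.Away f))) ≫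
            Proj.awayι 𝒜 f hf hd) :
    IsAffineHom π ∧ Surjective π ∧
      (∀ (d : ℕ) (f : A), 0 < d → f ∈ 𝒜 d →
        π ⁻¹ᵁ Proj.basicOpen 𝒜 f = (Cone.pointed 𝒜).ι ⁻¹ᵁ Cone.coneOpen f) ∧
      ∀ p : (Cone.pointed 𝒜 : Scheme.{u}),
        (π.base p).asHomogeneousIdeal = (((Cone.pointed 𝒜).ι.base p).asIdeal).homogeneousCore 𝒜 := by
  refine ⟨Groth.Agent.Ega2.H284.ConeBasic.isAffineHom hπ, Groth.Agent.Ega2.H284.ConeBasic.surjective hπ,
    fun d f hd hf => Groth.Agent.Ega2.H284.ConeBasic.preimage_basicOpen hπ hd hf,
    fun p => Groth.Agent.Ega2.H284.ConeBasic.asHomogeneousIdeal_base hπ p⟩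

end Groth.Agent.S3575
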