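import Groth.Statements.S3576
import Groth.Agent.Ega2.H285.ConeFibre

set_option autoImplicit false
universe u
open CategoryTheory CategoryTheory.Limits AlgebraicGeometry
open EGA2

namespace Groth.Agent.S3576

/-- Over an affine base Spec R: let S be a graded R-algebra whose irrelevant ideal is generated by its
degree-one elements, E the pointed affine cone of S and π : E → X = Proj S the canonical retraction
(the morphism restricting on each chart D(f), f homogeneous of positive degree, to Spec S_f → Spec
S_(f) → Proj S). Then π is of finite type, and for every point x of X the fibre of π at x is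
isomorphic over the residue field κ(x) to Spec κ(x)[T, T⁻¹]. -/
theorem result {R A : Type u} [CommRing R] [CommRing A] [Algebra R A] (𝒜 : ℕ → Submodule R A) [GradedAlgebra 𝒜]
    (hgen : (HomogeneousIdeal.irrelevant 𝒜).toIdeal = Ideal.span (𝒜 1 : Set A))
    (π : (Cone.pointed 𝒜 : Scheme.{u}) ⟶ Proj 𝒜)
    (hπ : ∀ (d : ℕ) (f : A) (hd : 0 < d) (hf : f ∈ 𝒜 d),
        Cone.chart hf hd ≫ π =
          Spec.map (CommRingCat.ofHom (algebraMap (HomogeneousLocalization.Away 𝒜 f) (Localization.Away f))) ≫
            Proj.awayι 𝒜 f hf hd)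
    (x : Proj 𝒜) :
    LocallyOfFiniteType π ∧ QuasiCompact π ∧
      ∃ e : pullback π ((Proj 𝒜).fromSpecResidueField x) ≅
          Spec (CommRingCat.of (LaurentPolynomial ((Proj 𝒜).residueField x))),
        e.hom ≫ Spec.map (CommRingCat.ofHom (algebraMap ((Proj 𝒜).residueField x)
          (LaurentPolynomial ((Proj 𝒜).residueField x)))) = pullback.snd π ((Proj 𝒜).fromSpecResidueField x) := by
  have h := Groth.Agent.Ega2.H284.ConeBasic.isAffineHom hπ
  exact ⟨Groth.Agent.Ega2.H285.ConeFibre.locallyOfFiniteType hπ hgen, inferInstance,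
    Groth.Agent.Ega2.H285.ConeFibre.fibre_iso hπ hgen x⟩

end Groth.Agent.S3576
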