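import Groth.Statements.S3577
import Groth.Agent.Ega2.H286.FreeCp
import Groth.Agent.Ega2.H286.NormGlob
import Groth.Agent.Ega2.RelAmp
import Groth.Agent.Flat2H.FamOpen

set_option autoImplicit false
universe u
open CategoryTheory CategoryTheory.Limits AlgebraicGeometry
open EGA2

namespace Groth.Agent.S3577

/-- Let Y be an affine scheme, X a Noetherian reduced scheme, f : X → Y a quasi-compact morphism and g :
X' → X a finite surjective morphism. Assume that at every point x of X either the local ring of X at
x is an integrally closed domain, or the direct image of the structure sheaf of X' is locally free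
on some open neighbourhood of x. Then an invertible O_X-module L is ample relative to f if and only
if its inverse image on X' is ample relative to f ∘ g. -/
theorem result {X X' Y : Scheme.{u}} [IsAffine Y]
    [IsNoetherian X] [IsReduced X] (f : X ⟶ Y) [QuasiCompact f] (g : X' ⟶ X) [IsFinite g] [Surjective g]
    (hW : ∀ x : X, (IsDomain (X.presheaf.stalk x) ∧ IsIntegrallyClosed (X.presheaf.stalk x)) ∨
      ∃ T : X.Opens, x ∈ T ∧ FlatMod.IsFinLocFree (((Coh.push g).obj (Coh.structureModule X')).restrict T.ι))
    (L : X.Modules) (hL : PicF.IsInvertible L) :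
    RelAmple.IsRelAmple f L ↔ RelAmple.IsRelAmple (g ≫ f) ((Scheme.Modules.pullback g).obj L) := by
  rw [Groth.Agent.Ega2.RelAmp.isRelAmple_iff_isAmple, Groth.Agent.Ega2.RelAmp.isRelAmple_iff_isAmple]
  constructor
  · intro h
    exact Groth.Agent.Flat2H.FamOpen.isAmple_pullback_of_isAffineHom g h
  · intro h
    obtain ⟨n, hn, ⟨D⟩⟩ := Groth.Agent.Ega2.H286.NormGlob.exists_normData (g := g) (by
      intro V b x hx
      rcases hW x with ⟨h1, h2⟩ | ⟨T, hxT, hT⟩
      · exact Groth.Agent.Ega2.H286.NormLE.hasCp_of_normal g b hx
      · exact Groth.Agent.Ega2.H286.FreeCp.hasCp_of_free g b hx hxT hT)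
    exact D.isAmple_of_id hn hL h

end Groth.Agent.S3577
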