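import Groth.Statements.S3578
-- import your own Groth.Agent.* helpers here

set_option autoImplicit false
universe u
open EGA2

namespace Groth.Agent.S3578

/-- Via the correspondence between closed subsets of Proj S and radical graded ideals of S_+: let S be a
graded ring and Z a closed subset of Proj S, with J = S_+ ∩ (vanishing ideal of Z). Then Z is
irreducible if and only if J is a prime ideal of the ring-without-unit S_+: J ≠ S_+ and a product of
two elements of S_+ lies in J only if one factor does. -/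
theorem result {R A : Type u} [CommRing R] [CommRing A] [Algebra R A] (𝒜 : ℕ → Submodule R A) [GradedAlgebra 𝒜]
    (Z : Set (ProjectiveSpectrum 𝒜)) (hZ : IsClosed Z) :
    IsIrreducible Z ↔
      (¬ (HomogeneousIdeal.irrelevant 𝒜).toIdeal ≤ (ProjectiveSpectrum.vanishingIdeal Z).toIdeal ∧
        ∀ f ∈ (HomogeneousIdeal.irrelevant 𝒜).toIdeal, ∀ g ∈ (HomogeneousIdeal.irrelevant 𝒜).toIdeal,
          f * g ∈ (ProjectiveSpectrum.vanishingIdeal Z).toIdeal →
            f ∈ (ProjectiveSpectrum.vanishingIdeal Z).toIdeal ∨ g ∈ (ProjectiveSpectrum.vanishingIdeal Z).toIdeal) := by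
  have hmem : ∀ a : A, a ∈ (ProjectiveSpectrum.vanishingIdeal Z).toIdeal ↔
      ∀ x ∈ Z, a ∈ x.asHomogeneousIdeal := fun a => ProjectiveSpectrum.mem_vanishingIdeal Z a
  constructor
  · rintro ⟨hne, hirr⟩
    refine ⟨?_, ?_⟩
    · obtain ⟨x, hx⟩ := hne
      intro hle
      exact x.not_irrelevant_le (fun a ha => (hmem a).mp (hle ha) x hx)
    · intro f _ g _ hfg
      have h1 : Z ⊆ ProjectiveSpectrum.zeroLocus 𝒜 {f} ∪ ProjectiveSpectrum.zeroLocus 𝒜 {g} := by
        rw [← ProjectiveSpectrum.zeroLocus_singleton_mul]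
        intro x hx
        simpa using (hmem _).mp hfg x hx
      rcases (isPreirreducible_iff_isClosed_union_isClosed.mp hirr) _ _
        (ProjectiveSpectrum.isClosed_zeroLocus 𝒜 _) (ProjectiveSpectrum.isClosed_zeroLocus 𝒜 _) h1 with h | h
      · left
        rw [hmem]
        intro x hx
        simpa using h hx
      · right
        rw [hmem]
        intro x hx
        simpa using h hx
  · rintro ⟨hne, hp⟩
    refine ⟨?_, ?_⟩
    · by_contra hempty
      apply hne
      intro a _
      rw [hmem]
      intro x hx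
      exact absurd ⟨x, hx⟩ hempty
    · rw [isPreirreducible_iff_isClosed_union_isClosed]
      intro Z₁ Z₂ h1 h2 h12
      by_contra hcon
      rw [not_or] at hcon
      obtain ⟨hn1, hn2⟩ := hcon
      obtain ⟨s₁, rfl⟩ := (ProjectiveSpectrum.isClosed_iff_zeroLocus 𝒜 Z₁).mp h1
      obtain ⟨s₂, rfl⟩ := (ProjectiveSpectrum.isClosed_iff_zeroLocus 𝒜 Z₂).mp h2
      have key : ∀ s : Set A, ¬ Z ⊆ ProjectiveSpectrum.zeroLocus 𝒜 s →
          ∃ f ∈ (HomogeneousIdeal.irrelevant 𝒜).toIdeal,
            f ∉ (ProjectiveSpectrum.vanishingIdeal Z).toIdeal ∧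
              ∀ z ∈ ProjectiveSpectrum.zeroLocus 𝒜 s, f ∈ z.asHomogeneousIdeal := by
        intro s hs
        obtain ⟨x, hx, hxs⟩ := Set.not_subset.mp hs
        have hxs' : ¬ (s ⊆ x.asHomogeneousIdeal) := hxs
        obtain ⟨f, hf, hfx⟩ := Set.not_subset.mp hxs'
        have hxi : ¬ (((HomogeneousIdeal.irrelevant 𝒜).toIdeal : Set A) ⊆
          (x.asHomogeneousIdeal.toIdeal : Set A)) := x.not_irrelevant_le
        obtain ⟨a, ha, hax⟩ := Set.not_subset.mp hxi
        refine ⟨f * a, Ideal.mul_mem_left _ _ ha, ?_, ?_⟩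
        · rw [hmem]
          intro hall
          rcases x.isPrime.mem_or_mem (hall x hx) with h | h
          · exact hfx h
          · exact hax h
        · intro z hz
          exact Ideal.mul_mem_right _ _ (hz hf)
      obtain ⟨f, hf, hfZ, hf'⟩ := key s₁ hn1
      obtain ⟨g, hg, hgZ, hg'⟩ := key s₂ hn2
      have hfg : f * g ∈ (ProjectiveSpectrum.vanishingIdeal Z).toIdeal := by
        rw [hmem]
        intro z hz
        rcases h12 hz with h | h
        · exact Ideal.mul_mem_right _ _ (hf' z h)
        · exact Ideal.mul_mem_left _ _ (hg' z h)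
      rcases hp f hf g hg hfg with h | h
      · exact hfZ h
      · exact hgZ h

end Groth.Agent.S3578
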