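import Groth.Statements.S3579
import Groth.Agent.Ega2.H287.ProjSerre

set_option autoImplicit false
universe u
open CategoryTheory CategoryTheory.Limits AlgebraicGeometry
open EGA2

namespace Groth.Agent.S3579

/-- Let S be a graded ring whose irrelevant ideal S_+ is generated by finitely many elements of degree
one, X = Proj S, and F a quasi-coherent O_X-module of finite type. Then there is n₀ such that for
every n ≥ n₀ the twist F(n) = F ⊗ O_X(n) is a quotient of a finite free module O_X^k (k depending on
n); in particular F(n) is generated by finitely many global sections. -/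
theorem result {R A : Type u} [CommRing R] [CommRing A] [Algebra R A] (𝒜 : ℕ → Submodule R A) [GradedAlgebra 𝒜]
    (s : Finset A) (hs1 : ∀ f ∈ s, f ∈ 𝒜 1)
    (hs : (HomogeneousIdeal.irrelevant 𝒜).toIdeal = Ideal.span (s : Set A))
    (F : (Proj 𝒜).Modules) (hF : Coh.IsQCoh F) (hFT : CohB1.IsFT F) :
    ∃ n₀ : ℕ, ∀ n : ℕ, n₀ ≤ n →
      ∃ (k : ℕ) (p : FlatMod.freeMod (Proj 𝒜) k ⟶ Twist.twistBy 𝒜 F (n : ℤ)), Epi p := by
  exact Groth.Agent.Ega2.H287.ProjSerre.exists_epi_freeMod_twistBy hs1 hs F ⟨hF, hFT⟩

end Groth.Agent.S3579
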