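import Groth.Statements.S3580
import Groth.Agent.Ega2.H288.VeroneseProj

set_option autoImplicit false
universe u
open CategoryTheory CategoryTheory.Limits AlgebraicGeometry
open EGA2

namespace Groth.Agent.S3580

/-- Let S be a graded ring, d > 0, and S^{(d)} the graded ring with S^{(d)}_n = S_{nd} (here: any graded
ring S' with an injective algebra homomorphism φ : S' → S carrying S'_n onto S_{nd} for every n).
Then there is an isomorphism of schemes Proj S ≅ Proj S^{(d)} sending a homogeneous prime p to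
φ⁻¹(p), and which over each standard open D_+(g), g ∈ S'_n with n > 0, is induced by the ring
isomorphism S'_(g) ≅ S_(φ g), b/g^k ↦ φ(b)/φ(g)^k; precisely: for every ring map θ : S'_(g) → S_(φ
g) compatible with b/g^k ↦ φ(b)/φ(g)^k inside the localizations, the composite of Spec S_(φ g) →
Proj S with the isomorphism equals Spec θ followed by Spec S'_(g) → Proj S'. -/
theorem result {R A : Type u} [CommRing R] [CommRing A] [Algebra R A] (𝒜 : ℕ → Submodule R A) [GradedAlgebra 𝒜]
    {B : Type u} [CommRing B] [Algebra R B] (ℬ : ℕ → Submodule R B) [GradedAlgebra ℬ]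
    (d : ℕ) (hd : 0 < d) (φ : B →ₐ[R] A) (hφ : Function.Injective φ)
    (hdeg : ∀ n : ℕ, Submodule.map φ.toLinearMap (ℬ n) = 𝒜 (n * d)) :
    ∃ e : Proj 𝒜 ≅ Proj ℬ,
      (∀ p : Proj 𝒜, (e.hom.base p).asHomogeneousIdeal.toIdeal = Ideal.comap φ p.asHomogeneousIdeal.toIdeal) ∧
      ∀ (n : ℕ) (g : B) (hn : 0 < n) (hg : g ∈ ℬ n)
        (θ : CommRingCat.of (HomogeneousLocalization.Away ℬ g) ⟶ CommRingCat.of (HomogeneousLocalization.Away 𝒜 (φ g))),
        (algebraMap (HomogeneousLocalization.Away 𝒜 (φ g)) (Localization.Away (φ g))).comp θ.hom =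
          (Localization.awayMap φ.toRingHom g).comp
            (algebraMap (HomogeneousLocalization.Away ℬ g) (Localization.Away g)) →
        Proj.awayι 𝒜 (φ g) ((hdeg n).le (Submodule.mem_map_of_mem hg)) (Nat.mul_pos hn hd) ≫ e.hom =
          Spec.map θ ≫ Proj.awayι ℬ g hg hn := by
  refine ⟨Groth.Agent.Ega2.H288.VeroneseProj.iso 𝒜 ℬ hd φ hdeg hφ, fun p =>
    Groth.Agent.Ega2.H288.VeroneseProj.fwd_apply 𝒜 ℬ hd φ hdeg p, ?_⟩
  intro n g hn hg θ hθ
  have h1 : θ = CommRingCat.ofHom (Groth.Agent.Ega2.H288.VeroneseAlg.theta 𝒜 ℬ φ hdeg g) :=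
    CommRingCat.hom_ext (Groth.Agent.Ega2.H288.VeroneseAlg.eq_theta 𝒜 ℬ φ hdeg g θ.hom hθ)
  rw [h1]
  exact Groth.Agent.Ega2.H288.VeroneseProj.awayι_fwd 𝒜 ℬ hd φ hdeg hn g hg

end Groth.Agent.S3580
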