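import Groth.Statements.S3581
import Groth.Agent.Sga5.ProjSmooth

set_option autoImplicit false
universe u
open CategoryTheory CategoryTheory.Limits AlgebraicGeometry
open EGA2

namespace Groth.Agent.S3581

/-- Over an affine base Spec A, Proj of the graded polynomial algebra A[T] (T of degree one) is
identified with Spec A by its structure morphism: the structure morphism from projective 0-space
over A to Spec A is an isomorphism. -/
theorem result (A : Type u) [CommRing A] :
    IsIso (CohB1.ProjSpace.toSpec 0 A) := by
  have h1 : Surjective (Sga5.ProjSmooth.chart 0 A 0) := by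
    constructor
    intro x
    obtain ⟨i, hi⟩ := Sga5.ProjSmooth.exists_mem_chart 0 A x
    obtain rfl : i = 0 := Fin.eq_zero i
    exact hi
  have h2 : IsIso (Sga5.ProjSmooth.chart 0 A 0) :=
    (isIso_iff_isOpenImmersion_and_surjective _).2 ⟨inferInstance, h1⟩
  have h3 := Sga5.ProjSmooth.chart_toSpec 0 A 0
  have h4 : IsIso (CommRingCat.ofHom (MvPolynomial.C : A →+* MvPolynomial (Fin 0) A)) :=
    (ConcreteCategory.isIso_iff_bijective _).mpr
      (MvPolynomial.isEmptyRingEquiv A (Fin 0)).symm.bijective
  have h5 : IsIso (Sga5.ProjSmooth.chart 0 A 0 ≫ CohB1.ProjSpace.toSpec 0 A) := by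
    rw [h3]
    infer_instance
  exact IsIso.of_isIso_comp_left (Sga5.ProjSmooth.chart 0 A 0) _

end Groth.Agent.S3581
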