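import Groth.Statements.S3582
import Groth.Agent.Sga5.ProjSmooth

set_option autoImplicit false
universe u
open CategoryTheory CategoryTheory.Limits AlgebraicGeometry
open EGA2

namespace Groth.Agent.S3582

/-- For every scheme Y and every r ≥ 0 the structure morphism from projective r-space over Y to Y is
surjective. -/
theorem result (r : ℕ) (Y : Scheme.{u}) :
    Surjective (CohB1.ProjSpaceOver.toBase r Y) := by
  have h1 : Surjective (CohB1.ProjSpace.toSpec r (ULift.{u} ℤ)) := by
    let R : Type u := ULift.{u} ℤ
    let s : Spec (CommRingCat.of R) ⟶ CohB1.ProjSpace r R :=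
      Spec.map (CommRingCat.ofHom (MvPolynomial.eval₂Hom (RingHom.id R) (fun _ : Fin r => (0 : R)))) ≫
        Sga5.ProjSmooth.chart r R 0
    have hs : s ≫ CohB1.ProjSpace.toSpec r R = 𝟙 _ := by
      simp only [s]
      rw [Category.assoc, Sga5.ProjSmooth.chart_toSpec, ← Spec.map_comp, ← CommRingCat.ofHom_comp,
        ← Spec.map_id]
      congr 2
      apply RingHom.ext
      intro x
      simp
    constructor
    intro x
    refine ⟨s x, ?_⟩
    rw [← Scheme.Hom.comp_apply, hs]
    rfl
  exact MorphismProperty.pullback_snd _ _ h1

end Groth.Agent.S3582
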