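import Groth.Statements.S3583
import Mathlib.AlgebraicGeometry.Morphisms.ClosedImmersion

set_option autoImplicit false
universe u
open CategoryTheory AlgebraicGeometry Opposite
open EGA2

namespace Groth.Agent.S3583

theorem algHom_app {X X' S : Scheme.{u}} (f : X ⟶ S) (h : X' ⟶ X) (U : S.Opens) :
    (AffAlg.algHom f (h ≫ f) h rfl).app (op U) = h.app (f ⁻¹ᵁ U) := by
  have h1 : AffAlg.algHom f (h ≫ f) h rfl =
      (TopCat.Presheaf.pushforward CommRingCat.{u} f.base).map h.c :=
    Category.comp_id _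
  rw [h1]
  rfl

/-- In the form stated after its proof: let f : X → S and f' : X' → S be affine morphisms and h : X' → X
an S-morphism such that the O_S-algebra homomorphism A(h) : f_*O_X → f'_*O_{X'} is surjective (as a
map of quasi-coherent O_S-modules, i.e. on sections over every affine open of S). Then h is a closed
immersion. -/
theorem result {X X' S : Scheme.{u}} (f : X ⟶ S) [IsAffineHom f]
    (f' : X' ⟶ S) [IsAffineHom f'] (h : X' ⟶ X) (w : h ≫ f = f')
    (hsurj : ∀ U : S.affineOpens, Function.Surjective ((AffAlg.algHom f f' h w).app (op U.1)).hom) :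
    IsClosedImmersion h := by
  subst w
  let V : S.affineOpens → X.affineOpens := fun U => ⟨f ⁻¹ᵁ U.1, U.2.preimage f⟩
  have hV : ⨆ U, (V U : X.Opens) = ⊤ := by
    rw [eq_top_iff]
    intro x _
    obtain ⟨U, hU, hxU, -⟩ := exists_isAffineOpen_mem_and_subset (x := f x) (U := ⊤) trivial
    rw [TopologicalSpace.Opens.mem_iSup]
    exact ⟨⟨U, hU⟩, hxU⟩
  rw [HasAffineProperty.iff_of_iSup_eq_top (P := @IsClosedImmersion) V hV]
  intro U
  have h1 : Function.Surjective (h.app (f ⁻¹ᵁ U.1)) := by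
    have h2 := hsurj U
    rw [algHom_app] at h2
    exact h2
  refine ⟨U.2.preimage (h ≫ f), ?_⟩
  have e1 : (V U : X.Opens).ι ''ᵁ ⊤ = f ⁻¹ᵁ U.1 := Scheme.Opens.ι_image_top _
  have h2 : Function.Surjective (h.app ((V U : X.Opens).ι ''ᵁ ⊤)) := by
    rw [e1]
    exact h1
  rw [Scheme.Hom.appTop, morphismRestrict_app]
  intro z
  have h3 := (ConcreteCategory.bijective_of_isIso
    (X'.presheaf.map (eqToHom (image_morphismRestrict_preimage h (V U : X.Opens) ⊤)).op)).2
  obtain ⟨y, hy⟩ := h3 z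
  obtain ⟨x, hx⟩ := h2 y
  refine ⟨x, ?_⟩
  rw [← hy, ← hx]
  rfl

end Groth.Agent.S3583
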