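import Groth.Statements.S3584
import Groth.Agent.Ega3B.ProjAmple

set_option autoImplicit false
universe u
open CategoryTheory CategoryTheory.Limits AlgebraicGeometry
open EGA2

namespace Groth.Agent.S3584

/-- If `S_+` is generated by finitely many degree-one elements, some generator is nonzero at each point. -/
theorem exists_notMem {R A : Type u} [CommRing R] [CommRing A] [Algebra R A] (𝒜 : ℕ → Submodule R A) [GradedAlgebra 𝒜]
    (s : Finset A) (hs : (HomogeneousIdeal.irrelevant 𝒜).toIdeal = Ideal.span (s : Set A))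
    (x : ProjectiveSpectrum 𝒜) : ∃ f ∈ s, f ∉ x.asHomogeneousIdeal := by
  by_contra hcon
  push Not at hcon
  apply x.not_irrelevant_le
  change (HomogeneousIdeal.irrelevant 𝒜).toIdeal ≤ x.asHomogeneousIdeal.toIdeal
  rw [hs, Ideal.span_le]
  exact hcon

theorem compactSpace_proj {R A : Type u} [CommRing R] [CommRing A] [Algebra R A] (𝒜 : ℕ → Submodule R A)
    [GradedAlgebra 𝒜] (s : Finset A) (hs1 : ∀ f ∈ s, f ∈ 𝒜 1)
    (hs : (HomogeneousIdeal.irrelevant 𝒜).toIdeal = Ideal.span (s : Set A)) : CompactSpace (Proj 𝒜) := by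
  rw [← isCompact_univ_iff]
  have h : (Set.univ : Set (Proj 𝒜)) = ⋃ f ∈ s, (Proj.basicOpen 𝒜 f : Set (Proj 𝒜)) := by
    symm
    rw [Set.eq_univ_iff_forall]
    intro x
    obtain ⟨f, hf, hx⟩ := exists_notMem 𝒜 s hs x
    exact Set.mem_iUnion₂.mpr ⟨f, hf, hx⟩
  rw [h]
  exact s.isCompact_biUnion fun f hf => (Proj.isAffineOpen_basicOpen 𝒜 f (hs1 f hf) one_pos).isCompact

/-- Let S be a graded ring whose irrelevant ideal S_+ is generated by finitely many elements of degree
one. Then the twisting sheaf O_X(1) on X = Proj S is ample (X is quasi-compact and covered by the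
affine non-vanishing loci of sections of the positive powers of O_X(1)). -/
theorem result {R A : Type u} [CommRing R] [CommRing A] [Algebra R A] (𝒜 : ℕ → Submodule R A) [GradedAlgebra 𝒜]
    (s : Finset A) (hs1 : ∀ f ∈ s, f ∈ 𝒜 1)
    (hs : (HomogeneousIdeal.irrelevant 𝒜).toIdeal = Ideal.span (s : Set A)) :
    CohB1.IsAmple (Twist.twist 𝒜 1) := by
  have := compactSpace_proj 𝒜 s hs1 hs
  have h : Groth.Agent.Ega3B.ProjAmple.CoveredBy 𝒜 1 := fun x => by
    obtain ⟨f, hf, hx⟩ := exists_notMem 𝒜 s hs x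
    exact ⟨⟨f, hs1 f hf⟩, hx⟩
  have := Groth.Agent.Ega3B.ProjAmple.isAmple_twist one_pos h
  rwa [Nat.cast_one] at this

end Groth.Agent.S3584
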