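import Groth.Statements.S3585
import Groth.Agent.Ega2.H291.ProjClosed
import Groth.Agent.Ega2.H291.MapZero
import Groth.Agent.CalgB.ProjImm2
import Groth.Agent.CohqB.ProjBC
import Groth.Agent.Ega2.AmpleUnit

set_option autoImplicit false
universe u
open CategoryTheory CategoryTheory.Limits AlgebraicGeometry
open EGA2

namespace Groth.Agent.S3585

open Groth.Agent.Ega2.H291.QuotGr Groth.Agent.Ega2.H291.ProjClosed Groth.Agent.CohqB.ProjBC in
theorem of_closedImmersion {A : Type u} [CommRing A] {X : Scheme.{u}} (n : ℕ) (i : X ⟶ CohB1.ProjSpace n A)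
    [IsClosedImmersion i] :
    ∃ (S : Type u) (_ : CommRing S) (_ : Algebra A S) (𝒮 : ℕ → Submodule A S) (_ : GradedAlgebra 𝒮) (s : Finset S),
      Function.Surjective (algebraMap A (𝒮 0)) ∧ (∀ g ∈ s, g ∈ 𝒮 1) ∧
      (HomogeneousIdeal.irrelevant 𝒮).toIdeal = Ideal.span (s : Set S) ∧
      ∃ e : X ≅ Proj 𝒮, e.hom ≫ Proj.toSpecZero 𝒮 ≫ Spec.map (CommRingCat.ofHom (algebraMap A (𝒮 0))) =
        i ≫ CohB1.ProjSpace.toSpec n A := by
  classical
  let T : Fin (n + 1) → MvPolynomial (Fin (n + 1)) A := MvPolynomial.X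
  have hT : ∀ k, T k ∈ CohB1.polyGrading n A 1 := fun k => MvPolynomial.isHomogeneous_X A k
  have hcov := span_X_ge (A := A) n
  let i' : X ⟶ Proj (CohB1.polyGrading n A) := i
  have : IsClosedImmersion i' := ‹IsClosedImmersion i›
  obtain ⟨e, he⟩ := exists_iso T hT hcov i'
  set I := idl T hT i'.ker with hI
  refine ⟨_, _, _, gr (CohB1.polyGrading n A) I, inferInstance,
    Finset.univ.image (fun k => Ideal.Quotient.mk I (T k)), ?_, ?_, ?_, e, ?_⟩
  · rintro ⟨_, b, hb, rfl⟩
    have h1 : b = MvPolynomial.C (MvPolynomial.coeff 0 b) :=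
      MvPolynomial.totalDegree_eq_zero_iff_eq_C.mp ((MvPolynomial.totalDegree_zero_iff_isHomogeneous _).mpr hb)
    refine ⟨MvPolynomial.coeff 0 b, Subtype.ext ?_⟩
    exact congrArg (Ideal.Quotient.mk I) h1.symm
  · intro g hg
    obtain ⟨k, -, rfl⟩ := Finset.mem_image.mp hg
    exact mk_mem _ _ (hT k)
  · apply le_antisymm
    · refine LE.le.trans (b := ((HomogeneousIdeal.irrelevant (CohB1.polyGrading n A)).map
        (mkHom (CohB1.polyGrading n A) I)).toIdeal) (irrelevant_le T hT i'.ker) ?_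
      change Ideal.map (mkHom (CohB1.polyGrading n A) I) (HomogeneousIdeal.irrelevant (CohB1.polyGrading n A)).toIdeal ≤ _
      refine (Ideal.map_mono hcov).trans ?_
      rw [Ideal.map_span]
      refine Ideal.span_mono ?_
      rintro _ ⟨_, ⟨k, rfl⟩, rfl⟩
      exact Finset.mem_coe.mpr (Finset.mem_image.mpr ⟨k, Finset.mem_univ _, rfl⟩)
    · rw [Ideal.span_le]
      intro g hg
      obtain ⟨k, -, rfl⟩ := Finset.mem_image.mp (Finset.mem_coe.mp hg)
      exact HomogeneousIdeal.mem_irrelevant_of_mem _ one_pos (mk_mem _ _ (hT k))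
  · rw [← Groth.Agent.Ega2.H291.MapZero.map_toSpec (mkHom (CohB1.polyGrading n A) I) (irrelevant_le T hT i'.ker)
      (fun r => rfl), ← Category.assoc, he]
    rfl

/-- Let A be a ring and f : X → Spec A a proper morphism, and suppose X carries an invertible O_X-module
which is ample relative to f (so f is quasi-projective). Then f is projective: X is isomorphic over
Spec A to Proj S for some graded A-algebra S whose degree-zero part is the image of A and whose
irrelevant ideal is generated by finitely many elements of degree one. -/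
theorem result {A : Type u} [CommRing A] {X : Scheme.{u}}
    (f : X ⟶ Spec (CommRingCat.of A)) [IsProper f]
    (L : X.Modules) (hL : PicF.IsInvertible L) (hamp : RelAmple.IsRelAmple f L) :
    ∃ (S : Type u) (_ : CommRing S) (_ : Algebra A S) (𝒮 : ℕ → Submodule A S) (_ : GradedAlgebra 𝒮) (s : Finset S),
      Function.Surjective (algebraMap A (𝒮 0)) ∧ (∀ g ∈ s, g ∈ 𝒮 1) ∧
      (HomogeneousIdeal.irrelevant 𝒮).toIdeal = Ideal.span (s : Set S) ∧
      ∃ e : X ≅ Proj 𝒮, e.hom ≫ Proj.toSpecZero 𝒮 ≫ Spec.map (CommRingCat.ofHom (algebraMap A (𝒮 0))) = f := by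
  have hS : ∃ N : (Spec (CommRingCat.of A)).Modules, CohB1.IsAmple N :=
    ⟨_, Groth.Agent.Ega2.Weight.isAmple_structureModule _⟩
  have hX := (Groth.Agent.CalgB.ProjImm.exists_isAmple_iff_exists_isRelAmple hS f).2 ⟨L, hamp⟩
  obtain ⟨n, i, hi, hif⟩ := (Groth.Agent.CalgB.ProjImm.closedImmersion_iff hS f).2 ⟨inferInstance, hX⟩
  have h := of_closedImmersion n (i ≫ (Groth.Agent.CohqB.ProjBC.projSpaceOverIso n A).hom)
  rw [Category.assoc, Groth.Agent.CohqB.ProjBC.projSpaceOverIso_hom_toSpec, hif] at h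
  exact h

end Groth.Agent.S3585
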