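import Groth.Statements.S3586
import Groth.Agent.FormalB.GrTildeSect

set_option autoImplicit false
universe u
open CategoryTheory AlgebraicGeometry Opposite TopologicalSpace
open EGA2

namespace Groth.Agent.S3586

/-- Let S be a graded ring, M a graded S-module, f homogeneous of degree d > 0 and n an integer. Then
every section of the sheaf M(n)~ over D_+(f) is given on all of D_+(f) by one fraction m/f^k with m
homogeneous of degree kd + n. (This is the surjectivity half of the identification of the sections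
of M(n)~ over D_+(f) with M(n)_(f).) -/
theorem result {R A : Type u} [CommRing R] [CommRing A] [Algebra R A] (𝒜 : ℕ → Submodule R A) [GradedAlgebra 𝒜]
    {M : Type u} [AddCommGroup M] [Module R M] [Module A M] [IsScalarTower R A M] (ℳ : ℕ → Submodule R M) [DirectSum.Decomposition ℳ] [SetLike.GradedSMul 𝒜 ℳ] (n : ℤ) {d : ℕ} (hd : 0 < d) {f : A} (hf : f ∈ 𝒜 d)
    (s : GrTilde.sect 𝒜 ℳ n (op (ProjectiveSpectrum.basicOpen 𝒜 f))) :
    ∃ (k i : ℕ) (m : ℳ i), (i : ℤ) = k * d + n ∧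
      ∀ x : ProjectiveSpectrum.basicOpen 𝒜 f,
        ((s.1 x : GrTilde.tildeAt 𝒜 ℳ n x.1) : GrTilde.LocMod 𝒜 (M := M) x.1) =
          (LocalizedModule.mk m.1 ⟨f ^ k, fun h => (ProjectiveSpectrum.mem_basicOpen 𝒜 f x.1).mp x.2
            (x.1.isPrime.mem_of_pow_mem k h)⟩ : GrTilde.LocMod 𝒜 (M := M) x.1) := by
  obtain ⟨k, m, hm, h⟩ := Groth.Agent.FormalB.GrTildeSect.exists_frac_basicOpen (ℳ := ℳ) n hd hf s
  -- enlarge the exponent so that the degree is nonnegative
  obtain ⟨N, hN⟩ : ∃ N : ℕ, 0 ≤ (N : ℤ) + n := ⟨n.natAbs, by omega⟩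
  have hpos : 0 ≤ (((N + k : ℕ) : ℤ) * d + n) := by
    have h1 : (N : ℤ) ≤ (N : ℤ) * d := by
      have : (1 : ℤ) ≤ d := by exact_mod_cast hd
      nlinarith [Int.natCast_nonneg N]
    have h2 : 0 ≤ (k : ℤ) * d := by positivity
    push_cast
    nlinarith
  obtain ⟨i, hi⟩ := Int.eq_ofNat_of_zero_le hpos
  have hmem : f ^ N • m ∈ ℳ i := by
    refine Groth.Agent.FormalB.GrTildeSect.mem_of_mem_zdeg (k := ((N + k : ℕ) : ℤ) * d + n) hi.symm ?_
    refine Groth.Agent.FormalB.GrTildeSect.smul_mem_zdeg_of_eq 𝒜 (SetLike.pow_mem_graded N hf) hm ?_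
    simp only [smul_eq_mul]
    push_cast
    ring
  refine ⟨N + k, i, ⟨f ^ N • m, hmem⟩, hi.symm, fun x => ?_⟩
  rw [h x]
  refine LocalizedModule.mk_eq.mpr ⟨1, ?_⟩
  simp only [one_smul]
  change f ^ (N + k) • m = f ^ k • f ^ N • m
  rw [smul_smul, ← pow_add, add_comm]

end Groth.Agent.S3586
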