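import Groth.Statements.S3587
import Groth.Agent.FormalB.GrTildeSect

set_option autoImplicit false
universe u
open CategoryTheory AlgebraicGeometry Opposite TopologicalSpace
open EGA2

namespace Groth.Agent.S3587

/-- Let S be a graded ring, M a graded S-module, f a homogeneous element of degree d > 0 and m a
homogeneous element of M. If the fraction m/f^k vanishes in the localized module M_x for every point
x of D_+(f), then f^N m = 0 for some N (so m/f^k = 0 in M_(f)); this is the injectivity half of the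
identification of the sections of M~ over D_+(f) with M_(f). -/
theorem result {R A : Type u} [CommRing R] [CommRing A] [Algebra R A] (𝒜 : ℕ → Submodule R A) [GradedAlgebra 𝒜]
    {M : Type u} [AddCommGroup M] [Module R M] [Module A M] [IsScalarTower R A M] (ℳ : ℕ → Submodule R M) [DirectSum.Decomposition ℳ] [SetLike.GradedSMul 𝒜 ℳ] {d : ℕ} (hd : 0 < d) {f : A} (hf : f ∈ 𝒜 d) (k i : ℕ) (m : ℳ i)
    (h : ∀ x : ProjectiveSpectrum.basicOpen 𝒜 f,
      (LocalizedModule.mk m.1 ⟨f ^ k, fun h => (ProjectiveSpectrum.mem_basicOpen 𝒜 f x.1).mp x.2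
        (x.1.isPrime.mem_of_pow_mem k h)⟩ : GrTilde.LocMod 𝒜 (M := M) x.1) = 0) :
    ∃ N : ℕ, f ^ N • m.1 = 0 := by
  refine Groth.Agent.FormalB.GrTildeSect.exists_pow_smul_eq_zero 𝒜 (ℳ := ℳ) hd hf
    (k := (i : ℤ)) (m := m.1) m.2 ?_
  intro x hx
  have hx' : x ∈ ProjectiveSpectrum.basicOpen 𝒜 f := (ProjectiveSpectrum.mem_basicOpen 𝒜 f x).mpr hx
  obtain ⟨u, hu⟩ := LocalizedModule.mk_eq.mp ((h ⟨x, hx'⟩).trans (LocalizedModule.zero_mk 1).symm)
  refine ⟨u.1, u.2, ?_⟩
  have hu2 : u • (m.1 : M) = 0 := by simpa using hu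
  exact hu2

end Groth.Agent.S3587
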