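import Groth.Statements.S3588
import Groth.Agent.Ega2.H294.ProjRed
import Groth.Agent.Sga5.ProjSurj

set_option autoImplicit false
universe u
open CategoryTheory CategoryTheory.Limits AlgebraicGeometry
open EGA2

namespace Groth.Agent.S3588

/-- Let S be a graded ring, N_+ the set of nilpotent elements of S_+ (an ideal of S), and S → S/N_+ the
quotient (here: any surjective homomorphism of graded rings φ : S → S' whose kernel is N_+). Then
the induced morphism Proj S' → Proj S is a closed immersion which is a homeomorphism of the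
underlying spaces, and Proj S' is reduced; thus Proj S' is the reduced closed subscheme (Proj
S)_red. -/
theorem result {R A : Type u} [CommRing R] [CommRing A] [Algebra R A] (𝒜 : ℕ → Submodule R A) [GradedAlgebra 𝒜]
    {B : Type u} [CommRing B] [Algebra R B] (ℬ : ℕ → Submodule R B) [GradedAlgebra ℬ]
    (φ : 𝒜 →+*ᵍ ℬ) (hsurj : Function.Surjective φ)
    (hker : ∀ a : A, φ a = 0 ↔ a ∈ (HomogeneousIdeal.irrelevant 𝒜).toIdeal ∧ IsNilpotent a)
    (hφ : HomogeneousIdeal.irrelevant ℬ ≤ (HomogeneousIdeal.irrelevant 𝒜).map φ) :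
    IsClosedImmersion (Proj.map φ hφ) ∧ IsHomeomorph (Proj.map φ hφ).base ∧
      AlgebraicGeometry.IsReduced (Proj ℬ) := by
  have hs := Groth.Agent.Ega2.H294.ProjRed.degSurj_of_surjective φ hsurj
  have hci : IsClosedImmersion (Proj.map φ hφ) := Groth.Agent.Sga5.ProjSurj.isClosedImmersion_map hφ hs
  refine ⟨hci, ?_, ?_⟩
  · have hsur : Function.Surjective (Proj.map φ hφ) := by
      intro x
      have hx : x ∈ Set.range (Proj.map φ hφ) := by
        rw [Groth.Agent.Sga5.ProjSurj.mem_range_map_iff hφ hs x]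
        intro a ha
        have ha' : φ a = 0 := ha
        obtain ⟨n, hn⟩ := ((hker a).1 ha').2
        have hp : (ProjectiveSpectrum.asHomogeneousIdeal (𝒜 := 𝒜) x).toIdeal.IsPrime :=
          ProjectiveSpectrum.isPrime (𝒜 := 𝒜) x
        exact hp.mem_of_pow_mem n (by rw [hn]; exact zero_mem _)
      exact hx
    exact isHomeomorph_iff_isEmbedding_surjective.2 ⟨(Scheme.Hom.isClosedEmbedding (Proj.map φ hφ)).isEmbedding, hsur⟩
  · refine Groth.Agent.Ega2.H294.ProjRed.proj_isReduced ?_
    intro i hi b hb hnil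
    obtain ⟨a, ha, rfl⟩ := hs i b hb
    obtain ⟨n, hn⟩ := hnil
    have h0 : φ (a ^ n) = 0 := by rw [map_pow, hn]
    obtain ⟨m, hm⟩ := ((hker _).1 h0).2
    exact (hker a).2 ⟨HomogeneousIdeal.mem_irrelevant_of_mem 𝒜 hi ha, ⟨n * m, by rw [pow_mul, hm]⟩⟩

end Groth.Agent.S3588
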