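import Groth.Statements.S3589
import Groth.Agent.Ega2.H295.PnRel

set_option autoImplicit false
universe u
open CategoryTheory CategoryTheory.Limits AlgebraicGeometry
open EGA2

namespace Groth.Agent.S3589

open Groth.Agent.Fdesc.LocGen TopologicalSpace
open Groth.Agent.VarietyB Groth.Agent.VarietyB.ProjGlue
open Groth.Agent.Ega2.H295.PnUniq Groth.Agent.Ega2.H295.PnCoord

attribute [local instance] MvPolynomial.gradedAlgebra

/-- The structure map `R ≅ Γ(Spec R, ⊤)`. -/
noncomputable def φ (R : Type u) [CommRing R] : R →+* Γ(Spec (CommRingCat.of R), ⊤) :=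
  (Scheme.ΓSpecIso (CommRingCat.of R)).inv.hom

theorem φ_bijective (R : Type u) [CommRing R] : Function.Bijective (φ R) :=
  ConcreteCategory.bijective_of_isIso (Scheme.ΓSpecIso (CommRingCat.of R)).inv

theorem mem_secKernel_iff {R : Type u} [CommRing R] (n : ℕ)
    (s : Spec (CommRingCat.of R) ⟶ CohB1.ProjSpace n R) (c : Fin (n + 1) → R) :
    c ∈ ProjUP.secKernel n R s ↔ ∑ i, φ R (c i) • tsec s i = 0 := by
  letI : Module R (ProjUP.Γm ((Scheme.Modules.pullback s).obj (Twist.twistProjSpace n R 1))) :=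
    Module.compHom _ (Scheme.ΓSpecIso (CommRingCat.of R)).inv.hom
  unfold ProjUP.secKernel
  rw [LinearMap.mem_ker, Fintype.linearCombination_apply]
  rfl

theorem rel_transfer {R : Type u} [CommRing R] (n : ℕ)
    (s₁ s₂ : Spec (CommRingCat.of R) ⟶ CohB1.ProjSpace n R)
    (h : ProjUP.secKernel n R s₁ = ProjUP.secKernel n R s₂) (i k : Fin (n + 1))
    (a b : Γ(Spec (CommRingCat.of R), ⊤)) (hab : a • tsec s₁ k = b • tsec s₁ i) :
    a • tsec s₂ k = b • tsec s₂ i := by
  classical
  obtain ⟨a, rfl⟩ := (φ_bijective R).2 a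
  obtain ⟨b, rfl⟩ := (φ_bijective R).2 b
  have key : ∀ s : Spec (CommRingCat.of R) ⟶ CohB1.ProjSpace n R,
      (Pi.single k a - Pi.single i b : Fin (n + 1) → R) ∈ ProjUP.secKernel n R s ↔
        φ R a • tsec s k = φ R b • tsec s i := by
    intro s
    rw [mem_secKernel_iff, ← sub_eq_zero (a := φ R a • tsec s k)]
    simp only [Pi.sub_apply, map_sub, sub_smul, Finset.sum_sub_distrib]
    have h1 : ∀ (j : Fin (n + 1)) (c : R), ∑ x, φ R (Pi.single (M := fun _ => R) j c x) • tsec s x =
        φ R c • tsec s j := by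
      intro j c
      rw [Finset.sum_eq_single j]
      · rw [Pi.single_eq_same]
      · intro x _ hx
        rw [Pi.single_eq_of_ne hx, map_zero, zero_smul]
      · intro hj; exact absurd (Finset.mem_univ j) hj
    rw [h1, h1]
  rw [← key] at hab ⊢
  rwa [← h]

/-- For E = O_Y^{n+1} over an affine base Y = Spec R (injectivity of the correspondence): a section s of
projective n-space over R is determined by the submodule F(s) of R^{n+1} formed by the R-linear
relations among the pulled-back coordinates s^*T_0, …, s^*T_n in the global sections of s^*O(1). -/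
theorem result {R : Type u} [CommRing R] (n : ℕ)
    (s₁ s₂ : Spec (CommRingCat.of R) ⟶ CohB1.ProjSpace n R)
    (h₁ : s₁ ≫ CohB1.ProjSpace.toSpec n R = 𝟙 _) (h₂ : s₂ ≫ CohB1.ProjSpace.toSpec n R = 𝟙 _)
    (h : ProjUP.secKernel n R s₁ = ProjUP.secKernel n R s₂) :
    s₁ = s₂ := by
  exact Groth.Agent.Ega2.H295.PnRel.ext_of_rel s₁ s₂ (h₁.trans h₂.symm)
    (fun i k a b hab => rel_transfer n s₁ s₂ h i k a b hab)

end Groth.Agent.S3589
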