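import Groth.Statements.S3590
import Groth.Agent.Ega2.H296.SecSub

set_option autoImplicit false
universe u
open CategoryTheory CategoryTheory.Limits AlgebraicGeometry
open EGA2

namespace Groth.Agent.S3590

/-- For E = O_Y^{n+1} over an affine base Y = Spec R (image of the correspondence): a submodule F of
R^{n+1} is the module of relations among the pulled-back coordinates of some section of projective
n-space over R if and only if the quotient R^{n+1}/F is an invertible R-module (projective, of rank
one at every prime). -/
theorem result {R : Type u} [CommRing R] (n : ℕ)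
    (F : Submodule R (Fin (n + 1) → R)) :
    (∃ s : Spec (CommRingCat.of R) ⟶ CohB1.ProjSpace n R,
        s ≫ CohB1.ProjSpace.toSpec n R = 𝟙 _ ∧ ProjUP.secKernel n R s = F) ↔
      (Module.Projective R ((Fin (n + 1) → R) ⧸ F) ∧
        ∀ p : PrimeSpectrum R, Module.finrank (Localization.AtPrime p.asIdeal)
          (LocalizedModule p.asIdeal.primeCompl ((Fin (n + 1) → R) ⧸ F)) = 1) := by
  constructor
  · rintro ⟨s, -, rfl⟩
    rw [Groth.Agent.Ega2.H296.SecSub.secKernel_eq]
    exact Groth.Agent.Ega2.H296.SecSub.forward (A := CommRingCat.of R) s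
  · intro h
    obtain ⟨s, hs, hF⟩ := Groth.Agent.Ega2.H296.SecSub.backward (A := CommRingCat.of R) F h
    exact ⟨s, hs, (Groth.Agent.Ega2.H296.SecSub.secKernel_eq s).trans hF⟩

end Groth.Agent.S3590
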