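import Groth.Statements.S3592
import Groth.Agent.Ega2.H298.ProjExt

set_option autoImplicit false
universe u
open CategoryTheory CategoryTheory.Limits AlgebraicGeometry
open EGA2

namespace Groth.Agent.S3592

/-- Let A be a commutative ring, M an A-module, and S a graded A-algebra with an A-linear map ι : M →
S_1 exhibiting S as the symmetric algebra of M, so that Proj S is the projective bundle P(M̃) over
Spec A. Let X be a scheme and r, r' : X → Proj S two morphisms over Spec A. If there is an
isomorphism τ : r^*O(1) ≅ r'^*O(1) carrying, for every m ∈ M, the pullback under r of the global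
section ι(m) of O(1) to its pullback under r', then r = r'. (Stated here over an affine base Spec A;
the published statement is over a general base.) -/
theorem result {A : Type u} [CommRing A] {S : Type u} [CommRing S] [Algebra A S] (𝒮 : ℕ → Submodule A S) [GradedAlgebra 𝒮]
    {M : Type u} [AddCommGroup M] [Module A M] (ι : M →ₗ[A] S) (hι : ∀ m : M, ι m ∈ 𝒮 1)
    (hsym : IsSymmetricAlgebra ι)
    {X : Scheme.{u}} (r r' : X ⟶ Proj 𝒮)
    (hrr' : r ≫ Proj.toSpecZero 𝒮 ≫ Spec.map (CommRingCat.ofHom (algebraMap A (𝒮 0))) =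
      r' ≫ Proj.toSpecZero 𝒮 ≫ Spec.map (CommRingCat.ofHom (algebraMap A (𝒮 0))))
    (τ : (Scheme.Modules.pullback r).obj (Twist.twist 𝒮 1) ≅ (Scheme.Modules.pullback r').obj (Twist.twist 𝒮 1))
    (hτ : ∀ m : M, τ.hom.app ⊤ (ProjUP.pullSec r (Twist.twist 𝒮 1) (Twist.globalOf 𝒮 ⟨ι m, hι m⟩)) =
      ProjUP.pullSec r' (Twist.twist 𝒮 1) (Twist.globalOf 𝒮 ⟨ι m, hι m⟩)) :
    r = r' := by
  refine Groth.Agent.Ega2.H298.ProjExt.eq_of_iso 𝒮 (fun m : M => (⟨ι m, hι m⟩ : 𝒮 1)) ?_ r r' hrr' τ hτ
  refine top_le_iff.mp fun x _ => ?_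
  induction x using hsym.induction with
  | algebraMap a => exact Subalgebra.algebraMap_mem _ a
  | ι m => exact Algebra.subset_adjoin ⟨m, rfl⟩
  | mul a b ha hb => exact mul_mem (ha trivial) (hb trivial)
  | add a b ha hb => exact add_mem (ha trivial) (hb trivial)

end Groth.Agent.S3592
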