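import Groth.Statements.S3593
-- import your own Groth.Agent.* helpers here

set_option autoImplicit false
universe u
open CategoryTheory CategoryTheory.Limits AlgebraicGeometry
open EGA2

namespace Groth.Agent.S3593

open HomogeneousLocalization in
/-- Let S be a graded R-algebra, Ŝ a graded R-algebra with a graded homomorphism φ : S → Ŝ making Ŝ an
S-algebra, and z an element of Ŝ of degree one such that the S-algebra map S[X] → Ŝ, X ↦ z, is
bijective (so Ŝ = S[z] with z in degree one, the graded ring of the projective cone of S). Then
there is a ring isomorphism S ≅ Ŝ_(z) onto the degree-zero localization at z, sending a homogeneous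
a of degree n to φ(a)/z^n. (This is the isomorphism that identifies the affine cone Spec S with the
open D_+(z) of the projective cone Proj Ŝ; that identification itself is not asserted here.) -/
theorem result {R A : Type u} [CommRing R] [CommRing A] [Algebra R A] (𝒜 : ℕ → Submodule R A) [GradedAlgebra 𝒜]
    {B : Type u} [CommRing B] [Algebra R B] (ℬ : ℕ → Submodule R B) [GradedAlgebra ℬ]
    [Algebra A B] [IsScalarTower R A B] (φ : 𝒜 →+*ᵍ ℬ) (hφ : ∀ a : A, φ a = algebraMap A B a)
    (z : B) (hz : z ∈ ℬ 1) (hhat : Function.Bijective (Polynomial.aeval (R := A) z)) :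
    ∃ θ : A ≃+* HomogeneousLocalization.Away ℬ z,
      ∀ (n : ℕ) (a : A), a ∈ 𝒜 n → (θ a).val = Localization.mk (φ a) ⟨z ^ n, pow_mem (Submonoid.mem_powers z) n⟩ := by
  classical
  -- the evaluation `ev : B → A`, `z ↦ 1`
  let e : Polynomial A ≃+* B := RingEquiv.ofBijective (Polynomial.aeval (R := A) z) hhat
  let ev : B →+* A := (Polynomial.evalRingHom (1 : A)).comp e.symm.toRingHom
  have he : ∀ p : Polynomial A, ev (Polynomial.aeval z p) = Polynomial.eval 1 p := by
    intro p
    have : e.symm (Polynomial.aeval z p) = p := e.symm_apply_apply p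
    change Polynomial.eval 1 (e.symm (Polynomial.aeval z p)) = _
    rw [this]
  have evz : ev z = 1 := by
    have := he Polynomial.X
    simpa using this
  have evφ : ∀ a : A, ev (φ a) = a := by
    intro a
    have := he (Polynomial.C a)
    rw [hφ]
    simpa using this
  have zpow : ∀ n : ℕ, z ^ n ∈ ℬ n := fun n => by
    simpa using SetLike.pow_mem_graded n hz
  -- homogenization
  let H : ℕ → A →+ B := fun n =>
    { toFun := fun a => ∑ i ∈ Finset.range (n + 1), φ (DirectSum.decompose 𝒜 a i : A) * z ^ (n - i)
      map_zero' := by simp
      map_add' := fun a b => by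
        simp [add_mul, Finset.sum_add_distrib] }
  have Hhom : ∀ (n i : ℕ) (a : A), a ∈ 𝒜 i → i ≤ n → H n a = φ a * z ^ (n - i) := by
    intro n i a ha hi
    change ∑ j ∈ Finset.range (n + 1), φ (DirectSum.decompose 𝒜 a j : A) * z ^ (n - j) = _
    rw [Finset.sum_eq_single i]
    · rw [DirectSum.decompose_of_mem_same 𝒜 ha]
    · intro j _ hj
      rw [DirectSum.decompose_of_mem_ne 𝒜 ha (Ne.symm hj)]
      simp
    · intro h
      exact absurd (Finset.mem_range.mpr (by omega)) h
  have key : ∀ (b : B) (n : ℕ), H n (ev (DirectSum.decompose ℬ b n : B)) = (DirectSum.decompose ℬ b n : B) := by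
    intro b n
    obtain ⟨p, rfl⟩ := hhat.2 b
    induction p using Polynomial.induction_on' with
    | add p q hp hq =>
      simp only [map_add, DirectSum.decompose_add, DirectSum.add_apply, AddMemClass.coe_add, hp, hq]
    | monomial k a =>
      rw [Polynomial.aeval_monomial, ← hφ]
      induction a using DirectSum.Decomposition.inductionOn 𝒜 with
      | zero => simp
      | @homogeneous i a =>
        have hmem : φ (a : A) * z ^ k ∈ ℬ (i + k) :=
          SetLike.mul_mem_graded (Graded.map_mem φ a.2) (zpow k)
        by_cases h : i + k = n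
        · subst h
          rw [DirectSum.decompose_of_mem_same ℬ hmem, map_mul, map_pow, evz, evφ, one_pow, mul_one,
            Hhom (i + k) i a.1 a.2 (by omega)]
          simp
        · rw [DirectSum.decompose_of_mem_ne ℬ hmem h]
          simp
      | add a b ha hb =>
        simp only [map_add, add_mul, DirectSum.decompose_add, DirectSum.add_apply, AddMemClass.coe_add, ha, hb]
  have key2 : ∀ (n : ℕ) (b : B), b ∈ ℬ n → H n (ev b) = b := by
    intro n b hb
    have := key b n
    rwa [DirectSum.decompose_of_mem_same ℬ hb] at this
  -- the map `ρ : Ŝ_(z) → S`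
  have hu : IsUnit (ev z) := by rw [evz]; exact isUnit_one
  let ρ : HomogeneousLocalization.Away ℬ z →+* A :=
    (IsLocalization.Away.lift (S := Localization.Away z) z hu).comp
      (algebraMap (HomogeneousLocalization.Away ℬ z) (Localization.Away z))
  have hρ : ∀ (n : ℕ) (b : B) (hb : b ∈ ℬ n), ρ (HomogeneousLocalization.Away.mk ℬ hz n b (by simpa using hb)) = ev b := by
    intro n b hb
    change IsLocalization.Away.lift (S := Localization.Away z) z hu
      (HomogeneousLocalization.Away.mk ℬ hz n b (by simpa using hb)).val = _
    rw [HomogeneousLocalization.Away.val_mk]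
    have h1 : (Localization.mk b ⟨z ^ n, n, rfl⟩ : Localization.Away z) * algebraMap B _ (z ^ n) = algebraMap B _ b := by
      rw [← Localization.mk_one_eq_algebraMap, ← Localization.mk_one_eq_algebraMap, Localization.mk_mul,
        Localization.mk_eq_mk_iff, Localization.r_iff_exists]
      exact ⟨1, by simp [mul_comm]⟩
    have h2 := congrArg (IsLocalization.Away.lift (S := Localization.Away z) z hu) h1
    rw [map_mul, IsLocalization.Away.lift_eq, IsLocalization.Away.lift_eq, map_pow, evz, one_pow, mul_one] at h2
    exact h2
  have hbij : Function.Bijective ρ := by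
    constructor
    · rw [injective_iff_map_eq_zero]
      intro x hx
      obtain ⟨n, b, hb, rfl⟩ := HomogeneousLocalization.Away.mk_surjective ℬ hz x
      have hb' : b ∈ ℬ n := by simpa using hb
      rw [hρ n b hb'] at hx
      have hb0 : b = 0 := by rw [← key2 n b hb', hx, map_zero]
      subst hb0
      ext
      rw [HomogeneousLocalization.Away.val_mk, Localization.mk_zero, HomogeneousLocalization.val_zero]
    · rw [← RingHom.range_eq_top, eq_top_iff]
      intro a _
      induction a using DirectSum.Decomposition.inductionOn 𝒜 with
      | zero => exact zero_mem _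
      | @homogeneous i a =>
        exact ⟨HomogeneousLocalization.Away.mk ℬ hz i (φ a) (by simpa using Graded.map_mem φ a.2),
          (hρ i (φ a) (Graded.map_mem φ a.2)).trans (evφ a)⟩
      | add a b ha hb => exact add_mem (ha trivial) (hb trivial)
  refine ⟨(RingEquiv.ofBijective ρ hbij).symm, fun n a ha => ?_⟩
  have h1 : (RingEquiv.ofBijective ρ hbij).symm a =
      HomogeneousLocalization.Away.mk ℬ hz n (φ a) (by simpa using Graded.map_mem φ ha) := by
    rw [RingEquiv.symm_apply_eq]
    exact ((hρ n (φ a) (Graded.map_mem φ ha)).trans (evφ a)).symm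
  rw [h1, HomogeneousLocalization.Away.val_mk]

end Groth.Agent.S3593
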