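-- Milestone S3594 (EGA2.range_proj_map_eq_compl_basicOpen_z).
import Groth.Statements.S3594

set_option autoImplicit false
universe u
open CategoryTheory CategoryTheory.Limits AlgebraicGeometry
open EGA2

namespace Groth.Agent.S3594

/-- The closed immersion at infinity of a projective cone: let S be a graded R-algebra and Ŝ a graded
R-algebra over S such that the structure map φ : S → Ŝ is a graded homomorphism and Ŝ = S[z] is the
polynomial algebra on an element z of degree one (evaluation at z is a bijection S[T] → Ŝ); let ψ :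
Ŝ → S be a graded homomorphism retracting φ and killing z, with S₊ contained in the ideal generated
by ψ(Ŝ₊) so that j = Proj(ψ) : X = Proj S → Ĉ = Proj Ŝ is defined (it is the canonical closed
immersion). Then the image of j is exactly the complement of the open subset D₊(z) of Proj Ŝ (which
is the affine cone C = Spec S). -/
theorem result {R A : Type u} [CommRing R] [CommRing A] [Algebra R A] (𝒜 : ℕ → Submodule R A) [GradedAlgebra 𝒜]
    {B : Type u} [CommRing B] [Algebra R B] (ℬ : ℕ → Submodule R B) [GradedAlgebra ℬ]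
    [Algebra A B] [IsScalarTower R A B] (φ : 𝒜 →+*ᵍ ℬ) (hφ : ∀ a : A, φ a = algebraMap A B a)
    (z : B) (hz : z ∈ ℬ 1) (hhat : Function.Bijective (Polynomial.aeval (R := A) z))
    (ψ : ℬ →+*ᵍ 𝒜) (hψφ : ∀ a : A, ψ (φ a) = a) (hψz : ψ z = 0)
    (hψ : HomogeneousIdeal.irrelevant 𝒜 ≤ (HomogeneousIdeal.irrelevant ℬ).map ψ) :
    Set.range (Proj.map ψ hψ).base = ((Proj.basicOpen ℬ z : Set (Proj ℬ)))ᶜ := by
  classical
  -- the kernel of `ψ` is contained in (hence equal to) `(z)`
  have hker : ∀ b : B, ψ b = 0 → b ∈ Ideal.span ({z} : Set B) := by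
    intro b hb
    obtain ⟨P, rfl⟩ := hhat.2 b
    have h1 : P = Polynomial.X * P.divX + Polynomial.C (P.coeff 0) := (P.X_mul_divX_add).symm
    have h2 : (Polynomial.aeval z P : B) = z * Polynomial.aeval z P.divX + φ (P.coeff 0) := by
      conv_lhs => rw [h1]
      rw [map_add, map_mul, Polynomial.aeval_X, Polynomial.aeval_C, hφ]
    have h3 : P.coeff 0 = 0 := by
      have := hb
      rw [h2, map_add, map_mul, hψz, zero_mul, zero_add, hψφ] at this
      exact this
    rw [h2, h3, map_zero, add_zero]
    exact Ideal.mul_mem_right _ _ (Ideal.mem_span_singleton_self z)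
  have hsurj : Function.Surjective ψ := fun a => ⟨φ a, hψφ a⟩
  apply Set.eq_of_subset_of_subset
  · rintro _ ⟨x, rfl⟩ hx
    have hx' : z ∉ ((Proj.map ψ hψ).base x).asHomogeneousIdeal := hx
    apply hx'
    change ψ z ∈ x.asHomogeneousIdeal
    rw [hψz]
    exact Ideal.zero_mem x.asHomogeneousIdeal.toIdeal
  · intro q hq
    have hzq : z ∈ q.asHomogeneousIdeal := by
      by_contra h
      exact hq h
    have hkq : ∀ b : B, ψ b = 0 → b ∈ q.asHomogeneousIdeal.toIdeal := fun b hb =>
      (Ideal.span_singleton_le_iff_mem _).mpr hzq (hker b hb)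
    let I : Ideal A := q.asHomogeneousIdeal.toIdeal.comap φ.toRingHom
    have hI : ∀ b : B, ψ b ∈ I ↔ b ∈ q.asHomogeneousIdeal.toIdeal := by
      intro b
      change φ (ψ b) ∈ q.asHomogeneousIdeal.toIdeal ↔ _
      have h0 : φ (ψ b) - b ∈ q.asHomogeneousIdeal.toIdeal :=
        hkq _ (by rw [map_sub, hψφ, sub_self])
      constructor
      · intro h
        have := Ideal.sub_mem _ h h0
        simpa using this
      · intro h
        have := Ideal.add_mem _ h0 h
        simpa using this
    let P : HomogeneousIdeal 𝒜 := q.asHomogeneousIdeal.comap φ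
    refine ⟨(⟨P, ?_, ?_⟩ : ProjectiveSpectrum 𝒜), ?_⟩
    · exact q.isPrime.comap φ
    · intro hle
      apply q.not_irrelevant_le
      intro b hb
      have hb' : b ∈ HomogeneousIdeal.irrelevant ℬ := hb
      rw [HomogeneousIdeal.mem_irrelevant_iff] at hb'
      have h1 : ψ b ∈ HomogeneousIdeal.irrelevant 𝒜 := by
        rw [HomogeneousIdeal.mem_irrelevant_iff, GradedRing.proj_apply, ← map_directSumDecompose ℬ 𝒜 ψ]
        rw [GradedRing.proj_apply] at hb'
        rw [hb', map_zero]
      exact (hI b).mp (hle h1)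
    · apply ProjectiveSpectrum.ext
      apply HomogeneousIdeal.ext
      ext b
      exact hI b

end Groth.Agent.S3594
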