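import Groth.Statements.S3595
import Groth.Agent.Ega2.H300.PConeMap
-- import your own Groth.Agent.* helpers here

set_option autoImplicit false
universe u
open CategoryTheory CategoryTheory.Limits AlgebraicGeometry
open EGA2

namespace Groth.Agent.S3595

/-- Let φ : S′ → S be a homomorphism of graded rings and G(φ) ⊆ Proj S the open union of the basic opens
D_+(φ(f′)) for f′ ∈ S′ homogeneous of positive degree. There is exactly one morphism p : G(φ) → Proj
S′ whose restriction to each chart Spec S_(φ(f′)) of G(φ) is Spec of the induced map S′_(f′) →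
S_(φ(f′)) followed by Spec S′_(f′) ≅ D_+(f′) ⊆ Proj S′. -/
theorem result {R A : Type u} [CommRing R] [CommRing A] [Algebra R A] (𝒜 : ℕ → Submodule R A) [GradedAlgebra 𝒜]
    {B : Type u} [CommRing B] [Algebra R B] (ℬ : ℕ → Submodule R B) [GradedAlgebra ℬ] (φ : 𝒜 →+*ᵍ ℬ) :
    ∃! p : (PCone.dom φ : Scheme.{u}) ⟶ Proj 𝒜,
      ∀ (d : ℕ) (f : A) (hd : 0 < d) (hf : f ∈ 𝒜 d),
        PCone.chart φ hf hd ≫ p =
          Spec.map (CommRingCat.ofHom (HomogeneousLocalization.Away.map φ f)) ≫ Proj.awayι 𝒜 f hf hd := by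
  exact ⟨Groth.Agent.Ega2.H300.PConeMap.toProj φ,
    fun d f hd hf ↦ Groth.Agent.Ega2.H300.PConeMap.chart_toProj φ hf hd,
    fun p hp ↦ Groth.Agent.Ega2.H300.PConeMap.eq_toProj φ p hp⟩

end Groth.Agent.S3595
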