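-- Milestone S3596 (EGA2.proj_map_on_dom_isAffineHom).
import Groth.Statements.S3596
import Groth.Agent.Ega2.H299.DomBasic

set_option autoImplicit false
universe u
open CategoryTheory CategoryTheory.Limits AlgebraicGeometry
open EGA2

namespace Groth.Agent.S3596

/-- For a homomorphism of graded rings φ : S' → S, the induced morphism p : G(φ) → Proj S'
(characterised on the charts as in the previous result) is affine. -/
theorem result {R A : Type u} [CommRing R] [CommRing A] [Algebra R A] (𝒜 : ℕ → Submodule R A) [GradedAlgebra 𝒜]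
    {B : Type u} [CommRing B] [Algebra R B] (ℬ : ℕ → Submodule R B) [GradedAlgebra ℬ] (φ : 𝒜 →+*ᵍ ℬ)
    (p : (PCone.dom φ : Scheme.{u}) ⟶ Proj 𝒜) (hp : ∀ (d : ℕ) (f : A) (hd : 0 < d) (hf : f ∈ 𝒜 d),
        PCone.chart φ hf hd ≫ p =
          Spec.map (CommRingCat.ofHom (HomogeneousLocalization.Away.map φ f)) ≫ Proj.awayι 𝒜 f hf hd) :
    IsAffineHom p :=
  Groth.Agent.Ega2.H299.DomBasic.isAffineHom hp

end Groth.Agent.S3596
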