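import Groth.Statements.S3597
import Groth.Agent.Ega2.H299.DomBasic

set_option autoImplicit false
universe u
open CategoryTheory CategoryTheory.Limits AlgebraicGeometry
open EGA2

namespace Groth.Agent.S3597

/-- `Proj` of a graded endomorphism which is the identity is the identity. -/
lemma map_eq_id {R A : Type u} [CommRing R] [CommRing A] [Algebra R A] (𝒜 : ℕ → Submodule R A)
    [GradedAlgebra 𝒜] (g : 𝒜 →+*ᵍ 𝒜) (hg : g = .id 𝒜)
    (h : HomogeneousIdeal.irrelevant 𝒜 ≤ (HomogeneousIdeal.irrelevant 𝒜).map g) :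
    Proj.map g h = 𝟙 (Proj 𝒜) := by
  subst hg
  exact Proj.map_id

/-- Let S be a graded algebra over a ring and Ŝ = S[z] the graded S-algebra obtained by adjoining a
variable z in degree 1 (an S-algebra with an element z of degree 1 such that S[T] → Ŝ, T ↦ z, is
bijective), with φ : S → Ŝ the graded structure map and ψ : Ŝ → S the graded retraction with ψ ∘ φ =
id and ψ(z) = 0 (the irrelevant-ideal containment needed to define Proj(ψ) on all of X = Proj S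
carried as a hypothesis). Let Ê ⊆ Ĉ = Proj Ŝ be the pointed projective cone, the open union of the
D_+(φ f) for f ∈ S homogeneous of positive degree, and p : Ê → X a morphism which on each chart
D_+(φ f) = Spec Ŝ_{(φ f)} is induced by S_{(f)} → Ŝ_{(φ f)} (the canonical retraction). Then p is
surjective, and the closed immersion j = Proj(ψ) : X → Ĉ factors through Ê with p ∘ j = id_X. -/
theorem result {R A : Type u} [CommRing R] [CommRing A] [Algebra R A] (𝒜 : ℕ → Submodule R A) [GradedAlgebra 𝒜]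
    {B : Type u} [CommRing B] [Algebra R B] (ℬ : ℕ → Submodule R B) [GradedAlgebra ℬ]
    [Algebra A B] [IsScalarTower R A B] (φ : 𝒜 →+*ᵍ ℬ) (hφ : ∀ a : A, φ a = algebraMap A B a)
    (z : B) (hz : z ∈ ℬ 1) (hhat : Function.Bijective (Polynomial.aeval (R := A) z))
    (ψ : ℬ →+*ᵍ 𝒜) (hψφ : ∀ a : A, ψ (φ a) = a) (hψz : ψ z = 0)
    (hψ : HomogeneousIdeal.irrelevant 𝒜 ≤ (HomogeneousIdeal.irrelevant ℬ).map ψ)
    (p : (PCone.dom φ : Scheme.{u}) ⟶ Proj 𝒜) (hp : ∀ (d : ℕ) (f : A) (hd : 0 < d) (hf : f ∈ 𝒜 d),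
        PCone.chart φ hf hd ≫ p =
          Spec.map (CommRingCat.ofHom (HomogeneousLocalization.Away.map φ f)) ≫ Proj.awayι 𝒜 f hf hd) :
    Surjective p ∧ ∃ j : Proj 𝒜 ⟶ (PCone.dom φ : Scheme.{u}), j ≫ (PCone.dom φ).ι = Proj.map ψ hψ ∧ j ≫ p = 𝟙 (Proj 𝒜) := by
  suffices H : ∃ j : Proj 𝒜 ⟶ (PCone.dom φ : Scheme.{u}),
      j ≫ (PCone.dom φ).ι = Proj.map ψ hψ ∧ j ≫ p = 𝟙 (Proj 𝒜) by
    refine ⟨?_, H⟩
    obtain ⟨j, -, hj⟩ := H
    refine ⟨fun x => ⟨j.base x, ?_⟩⟩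
    exact congrArg (fun g => g.base x) hj
  -- the range condition
  have hrange : Set.range (Proj.map ψ hψ).base ⊆ Set.range (PCone.dom φ).ι.base := by
    rw [Scheme.Opens.range_ι]
    rintro _ ⟨x, rfl⟩
    obtain ⟨i, y, hy⟩ := (Proj.affineOpenCover 𝒜).openCover.exists_eq x
    have hx : x ∈ Proj.basicOpen 𝒜 (i.2 : A) := by
      rw [← Proj.opensRange_awayι 𝒜 _ i.2.2 i.1.2]
      exact ⟨y, hy⟩
    have hx' : (Proj.map ψ hψ).base x ∈ Proj.basicOpen ℬ (φ (i.2 : A)) := by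
      have h1 : x ∈ Proj.map ψ hψ ⁻¹ᵁ Proj.basicOpen ℬ (φ (i.2 : A)) := by
        rw [Proj.map_preimage_basicOpen, hψφ]
        exact hx
      exact h1
    exact TopologicalSpace.Opens.mem_iSup.mpr ⟨⟨i.2, i.1, i.1.2, i.2.2⟩, hx'⟩
  refine ⟨IsOpenImmersion.lift (PCone.dom φ).ι (Proj.map ψ hψ) hrange,
    IsOpenImmersion.lift_fac _ _ _, ?_⟩
  have hcomp : ψ.comp φ = .id 𝒜 := by
    ext a
    simpa using hψφ a
  have hirr : HomogeneousIdeal.irrelevant 𝒜 ≤ (HomogeneousIdeal.irrelevant 𝒜).map (ψ.comp φ) := by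
    rw [hcomp]; simp
  have key : ∀ (d : ℕ) (hd : 0 < d) (f : A) (hf : f ∈ 𝒜 d),
      Proj.awayι 𝒜 ((ψ.comp φ) f) ((ψ.comp φ).2 hf) hd ≫
        IsOpenImmersion.lift (PCone.dom φ).ι (Proj.map ψ hψ) hrange ≫ p =
      Proj.awayι 𝒜 ((ψ.comp φ) f) ((ψ.comp φ).2 hf) hd ≫ 𝟙 (Proj 𝒜) := by
    intro d hd f hf
    have h1 : Proj.awayι 𝒜 (ψ (φ f)) (ψ.2 (φ.2 hf)) hd ≫
        IsOpenImmersion.lift (PCone.dom φ).ι (Proj.map ψ hψ) hrange =
        Spec.map (CommRingCat.ofHom (HomogeneousLocalization.Away.map ψ (φ f))) ≫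
          PCone.chart φ hf hd := by
      rw [← cancel_mono (PCone.dom φ).ι, Category.assoc, Category.assoc, IsOpenImmersion.lift_fac,
        Groth.Agent.Ega2.H299.DomBasic.chart_ι]
      exact Proj.awayι_comp_map ψ hψ hd _ (φ.2 hf)
    have h2 : Proj.awayι 𝒜 (ψ (φ f)) (ψ.2 (φ.2 hf)) hd ≫
        IsOpenImmersion.lift (PCone.dom φ).ι (Proj.map ψ hψ) hrange ≫ p =
        Spec.map (CommRingCat.ofHom (HomogeneousLocalization.Away.map (ψ.comp φ) f)) ≫
          Proj.awayι 𝒜 f hf hd := by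
      rw [reassoc_of% h1, hp, ← Spec.map_comp_assoc, ← CommRingCat.ofHom_comp,
        ← HomogeneousLocalization.Away.map_comp φ ψ f]
      rfl
    have h3 := Proj.awayι_comp_map (ψ.comp φ) hirr hd f hf
    rw [map_eq_id 𝒜 (ψ.comp φ) hcomp hirr] at h3
    exact h2.trans h3.symm
  exact (Proj.mapAffineOpenCover (ψ.comp φ) hirr).openCover.hom_ext _ _
    fun s ↦ key s.1 s.1.2 s.2 s.2.2

end Groth.Agent.S3597
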