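import Groth.Statements.S3598
import Groth.Agent.Ega2.H302.ConeFibre

set_option autoImplicit false
universe u
open CategoryTheory CategoryTheory.Limits AlgebraicGeometry
open EGA2

namespace Groth.Agent.S3598

/-- Let S be a graded algebra over a ring (an affine base) whose irrelevant ideal is generated by its
degree-one elements, and let Ŝ = S[z] be the graded S-algebra obtained by adjoining a variable z of
degree 1 (given as a graded S-algebra together with z of degree 1 such that S[T] → Ŝ, T ↦ z, is
bijective). Let Ê be the pointed projective cone, covered by the charts Spec Ŝ_(f) for f ∈ S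
homogeneous of positive degree, and p : Ê → X = Proj S the canonical retraction, i.e. the morphism
which on each chart Spec Ŝ_(f) is induced by S_(f) → Ŝ_(f). Then p is of finite type (locally of
finite type and quasi-compact) and its fibre at every point x of X is isomorphic over k(x) to the
affine line Spec k(x)[T]. -/
theorem result {R A : Type u} [CommRing R] [CommRing A] [Algebra R A] (𝒜 : ℕ → Submodule R A) [GradedAlgebra 𝒜]
    {B : Type u} [CommRing B] [Algebra R B] (ℬ : ℕ → Submodule R B) [GradedAlgebra ℬ]
    [Algebra A B] [IsScalarTower R A B] (φ : 𝒜 →+*ᵍ ℬ) (hφ : ∀ a : A, φ a = algebraMap A B a)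
    (z : B) (hz : z ∈ ℬ 1) (hhat : Function.Bijective (Polynomial.aeval (R := A) z))
    (hgen : (HomogeneousIdeal.irrelevant 𝒜).toIdeal = Ideal.span (𝒜 1 : Set A))
    (p : (PCone.dom φ : Scheme.{u}) ⟶ Proj 𝒜) (hp : ∀ (d : ℕ) (f : A) (hd : 0 < d) (hf : f ∈ 𝒜 d),
        PCone.chart φ hf hd ≫ p =
          Spec.map (CommRingCat.ofHom (HomogeneousLocalization.Away.map φ f)) ≫ Proj.awayι 𝒜 f hf hd) (x : Proj 𝒜) :
    LocallyOfFiniteType p ∧ QuasiCompact p ∧
      ∃ e : pullback p ((Proj 𝒜).fromSpecResidueField x) ≅
          Spec (CommRingCat.of (Polynomial ((Proj 𝒜).residueField x))),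
        e.hom ≫ Spec.map (CommRingCat.ofHom (algebraMap ((Proj 𝒜).residueField x)
          (Polynomial ((Proj 𝒜).residueField x)))) = pullback.snd p ((Proj 𝒜).fromSpecResidueField x) := by
  refine ⟨Groth.Agent.Ega2.H302.ConeFibre.locallyOfFiniteType hp hφ hz hhat hgen, ?_,
    Groth.Agent.Ega2.H302.ConeFibre.fibre hp hφ hz hhat hgen x⟩
  have : IsAffineHom p := Groth.Agent.Ega2.H299.DomBasic.isAffineHom hp
  infer_instance

end Groth.Agent.S3598
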