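import Groth.Statements.S3599
import Groth.Agent.Ega2.H303.Assembly
import Groth.Agent.Ega2.H284.FreeSurjT

set_option autoImplicit false
universe u
open CategoryTheory CategoryTheory.Limits AlgebraicGeometry
open EGA2

namespace Groth.Agent.S3599

open AlgebraicGeometry.Scheme.AffineZariskiSite
open Groth.Agent.Ega2.H303 Groth.Agent.Ega2.H303.SubModel Groth.Agent.Ega2.H303.FibRep

/-- Let Y be an affine scheme, X a Noetherian reduced scheme, f : X → Y a quasi-compact morphism, g : X'
→ X a finite surjective morphism, and W an open subset of X such that at every point x of W either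
the local ring of X is an integrally closed domain or the direct image of the structure sheaf of X'
is locally free on some open neighbourhood of x inside W. Then there are a reduced scheme Z and a
finite birational morphism h : Z → X (birational in the sense that h is an isomorphism over some
dense open of X whose inverse image is dense in Z) which is an isomorphism over W, such that for
every invertible O_X-module L whose inverse image on X' is ample relative to f ∘ g, the inverse
image of L on Z is ample relative to f ∘ h. -/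
theorem result {X X' Y : Scheme.{u}} [IsAffine Y]
    [IsNoetherian X] [IsReduced X] (f : X ⟶ Y) [QuasiCompact f] (g : X' ⟶ X) [IsFinite g] [Surjective g]
    (W : X.Opens)
    (hW : ∀ x ∈ W, (IsDomain (X.presheaf.stalk x) ∧ IsIntegrallyClosed (X.presheaf.stalk x)) ∨
      ∃ T : X.Opens, x ∈ T ∧ T ≤ W ∧ FlatMod.IsFinLocFree (((Coh.push g).obj (Coh.structureModule X')).restrict T.ι)) :
    ∃ (Z : Scheme.{u}) (_ : IsReduced Z) (h : Z ⟶ X) (_ : IsFinite h),
      IsIso (h ∣_ W) ∧
        (∃ V : X.Opens, Dense (V : Set X) ∧ Dense ((h ⁻¹ᵁ V : Z.Opens) : Set Z) ∧ IsIso (h ∣_ V)) ∧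
        ∀ L : X.Modules, PicF.IsInvertible L →
          RelAmple.IsRelAmple (g ≫ f) ((Scheme.Modules.pullback g).obj L) →
            RelAmple.IsRelAmple (h ≫ f) ((Scheme.Modules.pullback h).obj L) := by
  obtain ⟨n, hn, h⟩ := exists_unif g
  have hfin : (genericPoints X).Finite :=
    genericPoints.finite TopologicalSpace.NoetherianSpace.finite_irreducibleComponents
  have hS := finite_ev h
  have hnorm : ∀ (x : X) (T : X.Opens), x ∈ T → IsDomain (X.presheaf.stalk x) →
      IsIntegrallyClosed (X.presheaf.stalk x) →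
      ∃ U : X.AffineZariskiSite, x ∈ U.toOpens ∧ U.toOpens ≤ T ∧ Function.Surjective ((sys h).ev U) :=
    fun x T hx _ _ => LocSurj.exists_surjective_of_normal (sys h) hS hfin hx
  refine ⟨(sys h).obj, inferInstance, (sys h).hom, inferInstance, ?_, ?_, ?_⟩
  · refine SubIso.isIso_restrict (sys h) W fun x hx => ?_
    rcases hW x hx with ⟨h1, h2⟩ | ⟨T, hxT, hTW, hT⟩
    · exact hnorm x W hx h1 h2
    · obtain ⟨U, hxU, hUT, hU⟩ :=
        Groth.Agent.Ega2.H284.FreeSurjT.exists_surjective_ev_of_isFinLocFree h x T hxT hT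
      exact ⟨U, hxU, hUT.trans hTW, hU⟩
  · have hgen : ∀ η ∈ genericPoints X,
        ∃ U : X.AffineZariskiSite, η ∈ U.toOpens ∧ U.toOpens ≤ ⊤ ∧ Function.Surjective ((sys h).ev U) := by
      intro η hη
      obtain ⟨h1, h2⟩ := Assembly.normal_of_maxPt hη
      exact hnorm η ⊤ trivial h1 h2
    let V : X.Opens := ⨆ U : {U : X.AffineZariskiSite // Function.Surjective ((sys h).ev U)}, U.1.toOpens
    have hV : ∀ η ∈ genericPoints X, η ∈ V := by
      intro η hη
      obtain ⟨U, hηU, -, hU⟩ := hgen η hη
      exact TopologicalSpace.Opens.mem_iSup.2 ⟨⟨U, hU⟩, hηU⟩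
    refine ⟨V, SubIso.dense_of_maxPt hV, SubIso.dense_preimage (sys h) hV, ?_⟩
    refine SubIso.isIso_restrict (sys h) V fun x hx => ?_
    obtain ⟨U, hxU⟩ := TopologicalSpace.Opens.mem_iSup.1 hx
    exact ⟨U.1, hxU, le_iSup (fun U : {U : X.AffineZariskiSite // Function.Surjective ((sys h).ev U)} =>
      U.1.toOpens) U, U.2⟩
  · intro L hL hamp
    exact (fam h hn).toNormData.isRelAmple hn f hL hamp

end Groth.Agent.S3599
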