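import Groth.Statements.S3600
import Groth.Agent.LoccohB.RightAdj2
import Groth.Agent.S1002

set_option autoImplicit false
universe u
open CategoryTheory CategoryTheory.Limits AlgebraicGeometry
attribute [local instance] HasDerivedCategory.standard
open Dual3

namespace Groth.Agent.S3600

/-- Let Y be a quasi-compact quasi-separated scheme and f : X → Y a morphism which is proper, flat and
of finite presentation. Assume the derived direct image Rf_* exists and preserves quasi-coherence of
cohomology sheaves (both known results), so that it restricts to a functor D_QCoh(O_X) →
D_QCoh(O_Y), and let a : D_QCoh(O_Y) → D_QCoh(O_X) be a right adjoint of this restricted functor.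
Then a commutes with direct sums: it preserves all coproducts indexed by types in the ambient
universe. -/
theorem result (X Y : Scheme.{u}) [CompactSpace Y] [QuasiSeparatedSpace Y] (f : X ⟶ Y) [IsProper f] [Flat f] [LocallyOfFinitePresentation f] [DCoh.HasRpush f] (hf : DCoh.RpushPreservesQCoh f) (a : DCoh.DQCoh Y ⥤ DCoh.DQCoh X) (adj : DCoh.RpushQ f hf ⊣ a) (J : Type u) : PreservesColimitsOfShape (Discrete J) a := by
  have : CompactSpace X := QuasiCompact.compactSpace_of_compactSpace f
  have : QuasiSeparatedSpace X := quasiSeparatedSpace_of_quasiSeparated f
  exact LoccohB.RightAdj2.preservesCoproducts_of_perfect f hf (fun K hK => S1002.result f K hK) a adj J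

end Groth.Agent.S3600
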