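import Groth.Statements.S3601
import Groth.Agent.Dual.H305.Supp

set_option autoImplicit false
universe u
open CategoryTheory CategoryTheory.Limits AlgebraicGeometry
attribute [local instance] HasDerivedCategory.standard
open Dual3

namespace Groth.Agent.S3601

/-- Let Y be a quasi-compact quasi-separated scheme and f : X → Y a morphism which is proper, flat and
of finite presentation. Assume the derived direct image Rf_* exists and preserves quasi-coherence of
cohomology sheaves (both known results), so that it restricts to a functor D_QCoh(O_X) →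
D_QCoh(O_Y), and let a : D_QCoh(O_Y) → D_QCoh(O_X) be a right adjoint of this restricted functor.
Let V ⊆ Y be any open subset, with closed complement T. If Q in D_QCoh(O_Y) has all its cohomology
sheaves restricting to zero on V (Q is supported on T), then all cohomology sheaves of a(Q) restrict
to zero on f⁻¹V (a(Q) is supported on f⁻¹T). No boundedness of Q is required. (The published
statement has further parts, which are not asserted here.) -/
theorem result (X Y : Scheme.{u}) [CompactSpace Y] [QuasiSeparatedSpace Y] (f : X ⟶ Y) [IsProper f] [Flat f] [LocallyOfFinitePresentation f] [DCoh.HasRpush f] (hf : DCoh.RpushPreservesQCoh f) (a : DCoh.DQCoh Y ⥤ DCoh.DQCoh X) (adj : DCoh.RpushQ f hf ⊣ a) (V : Y.Opens) (Q : DCoh.DQCoh Y) (hQV : ∀ i : ℤ, IsZero ((DCoh.HD Q.obj i).restrict V.ι)) (i : ℤ) : IsZero ((DCoh.HD (a.obj Q).obj i).restrict (f ⁻¹ᵁ V).ι) :=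
  (LoccohB.VanOn.vanOn_iff _ _).1 (Dual.H305.Supp.vanOn_preimage_of_pushPerf f
    (fun W _ => Dual.H305.Supp.pushPerf_restrict_of_flat_proper f W) hf a adj V Q
    ((LoccohB.VanOn.vanOn_iff _ _).2 hQV)) i

end Groth.Agent.S3601
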