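import Groth.Statements.S3602
import Groth.Agent.Dual.H306.BCPushQ

set_option autoImplicit false
universe u
open CategoryTheory CategoryTheory.Limits AlgebraicGeometry
attribute [local instance] HasDerivedCategory.standard
open Dual3

namespace Groth.Agent.S3602

/-- In the cases g flat or f flat (both are Tor independent squares). Consider a cartesian square of
quasi-compact quasi-separated schemes X' = Y' ×_Y X with maps f : X → Y, g : Y' → Y, f' : X' → Y',
g' : X' → X. Let the derived direct images on D_QCoh of all four maps be given (assumed to exist and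
to preserve quasi-coherence of cohomology), with right adjoints a of Rf_* and a' of Rf'_*. Then
there is an identification e : Rf_* ∘ Rg'_* ≅ Rg_* ∘ Rf'_* of the two composite derived direct
images for which the induced transformation ξ : Rg'_* ∘ a' → a ∘ Rg_* (adjoint to Rf_* Rg'_* a' ≅
Rg_* Rf'_* a' → Rg_*) is an isomorphism on every object. -/
theorem result (X Y X' Y' : Scheme.{u}) [CompactSpace X] [QuasiSeparatedSpace X] [CompactSpace Y] [QuasiSeparatedSpace Y] [CompactSpace X'] [QuasiSeparatedSpace X'] [CompactSpace Y'] [QuasiSeparatedSpace Y'] (f : X ⟶ Y) (g : Y' ⟶ Y) (f' : X' ⟶ Y') (g' : X' ⟶ X) (hsq : IsPullback g' f' f g) (hflat : Flat f ∨ Flat g) [DCoh.HasRpush f] [DCoh.HasRpush f'] [DCoh.HasRpush g] [DCoh.HasRpush g'] (hf : DCoh.RpushPreservesQCoh f) (hf' : DCoh.RpushPreservesQCoh f') (hg : DCoh.RpushPreservesQCoh g) (hg' : DCoh.RpushPreservesQCoh g') (a : DCoh.DQCoh Y ⥤ DCoh.DQCoh X) (a' : DCoh.DQCoh Y' ⥤ DCoh.DQCoh X') (adj : DCoh.RpushQ f hf ⊣ a) (adj' : DCoh.RpushQ f' hf' ⊣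 a') : ∃ e : (DCoh.RpushQ g' hg' ⋙ DCoh.RpushQ f hf ≅ DCoh.RpushQ f' hf' ⋙ DCoh.RpushQ g hg), ∀ M : DCoh.DQCoh Y', IsIso (Dual3.xi adj adj' e M) := by
  have h1 : QuasiCompact f := inferInstance
  have h2 : QuasiSeparated f := inferInstance
  exact Groth.Agent.Dual.H306.BCPushQ.exists_xi hflat hsq adj adj'

end Groth.Agent.S3602
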