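import Groth.Statements.S3603
import Groth.Agent.Dual.H307.BcGen
import Groth.Agent.S1002

set_option autoImplicit false
universe u
open CategoryTheory CategoryTheory.Limits AlgebraicGeometry
attribute [local instance] HasDerivedCategory.standard
open Dual3

namespace Groth.Agent.S3603

/-- Consider a cartesian square of quasi-compact quasi-separated schemes X' = Y' ×_Y X with f : X → Y
proper, flat and of finite presentation, g : Y' → Y arbitrary, and projections f' : X' → Y', g' : X'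
→ X. Let the derived direct images on D_QCoh of the four maps and the derived pullbacks Lg^*, Lg'^*
on D_QCoh be given with adjunctions Lg^* ⊣ Rg_*, Lg'^* ⊣ Rg'_* (all assumed to exist and to preserve
quasi-coherence of cohomology), and let a, a' be right adjoints of Rf_*, Rf'_*. Then there is an
identification e : Rf_* ∘ Rg'_* ≅ Rg_* ∘ Rf'_* for which ξ : Rg'_* a' → a Rg_* is an isomorphism and
the base change map Lg'^* a(K) → Lg'^* a(Rg_* Lg^* K) → Lg'^* Rg'_* a'(Lg^* K) → a'(Lg^* K) (unit,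
inverse of ξ, counit) is an isomorphism for every K in D_QCoh(O_Y). -/
theorem result (X Y X' Y' : Scheme.{u}) [CompactSpace X] [QuasiSeparatedSpace X] [CompactSpace Y] [QuasiSeparatedSpace Y] [CompactSpace X'] [QuasiSeparatedSpace X'] [CompactSpace Y'] [QuasiSeparatedSpace Y'] (f : X ⟶ Y) (g : Y' ⟶ Y) (f' : X' ⟶ Y') (g' : X' ⟶ X) (hsq : IsPullback g' f' f g) [IsProper f] [Flat f] [LocallyOfFinitePresentation f] [DCoh.HasRpush f] [DCoh.HasRpush f'] [DCoh.HasRpush g] [DCoh.HasRpush g'] (hf : DCoh.RpushPreservesQCoh f) (hf' : DCoh.RpushPreservesQCoh f') (hg : DCoh.RpushPreservesQCoh g) (hg' : DCoh.RpushPreservesQCoh g') (a : DCoh.DQCoh Y ⥤ DCoh.DQCoh X) (a' : DCoh.DQCoh Y' ⥤ DCoh.DQCoh X') (adj : DCoh.RpushQ f hf ⊣ a) (adj' : DCoh.RpushQ f' hf' ⊣ a') [DCoh.HasLpull g] [DCoh.HasLpull g'] (hLg : Dual3.LpullPreservesQCoh g) (hLg' : Dual3.LpullPreservesQCoh g') (adjg : Dual3.LpullQ g hLg ⊣ DCoh.RpushQ g hg) (adjg' : Dual3.LpullQ g' hLg' ⊣ DCoh.RpushQ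 g' hg') : ∃ (e : (DCoh.RpushQ g' hg' ⋙ DCoh.RpushQ f hf ≅ DCoh.RpushQ f' hf' ⋙ DCoh.RpushQ g hg)) (hξ : ∀ M : DCoh.DQCoh Y', IsIso (Dual3.xi adj adj' e M)), ∀ K : DCoh.DQCoh Y, IsIso (Dual3.bcMap adj adj' e adjg adjg' K (hξ _)) := by
  exact Groth.Agent.Dual.H307.BcGen.exists_bcMap (Or.inl inferInstance) hsq
    (fun P hP => Groth.Agent.S1002.result f P hP) adj adj' adjg adjg'

end Groth.Agent.S3603
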