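import Groth.Statements.S3604
import Groth.Agent.Dual.H322.BcUniv
import Groth.Agent.Dual.H345.AffProper

set_option autoImplicit false
universe u
open CategoryTheory CategoryTheory.Limits AlgebraicGeometry
attribute [local instance] HasDerivedCategory.standard
open Dual3

namespace Groth.Agent.S3604

/-- Consider a cartesian square of schemes X' = Y' ×_Y X with projections f' : X' → Y' and g' : X' → X,
in which X and X' are quasi-compact and quasi-separated, Y and Y' are affine, Y is Noetherian, f : X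
→ Y is proper and g : Y' → Y is flat. Assume the derived direct images along f, f', g and g' exist
and preserve quasi-coherence of cohomology, giving functors Rf_*, Rf'_*, Rg_*, Rg'_* between the
categories D_QCoh; let a and a' be right adjoints of Rf_* and Rf'_* on D_QCoh; and assume the
derived pullbacks Lg^* and Lg'^* exist, preserve D_QCoh and are left adjoint there to Rg_* and
Rg'_*. Then there is an identification e : Rf_* ∘ Rg'_* ≅ Rg_* ∘ Rf'_* with the following two
properties. First, for every M in D_QCoh(O_{Y'}) the map ξ_M : Rg'_* a'(M) → a(Rg_* M), adjoint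
under Rf_* ⊣ a to the composite Rf_* Rg'_* a'(M) ≅ Rg_* Rf'_* a'(M) → Rg_* M of e with Rg_* of the
counit of Rf'_* ⊣ a', is an isomorphism. Second, for every bounded below K in D_QCoh(O_Y) the base
change map Lg'^* a(K) → a'(Lg^* K), the composite Lg'^* a(K) → Lg'^* a(Rg_* Lg^* K) → Lg'^* Rg'_*
a'(Lg^* K) → a'(Lg^* K) of the unit of Lg^* ⊣ Rg_*, the inverse of ξ and the counit of Lg'^* ⊣
Rg'_*, is an isomorphism. (The published statement covers base change morphisms g of finite Tor
dimension that are Tor independent of f; a flat morphism of affine schemes is such, and only that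
case is stated here.) -/
theorem result (X Y X' Y' : Scheme.{u}) [CompactSpace X] [QuasiSeparatedSpace X] [CompactSpace X'] [QuasiSeparatedSpace X'] (f : X ⟶ Y) (g : Y' ⟶ Y) (f' : X' ⟶ Y') (g' : X' ⟶ X) (hsq : IsPullback g' f' f g) [IsAffine Y] [IsAffine Y'] [IsNoetherian Y] [IsProper f] [Flat g] [DCoh.HasRpush f] [DCoh.HasRpush f'] [DCoh.HasRpush g] [DCoh.HasRpush g'] (hf : DCoh.RpushPreservesQCoh f) (hf' : DCoh.RpushPreservesQCoh f') (hg : DCoh.RpushPreservesQCoh g) (hg' : DCoh.RpushPreservesQCoh g') (a : DCoh.DQCoh Y ⥤ DCoh.DQCoh X) (a' : DCoh.DQCoh Y' ⥤ DCoh.DQCoh X') (adj : DCoh.RpushQ f hf ⊣ a) (adj' : DCoh.RpushQ f' hf' ⊣ a') [DCoh.HasLpull g] [DCoh.HasLpull g'] (hLg : Dual3.LpullPreservesQCoh g) (hLg' : Dual3.LpullPreservesQCoh g') (adjg : Dual3.LpullQ g hLg ⊣ DCoh.RpushQ g hg) (adjg' : Dual3.LpullQ g' hLg' ⊣ DCoh.RpushQ g' hg') : ∃ (e : (DCoh.RpushQ g' hg' ⋙ DCoh.RpushQ f hf ≅ DCoh.RpushQ f' hf' ⋙ DCoh.RpushQ g hg)) (hξ : ∀ M : DCoh.DQCoh Y', IsIso (Dual3.xi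 adj adj' e M)), ∀ (K : DCoh.DQCoh Y) (c : ℤ), (∀ i : ℤ, i < c → IsZero (DCoh.HD K.obj i)) → IsIso (Dual3.bcMap adj adj' e adjg adjg' K (hξ _)) := by
  obtain ⟨e, he⟩ := Groth.Agent.Dual.H322.BcSch.exists_e_flat (hf := hf) (hf' := hf') (hg := hg)
    (hg' := hg') hsq adjg adjg'
  obtain ⟨h1, h2⟩ := Groth.Agent.Dual.H322.BcSch.bc_summary adj adj' e adjg adjg' he
  refine ⟨e, h1, fun K c hc => ?_⟩
  rw [h2, Groth.Agent.Dual.H322.BcUniv.isIso_bc_iff_isUniv]
  have hk : K.obj.IsGE c := (DerivedCategory.isGE_iff K.obj c).2 hc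
  refine Groth.Agent.Dual.H345.AffProper.isUniv_flat_of_isProper hsq K.property c hk
    (Groth.Agent.Ega1.ADualUniv.isUniv_of_adj (h := hf) adj K)
    (fun N hN => (ObjectProperty.ι _).mapIso
      ((Groth.Agent.Dual.H322.BcSch.bcPushIso e adjg adjg' he).app ⟨N, hN⟩))
    (fun N N' hN hN' ψ => congrArg InducedCategory.Hom.hom
      ((Groth.Agent.Dual.H322.BcSch.bcPushIso e adjg adjg' he).hom.naturality
        (X := ⟨N, hN⟩) (Y := ⟨N', hN'⟩) (ObjectProperty.homMk ψ))) _ ?_
  have h3 := congrArg InducedCategory.Hom.hom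
    ((Groth.Agent.Dual.H322.BcSch.bcPushIso e adjg adjg' he).hom_inv_id_app (a.obj K))
  exact (Category.assoc _ _ _).symm.trans
    ((congrArg (fun t => t ≫ (DCoh.Lpull g).map (adj.counit.app K).hom) h3).trans
      (Category.id_comp _))

end Groth.Agent.S3604
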