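import Groth.Statements.S3605
-- import your own Groth.Agent.* helpers here
import Groth.Agent.S1002
import Groth.Agent.Dual.H309.PushDual

set_option autoImplicit false
universe u
open CategoryTheory CategoryTheory.Limits AlgebraicGeometry
attribute [local instance] HasDerivedCategory.standard
open Dual3

namespace Groth.Agent.S3605

/-- Let Y be a quasi-compact quasi-separated scheme and f : X → Y a morphism which is proper, flat and
of finite presentation. Assume the derived direct image Rf_* exists and preserves quasi-coherence of
cohomology sheaves (both known results), so that it restricts to a functor D_QCoh(O_X) →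
D_QCoh(O_Y), and let a : D_QCoh(O_Y) → D_QCoh(O_X) be a right adjoint of this restricted functor.
Let O be an object of D_QCoh(O_Y) isomorphic to the structure sheaf placed in degree 0, so that a(O)
is the relative dualizing complex of f. Then the cohomology sheaves of Rf_*a(O) vanish in all
positive degrees. (The published statement has further parts, which are not asserted here.) -/
theorem result (X Y : Scheme.{u}) [CompactSpace Y] [QuasiSeparatedSpace Y] (f : X ⟶ Y) [IsProper f] [Flat f] [LocallyOfFinitePresentation f] [DCoh.HasRpush f] (hf : DCoh.RpushPreservesQCoh f) (a : DCoh.DQCoh Y ⥤ DCoh.DQCoh X) (adj : DCoh.RpushQ f hf ⊣ a) (O : DCoh.DQCoh Y) (hO : Nonempty (O.obj ≅ DCoh.inD Y (Coh.structureModule Y))) (i : ℤ) (hi : 0 < i) : IsZero (DCoh.HD ((DCoh.RpushQ f hf).obj (a.obj O)).obj i) := by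
  have hp : DCoh.IsPerfect ((DCoh.Rpush f).obj (Groth.Agent.Dual.H309.PushDual.oD X)) :=
    Groth.Agent.S1002.result f _ (Groth.Agent.Dcoh.LocalD.isPerfect_of_iso
      (Groth.Agent.Dual.H309.PushDual.inDIso X) Groth.Agent.PerfB.StructFlat.isPerfect_inD_structure)
  have h := Groth.Agent.Dual.H309.PushDual.isLE_Rpush_obj f hf hp a adj O hO
  exact DerivedCategory.isZero_of_isLE _ 0 i hi

end Groth.Agent.S3605
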