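import Groth.Statements.S3606
import Groth.Agent.Dual.H310.Indep

set_option autoImplicit false
universe u
open CategoryTheory CategoryTheory.Limits AlgebraicGeometry
attribute [local instance] HasDerivedCategory.standard
open Dual3

namespace Groth.Agent.S3606

/-- Let S be a Noetherian scheme and X, Y schemes separated and of finite type over S, f : X → Y a
morphism over S. Take two compactifications of f, that is factorisations f = j_1 ∘ p_1 = j_2 ∘ p_2
with j_i : X → X_i open immersions and p_i : X_i → Y proper; let Rp_{i,*} on D_QCoh be given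
(assumed to exist and to preserve quasi-coherence of cohomology) with right adjoints a_i, and assume
restriction of modules to the opens X ⊆ X_i is exact. Then the two functors K ↦ a_1(K)|_X and K ↦
a_2(K)|_X from D^+_QCoh(O_Y) to D(O_X) are isomorphic: the upper shriek functor does not depend on
the compactification. -/
theorem result (S X Y : Scheme.{u}) [IsNoetherian S] (p : X ⟶ S) (q : Y ⟶ S) [Dual3.IsSepFT p] [Dual3.IsSepFT q] (f : X ⟶ Y) (w : f ≫ q = p) (c₁ c₂ : DEt.Compactification f) [DCoh.HasRpush c₁.fbar] [DCoh.HasRpush c₂.fbar] (h₁ : DCoh.RpushPreservesQCoh c₁.fbar) (h₂ : DCoh.RpushPreservesQCoh c₂.fbar) (a₁ : DCoh.DQCoh Y ⥤ DCoh.DQCoh c₁.Xbar) (a₂ : DCoh.DQCoh Y ⥤ DCoh.DQCoh c₂.Xbar) (adj₁ : DCoh.RpushQ c₁.fbar h₁ ⊣ a₁) (adj₂ : DCoh.RpushQ c₂.fbar h₂ ⊣ a₂) [PreservesFiniteLimits (Scheme.Modules.restrictFunctor c₁.j)] [PreservesFiniteLimits (Scheme.Modules.restrictFunctor c₂.j)] : Nonempty (Dual3.bddι Y ⋙ Dual3.shriekC c₁ a₁ ≅ Dual3.bddι Y ⋙ Dual3.shriekC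 c₂ a₂) := by
  have : IsNoetherian Y := Groth.Agent.Dual.H310.OpenBC.isNoetherian_of_finiteType q
  have : QuasiCompact (f ≫ q) := by rw [w]; infer_instance
  have : QuasiCompact f := QuasiCompact.of_comp f q
  obtain ⟨e⟩ := Groth.Agent.Dual.H310.Indep.nonempty_indep c₁ c₂ h₁ h₂ a₁ a₂ adj₁ adj₂
  exact ⟨Functor.isoWhiskerRight e (ObjectProperty.ι _)⟩

end Groth.Agent.S3606
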