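import Groth.Statements.S3607
import Groth.Agent.Dual.H492.LineMain
import Groth.Agent.Dual.H492.LineInput

set_option autoImplicit false
universe u
open CategoryTheory CategoryTheory.Limits AlgebraicGeometry
attribute [local instance] HasDerivedCategory.standard
open Dual3

namespace Groth.Agent.S3607

/-- Let S be a Noetherian scheme, Y separated and of finite type over S, and f : A^1_Y → Y the
projection from the affine line. Compute f^! through any compactification f = j ∘ p (j an open
immersion, p proper, Rp_* on D_QCoh assumed to exist and to preserve quasi-coherence, a a right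
adjoint of it, restriction to the open assumed exact) and let Lf^* be the derived pullback (assumed
to exist). Then there is an isomorphism of functors f^! ≅ Lf^*(-)[1] on D^+_QCoh(O_Y) (not asserted
to be canonical). -/
theorem result (S Y : Scheme.{u}) [IsNoetherian S] (q : Y ⟶ S) [Dual3.IsSepFT q] (c : DEt.Compactification (AffineSpace (ULift.{u} (Fin 1)) Y ↘ Y)) [DCoh.HasRpush c.fbar] (hc : DCoh.RpushPreservesQCoh c.fbar) (a : DCoh.DQCoh Y ⥤ DCoh.DQCoh c.Xbar) (adj : DCoh.RpushQ c.fbar hc ⊣ a) [PreservesFiniteLimits (Scheme.Modules.restrictFunctor c.j)] [DCoh.HasLpull (AffineSpace (ULift.{u} (Fin 1)) Y ↘ Y)] : Nonempty (Dual3.bddι Y ⋙ Dual3.shriekC c a ≅ Dual3.bddι Y ⋙ ObjectProperty.ι _ ⋙ DCoh.Lpull (AffineSpace (ULift.{u} (Fin 1)) Y ↘ Y) ⋙ shiftFunctor (DCoh.D (AffineSpace (ULift.{u} (Fin 1)) Y)) (1 : ℤ)) := by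
  have : IsNoetherian Y := Groth.Agent.Dual.H310.OpenBC.isNoetherian_of_finiteType q
  exact Groth.Agent.Dual.H492.LineMain.of_trivialization c hc a adj
    (fun hR hc' a' adj' O hO hj => by
      have hR' : DCoh.HasRpush (CohB1.ProjSpaceOver.toBase 1 Y) := hR
      have hj' : PreservesFiniteLimits
          (Scheme.Modules.restrictFunctor (Groth.Agent.Sga4B.P1Geom.v Y 0)) := hj
      exact Groth.Agent.Dual.H492.LineInput.nonempty_restrict Y 0 hc' a' adj' O hO)

end Groth.Agent.S3607
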