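import Groth.Statements.S3608
import Groth.Agent.S3606
import Groth.Agent.Dual.H312.IdComp

set_option autoImplicit false
universe u
open CategoryTheory CategoryTheory.Limits AlgebraicGeometry
attribute [local instance] HasDerivedCategory.standard
open Dual3

namespace Groth.Agent.S3608

/-- Let S be a Noetherian scheme, X and Y schemes separated and of finite type over S and f : X → Y a
morphism over S; compute f^! through a compactification f = j ∘ p (j : X → X' an open immersion, p :
X' → Y proper, Rp_* on D_QCoh assumed to exist and to preserve quasi-coherence of cohomology, a a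
right adjoint of Rp_*, restriction of modules to opens assumed exact), so that f^!K = a(K)|_X. If f
is an open immersion then f^! is isomorphic, as a functor on D^+_QCoh(O_Y), to restriction K ↦ K|_X. -/
theorem result (S X Y : Scheme.{u}) [IsNoetherian S] (p : X ⟶ S) (q : Y ⟶ S) [Dual3.IsSepFT p] [Dual3.IsSepFT q] (f : X ⟶ Y) (w : f ≫ q = p) [IsOpenImmersion f] (c : DEt.Compactification f) [DCoh.HasRpush c.fbar] (hc : DCoh.RpushPreservesQCoh c.fbar) (a : DCoh.DQCoh Y ⥤ DCoh.DQCoh c.Xbar) (adj : DCoh.RpushQ c.fbar hc ⊣ a) [∀ (U V : Scheme.{u}) (j : U ⟶ V) [IsOpenImmersion j], PreservesFiniteLimits (Scheme.Modules.restrictFunctor j)] : Nonempty (Dual3.bddι Y ⋙ Dual3.shriekC c a ≅ Dual3.bddι Y ⋙ ObjectProperty.ι _ ⋙ DCoh.restrictD f) := by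
  have : DCoh.HasRpush (𝟙 Y) := Groth.Agent.Dcoh.DerSch.hasRpush (𝟙 Y)
  have h₂ : DCoh.RpushPreservesQCoh (𝟙 Y) := Groth.Agent.Dual.H312.IdComp.preservesQCoh_id Y
  obtain ⟨e⟩ := Groth.Agent.S3606.result S X Y p q f w c (Groth.Agent.Dual.H312.IdComp.idC f) hc h₂ a
    (𝟭 (DCoh.DQCoh Y)) adj (Groth.Agent.Dual.H312.IdComp.adjId Y h₂)
  exact ⟨e⟩

end Groth.Agent.S3608
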