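import Groth.Statements.S3609
-- import your own Groth.Agent.* helpers here
import Groth.Agent.Dual.H313.InvLocal
import Groth.Agent.S1828
import Groth.Agent.LoccohB.AdStruct
import Groth.Agent.Dual.H349.Bridge

set_option autoImplicit false
universe u
open CategoryTheory CategoryTheory.Limits AlgebraicGeometry
attribute [local instance] HasDerivedCategory.standard
open Dual3

namespace Groth.Agent.S3609

open Groth.Agent.Dual.H313.InvLocal in
/-- Let S be a Noetherian scheme, X and Y schemes separated and of finite type over S and f : X → Y a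
morphism over S; compute f^! through a compactification f = j ∘ p (j : X → X' an open immersion, p :
X' → Y proper, Rp_* on D_QCoh assumed to exist and to preserve quasi-coherence of cohomology, a a
right adjoint of Rp_*, restriction of modules to opens assumed exact), so that f^!K = a(K)|_X. If f
is a local complete intersection morphism (affine-locally given by local complete intersection ring
maps) and O denotes the structure sheaf of Y in degree 0, then f^!O is an invertible object of
D(O_X): every point of X has an open neighbourhood over which it is isomorphic to a shift of the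
structure sheaf. -/
theorem result (S X Y : Scheme.{u}) [IsNoetherian S] (p : X ⟶ S) (q : Y ⟶ S) [Dual3.IsSepFT p] [Dual3.IsSepFT q] (f : X ⟶ Y) (w : f ≫ q = p) (hf : Dual3.IsLCIMor f) (c : DEt.Compactification f) [DCoh.HasRpush c.fbar] (hc : DCoh.RpushPreservesQCoh c.fbar) (a : DCoh.DQCoh Y ⥤ DCoh.DQCoh c.Xbar) (adj : DCoh.RpushQ c.fbar hc ⊣ a) [∀ (U V : Scheme.{u}) (j : U ⟶ V) [IsOpenImmersion j], PreservesFiniteLimits (Scheme.Modules.restrictFunctor j)] (O : DCoh.DQCoh Y) (hO : Nonempty (O.obj ≅ DCoh.inD Y (Coh.structureModule Y))) : Dual3.IsInvertibleD ((Dual3.shriekC c a).obj O) := by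
  apply isInvertibleD_of_cover
  intro x
  obtain ⟨U, V, e, hx, hlci⟩ := hf x
  let _ : Algebra Γ(Y, V.1) Γ(X, U.1) := (f.appLE V.1 U.1 e).hom.toAlgebra
  have : IsNoetherian Y := Groth.Agent.LoccohB.AdStruct.isNoetherian_of_finiteType q
  have : IsNoetherian X := Groth.Agent.LoccohB.AdStruct.isNoetherian_of_finiteType p
  have hR : IsNoetherianRing Γ(Y, V.1) := IsLocallyNoetherian.component_noetherian V
  have hA : IsNoetherianRing Γ(X, U.1) := IsLocallyNoetherian.component_noetherian U
  obtain ⟨n, ψ, hψ, hI⟩ := id hlci.2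
  obtain ⟨z, hz⟩ : x ∈ Set.range U.2.fromSpec := by
    rw [U.2.range_fromSpec]; exact hx
  have := Groth.Agent.LoccohB.LBC.hasLBaseChange (algebraMap Γ(Y, V.1) (MvPolynomial (Fin n) Γ(Y, V.1)))
  have hL : ∀ g : Γ(X, U.1), DRing.HasLBaseChange (algebraMap Γ(X, U.1) (Localization.Away g)) :=
    fun g => Groth.Agent.LoccohB.LBC.hasLBaseChange _
  obtain ⟨eb⟩ := Groth.Agent.Dual.H349.Bridge.shriekC_bridge q f c hc a adj O hO U.2.fromSpec
    V.2.fromSpec (f.appLE V.1 U.1 e) (IsAffineOpen.SpecMap_appLE_fromSpec f V.2 U.2 e).symm n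
    ψ.toRingHom hψ ψ.comp_algebraMap (Groth.Agent.LoccohB.RAdj.coextAdj ψ.toRingHom)
  obtain ⟨g, hg, m, E⟩ := Groth.Agent.S1828.result Γ(Y, V.1) Γ(X, U.1) hlci n ψ hψ _
    (Groth.Agent.LoccohB.RAdj.coextAdj ψ.toRingHom) z
  rw [← hz]
  refine InvAt.of_restrict U.2.fromSpec _ z ?_
  exact (invAt_tilde Γ(X, U.1) _ z g hg m E).of_iso eb.symm

end Groth.Agent.S3609
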