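import Groth.Statements.S3610
-- import your own Groth.Agent.* helpers here
import Groth.Agent.Dual.H314.PerfLci

set_option autoImplicit false
universe u
open CategoryTheory CategoryTheory.Limits AlgebraicGeometry
attribute [local instance] HasDerivedCategory.standard
open Dual3

namespace Groth.Agent.S3610

/-- Let S be a Noetherian scheme, X and Y schemes separated and of finite type over S and f : X → Y a
morphism over S; compute f^! through a compactification f = j ∘ p (j : X → X' an open immersion, p :
X' → Y proper, Rp_* on D_QCoh assumed to exist and to preserve quasi-coherence of cohomology, a a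
right adjoint of Rp_*, restriction of modules to opens assumed exact), so that f^!K = a(K)|_X. If f
is a local complete intersection morphism then for every bounded below K in D_QCoh(O_Y) which is
perfect, f^!K is a perfect object of D(O_X). -/
theorem result (S X Y : Scheme.{u}) [IsNoetherian S] (p : X ⟶ S) (q : Y ⟶ S) [Dual3.IsSepFT p] [Dual3.IsSepFT q] (f : X ⟶ Y) (w : f ≫ q = p) (hf : Dual3.IsLCIMor f) (c : DEt.Compactification f) [DCoh.HasRpush c.fbar] (hc : DCoh.RpushPreservesQCoh c.fbar) (a : DCoh.DQCoh Y ⥤ DCoh.DQCoh c.Xbar) (adj : DCoh.RpushQ c.fbar hc ⊣ a) [∀ (U V : Scheme.{u}) (j : U ⟶ V) [IsOpenImmersion j], PreservesFiniteLimits (Scheme.Modules.restrictFunctor j)] (K : DCoh.DQCoh Y) (c₀ : ℤ) (hK : ∀ i : ℤ, i < c₀ → IsZero (DCoh.HD K.obj i)) (hP : DCoh.IsPerfect K.obj) : DCoh.IsPerfect ((Dual3.shriekC c a).obj K) := by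
  have hY : IsNoetherian Y := Groth.Agent.LoccohB.AdStruct.isNoetherian_of_finiteType q
  have hf' : Dual3.IsLCIMor (c.j ≫ c.fbar) := by
    rw [c.fac]
    exact hf
  have hGE : K.obj.IsGE c₀ := by
    rw [DerivedCategory.isGE_iff]
    exact fun i hi => hK i hi
  exact Groth.Agent.Dual.H314.PerfLci.isPerfect_of_univ_lci c.fbar c.j hf' hP c₀ hGE
    (Groth.Agent.Ega1.ADualUniv.univ_of_adj (h := hc) adj K)

end Groth.Agent.S3610
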