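import Groth.Statements.S3611
import Groth.Agent.Dual.H315.ShriekLow
import Groth.Agent.Dual.H349.Bridge
-- import your own Groth.Agent.* helpers here

set_option autoImplicit false
universe u
open CategoryTheory CategoryTheory.Limits AlgebraicGeometry
attribute [local instance] HasDerivedCategory.standard
open Dual3

namespace Groth.Agent.S3611

/-- Let S be a Noetherian scheme, X and Y schemes separated and of finite type over S and f : X → Y a
morphism over S; compute f^! through a compactification f = j ∘ p (j : X → X' an open immersion, p :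
X' → Y proper, Rp_* on D_QCoh assumed to exist and to preserve quasi-coherence of cohomology, a a
right adjoint of Rp_*, restriction of modules to opens assumed exact), so that f^!K = a(K)|_X. Let O
be the structure sheaf of Y in degree 0, x a point of X and n a natural number with dim_x(X_{f(x)})
≤ n (local dimension of the fibre at x). If the stalk of H^i(f^!O) at x is nonzero then -n ≤ i. -/
theorem result (S X Y : Scheme.{u}) [IsNoetherian S] (p : X ⟶ S) (q : Y ⟶ S) [Dual3.IsSepFT p] [Dual3.IsSepFT q] (f : X ⟶ Y) (w : f ≫ q = p) (c : DEt.Compactification f) [DCoh.HasRpush c.fbar] (hc : DCoh.RpushPreservesQCoh c.fbar) (a : DCoh.DQCoh Y ⥤ DCoh.DQCoh c.Xbar) (adj : DCoh.RpushQ c.fbar hc ⊣ a) [∀ (U V : Scheme.{u}) (j : U ⟶ V) [IsOpenImmersion j], PreservesFiniteLimits (Scheme.Modules.restrictFunctor j)] (O : DCoh.DQCoh Y) (hO : Nonempty (O.obj ≅ DCoh.inD Y (Coh.structureModule Y))) (x : X) (n : ℕ) (hn : Dual3.localFibreDim f x ≤ (n : WithBot ℕ∞)) (i : ℤ) (hi : Nontrivial ((DCoh.HD ((Dual3.shriekC c a).obj O) i).presheaf.stalk x)) : -(n : ℤ)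 ≤ i := by
  have hY : IsNoetherian Y := LoccohB.AdStruct.isNoetherian_of_finiteType q
  have hX : IsNoetherian X := LoccohB.AdStruct.isNoetherian_of_finiteType p
  have hf : LocallyOfFiniteType f := by
    have : LocallyOfFiniteType (f ≫ q) := by rw [w]; infer_instance
    exact locallyOfFiniteType_of_comp f q
  refine Dual.H315.ShriekLow.neg_le_of_nontrivial_stalk f _ ?_ x n hn i hi
  intro R A jU jV _ _ φ h m ψ hψ hψC _ _ _ Rψ adjψ
  exact Dual.H349.Bridge.shriekC_bridge q f c hc a adj O hO jU jV φ h m ψ hψ hψC adjψ

end Groth.Agent.S3611
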