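import Groth.Statements.S3616
import Groth.Agent.Dual.H320.GorShriek
import Groth.Agent.Dual.H349.Bridge

set_option autoImplicit false
universe u
open CategoryTheory CategoryTheory.Limits AlgebraicGeometry
attribute [local instance] HasDerivedCategory.standard
open Dual3

namespace Groth.Agent.S3616

/-- Let S be a Noetherian scheme, X and Y schemes separated and of finite type over S and f : X → Y a
morphism over S; compute f^! through a compactification f = j ∘ p (j : X → X' an open immersion, p :
X' → Y proper, Rp_* on D_QCoh assumed to exist and to preserve quasi-coherence of cohomology, a a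
right adjoint of Rp_*, restriction of modules to opens assumed exact), so that f^!K = a(K)|_X.
Assume f is flat and let O be the structure sheaf of Y in degree 0. Then f is Gorenstein at a point
x (flat at x with Gorenstein local ring of the fibre) if and only if x has an open neighbourhood U
such that (f^!O)|_U is an invertible object of D(O_U); and the set of points where f is Gorenstein
is open in X. -/
theorem result (S X Y : Scheme.{u}) [IsNoetherian S] (p : X ⟶ S) (q : Y ⟶ S) [Dual3.IsSepFT p] [Dual3.IsSepFT q] (f : X ⟶ Y) (w : f ≫ q = p) [Flat f] (c : DEt.Compactification f) [DCoh.HasRpush c.fbar] (hc : DCoh.RpushPreservesQCoh c.fbar) (a : DCoh.DQCoh Y ⥤ DCoh.DQCoh c.Xbar) (adj : DCoh.RpushQ c.fbar hc ⊣ a) [∀ (U V : Scheme.{u}) (j : U ⟶ V) [IsOpenImmersion j], PreservesFiniteLimits (Scheme.Modules.restrictFunctor j)] (O : DCoh.DQCoh Y) (hO : Nonempty (O.obj ≅ DCoh.inD Y (Coh.structureModule Y))) : (∀ x : X, Dual3.IsGorensteinAt f x ↔ ∃ U : X.Opens, x ∈ U ∧ Dual3.IsInvertibleD ((DCoh.restrictD U.ι).obj ((Dual3.shriekC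 c a).obj O))) ∧ IsOpen {x : X | Dual3.IsGorensteinAt f x} := by
  have hq : IsLocallyNoetherian Y := LocallyOfFiniteType.isLocallyNoetherian q
  have hf : LocallyOfFiniteType (f ≫ q) := w ▸ inferInstance
  have hf' : LocallyOfFiniteType f := locallyOfFiniteType_of_comp f q
  have key : ∀ x : X, Dual3.IsGorensteinAt f x ↔
      ∃ U : X.Opens, x ∈ U ∧ Dual3.IsInvertibleD ((DCoh.restrictD U.ι).obj ((Dual3.shriekC c a).obj O)) := by
    intro x
    rw [← Groth.Agent.Dual.H320.InvPt.invAt_iff]
    refine Groth.Agent.Dual.H320.GorShriek.isGorensteinAt_iff_invAt f _ ?_ x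
    intro V hV U hU e n ψ hψ _ _ Rψ adjψ
    let _ : Algebra Γ(Y, V) Γ(X, U) := (f.appLE V U e).hom.toAlgebra
    have hj : IsOpenImmersion hU.fromSpec := hU.isOpenImmersion_fromSpec
    have hj' : IsOpenImmersion hV.fromSpec := hV.isOpenImmersion_fromSpec
    exact Groth.Agent.Dual.H349.Bridge.shriekC_bridge q f c hc a adj O hO hU.fromSpec hV.fromSpec
      (f.appLE V U e) (by rw [IsAffineOpen.SpecMap_appLE_fromSpec]) n ψ.toRingHom hψ
      (by ext r; exact ψ.commutes r) adjψ
  refine ⟨key, ?_⟩
  rw [isOpen_iff_forall_mem_open]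
  intro x hx
  obtain ⟨U, hxU, hU⟩ := (key x).1 hx
  exact ⟨U, fun y hy => (key y).2 ⟨U, hy, hU⟩, U.isOpen, hxU⟩

end Groth.Agent.S3616
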