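import Groth.Statements.S3617
import Groth.Agent.Dual.H321.GorOpen

set_option autoImplicit false
universe u
open CategoryTheory CategoryTheory.Limits AlgebraicGeometry
attribute [local instance] HasDerivedCategory.standard
open Dual3

namespace Groth.Agent.S3617

/-- Let f : X → S be a morphism of schemes which is flat and locally of finite presentation. Then the
set of points of X at which f is Gorenstein (flat, with Gorenstein local ring of the fibre) is open
in X. -/
theorem result (X S : Scheme.{u}) (f : X ⟶ S) [Flat f] [LocallyOfFinitePresentation f] : IsOpen {x : X | Dual3.IsGorensteinAt f x} := by
  exact Groth.Agent.Dual.H321.GorOpen.isOpen_isGorensteinAt f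

end Groth.Agent.S3617
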