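import Groth.Statements.S3619
import Groth.Agent.Dual.H323.RelPerfect

set_option autoImplicit false
universe u
open CategoryTheory CategoryTheory.Limits AlgebraicGeometry
attribute [local instance] HasDerivedCategory.standard
open Dual3

namespace Groth.Agent.S3619

/-- Let Y be a quasi-compact quasi-separated scheme and f : X → Y a morphism which is proper, flat and
of finite presentation. Assume the derived direct image Rf_* exists and preserves quasi-coherence of
cohomology sheaves (both known results), so that it restricts to a functor D_QCoh(O_X) →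
D_QCoh(O_Y), and let a : D_QCoh(O_Y) → D_QCoh(O_X) be a right adjoint of this restricted functor.
Let O be an object of D_QCoh(O_Y) isomorphic to the structure sheaf placed in degree 0, so that ω =
a(O) is the relative dualizing complex of f. Then, first, ω is Y-perfect: it is m-pseudo-coherent
for every integer m and locally on X of finite tor dimension relative to Y; and second, for any
complex E of O_X-modules representing ω, with the derived functors − ⊗^L E ⊣ RHom(E, −) assumed to
exist, and any identification υ : O_X ⊗^L E ≅ E, the map O_X → RHom(E, E) adjoint to υ is an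
isomorphism in D(O_X). (The published statement has a further part, which is not asserted here.) -/
theorem result (X Y : Scheme.{u}) [CompactSpace Y] [QuasiSeparatedSpace Y] (f : X ⟶ Y) [IsProper f] [Flat f] [LocallyOfFinitePresentation f] [DCoh.HasRpush f] (hf : DCoh.RpushPreservesQCoh f) (a : DCoh.DQCoh Y ⥤ DCoh.DQCoh X) (adj : DCoh.RpushQ f hf ⊣ a) (O : DCoh.DQCoh Y) (hO : Nonempty (O.obj ≅ DCoh.inD Y (Coh.structureModule Y))) : ((∀ m : ℤ, DCoh.IsPseudoCoherentD m (a.obj O).obj) ∧ DCoh.LocHasFiniteRelTorDim f (a.obj O).obj) ∧ ∀ (E : CochainComplex X.Modules ℤ) (hE : Nonempty (DCoh.toD X E ≅ (a.obj O).obj)) [DCoh.HasLTensorCx E] [DCoh.HasRSheafHom E] (υ : (DCoh.LTensorCx E).obj (DCoh.inD X (Coh.structureModule X)) ≅ DCoh.toD X E), IsIso (((DCoh.RSheafHomAdj E).homEquiv (DCoh.inD X (Coh.structureModule X)) (DCoh.toD X E)) υ.hom) := by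
  obtain ⟨e⟩ := hO
  have h : Groth.Agent.Ega1.ADualUniv.Univ f O.obj (a.obj O).obj :=
    Groth.Agent.Ega1.ADualUniv.univ_of_adj (h := hf) adj O
  exact ⟨⟨Groth.Agent.Dual.H323.RelPerfect.isPseudoCoherentD f e h,
    Groth.Agent.Dual.H323.RelPerfect.locHasFiniteRelTorDim f e h⟩, fun E ⟨hE⟩ _ _ υ =>
      Groth.Agent.Dual.H323.RelPerfect.isIso_homEquiv f e h E hE υ⟩

end Groth.Agent.S3619
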