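import Groth.Statements.S3620
import Groth.Agent.Dual.H324.InvLoc

set_option autoImplicit false
universe u
open CategoryTheory CategoryTheory.Limits AlgebraicGeometry
attribute [local instance] HasDerivedCategory.standard
open Dual3

namespace Groth.Agent.S3620

/-- Let X be a locally Noetherian scheme with a dualizing complex K (restriction to opens and the tilde
functors assumed exact, as in the definition of dualizing complexes on schemes). Then X is
Gorenstein (all local rings Gorenstein) if and only if K is an invertible object of D(O_X), i.e.
locally isomorphic to a shift of the structure sheaf. -/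
theorem result (X : Scheme.{u}) [IsLocallyNoetherian X] [∀ (U V : Scheme.{u}) (j : U ⟶ V) [IsOpenImmersion j], PreservesFiniteLimits (Scheme.Modules.restrictFunctor j)] [∀ (R : CommRingCat.{u}), PreservesFiniteLimits (tilde.functor R)] (K : DCoh.D X) (hK : Dual2.IsDualizingSch X K) : Dual3.IsGorenstein X ↔ Dual3.IsInvertibleD K := by
  constructor
  · intro hX x
    obtain ⟨A, _, _, j, _, p, rfl, -⟩ := Dual.H324.InvLoc.exists_chart_le x ⊤ trivial
    obtain ⟨ω, hω, ⟨e⟩⟩ := hK A j
    exact Dual.H324.InvLoc.exists_nhd K j p hω e (hX.2 (j p))
  · intro h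
    refine ⟨inferInstance, fun x => ?_⟩
    obtain ⟨U, n, hx, ⟨e⟩⟩ := h x
    exact Dual.H324.InvLoc.gorenstein_of_nhd K hK x U n hx e

end Groth.Agent.S3620
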