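import Groth.Statements.S3621
-- import your own Groth.Agent.* helpers here
import Groth.Agent.Books.DualGorLocus
import Groth.Agent.LoccohB.GorBasic

set_option autoImplicit false
universe u
open CategoryTheory CategoryTheory.Limits AlgebraicGeometry
attribute [local instance] HasDerivedCategory.standard
open Dual3

namespace Groth.Agent.S3621

theorem gor_stalk_iff {X : Scheme.{u}} (A : Type u) [CommRing A]
    (j : Spec (CommRingCat.of A) ⟶ X) [IsOpenImmersion j] (p : PrimeSpectrum A) :
    LocCoh.IsGorensteinLocalRing (X.presheaf.stalk (j p)) ↔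
      LocCoh.IsGorensteinLocalRing (Localization.AtPrime p.asIdeal) := by
  have e1 : X.presheaf.stalk (j p) ≃+* (Spec (CommRingCat.of A)).presheaf.stalk p :=
    (asIso (j.stalkMap p)).commRingCatIsoToRingEquiv
  have e2 : (Spec (CommRingCat.of A)).presheaf.stalk p ≃+* Localization.AtPrime p.asIdeal :=
    (StructureSheaf.stalkIso A p).toRingEquiv.symm
  exact ⟨fun h => LoccohB.GorBasic.isGorensteinLocalRing_of_ringEquiv (e1.trans e2) h,
    fun h => LoccohB.GorBasic.isGorensteinLocalRing_of_ringEquiv (e1.trans e2).symm h⟩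

theorem exists_chart {X : Scheme.{u}} [IsLocallyNoetherian X] (x : X) :
    ∃ (A : Type u) (_ : CommRing A) (_ : IsNoetherianRing A) (j : Spec (CommRingCat.of A) ⟶ X)
      (_ : IsOpenImmersion j) (p : PrimeSpectrum A), j p = x := by
  obtain ⟨U, hU, hx, -⟩ := exists_isAffineOpen_mem_and_subset (x := x) (U := ⊤) trivial
  exact ⟨Γ(X, U), inferInstance, IsLocallyNoetherian.component_noetherian ⟨U, hU⟩, hU.fromSpec,
    inferInstance, hU.primeIdealOf ⟨x, hx⟩, hU.fromSpec_primeIdealOf ⟨x, hx⟩⟩

/-- Let X be a locally Noetherian scheme which has a dualizing complex (exactness instances as in the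
definition of dualizing complexes on schemes). Then the set of points x of X whose local ring
O_{X,x} is Gorenstein is open. -/
theorem result (X : Scheme.{u}) [IsLocallyNoetherian X] [∀ (U V : Scheme.{u}) (j : U ⟶ V) [IsOpenImmersion j], PreservesFiniteLimits (Scheme.Modules.restrictFunctor j)] [∀ (R : CommRingCat.{u}), PreservesFiniteLimits (tilde.functor R)] (K : DCoh.D X) (hK : Dual2.IsDualizingSch X K) : IsOpen {x : X | LocCoh.IsGorensteinLocalRing (X.presheaf.stalk x)} := by
  rw [isOpen_iff_forall_mem_open]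
  intro x hx
  obtain ⟨A, _, _, j, _, p, rfl⟩ := exists_chart x
  obtain ⟨L, hL, -⟩ := hK A j
  refine ⟨j '' {q : PrimeSpectrum A | LocCoh.IsGorensteinLocalRing (Localization.AtPrime q.asIdeal)},
    ?_, ?_, ?_⟩
  · rintro _ ⟨q, hq, rfl⟩
    exact (gor_stalk_iff A j q).2 hq
  · exact j.isOpenEmbedding.isOpenMap _ (Books.DualGorLocus.isOpen_gorenstein hL)
  · exact ⟨p, (gor_stalk_iff A j p).1 hx, rfl⟩

end Groth.Agent.S3621
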