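import Groth.Statements.S3622
import Groth.Agent.Dual.H326.GorDualSch

set_option autoImplicit false
universe u
open CategoryTheory CategoryTheory.Limits AlgebraicGeometry
attribute [local instance] HasDerivedCategory.standard
open Dual3

namespace Groth.Agent.S3622

/-- Let X be a Gorenstein scheme (exactness instances as in the definition of dualizing complexes on
schemes). Then X has a dualizing complex if and only if the structure sheaf placed in degree 0 is a
dualizing complex on X. -/
theorem result (X : Scheme.{u}) (hX : Dual3.IsGorenstein X) [∀ (U V : Scheme.{u}) (j : U ⟶ V) [IsOpenImmersion j], PreservesFiniteLimits (Scheme.Modules.restrictFunctor j)] [∀ (R : CommRingCat.{u}), PreservesFiniteLimits (tilde.functor R)] : (∃ K : DCoh.D X, Dual2.IsDualizingSch X K) ↔ Dual2.IsDualizingSch X (DCoh.inD X (Coh.structureModule X)) := by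
  refine ⟨?_, fun h => ⟨_, h⟩⟩
  rintro ⟨K, hK⟩
  refine Groth.Agent.Dual.H326.GorDualSch.isDualizingSch_structure hX fun A _ j _ => ?_
  obtain ⟨ω, hω, -⟩ := hK A j
  exact ⟨ω, hω⟩

end Groth.Agent.S3622
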