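import Groth.Statements.S3623
import Groth.Agent.LoccohB.GorLci

set_option autoImplicit false
universe u
open CategoryTheory CategoryTheory.Limits AlgebraicGeometry
attribute [local instance] HasDerivedCategory.standard
open Dual3

namespace Groth.Agent.S3623

/-- Sections of a Gorenstein scheme over an affine open form a Gorenstein ring. -/
theorem isGorensteinRing_section {X : Scheme.{u}} (hX : Dual3.IsGorenstein X)
    (V : X.affineOpens) : LocCoh.IsGorensteinRing Γ(X, V.1) := by
  have := hX.1
  have hN : IsNoetherianRing Γ(X, V.1) := IsLocallyNoetherian.component_noetherian V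
  refine { isGorensteinLocalRing_localization := fun p hp => ?_ }
  have hV : IsAffineOpen V.1 := V.2
  have hmem : hV.fromSpec ⟨p, hp⟩ ∈ V.1 := (hV.isoSpec.inv _).2
  let := TopCat.Presheaf.algebra_section_stalk X.presheaf (U := V.1) ⟨hV.fromSpec ⟨p, hp⟩, hmem⟩
  have hloc : IsLocalization.AtPrime (X.presheaf.stalk (hV.fromSpec ⟨p, hp⟩)) p :=
    hV.isLocalization_stalk' ⟨p, hp⟩ hmem
  exact LoccohB.GorBasic.isGorensteinLocalRing_of_ringEquiv
    (IsLocalization.algEquiv p.primeCompl (X.presheaf.stalk (hV.fromSpec ⟨p, hp⟩))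
      (Localization.AtPrime p)).toRingEquiv (hX.2 _)

/-- The stalks at the points of an affine open with Gorenstein ring of sections are Gorenstein. -/
theorem isGorensteinLocalRing_stalk {X : Scheme.{u}} (V : X.affineOpens)
    (h : LocCoh.IsGorensteinRing Γ(X, V.1)) (x : X) (hx : x ∈ V.1) :
    LocCoh.IsGorensteinLocalRing (X.presheaf.stalk x) := by
  have hV : IsAffineOpen V.1 := V.2
  let := TopCat.Presheaf.algebra_section_stalk X.presheaf (U := V.1) ⟨x, hx⟩
  have hloc : IsLocalization.AtPrime (X.presheaf.stalk x) (hV.primeIdealOf ⟨x, hx⟩).asIdeal :=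
    hV.isLocalization_stalk ⟨x, hx⟩
  exact LoccohB.GorBasic.isGorensteinLocalRing_of_ringEquiv
    (IsLocalization.algEquiv (hV.primeIdealOf ⟨x, hx⟩).asIdeal.primeCompl
      (Localization.AtPrime (hV.primeIdealOf ⟨x, hx⟩).asIdeal)
      (X.presheaf.stalk x)).toRingEquiv (h.isGorensteinLocalRing_localization _)

/-- Let f : Y → X be a local complete intersection morphism (affine-locally given by local complete
intersection ring maps) with X a Gorenstein scheme. Then Y is a Gorenstein scheme. -/
theorem result (Y X : Scheme.{u}) (f : Y ⟶ X) (hf : Dual3.IsLCIMor f) (hX : Dual3.IsGorenstein X) : Dual3.IsGorenstein Y := by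
  have key : ∀ y : Y, ∃ U : Y.affineOpens, y ∈ U.1 ∧ LocCoh.IsGorensteinRing Γ(Y, U.1) := by
    intro y
    obtain ⟨U, V, e, hy, h⟩ := hf y
    refine ⟨U, hy, ?_⟩
    let := (f.appLE V.1 U.1 e).hom.toAlgebra
    exact LoccohB.GorLci.isGorensteinRing_of_isLCI Γ(X, V.1) Γ(Y, U.1)
      (isGorensteinRing_section hX V) h
  choose U hU hG using key
  refine ⟨isLocallyNoetherian_of_affine_cover (S := U) ?_ 
    fun y => have := hG y; inferInstance,
    fun y => isGorensteinLocalRing_stalk (U y) (hG y) y (hU y)⟩
  rw [eq_top_iff]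
  exact fun y _ => TopologicalSpace.Opens.mem_iSup.2 ⟨y, hU y⟩

end Groth.Agent.S3623
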