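import Groth.Statements.S3624
import Groth.Agent.S0344
import Groth.Agent.LoccohA.GorBC
import Groth.Agent.Flat2D.FiberStalk

set_option autoImplicit false
universe u
open CategoryTheory CategoryTheory.Limits AlgebraicGeometry
attribute [local instance] HasDerivedCategory.standard
open Dual3

namespace Groth.Agent.S3624

/-- Let f : X → Y be a flat morphism of locally Noetherian schemes with X Gorenstein. Then f is a
Gorenstein morphism (flat with Gorenstein local rings of fibres at every point) and the local ring
O_{Y, f(x)} is Gorenstein for every point x of X. -/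
theorem result (X Y : Scheme.{u}) [IsLocallyNoetherian Y] (f : X ⟶ Y) [Flat f] (hX : Dual3.IsGorenstein X) : Dual3.IsGorensteinMor f ∧ ∀ x : X, LocCoh.IsGorensteinLocalRing (Y.presheaf.stalk (f x)) := by
  have key : ∀ x : X, LocCoh.IsGorensteinLocalRing (Y.presheaf.stalk (f x)) ∧
      LocCoh.IsGorensteinLocalRing (X.presheaf.stalk x ⧸
        Ideal.map (f.stalkMap x).hom
          (IsLocalRing.maximalIdeal (Y.presheaf.stalk (f x)))) := by
    intro x
    have := hX.1
    let _ : Algebra (Y.presheaf.stalk (f x)) (X.presheaf.stalk x) := (f.stalkMap x).hom.toAlgebra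
    have : IsLocalHom (algebraMap (Y.presheaf.stalk (f x)) (X.presheaf.stalk x)) :=
      inferInstanceAs (IsLocalHom (f.stalkMap x).hom)
    have : Module.Flat (Y.presheaf.stalk (f x)) (X.presheaf.stalk x) := Flat.stalkMap f x
    exact (S0344.result (Y.presheaf.stalk (f x)) (X.presheaf.stalk x)).1 (hX.2 x)
  refine ⟨fun x => ⟨Flat.stalkMap f x, ?_⟩, fun x => (key x).1⟩
  obtain ⟨e⟩ := Flat2D.FiberStalk.nonempty_asFiber_stalkEquiv' f x
  exact LoccohA.GorBC.isGorensteinLocalRing_of_ringEquiv e (key x).2

end Groth.Agent.S3624
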