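import Groth.Statements.S3625
import Groth.Agent.Dual.H329.GorBase

set_option autoImplicit false
universe u
open CategoryTheory CategoryTheory.Limits AlgebraicGeometry
attribute [local instance] HasDerivedCategory.standard
open Dual3

namespace Groth.Agent.S3625

/-- Let f : X → Y be a morphism of schemes all of whose fibres are locally Noetherian, g : Y' → Y
locally of finite type, and X' = Y' ×_Y X with projections f' : X' → Y', g' : X' → X. Let x' be a
point of X' with image x in X. Then: (1) if f is Gorenstein at x then f' is Gorenstein at x'; (2) if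
f is flat at x and f' is Gorenstein at x' then f is Gorenstein at x; (3) if g is flat at f'(x') and
f' is Gorenstein at x' then f is Gorenstein at x. -/
theorem result (X Y X' Y' : Scheme.{u}) (f : X ⟶ Y) (g : Y' ⟶ Y) (f' : X' ⟶ Y') (g' : X' ⟶ X) (hsq : IsPullback g' f' f g) (hfibf : ∀ y, IsLocallyNoetherian (f.fiber y)) [LocallyOfFiniteType g] (x' : X') : (Dual3.IsGorensteinAt f (g' x') → Dual3.IsGorensteinAt f' x') ∧ ((f.stalkMap (g' x')).hom.Flat → Dual3.IsGorensteinAt f' x' → Dual3.IsGorensteinAt f (g' x')) ∧ ((g.stalkMap (f' x')).hom.Flat → Dual3.IsGorensteinAt f' x' → Dual3.IsGorensteinAt f (g' x')) := by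
  have key := Groth.Agent.Dual.H329.GorBase.gorFib_iff_of_locallyOfFiniteType hsq hfibf x'
  rw [Groth.Agent.Dual.H329.GorBase.isGorensteinAt_iff,
    Groth.Agent.Dual.H329.GorBase.isGorensteinAt_iff]
  refine ⟨fun h => ⟨?_, key.2 h.2⟩, fun hf h => ⟨hf, key.1 h.2⟩, fun hg h => ⟨?_, key.1 h.2⟩⟩
  · exact Groth.Agent.Flat2D.FlatAtPt.flat_stalkMap_of_isPullback hsq x' h.1
  · have h1 : ((f' ≫ g).stalkMap x').hom.Flat :=
      Groth.Agent.Flat2D.FlatAtPt.flat_stalkMap_comp f' g x' h.1 hg
    rw [← hsq.w] at h1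
    have h2 : (g'.stalkMap x').hom.Flat :=
      Groth.Agent.Flat2D.FlatAtPt.flat_stalkMap_of_isPullback hsq.flip x' hg
    exact Groth.Agent.Flat2D.FlatAtPt.flat_stalkMap_of_comp g' f x' h1 h2

end Groth.Agent.S3625
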