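import Groth.Statements.S3626
import Groth.Agent.S1803
import Groth.Agent.LoccohB.GorBasic
import Groth.Agent.Dual.H330.FiberBC

set_option autoImplicit false
universe u
open CategoryTheory CategoryTheory.Limits AlgebraicGeometry
attribute [local instance] HasDerivedCategory.standard
open Dual3

namespace Groth.Agent.S3626

/-- Let f : X → Y be flat and locally of finite type, g : Y' → Y any morphism and X' = Y' ×_Y X with
projections f' : X' → Y', g' : X' → X. Then for every point x' of X', f' is Gorenstein at x' if and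
only if f is Gorenstein at g'(x'): formation of the Gorenstein locus commutes with base change. -/
theorem result (X Y X' Y' : Scheme.{u}) (f : X ⟶ Y) [Flat f] [LocallyOfFiniteType f] (g : Y' ⟶ Y) (f' : X' ⟶ Y') (g' : X' ⟶ X) (hsq : IsPullback g' f' f g) (x' : X') : Dual3.IsGorensteinAt f' x' ↔ Dual3.IsGorensteinAt f (g' x') := by
  obtain ⟨k, k', _, _, _, A, _, _, q, hq, ⟨e1⟩, ⟨e2⟩, hA, -, -⟩ := Dual.H330.FiberBC.exists_tensor hsq x'
  have hA : Algebra.FiniteType k A := hA inferInstance
  have h := S1803.result k k' A ⟨q, hq⟩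
  have hf' : Flat f' := MorphismProperty.of_isPullback (P := @Flat) hsq inferInstance
  refine ⟨fun h1 => ⟨Flat.stalkMap f (g' x'), ?_⟩, fun h1 => ⟨Flat.stalkMap f' x', ?_⟩⟩
  · exact LoccohB.GorBasic.isGorensteinLocalRing_of_ringEquiv e2.symm
      (h.2 (LoccohB.GorBasic.isGorensteinLocalRing_of_ringEquiv e1 h1.2))
  · exact LoccohB.GorBasic.isGorensteinLocalRing_of_ringEquiv e1.symm
      (h.1 (LoccohB.GorBasic.isGorensteinLocalRing_of_ringEquiv e2 h1.2))

end Groth.Agent.S3626
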