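import Groth.Statements.S3627
import Groth.Agent.Dual.H331.GorComp
import Groth.Agent.Sga3C.FlatOfComp

set_option autoImplicit false
universe u
open CategoryTheory CategoryTheory.Limits AlgebraicGeometry
attribute [local instance] HasDerivedCategory.standard
open Dual3

namespace Groth.Agent.S3627

open IsLocalRing

theorem gor_iff {X Y : Scheme.{u}} (f : X ⟶ Y) (x : X) :
    LocCoh.IsGorensteinLocalRing ((f.fiber (f x)).presheaf.stalk (f.asFiber x)) ↔
      LocCoh.IsGorensteinLocalRing (X.presheaf.stalk x ⧸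
        Ideal.map (f.stalkMap x).hom (maximalIdeal (Y.presheaf.stalk (f x)))) := by
  obtain ⟨e⟩ := Flat2D.FiberStalk.nonempty_asFiber_stalkEquiv' f x
  exact ⟨LoccohA.GorBC.isGorensteinLocalRing_of_ringEquiv e.symm,
    LoccohA.GorBC.isGorensteinLocalRing_of_ringEquiv e⟩

theorem noeth {X Y : Scheme.{u}} (f : X ⟶ Y) (x : X) (h : IsLocallyNoetherian (f.fiber (f x))) :
    IsNoetherianRing (X.presheaf.stalk x ⧸
        Ideal.map (f.stalkMap x).hom (maximalIdeal (Y.presheaf.stalk (f x)))) := by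
  obtain ⟨e⟩ := Flat2D.FiberStalk.nonempty_asFiber_stalkEquiv' f x
  exact isNoetherianRing_of_ringEquiv _ e.symm

/-- Let f : X → Y and g : Y → Z be morphisms such that the fibres of f, g and g ∘ f are locally
Noetherian, and let x be a point of X. (1) If f is Gorenstein at x and g is Gorenstein at f(x) then
g ∘ f is Gorenstein at x. (3) If g ∘ f is Gorenstein at x and f is flat at x then f is Gorenstein at
x and g is Gorenstein at f(x). -/
theorem result (X Y Z : Scheme.{u}) (f : X ⟶ Y) (g : Y ⟶ Z) (hfibf : ∀ y, IsLocallyNoetherian (f.fiber y)) (hfibg : ∀ y, IsLocallyNoetherian (g.fiber y)) (hfibfg : ∀ z, IsLocallyNoetherian ((f ≫ g).fiber z)) (x : X) : (Dual3.IsGorensteinAt f x → Dual3.IsGorensteinAt g (f x) → Dual3.IsGorensteinAt (f ≫ g) x) ∧ (Dual3.IsGorensteinAt (f ≫ g) x → (f.stalkMap x).hom.Flat → Dual3.IsGorensteinAt f x ∧ Dual3.IsGorensteinAt g (f x)) := by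
  simp only [IsGorensteinAt, gor_iff]
  have hB := noeth g (f x) (hfibg _)
  have hC := noeth (f ≫ g) x (hfibfg _)
  let A := Z.presheaf.stalk (g (f x))
  let B := Y.presheaf.stalk (f x)
  let C := X.presheaf.stalk x
  let _ : Algebra A B := (g.stalkMap (f x)).hom.toAlgebra
  let _ : Algebra B C := (f.stalkMap x).hom.toAlgebra
  let _ : Algebra A C := ((f ≫ g).stalkMap x).hom.toAlgebra
  have hcomp : (f ≫ g).stalkMap x = g.stalkMap (f x) ≫ f.stalkMap x :=
    Scheme.Hom.stalkMap_comp f g x
  have : IsScalarTower A B C := by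
    refine IsScalarTower.of_algebraMap_eq' ?_
    exact congrArg CommRingCat.Hom.hom hcomp
  have : IsLocalHom (algebraMap A B) := inferInstanceAs (IsLocalHom (g.stalkMap (f x)).hom)
  have : IsLocalHom (algebraMap B C) := inferInstanceAs (IsLocalHom (f.stalkMap x).hom)
  have key : Module.Flat B C → _ := fun h =>
    Dual.H331.GorComp.gorenstein_tower_iff A B C hB hC
  refine ⟨?_, ?_⟩
  · rintro ⟨h1, h2⟩ ⟨h3, h4⟩
    have hBC : Module.Flat B C := h1
    have hAB : Module.Flat A B := h3
    exact ⟨Module.Flat.trans A B C, (key h1).2 ⟨h4, h2⟩⟩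
  · rintro ⟨h1, h2⟩ h3
    have hBC : Module.Flat B C := h3
    have hAC : Module.Flat A C := h1
    have hff : Module.FaithfullyFlat B C := Module.FaithfullyFlat.of_flat_of_isLocalHom
    obtain ⟨h4, h5⟩ := (key h3).1 h2
    exact ⟨⟨h3, h5⟩, Sga3C.FlatOfComp.module_flat_of_comp A B C, h4⟩

end Groth.Agent.S3627
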