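import Groth.Statements.S3629
import Groth.Agent.Dual.H332.FlatDual
import Groth.Agent.Dual.H333.LciGor

set_option autoImplicit false
universe u
open CategoryTheory CategoryTheory.Limits AlgebraicGeometry
attribute [local instance] HasDerivedCategory.standard
open Dual3

namespace Groth.Agent.S3629

/-- Let f : X → Y be a surjective flat local complete intersection morphism between locally Noetherian
schemes, with derived pullback Lf^* (assumed to exist; exactness instances as in the definition of
dualizing complexes). Then an object K of D_QCoh(O_Y) is a dualizing complex on Y if and only if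
Lf^*K is a dualizing complex on X. -/
theorem result (X Y : Scheme.{u}) [IsLocallyNoetherian X] [IsLocallyNoetherian Y] [∀ (U V : Scheme.{u}) (j : U ⟶ V) [IsOpenImmersion j], PreservesFiniteLimits (Scheme.Modules.restrictFunctor j)] [∀ (R : CommRingCat.{u}), PreservesFiniteLimits (tilde.functor R)] (f : X ⟶ Y) [Surjective f] [Flat f] (hf : Dual3.IsLCIMor f) [DCoh.HasLpull f] (K : DCoh.DQCoh Y) : Dual2.IsDualizingSch Y K.obj ↔ Dual2.IsDualizingSch X ((DCoh.Lpull f).obj K.obj) := by
  have hft : LocallyOfFiniteType f :=
    Groth.Agent.Dual.H333.LciGor.locallyOfFiniteType_of_isLCIMor f hf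
  have hG : Dual3.IsGorensteinMor f :=
    Groth.Agent.Dual.H333.LciGor.isGorensteinMor_of_flat_of_isLCIMor f hf
  refine Groth.Agent.Dual.H332.FlatDual.isDualizingSch_iff_Lpull f (fun x => ?_) K
  obtain ⟨e⟩ := Groth.Agent.Flat2D.FiberStalk.nonempty_asFiber_stalkEquiv' f x
  exact ⟨inferInstance,
    Groth.Agent.LoccohB.GorBasic.isGorensteinLocalRing_of_ringEquiv e.symm (hG x).2⟩

end Groth.Agent.S3629
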