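import Groth.Statements.S3631
import Groth.Agent.Etdl.H424.PlusAdj

set_option autoImplicit false
universe u
open CategoryTheory CategoryTheory.Limits AlgebraicGeometry
attribute [local instance] HasDerivedCategory.standard
open Dual3

namespace Groth.Agent.S3631

/-- Let i : Z → X be a closed immersion of schemes, Hom(O_Z, -) the right adjoint of i_* on modules and
R Hom(O_Z, -) : D^+(O_X) → D^+(O_Z) its right derived functor (injective resolutions assumed to
exist). Then R Hom(O_Z, -) is right adjoint to Ri_* : D^+(O_Z) → D^+(O_X). -/
theorem result (Z X : Scheme.{u}) (i : Z ⟶ X) [IsClosedImmersion i] [Dual3.HasHomO i] [EnoughInjectives X.Modules] [EnoughInjectives Z.Modules] : Nonempty (DCoh.RpushPlus i ⊣ Dual3.RHomOPlus i) := by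
  have : PreservesLimitsOfSize.{0, 0} (Scheme.Modules.pushforward i) :=
    (Scheme.Modules.pullbackPushforwardAdjunction i).rightAdjoint_preservesLimits
  have : PreservesFiniteLimits (Scheme.Modules.pushforward i) :=
    PreservesLimitsOfSize.preservesFiniteLimits _
  exact ⟨Groth.Agent.Etdl.H424.PlusAdj.dadj (homOAdj i)⟩

end Groth.Agent.S3631
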