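import Groth.Statements.S3632
import Groth.Agent.Dual.H336.ReflectQC
import Groth.Agent.Dual.H337.CohR
import Groth.Agent.PerfC.ClosedPush

set_option autoImplicit false
universe u
open CategoryTheory CategoryTheory.Limits AlgebraicGeometry
attribute [local instance] HasDerivedCategory.standard
open Dual3

namespace Groth.Agent.S3632

/-- Let i : Z → X be a closed immersion with X locally Noetherian, and R Hom(O_Z, −) : D^+(O_X) →
D^+(O_Z) the right derived functor of the right adjoint of i_* (that right adjoint and enough
injective O_X-modules are assumed through instance binders). If K in D^+(O_X) has quasi-coherent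
cohomology sheaves then so does R Hom(O_Z, K). (The published statement assumes only that the closed
immersion is pseudo-coherent; here X is taken locally Noetherian, which implies this.) -/
theorem result (Z X : Scheme.{u}) [IsLocallyNoetherian X] (i : Z ⟶ X) [IsClosedImmersion i] [Dual3.HasHomO i] [EnoughInjectives X.Modules] (K : DerivedCategory.Plus X.Modules) (hK : DCoh.IsQCohD K.obj) : DCoh.IsQCohD ((Dual3.RHomOPlus i).obj K).obj := by
  have : PreservesFiniteLimits (Scheme.Modules.pushforward i) :=
    have : PreservesLimitsOfSize.{0, 0} (Scheme.Modules.pushforward i) :=
      (Scheme.Modules.pullbackPushforwardAdjunction i).rightAdjoint_preservesLimits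
    PreservesLimitsOfSize.preservesFiniteLimits _
  have : PreservesFiniteColimits (Scheme.Modules.pushforward i) :=
    Groth.Agent.PerfC.ClosedPush.preservesFiniteColimits i
  exact Groth.Agent.Dual.H336.ReflectQC.isQCohD_of_pushD i
    (Groth.Agent.Dual.H337.CohR.isQCohD_push_RHomOPlus i K hK)

end Groth.Agent.S3632
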