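import Groth.Statements.S3633
import Groth.Agent.Dual.H337.CohR
import Groth.Agent.Dual.H336.ReflectQC

set_option autoImplicit false
universe u
open CategoryTheory CategoryTheory.Limits AlgebraicGeometry
attribute [local instance] HasDerivedCategory.standard
open Dual3

namespace Groth.Agent.S3633

/-- Let i : Z → X be a closed immersion with X locally Noetherian and R Hom(O_Z, -) : D^+(O_X) →
D^+(O_Z) the right derived functor of the right adjoint of i_* (injective resolutions assumed). If K
in D^+(O_X) has coherent cohomology sheaves then so does R Hom(O_Z, K). -/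
theorem result (Z X : Scheme.{u}) [IsLocallyNoetherian X] (i : Z ⟶ X) [IsClosedImmersion i] [Dual3.HasHomO i] [EnoughInjectives X.Modules] (K : DerivedCategory.Plus X.Modules) (hK : DCoh.IsCohD K.obj) : DCoh.IsCohD ((Dual3.RHomOPlus i).obj K).obj := by
  have h0 : PreservesLimitsOfSize.{0, 0} (Scheme.Modules.pushforward i) :=
    (Scheme.Modules.pullbackPushforwardAdjunction i).rightAdjoint_preservesLimits
  have h1 : PreservesFiniteLimits (Scheme.Modules.pushforward i) :=
    PreservesLimitsOfSize.preservesFiniteLimits.{0, 0} _
  exact Groth.Agent.Dual.H336.ReflectQC.isCohD_of_pushD i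
    (Groth.Agent.Dual.H337.CohR.isCohD_push_RHomOPlus i K hK)

end Groth.Agent.S3633
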