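import Groth.Statements.S3634
import Groth.Agent.Dual.H338.Main
import Groth.Agent.Dual.H337.CohR
import Groth.Agent.Dual.H336.ReflectQC

set_option autoImplicit false
universe u
open CategoryTheory CategoryTheory.Limits AlgebraicGeometry
attribute [local instance] HasDerivedCategory.standard
open Dual3

namespace Groth.Agent.S3634

/-- Let X be a Noetherian scheme and i : Z → X a closed immersion. Assume the derived direct image Ri_*
exists and preserves quasi-coherence of cohomology sheaves (both known results), so that it
restricts to a functor D_QCoh(O_Z) → D_QCoh(O_X), and let a : D_QCoh(O_X) → D_QCoh(O_Z) be a right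
adjoint of this restricted functor. Assume further that i_* on O-modules has a right adjoint
Hom(O_Z, −) (the sections killed by the ideal of Z, viewed as an O_Z-module; this holds for a closed
immersion and is carried as a binder) and that the category of O_X-modules has enough injectives,
and let R Hom(O_Z, −) : D^+(O_X) → D^+(O_Z) be the right derived functor of Hom(O_Z, −). Then a and
R Hom(O_Z, −) are isomorphic as functors D^+_QCoh(O_X) → D(O_Z). (Stated for X Noetherian; the
published statement is more general.) -/
theorem result (Z X : Scheme.{u}) [IsNoetherian X] (i : Z ⟶ X) [IsClosedImmersion i] [Dual3.HasHomO i] [EnoughInjectives X.Modules] [DCoh.HasRpush i] (hf : DCoh.RpushPreservesQCoh i) (a : DCoh.DQCoh X ⥤ DCoh.DQCoh Z) (adj : DCoh.RpushQ i hf ⊣ a) : Nonempty (Dual3.bddι X ⋙ a ⋙ ObjectProperty.ι _ ≅ Dual3.bddToPlus X ⋙ Dual3.RHomOPlus i ⋙ (DerivedCategory.Plus.ι : DerivedCategory.Plus Z.Modules ⥤ DCoh.D Z)) := by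
  have : IsLocallyNoetherian X := inferInstance
  exact Groth.Agent.Dual.H338.Main.main i hf (fun K hK =>
    Groth.Agent.Dual.H336.ReflectQC.isQCohD_of_pushD i
      (Groth.Agent.Dual.H337.CohR.isQCohD_push_RHomOPlus i K hK)) a adj

end Groth.Agent.S3634
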