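import Groth.Statements.S3636
import Groth.Agent.Dual.H336.S3636End
import Groth.Agent.Dual.H324.CanSysMain

set_option autoImplicit false
universe u
open CategoryTheory CategoryTheory.Limits AlgebraicGeometry
attribute [local instance] HasDerivedCategory.standard
open Dual3

namespace Groth.Agent.S3636

/-- Existence of the dualizing complex normalized relative to ω_S: Let S be a Noetherian scheme with a
dualizing complex ω_S, given as a bounded below object W of D_QCoh(O_S), and let h : X → S be of
finite type (exactness instances as in the definition of dualizing complexes). Then there is a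
dualizing complex K on X such that for every open U ⊆ X which is separated over S, every
compactification U → U' → S of U over S (open immersion then proper morphism p, with Rp_* on D_QCoh
assumed to exist and preserve quasi-coherence and a a right adjoint of it), the restriction K|_U is
isomorphic to (U → S)^!ω_S = a(W)|_U. -/
theorem result (S X : Scheme.{u}) [IsNoetherian S] [∀ (U V : Scheme.{u}) (j : U ⟶ V) [IsOpenImmersion j], PreservesFiniteLimits (Scheme.Modules.restrictFunctor j)] [∀ (R : CommRingCat.{u}), PreservesFiniteLimits (tilde.functor R)] (W : DCoh.DQCoh S) (hW : Dual2.IsDualizingSch S W.obj) (n : ℤ) (hn : DerivedCategory.IsGE W.obj n) (h : X ⟶ S) [LocallyOfFiniteType h] [QuasiCompact h] : ∃ K : DCoh.D X, Dual2.IsDualizingSch X K ∧ ∀ (U : X.Opens), IsSeparated (U.ι ≫ h) → ∀ (c : DEt.Compactification (U.ι ≫ h)) [DCoh.HasRpush c.fbar] (hc : DCoh.RpushPreservesQCoh c.fbar) (a : DCoh.DQCoh S ⥤ DCoh.DQCoh c.Xbar), (DCoh.RpushQ c.fbar hc ⊣ a) → Nonempty ((DCoh.restrictD U.ι).obj K ≅ (Dual3.shriekC c a).obj W) :=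
  Groth.Agent.Dual.H336.S3636End.main W hW n hn h
    (Groth.Agent.Dual.H324.CanSysMain.canSys h W n hn)

end Groth.Agent.S3636
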