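import Groth.Statements.S3637
import Groth.Agent.Dual.H341.HypField
import Groth.Agent.Dual.H341.CMSch
import Groth.Agent.Ega1.DualSchBdd

set_option autoImplicit false
universe u
open CategoryTheory CategoryTheory.Limits AlgebraicGeometry
attribute [local instance] HasDerivedCategory.standard
open Dual3

namespace Groth.Agent.S3637

/-- Let X be proper over a field k, with all local rings of X Cohen–Macaulay and all irreducible
components of X of dimension d. Assume the derived pushforward Rf_* along the structure morphism f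
exists and preserves complexes with quasi-coherent cohomology (carried as hypotheses), let a be a
right adjoint to Rf_* : D_QCoh(O_X) → D_QCoh(Spec k), and let O be an object of D_QCoh(Spec k)
isomorphic to the structure sheaf placed in degree 0. Then H^i(a(O)) = 0 for i ≠ −d, so that a(O) =
ω_X[d] with ω_X = H^{−d}(a(O)); and ω_X is a coherent O_X-module whose stalk at every point x is a
nonzero Cohen–Macaulay module over O_{X,x} (in particular its support is all of X). -/
theorem result (k : Type u) [Field k] (X : Scheme.{u}) (f : X ⟶ Spec (CommRingCat.of k)) [IsProper f] (hCM : ∀ x : X, LocCoh.IsCohenMacaulayLocalRing (X.presheaf.stalk x)) (d : ℕ) (hd : ∀ Z : Set X, Z ∈ irreducibleComponents X → topologicalKrullDim ↥Z = (d : WithBot ℕ∞)) [DCoh.HasRpush f] (hf : DCoh.RpushPreservesQCoh f) (a : DCoh.DQCoh (Spec (CommRingCat.of k)) ⥤ DCoh.DQCoh X) (adj : DCoh.RpushQ f hf ⊣ a) (O : DCoh.DQCoh (Spec (CommRingCat.of k))) (hO : Nonempty (O.obj ≅ DCoh.inD (Spec (CommRingCat.of k)) (Coh.structureModule (Spec (CommRingCat.of k))))) : (∀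 i : ℤ, i ≠ -(d : ℤ) → IsZero (DCoh.HD (a.obj O).obj i)) ∧ Coh.IsCoh (DCoh.HD (a.obj O).obj (-(d : ℤ))) ∧ ∀ x : X, Nontrivial ((DCoh.HD (a.obj O).obj (-(d : ℤ))).presheaf.stalk x) ∧ LocCoh.IsCohenMacaulayModule (X.presheaf.stalk x) ((DCoh.HD (a.obj O).obj (-(d : ℤ))).presheaf.stalk x) := by
  have hK := Groth.Agent.Dual.H341.HypField.isDualizingSch k X f hf a adj O hO
  have hH := Groth.Agent.Dual.H341.HypField.hyp k X f hf a adj O hO
  have hLN : IsLocallyNoetherian X := LocallyOfFiniteType.isLocallyNoetherian f
  have hc : CompactSpace X := QuasiCompact.compactSpace_of_compactSpace f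
  have hz := Groth.Agent.Dual.H341.CMSch.isZero_HD hK hH hCM d hd
  exact ⟨hz, Groth.Agent.Ega1.DualSchBdd.isCohD_of_isDualizingSch hK _,
    fun x => Groth.Agent.Dual.H341.CMSch.stalk_of_concentrated hK _ hz x⟩

end Groth.Agent.S3637
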