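import Groth.Statements.S3638
import Groth.Agent.Dual.H342.HypField
import Groth.Agent.Dual.H342.NormSch

set_option autoImplicit false
universe u
open CategoryTheory CategoryTheory.Limits AlgebraicGeometry
attribute [local instance] HasDerivedCategory.standard
open Dual3

namespace Groth.Agent.S3638

/-- Let k be a field and X a scheme proper over k, with structure morphism f : X → Spec k and dim X = d.
Assume the derived direct image Rf_* exists and preserves quasi-coherence of cohomology sheaves
(both known results), so that it restricts to a functor D_QCoh(O_X) → D_QCoh(O_{Spec k}), and let a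
: D_QCoh(O_{Spec k}) → D_QCoh(O_X) be a right adjoint of this restricted functor. Let O be an object
of D_QCoh(O_{Spec k}) isomorphic to the structure sheaf placed in degree 0, and put ω_X =
H^{−d}(a(O)). Then ω_X is coherent; for every point x of X the stalk ω_{X,x} satisfies Serre's
condition (S_2) as a module over O_{X,x}; the support of ω_X (the set of points with nonzero stalk)
is the union of those irreducible components of X which have dimension d; and for every closed point
x and every integer i, some H^j(a(O)) with i ≤ j ≤ 0 has nonzero stalk at x if and only if i ≤ 0 and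
depth O_{X,x} ≤ −i. (The published statement has further parts, which are not asserted here, and is
phrased with the upper shriek f^!; for the proper morphism f, f^!O is the a(O) used here.) -/
theorem result (k : Type u) [Field k] (X : Scheme.{u}) (f : X ⟶ Spec (CommRingCat.of k)) [IsProper f] (d : ℕ) (hd : topologicalKrullDim X = (d : WithBot ℕ∞)) [DCoh.HasRpush f] (hf : DCoh.RpushPreservesQCoh f) (a : DCoh.DQCoh (Spec (CommRingCat.of k)) ⥤ DCoh.DQCoh X) (adj : DCoh.RpushQ f hf ⊣ a) (O : DCoh.DQCoh (Spec (CommRingCat.of k))) (hO : Nonempty (O.obj ≅ DCoh.inD (Spec (CommRingCat.of k)) (Coh.structureModule (Spec (CommRingCat.of k))))) : (Coh.IsCoh (DCoh.HD (a.obj O).obj (-(d : ℤ))) ∧ (∀ x : X, LocCoh.HasSk 2 (X.presheaf.stalk x) ((DCoh.HD (a.obj O).obj (-(d : ℤ))).presheaf.stalk x)) ∧ {x : X | Nontrivial ((DCoh.HD (a.obj O).obj (-(d : ℤ))).presheaf.stalk x)} = ⋃ Z ∈ {Z : Set X | Z ∈ irreducibleComponents X ∧ topologicalKrullDim ↥Z = (d : WithBot ℕ∞)}, Z) ∧ ∀ (x : X), IsClosed ({x} : Set X) → ∀ i : ℤ, ((∃ j : ℤ, i ≤ j ∧ j ≤ 0 ∧ Nontrivial ((DCoh.HD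 (a.obj O).obj j).presheaf.stalk x)) ↔ (LocCoh.depth (X.presheaf.stalk x) (X.presheaf.stalk x) : ℕ∞) ≤ ((-i).toNat : ℕ∞) ∧ i ≤ 0) := by
  have hK := Groth.Agent.Dual.H342.HypField.hyp k X f hf a adj O hO
  have : CompactSpace X := QuasiCompact.compactSpace_of_compactSpace f
  exact ⟨⟨Groth.Agent.Dual.H342.HypField.isCohD k X f hf a adj O hO _,
      Groth.Agent.Dual.H342.NormSch.hasSk_two hK d hd.le,
      Groth.Agent.Dual.H342.NormSch.support_lowest_eq hK d hd⟩,
    fun x hx i => Groth.Agent.Dual.H342.NormSch.exists_nontrivial_iff_depth_le hK x hx i⟩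

end Groth.Agent.S3638
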