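import Groth.Statements.S3639
import Groth.Agent.Dual.H343.Inv
import Groth.Agent.Dual.H343.RDPlus

set_option autoImplicit false
universe u
open CategoryTheory CategoryTheory.Limits AlgebraicGeometry
attribute [local instance] HasDerivedCategory.standard
open Dual3

namespace Groth.Agent.S3639

/-- Let X be a scheme and D ⊆ X an effective Cartier divisor, given by its ideal sheaf I (locally
generated by one nonzerodivisor) with closed immersion i : D → X; let L be an O_X-module inverse to
I for the tensor product (the module O_X(D)) and N = i^*L the normal sheaf. Let R Hom(O_D, -) :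
D^+(O_X) → D^+(O_D) be the right derived functor of the right adjoint of i_* (assumed to exist,
injective resolutions assumed) and O an object of D^+(O_X) isomorphic to the structure sheaf in
degree 0. Then H^j(R Hom(O_D, O)) = 0 for j ≠ 1 and H^1(R Hom(O_D, O)) is isomorphic to N; that is,
R Hom(O_D, O_X) = N[-1]. -/
theorem result (X : Scheme.{u}) (I : X.IdealSheafData) (hI : BlowUp.IsEffCartierIdeal I) [Dual3.HasHomO I.subschemeι] [EnoughInjectives X.Modules] (L : X.Modules) (hL : ClSub.IsInverseOf L (ClSub.idealMod I)) (O : DerivedCategory.Plus X.Modules) (hO : Nonempty (O.obj ≅ DCoh.inD X (Coh.structureModule X))) : (∀ j : ℤ, j ≠ 1 → IsZero (DCoh.HD ((Dual3.RHomOPlus I.subschemeι).obj O).obj j)) ∧ Nonempty (DCoh.HD ((Dual3.RHomOPlus I.subschemeι).obj O).obj 1 ≅ (Scheme.Modules.pullback I.subschemeι).obj L) := by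
  obtain ⟨e⟩ := hL
  obtain ⟨e'⟩ := hO
  have adj₂ := Dual3.homOAdj I.subschemeι
  have hl : PreservesFiniteLimits (Dual3.homO I.subschemeι) :=
    ⟨fun _ => adj₂.rightAdjoint_preservesLimits.preservesLimitsOfShape⟩
  refine ⟨fun j hj => ?_, ?_⟩
  · obtain hj' | ⟨n, rfl⟩ : j < 0 ∨ ∃ n : ℕ, j = (n : ℤ) := by
      by_cases h : j < 0
      · exact Or.inl h
      · exact Or.inr ⟨j.toNat, by lia⟩
    · exact Groth.Agent.Dual.H343.RDPlus.isZero_homology_of_neg (Dual3.homO I.subschemeι) O e' j hj'
    · refine IsZero.of_iso ?_ (Groth.Agent.Dual.H343.RDPlus.homologyIso (Dual3.homO I.subschemeι) O e' n)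
      rcases n with _ | _ | n
      · exact (Groth.Agent.Dual.H343.Inv.isZero_obj I L e adj₂).of_iso
          ((Dual3.homO I.subschemeι).rightDerivedZeroIsoSelf.app _)
      · exact absurd rfl hj
      · exact Groth.Agent.Dual.H343.Inv.isZero_rightDerived I L e adj₂ _ n
  · obtain ⟨e2⟩ := Groth.Agent.Dual.H343.Inv.nonempty_iso_one I L e adj₂
    exact ⟨Groth.Agent.Dual.H343.RDPlus.homologyIso (Dual3.homO I.subschemeι) O e' 1 ≪≫ e2⟩

end Groth.Agent.S3639
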