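import Groth.Statements.S3640
import Groth.Agent.Dual.H344.Cartier

set_option autoImplicit false
universe u
open CategoryTheory CategoryTheory.Limits AlgebraicGeometry
attribute [local instance] HasDerivedCategory.standard
open Dual3

namespace Groth.Agent.S3640

/-- Let X be a scheme and D ⊆ X an effective Cartier divisor with ideal sheaf I and closed immersion i :
D → X; let L be an O_X-module which is a tensor-inverse of I (a model of O_X(D)) and N = i^*L the
normal sheaf of D. Assume that i_* on O-modules has a right adjoint Hom(O_D, −) (the sections killed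
by I, viewed as an O_D-module) and that the category of O_X-modules has enough injectives, and let R
Hom(O_D, −) : D^+(O_X) → D^+(O_D) be its right derived functor; let Li^* be the derived pullback and
− ⊗^L N the derived tensor product with N on D(O_D), both assumed to exist. Then R Hom(O_D, −) ≅
(Li^*(−) ⊗^L N)[−1] as functors D^+(O_X) → D(O_D). (Stated on bounded below objects only.) -/
theorem result (X : Scheme.{u}) (I : X.IdealSheafData) (hI : BlowUp.IsEffCartierIdeal I) [Dual3.HasHomO I.subschemeι] [EnoughInjectives X.Modules] (L : X.Modules) (hL : ClSub.IsInverseOf L (ClSub.idealMod I)) [DCoh.HasLpull I.subschemeι] [DCoh.HasLTensorMod ((Scheme.Modules.pullback I.subschemeι).obj L)] : Nonempty (Dual3.RHomOPlus I.subschemeι ⋙ (DerivedCategory.Plus.ι : DerivedCategory.Plus I.subscheme.Modules ⥤ DCoh.D I.subscheme) ≅ (DerivedCategory.Plus.ι : DerivedCategory.Plus X.Modules ⥤ DCoh.D X) ⋙ DCoh.Lpull I.subschemeι ⋙ DCoh.LTensorMod ((Scheme.Modules.pullback I.subschemeι).obj L) ⋙ shiftFunctor (DCoh.D I.subscheme) (-1 : ℤ)) := by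
  obtain ⟨e⟩ := hL
  exact Groth.Agent.Dual.H344.Cartier.main I L e (Dual3.homOAdj I.subschemeι)

end Groth.Agent.S3640
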