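import Groth.Statements.S3641
import Groth.Agent.Dual.H346.FlatShriek
import Groth.Agent.Dual.H355.FBC

set_option autoImplicit false
universe u
open CategoryTheory CategoryTheory.Limits AlgebraicGeometry
attribute [local instance] HasDerivedCategory.standard
open Dual3

namespace Groth.Agent.S3641

/-- Let S be a Noetherian scheme and X' = Y' ×_Y X a cartesian square of schemes separated and of finite
type over S (maps f : X → Y, g : Y' → Y flat, f' : X' → Y', g' : X' → X, all over S). Compute f^!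
and f'^! through compactifications of f and f' with right adjoints a, a' of the proper parts
(derived direct images assumed to exist and preserve quasi-coherence; restrictions to opens exact)
and let Lg^*, Lg'^* be the derived pullbacks (assumed to exist, Lg^* preserving quasi-coherence).
Then Lg'^* ∘ f^! ≅ f'^! ∘ Lg^* as functors on D^+_QCoh(O_Y). -/
theorem result (S X Y X' Y' : Scheme.{u}) [IsNoetherian S] (p : X ⟶ S) (q : Y ⟶ S) (p' : X' ⟶ S) (q' : Y' ⟶ S) [Dual3.IsSepFT p] [Dual3.IsSepFT q] [Dual3.IsSepFT p'] [Dual3.IsSepFT q'] (f : X ⟶ Y) (g : Y' ⟶ Y) (f' : X' ⟶ Y') (g' : X' ⟶ X) (w : f ≫ q = p) (wg : g ≫ q = q') (w' : f' ≫ q' = p') (hsq : IsPullback g' f' f g) [Flat g] (c : DEt.Compactification f) (c' : DEt.Compactification f') [DCoh.HasRpush c.fbar] [DCoh.HasRpush c'.fbar] (hc : DCoh.RpushPreservesQCoh c.fbar) (hc' : DCoh.RpushPreservesQCoh c'.fbar) (a : DCoh.DQCoh Y ⥤ DCoh.DQCoh c.Xbar) (a' : DCoh.DQCoh Y' ⥤ DCoh.DQCoh c'.Xbar) (adj : DCoh.RpushQ c.fbar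 hc ⊣ a) (adj' : DCoh.RpushQ c'.fbar hc' ⊣ a') [∀ (U V : Scheme.{u}) (j : U ⟶ V) [IsOpenImmersion j], PreservesFiniteLimits (Scheme.Modules.restrictFunctor j)] [DCoh.HasLpull g] [DCoh.HasLpull g'] (hLg : Dual3.LpullPreservesQCoh g) : Nonempty (Dual3.bddι Y ⋙ Dual3.shriekC c a ⋙ DCoh.Lpull g' ≅ Dual3.bddι Y ⋙ Dual3.LpullQ g hLg ⋙ Dual3.shriekC c' a') := by
  have hY' : IsNoetherian Y' := LoccohB.AdStruct.isNoetherian_of_finiteType q'
  have hY : IsNoetherian Y := LoccohB.AdStruct.isNoetherian_of_finiteType q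
  refine Dual.H346.FlatShriek.nonempty_iso hsq c c' hc' a a' adj' hLg ?_
  intro hR hL h' hg hg' b adjb
  exact Dual.H355.FBC.nonempty_iso (IsPullback.of_hasPullback c.fbar g) adj adjb

end Groth.Agent.S3641
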