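import Groth.Statements.S3642
import Groth.Agent.Dual.H346.EtaleMain
import Groth.Agent.Dual.H355.FBC

set_option autoImplicit false
universe u
open CategoryTheory CategoryTheory.Limits AlgebraicGeometry
attribute [local instance] HasDerivedCategory.standard
open Dual3

namespace Groth.Agent.S3642

/-- Let S be a Noetherian scheme, X and Y schemes separated and of finite type over S and f : X → Y a
morphism over S; compute f^! through a compactification f = j ∘ p (j : X → X' an open immersion, p :
X' → Y proper, Rp_* on D_QCoh assumed to exist and to preserve quasi-coherence of cohomology, a a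
right adjoint of Rp_*, restriction of modules to opens assumed exact), so that f^!K = a(K)|_X. If f
is étale and Lf^* denotes its derived pullback (assumed to exist), then f^! ≅ Lf^* as functors on
D^+_QCoh(O_Y). -/
theorem result (S X Y : Scheme.{u}) [IsNoetherian S] (p : X ⟶ S) (q : Y ⟶ S) [Dual3.IsSepFT p] [Dual3.IsSepFT q] (f : X ⟶ Y) (w : f ≫ q = p) [Etale f] (c : DEt.Compactification f) [DCoh.HasRpush c.fbar] (hc : DCoh.RpushPreservesQCoh c.fbar) (a : DCoh.DQCoh Y ⥤ DCoh.DQCoh c.Xbar) (adj : DCoh.RpushQ c.fbar hc ⊣ a) [∀ (U V : Scheme.{u}) (j : U ⟶ V) [IsOpenImmersion j], PreservesFiniteLimits (Scheme.Modules.restrictFunctor j)] [DCoh.HasLpull f] : Nonempty (Dual3.bddι Y ⋙ Dual3.shriekC c a ≅ Dual3.bddι Y ⋙ ObjectProperty.ι _ ⋙ DCoh.Lpull f) := by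
  have hX : IsNoetherian X := LoccohB.AdStruct.isNoetherian_of_finiteType p
  have hY : IsNoetherian Y := LoccohB.AdStruct.isNoetherian_of_finiteType q
  refine Dual.H346.EtaleMain.nonempty_iso f c a ?_
  intro hR hL h' hg hg' a' adj'
  exact Dual.H355.FBC.nonempty_iso (IsPullback.of_hasPullback c.fbar f) adj adj'

end Groth.Agent.S3642
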