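import Groth.Statements.S3643
import Groth.Agent.Dual.H347.FibreMain
import Groth.Agent.Dual.H349.Bridge

set_option autoImplicit false
universe u
open CategoryTheory CategoryTheory.Limits AlgebraicGeometry
attribute [local instance] HasDerivedCategory.standard
open Dual3

namespace Groth.Agent.S3643

/-- Let S be a Noetherian scheme, X and Y schemes separated and of finite type over S and f : X → Y a
morphism over S; compute f^! through a compactification f = j ∘ p (j : X → X' an open immersion, p :
X' → Y proper, Rp_* on D_QCoh assumed to exist and to preserve quasi-coherence of cohomology, a a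
right adjoint of Rp_*, restriction of modules to opens assumed exact), so that f^!K = a(K)|_X.
Assume f is flat, let O be the structure sheaf of Y in degree 0 and ω = f^!O. For a point y of Y let
h : X_y → X be the inclusion of the fibre and Lh^* its derived pullback (assumed to exist; exactness
instances as in the definition of dualizing complexes). Then Lh^*ω is a dualizing complex on the
fibre X_y. -/
theorem result (S X Y : Scheme.{u}) [IsNoetherian S] (p : X ⟶ S) (q : Y ⟶ S) [Dual3.IsSepFT p] [Dual3.IsSepFT q] (f : X ⟶ Y) (w : f ≫ q = p) [Flat f] (c : DEt.Compactification f) [DCoh.HasRpush c.fbar] (hc : DCoh.RpushPreservesQCoh c.fbar) (a : DCoh.DQCoh Y ⥤ DCoh.DQCoh c.Xbar) (adj : DCoh.RpushQ c.fbar hc ⊣ a) [∀ (U V : Scheme.{u}) (j : U ⟶ V) [IsOpenImmersion j], PreservesFiniteLimits (Scheme.Modules.restrictFunctor j)] [∀ (R : CommRingCat.{u}), PreservesFiniteLimits (tilde.functor R)] (O : DCoh.DQCoh Y) (hO : Nonempty (O.obj ≅ DCoh.inD Y (Coh.structureModule Y))) (y : Y) [DCoh.HasLpull (f.fiberι y)] : Dual2.IsDualizingSch (f.fiber y) ((DCoh.Lpull (f.fiberι y)).obj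 ((Dual3.shriekC c a).obj O)) := by
  have hYN : IsLocallyNoetherian Y := LocallyOfFiniteType.isLocallyNoetherian q
  have hXN : IsLocallyNoetherian X := LocallyOfFiniteType.isLocallyNoetherian p
  have hf : LocallyOfFiniteType f := by
    have : LocallyOfFiniteType (f ≫ q) := by rw [w]; infer_instance
    exact locallyOfFiniteType_of_comp f q
  refine Groth.Agent.Dual.H347.FibreMain.isDualizing_of_shriekModel f ?_ y
  intro R A _ _ _ _ _ jU _ jV _ w' n ψ hψ _ Rψ adjψ
  exact Groth.Agent.Dual.H349.Bridge.shriekC_bridge q f c hc a adj O hO jU jV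
    (CommRingCat.ofHom (algebraMap R A)) w' n ψ.toRingHom hψ ψ.comp_algebraMap adjψ

end Groth.Agent.S3643
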