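import Groth.Statements.S3644
import Groth.Agent.Dual.H348.Perfect

set_option autoImplicit false
universe u
open CategoryTheory CategoryTheory.Limits AlgebraicGeometry
attribute [local instance] HasDerivedCategory.standard
open Dual3

namespace Groth.Agent.S3644

open Groth.Agent Groth.Agent.Dual.H348 in
open Groth.Agent.PerfA.Restrict (restrictD) in
/-- Let S be a Noetherian scheme, X and Y schemes separated and of finite type over S and f : X → Y a
morphism over S; compute f^! through a compactification f = f̄ ∘ j (j : X → X̄ an open immersion, f̄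
: X̄ → Y proper, Rf̄_* on D_QCoh assumed to exist and to preserve quasi-coherence of cohomology, a a
right adjoint of Rf̄_*, and restriction of modules to opens assumed exact), so that f^!K = a(K)|_X.
Assume f is perfect (affine-locally given by perfect ring maps) and let O be the structure sheaf of
Y placed in degree 0. Then: for every K in D_QCoh(O_Y) with bounded and coherent cohomology, f^!K
has bounded and coherent cohomology; and for any complex E representing f^!O, with − ⊗^L E ⊣ RHom(E,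
−) assumed, and any identification υ : O_X ⊗^L E ≅ E, the map O_X → RHom(E, E) adjoint to υ is an
isomorphism. -/
theorem result (S X Y : Scheme.{u}) [IsNoetherian S] (p : X ⟶ S) (q : Y ⟶ S) [Dual3.IsSepFT p] [Dual3.IsSepFT q] (f : X ⟶ Y) (w : f ≫ q = p) (hf : MoreMor.IsPerfectMor f) (c : DEt.Compactification f) [DCoh.HasRpush c.fbar] (hc : DCoh.RpushPreservesQCoh c.fbar) (a : DCoh.DQCoh Y ⥤ DCoh.DQCoh c.Xbar) (adj : DCoh.RpushQ c.fbar hc ⊣ a) [∀ (U V : Scheme.{u}) (j : U ⟶ V) [IsOpenImmersion j], PreservesFiniteLimits (Scheme.Modules.restrictFunctor j)] (O : DCoh.DQCoh Y) (hO : Nonempty (O.obj ≅ DCoh.inD Y (Coh.structureModule Y))) : (∀ (K : DCoh.DQCoh Y) (lo hi : ℤ), (∀ i : ℤ, (i < lo ∨ hi < i) → IsZero (DCoh.HD K.obj i)) → (∀ i : ℤ, Coh.IsCoh (DCoh.HD K.obj i)) → (∃ lo' hi' : ℤ, ∀ i : ℤ, (i < lo' ∨ hi' < i) → IsZero (DCoh.HD ((Dual3.shriekC c a).obj K) i)) ∧ ∀ i : ℤ, Coh.IsCoh (DCoh.HD ((Dual3.shriekC c a).obj K) i)) ∧ ∀ (E : CochainComplex X.Modules ℤ) (hE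 : Nonempty (DCoh.toD X E ≅ (Dual3.shriekC c a).obj O)) [DCoh.HasLTensorCx E] [DCoh.HasRSheafHom E] (υ : (DCoh.LTensorCx E).obj (DCoh.inD X (Coh.structureModule X)) ≅ DCoh.toD X E), IsIso (((DCoh.RSheafHomAdj E).homEquiv (DCoh.inD X (Coh.structureModule X)) (DCoh.toD X E)) υ.hom) := by
  have hY : IsNoetherian Y := LoccohB.AdStruct.isNoetherian_of_finiteType q
  have hX : IsNoetherian X := LoccohB.AdStruct.isNoetherian_of_finiteType p
  have hft : LocallyOfFiniteType f := by
    rw [← c.fac]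
    infer_instance
  -- charts
  have hch : ∀ (x : X) (V : X.Opens), x ∈ V → ∃ (R A : Type u) (_ : CommRing R) (_ : CommRing A)
      (ψ : R →+* A) (i : Spec (CommRingCat.of R) ⟶ Y) (j : Spec (CommRingCat.of A) ⟶ X)
      (_ : IsOpenImmersion i) (_ : IsOpenImmersion j) (n : ℕ)
      (φ : MvPolynomial (Fin n) R →+* A),
      Spec.map (CommRingCat.ofHom ψ) ≫ i = j ≫ c.j ≫ c.fbar ∧ x ∈ j.opensRange ∧
      j.opensRange ≤ V ∧ Function.Surjective φ ∧ φ.comp MvPolynomial.C = ψ ∧
      DRing.IsPerfect (MvPolynomial (Fin n) R) ((DRing.restrictD φ).obj (Dual.inD A A)) := by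
    intro x V hx
    obtain ⟨R, A, _, _, ψ, i, j, hi, hj, h1, h2, h3, h4, h5⟩ := Perfect.exists_chart f x V hx
    let _ := ψ.toAlgebra
    have hiN := isLocallyNoetherian_of_isOpenImmersion i
    have hR : IsNoetherianRing R := isLocallyNoetherian_Spec.1 hiN
    have h6 : Algebra.FiniteType R A := h5 hft
    obtain ⟨n, θ, hθ⟩ := Algebra.FiniteType.iff_quotient_mvPolynomial''.mp h6
    refine ⟨R, A, inferInstance, inferInstance, ψ, i, j, hi, hj, n, θ.toRingHom, ?_, h2, h3, hθ, ?_,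
      PerfHom.isPerfect_restrictD (h4 hf) θ hθ⟩
    · rw [h1, c.fac]
    · ext r
      exact θ.commutes r
  refine ⟨fun K lo hi hK hKc => ?_, fun E hE _ _ υ => ?_⟩
  · have hM := Ega1.ADualUniv.univ_of_adj (h := hc) adj K
    have hKb : K.obj.IsGE lo := by
      rw [DerivedCategory.isGE_iff]
      exact fun m hm => hK m (Or.inl hm)
    have hKa : K.obj.IsLE hi := by
      rw [DerivedCategory.isLE_iff]
      exact fun m hm => hK m (Or.inr hm)
    have hXb : IsNoetherian c.Xbar := LoccohB.AdStruct.isNoetherian_of_finiteType c.fbar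
    have hcoh : DCoh.IsCohD (a.obj K).obj := fun m =>
      S1769.result c.Xbar Y c.fbar hc a adj K lo (fun m hm => hK m (Or.inl hm)) hKc m
    refine ⟨?_, PerfA.QCohD.isCohD_restrictD c.j hcoh⟩
    obtain ⟨lo', hlo'⟩ := LoccohB.AdStruct.exists_isGE c.fbar hM K.property lo hKb
    have h1 : ∀ x : X, ∃ (A : Type u) (_ : CommRing A) (j : Spec (CommRingCat.of A) ⟶ X)
        (_ : IsOpenImmersion j) (m : ℤ), x ∈ j.opensRange ∧
          ((restrictD j).obj ((restrictD c.j).obj (a.obj K).obj)).IsLE m := by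
      intro x
      obtain ⟨R, A, _, _, ψ, i, j, _, hj, n, φ, h1, h2, -, h3, h4, h5⟩ := hch x ⊤ trivial
      obtain ⟨m, hm⟩ := Perfect.isLE_chart c.fbar c.j ψ i j h1 φ h3 h4 h5 K.property lo hi hKb hKa
        hM
      exact ⟨A, inferInstance, j, hj, m, h2, hm⟩
    choose A rA j hj m hx hm using h1
    obtain ⟨t, ht⟩ := CompactSpace.elim_nhds_subcover (fun x : X => ((j x).opensRange : Set X))
      (fun x => (j x).opensRange.isOpen.mem_nhds (hx x))
    obtain ⟨m₀, hm₀⟩ := (t.image m).exists_le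
    refine ⟨lo', m₀, ?_⟩
    rintro k (hk | hk)
    · have h2 : ((restrictD c.j).obj (a.obj K).obj).IsGE lo' := PerfA.ExactD.isGE_map _ _ _
      exact DerivedCategory.isZero_of_isGE
        ((restrictD c.j).obj (a.obj K).obj) lo' k hk
    · refine PerfA.Restrict.isZero_of_restrict _ fun x => ?_
      have hx' : x ∈ ⋃ y ∈ t, ((j y).opensRange : Set X) := by rw [ht]; trivial
      obtain ⟨y, hy, z, hz⟩ : ∃ y ∈ t, ∃ z, j y z = x := by
        simp only [Set.mem_iUnion] at hx'
        obtain ⟨y, hy, hxy⟩ := hx'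
        exact ⟨y, hy, hxy⟩
      have h3 := hm y
      exact ⟨_, j y, inferInstance, z, hz, (DerivedCategory.isZero_of_isLE
        ((restrictD (j y)).obj ((restrictD c.j).obj (a.obj K).obj)) (m y) k
          (lt_of_le_of_lt (hm₀ _ (Finset.mem_image_of_mem m hy)) hk)).of_iso (PerfA.Restrict.HDrestrict (j y) _ k).symm⟩
  · obtain ⟨eE⟩ := hE
    have hM := Ega1.ADualUniv.univ_of_adj (h := hc) adj O
    refine EndoLocal.isIso_homEquiv E (fun x V hx => ?_) υ
    obtain ⟨R, A, _, _, ψ, i, j, _, hj, n, φ, h1, h2, h2', h3, h4, h5⟩ := hch x V hx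
    obtain ⟨ω, hω, ⟨e⟩⟩ := Perfect.exists_omega c.fbar c.j ψ i j h1 φ h3 h4 h5 hO hM
    exact ⟨A, inferInstance, j, hj, h2, h2', ω, hω, ⟨(restrictD j).mapIso eE ≪≫ e⟩⟩

end Groth.Agent.S3644
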