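import Groth.Statements.S3653
import Groth.Agent.Dual.H357.FormalBC

set_option autoImplicit false
universe u
open CategoryTheory CategoryTheory.Limits AlgebraicGeometry
attribute [local instance] HasDerivedCategory.standard
open Dual3

namespace Groth.Agent.S3653

/-- Consider a cartesian square X' = Y' ×_Y X of quasi-compact quasi-separated schemes with f or g flat
(a Tor independent square), derived direct images and derived pullbacks on D_QCoh with adjunctions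
Lg^* ⊣ Rg_*, Lg'^* ⊣ Rg'_*, right adjoints a of Rf_* and a' of Rf'_*, and an identification e : Rf_*
∘ Rg'_* ≅ Rg_* ∘ Rf'_* for which ξ : Rg'_* a' → a Rg_* is an isomorphism. Let β : Lg^* Rf_* → Rf'_*
Lg'^* and α : Lg'^* a → a' Lg^* be the base change maps built from these data and Tr_f : Rf_* a →
id, Tr_{f'} : Rf'_* a' → id the counits. Then for every K in D_QCoh(O_Y): β_{a(K)} followed by
Rf'_*(α_K) followed by Tr_{f'} at Lg^*K equals Lg^*(Tr_{f,K}). -/
theorem result (X Y X' Y' : Scheme.{u}) [CompactSpace X] [QuasiSeparatedSpace X] [CompactSpace Y] [QuasiSeparatedSpace Y] [CompactSpace X'] [QuasiSeparatedSpace X'] [CompactSpace Y'] [QuasiSeparatedSpace Y'] (f : X ⟶ Y) (g : Y' ⟶ Y) (f' : X' ⟶ Y') (g' : X' ⟶ X) (hsq : IsPullback g' f' f g) (hflat : Flat f ∨ Flat g) [DCoh.HasRpush f] [DCoh.HasRpush f'] [DCoh.HasRpush g] [DCoh.HasRpush g'] (hf : DCoh.RpushPreservesQCoh f) (hf' : DCoh.RpushPreservesQCoh f') (hg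 : DCoh.RpushPreservesQCoh g) (hg' : DCoh.RpushPreservesQCoh g') (a : DCoh.DQCoh Y ⥤ DCoh.DQCoh X) (a' : DCoh.DQCoh Y' ⥤ DCoh.DQCoh X') (adj : DCoh.RpushQ f hf ⊣ a) (adj' : DCoh.RpushQ f' hf' ⊣ a') [DCoh.HasLpull g] [DCoh.HasLpull g'] (hLg : Dual3.LpullPreservesQCoh g) (hLg' : Dual3.LpullPreservesQCoh g') (adjg : Dual3.LpullQ g hLg ⊣ DCoh.RpushQ g hg) (adjg' : Dual3.LpullQ g' hLg' ⊣ DCoh.RpushQ g' hg') (e : (DCoh.RpushQ g' hg' ⋙ DCoh.RpushQ f hf ≅ DCoh.RpushQ f' hf' ⋙ DCoh.RpushQ g hg)) (hξ : ∀ M : DCoh.DQCoh Y', IsIso (Dual3.xi adj adj' e M)) (K : DCoh.DQCoh Y) : Dual3.bcPush e adjg adjg' (a.obj K) ≫ (DCoh.RpushQ f' hf').map (Dual3.bcMap adj adj' e adjg adjg' K (hξ _)) ≫ adj'.counit.app ((Dual3.LpullQ g hLg).obj K) = (Dual3.LpullQ g hLg).map (adj.counit.app K) := by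
  haveI := hξ ((Dual3.LpullQ g hLg).obj K)
  exact Groth.Agent.Dual.H357.FormalBC.trace_compat adj adj' e.hom adjg adjg' K
    (inv (Dual3.xi adj adj' e ((Dual3.LpullQ g hLg).obj K))) (IsIso.inv_hom_id _)

end Groth.Agent.S3653
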