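import Groth.Statements.S3655
import Groth.Agent.Dual.H358.ShriekComp

set_option autoImplicit false
universe u
open CategoryTheory CategoryTheory.Limits AlgebraicGeometry
attribute [local instance] HasDerivedCategory.standard
open Dual3

namespace Groth.Agent.S3655

/-- Let S be a Noetherian scheme, X, Y, Z separated and of finite type over S and f : X → Y, g : Y → Z
morphisms over S. Compute f^!, g^! and (g ∘ f)^! through compactifications of f, g, g ∘ f with right
adjoints a, b, c of the derived direct images of the proper parts (assumed to exist and preserve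
quasi-coherence; restriction to opens exact and assumed to preserve quasi-coherence of cohomology,
so that g^!K is again an object of D_QCoh). Then (g ∘ f)^! ≅ f^! ∘ g^! as functors on D^+_QCoh(O_Z). -/
theorem result (S X Y Z : Scheme.{u}) [IsNoetherian S] (p : X ⟶ S) (q : Y ⟶ S) (r : Z ⟶ S) [Dual3.IsSepFT p] [Dual3.IsSepFT q] [Dual3.IsSepFT r] (f : X ⟶ Y) (g : Y ⟶ Z) (w : f ≫ q = p) (wg : g ≫ r = q) (cf : DEt.Compactification f) (cg : DEt.Compactification g) (cgf : DEt.Compactification (f ≫ g)) [DCoh.HasRpush cf.fbar] [DCoh.HasRpush cg.fbar] [DCoh.HasRpush cgf.fbar] (hf : DCoh.RpushPreservesQCoh cf.fbar) (hg : DCoh.RpushPreservesQCoh cg.fbar) (hgf : DCoh.RpushPreservesQCoh cgf.fbar) (a : DCoh.DQCoh Y ⥤ DCoh.DQCoh cf.Xbar) (b : DCoh.DQCoh Z ⥤ DCoh.DQCoh cg.Xbar) (c : DCoh.DQCoh Z ⥤ DCoh.DQCoh cgf.Xbar) (adjf : DCoh.RpushQ cf.fbar hf ⊣ a) (adjg : DCoh.RpushQ cg.fbar hg ⊣ b) (adjgf : DCoh.RpushQ cgf.fbar hgf ⊣ c) [∀ (U V : Scheme.{u}) (j : U ⟶ V) [IsOpenImmersion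 j], PreservesFiniteLimits (Scheme.Modules.restrictFunctor j)] (hres : ∀ K : DCoh.D cg.Xbar, DCoh.IsQCohD K → DCoh.IsQCohD ((DCoh.restrictD cg.j).obj K)) : Nonempty (Dual3.bddι Z ⋙ Dual3.shriekC cgf c ≅ Dual3.bddι Z ⋙ ObjectProperty.lift DCoh.IsQCohD (Dual3.shriekC cg b) (fun K => hres (b.obj K).obj (b.obj K).property) ⋙ Dual3.shriekC cf a) := by
  exact Groth.Agent.Dual.H358.ShriekComp.main p q r f g cf cg cgf hf hg hgf a b c adjf adjg adjgf hres

end Groth.Agent.S3655
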