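import Groth.Statements.S3656
import Groth.Agent.Dual.H359.ProperDual
import Groth.Agent.Ega1.DualSchBdd
import Groth.Agent.Dcoh.DerPull2
import Groth.Agent.S1767

set_option autoImplicit false
universe u
open CategoryTheory CategoryTheory.Limits AlgebraicGeometry
attribute [local instance] HasDerivedCategory.standard
open Dual3

namespace Groth.Agent.S3656

open Groth.Agent

/-- Let S be a Noetherian scheme, X and Y schemes separated and of finite type over S and f : X → Y a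
morphism over S; compute f^! through a compactification f = j ∘ p (j : X → X' an open immersion, p :
X' → Y proper, Rp_* on D_QCoh assumed to exist and to preserve quasi-coherence of cohomology, a a
right adjoint of Rp_*, restriction of modules to opens assumed exact), so that f^!K = a(K)|_X. Let K
be a bounded below object of D_QCoh(O_Y) which is a dualizing complex on Y (exactness instances as
in the definition), and M in D_QCoh(O_Y) bounded below with coherent cohomology sheaves, represented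
by a complex M' with - ⊗^L M' ⊣ RHom(M', -) assumed; let N' be a complex representing Lf^*RHom(M',
K) (derived pullback assumed to exist) with - ⊗^L N' ⊣ RHom(N', -) assumed. Then f^!M ≅ RHom(N',
f^!K) in D(O_X); that is, f^!M = D_X(Lf^* D_Y(M)) for the dualities D_Y = RHom(-, K) and D_X =
RHom(-, f^!K). -/
theorem result (S X Y : Scheme.{u}) [IsNoetherian S] (p : X ⟶ S) (q : Y ⟶ S) [Dual3.IsSepFT p] [Dual3.IsSepFT q] (f : X ⟶ Y) (w : f ≫ q = p) (c : DEt.Compactification f) [DCoh.HasRpush c.fbar] (hc : DCoh.RpushPreservesQCoh c.fbar) (a : DCoh.DQCoh Y ⥤ DCoh.DQCoh c.Xbar) (adj : DCoh.RpushQ c.fbar hc ⊣ a) [∀ (U V : Scheme.{u}) (j : U ⟶ V) [IsOpenImmersion j], PreservesFiniteLimits (Scheme.Modules.restrictFunctor j)] [∀ (R : CommRingCat.{u}), PreservesFiniteLimits (tilde.functor R)] [DCoh.HasLpull f] (K : DCoh.DQCoh Y) (c₀ : ℤ) (hK : ∀ i : ℤ, i < c₀ → IsZero (DCoh.HD K.obj i)) (hKd : Dual2.IsDualizingSch Y K.obj) (M : DCoh.DQCoh Y) (c₁ : ℤ)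 (hM : ∀ i : ℤ, i < c₁ → IsZero (DCoh.HD M.obj i)) (hMc : ∀ i : ℤ, Coh.IsCoh (DCoh.HD M.obj i)) (M' : CochainComplex Y.Modules ℤ) (hM' : Nonempty (DCoh.toD Y M' ≅ M.obj)) [DCoh.HasLTensorCx M'] [DCoh.HasRSheafHom M'] (N' : CochainComplex X.Modules ℤ) (hN' : Nonempty (DCoh.toD X N' ≅ (DCoh.Lpull f).obj ((DCoh.RSheafHom M').obj K.obj))) [DCoh.HasLTensorCx N'] [DCoh.HasRSheafHom N'] : Nonempty ((Dual3.shriekC c a).obj M ≅ (DCoh.RSheafHom N').obj ((Dual3.shriekC c a).obj K)) := by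
  have hYN : IsNoetherian Y := by
    have h1 : IsLocallyNoetherian Y := LocallyOfFiniteType.isLocallyNoetherian q
    have h2 : CompactSpace Y := QuasiCompact.compactSpace_of_compactSpace q
    constructor
  have hXN : IsLocallyNoetherian c.Xbar := LocallyOfFiniteType.isLocallyNoetherian c.fbar
  have hcX : CompactSpace c.Xbar := QuasiCompact.compactSpace_of_compactSpace c.fbar
  have := Groth.Agent.Dcoh.DerPull.hasLpull c.fbar
  -- the universal object for `K` is bounded below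
  have hLGE : ∃ c' : ℤ, (a.obj K).obj.IsGE c' := by
    obtain ⟨N, hN⟩ := S1767.result c.Xbar Y c.fbar hc a adj
    refine ⟨c₀ - 1 - N + 1, ?_⟩
    rw [DerivedCategory.isGE_iff]
    intro i hi
    exact hN K (c₀ - 1) (fun i hi => hK i (by lia)) i (by lia)
  obtain ⟨c', hc'⟩ := hLGE
  have hMGE : M.obj.IsGE c₁ := by
    rw [DerivedCategory.isGE_iff]
    exact hM
  -- the dual of `M`
  obtain ⟨eM⟩ := hM'
  let D : DCoh.D Y := (PerfC.RHomD.RH M.obj).obj K.obj
  have hU := Dual.H359.ProperDual.univ_dual c.fbar hKd (M := M.obj) hMc c₁ hMGE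
    (Ega1.ADualUniv.univ_of_adj (h := hc) adj K) c' hc'
  obtain ⟨e₁⟩ := (Ega1.ADualUniv.univ_of_adj (h := hc) adj M).unique hU
  obtain ⟨e₂⟩ := PerfC.RHomD.nonempty_rhRes c.j ((DCoh.Lpull c.fbar).obj D) (a.obj K).obj
  -- `Lf^* D = (Lfbar^* D)|_X`
  have := Groth.Agent.Dcoh.DerPull.hasLpull c.j
  have := Groth.Agent.Dcoh.DerPull.hasLpull (c.j ≫ c.fbar)
  let e₃ : (DCoh.restrictD c.j).obj ((DCoh.Lpull c.fbar).obj D) ≅ (DCoh.Lpull f).obj D :=
    (Dcoh.DerPull.lpullOpenIso c.j).symm.app _ ≪≫ (Dcoh.DerPull.lpullCompIso c.j c.fbar).app D ≪≫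
      (Dcoh.DerPull.lpullCongr c.fac).app D
  obtain ⟨eN⟩ := hN'
  let e₄ : DCoh.toD X N' ≅ (DCoh.restrictD c.j).obj ((DCoh.Lpull c.fbar).obj D) :=
    eN ≪≫ (DCoh.Lpull f).mapIso ((PerfC.RHomD.rsIso M').app K.obj ≪≫
      PerfC.RHomD.rhIso eM.symm K.obj) ≪≫ e₃.symm
  exact ⟨(DCoh.restrictD c.j).mapIso e₁ ≪≫ e₂ ≪≫ PerfC.RHomD.rhIso e₄ _ ≪≫
    ((PerfC.RHomD.rsIso N').app _).symm⟩

end Groth.Agent.S3656
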