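import Groth.Statements.S3657
-- import your own Groth.Agent.* helpers here
import Groth.Agent.Dual.H360.AdjTransfer
import Groth.Agent.Dual.H360.ProjAff
import Groth.Agent.S1115
import Groth.Agent.CohqA.AffPush
import Groth.Agent.PerfB.PCNoeth
import Groth.Agent.Fdesc.StructMod

set_option autoImplicit false
universe u
open CategoryTheory CategoryTheory.Limits AlgebraicGeometry
attribute [local instance] HasDerivedCategory.standard
open Dual3

namespace Groth.Agent.S3657

/-- Let f : Y → X be a finite morphism of Noetherian schemes, with derived direct image Rf_* on D_QCoh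
(assumed to exist and to preserve quasi-coherence) and a right adjoint a of Rf_* : D_QCoh(O_Y) →
D_QCoh(O_X). Let E be a complex of O_X-modules representing f_*O_Y placed in degree 0, with − ⊗^L E
and RHom(E, −) assumed to exist. Then Rf_* ∘ a ≅ RHom(E, −) = RHom_{O_X}(f_*O_Y, −) as functors on
D^+_QCoh(O_X) (the form f_* f^! = RHom(f_*O_Y, −) of duality for a finite morphism). -/
theorem result (Y X : Scheme.{u}) [IsNoetherian X] [IsNoetherian Y] (f : Y ⟶ X) [IsFinite f] [DCoh.HasRpush f] (hf : DCoh.RpushPreservesQCoh f) (a : DCoh.DQCoh X ⥤ DCoh.DQCoh Y) (adj : DCoh.RpushQ f hf ⊣ a) (E : CochainComplex X.Modules ℤ) (hE : Nonempty (DCoh.toD X E ≅ DCoh.inD X ((Scheme.Modules.pushforward f).obj (Coh.structureModule Y)))) [DCoh.HasLTensorCx E] [DCoh.HasRSheafHom E] : Nonempty (Dual3.bddι X ⋙ a ⋙ DCoh.RpushQ f hf ⋙ ObjectProperty.ι _ ≅ Dual3.bddι X ⋙ ObjectProperty.ι _ ⋙ DCoh.RSheafHom E) := by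
  open Groth.Agent.Dual.H360 in
  obtain ⟨eE⟩ := hE
  have hLp : DCoh.HasLpull f := Groth.Agent.Dcoh.DerPull.hasLpull f
  have hq : Coh.IsQCoh (Coh.structureModule Y) :=
    Groth.Agent.Fdesc.StructMod.isQCoh_structureModule Y
  obtain ⟨r⟩ := ProjAff.nonempty_rpushInD f (Coh.structureModule Y) hq
  obtain ⟨pp⟩ := ProjAff.nonempty_pullPush f E ⟨eE ≪≫ r.symm⟩
  have hpc : ∀ m : ℤ, DCoh.IsPseudoCoherentD m (DCoh.toD X E) := fun m => by
    refine Groth.Agent.PerfC.PcLocal.pc_of_iso eE.symm ?_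
    exact Groth.Agent.PerfB.PCNoeth.pc_of_isCoh ((0 - m).toNat + 1) _ 0 m inferInstance
      (by have := Int.self_le_toNat (0 - m); push_cast; omega)
      (fun j _ => Groth.Agent.PerfA.QCohD.isCohD_inD _
        ⟨Groth.Agent.CohqA.AffPush.isQCoh_push f _ hq,
          Groth.Agent.CohqA.AffPush.isFT_push f _ hq
            (Groth.Agent.Fdesc.StructMod.isCoh_structureModule Y).2⟩ j)
  refine AdjTransfer.nonempty_iso (ObjectProperty.ι (DCoh.IsQCohD (X := X)))
    (ObjectProperty.ι (DCoh.IsQCohD (X := X)))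
    ((ProjAff.pullPushQAdj f (ProjAff.lpullPreserves f) hf).comp adj) (DCoh.RSheafHomAdj E)
    pp (Dual3.bddι X) (fun c => ?_)
  obtain ⟨n, hn⟩ := c.property
  exact ⟨⟨_, Groth.Agent.S1115.result X E hpc c.obj.obj c.obj.property n⟩, ⟨Iso.refl _⟩⟩

end Groth.Agent.S3657
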