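import Groth.Statements.S3658
-- import your own Groth.Agent.* helpers here
import Groth.Agent.Dual.H379.TwistMain
import Groth.Agent.S1002

set_option autoImplicit false
universe u
open CategoryTheory CategoryTheory.Limits AlgebraicGeometry
attribute [local instance] HasDerivedCategory.standard
open Dual3

namespace Groth.Agent.S3658

/-- Let Y be a quasi-compact and quasi-separated scheme and f : X → Y proper, flat and of finite
presentation; let Rf_* : D_QCoh(O_X) → D_QCoh(O_Y) be the derived direct image (assumed to exist and
to preserve quasi-coherence of cohomology) with right adjoint a, O the structure sheaf of Y in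
degree 0 and ω = a(O) the relative dualizing complex, represented by a complex E of O_X-modules for
which − ⊗^L E is assumed to exist; let Lf^* be the derived pullback (assumed to exist). Then a ≅
Lf^*(−) ⊗^L ω as functors D_QCoh(O_Y) → D(O_X). -/
theorem result (X Y : Scheme.{u}) [CompactSpace Y] [QuasiSeparatedSpace Y] (f : X ⟶ Y) [IsProper f] [Flat f] [LocallyOfFinitePresentation f] [DCoh.HasRpush f] (hf : DCoh.RpushPreservesQCoh f) (a : DCoh.DQCoh Y ⥤ DCoh.DQCoh X) (adj : DCoh.RpushQ f hf ⊣ a) (O : DCoh.DQCoh Y) (hO : Nonempty (O.obj ≅ DCoh.inD Y (Coh.structureModule Y))) [DCoh.HasLpull f] (E : CochainComplex X.Modules ℤ) (hE : Nonempty (DCoh.toD X E ≅ (a.obj O).obj)) [DCoh.HasLTensorCx E] : Nonempty (a ⋙ ObjectProperty.ι _ ≅ ObjectProperty.ι _ ⋙ DCoh.Lpull f ⋙ DCoh.LTensorCx E) := by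
  have : CompactSpace X := QuasiCompact.compactSpace_of_compactSpace f
  have : QuasiSeparatedSpace X := quasiSeparatedSpace_of_quasiSeparated f
  exact Groth.Agent.Dual.H379.TwistMain.nonempty_iso f hf adj
    (fun P hP => Groth.Agent.S1002.result f P hP) O hO E hE

end Groth.Agent.S3658
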