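import Groth.Statements.S3659
import Groth.Agent.Dual.H362.TensAdj

set_option autoImplicit false
universe u
open CategoryTheory CategoryTheory.Limits AlgebraicGeometry
attribute [local instance] HasDerivedCategory.standard
open Dual3

namespace Groth.Agent.S3659

/-- Let f : X → Y be a morphism of quasi-compact quasi-separated schemes. Assume the derived direct
image Rf_* exists and preserves quasi-coherence of cohomology sheaves (both known results), so that
it restricts to a functor D_QCoh(O_X) → D_QCoh(O_Y), and let a : D_QCoh(O_Y) → D_QCoh(O_X) be a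
right adjoint of this restricted functor. Let Lf^* be the derived pullback (assumed to exist), K a
perfect object of D_QCoh(O_Y) and L any object of D_QCoh(O_Y). Let K' be a complex representing K,
with the derived tensor product − ⊗^L K' assumed to exist and K ⊗^L L (computed as L ⊗^L K') assumed
to lie again in D_QCoh (a known fact, taken as a hypothesis), and let E be a complex representing
a(L), with − ⊗^L E assumed to exist. Then a(K ⊗^L L) ≅ Lf^*K ⊗^L a(L) in D(O_X). -/
theorem result (X Y : Scheme.{u}) [CompactSpace X] [QuasiSeparatedSpace X] [CompactSpace Y] [QuasiSeparatedSpace Y] (f : X ⟶ Y) [DCoh.HasRpush f] (hf : DCoh.RpushPreservesQCoh f) (a : DCoh.DQCoh Y ⥤ DCoh.DQCoh X) (adj : DCoh.RpushQ f hf ⊣ a) [DCoh.HasLpull f] (K L : DCoh.DQCoh Y) (hK : DCoh.IsPerfect K.obj) (K' : CochainComplex Y.Modules ℤ) (hK' : Nonempty (DCoh.toD Y K' ≅ K.obj)) [DCoh.HasLTensorCx K'] (hKL : DCoh.IsQCohD ((DCoh.LTensorCx K').obj L.obj)) (E : CochainComplex X.Modules ℤ) (hE : Nonempty (DCoh.toD X E ≅ (a.obj L).obj)) [DCoh.HasLTensorCx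 E] : Nonempty ((a.obj ⟨(DCoh.LTensorCx K').obj L.obj, hKL⟩).obj ≅ (DCoh.LTensorCx E).obj ((DCoh.Lpull f).obj K.obj)) := by
  obtain ⟨eK⟩ := hK'
  obtain ⟨eE⟩ := hE
  exact Groth.Agent.Dual.H362.TensAdj.nonempty_frozen f hf a adj K L hK K' eK hKL E eE

end Groth.Agent.S3659
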