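import Groth.Statements.S3660
import Groth.Agent.Dual.H363.Main

set_option autoImplicit false
universe u
open CategoryTheory CategoryTheory.Limits AlgebraicGeometry
attribute [local instance] HasDerivedCategory.standard
open Dual3

namespace Groth.Agent.S3660

/-- Let S be a Noetherian scheme, X and Y schemes separated and of finite type over S, and f : X → Y a
morphism over S. Compute f^! through a compactification of f — an open immersion j : X → X̄ followed
by a proper p : X̄ → Y, with Rp_* on D_QCoh assumed to exist and to preserve quasi-coherence of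
cohomology, a a right adjoint of Rp_*, and restriction of modules to opens assumed exact — so that
f^!K = a(K)|_X. Assume f is perfect (for instance flat), let O be an object of D_QCoh(O_Y)
isomorphic to the structure sheaf of Y in degree 0, E a complex of O_X-modules representing f^!O for
which − ⊗^L E is available, and Lf^* the derived pullback (assumed to exist). Then f^! ≅ Lf^*(−) ⊗^L
E, that is f^!K ≅ Lf^*K ⊗^L f^!O_Y, as functors on D^+_QCoh(O_Y). -/
theorem result (S X Y : Scheme.{u}) [IsNoetherian S] (p : X ⟶ S) (q : Y ⟶ S) [Dual3.IsSepFT p] [Dual3.IsSepFT q] (f : X ⟶ Y) (w : f ≫ q = p) (hf : MoreMor.IsPerfectMor f) (c : DEt.Compactification f) [DCoh.HasRpush c.fbar] (hc : DCoh.RpushPreservesQCoh c.fbar) (a : DCoh.DQCoh Y ⥤ DCoh.DQCoh c.Xbar) (adj : DCoh.RpushQ c.fbar hc ⊣ a) [∀ (U V : Scheme.{u}) (j : U ⟶ V) [IsOpenImmersion j], PreservesFiniteLimits (Scheme.Modules.restrictFunctor j)] (O : DCoh.DQCoh Y) (hO : Nonempty (O.obj ≅ DCoh.inD Y (Coh.structureModule Y))) [DCoh.HasLpull f] (E : CochainComplex X.Modules ℤ) (hE : Nonempty (DCoh.toD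 X E ≅ (Dual3.shriekC c a).obj O)) [DCoh.HasLTensorCx E] : Nonempty (Dual3.bddι Y ⋙ Dual3.shriekC c a ≅ Dual3.bddι Y ⋙ ObjectProperty.ι _ ⋙ DCoh.Lpull f ⋙ DCoh.LTensorCx E) := by
  have hY : IsNoetherian Y := LoccohB.AdStruct.isNoetherian_of_finiteType q
  have hft : LocallyOfFiniteType f := by
    have : LocallyOfFiniteType (f ≫ q) := by
      rw [w]
      infer_instance
    exact locallyOfFiniteType_of_comp f q
  exact Dual.H363.Main.main hf c hc a adj O hO E hE

end Groth.Agent.S3660
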