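import Groth.Statements.S3661
import Groth.Agent.Dual.H364.DualUniq

set_option autoImplicit false
universe u
open CategoryTheory CategoryTheory.Limits AlgebraicGeometry
attribute [local instance] HasDerivedCategory.standard
open Dual3

namespace Groth.Agent.S3661

/-- Let X be a locally Noetherian scheme and K, K' dualizing complexes on X (exactness instances as in
the definition). Then there are an invertible object L of D(O_X) and a complex E representing L,
with - ⊗^L E existing, such that K' ≅ K ⊗^L L in D(O_X). -/
theorem result (X : Scheme.{u}) [IsLocallyNoetherian X] [∀ (U V : Scheme.{u}) (j : U ⟶ V) [IsOpenImmersion j], PreservesFiniteLimits (Scheme.Modules.restrictFunctor j)] [∀ (R : CommRingCat.{u}), PreservesFiniteLimits (tilde.functor R)] (K K' : DCoh.D X) (hK : Dual2.IsDualizingSch X K) (hK' : Dual2.IsDualizingSch X K') : ∃ (E : CochainComplex X.Modules ℤ) (hL : DCoh.HasLTensorCx E), Dual3.IsInvertibleD (DCoh.toD X E) ∧ Nonempty (K' ≅ (DCoh.LTensorCx E).obj K) := by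
  obtain ⟨E, hE, h1, h2⟩ := Groth.Agent.Dual.H364.DualUniq.main hK hK'
  exact ⟨E, hE, h1, h2⟩

end Groth.Agent.S3661
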