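import Groth.Statements.S3663
import Groth.Agent.Dual.H328.Assembly
import Groth.Agent.S3635

set_option autoImplicit false
universe u
open CategoryTheory CategoryTheory.Limits AlgebraicGeometry
attribute [local instance] HasDerivedCategory.standard
open Dual3

namespace Groth.Agent.S3663

/-- The fundamental class, for constant codegree r. Let Y be a Noetherian scheme and f : X → Y a local
complete intersection morphism, locally of finite presentation, factoring as an immersion X → P
followed by a proper smooth morphism P → Y (so X is separated of finite type over Y); compute f^!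
through a compactification f = f̄ ∘ j with a right adjoint a of Rf̄_* on derived categories of
quasi-coherent modules, and let O be the structure sheaf of Y in degree 0. Suppose H^i(f^!O) = 0 for
i ≠ −r and put ω = H^{−r}(f^!O). Then there are an r-th exterior power L of Ω_{X/Y} and a map c : L
→ ω of O_X-modules such that, for every point x, the stalks at x of the kernel and of the cokernel
of c both vanish if and only if f is smooth at x. (Exactness of restriction of modules along open
immersions is assumed as an instance binder.) -/
theorem result (Y X P : Scheme.{u}) [IsNoetherian Y] (f : X ⟶ Y) [LocallyOfFinitePresentation f] (hf : Dual3.IsLCIMor f) (i : X ⟶ P) (π : P ⟶ Y) [IsImmersion i] [IsProper π] [Smooth π] (hfac : i ≫ π = f) [Dual3.IsSepFT f] (c : DEt.Compactification f) [DCoh.HasRpush c.fbar] (hc : DCoh.RpushPreservesQCoh c.fbar) (a : DCoh.DQCoh Y ⥤ DCoh.DQCoh c.Xbar) (adj : DCoh.RpushQ c.fbar hc ⊣ a) [∀ (U V : Scheme.{u}) (j : U ⟶ V) [IsOpenImmersion j], PreservesFiniteLimits (Scheme.Modules.restrictFunctor j)] (O : DCoh.DQCoh Y) (hO : Nonempty (O.obj ≅ DCoh.inD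 Y (Coh.structureModule Y))) (r : ℕ) (hr : ∀ k : ℤ, k ≠ -(r : ℤ) → IsZero (DCoh.HD ((Dual3.shriekC c a).obj O) k)) : ∃ (L : X.Modules) (_ : ExtPow.IsExtPow r (Omega.sheaf f) L) (cl : L ⟶ DCoh.HD ((Dual3.shriekC c a).obj O) (-(r : ℤ))), ∀ x : X, (IsZero ((kernel cl).presheaf.stalk x) ∧ IsZero ((cokernel cl).presheaf.stalk x)) ↔ x ∈ f.smoothLocus := by
  exact Groth.Agent.Dual.H328.Assembly.concl (fun S X _ d f _ _ _ hf a adj O hO L hL =>
    Groth.Agent.S3635.result S X d f hf a adj O hO L hL) Y X P f hf i π hfac c hc a adj O hO r hr

end Groth.Agent.S3663
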