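import Groth.Statements.S3664
import Groth.Agent.Dual.H367.Main
import Groth.Agent.Dual.H367.Kill
import Groth.Agent.Etrest.RDer2
import Groth.Agent.S0484

set_option autoImplicit false
universe u
open CategoryTheory CategoryTheory.Limits AlgebraicGeometry
attribute [local instance] HasDerivedCategory.standard
open Dual3

namespace Groth.Agent.S3664

/-- Let j : U → X be an open immersion of Noetherian schemes (restriction to U assumed exact), I a
quasi-coherent ideal whose vanishing locus is X ∖ U, F a bounded complex of coherent O_X-modules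
with Deligne system K_n = I^n F (inclusions ι_n : K_n → F), and L an object of D(O_X) with coherent
cohomology sheaves vanishing below some degree (L is allowed to be bounded below rather than
bounded). Then colim_n Hom_X(K_n, L) = Hom_U(F|_U, L|_U): (surjectivity) every map α : F|_U → L|_U
satisfies ι_n|_U ≫ α = φ|_U for some n and some φ : K_n → L; (injectivity) if φ, ψ : K_n → L agree
after restriction to U then for some m ≥ n they agree after composition with any map K_m → K_n
compatible with the inclusions into F. -/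
theorem result (U X : Scheme.{u}) [IsNoetherian U] [IsNoetherian X] (j : U ⟶ X) [IsOpenImmersion j] [∀ (U V : Scheme.{u}) (j : U ⟶ V) [IsOpenImmersion j], PreservesFiniteLimits (Scheme.Modules.restrictFunctor j)] (I : X.IdealSheafData) (hI : I.supportSetᶜ = Set.range j) (F : CochainComplex X.Modules ℤ) (lo hi : ℤ) (hF : DCoh.VanishesOutside F lo hi) (hFc : ∀ q : ℤ, Coh.IsCoh (F.X q)) (L : DCoh.D X) (hLc : DCoh.IsCohD L) (c₀ : ℤ) (hK : ∀ i : ℤ, i < c₀ → IsZero (DCoh.HD L i)) : (∀ α : (DCoh.restrictD j).obj (DCoh.toD X F) ⟶ (DCoh.restrictD j).obj L, ∃ (n : ℕ) (φ : DCoh.toD X ((Dual3.deligne I n).obj F) ⟶ L), (DCoh.restrictD j).map (DerivedCategory.Q.map (Dual3.deligneι I n F)) ≫ α = (DCoh.restrictD j).map φ) ∧ ∀ (n : ℕ) (φ ψ : DCoh.toD X ((Dual3.deligne I n).obj F) ⟶ L), (DCoh.restrictD j).map φ = (DCoh.restrictD j).map ψ → ∃ m : ℕ, n ≤ m ∧ ∀ t : (Dual3.deligne I m).obj F ⟶ (Dual3.deligne I n).obj F, t ≫ Dual3.deligneι I n F = Dual3.deligneι I m F → DerivedCategory.Q.map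 t ≫ φ = DerivedCategory.Q.map t ≫ ψ := by
  have hL : L.IsGE c₀ := (DerivedCategory.isGE_iff L c₀).2 hK
  have h0 : IsGrothendieckAbelian.{u} X.Modules := Groth.Agent.S0484.result _ X.ringCatSheaf
  have h1 : EnoughInjectives X.Modules := inferInstance
  obtain ⟨J₀, hJ₀, ⟨e₀⟩⟩ := DerivedCategory.exists_iso_Q_obj_of_isGE L c₀
  obtain ⟨J, i, hqi, hJ, hJ', hJk⟩ := Groth.Agent.Etrest.RDer2.exists_injRes J₀ c₀
  let e : L ≅ DerivedCategory.Q.obj J := e₀ ≪≫ asIso (DerivedCategory.Q.map i)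
  have hJc : ∀ n, Coh.IsQCoh (J.homology n) := fun n =>
    Groth.Agent.PerfA.QCohSerre.isQCoh_of_iso
      ((DerivedCategory.homologyFunctor _ n).mapIso e ≪≫
        (DerivedCategory.homologyFunctorFactors X.Modules n).app J) (hLc n).1
  have hKq : ∀ (n : ℕ) (i : ℤ), Coh.IsQCoh (((Groth.Agent.Dual.H367.Kill.sys I F).obj ⟨n⟩).X i) :=
    fun n i => (Groth.Agent.Dual.H367.IdMul.isCoh_idealMul _ (hFc i)).1
  have hb : ∀ (n : ℕ) (i : ℤ), hi < i → IsZero (((Groth.Agent.Dual.H367.Kill.sys I F).obj ⟨n⟩).X i) :=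
    fun n i h => (Dual3.idealMul (I ^ n)).map_isZero (hF i (Or.inr h))
  have hkill : ∀ (M : X.Modules), Groth.Agent.Dual.H367.Dev.onZ j M → ∀ (i : ℤ) (n : ℕ)
      (f : ((Groth.Agent.Dual.H367.Kill.sys I F).obj ⟨n⟩).X i ⟶ M), ∃ (m : ℕ) (hnm : n ≤ m),
        ((Groth.Agent.Dual.H367.Kill.sys I F).map (homOfLE hnm).op).f i ≫ f = 0 :=
    fun M hM i n f => Groth.Agent.Dual.H367.Kill.kill I j hI (hFc i) hM.1 hM.2 n f
  constructor
  · intro α
    obtain ⟨n, φ, h⟩ := Groth.Agent.Dual.H367.Main.surj j (Groth.Agent.Dual.H367.Kill.sys I F) hKq hi hb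
      hkill J hJ c₀ hJc (Dual3.deligneι I 0 F) (α ≫ (DCoh.restrictD j).map e.hom)
    refine ⟨n, φ ≫ e.inv, ?_⟩
    rw [Groth.Agent.Dual.H367.Kill.sys_map_ι] at h
    have h' : ((DCoh.restrictD j).map (DerivedCategory.Q.map (Dual3.deligneι I n F)) ≫ α ≫
        (DCoh.restrictD j).map e.hom) ≫ (DCoh.restrictD j).map e.inv =
        (DCoh.restrictD j).map φ ≫ (DCoh.restrictD j).map e.inv :=
      congrArg (fun z => z ≫ (DCoh.restrictD j).map e.inv) h
    rw [Functor.map_comp]
    refine Eq.trans ?_ h'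
    rw [Category.assoc, Category.assoc, ← Functor.map_comp, e.hom_inv_id, CategoryTheory.Functor.map_id,
      Category.comp_id]
  · intro n φ ψ hφψ
    obtain ⟨m, hnm, h⟩ := Groth.Agent.Dual.H367.Main.inj j (Groth.Agent.Dual.H367.Kill.sys I F) hKq hi hb
      hkill J hJ c₀ hJc hJk n (φ ≫ e.hom) (ψ ≫ e.hom) (by
        rw [Functor.map_comp, Functor.map_comp]
        exact congrArg (fun z => z ≫ (DCoh.restrictD j).map e.hom) hφψ)
    refine ⟨m, hnm, fun t ht => ?_⟩
    have ht' : t = (Groth.Agent.Dual.H367.Kill.sys I F).map (homOfLE hnm).op := by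
      rw [← cancel_mono (Dual3.deligneι I n F), ht]
      exact (Groth.Agent.Dual.H367.Kill.sys_map_ι I F hnm).symm
    rw [ht', ← cancel_mono e.hom, Category.assoc, Category.assoc]
    exact h

end Groth.Agent.S3664
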