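import Groth.Statements.S3665
import Mathlib.RingTheory.Filtration
import Groth.Agent.FormalB.TrKQuot

set_option autoImplicit false
universe u
open CategoryTheory CategoryTheory.Limits AlgebraicGeometry
attribute [local instance] HasDerivedCategory.standard
open Dual3

namespace Groth.Agent.S3665

open Groth.Agent.CohqB.QC2 Groth.Agent.FormalB.TrKQuot

/-- A section killed by `1 - r` vanishes on the basic open of `1 - r`. -/
theorem res_basicOpen_eq_zero {X : Scheme.{u}} (F : X.Modules) {U : X.Opens} (r : Γ(X, U)) (m : Γ(F, U))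
    (h : r • m = 0) : res F (X.basicOpen_le r) m = 0 := by
  have h1 : resR (X.basicOpen_le r) r • res F (X.basicOpen_le r) m = 0 := by
    rw [← res_smul, h, map_zero]
  have hu : IsUnit (resR (X.basicOpen_le r) r) := by
    exact RingedSpace.isUnit_res_basicOpen X.toRingedSpace r
  exact (hu.smul_eq_zero).1 h1

theorem support_pow_le {X : Scheme.{u}} (I : X.IdealSheafData) (n : ℕ) :
    ((I ^ n).support : Set X) ⊆ I.support := by
  rcases Nat.eq_zero_or_pos n with rfl | hn
  · rw [pow_zero]
    intro x hx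
    rw [Scheme.IdealSheafData.one_eq_top, Scheme.IdealSheafData.support_top] at hx
    exact absurd hx (by simp)
  · rw [Scheme.IdealSheafData.support_pow _ _ hn.ne']

theorem mem_basicOpen_one_sub {X : Scheme.{u}} {U : X.Opens} (r : Γ(X, U)) (x : X) (hx : x ∈ U)
    (h : x ∉ X.basicOpen r) : x ∈ X.basicOpen (1 - r) := by
  rw [X.mem_basicOpen _ x hx] at h ⊢
  rw [map_sub, map_one]
  exact IsLocalRing.isUnit_one_sub_self_of_mem_nonunits _ h

/-- The forward direction, on a locally Noetherian scheme. -/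
theorem forward {X : Scheme.{u}} [IsLocallyNoetherian X] (I : X.IdealSheafData) (F : X.Modules)
    (hF : Coh.IsCoh F) (s : Γ(F, ⊤)) (h : ∀ n : ℕ, (kπ (I ^ n) F).app ⊤ s = 0) :
    ∃ V : X.Opens, I.supportSet ⊆ (V : Set X) ∧ res F (le_top (a := V)) s = 0 := by
  have key : ∀ U : X.affineOpens, ∃ r : Γ(X, U.1), r ∈ I.ideal U ∧ r • res F (le_top (a := U.1)) s =
      res F (le_top (a := U.1)) s := by
    intro U
    have : IsNoetherianRing Γ(X, U.1) := IsLocallyNoetherian.component_noetherian U
    have : Module.Finite Γ(X, U.1) Γ(F, U.1) := Groth.Agent.Sga67.CohBasic.finite_sections hF U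
    have h1 : res F (le_top (a := U.1)) s ∈
        (⨅ i : ℕ, (I.ideal U) ^ i • ⊤ : Submodule Γ(X, U.1) Γ(F, U.1)) := by
      rw [Submodule.mem_iInf]
      intro n
      have h2 := kernel_kπ_mem (I ^ n) hF.1 U (res F (le_top (a := U.1)) s)
        (by rw [app_res, h n, map_zero])
      rwa [Scheme.IdealSheafData.ideal_pow] at h2
    obtain ⟨r, hr⟩ := (Ideal.mem_iInf_smul_pow_eq_bot_iff (I.ideal U) _).1 h1
    exact ⟨r, r.2, hr⟩
  choose r hr hrs using key
  let W : X.affineOpens → X.Opens := fun U => X.basicOpen (1 - r U)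
  refine ⟨⨆ U : X.affineOpens, W U, ?_, ?_⟩
  · intro x hx
    obtain ⟨U, hU, hxU, -⟩ := exists_isAffineOpen_mem_and_subset (X := X) (x := x) (U := ⊤) trivial
    rw [SetLike.mem_coe, TopologicalSpace.Opens.mem_iSup]
    refine ⟨⟨U, hU⟩, mem_basicOpen_one_sub _ x hxU ?_⟩
    have h3 := Scheme.IdealSheafData.supportSet_subset_zeroLocus I ⟨U, hU⟩ hx
    rw [Scheme.mem_zeroLocus_iff] at h3
    exact h3 _ (hr ⟨U, hU⟩)
  · refine section_ext F W (fun U => le_iSup W U) le_rfl _ _ ?_
    intro U
    rw [map_zero]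
    have h4 := res_basicOpen_eq_zero F (1 - r U) (res F (le_top (a := U.1)) s)
      (by rw [sub_smul, one_smul, hrs, sub_self])
    rw [← h4, res_res, res_res]

/-- The backward direction (any scheme). -/
theorem backward {X : Scheme.{u}} (I : X.IdealSheafData) (F : X.Modules)
    (s : Γ(F, ⊤)) (V : X.Opens) (hV : (I.support : Set X) ⊆ V) (h : res F (le_top (a := V)) s = 0) :
    (kπ I F).app ⊤ s = 0 := by
  have h1 : res (kq I F) (le_top (a := V)) ((kπ I F).app ⊤ s) = 0 := by
    rw [← app_res, h, map_zero]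
  have h2 : I.subschemeι ⁻¹ᵁ ⊤ = I.subschemeι ⁻¹ᵁ V := by
    ext x
    simp only [Scheme.Hom.preimage_top, TopologicalSpace.Opens.coe_top, Set.mem_univ, true_iff]
    apply hV
    rw [← I.range_subschemeι]
    exact ⟨x, rfl⟩
  have h3 := (res_injective_of_eq ((Scheme.Modules.pullback I.subschemeι).obj F) h2.ge h2).1
  apply h3
  exact h1.trans (map_zero _).symm

/-- Let X be proper over a field k, I a quasi-coherent ideal with vanishing locus Z and F a coherent
O_X-module, so that H^0_c(X ∖ Z, F) = lim_n H^0(X, I^n F) = ⋂_n Γ(X, I^n F) inside Γ(X, F). Then a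
global section s of F lies in the image of Γ(X, I^n F) for every n if and only if s restricts to
zero on some open neighbourhood of Z. -/
theorem result (k : Type u) [Field k] (X : Scheme.{u}) (f : X ⟶ Spec (CommRingCat.of k)) [IsProper f] (I : X.IdealSheafData) (F : X.Modules) (hF : Coh.IsCoh F) (s : F.val.obj (Opposite.op ⊤)) : (∀ n : ℕ, ∃ t : ((Dual3.idealMul (I ^ n)).obj F).val.obj (Opposite.op ⊤), (Dual3.idealMulι (I ^ n) F).val.app (Opposite.op ⊤) t = s) ↔ ∃ V : X.Opens, I.supportSet ⊆ (V : Set X) ∧ F.val.map (homOfLE le_top : V ⟶ ⊤).op s = 0 := by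
  have : IsLocallyNoetherian X := LocallyOfFiniteType.isLocallyNoetherian f
  constructor
  · intro h
    refine forward I F hF s ?_
    intro n
    obtain ⟨t, ht⟩ := h n
    have h5 := Groth.Agent.Sga67.IdealTorsion.app_kernel_ι (kπ (I ^ n) F) ⊤ t
    rw [← ht]
    exact h5
  · rintro ⟨V, hV, h⟩ n
    have h6 := backward (I ^ n) F s V ((support_pow_le I n).trans hV) h
    exact Groth.Agent.Sga67.IdealTorsion.exists_kernel_ι (kπ (I ^ n) F) ⊤ s h6

end Groth.Agent.S3665
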