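import Groth.Statements.S3666
import Groth.Agent.Dual.H369.HomOTens

set_option autoImplicit false
universe u
open CategoryTheory CategoryTheory.Limits AlgebraicGeometry
attribute [local instance] HasDerivedCategory.standard
open Dual3

namespace Groth.Agent.S3666

/-- Let i : Z → X be a closed immersion of schemes with i_* exact on modules and admitting a right
adjoint Hom(O_Z, -) (both hold), R Hom(O_Z, -) : D^+(O_X) → D^+(O_Z) its right derived functor
(injective resolutions assumed), and E a complex representing i_*O_Z in degree 0 with - ⊗^L E ⊣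
RHom(E, -) assumed. Then i_* ∘ R Hom(O_Z, -) ≅ RHom(E, -) = RHom_{O_X}(i_*O_Z, -) as functors
D^+(O_X) → D(O_X). -/
theorem result (Z X : Scheme.{u}) (i : Z ⟶ X) [IsClosedImmersion i] [Dual3.HasHomO i] [EnoughInjectives X.Modules] [PreservesFiniteLimits (Scheme.Modules.pushforward i)] [PreservesFiniteColimits (Scheme.Modules.pushforward i)] (E : CochainComplex X.Modules ℤ) (hE : Nonempty (DCoh.toD X E ≅ DCoh.inD X ((Scheme.Modules.pushforward i).obj (Coh.structureModule Z)))) [DCoh.HasLTensorCx E] [DCoh.HasRSheafHom E] : Nonempty (Dual3.RHomOPlus i ⋙ (DerivedCategory.Plus.ι : DerivedCategory.Plus Z.Modules ⥤ DCoh.D Z) ⋙ Dual3.pushD i ≅ (DerivedCategory.Plus.ι : DerivedCategory.Plus X.Modules ⥤ DCoh.D X) ⋙ DCoh.RSheafHom E) := by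
  obtain ⟨e⟩ := hE
  exact ⟨Groth.Agent.Dual.H369.HomOTens.plusPushIso i E e⟩

end Groth.Agent.S3666
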