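import Groth.Statements.S3667
import Groth.Agent.Dual.H370.Main

set_option autoImplicit false
universe u
open CategoryTheory CategoryTheory.Limits AlgebraicGeometry
attribute [local instance] HasDerivedCategory.standard
open Dual3

namespace Groth.Agent.S3667

/-- For X locally Noetherian (so that i is pseudo-coherent). Consider a cartesian square Z' = X' ×_X Z
with i : Z → X a closed immersion, X locally Noetherian, f : X' → X flat, and projections i' : Z' →
X', g : Z' → Z. Let R Hom(O_Z, -) and R Hom(O_{Z'}, -) be the right derived functors on D^+ of the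
right adjoints of i_*, i'_* (assumed to exist, injective resolutions assumed) and Lf^*, Lg^* the
derived pullbacks (assumed to exist). Then for every K in D^+(O_X) with quasi-coherent cohomology
sheaves, and any lower bound n for Lf^*K, Lg^* R Hom(O_Z, K) ≅ R Hom(O_{Z'}, Lf^*K) in D(O_{Z'}). -/
theorem result (Z X Z' X' : Scheme.{u}) [IsLocallyNoetherian X] (i : Z ⟶ X) [IsClosedImmersion i] (f : X' ⟶ X) [Flat f] (i' : Z' ⟶ X') (g : Z' ⟶ Z) (hsq : IsPullback g i' i f) [IsClosedImmersion i'] [Dual3.HasHomO i] [Dual3.HasHomO i'] [EnoughInjectives X.Modules] [EnoughInjectives X'.Modules] [DCoh.HasLpull f] [DCoh.HasLpull g] (K : DerivedCategory.Plus X.Modules) (hK : DCoh.IsQCohD K.obj) (n : ℤ) (hn : DerivedCategory.IsGE ((DCoh.Lpull f).obj K.obj) n) : Nonempty ((DCoh.Lpull g).obj ((Dual3.RHomOPlus i).obj K).obj ≅ ((Dual3.RHomOPlus i').obj ⟨(DCoh.Lpull f).obj K.obj, n, hn⟩).obj) := by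
  have hg : Flat g := MorphismProperty.of_isPullback hsq.flip inferInstance
  obtain ⟨e⟩ := Groth.Agent.Dual.H370.Main.nonempty_iso hsq K ⟨(DCoh.Lpull f).obj K.obj, n, hn⟩
    ((Groth.Agent.PerfB.FlatPull.lpullIso f).app K.obj)
  exact ⟨(Groth.Agent.PerfB.FlatPull.lpullIso g).app _ ≪≫ e⟩

end Groth.Agent.S3667
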