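import Groth.Statements.S3668
import Groth.Agent.Dual.H371.DeligneAR

set_option autoImplicit false
universe u
open CategoryTheory CategoryTheory.Limits AlgebraicGeometry
attribute [local instance] HasDerivedCategory.standard
open Dual3

namespace Groth.Agent.S3668

/-- Let X be a Noetherian scheme, I a quasi-coherent ideal, F a complex of coherent O_X-modules and p an
integer; put H = H^p(F) and H_n = H^p(I^n F), with the maps H_n → H and H_m → H_n (m ≥ n) induced by
the inclusions. Then there are c > 0 and, for n ≥ c, maps φ_n : H_n → I^{n-c} H and ψ_n : I^n H →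
H_{n-c} such that: φ_n followed by the inclusion I^{n-c}H ⊆ H is the canonical map H_n → H; ψ_n
followed by H_{n-c} → H is the inclusion I^n H ⊆ H; for n ≥ 2c the composite ψ_n then φ_{n-c} is the
inclusion I^n H ⊆ I^{n-2c} H, and the composite φ_n then ψ_{n-c} is the transition map H_n →
H_{n-2c}. In particular the systems (H_n) and (I^n H) are pro-isomorphic. (The maps φ, ψ are indexed
by all n; only n ≥ c, resp. n ≥ 2c, is constrained.) -/
theorem result (X : Scheme.{u}) [IsNoetherian X] (I : X.IdealSheafData) (F : CochainComplex X.Modules ℤ) (hFc : ∀ q : ℤ, Coh.IsCoh (F.X q)) (p : ℤ) : ∃ (c : ℕ) (φ : ∀ n : ℕ, ((Dual3.deligne I n).obj F).homology p ⟶ (Dual3.idealMul (I ^ (n - c))).obj (F.homology p)) (ψ : ∀ n : ℕ, (Dual3.idealMul (I ^ n)).obj (F.homology p) ⟶ ((Dual3.deligne I (n - c)).obj F).homology p), 0 < c ∧ (∀ n : ℕ, c ≤ n → φ n ≫ Dual3.idealMulι (I ^ (n - c)) (F.homology p) = HomologicalComplex.homologyMap (Dual3.deligneι I n F) p) ∧ (∀ n : ℕ, c ≤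 n → ψ n ≫ HomologicalComplex.homologyMap (Dual3.deligneι I (n - c) F) p = Dual3.idealMulι (I ^ n) (F.homology p)) ∧ (∀ n : ℕ, 2 * c ≤ n → (ψ n ≫ φ (n - c)) ≫ Dual3.idealMulι (I ^ (n - c - c)) (F.homology p) = Dual3.idealMulι (I ^ n) (F.homology p)) ∧ ∀ (n : ℕ), 2 * c ≤ n → ∀ t : (Dual3.deligne I n).obj F ⟶ (Dual3.deligne I (n - c - c)).obj F, t ≫ Dual3.deligneι I (n - c - c) F = Dual3.deligneι I n F → φ n ≫ ψ (n - c) = HomologicalComplex.homologyMap t p := by
  obtain ⟨c, hc, S⟩ := Groth.Agent.Dual.H371.DeligneAR.exists_input I F hFc p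
  obtain ⟨φ, ψ, h1, h2, h3, h4⟩ := S.main
  exact ⟨c, φ, ψ, hc, h1, h2, h3, h4⟩

end Groth.Agent.S3668
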