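import Groth.Statements.S3670
import Groth.Agent.Dual.H373.Core
import Groth.Agent.S3617
import Groth.Agent.S1343

set_option autoImplicit false
universe u
open CategoryTheory CategoryTheory.Limits AlgebraicGeometry
attribute [local instance] HasDerivedCategory.standard
open Dual3

namespace Groth.Agent.S3670

open Groth.Agent.Dual.H373

theorem aux_from (X S : Scheme.{u}) (f : X ⟶ S) [LocallyOfFinitePresentation f] (x : X) (d : ℕ)
    (U : X.Opens) (hx : x ∈ U) (g : (U : Scheme.{u}) ⟶ AffineSpace (ULift.{u} (Fin d)) S)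
    (hg : g ≫ (AffineSpace (ULift.{u} (Fin d)) S ↘ S) = U.ι ≫ f)
    (hG : Dual3.IsGorensteinAt g ⟨x, hx⟩) : Dual3.IsGorensteinAt f x := by
  have hlft : LocallyOfFiniteType (g ≫ (AffineSpace (ULift.{u} (Fin d)) S ↘ S)) := by
    rw [hg]; infer_instance
  have h1 := Core.isGorensteinAt_comp_affineSpace (ULift.{u} (Fin d)) g ⟨x, hx⟩ hG
  rw [hg, GorComp.isGorensteinAt_comp_openImmersion] at h1
  exact h1

theorem aux_to (X S : Scheme.{u}) (f : X ⟶ S) [LocallyOfFinitePresentation f] (x : X) (d : ℕ)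
    (hd : FlatMor.fibreDimAt f x = d) (hf : Dual3.IsGorensteinAt f x)
    (U : X.Opens) (hx : x ∈ U) (g : (U : Scheme.{u}) ⟶ AffineSpace (ULift.{u} (Fin d)) S)
    (hg : g ≫ (AffineSpace (ULift.{u} (Fin d)) S ↘ S) = U.ι ≫ f)
    (hq : Dual3.QuasiFiniteAt g ⟨x, hx⟩) : Dual3.IsGorensteinAt g ⟨x, hx⟩ := by
  have hlfp : LocallyOfFinitePresentation (g ≫ (AffineSpace (ULift.{u} (Fin d)) S ↘ S)) := by
    rw [hg]; infer_instance
  refine Core.isGorensteinAt_of_quasiFiniteAt d g ⟨x, hx⟩ ?_ ?_ hq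
  · rw [hg, Core.fibreDimAt_comp]
    exact hd
  · rw [hg, GorComp.isGorensteinAt_comp_openImmersion]
    exact hf

/-- Let f : X → S be flat and locally of finite presentation, x a point of X and d = dim_x(X_{f(x)}) the
local dimension of its fibre. Then the following are equivalent: (1) f is Gorenstein at x; (2) there
are an open neighbourhood U of x and a locally quasi-finite morphism g : U → A^d_S over S which is
Gorenstein at x; (3) there are an open neighbourhood U of x and a locally quasi-finite Gorenstein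
morphism g : U → A^d_S over S; (4) for every open neighbourhood U of x and every morphism g : U →
A^d_S over S, if x is isolated in its fibre under g (g is quasi-finite at x) then g is Gorenstein at
x. -/
theorem result (X S : Scheme.{u}) (f : X ⟶ S) [Flat f] [LocallyOfFinitePresentation f] (x : X) (d : ℕ) (hd : Dual3.localFibreDim f x = (d : WithBot ℕ∞)) : (Dual3.IsGorensteinAt f x ↔ ∃ (U : X.Opens) (hx : x ∈ U) (g : (U : Scheme.{u}) ⟶ AffineSpace (ULift.{u} (Fin d)) S), g ≫ (AffineSpace (ULift.{u} (Fin d)) S ↘ S) = U.ι ≫ f ∧ LocallyQuasiFinite g ∧ Dual3.IsGorensteinAt g ⟨x, hx⟩) ∧ (Dual3.IsGorensteinAt f x ↔ ∃ (U : X.Opens) (_ : x ∈ U) (g : (U : Scheme.{u}) ⟶ AffineSpace (ULift.{u} (Fin d)) S), g ≫ (AffineSpace (ULift.{u} (Fin d)) S ↘ S) = U.ι ≫ f ∧ LocallyQuasiFinite g ∧ Dual3.IsGorensteinMor g) ∧ (Dual3.IsGorensteinAt f x ↔ ∀ (U : X.Opens) (hx : x ∈ U) (g : (U : Scheme.{u}) ⟶ AffineSpace (ULift.{u} (Fin d)) S), g ≫ (AffineSpace (ULift.{u}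 (Fin d)) S ↘ S) = U.ι ≫ f → Dual3.QuasiFiniteAt g ⟨x, hx⟩ → Dual3.IsGorensteinAt g ⟨x, hx⟩) := by
  rw [Core.localFibreDim_eq] at hd
  have hqf : ∀ (U : X.Opens) (hx : x ∈ U) (g : (U : Scheme.{u}) ⟶ AffineSpace (ULift.{u} (Fin d)) S),
      g ≫ (AffineSpace (ULift.{u} (Fin d)) S ↘ S) = U.ι ≫ f → LocallyQuasiFinite g →
      Dual3.QuasiFiniteAt g ⟨x, hx⟩ := by
    intro U hx g hg h
    have hlft : LocallyOfFiniteType (g ≫ (AffineSpace (ULift.{u} (Fin d)) S ↘ S)) := by
      rw [hg]; infer_instance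
    have hft : LocallyOfFiniteType g := locallyOfFiniteType_of_comp g
      (AffineSpace (ULift.{u} (Fin d)) S ↘ S)
    rw [Core.quasiFiniteAt_iff]
    exact g.quasiFiniteAt _
  refine ⟨⟨fun h => ?_, ?_⟩, ⟨fun h => ?_, ?_⟩, ⟨fun h U hx g hg hq => aux_to X S f x d hd h U hx g hg hq,
    fun h => ?_⟩⟩
  · obtain ⟨U, hx, g, hg, hl⟩ := Core.exists_quasiFinite f x d hd
    exact ⟨U, hx, g, hg, hl, aux_to X S f x d hd h U hx g hg (hqf U hx g hg hl)⟩
  · rintro ⟨U, hx, g, hg, -, hG⟩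
    exact aux_from X S f x d U hx g hg hG
  · obtain ⟨U, g, hx, hg, hfl, hl⟩ := (S1343.result f x d hd).mp (Core.isCMAt_of_isGorensteinAt f x h)
    have hG : Dual3.IsGorensteinAt g ⟨x, hx⟩ :=
      aux_to X S f x d hd h U hx g hg (hqf U hx g hg hl)
    have hlfp' : LocallyOfFinitePresentation (g ≫ (AffineSpace (ULift.{u} (Fin d)) S ↘ S)) := by
      rw [hg]; infer_instance
    have hlfp : LocallyOfFinitePresentation g :=
      Flat2D.LfpComp.lfp_of_comp g (AffineSpace (ULift.{u} (Fin d)) S ↘ S)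
    let W : (U : Scheme.{u}).Opens := ⟨{y | Dual3.IsGorensteinAt g y}, S3617.result _ _ g⟩
    have hle : U.ι ''ᵁ W ≤ U := U.ι_image_le W
    refine ⟨U.ι ''ᵁ W, ⟨⟨x, hx⟩, hG, rfl⟩, X.homOfLE hle ≫ g, ?_, inferInstance, ?_⟩
    · rw [Category.assoc, hg, ← Category.assoc, Scheme.homOfLE_ι]
    · intro y
      rw [GorComp.isGorensteinAt_comp_openImmersion]
      obtain ⟨z, hz, hzy⟩ := y.2
      have : X.homOfLE hle y = z := Subtype.ext ((Scheme.homOfLE_apply hle y).trans hzy.symm)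
      rw [this]
      exact hz
  · rintro ⟨U, hx, g, hg, -, hG⟩
    exact aux_from X S f x d U hx g hg (hG _)
  · obtain ⟨U, hx, g, hg, hl⟩ := Core.exists_quasiFinite f x d hd
    exact aux_from X S f x d U hx g hg (h U hx g hg (hqf U hx g hg hl))

end Groth.Agent.S3670
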