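import Groth.Statements.S3671
import Groth.Agent.Dual.H374.ShriekPt
-- import your own Groth.Agent.* helpers here

set_option autoImplicit false
universe u
open CategoryTheory CategoryTheory.Limits AlgebraicGeometry
attribute [local instance] HasDerivedCategory.standard
open Dual3

namespace Groth.Agent.S3671

/-- Let S be a Noetherian scheme, X and Y schemes separated and of finite type over S and f : X → Y a
morphism over S; compute f^! through a compactification f = j ∘ p (j : X → X' an open immersion, p :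
X' → Y proper, Rp_* on D_QCoh assumed to exist and to preserve quasi-coherence of cohomology, a a
right adjoint of Rp_*, restriction of modules to opens assumed exact), so that f^!K = a(K)|_X. Let O
be the structure sheaf of Y in degree 0, x a point of X with y = f(x), and r a natural number.
Assume O_{Y,y} is Cohen–Macaulay and trdeg_{κ(f ξ)} κ(ξ) ≤ r for every generic point ξ of an
irreducible component of X containing x. Then a nonzero stalk of H^i(f^!O) at x forces -r ≤ i, and
the stalk of H^{-r}(f^!O) at x satisfies Serre's condition (S_2) as an O_{X,x}-module. -/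
theorem result (S X Y : Scheme.{u}) [IsNoetherian S] (p : X ⟶ S) (q : Y ⟶ S) [Dual3.IsSepFT p] [Dual3.IsSepFT q] (f : X ⟶ Y) (w : f ≫ q = p) (c : DEt.Compactification f) [DCoh.HasRpush c.fbar] (hc : DCoh.RpushPreservesQCoh c.fbar) (a : DCoh.DQCoh Y ⥤ DCoh.DQCoh c.Xbar) (adj : DCoh.RpushQ c.fbar hc ⊣ a) [∀ (U V : Scheme.{u}) (j : U ⟶ V) [IsOpenImmersion j], PreservesFiniteLimits (Scheme.Modules.restrictFunctor j)] (O : DCoh.DQCoh Y) (hO : Nonempty (O.obj ≅ DCoh.inD Y (Coh.structureModule Y))) (x : X) (r : ℕ) (hCM : LocCoh.IsCohenMacaulayLocalRing (Y.presheaf.stalk (f x))) (htr : ∀ Z : Set X, Z ∈ irreducibleComponents X → x ∈ Z → ∀ ξ : X, closure ({ξ} : Set X) = Z → Dual3.resTrdeg f ξ ≤ (r : Cardinal.{u})) : (∀ i : ℤ, Nontrivial ((DCoh.HD ((Dual3.shriekC c a).obj O) i).presheaf.stalk x) → -(r : ℤ) ≤ i) ∧ LocCoh.HasSk 2 (X.presheaf.stalk x) ((DCoh.HD ((Dual3.shriekC c a).obj O) (-(r : ℤ))).presheaf.stalk x) := by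
  obtain ⟨h1, h2, -⟩ := Groth.Agent.Dual.H374.ShriekPt.main q f c hc a adj O hO x r hCM htr
  exact ⟨h1, h2⟩

end Groth.Agent.S3671
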