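import Groth.Statements.S3673
import Groth.Agent.Dual.H376.Final

set_option autoImplicit false
universe u
open CategoryTheory CategoryTheory.Limits AlgebraicGeometry
attribute [local instance] HasDerivedCategory.standard
open Dual3

namespace Groth.Agent.S3673

/-- Let i : X → Y be a Koszul-regular closed immersion of schemes (affine-locally the ideal is
Koszul-regular) whose conormal sheaf C is finite locally free of rank r; let N = Hom_{O_X}(C, O_X)
be the normal sheaf (the sheaf Hom assumed to exist) and L an r-th exterior power of N. Let R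
Hom(O_X, -) : D^+(O_Y) → D^+(O_X) be the right derived functor of the right adjoint of i_* (assumed
to exist, injective resolutions assumed) and O an object of D^+(O_Y) isomorphic to O_Y in degree 0.
Then H^j(R Hom(O_X, O)) = 0 for j ≠ r and H^r(R Hom(O_X, O)) ≅ L; that is R Hom(O_X, O_Y) = ∧^r
N[-r]. -/
theorem result (X Y : Scheme.{u}) (i : X ⟶ Y) (hi : Dual3.IsKoszulRegularImmersion i) [IsClosedImmersion i] (r : ℕ) (hC : FlatMod.IsFinLocFreeOfRank r (Omega.conormal i)) [DCoh.HasSheafHom (Omega.conormal i)] (L : X.Modules) (hL : ExtPow.IsExtPow r ((DCoh.sheafHom (Omega.conormal i)).obj (Coh.structureModule X)) L) [Dual3.HasHomO i] [EnoughInjectives Y.Modules] (O : DerivedCategory.Plus Y.Modules) (hO : Nonempty (O.obj ≅ DCoh.inD Y (Coh.structureModule Y))) : (∀ j : ℤ, j ≠ (r : ℤ) → IsZero (DCoh.HD ((Dual3.RHomOPlus i).obj O).obj j)) ∧ Nonempty (DCoh.HD ((Dual3.RHomOPlus i).obj O).obj (r : ℤ) ≅ L) :=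
  Groth.Agent.Dual.H376.Final.main hi r hC L hL O hO

end Groth.Agent.S3673
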