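import Groth.Statements.S3674
import Groth.Agent.Dual.H377.Main
import Groth.Agent.S3630

set_option autoImplicit false
universe u
open CategoryTheory CategoryTheory.Limits AlgebraicGeometry
attribute [local instance] HasDerivedCategory.standard
open Dual3

namespace Groth.Agent.S3674

/-- Let Y be a quasi-compact quasi-separated scheme and i : X → Y a Koszul-regular closed immersion
whose conormal sheaf C is finite locally free of constant rank r; let N = Hom_{O_X}(C, O_X) be the
normal sheaf (the sheaf Hom functor out of C assumed to exist) and L an r-th exterior power of N.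
Assume the derived direct image Ri_* exists and preserves quasi-coherence of cohomology sheaves
(both known results), so that it restricts to a functor D_QCoh(O_X) → D_QCoh(O_Y), and let a :
D_QCoh(O_Y) → D_QCoh(O_X) be a right adjoint of this restricted functor. Let O be an object of
D_QCoh(O_Y) isomorphic to the structure sheaf placed in degree 0. Then a(O) ≅ L[−r] = ∧^r N[−r] in
D(O_X), that is, a(O) is L placed in degree r. (Stated for constant codimension r.) -/
theorem result (X Y : Scheme.{u}) [CompactSpace Y] [QuasiSeparatedSpace Y] (i : X ⟶ Y) (hi : Dual3.IsKoszulRegularImmersion i) [IsClosedImmersion i] (r : ℕ) (hC : FlatMod.IsFinLocFreeOfRank r (Omega.conormal i)) [DCoh.HasSheafHom (Omega.conormal i)] (L : X.Modules) (hL : ExtPow.IsExtPow r ((DCoh.sheafHom (Omega.conormal i)).obj (Coh.structureModule X)) L) [DCoh.HasRpush i] (hf : DCoh.RpushPreservesQCoh i) (a : DCoh.DQCoh Y ⥤ DCoh.DQCoh X) (adj : DCoh.RpushQ i hf ⊣ a) (O : DCoh.DQCoh Y) (hO : Nonempty (O.obj ≅ DCoh.inD Y (Coh.structureModule Y))) : Nonempty ((a.obj O).obj ≅ (DCoh.inD X L)⟦(-(r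 : ℤ))⟧) := by
  have hH : Dual3.HasHomO i := Groth.Agent.S3630.result X Y i
  have hE : EnoughInjectives Y.Modules := Groth.Agent.Dcoh.DerSch.enoughInjectives Y
  exact Groth.Agent.Dual.H377.AdjGlue.of_plus i r hC L hL
    (Groth.Agent.Dual.H377.Main.hd_rhomPlus i hi r hC L hL (Groth.Agent.Dual.H377.AdjGlue.plusO Y) ⟨Iso.refl _⟩)
    hf a adj O hO

end Groth.Agent.S3674
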