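import Groth.Statements.S3675
-- import your own Groth.Agent.* helpers here
import Groth.Agent.S1809
import Groth.Agent.CalgB.DzData

set_option autoImplicit false
universe u
open CategoryTheory CategoryTheory.Limits AlgebraicGeometry
attribute [local instance] HasDerivedCategory.standard
open Dual3

namespace Groth.Agent.S3675

/-- Some cohomology module of a dualizing complex is nonzero at each prime. -/
theorem exists_nontrivial (A : Type u) [CommRing A] [IsNoetherianRing A] (L : Dual.D A)
    (hL : Dual.IsDualizing A L) (p : PrimeSpectrum A) :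
    ∃ i : ℤ, Nontrivial (LocalizedModule p.asIdeal.primeCompl (Dual.HD A L i)) := by
  obtain ⟨δ, hd⟩ := CalgB.DzData.exists_isDelta hL
  obtain ⟨q, hq, hqp⟩ := Ideal.exists_minimalPrimes_le (I := (⊥ : Ideal A)) (J := p.asIdeal) bot_le
  have hqprime : q.IsPrime := hq.1.1
  have hQass : (⟨q, hqprime⟩ : PrimeSpectrum A).asIdeal ∈ associatedPrimes A A := by
    refine Module.associatedPrimes.minimalPrimes_annihilator_subset_associatedPrimes A A ?_
    rw [Module.annihilator_eq_bot.mpr inferInstance]
    exact hq
  have h1 := hd.mem_of_mem_associatedPrimes ⟨q, hqprime⟩ A hQass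
  rw [← CalgB.DzData.support_HD] at h1
  have h2 : p ∈ Module.support A (Dual.HD A L (-δ ⟨q, hqprime⟩)) :=
    CalgB.DzData.support_mono (show (⟨q, hqprime⟩ : PrimeSpectrum A) ≤ p from hqp) h1
  exact ⟨_, h2⟩

/-- Let X be a locally Noetherian scheme (exactness instances as in the definition of dualizing
complexes) and ω a coherent O_X-module such that ω[0] is a dualizing complex on X. Then X is
Cohen–Macaulay: every local ring O_{X,x} is a Cohen–Macaulay local ring. -/
theorem result (X : Scheme.{u}) [IsLocallyNoetherian X] [∀ (U V : Scheme.{u}) (j : U ⟶ V) [IsOpenImmersion j], PreservesFiniteLimits (Scheme.Modules.restrictFunctor j)] [∀ (R : CommRingCat.{u}), PreservesFiniteLimits (tilde.functor R)] (ω : X.Modules) (hω : Coh.IsCoh ω) (hD : Dual2.IsDualizingSch X (DCoh.inD X ω)) (x : X) : LocCoh.IsCohenMacaulayLocalRing (X.presheaf.stalk x) := by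
  refine ((S1809.result X (DCoh.inD X ω) hD).1 x).2 ?_
  obtain ⟨A, _, _, j, _, p, rfl⟩ := S1809.exists_chart x
  obtain ⟨L, hL, ⟨e⟩⟩ := hD A j
  have huniq : ∀ i : ℤ, Nontrivial ((DCoh.HD (DCoh.inD X ω) i).presheaf.stalk (j p)) → i = 0 := by
    intro i hi
    by_contra hne
    have hz : IsZero (DCoh.HD (DCoh.inD X ω) i) := by
      rcases lt_or_gt_of_ne hne with h1 | h1
      · exact DerivedCategory.isZero_of_isGE _ 0 i h1
      · exact DerivedCategory.isZero_of_isLE _ 0 i h1
    have hz' : IsZero ((PerfA.Restrict.stalkAb (j p)).obj (DCoh.HD (DCoh.inD X ω) i)) :=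
      Functor.map_isZero _ hz
    have hs : Subsingleton ((DCoh.HD (DCoh.inD X ω) i).presheaf.stalk (j p)) :=
      AddCommGrpCat.subsingleton_of_isZero hz'
    exact not_nontrivial_iff_subsingleton.mpr hs hi
  obtain ⟨i, hi⟩ := exists_nontrivial A L hL p
  have hi' := (Groth.Agent.LoccohB.CMSch.nontrivial_stalk_iff A j _ L e p i).2 hi
  exact ⟨i, hi', fun k hk => (huniq k hk).trans (huniq i hi').symm⟩

end Groth.Agent.S3675
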