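import Groth.Statements.S3676
import Groth.Agent.Dual.H379.TwistMain
import Groth.Agent.Dual.H379.PerfPush

set_option autoImplicit false
universe u
open CategoryTheory CategoryTheory.Limits AlgebraicGeometry
attribute [local instance] HasDerivedCategory.standard
open Dual3

namespace Groth.Agent.S3676

/-- Let f : X → Y be a perfect proper morphism of Noetherian schemes. Assume the derived direct image
Rf_* exists and preserves quasi-coherence of cohomology sheaves (both known results), so that it
restricts to a functor D_QCoh(O_X) → D_QCoh(O_Y), and let a : D_QCoh(O_Y) → D_QCoh(O_X) be a right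
adjoint of this restricted functor. Let O be an object of D_QCoh(O_Y) isomorphic to the structure
sheaf placed in degree 0, E a complex of O_X-modules representing a(O) with − ⊗^L E assumed to
exist, and Lf^* the derived pullback (assumed to exist). Then a ≅ Lf^*(−) ⊗^L a(O) as functors
D_QCoh(O_Y) → D(O_X). -/
theorem result (X Y : Scheme.{u}) [IsNoetherian X] [IsNoetherian Y] (f : X ⟶ Y) [IsProper f] (hperf : MoreMor.IsPerfectMor f) [DCoh.HasRpush f] (hf : DCoh.RpushPreservesQCoh f) (a : DCoh.DQCoh Y ⥤ DCoh.DQCoh X) (adj : DCoh.RpushQ f hf ⊣ a) (O : DCoh.DQCoh Y) (hO : Nonempty (O.obj ≅ DCoh.inD Y (Coh.structureModule Y))) [DCoh.HasLpull f] (E : CochainComplex X.Modules ℤ) (hE : Nonempty (DCoh.toD X E ≅ (a.obj O).obj)) [DCoh.HasLTensorCx E] : Nonempty (a ⋙ ObjectProperty.ι _ ≅ ObjectProperty.ι _ ⋙ DCoh.Lpull f ⋙ DCoh.LTensorCx E) := by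
  have hX : IsNoetherian X := inferInstance
  exact Groth.Agent.Dual.H379.TwistMain.nonempty_iso f hf adj
    (fun P hP => Groth.Agent.Dual.H379.PerfPush.isPerfect_Rpush f
      (Groth.Agent.Dual.H379.LpullBound.locTorDim_of_isPerfectMor f hperf) P hP) O hO E hE

end Groth.Agent.S3676
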