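import Groth.Statements.S3677
import Groth.Agent.Dual.H380.HypLocal
import Groth.Agent.Dual.H342.NormSch
-- import your own Groth.Agent.* helpers here

set_option autoImplicit false
universe u
open CategoryTheory CategoryTheory.Limits AlgebraicGeometry
attribute [local instance] HasDerivedCategory.standard
open Dual3

namespace Groth.Agent.S3677

/-- Let A be a Noetherian local ring with a normalized dualizing complex ω_A and X proper over Spec A
with dim X = n. Assume the derived pushforward Rf_* along the structure morphism f exists and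
preserves complexes with quasi-coherent cohomology (carried as hypotheses), let a be a right adjoint
to Rf_* : D_QCoh(O_X) → D_QCoh(Spec A), and let W be an object of D_QCoh(Spec A) isomorphic to the
derived tilde of ω_A (tilde assumed left exact); put ω_X^• = a(W) and ω_X = H^{−n}(ω_X^•). Then (1)
H^i(ω_X^•) = 0 unless −n ≤ i ≤ 0; (2) the set of points where H^i(ω_X^•) has nonzero stalk has Krull
dimension at most −i; (3) the set of points where ω_X has nonzero stalk is the union of the
irreducible components of X of dimension n; (4) the stalks of ω_X satisfy Serre's condition (S_2). -/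
theorem result (A : Type u) [CommRing A] [IsLocalRing A] [IsNoetherianRing A] (ω : Dual.D A) (hω : Dual.IsDualizing A ω) (hn : Dual.IsNormalized A ω) (X : Scheme.{u}) (f : X ⟶ Spec (CommRingCat.of A)) [IsProper f] [DCoh.HasRpush f] (hf : DCoh.RpushPreservesQCoh f) (a : DCoh.DQCoh (Spec (CommRingCat.of A)) ⥤ DCoh.DQCoh X) (adj : DCoh.RpushQ f hf ⊣ a) [PreservesFiniteLimits (tilde.functor (CommRingCat.of A))] (W : DCoh.DQCoh (Spec (CommRingCat.of A))) (hW : Nonempty (W.obj ≅ (DCoh.tildeD (CommRingCat.of A)).obj ω)) (n : ℕ) (hdim : topologicalKrullDim X = (n : WithBot ℕ∞)) : (∀ i : ℤ, (i < -(n : ℤ) ∨ 0 < i) → IsZero (DCoh.HD (a.obj W).obj i)) ∧ (∀ (i : ℤ) (m : ℕ), (m : ℤ) = -i → topologicalKrullDim {x : X | Nontrivial ((DCoh.HD (a.obj W).obj i).presheaf.stalk x)} ≤ (m : WithBot ℕ∞)) ∧ {x : X | Nontrivial ((DCoh.HD (a.obj W).obj (-(n : ℤ))).presheaf.stalk x)} = (⋃ Z ∈ {Z : Set X | Z ∈ irreducibleComponents X ∧ topologicalKrullDim ↥Z = (n : WithBot ℕ∞)}, Z) ∧ ∀ x : X, LocCoh.HasSk 2 (X.presheaf.stalk x) ((DCoh.HD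 (a.obj W).obj (-(n : ℤ))).presheaf.stalk x) := by
  have hK : Groth.Agent.PerfA.CohDim.Hyp (a.obj W).obj :=
    Groth.Agent.Dual.H380.HypLocal.hyp_local A ω hω hn X f hf a adj W hW
  have : CompactSpace X := QuasiCompact.compactSpace_of_compactSpace f
  obtain ⟨h1, h2⟩ := hK.bounds n hdim.le
  exact ⟨h1, h2, Groth.Agent.Dual.H342.NormSch.support_lowest_eq hK n hdim,
    Groth.Agent.Dual.H342.NormSch.hasSk_two hK n hdim.le⟩

end Groth.Agent.S3677
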