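import Groth.Statements.S3692
import Groth.Agent.Pi1.H394.SNCMem
import Groth.Agent.Pi1.H394.KumGal

set_option autoImplicit false
open CategoryTheory CategoryTheory.Limits AlgebraicGeometry
universe u
open SGA1t

namespace Groth.Agent.S3692

/-- Structure of the Kummer covers along a relative normal crossings divisor: let f : X → S be a
morphism and φ_1, …, φ_r global functions on X cutting out a strict normal crossings divisor
relative to S, with complement U; let x be a point of the divisor, R a strict henselization of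
O_{X,x}, U_1 the complement of the divisor in Spec R, and, for each index i with φ_i(x) = 0, an
integer n_i ≥ 1 invertible in the residue field of x. Let U'_1 be the part lying over U_1 of the
spectrum of the Kummer algebra R[T_i]/(T_i^{n_i} − φ_i) (one variable for each such i). Then,
granted that U'_1 → U_1 is finite étale, U'_1 is a Galois cover of U_1, and there is a group
isomorphism from the product over i of the groups of n_i-th roots of unity in R onto the group of
U_1-automorphisms of U'_1 that sends a family ζ = (ζ_i) to the automorphism induced by T_i ↦ ζ_i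
T_i. -/
theorem result {X S : Scheme.{u}} (f : X ⟶ S) {r : ℕ} (φ : Fin r → Γ(X, ⊤))
    (hD : SGA1t.IsRelSNC f φ) (x : X) (hx : Nonempty (SGA1t.vanishingAt φ x))
    (R : Type u) [CommRing R] [IsLocalRing R] [Algebra (X.presheaf.stalk x) R]
    [IsLocalHom (algebraMap (X.presheaf.stalk x) R)] [Hensel.IsStrictHenselization (X.presheaf.stalk x) R]
    (n : SGA1t.vanishingAt φ x → ℕ) (hn1 : ∀ i, 1 ≤ n i) (hnu : ∀ i, IsUnit ((n i : ℕ) : X.residueField x)) :
    letI a : SGA1t.vanishingAt φ x → R := fun i =>
      algebraMap (X.presheaf.stalk x) R ((X.presheaf.germ ⊤ x trivial).hom (φ i.1))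
    letI π : Spec (CommRingCat.of (SGA1t.kummer R a n)) ⟶ Spec (CommRingCat.of R) :=
      Spec.map (CommRingCat.ofHom (algebraMap R (SGA1t.kummer R a n)))
    letI U₁ := SGA1t.compl (fun i => (Hens2.specOf X x R).appTop (φ i))
    ∀ [hF : IsFinite (π ∣_ U₁)] [hE : Etale (π ∣_ U₁)],
      PiSp.IsGaloisCover (MorphismProperty.Over.mk ⊤ (π ∣_ U₁) ⟨hF, hE⟩) ∧
      ∃ θ : ((i : SGA1t.vanishingAt φ x) → ↥(rootsOfUnity (n i) R)) ≃*
          Aut (MorphismProperty.Over.mk ⊤ (π ∣_ U₁) ⟨hF, hE⟩ : FEt.Cat (U₁ : Scheme.{u})),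
        ∀ ζ, (θ ζ).hom.left ≫ (π ⁻¹ᵁ U₁).ι =
          (π ⁻¹ᵁ U₁).ι ≫ Spec.map (CommRingCat.ofHom (SGA1t.kummerTwist R a n ζ)) := by
  intro hF hE
  have hhens : HenselianLocalRing R := Hensel.IsStrictHenselization.henselian (X.presheaf.stalk x)
  have hsc : IsSepClosed (IsLocalRing.ResidueField R) :=
    (Hensel.IsStrictHenselization.isSepClosure (R := X.presheaf.stalk x) (S := R)).sep_closed
  have hn : ∀ i, IsUnit ((n i : ℕ) : R) := by
    intro i
    have h1 : IsUnit ((n i : ℕ) : X.presheaf.stalk x) := by
      refine (isUnit_map_iff (IsLocalRing.residue (X.presheaf.stalk x)) _).1 ?_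
      rw [map_natCast]
      exact hnu i
    have h2 := h1.map (algebraMap (X.presheaf.stalk x) R)
    rwa [map_natCast] at h2
  have hconn := Groth.Agent.Pi1.H394.SNCConn.connectedSpace_strictHenselization f φ hD x hx R n hn1
  refine Groth.Agent.Pi1.H394.KumGal.main _ n _ ?_ hn
  intro p hp i
  have h3 := (Groth.Agent.Pi1.H394.SNCMem.mem_compl_iff (Hens2.specOf X x R) φ p).1 hp i.1
  rwa [Groth.Agent.Pi1.H394.SNCConn.sec_specOf] at h3

end Groth.Agent.S3692
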