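import Groth.Statements.S3702
import Groth.Agent.Pi1.H403.RelSNCBase
import Groth.Agent.Pi1.H403.BcGlue
import Groth.Agent.Pi1.H404.UnitIso

set_option autoImplicit false
open CategoryTheory CategoryTheory.Limits AlgebraicGeometry
universe u
open SGA1t

namespace Groth.Agent.S3702

/-- Let f : X → S be a morphism and φ_1, …, φ_r global sections of O_X cutting out a strict normal
crossings divisor relative to S, i : U → X the inclusion of the open complement of the divisor, and
S′ → S any morphism; put X′ = X ×_S S′, k : X′ → X the projection, U′ = k⁻¹(U), i′ : U′ → X′ and k′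
: U′ → U. Then for every finite abelian group M, writing M_U for the constant sheaf with value M on
U, the base-change morphism k^*(i_* M_U) → i′_*(k′^* M_U) of étale sheaves on X′ is an isomorphism.
(The published statement is more general; only constant finite coefficients, in degree zero, are
stated here.) -/
theorem result {X S S' : Scheme.{u}} (f : X ⟶ S) {r : ℕ} (φ : Fin r → Γ(X, ⊤))
    (hD : SGA1t.IsRelSNC f φ) (h : S' ⟶ S) (M : Type) [AddCommGroup M] [Finite M] :
    IsIso (EtCoh.baseChange0 (SGA1t.compl φ).ι (pullback.fst f h) ((pullback.fst f h ⁻¹ᵁ SGA1t.compl φ).ι)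
      (pullback.fst f h ∣_ SGA1t.compl φ) (morphismRestrict_ι (pullback.fst f h) (SGA1t.compl φ))
      (EtCoh.const (SGA1t.compl φ : Scheme.{u}) M)) := by
  refine Pi1.H403.BcGlue.isIso_baseChange0_const _ M (Pi1.H404.UnitIso.isIso_unit hD M) ?_
  have h1 := Pi1.H404.UnitIso.isIso_unit (Pi1.H403.RelSNCBase.isRelSNC_baseChange f φ hD h) M
  rw [← Pi1.H403.RelSNCBase.preimage_compl] at h1
  exact h1

end Groth.Agent.S3702
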