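import Groth.Statements.S3703
import Groth.Agent.Pi1.H404.UnitIso
import Groth.Agent.Etrest.ConstBasic

set_option autoImplicit false
open CategoryTheory CategoryTheory.Limits AlgebraicGeometry
universe u
open SGA1t

namespace Groth.Agent.S3703

theorem isConstructible_of_iso {X : Scheme.{u}} {F G : EtCoh.Ab X} (e : F ≅ G)
    (h : EtPBC.IsConstructible F) : EtPBC.IsConstructible G := by
  intro U hU
  obtain ⟨n, T, g, h1, h2, h3, h4, h5⟩ := h U hU
  exact ⟨n, T, g, h1, h2, h3, h4, fun i _ =>
    Etrest.ConstBasic.isFiniteLocallyConstant_of_iso ((EtCoh.pull (g i)).mapIso e) (h5 i)⟩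

/-- Let f : X → S be a morphism and φ_1, …, φ_r global functions on X cutting out a strict normal
crossings divisor relative to S, with i : U → X the inclusion of the open complement. Then for every
finite abelian group M the direct image i_* M_U of the constant étale sheaf on U with value M is a
constructible sheaf on X. The published statement covers more general coefficient sheaves; it is
stated here for a finite constant sheaf. -/
theorem result {X S : Scheme.{u}} (f : X ⟶ S) {r : ℕ} (φ : Fin r → Γ(X, ⊤))
    (hD : SGA1t.IsRelSNC f φ) (M : Type) [AddCommGroup M] [Finite M] :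
    EtPBC.IsConstructible ((EtCoh.push (SGA1t.compl φ).ι).obj (EtCoh.const (SGA1t.compl φ : Scheme.{u}) M)) := by
  obtain ⟨e⟩ := Groth.Agent.Pi1.H404.UnitIso.nonempty_iso hD M
  exact isConstructible_of_iso e (Etrest.ConstBasic.isConstructible_const X M)

end Groth.Agent.S3703
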