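import Groth.Statements.S3707
import Mathlib.AlgebraicGeometry.Morphisms.Etale

set_option autoImplicit false
set_option backward.isDefEq.respectTransparency false
universe u
open SGA1

namespace Groth.Agent.S3707

open AlgebraicGeometry CategoryTheory CategoryTheory.Limits

/-- Two `S`-morphisms to an unramified `S`-scheme that agree after a surjective morphism are equal. -/
theorem eq_of_surjective {Z X T T' : Scheme.{u}} (π : Z ⟶ X) [FormallyUnramified π]
    [LocallyOfFiniteType π] (a b : T ⟶ Z) (h : a ≫ π = b ≫ π) (e : T' ⟶ T) [Surjective e]
    (he : e ≫ a = e ≫ b) : a = b := by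
  have h1 : IsOpenImmersion (equalizer.ι a b) := by
    have hq : IsPullback (equalizer.ι a b) (equalizer.ι a b ≫ a) (pullback.lift a b h)
        (pullback.diagonal π) := by
      refine ⟨⟨?_⟩, ⟨PullbackCone.IsLimit.mk _ (fun s => equalizer.lift s.fst ?_) ?_ ?_ ?_⟩⟩
      · apply pullback.hom_ext
        · simp
        · simpa using (equalizer.condition a b).symm
      · have c := s.condition
        have c1 := congrArg (fun t => t ≫ pullback.fst π π) c
        have c2 := congrArg (fun t => t ≫ pullback.snd π π) c
        simp only [Category.assoc, pullback.lift_fst, pullback.lift_snd, pullback.diagonal_fst,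
          pullback.diagonal_snd, Category.comp_id] at c1 c2
        rw [c1, c2]
      · intro s; simp
      · intro s
        have c := s.condition
        have c1 := congrArg (fun t => t ≫ pullback.fst π π) c
        simp only [Category.assoc, pullback.lift_fst, pullback.diagonal_fst,
          Category.comp_id] at c1
        rw [equalizer.lift_ι_assoc, c1]
      · intro s m hm _
        apply equalizer.hom_ext
        rw [hm, equalizer.lift_ι]
    exact MorphismProperty.of_isPullback (P := @IsOpenImmersion) hq.flip inferInstance
  have h2 : Surjective (equalizer.ι a b) := by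
    have : Surjective (equalizer.lift e he ≫ equalizer.ι a b) := by
      rw [equalizer.lift_ι]; infer_instance
    exact Surjective.of_comp (equalizer.lift e he) _
  have h3 : IsIso (equalizer.ι a b) :=
    (isIso_iff_isOpenImmersion_and_surjective _).2 ⟨h1, h2⟩
  rw [← cancel_epi (equalizer.ι a b), equalizer.condition]

open AlgebraicGeometry CategoryTheory CategoryTheory.Limits in
/-- Let g : S' -> S be a surjective morphism of schemes, X and Y schemes over S with Y unramified over S
(formally unramified and locally of finite type), and X', Y' their base changes to S'. Then the map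
sending an S-morphism X -> Y to the induced S'-morphism X' -> Y' is injective. -/
theorem result {S S' X Y : Scheme.{u}} (g : S' ⟶ S) [Surjective g]
    (p : X ⟶ S) (q : Y ⟶ S) [FormallyUnramified q] [LocallyOfFiniteType q]
    (u v : X ⟶ Y) (hu : p ≫ 𝟙 S = u ≫ q) (hv : p ≫ 𝟙 S = v ≫ q)
    (h : pullback.map p g q g u (𝟙 S') (𝟙 S) hu ((Category.comp_id _).trans (Category.id_comp _).symm) =
      pullback.map p g q g v (𝟙 S') (𝟙 S) hv ((Category.comp_id _).trans (Category.id_comp _).symm)) :
    u = v := by
  refine eq_of_surjective q u v (hu.symm.trans hv) (pullback.fst p g) ?_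
  have c := congrArg (fun t => t ≫ pullback.fst q g) h
  simpa using c

end Groth.Agent.S3707
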