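import Groth.Statements.S3709
import Groth.Agent.Sga1.EtaleHom

set_option autoImplicit false
universe u
open SGA1

namespace Groth.Agent.S3709

open AlgebraicGeometry CategoryTheory CategoryTheory.Limits in
/-- A universally submersive morphism is a descent morphism for etale schemes (exactness of Hom_S(X, Y)
-> Hom_S'(X', Y') => Hom_S''(X'', Y'')): let g : S' -> S be universally submersive, X and Y schemes
over S with Y etale over S, X' and Y' their base changes along g, and f' : X' -> Y' an S'-morphism
whose two pullbacks to S'' = S' x_S S' coincide (equivalently: the two composites X'' -> X' -> Y' ->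
Y along the two projections agree). Then there is exactly one S-morphism u : X -> Y whose base
change is f'. -/
theorem result {S S' X Y : Scheme.{u}} (g : S' ⟶ S) (hg : SGA1.UnivSubmersive g)
    (p : X ⟶ S) (q : Y ⟶ S) [Etale q]
    (f' : pullback p g ⟶ pullback q g) (hf' : f' ≫ pullback.snd q g = pullback.snd p g)
    (hcoc : pullback.map p (pullback.fst g g ≫ g) p g (𝟙 X) (pullback.fst g g) (𝟙 S)
        ((Category.comp_id _).trans (Category.id_comp _).symm) (Category.comp_id _) ≫ f' ≫ pullback.fst q g =
      pullback.map p (pullback.fst g g ≫ g) p g (𝟙 X) (pullback.snd g g) (𝟙 S)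
        ((Category.comp_id _).trans (Category.id_comp _).symm) ((Category.comp_id _).trans pullback.condition) ≫
        f' ≫ pullback.fst q g) :
    ∃! u : X ⟶ Y, u ≫ q = p ∧ f' ≫ pullback.fst q g = pullback.fst p g ≫ u := by
  have hh : SGA1.UnivSubmersive (pullback.fst p g) := MorphismProperty.pullback_fst _ _ hg
  have hsurj : Surjective (pullback.fst p g) :=
    ⟨(Groth.Agent.Sga1.UnivSub.isQuotientMap hh).surjective⟩
  have hv : (f' ≫ pullback.fst q g) ≫ q = pullback.fst p g ≫ p := by
    rw [Category.assoc, pullback.condition, ← Category.assoc, hf', pullback.condition]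
  obtain ⟨u, hu1, hu2⟩ := Groth.Agent.Sga1.EtaleHom.exists_hom_of_compat (pullback.fst p g) hh p q
    (f' ≫ pullback.fst q g) hv (by
      intro L _ x₀ x₁ e
      have e0 : (x₀ ≫ pullback.snd p g) ≫ g = (x₁ ≫ pullback.snd p g) ≫ g := by
        rw [Category.assoc, Category.assoc, ← pullback.condition, ← Category.assoc, e,
          Category.assoc]
      let w : Spec (CommRingCat.of L) ⟶ pullback g g :=
        pullback.lift (x₀ ≫ pullback.snd p g) (x₁ ≫ pullback.snd p g) e0
      have hw0 : w ≫ pullback.fst g g = x₀ ≫ pullback.snd p g := pullback.lift_fst _ _ _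
      have hw1 : w ≫ pullback.snd g g = x₁ ≫ pullback.snd p g := pullback.lift_snd _ _ _
      have hzc : (x₀ ≫ pullback.fst p g) ≫ p = w ≫ pullback.fst g g ≫ g := by
        rw [← Category.assoc w, hw0, Category.assoc, Category.assoc, pullback.condition]
      let z : Spec (CommRingCat.of L) ⟶ pullback p (pullback.fst g g ≫ g) :=
        pullback.lift (x₀ ≫ pullback.fst p g) w hzc
      have hza : z ≫ pullback.fst p (pullback.fst g g ≫ g) = x₀ ≫ pullback.fst p g :=
        pullback.lift_fst _ _ _
      have hzb : z ≫ pullback.snd p (pullback.fst g g ≫ g) = w := pullback.lift_snd _ _ _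
      have key : ∀ (r : pullback g g ⟶ S') (x : Spec (CommRingCat.of L) ⟶ pullback p g)
          (h1 : p ≫ 𝟙 S = 𝟙 X ≫ p) (h2 : (pullback.fst g g ≫ g) ≫ 𝟙 S = r ≫ g)
          (_ : x₀ ≫ pullback.fst p g = x ≫ pullback.fst p g)
          (_ : w ≫ r = x ≫ pullback.snd p g),
          z ≫ pullback.map p (pullback.fst g g ≫ g) p g (𝟙 X) r (𝟙 S) h1 h2 = x := by
        intro r x h1 h2 ha hb
        have m1 : pullback.map p (pullback.fst g g ≫ g) p g (𝟙 X) r (𝟙 S) h1 h2 ≫
            pullback.fst p g = pullback.fst _ _ ≫ 𝟙 X := pullback.lift_fst _ _ _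
        have m2 : pullback.map p (pullback.fst g g ≫ g) p g (𝟙 X) r (𝟙 S) h1 h2 ≫
            pullback.snd p g = pullback.snd _ _ ≫ r := pullback.lift_snd _ _ _
        apply pullback.hom_ext
        · rw [Category.assoc, m1, Category.comp_id, hza, ha]
        · rw [Category.assoc, m2, ← Category.assoc, hzb, hb]
      have hz0 := key (pullback.fst g g) x₀
        ((Category.comp_id _).trans (Category.id_comp _).symm) (Category.comp_id _) rfl hw0
      have hz1 := key (pullback.snd g g) x₁
        ((Category.comp_id _).trans (Category.id_comp _).symm)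
        ((Category.comp_id _).trans pullback.condition) e hw1
      calc x₀ ≫ f' ≫ pullback.fst q g = _ := by rw [← hz0, Category.assoc]
        _ = _ := congrArg (z ≫ ·) hcoc
        _ = x₁ ≫ f' ≫ pullback.fst q g := by rw [← Category.assoc, hz1])
  refine ⟨u, ⟨hu1, hu2.symm⟩, ?_⟩
  rintro u' ⟨hu1', hu2'⟩
  exact Groth.Agent.Sga1.EtaleHom.hom_unique (pullback.fst p g) q u' u (hu1'.trans hu1.symm)
    (hu2'.symm.trans hu2.symm)

end Groth.Agent.S3709
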