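import Groth.Statements.S3710
import Groth.Agent.Pi1.H411.Chart
import Groth.Agent.Pi1.H411.KumSmooth
import Mathlib.RingTheory.RingHom.Smooth
import Mathlib.AlgebraicGeometry.Stalk

set_option autoImplicit false
open CategoryTheory CategoryTheory.Limits AlgebraicGeometry
universe u
open SGA1t

namespace Groth.Agent.S3710

/-- Localizing a formally smooth ring map at a prime of the target and its contraction. -/
theorem localRingHom_formallySmooth {R B : Type u} [CommRing R] [CommRing B] (θ : R →+* B)
    (h : θ.FormallySmooth) (J : Ideal B) [J.IsPrime] :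
    (Localization.localRingHom (J.comap θ) J θ rfl).FormallySmooth := by
  let I := J.comap θ
  algebraize [θ]
  let _ : Algebra (Localization.AtPrime I) (Localization.AtPrime J) :=
    (Localization.localRingHom I J θ rfl).toAlgebra
  have _ : IsScalarTower R (Localization.AtPrime I) (Localization.AtPrime J) :=
    IsScalarTower.of_algebraMap_eq (fun r => (Localization.localRingHom_to_map I J θ rfl r).symm)
  have _ : Algebra.FormallySmooth B (Localization.AtPrime J) :=
    Algebra.FormallySmooth.of_isLocalization J.primeCompl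
  have _ : Algebra.FormallySmooth R (Localization.AtPrime J) := Algebra.FormallySmooth.comp R B _
  have _ : Algebra.FormallyEtale R (Localization.AtPrime I) :=
    Algebra.FormallyEtale.of_isLocalization I.primeCompl
  exact Algebra.FormallySmooth.of_restrictScalars R _ _

/-- Stalk maps of `Spec B ⟶ Spec R` are formally smooth if the ring map is. -/
theorem stalkMap_formallySmooth {S : Scheme.{u}} (U : S.Opens) (hU : IsAffineOpen U) {B : CommRingCat.{u}}
    (θ : Γ(S, U) ⟶ B) (h : θ.hom.FormallySmooth) (y : Spec B) :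
    ((Spec.map θ ≫ hU.fromSpec).stalkMap y).hom.FormallySmooth := by
  have h1 : ((Spec.map θ).stalkMap y).hom.FormallySmooth := by
    refine (RingHom.FormallySmooth.respectsIso.arrow_mk_iso_iff
      (Scheme.arrowStalkMapSpecIso θ y)).mpr ?_
    exact localRingHom_formallySmooth θ.hom h y.asIdeal
  rw [Scheme.Hom.stalkMap_comp]
  exact (RingHom.FormallySmooth.respectsIso.cancel_left_isIso (hU.fromSpec.stalkMap (Spec.map θ y))
    ((Spec.map θ).stalkMap y)).mpr h1

/-- Let f : X -> S and φ_1, ..., φ_r cut out a strict normal crossings divisor relative to S, x a point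
where some φ_i vanishes, A = O_{X,x}, and n_i ≥ 1 integers for the indices i with φ_i(x) = 0 (no
condition on the residue characteristic). Then the Kummer scheme X' = Spec A[T_i]/(T_i^{n_i} - φ_i)
is smooth over S at its point x' over x: the homomorphism from the local ring of S at the image
point to the local ring of X' at x' is formally smooth. -/
theorem result {X S : Scheme.{u}} (f : X ⟶ S) {r : ℕ} (φ : Fin r → Γ(X, ⊤))
    (hD : SGA1t.IsRelSNC f φ) (x : X) (hx : Nonempty (SGA1t.vanishingAt φ x))
    (n : SGA1t.vanishingAt φ x → ℕ) (hn1 : ∀ i, 1 ≤ n i) :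
    letI A := X.presheaf.stalk x
    letI a : SGA1t.vanishingAt φ x → A := fun i => (X.presheaf.germ ⊤ x trivial).hom (φ i.1)
    letI π : Spec (CommRingCat.of (SGA1t.kummer A a n)) ⟶ Spec (CommRingCat.of A) :=
      Spec.map (CommRingCat.ofHom (algebraMap A (SGA1t.kummer A a n)))
    ∀ x' : Spec (CommRingCat.of (SGA1t.kummer A a n)), π.base x' = IsLocalRing.closedPoint A →
      ((π ≫ X.fromSpecStalk x ≫ f).stalkMap x').hom.FormallySmooth := by
  intro x' _
  obtain ⟨U, hU, V, hV, hVU, hxV, d, v, e, he, hE, hv⟩ := Pi1.H411.Chart.exists_chart f φ hD x hx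
  let A := X.presheaf.stalk x
  let a : SGA1t.vanishingAt φ x → A := fun i => (X.presheaf.germ ⊤ x trivial).hom (φ i.1)
  let K : Type u := SGA1t.kummer A a n
  let J := ULift.{u} (Fin d)
  let γ : MvPolynomial J Γ(S, U) →+* Γ(X, V) := MvPolynomial.eval₂Hom (f.appLE U V hVU).hom v
  let θ : Γ(S, U) ⟶ CommRingCat.of K :=
    f.appLE U V hVU ≫ X.presheaf.germ V x hxV ≫ CommRingCat.ofHom (algebraMap A K)
  have hθ : θ.hom.FormallySmooth := by
    let g : Γ(X, V) →+* A := (X.presheaf.germ V x hxV).hom
    let _ : Algebra (MvPolynomial J Γ(S, U)) Γ(X, V) := γ.toAlgebra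
    let _ : Algebra Γ(X, V) A := g.toAlgebra
    let _ : Algebra (MvPolynomial J Γ(S, U)) A := (g.comp γ).toAlgebra
    let _ : Algebra Γ(S, U) A := ((g.comp γ).comp MvPolynomial.C).toAlgebra
    have _ : IsScalarTower Γ(S, U) (MvPolynomial J Γ(S, U)) A := IsScalarTower.of_algebraMap_eq' rfl
    have _ : IsScalarTower (MvPolynomial J Γ(S, U)) Γ(X, V) A := IsScalarTower.of_algebraMap_eq' rfl
    have _ : Algebra.Etale (MvPolynomial J Γ(S, U)) Γ(X, V) := hE
    have _ : IsLocalization.AtPrime A (hV.primeIdealOf ⟨x, hxV⟩).asIdeal :=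
      hV.isLocalization_stalk ⟨x, hxV⟩
    have _ : Algebra.FormallyEtale Γ(X, V) A :=
      Algebra.FormallyEtale.of_isLocalization (hV.primeIdealOf ⟨x, hxV⟩).asIdeal.primeCompl
    have _ : Algebra.FormallyEtale (MvPolynomial J Γ(S, U)) A :=
      Algebra.FormallyEtale.comp (MvPolynomial J Γ(S, U)) Γ(X, V) A
    have h2 : Algebra.FormallySmooth Γ(S, U) K :=
      Pi1.H411.KumSmooth.formallySmooth_kummer (fun i => (ULift.up (e i) : J))
        (fun i j hij => he (ULift.up_injective hij)) a (fun i => by
          change g (γ (MvPolynomial.X (ULift.up (e i)))) = _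
          simp only [γ, MvPolynomial.eval₂Hom_X']
          refine (congrArg (fun z => g z) (hv i)).trans ?_
          exact congr($(X.presheaf.germ_res (homOfLE le_top) x hxV).hom (φ i.1))) n
    have h3 : θ.hom = algebraMap Γ(S, U) K := by
      ext s
      rw [IsScalarTower.algebraMap_apply Γ(S, U) A K]
      change algebraMap A K (g _) = algebraMap A K (g (γ (MvPolynomial.C s)))
      simp only [γ, MvPolynomial.eval₂Hom_C]
      rfl
    rw [h3, RingHom.formallySmooth_algebraMap]
    exact h2
  have heq : Spec.map (CommRingCat.ofHom (algebraMap A K)) ≫ X.fromSpecStalk x ≫ f =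
      Spec.map θ ≫ hU.fromSpec := by
    rw [← hV.fromSpecStalk_eq_fromSpecStalk hxV, IsAffineOpen.fromSpecStalk, Category.assoc,
      ← IsAffineOpen.SpecMap_appLE_fromSpec f hU hV hVU]
    simp only [θ, Spec.map_comp, Category.assoc]
    rfl
  have h1 := stalkMap_formallySmooth U hU θ hθ
  rw [← heq] at h1
  exact h1 x'

end Groth.Agent.S3710
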