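import Groth.Statements.S3711
import Groth.Agent.Pi1.H408.TamePoint

set_option autoImplicit false
set_option backward.isDefEq.respectTransparency false
open CategoryTheory CategoryTheory.Limits AlgebraicGeometry
universe u
open SGA1t

namespace Groth.Agent.S3711

/-- General form: an open immersion `j : U → X`, a principal cover of `U`, and a morphism `a : Z → X`. -/
theorem isTamelyRamified_of_openImmersion {U X Z : Scheme.{u}} (j : U ⟶ X) [IsOpenImmersion j]
    (G : Type) [Group G] [Finite G] (P : FEt.Cat U) (ρ : G →* Aut P) (hP : SGA1t.IsPrincipal G P ρ)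
    (a : Z ⟶ X) (y : Z) [IsDomain (Z.presheaf.stalk y)]
    (hdvr : IsDiscreteValuationRing (Z.presheaf.stalk y))
    (w : ↥(pullback (P.hom ≫ j) a)) (h : (pullback.snd (P.hom ≫ j) a) w ⤳ y)
    (hne : (pullback.snd (P.hom ≫ j) a) w ≠ y) (hunit : IsUnit ((Nat.card G : ℕ) : Z.residueField y)) :
    EtRam.IsTamelyRamified (Z.presheaf.stalk y)
      (((pullback.snd (P.hom ≫ j) a).residueFieldMap w).hom.comp
        ((Z.residue _).hom.comp (Z.presheaf.stalkSpecializes h).hom)) := by
  -- the map `Spec κ(u) → U`
  obtain ⟨η, hη⟩ : ∃ η : Spec (Z.residueField ((pullback.snd (P.hom ≫ j) a) w)) ⟶ U,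
      η ≫ j = Z.fromSpecResidueField _ ≫ a := by
    refine ⟨IsOpenImmersion.lift j _ ?_, IsOpenImmersion.lift_fac _ _ _⟩
    rintro _ ⟨z, rfl⟩
    rw [Scheme.Hom.comp_apply, Scheme.fromSpecResidueField_apply]
    have h1 : (P.hom ≫ j) ((pullback.fst (P.hom ≫ j) a) w) = a ((pullback.snd (P.hom ≫ j) a) w) := by
      rw [← Scheme.Hom.comp_apply, ← Scheme.Hom.comp_apply, pullback.condition]
    rw [← h1, Scheme.Hom.comp_apply]
    exact Set.mem_range_self _
  -- the point of the fibre
  have e1 : ((pullback (P.hom ≫ j) a).fromSpecResidueField w ≫ pullback.fst (P.hom ≫ j) a) ≫ P.hom =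
      Spec.map ((pullback.snd (P.hom ≫ j) a).residueFieldMap w) ≫ η := by
    rw [← cancel_mono j, Category.assoc, Category.assoc, Category.assoc, hη,
      Scheme.Hom.SpecMap_residueFieldMap_fromSpecResidueField_assoc, pullback.condition]
  have e2 : pullback.fst P.hom η ≫ P.hom ≫ j =
      (pullback.snd P.hom η ≫ Z.fromSpecResidueField ((pullback.snd (P.hom ≫ j) a) w)) ≫ a := by
    rw [pullback.condition_assoc, hη, Category.assoc]
  have htk : pullback.lift _ _ e1 ≫ pullback.lift _ _ e2 =
      (pullback (P.hom ≫ j) a).fromSpecResidueField w := by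
    apply pullback.hom_ext
    · rw [Category.assoc, pullback.lift_fst, pullback.lift_fst]
    · rw [Category.assoc, pullback.lift_snd, pullback.lift_snd_assoc,
        Scheme.Hom.SpecMap_residueFieldMap_fromSpecResidueField]
  have hsurj : SurjectiveOnStalks (pullback.lift _ _ e1) := by
    have : SurjectiveOnStalks (pullback.lift _ _ e1 ≫ pullback.lift _ _ e2) := by rw [htk]; infer_instance
    exact SurjectiveOnStalks.of_comp _ (pullback.lift _ _ e2)
  exact Pi1.H408.TamePoint.isTamelyRamified G P ρ hP (pullback.snd (P.hom ≫ j) a) w η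
    (pullback.lift _ _ e1) (pullback.lift_snd _ _ _) hsurj y hdvr h hne hunit

/-- Case of a constant group: let f : X -> S and φ_1, ..., φ_r cut out a strict normal crossings divisor
relative to S with complement U, and let P be a principal C-cover of U for a finite group C whose
order is invertible in every residue field of S. Then P is tamely ramified on X relatively to S. -/
theorem result {X S : Scheme.{u}} (f : X ⟶ S) {r : ℕ} (φ : Fin r → Γ(X, ⊤))
    (hD : SGA1t.IsRelSNC f φ) (C : Type) [Group C] [Finite C] (hC : ∀ s : S, IsUnit ((Nat.card C : ℕ) : S.residueField s))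
    (P : FEt.Cat (SGA1t.compl φ : Scheme.{u})) (ρ : C →* Aut P) (hP : SGA1t.IsPrincipal C P ρ) :
    SGA1t.IsRelTame f φ P := by
  intro Ω _ _ σ _ y _ hdvr w h hne
  refine isTamelyRamified_of_openImmersion (SGA1t.compl φ).ι C P ρ hP (pullback.fst f σ) y hdvr w h hne ?_
  have h1 := (hC ((pullback.fst f σ ≫ f) y)).map ((pullback.fst f σ ≫ f).residueFieldMap y).hom
  rwa [map_natCast] at h1

end Groth.Agent.S3711
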