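import Groth.Statements.S3713
import Groth.Agent.Pi1.H413.SecChart

set_option autoImplicit false
universe u
open SGA1

namespace Groth.Agent.S3713

open AlgebraicGeometry CategoryTheory CategoryTheory.Limits in
/-- Let Y be locally Noetherian, f : X -> Y locally of finite type, i a section of f and y a point of Y.
Then X is smooth over Y at i(y) (i(y) lies in the smooth locus of f) if and only if there are an
open neighbourhood U of y, an open V of X with i(U) ⊆ V ⊆ f^{-1}(U), and finitely many sections of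
O_X over V, all vanishing along i(U), which define an etale U-morphism from V to an affine space
over U (so that this etale chart carries the section to the zero section). -/
theorem result {X Y : Scheme.{u}} [IsLocallyNoetherian Y] (f : X ⟶ Y)
    [LocallyOfFiniteType f] [LocallyOfFinitePresentation f] (i : Y ⟶ X) (hi : i ≫ f = 𝟙 Y) (y : Y) :
    i.base y ∈ f.smoothLocus ↔
      ∃ (U : Y.Opens) (V : X.Opens) (_ : y ∈ U) (hUV : U ≤ i ⁻¹ᵁ V) (hVU : V ≤ f ⁻¹ᵁ U) (m : ℕ)
        (v : ULift.{u} (Fin m) → Γ(V, ⊤)),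
        Etale (AffineSpace.homOfVector (f.resLE U V hVU) v) ∧ ∀ j, (i.resLE V U hUV).appTop (v j) = 0 := by
  constructor
  · intro hx
    obtain ⟨U₀, hU₀, V₀, hV₀, hVU₀, hxV₀, hstd⟩ :=
      Groth.Agent.Pi1.H413.SecChart.exists_isStandardSmooth_of_mem_smoothLocus f _ hx
    have hstd' : (f.resLE U₀ V₀ hVU₀).appTop.hom.IsStandardSmooth :=
      (RingHom.isStandardSmooth_respectsIso.arrow_mk_iso_iff
        (arrowResLEAppIso f U₀ V₀ hVU₀)).mpr hstd
    obtain ⟨n, g, hg, het⟩ := hstd'.exists_etale_mvPolynomial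
    have : IsAffine U₀.toScheme := hU₀
    have : IsAffine V₀.toScheme := hV₀
    let v₀ : ULift.{u} (Fin n) → Γ(V₀, ⊤) := fun j => g (MvPolynomial.X j.down)
    have het₀ : Etale (AffineSpace.homOfVector (f.resLE U₀ V₀ hVU₀) v₀) := by
      apply Groth.Agent.Pi1.H413.SecChart.etale_homOfVector_of_isAffine
      have h1 : MvPolynomial.eval₂Hom (f.resLE U₀ V₀ hVU₀).appTop.hom v₀ =
          g.comp (MvPolynomial.renameEquiv Γ(U₀, ⊤)
            (Equiv.ulift.{u} : ULift.{u} (Fin n) ≃ Fin n)).toRingEquiv.toRingHom := by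
        apply MvPolynomial.ringHom_ext
        · intro a
          have := RingHom.congr_fun hg a
          simp only [RingHom.comp_apply] at this
          rw [MvPolynomial.eval₂Hom_C, ← this, RingHom.comp_apply]
          congr 1
          exact (MvPolynomial.rename_C _ _).symm
        · intro a
          simp [v₀]
      rw [h1]
      exact RingHom.Etale.stableUnderComposition _ _ (RingHom.Etale.of_bijective
        (MvPolynomial.renameEquiv Γ(U₀, ⊤)
            (Equiv.ulift.{u} : ULift.{u} (Fin n) ≃ Fin n)).bijective) het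
    -- shrink
    let U : Y.Opens := i ⁻¹ᵁ V₀
    have hUU₀ : U ≤ U₀ := by
      intro z hz
      have h2 : f (i z) ∈ U₀ := hVU₀ hz
      rwa [← Scheme.Hom.comp_apply, hi] at h2
    let V : X.Opens := V₀ ⊓ f ⁻¹ᵁ U
    have hVV₀ : V ≤ V₀ := inf_le_left
    have hVU : V ≤ f ⁻¹ᵁ U := inf_le_right
    have hUV : U ≤ i ⁻¹ᵁ V := by
      intro z hz
      refine ⟨hz, ?_⟩
      change f (i z) ∈ U
      rwa [← Scheme.Hom.comp_apply, hi]
    have hyU : y ∈ U := hxV₀
    let v₁ : ULift.{u} (Fin n) → Γ(V, ⊤) := (X.homOfLE hVV₀).appTop ∘ v₀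
    have het₁ : Etale (AffineSpace.homOfVector (f.resLE U V hVU) v₁) :=
      Groth.Agent.Pi1.H413.SecChart.etale_homOfVector_restrict (f.resLE U₀ V₀ hVU₀) (f.resLE U V hVU)
        (X.homOfLE hVV₀) (Y.homOfLE hUU₀) (by simp) v₀
    let c : ULift.{u} (Fin n) → Γ(U, ⊤) := fun j => - (i.resLE V U hUV).appTop (v₁ j)
    refine ⟨U, V, hyU, hUV, hVU, n, fun j => v₁ j + (f.resLE U V hVU).appTop (c j), ?_, ?_⟩
    · rw [← Groth.Agent.Pi1.H413.SecChart.homOfVector_trans]
      infer_instance
    · intro j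
      have h3 : i.resLE V U hUV ≫ f.resLE U V hVU = 𝟙 _ := by
        rw [← cancel_mono U.ι, Category.assoc, Scheme.Hom.resLE_comp_ι,
          Scheme.Hom.resLE_comp_ι_assoc, hi, Category.comp_id, Category.id_comp]
      have h4 : (i.resLE V U hUV).appTop ((f.resLE U V hVU).appTop (c j)) = c j := by
        rw [← CommRingCat.comp_apply, ← Scheme.Hom.comp_appTop, h3]
        simp
      rw [map_add, h4]
      simp only [c]
      exact add_neg_cancel _
  · rintro ⟨U, V, hyU, hUV, hVU, m, v, het, -⟩
    have hsm : Smooth (𝔸(ULift.{u} (Fin m); U) ↘ (U : Scheme.{u})) :=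
      Groth.Agent.Pi1.H413.SecChart.smooth_affineSpace _ _
    have h1 : Smooth (f.resLE U V hVU) := by
      rw [← AffineSpace.homOfVector_over (f.resLE U V hVU) v]
      infer_instance
    have hxV : i.base y ∈ V := hUV hyU
    have h2 : (⟨i.base y, hxV⟩ : V) ∈ (f.resLE U V hVU).smoothLocus := by
      rw [Scheme.Hom.smoothLocus_eq_top]
      trivial
    exact (RingHom.FormallySmooth.respectsIso.arrow_mk_iso_iff
      (f.resLEStalkMap hVU ⟨i.base y, hxV⟩)).mp h2

end Groth.Agent.S3713
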