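import Groth.Statements.S3718
import Mathlib.AlgebraicGeometry.Morphisms.QuasiFinite

set_option autoImplicit false
universe u
open CategoryTheory MonoidalCategory CartesianMonoidalCategory MonObj GrpObj AlgebraicGeometry
open Pi1

namespace Groth.Agent.S3718

open Limits in
/-- Two maps from a connected scheme into a separated unramified scheme over the base that agree
after composition with a map from a nonempty scheme agree. -/
theorem eq_of_agree {X S Y T : Scheme.{u}} (π : X ⟶ S)
    [FormallyUnramified π] [LocallyOfFiniteType π] [IsSeparated π] [ConnectedSpace Y] [Nonempty T]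
    (w : T ⟶ Y) (f g : Y ⟶ X) (hfg : f ≫ π = g ≫ π) (hw : w ≫ f = w ≫ g) : f = g := by
  obtain ⟨d, hd1, hd2⟩ : ∃ d : Y ⟶ pullback π π, d ≫ pullback.fst π π = f ∧ d ≫ pullback.snd π π = g :=
    ⟨pullback.lift f g hfg, pullback.lift_fst _ _ _, pullback.lift_snd _ _ _⟩
  obtain ⟨e, he⟩ : ∃ e, e = pullback.snd (pullback.diagonal π) d := ⟨_, rfl⟩
  have : IsOpenImmersion e := by rw [he]; infer_instance
  have : IsClosedImmersion e := by rw [he]; infer_instance
  have hcl : IsClopen (Set.range e.base) := ⟨e.isClosedEmbedding.isClosed_range, e.isOpenEmbedding.isOpen_range⟩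
  obtain ⟨l, hl⟩ : ∃ l : T ⟶ pullback (pullback.diagonal π) d,
      l ≫ pullback.snd (pullback.diagonal π) d = w := by
    refine ⟨pullback.lift (w ≫ f) w ?_, pullback.lift_snd _ _ _⟩
    apply pullback.hom_ext
    · rw [Category.assoc, Category.assoc, Category.assoc, pullback.diagonal_fst, hd1, Category.comp_id]
    · rw [Category.assoc, Category.assoc, Category.assoc, pullback.diagonal_snd, hd2, Category.comp_id, hw]
  obtain ⟨t⟩ := ‹Nonempty T›
  have huniv : Set.range e.base = Set.univ := hcl.eq_univ ⟨_, l.base t, rfl⟩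
  have : Surjective e := ⟨Set.range_eq_univ.mp huniv⟩
  have : IsIso e := (isIso_iff_isOpenImmersion_and_surjective e).mpr ⟨inferInstance, inferInstance⟩
  have hc := pullback.condition (f := pullback.diagonal π) (g := d)
  rw [← he] at hc
  have h1 : e ≫ f = e ≫ g := by
    rw [← hd1, ← hd2, ← Category.assoc, ← hc, ← Category.assoc, ← hc, Category.assoc, Category.assoc,
      pullback.diagonal_fst, pullback.diagonal_snd]
  exact (cancel_epi e).mp h1

section

variable {k : Type u} [Field k] (A : Over (Spec (CommRingCat.of k))) [GrpObj A]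

/-- Translation by a rational point. -/
noncomputable def tr (a : 𝟙_ (Over (Spec (CommRingCat.of k))) ⟶ A) : A ⟶ A :=
  (𝟙 A) * (toUnit A ≫ a)

theorem comp_tr (a : 𝟙_ (Over (Spec (CommRingCat.of k))) ⟶ A)
    {T : Over (Spec (CommRingCat.of k))} (f : T ⟶ A) : f ≫ tr A a = f * (toUnit T ≫ a) := by
  rw [tr, comp_mul, Category.comp_id, ← Category.assoc, toUnit_unique (f ≫ toUnit A) (toUnit T)]

theorem tr_comp_tr (a b : 𝟙_ (Over (Spec (CommRingCat.of k))) ⟶ A) :
    tr A a ≫ tr A b = tr A (a * b) := by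
  rw [comp_tr, tr, tr, comp_mul, _root_.mul_assoc]

theorem tr_one : tr A 1 = 𝟙 A := by
  rw [tr, comp_one, _root_.mul_one]

theorem tr_comp_pow [IsCommMonObj A] (n : ℤ) (a : 𝟙_ (Over (Spec (CommRingCat.of k))) ⟶ A)
    (ha : a ^ n = 1) : tr A a ≫ (𝟙 A) ^ n = (𝟙 A) ^ n := by
  rw [comp_zpow, Category.comp_id, tr, mul_zpow, ← comp_zpow, ha, comp_one, _root_.mul_one]

theorem η_comp_tr (a : 𝟙_ (Over (Spec (CommRingCat.of k))) ⟶ A) : η[A] ≫ tr A a = a := by
  rw [comp_tr, toUnit_unique (toUnit (𝟙_ (Over (Spec (CommRingCat.of k))))) (𝟙 _), Category.id_comp,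
    MonObj.one_eq_one, _root_.one_mul]

/-- Translation by an `n`-torsion point as an automorphism of the cover `[n]`. -/
noncomputable def trAut [IsCommMonObj A] (n : ℤ)
    (hF : IsFinite ((𝟙 A) ^ n).left) (hE : Etale ((𝟙 A) ^ n).left)
    (a : 𝟙_ (Over (Spec (CommRingCat.of k))) ⟶ A) (ha : a ^ n = 1) :
    Aut (MorphismProperty.Over.mk ⊤ ((𝟙 A) ^ n).left ⟨hF, hE⟩ : FEt.Cat A.left) where
  hom := MorphismProperty.Over.homMk (tr A a).left
    (congrArg (fun g => g.left) (tr_comp_pow A n a ha))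
  inv := MorphismProperty.Over.homMk (tr A a⁻¹).left
    (congrArg (fun g => g.left) (tr_comp_pow A n a⁻¹ (by rw [inv_zpow, ha, inv_one])))
  hom_inv_id := by
    ext1
    have := congrArg (fun g => g.left) (tr_comp_tr A a a⁻¹)
    rw [mul_inv_cancel, tr_one] at this
    exact this
  inv_hom_id := by
    ext1
    have := congrArg (fun g => g.left) (tr_comp_tr A a⁻¹ a)
    rw [inv_mul_cancel, tr_one] at this
    exact this

theorem trAut_hom_left [IsCommMonObj A] (n : ℤ)
    (hF : IsFinite ((𝟙 A) ^ n).left) (hE : Etale ((𝟙 A) ^ n).left)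
    (a : 𝟙_ (Over (Spec (CommRingCat.of k))) ⟶ A) (ha : a ^ n = 1) :
    (trAut A n hF hE a ha).hom.left = ((𝟙 A) * (toUnit A ≫ a)).left := rfl

/-- Two endomorphisms with the same `n`-th multiple that agree at a rational point agree. -/
theorem eq_of_pow_eq [ConnectedSpace A.left] [IsSeparated A.hom] (n : ℤ)
    (hF : IsFinite ((𝟙 A) ^ n).left) (hE : Etale ((𝟙 A) ^ n).left)
    (f g : A ⟶ A) (hfg : f ^ n = g ^ n) (he : η[A] ≫ f = η[A] ≫ g) : f = g := by
  ext1
  have hN : Nonempty (𝟙_ (Over (Spec (CommRingCat.of k)))).left :=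
    inferInstanceAs (Nonempty (Spec (CommRingCat.of k)))
  refine eq_of_agree ((𝟙 A) ^ n).left η[A].left f.left g.left ?_ ?_
  · have : f ≫ (𝟙 A) ^ n = g ≫ (𝟙 A) ^ n := by
      rw [comp_zpow, comp_zpow, Category.comp_id, Category.comp_id, hfg]
    simpa using congrArg (fun g => g.left) this
  · have h := congrArg (fun g => g.left) he
    simpa using h

omit [GrpObj A] in
/-- A field-valued point whose image is a closed point is constant (over an algebraically closed
field). -/
theorem exists_rational_of_isClosed [IsAlgClosed k] [LocallyOfFiniteType A.hom]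
    {Ω : Type u} [Field Ω] (d : Spec (CommRingCat.of Ω) ⟶ A.left)
    (y : Spec (CommRingCat.of Ω)) (hd : IsClosed {d y}) :
    ∃ a : 𝟙_ (Over (Spec (CommRingCat.of k))) ⟶ A, d = (d ≫ A.hom) ≫ a.left := by
  obtain ⟨⟨x, b⟩, rfl⟩ := (Scheme.SpecToEquivOfField Ω A.left).symm.surjective d
  have e : ((Scheme.SpecToEquivOfField Ω A.left).symm ⟨x, b⟩) =
    Spec.map b ≫ A.left.fromSpecResidueField x := rfl
  rw [e] at hd ⊢
  have hx : IsClosed {x} := by
    rw [Scheme.Hom.comp_apply, Scheme.fromSpecResidueField_apply] at hd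
    exact hd
  refine ⟨Over.homMk (pointOfClosedPoint A.hom x hx) (by simp), ?_⟩
  have h1 : A.left.fromSpecResidueField x =
      (A.left.fromSpecResidueField x ≫ A.hom) ≫ pointOfClosedPoint A.hom x hx := by
    rw [← SpecMap_residueFieldIsoBase_inv A.hom x hx, pointOfClosedPoint, ← Spec.map_comp_assoc]
    simp
  simp only [Over.homMk_left, Category.assoc]
  rw [Category.assoc] at h1
  rw [← h1]

/-- A point over a closed point under a finite morphism is closed. -/
theorem isClosed_of_isFinite {X Y : Scheme.{u}} (f : X ⟶ Y) [IsFinite f] (x : X)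
    (hx : IsClosed {f x}) : IsClosed {x} := by
  have h1 : IsClosed (f ⁻¹' {f x}) := hx.preimage f.continuous
  have h3 := f.isDiscrete_preimage_singleton (f x)
  have h4 : DiscreteTopology (f ⁻¹' {f x}) := h3.to_subtype
  have h5 : IsClosed ({⟨x, rfl⟩} : Set (f ⁻¹' {f x})) := isClosed_discrete _
  have h6 := (h1.isClosedEmbedding_subtypeVal.isClosedMap _ h5)
  simpa using h6

/-- Two geometric points with the same `n`-th multiple differ by a translation by a rational
`n`-torsion point. -/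
theorem exists_translation [IsAlgClosed k] [IsCommMonObj A] [LocallyOfFiniteType A.hom] (n : ℤ)
    (hF : IsFinite ((𝟙 A) ^ n).left) {Ω : Type u} [Field Ω]
    (s t : Spec (CommRingCat.of Ω) ⟶ A.left) (h : s ≫ ((𝟙 A) ^ n).left = t ≫ ((𝟙 A) ^ n).left) :
    ∃ a : 𝟙_ (Over (Spec (CommRingCat.of k))) ⟶ A, a ^ n = 1 ∧ s ≫ (tr A a).left = t := by
  have hs : s ≫ A.hom = t ≫ A.hom := by
    rw [← Over.w ((𝟙 A) ^ n), ← Category.assoc, h, Category.assoc]
  let T : Over (Spec (CommRingCat.of k)) := Over.mk (t ≫ A.hom)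
  let s' : T ⟶ A := Over.homMk s hs
  let t' : T ⟶ A := Over.homMk t rfl
  have h1 : s' ^ n = t' ^ n := by
    have : s' ≫ (𝟙 A) ^ n = t' ≫ (𝟙 A) ^ n := by
      ext1
      simpa [s', t'] using h
    rwa [comp_zpow, comp_zpow, Category.comp_id, Category.comp_id] at this
  have h2 : (s'⁻¹ * t') ^ n = 1 := by
    rw [mul_zpow, inv_zpow, h1, inv_mul_cancel]
  have h3 : (s'⁻¹ * t') ≫ (𝟙 A) ^ n = toUnit T ≫ η[A] := by
    rw [comp_zpow, Category.comp_id, h2, MonObj.one_eq_one, comp_one]
  have h3' : (s'⁻¹ * t').left ≫ ((𝟙 A) ^ n).left = (t ≫ A.hom) ≫ η[A].left := by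
    have := congrArg (fun g => g.left) h3
    simpa [T] using this
  have h4 (y : Spec (CommRingCat.of Ω)) : IsClosed {(s'⁻¹ * t').left y} := by
    apply isClosed_of_isFinite ((𝟙 A) ^ n).left
    have e1 : ((𝟙 A) ^ n).left ((s'⁻¹ * t').left y) = η[A].left ((t ≫ A.hom) y) := by
      rw [← Scheme.Hom.comp_apply, ← Scheme.Hom.comp_apply]
      exact congrArg (fun (g : Spec (CommRingCat.of Ω) ⟶ A.left) => g y) h3'
    rw [e1]
    have e2 : IsClosed ({(t ≫ A.hom) y} : Set (Spec (CommRingCat.of k))) := isClosed_discrete _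
    have e3 := η[A].left.isClosedEmbedding.isClosedMap _ e2
    rwa [Set.image_singleton] at e3
  obtain ⟨a, ha⟩ := exists_rational_of_isClosed A (s'⁻¹ * t').left
    (IsLocalRing.closedPoint Ω) (h4 _)
  have ha' : s'⁻¹ * t' = toUnit T ≫ a := by
    ext1
    rw [Over.comp_left, ha]
    congr 1
    rw [Over.w]
    exact (Category.comp_id _).symm.trans (Over.w (toUnit T))
  have ha'' : a ^ n = 1 := by
    have e1 : toUnit T ≫ (a ^ n) = toUnit T ≫ 1 := by
      rw [comp_zpow, ← ha', h2, comp_one]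
    ext1
    refine ext_of_apply_closedPoint_eq (K := k) A.hom (Over.w (a ^ n)) (Over.w _) ?_
    have e2 : (toUnit T).left ≫ (a ^ n).left =
        (toUnit T).left ≫ (1 : 𝟙_ (Over (Spec (CommRingCat.of k))) ⟶ A).left := by
      rw [← Over.comp_left, ← Over.comp_left, e1]
    have e3 := congrArg (fun (g : Spec (CommRingCat.of Ω) ⟶ A.left) =>
      g (IsLocalRing.closedPoint Ω)) e2
    have e4 : (toUnit T).left (IsLocalRing.closedPoint Ω) = IsLocalRing.closedPoint k :=
      Subsingleton.elim (α := Spec (CommRingCat.of k)) _ _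
    have e5 : ∀ (g : Spec (CommRingCat.of k) ⟶ A.left),
        ((toUnit T).left ≫ g) (IsLocalRing.closedPoint Ω) = g (IsLocalRing.closedPoint k) := by
      intro g
      rw [← e4]
      rfl
    exact (e5 _).symm.trans (e3.trans (e5 _))
  refine ⟨a, ha'', ?_⟩
  have h5 : s' ≫ tr A a = t' := by
    rw [comp_tr, ← ha', mul_inv_cancel_left]
  exact congrArg (fun g => g.left) h5

/-- Every self-map commuting with `[n]` is the translation by a unique `n`-torsion point. -/
theorem existsUnique_translation [ConnectedSpace A.left] [IsCommMonObj A] [IsSeparated A.hom] (n : ℤ)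
    (hF : IsFinite ((𝟙 A) ^ n).left) (hE : Etale ((𝟙 A) ^ n).left)
    (θ : A.left ⟶ A.left) (hθ : θ ≫ ((𝟙 A) ^ n).left = ((𝟙 A) ^ n).left) :
    ∃! a : 𝟙_ (Over (Spec (CommRingCat.of k))) ⟶ A, a ^ n = 1 ∧ θ = (tr A a).left := by
  have hθ' : θ ≫ A.hom = A.hom := by
    rw [← Over.w ((𝟙 A) ^ n), ← Category.assoc, hθ]
  let φ : A ⟶ A := Over.homMk θ hθ'
  have hφ : φ ^ n = (𝟙 A) ^ n := by
    have : φ ≫ (𝟙 A) ^ n = (𝟙 A) ^ n := by
      ext1
      simpa [φ] using hθ
    rwa [comp_zpow, Category.comp_id] at this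
  have ha : (η[A] ≫ φ) ^ n = 1 := by
    rw [← comp_zpow, hφ, comp_zpow, Category.comp_id, MonObj.one_eq_one, one_zpow]
  have h1 : (tr A (η[A] ≫ φ)) ^ n = (𝟙 A) ^ n := by
    rw [← tr_comp_pow A n _ ha, comp_zpow, Category.comp_id]
  have h2 : φ = tr A (η[A] ≫ φ) :=
    eq_of_pow_eq A n hF hE _ _ (hφ.trans h1.symm) (η_comp_tr A _).symm
  refine ⟨η[A] ≫ φ, ⟨ha, congrArg (fun g => g.left) h2⟩, ?_⟩
  rintro b ⟨hb, hb'⟩
  have h3 : φ = tr A b := by
    ext1
    exact hb'
  rw [h3, η_comp_tr]

end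

/-- The covers that compute the prime-to-p part of the fundamental group of an abelian variety: let k be
algebraically closed, A an abelian variety over k (a proper, geometrically integral group scheme
over k) and n ≥ 1 an integer invertible in k. Granted that multiplication by n (the n-th power of
the identity in the group Hom(A, A)) is a finite etale cover of A, it is a Galois cover, and its
automorphisms over A are exactly the translations x -> x + a by the k-points a of A with n a = 0,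
each such a giving exactly one automorphism. (With the domination row this identifies the maximal
prime-to-p quotient of the fundamental group with the inverse limit of the prime-to-p torsion
points.) -/
theorem result (k : Type u) [Field k] [IsAlgClosed k]
    (A : Over (Spec (CommRingCat.of k))) [GrpObj A] [IsProper A.hom] [GeometricallyIntegral A.hom]
    (n : ℕ) (hn1 : 1 ≤ n) (hn : IsUnit ((n : ℕ) : k)) :
    ∀ [hF : IsFinite ((𝟙 A) ^ (n : ℤ)).left] [hE : Etale ((𝟙 A) ^ (n : ℤ)).left],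
      PiSp.IsGaloisCover (MorphismProperty.Over.mk ⊤ ((𝟙 A) ^ (n : ℤ)).left ⟨hF, hE⟩ : FEt.Cat A.left) ∧
      (∀ θ : Aut (MorphismProperty.Over.mk ⊤ ((𝟙 A) ^ (n : ℤ)).left ⟨hF, hE⟩ : FEt.Cat A.left),
        ∃! a : 𝟙_ (Over (Spec (CommRingCat.of k))) ⟶ A, a ^ (n : ℤ) = 1 ∧
          θ.hom.left = ((𝟙 A) * (toUnit A ≫ a)).left) ∧
      (∀ a : 𝟙_ (Over (Spec (CommRingCat.of k))) ⟶ A, a ^ (n : ℤ) = 1 →
        ∃ θ : Aut (MorphismProperty.Over.mk ⊤ ((𝟙 A) ^ (n : ℤ)).left ⟨hF, hE⟩ : FEt.Cat A.left),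
          θ.hom.left = ((𝟙 A) * (toUnit A ≫ a)).left) := by
  intro hF hE
  have hint : IsIntegral A.left := GeometricallyIntegral.isIntegral_of_subsingleton A.hom
  have hcomm : IsCommMonObj A := isCommMonObj_of_isProper_of_geometricallyIntegral A
  refine ⟨⟨?_, ?_⟩, ?_, ?_⟩
  · exact inferInstanceAs (ConnectedSpace A.left)
  · intro Ω _ _ ξ s t
    obtain ⟨a, ha, hst⟩ := exists_translation A n hF s.1 t.1 (s.2.trans t.2.symm)
    exact ⟨trAut A n hF hE a ha, Subtype.ext hst⟩
  · intro θ
    exact existsUnique_translation A n hF hE θ.hom.left (Over.w θ.hom.hom)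
  · intro a ha
    exact ⟨trAut A n hF hE a ha, trAut_hom_left A n hF hE a ha⟩

end Groth.Agent.S3718
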