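import Groth.Statements.S3720
import Groth.Agent.Pi1.H420.KummerThm
import Groth.Agent.Pi1.H420.PrincipalAffine

set_option autoImplicit false
open CategoryTheory CategoryTheory.Limits AlgebraicGeometry
universe u
open SGA1t

namespace Groth.Agent.S3720

/-- Kummer theory over a local ring: let A be a local ring, n ≥ 1 an integer invertible in A, and
suppose A contains a primitive n-th root of unity (so that the group μ_n(A) of n-th roots of unity
in A is cyclic of order n). Then every principal μ_n(A)-cover P of Spec A is isomorphic over Spec A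
to a Kummer cover Spec A[T]/(Tⁿ − a) for some unit a of A, compatibly with the actions: the given
action of a root of unity ζ on P corresponds to the automorphism of A[T]/(Tⁿ − a) induced by T ↦ ζT. -/
theorem result (A : Type u) [CommRing A] [IsLocalRing A] (n : ℕ) (hn1 : 1 ≤ n)
    (hn : IsUnit ((n : ℕ) : A)) (ζ₀ : A) (hζ₀ : IsPrimitiveRoot ζ₀ n)
    (P : FEt.Cat (Spec (CommRingCat.of A))) (ρ : ↥(rootsOfUnity n A) →* Aut P)
    (hP : SGA1t.IsPrincipal ↥(rootsOfUnity n A) P ρ) :
    ∃ (a : Aˣ) (e : P.left ≅ Spec (CommRingCat.of (SGA1t.kummer A (fun _ : Unit => (a : A)) (fun _ => n)))),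
      e.hom ≫ Spec.map (CommRingCat.ofHom (algebraMap A (SGA1t.kummer A (fun _ : Unit => (a : A)) (fun _ => n)))) = P.hom ∧
      ∀ ζ : ↥(rootsOfUnity n A), (ρ ζ).hom.left ≫ e.hom =
        e.hom ≫ Spec.map (CommRingCat.ofHom (SGA1t.kummerTwist A (fun _ : Unit => (a : A)) (fun _ => n) (fun _ => ζ))) := by
  have hfin : Finite (rootsOfUnity n A) :=
    Groth.Agent.Pi1.H420.RootsLocal.finite_rootsOfUnity hn hn1
  obtain ⟨B, _, _, _, _, _, e, τ, h1, h2, h3, h4, h5⟩ :=
    Groth.Agent.Pi1.H420.PrincipalAffine.exists_algebra' P ρ hP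
  obtain ⟨a, φ, hφ⟩ := Groth.Agent.Pi1.H420.KummerThm.exists_kummer hn1 hn ζ₀ hζ₀ τ h2 h3 h4 h5
  obtain ⟨i, j, hij, hji, hj, hτj⟩ : ∃ (i : Spec (CommRingCat.of B) ⟶ P.left)
      (j : P.left ⟶ Spec (CommRingCat.of B)), i ≫ j = 𝟙 _ ∧ j ≫ i = 𝟙 _ ∧
      j ≫ Spec.map (CommRingCat.ofHom (algebraMap A B)) = P.hom ∧
      ∀ g, (ρ g).hom.left ≫ j = j ≫ Spec.map (CommRingCat.ofHom (τ g).toRingHom) := by
    refine ⟨e.inv.left, e.hom.left, ?_, ?_, Groth.Agent.Pi1A.FEtAffine.hom_w e.hom, ?_⟩
    · exact congrArg (fun f => f.left) e.inv_hom_id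
    · exact congrArg (fun f => f.left) e.hom_inv_id
    · intro g
      exact congrArg (fun f => f.left) (h1 g)
  refine ⟨a, { hom := j ≫ Spec.map (CommRingCat.ofHom φ.toRingEquiv.toRingHom),
               inv := Spec.map (CommRingCat.ofHom φ.symm.toRingEquiv.toRingHom) ≫ i,
               hom_inv_id := ?_, inv_hom_id := ?_ }, ?_, ?_⟩
  · have h6 : Spec.map (CommRingCat.ofHom φ.toRingEquiv.toRingHom) ≫
        Spec.map (CommRingCat.ofHom φ.symm.toRingEquiv.toRingHom) = 𝟙 _ := by
      rw [← Spec.map_comp, ← CommRingCat.ofHom_comp, ← Spec.map_id]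
      congr 1
      ext x
      exact φ.apply_symm_apply x
    rw [Category.assoc, reassoc_of% h6, hji]
  · have h6 : Spec.map (CommRingCat.ofHom φ.symm.toRingEquiv.toRingHom) ≫
        Spec.map (CommRingCat.ofHom φ.toRingEquiv.toRingHom) = 𝟙 _ := by
      rw [← Spec.map_comp, ← CommRingCat.ofHom_comp, ← Spec.map_id]
      congr 1
      apply CommRingCat.hom_ext
      apply RingHom.ext
      intro x
      exact φ.symm_apply_apply x
    rw [Category.assoc, reassoc_of% hij, h6]
  · change (j ≫ Spec.map _) ≫ _ = _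
    rw [Category.assoc, ← Spec.map_comp, ← CommRingCat.ofHom_comp, ← hj]
    congr 3
    exact φ.toAlgHom.comp_algebraMap
  · intro ζ
    change (ρ ζ).hom.left ≫ j ≫ Spec.map _ = (j ≫ Spec.map _) ≫ _
    rw [← Category.assoc, hτj, Category.assoc, Category.assoc, ← Spec.map_comp, ← Spec.map_comp,
      ← CommRingCat.ofHom_comp, ← CommRingCat.ofHom_comp]
    congr 3
    apply RingHom.ext
    intro x
    exact hφ ζ x

end Groth.Agent.S3720
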