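import Groth.Statements.S3721
import Groth.Agent.Pi1.H421.PrincAlg
import Groth.Agent.Pi1.H421.ArtSch

set_option autoImplicit false
open CategoryTheory CategoryTheory.Limits AlgebraicGeometry
universe u
open SGA1t

namespace Groth.Agent.S3721

/-- Let p be a prime and A a commutative ring of characteristic p. Then every principal ℤ/p-cover P of
Spec A (a finite étale cover with an action of ℤ/p making it a torsor) is isomorphic over Spec A to
an Artin–Schreier cover Spec A[T]/(T^p − T − a) for some a ∈ A, compatibly with the actions: under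
the isomorphism the given action of j ∈ ℤ/p on P corresponds to the automorphism of the
Artin–Schreier cover induced by T ↦ T + j. The published statement is for any base S of
characteristic p on which Frobenius fixes no nonzero element of H¹(S, O_S); it is stated here for S
= Spec A affine. -/
theorem result (A : Type u) [CommRing A] (p : ℕ) [Fact p.Prime] [CharP A p]
    (P : FEt.Cat (Spec (CommRingCat.of A))) (ρ : Multiplicative (ZMod p) →* Aut P)
    (hP : SGA1t.IsPrincipal (Multiplicative (ZMod p)) P ρ) :
    ∃ (a : A) (e : P.left ≅ Spec (CommRingCat.of (SGA1t.artinSchreier A p a))),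
      e.hom ≫ Spec.map (CommRingCat.ofHom (algebraMap A (SGA1t.artinSchreier A p a))) = P.hom ∧
      ∀ j : ZMod p, (ρ (Multiplicative.ofAdd j)).hom.left ≫ e.hom =
        e.hom ≫ Spec.map (CommRingCat.ofHom (SGA1t.artinSchreierShift A p a j)) := by
  classical
  obtain ⟨B, _, _, _, _, _, _, e, he, hρ, hff, hf, ht⟩ :=
    Groth.Agent.Pi1.H421.PrincAlg.exists_algebra A (Multiplicative (ZMod p)) P ρ hP
  have hinj : Function.Injective (algebraMap A B) := FaithfulSMul.algebraMap_injective A B
  have hinv : Algebra.IsInvariant A B (Multiplicative (ZMod p)) :=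
    Groth.Agent.Pi1.H421.GalAlg.isInvariant A hf ht
  obtain ⟨b, hb⟩ := Groth.Agent.Pi1.H421.GalAlg.exists_trace_one A (G := Multiplicative (ZMod p)) hf ht
  obtain ⟨t, htr⟩ := Groth.Agent.Pi1.H421.ArtSch.exists_translate (A := A) b hb
  obtain ⟨a, ha⟩ := Algebra.IsInvariant.isInvariant (A := A) (G := Multiplicative (ZMod p)) (t ^ p - t)
    (fun g => Groth.Agent.Pi1.H421.ArtSch.smul_pow_sub (A := A) hinj t htr (Multiplicative.toAdd g))
  obtain ⟨hmon, hdeg⟩ := Groth.Agent.Pi1.H421.ArtSch.monic_poly A p a
  let f : Polynomial A := (Polynomial.X : Polynomial A) ^ p - Polynomial.X - Polynomial.C a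
  have hft : Polynomial.aeval t f = 0 := by
    simp only [f, map_sub, map_pow, Polynomial.aeval_X, Polynomial.aeval_C, ha]
    ring
  let Φ : SGA1t.artinSchreier A p a →+* B :=
    Ideal.Quotient.lift _ (Polynomial.aeval t : Polynomial A →ₐ[A] B).toRingHom (by
      intro g hg
      obtain ⟨q, rfl⟩ := Ideal.mem_span_singleton'.mp hg
      change Polynomial.aeval t (q * f) = 0
      rw [map_mul, hft, mul_zero])
  have hΦmk : ∀ g : Polynomial A, Φ (Ideal.Quotient.mk _ g) = Polynomial.aeval t g := fun g => rfl
  have hΦ : Function.Bijective Φ := by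
    constructor
    · rw [injective_iff_map_eq_zero]
      intro x hx
      obtain ⟨g, rfl⟩ := Ideal.Quotient.mk_surjective x
      rw [hΦmk] at hx
      have h1 : g %ₘ f = 0 := by
        refine Groth.Agent.Pi1.H421.ArtSch.inj (p := p) hinj t htr _ ?_ ?_
        · have h2 := congrArg (Polynomial.aeval t) (Polynomial.modByMonic_add_div g f)
          rw [map_add, map_mul, hft, zero_mul, add_zero] at h2
          rw [h2, hx]
        · rw [← hdeg]
          have : Nontrivial A := CharP.nontrivial_of_char_ne_one (R := A) (Fact.out : p.Prime).ne_one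
          exact Polynomial.degree_modByMonic_lt _ hmon
      rw [Ideal.Quotient.eq_zero_iff_mem, Ideal.mem_span_singleton]
      exact (Polynomial.modByMonic_eq_zero_iff_dvd hmon).mp h1
    · intro x
      obtain ⟨F, hF⟩ := Groth.Agent.Pi1.H421.ArtSch.surj (A := A) (p := p) t htr x
      exact ⟨Ideal.Quotient.mk _ F, hF⟩
  let E : SGA1t.artinSchreier A p a ≃+* B := RingEquiv.ofBijective Φ hΦ
  have hEiso : IsIso (CommRingCat.ofHom Φ) := (inferInstance : IsIso E.toCommRingCatIso.hom)
  refine ⟨a, e ≪≫ asIso (Spec.map (CommRingCat.ofHom Φ)), ?_, ?_⟩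
  · rw [Iso.trans_hom, asIso_hom, Category.assoc, ← Spec.map_comp, ← CommRingCat.ofHom_comp, ← he]
    congr 3
    ext x
    change Polynomial.aeval t (Polynomial.C x) = _
    rw [Polynomial.aeval_C]
  · intro j
    rw [Iso.trans_hom, asIso_hom, ← Category.assoc, hρ, Category.assoc, Category.assoc, ← Spec.map_comp,
      ← Spec.map_comp, ← CommRingCat.ofHom_comp, ← CommRingCat.ofHom_comp]
    congr 3
    apply Ideal.Quotient.ringHom_ext
    apply Polynomial.ringHom_ext
    · intro x
      change (Multiplicative.ofAdd j)⁻¹ • Polynomial.aeval t (Polynomial.C x) =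
        Polynomial.aeval t (Polynomial.aeval (R := A) (Polynomial.X + Polynomial.C ((ZMod.castHom (dvd_refl p) A) j))
          (Polynomial.C x))
      rw [Polynomial.aeval_C, Polynomial.aeval_C, Polynomial.algebraMap_eq, Polynomial.aeval_C]
      exact Groth.Agent.Pi1.H421.ArtSch.smul_algebraMap' _ _
    · change (Multiplicative.ofAdd j)⁻¹ • Polynomial.aeval t (Polynomial.X : Polynomial A) =
        Polynomial.aeval t (Polynomial.aeval (R := A) (Polynomial.X + Polynomial.C ((ZMod.castHom (dvd_refl p) A) j))
          (Polynomial.X : Polynomial A))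
      rw [Polynomial.aeval_X, Polynomial.aeval_X, map_add, Polynomial.aeval_X, Polynomial.aeval_C,
        ← ofAdd_neg, htr, map_neg, sub_neg_eq_add]
      rfl

end Groth.Agent.S3721
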