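import Groth.Statements.S3807
-- import your own Groth.Agent.* helpers here

set_option autoImplicit false
universe u
open scoped TensorProduct
attribute [local instance] PP16.mapAlgebra PP16.isScalarTower_mapAlgebra
open PP16

namespace Groth.Agent.S3807

theorem aux (n : ℕ) (A B B' : Type u) [CommRing A] [CommRing B] [Algebra A B]
    [CommRing B'] [Algebra B B'] [Algebra A B'] [IsScalarTower A B B'] (S : Submonoid B)
    [IsLocalization S B'] (L : Type u) [CommRing L] [Algebra (PP16.P n A B) L]
    [IsLocalization (S.map (algebraMap B (PP16.P n A B))) L] :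
    ∃ e : L ≃+* PP16.P n A B', ∀ x : PP16.P n A B,
      e (algebraMap (PP16.P n A B) L x) = PP16.map n A B A B' x := by
  let J : Ideal L := (PP16.augIdeal n A B).map (algebraMap (PP16.P n A B) L)
  -- the augmentation ideal of `L` is nilpotent
  have hJ : J ^ (n + 1) = ⊥ := by
    have h1 : PP16.augIdeal n A B ^ (n + 1) = ⊥ := by
      rw [PP16.augIdeal, ← Ideal.map_pow, Ideal.map_quotient_self]
    change ((PP16.augIdeal n A B).map (algebraMap (PP16.P n A B) L)) ^ (n + 1) = ⊥
    rw [← Ideal.map_pow, h1, Ideal.map_bot]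
  let g1 : B →+* L := (algebraMap (PP16.P n A B) L).comp (algebraMap B (PP16.P n A B))
  let g2 : B →+* L := (algebraMap (PP16.P n A B) L).comp (PP16.dn n A B).toRingHom
  -- the differences lie in the augmentation ideal
  have hdiff : ∀ b : B, g2 b - g1 b ∈ J := by
    intro b
    change algebraMap (PP16.P n A B) L (PP16.dn n A B b) -
      algebraMap (PP16.P n A B) L (algebraMap B (PP16.P n A B) b) ∈ J
    rw [← map_sub]
    exact Ideal.mem_map_of_mem _ (Ideal.mem_map_of_mem _
      (KaehlerDifferential.one_smul_sub_smul_one_mem_ideal A b))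
  have hu1 : ∀ s : S, IsUnit (g1 s) := by
    intro s
    exact IsLocalization.map_units L
      (⟨algebraMap B (PP16.P n A B) s, ⟨s, s.2, rfl⟩⟩ : S.map (algebraMap B (PP16.P n A B)))
  have hnil : ∀ b : B, IsNilpotent (g2 b - g1 b) := by
    intro b
    refine ⟨n + 1, ?_⟩
    have := Ideal.pow_mem_pow (hdiff b) (n + 1)
    rwa [hJ, Ideal.mem_bot] at this
  have hu2 : ∀ s : S, IsUnit (g2 s) := by
    intro s
    have h := (hnil s).isUnit_add_left_of_commute (hu1 s) (Commute.all _ _)
    have h2 : g1 s + (g2 s - g1 s) = g2 s := by ring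
    rw [← h2]
    exact h
  let f1 : B' →+* L := IsLocalization.lift (M := S) hu1
  let f2 : B' →+* L := IsLocalization.lift (M := S) hu2
  have hf1 : ∀ b : B, f1 (algebraMap B B' b) = g1 b := fun b => IsLocalization.lift_eq _ _
  have hf2 : ∀ b : B, f2 (algebraMap B B' b) = g2 b := fun b => IsLocalization.lift_eq _ _
  let algA : Algebra A L := ((algebraMap (PP16.P n A B) L).comp (algebraMap A (PP16.P n A B))).toAlgebra
  have hA : ∀ a : A, algebraMap A L a = algebraMap (PP16.P n A B) L (algebraMap A (PP16.P n A B) a) :=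
    fun _ => rfl
  let f1' : B' →ₐ[A] L := { f1 with
    commutes' := fun a => by
      change f1 (algebraMap A B' a) = _
      rw [IsScalarTower.algebraMap_apply A B B', hf1, hA, IsScalarTower.algebraMap_apply A B (PP16.P n A B)]
      rfl }
  let f2' : B' →ₐ[A] L := { f2 with
    commutes' := fun a => by
      change f2 (algebraMap A B' a) = _
      rw [IsScalarTower.algebraMap_apply A B B', hf2, hA]
      change algebraMap (PP16.P n A B) L (PP16.dn n A B (algebraMap A B a)) = _
      rw [AlgHom.commutes] }
  have hf1' : ∀ b : B', f1' b = f1 b := fun b => rfl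
  have hf2' : ∀ b : B', f2' b = f2 b := fun b => rfl
  let g0 : B' ⊗[A] B' →ₐ[A] L := Algebra.TensorProduct.lift f1' f2' (fun _ _ => Commute.all _ _)
  have hg0 : ∀ b c : B', g0 (b ⊗ₜ c) = f1 b * f2 c := fun b c => by
    change Algebra.TensorProduct.lift f1' f2' _ (b ⊗ₜ c) = _
    rw [Algebra.TensorProduct.lift_tmul]
    rfl
  have hfdiff : (Ideal.Quotient.mk J).comp f1 = (Ideal.Quotient.mk J).comp f2 := by
    apply IsLocalization.ringHom_ext S
    ext b
    change Ideal.Quotient.mk J (f1 (algebraMap B B' b)) = Ideal.Quotient.mk J (f2 (algebraMap B B' b))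
    rw [hf1, hf2, eq_comm, Ideal.Quotient.mk_eq_mk_iff_sub_mem]
    exact hdiff b
  have hle : (KaehlerDifferential.ideal A B').map g0 ≤ J := by
    rw [← KaehlerDifferential.span_range_eq_ideal, Ideal.map_span, Ideal.span_le]
    rintro _ ⟨_, ⟨s, rfl⟩, rfl⟩
    change g0 (1 ⊗ₜ s - s ⊗ₜ 1) ∈ J
    rw [map_sub, hg0, hg0, map_one, map_one, one_mul, mul_one,
      ← Ideal.Quotient.mk_eq_mk_iff_sub_mem]
    exact (RingHom.congr_fun hfdiff s).symm
  let g : PP16.P n A B' →+* L := Ideal.Quotient.lift _ g0.toRingHom (fun x hx => by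
    have h := Ideal.pow_right_mono hle (n + 1)
    rw [← Ideal.map_pow, hJ] at h
    exact (Ideal.mem_bot).mp (h (Ideal.mem_map_of_mem g0 hx)))
  have hg : ∀ x, g (Ideal.Quotient.mk _ x) = g0 x := fun x => rfl
  -- the forward map
  have hunit : ∀ y : S.map (algebraMap B (PP16.P n A B)), IsUnit ((PP16.map n A B A B').toRingHom y) := by
    rintro ⟨_, ⟨s, hs, rfl⟩⟩
    change IsUnit (PP16.map n A B A B' (algebraMap B (PP16.P n A B) s))
    rw [PP16.map_algebraMap]
    exact (IsLocalization.map_units B' (⟨s, hs⟩ : S)).map _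
  let f : L →+* PP16.P n A B' := IsLocalization.lift (M := S.map (algebraMap B (PP16.P n A B))) hunit
  have hf : ∀ x, f (algebraMap (PP16.P n A B) L x) = PP16.map n A B A B' x := fun x =>
    IsLocalization.lift_eq _ _
  have hgf : g.comp f = RingHom.id L := by
    apply IsLocalization.ringHom_ext (S.map (algebraMap B (PP16.P n A B)))
    apply Ideal.Quotient.ringHom_ext
    refine RingHom.ext fun x => ?_
    change g (f (algebraMap (PP16.P n A B) L (Ideal.Quotient.mk _ x))) =
      algebraMap (PP16.P n A B) L (Ideal.Quotient.mk _ x)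
    rw [hf, PP16.map_mk, hg]
    induction x using TensorProduct.induction_on with
    | zero => simp
    | tmul b c =>
      rw [PP16.tensorMap_tmul, hg0, hf1, hf2]
      change algebraMap (PP16.P n A B) L (algebraMap B (PP16.P n A B) b) *
        algebraMap (PP16.P n A B) L (PP16.dn n A B c) = _
      rw [← map_mul]
      congr 1
      change Ideal.Quotient.mk _ (b ⊗ₜ[A] (1 : B)) * Ideal.Quotient.mk _ ((1 : B) ⊗ₜ[A] c) = _
      rw [← map_mul, Algebra.TensorProduct.tmul_mul_tmul, mul_one, one_mul]
    | add x y hx hy => rw [map_add, map_add, map_add, map_add, hx, hy]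
  have hf1f : f.comp f1 = algebraMap B' (PP16.P n A B') := by
    apply IsLocalization.ringHom_ext S
    ext b
    change f (f1 (algebraMap B B' b)) = algebraMap B' (PP16.P n A B') (algebraMap B B' b)
    rw [hf1]
    change f (algebraMap (PP16.P n A B) L (algebraMap B (PP16.P n A B) b)) = _
    rw [hf, PP16.map_algebraMap]
  have hf2f : f.comp f2 = (PP16.dn n A B').toRingHom := by
    apply IsLocalization.ringHom_ext S
    ext b
    change f (f2 (algebraMap B B' b)) = PP16.dn n A B' (algebraMap B B' b)
    rw [hf2]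
    change f (algebraMap (PP16.P n A B) L (PP16.dn n A B b)) = _
    rw [hf, PP16.map_dn]
  have hfg : f.comp g = RingHom.id (PP16.P n A B') := by
    apply Ideal.Quotient.ringHom_ext
    refine RingHom.ext fun x => ?_
    change f (g (Ideal.Quotient.mk _ x)) = Ideal.Quotient.mk _ x
    rw [hg]
    induction x using TensorProduct.induction_on with
    | zero => simp
    | tmul b c =>
      rw [hg0, map_mul]
      have h1 : f (f1 b) = Ideal.Quotient.mk _ (b ⊗ₜ[A] (1 : B')) := RingHom.congr_fun hf1f b
      have h2 : f (f2 c) = Ideal.Quotient.mk _ ((1 : B') ⊗ₜ[A] c) := RingHom.congr_fun hf2f c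
      rw [h1, h2, ← map_mul, Algebra.TensorProduct.tmul_mul_tmul, mul_one, one_mul]
    | add x y hx hy => rw [map_add, map_add, map_add, hx, hy]
  exact ⟨RingEquiv.ofRingHom f g hfg hgf, hf⟩

/-- Let B be an A-algebra, S a multiplicative subset of B and B' = S⁻¹B. Then the canonical map
S⁻¹P^n_{B/A} → P^n_{B'/A} induced by functoriality is an isomorphism: P^n_{B'/A} is the localization
of P^n_{B/A} at the image of S. -/
theorem result (n : ℕ) (A B B' : Type u) [CommRing A] [CommRing B] [Algebra A B]
    [CommRing B'] [Algebra B B'] [Algebra A B'] [IsScalarTower A B B'] (S : Submonoid B) [IsLocalization S B'] :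
    IsLocalization (S.map (algebraMap B (PP16.P n A B))) (PP16.P n A B') := by
  obtain ⟨e, he⟩ := aux n A B B' S (Localization (S.map (algebraMap B (PP16.P n A B))))
  let _ := PP16.mapAlgebra n A B A B'
  exact IsLocalization.isLocalization_of_algEquiv (S.map (algebraMap B (PP16.P n A B)))
    (AlgEquiv.ofRingEquiv (f := e) he :
      Localization (S.map (algebraMap B (PP16.P n A B))) ≃ₐ[PP16.P n A B] PP16.P n A B')

end Groth.Agent.S3807
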