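import Groth.Statements.S3808
-- import your own Groth.Agent.* helpers here

set_option autoImplicit false
universe u
open scoped TensorProduct
open PP16

namespace Groth.Agent.S3808

/-- Let A → B be a ring map, R a multiplicative subset of A, S one of B containing the image of R, and
A' = R⁻¹A, B' = S⁻¹B with the induced map A' → B'. Then the canonical map P^n_{B'/A} → P^n_{B'/A'}
is bijective. -/
theorem result (n : ℕ) (A B A' B' : Type u) [CommRing A] [CommRing B] [Algebra A B]
    [CommRing A'] [CommRing B'] [Algebra A A'] [Algebra B B'] [Algebra A' B'] [Algebra A B']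
    [IsScalarTower A A' B'] [IsScalarTower A B B'] (R : Submonoid A) (S : Submonoid B) [IsLocalization R A']
    [IsLocalization S B'] (hRS : ∀ r ∈ R, algebraMap A B r ∈ S) :
    Function.Bijective (PP16.map n A B' A' B') := by
  have hc : TensorProduct.CompatibleSMul A A' B' B' :=
    IsLocalization.tensorProduct_compatibleSMul R A' B' B'
  have hbij : Function.Bijective (PP16.tensorMap A B' A' B') := by
    have h : ((Algebra.TensorProduct.equivOfCompatibleSMul A A' A B' B').symm :
        B' ⊗[A] B' → B' ⊗[A'] B') = PP16.tensorMap A B' A' B' := by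
      funext x
      induction x using TensorProduct.induction_on with
      | zero => rw [map_zero, map_zero]
      | tmul b c => rw [PP16.tensorMap_tmul]; rfl
      | add x y hx hy => rw [map_add, map_add, hx, hy]
    rw [← h]
    exact (Algebra.TensorProduct.equivOfCompatibleSMul A A' A B' B').symm.bijective
  have hker : (KaehlerDifferential.ideal A' B').comap (PP16.tensorMap A B' A' B') =
      KaehlerDifferential.ideal A B' := by
    ext x
    rw [Ideal.mem_comap]
    change Algebra.TensorProduct.lmul' A' _ = 0 ↔ Algebra.TensorProduct.lmul' A _ = 0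
    have h : (Algebra.TensorProduct.lmul' A' (S := B')) (PP16.tensorMap A B' A' B' x) =
        Algebra.TensorProduct.lmul' A (S := B') x := by
      induction x using TensorProduct.induction_on with
      | zero => simp
      | tmul b c => rw [PP16.tensorMap_tmul]; simp
      | add x y hx hy => rw [map_add, map_add, map_add, hx, hy]
    rw [h]
  have hmap : (KaehlerDifferential.ideal A B').map (PP16.tensorMap A B' A' B') =
      KaehlerDifferential.ideal A' B' := by
    rw [← hker, Ideal.map_comap_of_surjective _ hbij.2]
  constructor
  · rw [injective_iff_map_eq_zero]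
    intro x hx
    obtain ⟨t, rfl⟩ := Ideal.Quotient.mk_surjective x
    rw [PP16.map_mk, Ideal.Quotient.eq_zero_iff_mem, ← hmap, ← Ideal.map_pow] at hx
    rw [Ideal.Quotient.eq_zero_iff_mem]
    obtain ⟨y, hy, hyx⟩ := (Ideal.mem_map_iff_of_surjective _ hbij.2).mp hx
    rwa [← hbij.1 hyx]
  · intro y
    obtain ⟨t, rfl⟩ := Ideal.Quotient.mk_surjective y
    obtain ⟨s, rfl⟩ := hbij.2 t
    exact ⟨Ideal.Quotient.mk _ s, PP16.map_mk _ _ _ _ _ _⟩

end Groth.Agent.S3808
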