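import Groth.Statements.S3809
import Groth.Agent.Ega4late.H506.TensorKer

set_option autoImplicit false
universe u
open scoped TensorProduct
open PP16

namespace Groth.Agent.S3809

/-- Let A → B → C be ring maps. Then the canonical map P^n_{C/A} → P^n_{C/B} is surjective, and its
kernel is the ideal generated by the image, under the canonical map P^n_{B/A} → P^n_{C/A}, of the
augmentation ideal of P^n_{B/A}. -/
theorem result (n : ℕ) (A B C : Type u) [CommRing A] [CommRing B] [CommRing C]
    [Algebra A B] [Algebra B C] [Algebra A C] [IsScalarTower A B C] :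
    Function.Surjective (PP16.map n A C B C) ∧
      RingHom.ker (PP16.map n A C B C) = (PP16.augIdeal n A B).map (PP16.map n A B A C) := by
  have hsurj := Ega4late.H506.TensorKer.tensorMap_surjective A B C
  have hker := Ega4late.H506.TensorKer.ker_tensorMap A B C
  constructor
  · intro y
    obtain ⟨y, rfl⟩ := Ideal.Quotient.mk_surjective y
    obtain ⟨x, rfl⟩ := hsurj y
    exact ⟨Ideal.Quotient.mk _ x, map_mk n A C B C x⟩
  · have e1 : (PP16.augIdeal n A B).map (PP16.map n A B A C) =
        (Ega4late.H506.TensorKer.J A B C).map
          (Ideal.Quotient.mk ((KaehlerDifferential.ideal A C) ^ (n + 1))) := by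
      rw [augIdeal, Ega4late.H506.TensorKer.J]
      have h1 := Ideal.map_map (I := KaehlerDifferential.ideal A B)
        (Ideal.Quotient.mk ((KaehlerDifferential.ideal A B) ^ (n + 1)))
        (PP16.map n A B A C).toRingHom
      have h2 := Ideal.map_map (I := KaehlerDifferential.ideal A B)
        (tensorMap A B A C).toRingHom
        (Ideal.Quotient.mk ((KaehlerDifferential.ideal A C) ^ (n + 1)))
      exact h1.trans h2.symm
    rw [e1]
    -- the image of `I_A` in `C ⊗_B C` is `I_B`
    have e2 : (KaehlerDifferential.ideal A C).map (tensorMap A C B C) =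
        KaehlerDifferential.ideal B C := by
      refine le_antisymm (ideal_map_tensorMap_le A C B C) ?_
      rw [← KaehlerDifferential.span_range_eq_ideal, Ideal.span_le]
      rintro _ ⟨s, rfl⟩
      have h := KaehlerDifferential.one_smul_sub_smul_one_mem_ideal A s
      have h2 := Ideal.mem_map_of_mem (tensorMap A C B C) h
      rw [map_sub, tensorMap_tmul, tensorMap_tmul, map_one] at h2
      exact h2
    apply le_antisymm
    · intro x hx
      obtain ⟨x, rfl⟩ := Ideal.Quotient.mk_surjective x
      have hx' : PP16.map n A C B C (Ideal.Quotient.mk _ x) = 0 := hx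
      rw [map_mk, Ideal.Quotient.eq_zero_iff_mem, ← e2, ← Ideal.map_pow] at hx'
      rw [Ideal.mem_map_iff_of_surjective (tensorMap A C B C) hsurj] at hx'
      obtain ⟨z, hz, hzx⟩ := hx'
      have h3 : x - z ∈ RingHom.ker (tensorMap A C B C) := by
        rw [RingHom.mem_ker, map_sub, hzx, sub_self]
      rw [hker] at h3
      have h4 := Ideal.mem_map_of_mem
        (Ideal.Quotient.mk ((KaehlerDifferential.ideal A C) ^ (n + 1))) h3
      rw [map_sub, (Ideal.Quotient.eq_zero_iff_mem).2 hz, sub_zero] at h4
      exact h4
    · rw [Ideal.map_le_iff_le_comap, ← hker]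
      intro x hx
      rw [RingHom.mem_ker] at hx
      change PP16.map n A C B C (Ideal.Quotient.mk _ x) = 0
      rw [map_mk, hx, map_zero]

end Groth.Agent.S3809
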