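import Groth.Statements.S3810
import Mathlib.LinearAlgebra.TensorProduct.RightExactness

set_option autoImplicit false
universe u
open scoped TensorProduct
open PP16

namespace Groth.Agent.S3810

/-- The map `B ⊗_A B → C ⊗_A C` for `C = B/K` is the tensor product of the quotient map with itself. -/
theorem tensorMap_eq (A B : Type u) [CommRing A] [CommRing B] [Algebra A B] (K : Ideal B) :
    PP16.tensorMap A B A (B ⧸ K) =
      Algebra.TensorProduct.map (Ideal.Quotient.mkₐ A K) (Ideal.Quotient.mkₐ A K) := by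
  apply Algebra.TensorProduct.ext'
  intro a b
  rw [PP16.tensorMap_tmul, Algebra.TensorProduct.map_tmul]
  rfl

/-- kernel of a map induced on quotients by a surjective ring map carrying `I` onto `J` -/
theorem ker_quot {R S : Type u} [CommRing R] [CommRing S] (f : R →+* S) (hf : Function.Surjective f)
    (I : Ideal R) (J : Ideal S) (hIJ : I.map f = J) (g : R ⧸ I →+* S ⧸ J)
    (hg : ∀ x, g (Ideal.Quotient.mk I x) = Ideal.Quotient.mk J (f x)) :
    RingHom.ker g = (RingHom.ker f).map (Ideal.Quotient.mk I) := by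
  apply le_antisymm
  · intro x hx
    obtain ⟨x, rfl⟩ := Ideal.Quotient.mk_surjective x
    rw [RingHom.mem_ker, hg, Ideal.Quotient.eq_zero_iff_mem, ← hIJ,
      Ideal.mem_map_iff_of_surjective f hf] at hx
    obtain ⟨y, hy, hyx⟩ := hx
    have h1 : x - y ∈ RingHom.ker f := by
      rw [RingHom.mem_ker, map_sub, hyx, sub_self]
    have h2 := Ideal.mem_map_of_mem (Ideal.Quotient.mk I) h1
    rwa [map_sub, Ideal.Quotient.eq_zero_iff_mem.2 hy, sub_zero] at h2
  · rw [Ideal.map_le_iff_le_comap]
    intro x hx
    rw [Ideal.mem_comap, RingHom.mem_ker, hg, (RingHom.mem_ker).1 hx, map_zero]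

/-- Let B be an A-algebra, K an ideal of B and C = B/K. Then the canonical map P^n_{B/A} → P^n_{C/A} is
surjective and its kernel is the ideal generated by the image of K under the structure map B →
P^n_{B/A} together with the image of K under the principal-part map d^n (the latter is an additive
subgroup, not a B-submodule, in general). -/
theorem result (n : ℕ) (A B : Type u) [CommRing A] [CommRing B] [Algebra A B]
    (K : Ideal B) :
    Function.Surjective (PP16.map n A B A (B ⧸ K)) ∧
      RingHom.ker (PP16.map n A B A (B ⧸ K)) =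
        K.map (algebraMap B (PP16.P n A B)) ⊔ K.map (PP16.dn n A B) := by
  have hq : Function.Surjective (Ideal.Quotient.mkₐ A K) := Ideal.Quotient.mkₐ_surjective A K
  have hsurj : Function.Surjective (PP16.tensorMap A B A (B ⧸ K)) := by
    rw [tensorMap_eq]
    exact TensorProduct.map_surjective hq hq
  have hI : (KaehlerDifferential.ideal A B).map (PP16.tensorMap A B A (B ⧸ K)) =
      KaehlerDifferential.ideal A (B ⧸ K) := by
    apply le_antisymm (PP16.ideal_map_tensorMap_le A B A (B ⧸ K))
    rw [← KaehlerDifferential.span_range_eq_ideal A (B ⧸ K), Ideal.span_le]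
    rintro _ ⟨s, rfl⟩
    obtain ⟨b, rfl⟩ := Ideal.Quotient.mk_surjective s
    have h := Ideal.mem_map_of_mem (PP16.tensorMap A B A (B ⧸ K))
      (KaehlerDifferential.one_smul_sub_smul_one_mem_ideal A b)
    rw [map_sub, PP16.tensorMap_tmul, PP16.tensorMap_tmul, map_one] at h
    exact h
  have hIn : (KaehlerDifferential.ideal A B ^ (n + 1)).map
      (PP16.tensorMap A B A (B ⧸ K)).toRingHom = KaehlerDifferential.ideal A (B ⧸ K) ^ (n + 1) := by
    rw [Ideal.map_pow]
    exact congrArg (· ^ (n + 1)) hI
  refine ⟨?_, ?_⟩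
  · intro x
    obtain ⟨x, rfl⟩ := Ideal.Quotient.mk_surjective x
    obtain ⟨y, rfl⟩ := hsurj x
    exact ⟨Ideal.Quotient.mk _ y, rfl⟩
  · have h1 := ker_quot (PP16.tensorMap A B A (B ⧸ K)).toRingHom hsurj
      (KaehlerDifferential.ideal A B ^ (n + 1)) (KaehlerDifferential.ideal A (B ⧸ K) ^ (n + 1)) hIn
      (PP16.map n A B A (B ⧸ K)).toRingHom (fun _ => rfl)
    have h2 : RingHom.ker (PP16.tensorMap A B A (B ⧸ K)).toRingHom =
        K.map (Algebra.TensorProduct.includeLeft : B →ₐ[A] B ⊗[A] B) ⊔
        K.map (Algebra.TensorProduct.includeRight : B →ₐ[A] B ⊗[A] B) := by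
      have h3 := Algebra.TensorProduct.map_ker (Ideal.Quotient.mkₐ A K) (Ideal.Quotient.mkₐ A K) hq hq
      have h5 : RingHom.ker (Ideal.Quotient.mkₐ A K) = K := Ideal.Quotient.mkₐ_ker A K
      rw [h5] at h3
      rw [← h3, tensorMap_eq]
      rfl
    have h4 : RingHom.ker (PP16.map n A B A (B ⧸ K)) =
        RingHom.ker (PP16.map n A B A (B ⧸ K)).toRingHom := rfl
    rw [h4, h1, h2, Ideal.map_sup]
    congr 1
    · exact Ideal.map_map _ _
    · exact Ideal.map_map _ _

end Groth.Agent.S3810
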