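import Groth.Statements.S3811
-- import your own Groth.Agent.* helpers here

set_option autoImplicit false
universe u
open scoped TensorProduct
open PP16

namespace Groth.Agent.S3811

section aux

variable {A B : Type u} [CommRing A] [CommRing B] [Algebra A B] (g : B →ₐ[A] A)

/-- The base change map `B ⊗_A B → B`, `b ⊗ c ↦ g(b) c`. -/
def psi : B ⊗[A] B →ₐ[A] B :=
  Algebra.TensorProduct.lift ((Algebra.ofId A B).comp g) (AlgHom.id A B)
    (fun _ _ => Commute.all _ _)

theorem psi_tmul (b c : B) : psi g (b ⊗ₜ[A] c) = algebraMap A B (g b) * c := by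
  simp [psi, Algebra.TensorProduct.lift_tmul, Algebra.ofId_apply]

/-- `g ∘ psi = g ∘ mul`. -/
theorem g_psi (x : B ⊗[A] B) : g (psi g x) = g (Algebra.TensorProduct.lmul' A x) := by
  have h : g.comp (psi g) = g.comp (Algebra.TensorProduct.lmul' A (S := B)) := by
    apply Algebra.TensorProduct.ext'
    intro a b
    simp [psi_tmul, Algebra.TensorProduct.lmul'_apply_tmul]
  exact DFunLike.congr_fun h x

theorem psi_mem_ker_of_mem (x : B ⊗[A] B) (hx : x ∈ KaehlerDifferential.ideal A B) :
    psi g x ∈ RingHom.ker g := by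
  rw [RingHom.mem_ker, g_psi]
  have : (Algebra.TensorProduct.lmul' A : B ⊗[A] B →ₐ[A] B) x = 0 := hx
  rw [this, map_zero]

theorem map_ideal_le (n : ℕ) :
    ((KaehlerDifferential.ideal A B) ^ (n + 1)).map (psi g) ≤ RingHom.ker g ^ (n + 1) := by
  rw [Ideal.map_pow]
  refine Ideal.pow_right_mono ?_ _
  rw [Ideal.map_le_iff_le_comap]
  intro x hx
  exact psi_mem_ker_of_mem g x hx

/-- The induced map `P^n → B / K^(n+1)`. -/
noncomputable def psiBar (n : ℕ) : PP16.P n A B →+* B ⧸ (RingHom.ker g ^ (n + 1)) :=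
  Ideal.Quotient.lift _ ((Ideal.Quotient.mk (RingHom.ker g ^ (n + 1))).comp (psi g).toRingHom)
    (fun x hx => by
      rw [RingHom.comp_apply, Ideal.Quotient.eq_zero_iff_mem]
      exact map_ideal_le g n (Ideal.mem_map_of_mem _ hx))

theorem psiBar_mk (n : ℕ) (x : B ⊗[A] B) :
    psiBar g n (Ideal.Quotient.mk _ x) = Ideal.Quotient.mk _ (psi g x) := rfl

theorem map_ker_le (n : ℕ) :
    (RingHom.ker g).map (algebraMap B (PP16.P n A B)) ≤ RingHom.ker (psiBar g n) := by
  rw [Ideal.map_le_iff_le_comap]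
  intro b hb
  rw [Ideal.mem_comap, RingHom.mem_ker]
  change psiBar g n (Ideal.Quotient.mk _ (b ⊗ₜ[A] (1 : B))) = 0
  rw [psiBar_mk, psi_tmul]
  have : g b = 0 := hb
  rw [this, map_zero, zero_mul, map_zero]

theorem augIdeal_pow (n : ℕ) (A B : Type u) [CommRing A] [CommRing B] [Algebra A B] :
    PP16.augIdeal n A B ^ (n + 1) = ⊥ :=
  (Ideal.map_pow _ _ _).symm.trans (Ideal.map_quotient_self _)

theorem pow_le_ker {R S : Type u} [CommRing R] [CommRing S] (alg d : R →+* S) (K : Ideal R)
    (I : Ideal S) (m : ℕ) (hI : I ^ m = ⊥) (h : ∀ k ∈ K, d k - alg k ∈ I) :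
    K ^ m ≤ RingHom.ker ((Ideal.Quotient.mk (K.map alg)).comp d) := by
  have h1 : K.map ((Ideal.Quotient.mk (K.map alg)).comp d) ≤
      I.map (Ideal.Quotient.mk (K.map alg)) := by
    rw [Ideal.map_le_iff_le_comap]
    intro k hk
    rw [Ideal.mem_comap]
    have h2 : (Ideal.Quotient.mk (K.map alg)).comp d k =
        Ideal.Quotient.mk (K.map alg) (d k - alg k) := by
      rw [RingHom.comp_apply, Ideal.Quotient.eq, sub_sub_cancel]
      exact Ideal.mem_map_of_mem alg hk
    rw [h2]
    exact Ideal.mem_map_of_mem _ (h k hk)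
  have h3 : (K ^ m).map ((Ideal.Quotient.mk (K.map alg)).comp d) ≤ ⊥ := by
    rw [Ideal.map_pow, ← Ideal.map_bot (f := Ideal.Quotient.mk (K.map alg)), ← hI, Ideal.map_pow]
    exact Ideal.pow_right_mono h1 _
  intro t ht
  have := h3 (Ideal.mem_map_of_mem ((Ideal.Quotient.mk (K.map alg)).comp d) ht)
  rwa [Ideal.mem_bot] at this

end aux

/-- Let B be an A-algebra with an A-algebra retraction g : B → A, and K the kernel of g. The composite
of d^n : B → P^n_{B/A} with the projection P^n_{B/A} → P^n_{B/A} / K P^n_{B/A} (base change of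
P^n_{B/A} along g) is surjective with kernel K^(n+1); thus P^n_{B/A} ⊗_B A is identified with
B/K^(n+1), the class of d^n t corresponding to the class of t. -/
theorem result (n : ℕ) (A B : Type u) [CommRing A] [CommRing B] [Algebra A B]
    (g : B →ₐ[A] A) :
    Function.Surjective ((Ideal.Quotient.mk ((RingHom.ker g).map (algebraMap B (PP16.P n A B)))).comp
        (PP16.dn n A B).toRingHom) ∧
      RingHom.ker ((Ideal.Quotient.mk ((RingHom.ker g).map (algebraMap B (PP16.P n A B)))).comp
        (PP16.dn n A B).toRingHom) = RingHom.ker g ^ (n + 1) := by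
  set KP : Ideal (PP16.P n A B) := (RingHom.ker g).map (algebraMap B (PP16.P n A B)) with hKP
  constructor
  · -- surjectivity
    intro y
    obtain ⟨y, rfl⟩ := Ideal.Quotient.mk_surjective y
    obtain ⟨x, rfl⟩ := Ideal.Quotient.mk_surjective y
    induction x using TensorProduct.induction_on with
    | zero => exact ⟨0, by simp⟩
    | tmul b c =>
      refine ⟨algebraMap A B (g b) * c, ?_⟩
      rw [RingHom.comp_apply, Ideal.Quotient.eq]
      have h1 : (PP16.dn n A B).toRingHom (algebraMap A B (g b) * c) =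
          Ideal.Quotient.mk _ (algebraMap A B (g b) ⊗ₜ[A] c) := by
        change Ideal.Quotient.mk _ ((1 : B) ⊗ₜ[A] (algebraMap A B (g b) * c)) = _
        congr 1
        rw [← Algebra.smul_def, ← TensorProduct.smul_tmul, ← Algebra.algebraMap_eq_smul_one]
      rw [h1, ← map_sub, ← TensorProduct.sub_tmul]
      have h2 : (algebraMap A B (g b) - b) ⊗ₜ[A] c =
          ((algebraMap A B (g b) - b) ⊗ₜ[A] (1 : B)) * ((1 : B) ⊗ₜ[A] c) := by
        rw [Algebra.TensorProduct.tmul_mul_tmul, mul_one, one_mul]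
      have h3 : algebraMap A B (g b) - b ∈ RingHom.ker g := by
        rw [RingHom.mem_ker, map_sub, AlgHom.commutes]
        simp
      rw [h2, map_mul]
      refine Ideal.mul_mem_right _ _ ?_
      exact Ideal.mem_map_of_mem (algebraMap B (PP16.P n A B)) h3
    | add x y hx hy =>
      obtain ⟨s, hs⟩ := hx
      obtain ⟨t, ht⟩ := hy
      exact ⟨s + t, by rw [map_add, hs, ht, map_add, map_add]⟩
  · apply le_antisymm
    · intro t ht
      rw [RingHom.mem_ker, RingHom.comp_apply, Ideal.Quotient.eq_zero_iff_mem] at ht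
      have h := map_ker_le g n ht
      rw [RingHom.mem_ker] at h
      change psiBar g n (Ideal.Quotient.mk _ ((1 : B) ⊗ₜ[A] t)) = 0 at h
      rw [psiBar_mk, psi_tmul, map_one, map_one, one_mul, Ideal.Quotient.eq_zero_iff_mem] at h
      exact h
    · -- K^(n+1) ≤ ker
      refine pow_le_ker (algebraMap B (PP16.P n A B)) (PP16.dn n A B).toRingHom (RingHom.ker g)
        (PP16.augIdeal n A B) (n + 1) (augIdeal_pow n A B) ?_
      intro k _
      have h : (PP16.dn n A B).toRingHom k - algebraMap B (PP16.P n A B) k =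
          Ideal.Quotient.mk _ ((1 : B) ⊗ₜ[A] k - k ⊗ₜ[A] (1 : B)) := by
        rw [map_sub]
        rfl
      rw [h]
      exact Ideal.mem_map_of_mem _
        (KaehlerDifferential.one_smul_sub_smul_one_mem_ideal A k)

end Groth.Agent.S3811
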