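import Groth.Statements.S3812
-- import your own Groth.Agent.* helpers here

set_option autoImplicit false
universe u
open scoped TensorProduct
open PP16

namespace Groth.Agent.S3812

section

variable (A : Type u) [CommRing A] (σ : Type u)

/-- `B ⊗_A B → B[U]`, `b ⊗ 1 ↦ b`, `1 ⊗ T_i ↦ T_i + U_i`. -/
noncomputable def fwd : MvPolynomial σ A ⊗[A] MvPolynomial σ A →ₐ[MvPolynomial σ A]
    MvPolynomial σ (MvPolynomial σ A) :=
  Algebra.TensorProduct.lift (Algebra.ofId _ _)
    (MvPolynomial.aeval (fun i => MvPolynomial.C (MvPolynomial.X i : MvPolynomial σ A) +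
          (MvPolynomial.X i : MvPolynomial σ (MvPolynomial σ A))) :
      MvPolynomial σ A →ₐ[A] MvPolynomial σ (MvPolynomial σ A)) (fun _ _ => Commute.all _ _)

/-- `B[U] → B ⊗_A B`, `U_i ↦ 1 ⊗ T_i - T_i ⊗ 1`. -/
noncomputable def bwd : MvPolynomial σ (MvPolynomial σ A) →ₐ[MvPolynomial σ A]
    MvPolynomial σ A ⊗[A] MvPolynomial σ A :=
  MvPolynomial.aeval (fun i => 1 ⊗ₜ MvPolynomial.X i - MvPolynomial.X i ⊗ₜ 1)

theorem fwd_one_tmul_X (i : σ) : fwd A σ (1 ⊗ₜ MvPolynomial.X i) =
    MvPolynomial.C (MvPolynomial.X i : MvPolynomial σ A) +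
          (MvPolynomial.X i : MvPolynomial σ (MvPolynomial σ A)) := by
  simp [fwd]

theorem fwd_tmul_one (b : MvPolynomial σ A) : fwd A σ (b ⊗ₜ 1) = MvPolynomial.C b := by
  simp [fwd, Algebra.ofId_apply]

theorem bwd_X (i : σ) : bwd A σ (MvPolynomial.X i) =
    1 ⊗ₜ MvPolynomial.X i - MvPolynomial.X i ⊗ₜ 1 := by
  simp [bwd]

theorem bwd_C (b : MvPolynomial σ A) : bwd A σ (MvPolynomial.C b) = b ⊗ₜ 1 := by
  simp [bwd]

theorem fwd_comp_bwd : (fwd A σ).comp (bwd A σ) = AlgHom.id _ _ := by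
  apply MvPolynomial.algHom_ext
  intro i
  rw [AlgHom.comp_apply, bwd_X, map_sub, fwd_one_tmul_X, fwd_tmul_one, add_sub_cancel_left]
  rfl

theorem bwd_comp_fwd : (bwd A σ).comp (fwd A σ) = AlgHom.id _ _ := by
  apply Algebra.TensorProduct.ext
  · ext
  · apply MvPolynomial.algHom_ext
    intro i
    change bwd A σ (fwd A σ (1 ⊗ₜ MvPolynomial.X i)) = 1 ⊗ₜ MvPolynomial.X i
    rw [fwd_one_tmul_X, map_add, bwd_X, bwd_C]
    abel

/-- `B ⊗_A B ≃ B[U]`. -/
noncomputable def eqv : MvPolynomial σ A ⊗[A] MvPolynomial σ A ≃ₐ[MvPolynomial σ A]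
    MvPolynomial σ (MvPolynomial σ A) :=
  AlgEquiv.ofAlgHom (fwd A σ) (bwd A σ) (fwd_comp_bwd A σ) (bwd_comp_fwd A σ)

theorem eqv_apply (x) : eqv A σ x = fwd A σ x := rfl

theorem mk_fwd (x : MvPolynomial σ A ⊗[A] MvPolynomial σ A) :
    Ideal.Quotient.mk (Ideal.span (Set.range
      (MvPolynomial.X : σ → MvPolynomial σ (MvPolynomial σ A)))) (fwd A σ x) =
    Ideal.Quotient.mk _ (MvPolynomial.C (Algebra.TensorProduct.lmul' A x)) := by
  induction x using TensorProduct.induction_on with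
  | zero => simp
  | add x y hx hy => simp only [map_add, hx, hy]
  | tmul b c =>
    have h1 : b ⊗ₜ[A] c = (b ⊗ₜ 1) * (1 ⊗ₜ c) := by
      rw [Algebra.TensorProduct.tmul_mul_tmul, mul_one, one_mul]
    rw [h1, map_mul, map_mul, map_mul, map_mul, map_mul, fwd_tmul_one]
    clear h1
    congr 1
    · simp
    · induction c using MvPolynomial.induction_on with
      | C a =>
        have h2 : (1 : MvPolynomial σ A) ⊗ₜ[A] (MvPolynomial.C a : MvPolynomial σ A) =
            (MvPolynomial.C a) ⊗ₜ 1 := by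
          rw [← MvPolynomial.algebraMap_eq, Algebra.algebraMap_eq_smul_one, TensorProduct.tmul_smul,
            TensorProduct.smul_tmul']
        rw [h2, fwd_tmul_one]
        simp
      | add p q hp hq => rw [TensorProduct.tmul_add]; simp only [map_add, hp, hq]
      | mul_X p i hp =>
        have h2 : (1 : MvPolynomial σ A) ⊗ₜ[A] (p * MvPolynomial.X i) =
            (1 ⊗ₜ p) * (1 ⊗ₜ MvPolynomial.X i) := by
          rw [Algebra.TensorProduct.tmul_mul_tmul, one_mul]
        rw [h2, map_mul, map_mul, map_mul, map_mul, map_mul, hp, fwd_one_tmul_X, map_add]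
        have h3 : Ideal.Quotient.mk (Ideal.span (Set.range
            (MvPolynomial.X : σ → MvPolynomial σ (MvPolynomial σ A))))
            (MvPolynomial.X i) = 0 :=
          Ideal.Quotient.eq_zero_iff_mem.mpr (Ideal.subset_span ⟨i, rfl⟩)
        rw [h3, add_zero]
        simp

theorem map_ideal : Ideal.span (Set.range
      (MvPolynomial.X : σ → MvPolynomial σ (MvPolynomial σ A))) =
    (KaehlerDifferential.ideal A (MvPolynomial σ A)).map (eqv A σ : _ →+* _) := by
  apply le_antisymm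
  · rw [Ideal.span_le]
    rintro _ ⟨i, rfl⟩
    have h : (MvPolynomial.X i : MvPolynomial σ (MvPolynomial σ A)) =
        (eqv A σ) (1 ⊗ₜ MvPolynomial.X i - MvPolynomial.X i ⊗ₜ 1) := by
      rw [map_sub, eqv_apply, eqv_apply, fwd_one_tmul_X, fwd_tmul_one, add_sub_cancel_left]
    rw [h]
    exact Ideal.mem_map_of_mem _
      (KaehlerDifferential.one_smul_sub_smul_one_mem_ideal A (MvPolynomial.X i : MvPolynomial σ A))
  · rw [Ideal.map_le_iff_le_comap]
    intro x hx
    rw [Ideal.mem_comap, ← Ideal.Quotient.eq_zero_iff_mem]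
    change Ideal.Quotient.mk _ (fwd A σ x) = 0
    have hx' : Algebra.TensorProduct.lmul' A x = 0 := hx
    rw [mk_fwd, hx', map_zero, map_zero]

end

/-- Let B = A[T_i] be a polynomial algebra. There is an isomorphism of B-algebras from P^n_{B/A} onto
B[U_i]/(U)^(n+1), where (U) is the ideal generated by the new indeterminates, sending the principal
part d^n T_i to the class of T_i + U_i for every i (so d^n F(T) goes to the class of F(T + U)). -/
theorem result (n : ℕ) (A : Type u) [CommRing A] (σ : Type u) :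
    ∃ e : PP16.P n A (MvPolynomial σ A) ≃ₐ[MvPolynomial σ A]
        (MvPolynomial σ (MvPolynomial σ A) ⧸
          Ideal.span (Set.range (MvPolynomial.X : σ → MvPolynomial σ (MvPolynomial σ A))) ^ (n + 1)),
      ∀ i : σ, e (PP16.dn n A (MvPolynomial σ A) (MvPolynomial.X i)) =
        Ideal.Quotient.mk _ (MvPolynomial.C (MvPolynomial.X i : MvPolynomial σ A) +
          (MvPolynomial.X i : MvPolynomial σ (MvPolynomial σ A))) := by
  refine ⟨Ideal.quotientEquivAlg _ _ (eqv A σ) ?_, fun i => ?_⟩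
  · rw [Ideal.map_pow, ← map_ideal]
  · change Ideal.Quotient.mk _ (fwd A σ (1 ⊗ₜ MvPolynomial.X i)) = _
    rw [fwd_one_tmul_X]

end Groth.Agent.S3812
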