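import Groth.Statements.S3813
import Groth.Agent.Ega4late.H510.SymPP

set_option autoImplicit false
universe u
open scoped TensorProduct
open PP16

namespace Groth.Agent.S3813

/-- Let E be an A-module, B = Sym_A(E) its symmetric algebra and K the augmentation ideal of B (the
kernel of the A-algebra map B → A killing E). For every n there is an isomorphism of B-algebras from
P^n_{B/A} onto B ⊗_A (B/K^(n+1)) sending the principal part d^n t of an element t of E to t ⊗ 1 + 1
⊗ (class of t). -/
theorem result (n : ℕ) (A : Type u) [CommRing A] (E : Type u) [AddCommGroup E]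
    [Module A E] :
    ∃ e : PP16.P n A (SymmetricAlgebra A E) ≃ₐ[SymmetricAlgebra A E]
        (SymmetricAlgebra A E ⊗[A] (SymmetricAlgebra A E ⧸
          RingHom.ker (SymmetricAlgebra.lift (0 : E →ₗ[A] A)) ^ (n + 1))),
      ∀ t : E, e (PP16.dn n A (SymmetricAlgebra A E) (SymmetricAlgebra.ι A E t)) =
        SymmetricAlgebra.ι A E t ⊗ₜ 1 + 1 ⊗ₜ Ideal.Quotient.mk _ (SymmetricAlgebra.ι A E t) := by
  exact ⟨Groth.Agent.Ega4late.H510.SymPP.ppEquiv A E (n + 1),
    fun t => Groth.Agent.Ega4late.H510.SymPP.ppEquiv_mk_ι A E (n + 1) t⟩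

end Groth.Agent.S3813
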