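import Groth.Statements.S3814
import Mathlib.RingTheory.Finiteness.ModuleFinitePresentation
import Mathlib.RingTheory.FiniteStability
import Mathlib.RingTheory.IntegralClosure.IsIntegralClosure.Basic

set_option autoImplicit false
universe u
open scoped TensorProduct
open PP16

namespace Groth.Agent.S3814

/-- If B is an A-algebra of finite presentation, then for every n the B-module P^n_{B/A} of principal
parts of order n is of finite presentation. -/
theorem result (n : ℕ) (A B : Type u) [CommRing A] [CommRing B]
    [Algebra A B] [Algebra.FinitePresentation A B] :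
    Module.FinitePresentation B (PP16.P n A B) := by
  have h1 : Algebra.FinitePresentation B (B ⊗[A] B) := inferInstance
  have h2 : (KaehlerDifferential.ideal A B ^ (n + 1)).FG := (KaehlerDifferential.ideal_fg A B).pow
  have h3 : Algebra.FinitePresentation B (PP16.P n A B) := Algebra.FinitePresentation.quotient h2
  have h4 : Algebra.IsIntegral B (PP16.P n A B) := by
    constructor
    intro x
    obtain ⟨t, rfl⟩ := Ideal.Quotient.mk_surjective x
    have hmem : t - (Algebra.TensorProduct.lmul' A t) ⊗ₜ[A] (1 : B) ∈ KaehlerDifferential.ideal A B := by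
      change Algebra.TensorProduct.lmul' A _ = 0
      rw [map_sub, Algebra.TensorProduct.lmul'_apply_tmul, mul_one, sub_self]
    have hnil : IsNilpotent ((Ideal.Quotient.mk (KaehlerDifferential.ideal A B ^ (n + 1)))
        (t - (Algebra.TensorProduct.lmul' A t) ⊗ₜ[A] (1 : B))) := by
      refine ⟨n + 1, ?_⟩
      rw [← map_pow, Ideal.Quotient.eq_zero_iff_mem]
      exact Ideal.pow_mem_pow hmem _
    have hint : IsIntegral B ((Ideal.Quotient.mk (KaehlerDifferential.ideal A B ^ (n + 1)))
        (t - (Algebra.TensorProduct.lmul' A t) ⊗ₜ[A] (1 : B))) := by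
      obtain ⟨k, hk⟩ := hnil
      exact ⟨Polynomial.X ^ k, Polynomial.monic_X_pow k, by rw [Polynomial.eval₂_pow, Polynomial.eval₂_X]; exact hk⟩
    have heq : (Ideal.Quotient.mk (KaehlerDifferential.ideal A B ^ (n + 1))) t =
        (Ideal.Quotient.mk (KaehlerDifferential.ideal A B ^ (n + 1)))
        (t - (Algebra.TensorProduct.lmul' A t) ⊗ₜ[A] (1 : B)) +
        algebraMap B (PP16.P n A B) (Algebra.TensorProduct.lmul' A t) := by
      change _ = _ + (Ideal.Quotient.mk (KaehlerDifferential.ideal A B ^ (n + 1)))
        ((Algebra.TensorProduct.lmul' A t) ⊗ₜ[A] (1 : B))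
      rw [← map_add, sub_add_cancel]
    rw [heq]
    exact hint.add isIntegral_algebraMap
  have h5 : Module.Finite B (PP16.P n A B) := Algebra.IsIntegral.finite
  exact Module.FinitePresentation.of_finite_of_finitePresentation B (PP16.P n A B)

end Groth.Agent.S3814
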