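import Groth.Statements.S3819
import Groth.Agent.Ega4late.H516.CharZero

set_option autoImplicit false
universe u
open scoped TensorProduct
open PP16

namespace Groth.Agent.S3819

/-- Let B be an A-algebra containing the rational numbers (a scheme of characteristic 0) whose module of
differentials over A is a free B-module, of any rank. Then B is differentially smooth over A. -/
theorem result (A B : Type u) [CommRing A] [CommRing B] [Algebra A B] [Algebra ℚ B]
    (hΩ : Module.Free B (KaehlerDifferential A B)) : PP16.IsDiffSmooth A B := by
  exact Groth.Agent.Ega4late.H516.CharZero.isDiffSmooth_of_free A B hΩ

end Groth.Agent.S3819
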