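import Groth.Statements.S3820
import Groth.Agent.Ega4late.H517.FSmoothDiff

set_option autoImplicit false
universe u
open scoped TensorProduct
open PP16

namespace Groth.Agent.S3820

/-- Let B be an A-algebra which is formally smooth (for the discrete topologies). Then Spec B is
differentially smooth over Spec A: the module of differentials is projective and the canonical
surjections Sym^n(Ω_{B/A}) → I^n/I^(n+1) are bijective for all n. -/
theorem result (A B : Type u) [CommRing A] [CommRing B] [Algebra A B]
    [Algebra.FormallySmooth A B] : PP16.IsDiffSmooth A B := by
  exact Groth.Agent.Ega4late.H517.FSmoothDiff.isDiffSmooth A B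

end Groth.Agent.S3820
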