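import Groth.Statements.S3821
import Groth.Agent.Ega4late.H518.GrBC

set_option autoImplicit false
universe u
open scoped TensorProduct
open PP16

namespace Groth.Agent.S3821

/-- Let B be an A-algebra, A → A' a ring map and B' = B ⊗_A A'. If B is differentially smooth over A,
then B' is differentially smooth over A'. -/
theorem result (A B A' B' : Type u) [CommRing A] [CommRing B] [Algebra A B]
    [CommRing A'] [CommRing B'] [Algebra A' B'] [Algebra A A'] [Algebra B B'] [Algebra A B']
    [IsScalarTower A A' B'] [IsScalarTower A B B'] [Algebra.IsPushout A B A' B']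
    (h : PP16.IsDiffSmooth A B) : PP16.IsDiffSmooth A' B' := by
  exact Groth.Agent.Ega4late.H518.GrBC.isDiffSmooth_baseChange A B A' B' h

end Groth.Agent.S3821
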