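import Groth.Statements.S3822
import Groth.Agent.Ega4late.H516.CanonMap
import Groth.Agent.Ega4late.H519.GrMap
import Mathlib.RingTheory.Kaehler.TensorProduct
import Mathlib.RingTheory.Finiteness.Descent
import Mathlib.Algebra.Module.FinitePresentation
import Mathlib.RingTheory.Flat.EquationalCriterion
import Mathlib.RingTheory.Flat.FaithfullyFlat.Algebra

set_option autoImplicit false
universe u
open scoped TensorProduct
open PP16

namespace Groth.Agent.S3822

/-- Finite projective modules descend along faithfully flat ring maps. -/
theorem finite_projective_descends (R T M : Type u) [CommRing R] [CommRing T] [Algebra R T]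
    [AddCommGroup M] [Module R M] [Module.FaithfullyFlat R T] [Module.Finite T (T ⊗[R] M)]
    [Module.Projective T (T ⊗[R] M)] : Module.Projective R M ∧ Module.Finite R M := by
  have hfin : Module.Finite R M := Module.Finite.of_finite_tensorProduct_of_faithfullyFlat T
  have hflat : Module.Flat R M := Module.Flat.of_flat_tensorProduct R M T
  refine ⟨?_, hfin⟩
  obtain ⟨n, π, hπ⟩ := Module.Finite.exists_fin' R M
  have hker : Module.Finite R (LinearMap.ker π) := by
    have : Module.Finite T (T ⊗[R] (LinearMap.ker π)) := by
      have hfp : Module.FinitePresentation T (T ⊗[R] M) :=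
        Module.finitePresentation_of_projective _ _
      have hsurj : Function.Surjective (π.baseChange T) := LinearMap.lTensor_surjective T hπ
      have hfg := Module.FinitePresentation.fg_ker (π.baseChange T) hsurj
      have hinj : Function.Injective ((LinearMap.ker π).subtype.baseChange T) :=
        Module.Flat.lTensor_preserves_injective_linearMap (LinearMap.ker π).subtype
          (Submodule.injective_subtype _)
      have hex : LinearMap.ker (π.baseChange T) =
          LinearMap.range ((LinearMap.ker π).subtype.baseChange T) := by
        have := lTensor_exact (f := (LinearMap.ker π).subtype) (g := π) T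
          (LinearMap.exact_subtype_ker_map π) hπ
        ext x
        exact this x
      rw [hex, ← Module.Finite.iff_fg] at hfg
      exact Module.Finite.equiv (LinearEquiv.ofInjective _ hinj).symm
    exact Module.Finite.of_finite_tensorProduct_of_faithfullyFlat T
  have hfp : Module.FinitePresentation R M :=
    Module.finitePresentation_of_surjective π hπ ((Module.Finite.iff_fg).mp hker)
  exact Module.Flat.projective_of_finitePresentation

/-- Let B be an A-algebra, A → A' a faithfully flat ring map and B' = B ⊗_A A'. If B' is differentially
smooth over A' and its module of differentials is finitely generated, then B is differentially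
smooth over A and its module of differentials is finitely generated. -/
theorem result (A B A' B' : Type u) [CommRing A] [CommRing B] [Algebra A B]
    [CommRing A'] [CommRing B'] [Algebra A' B'] [Algebra A A'] [Algebra B B'] [Algebra A B']
    [IsScalarTower A A' B'] [IsScalarTower A B B'] [Algebra.IsPushout A B A' B'] [Module.FaithfullyFlat A A']
    (h : PP16.IsDiffSmooth A' B') (hfin : Module.Finite B' (KaehlerDifferential A' B')) :
    PP16.IsDiffSmooth A B ∧ Module.Finite B (KaehlerDifferential A B) := by
  have hp : Algebra.IsPushout A A' B B' := Algebra.IsPushout.symm inferInstance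
  -- `B → B'` is faithfully flat
  have hff : Module.FaithfullyFlat B B' := by
    have e : B ⊗[A] A' ≃ₗ[B] B' := (Algebra.IsPushout.equiv A B A' B').toLinearEquiv
    exact Module.FaithfullyFlat.of_linearEquiv _ _ e.symm
  let e := KaehlerDifferential.tensorKaehlerEquiv A A' B B'
  have h1 : Module.Finite B' (B' ⊗[B] KaehlerDifferential A B) := Module.Finite.equiv e.symm
  have h2 : Module.Projective B' (B' ⊗[B] KaehlerDifferential A B) := by
    have := h.1
    exact Module.Projective.of_equiv e.symm
  obtain ⟨hproj, hf⟩ := finite_projective_descends B B' (KaehlerDifferential A B)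
  refine ⟨?_, hf⟩
  rw [Groth.Agent.Ega4late.H516.CanonMap.isDiffSmooth_iff] at h ⊢
  refine ⟨hproj, fun ι _ => ?_⟩
  have hbc : IsBaseChange B' (KaehlerDifferential.map A A' B B') := by
    refine IsBaseChange.of_equiv e fun x => ?_
    have hl : (e.toLinearMap.restrictScalars B) ∘ₗ
        (TensorProduct.mk B B' (KaehlerDifferential A B) 1) = KaehlerDifferential.map A A' B B' := by
      refine LinearMap.ext_on (KaehlerDifferential.span_range_derivation A B) ?_
      rintro _ ⟨b, rfl⟩
      change e (1 ⊗ₜ KaehlerDifferential.D A B b) = _
      rw [KaehlerDifferential.tensorKaehlerEquiv_tmul_D, one_smul, KaehlerDifferential.map_D]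
    exact LinearMap.congr_fun hl x
  have hsq : ∀ x : SymmetricPower B ι (KaehlerDifferential A B),
      Groth.Agent.Ega4late.H516.CanonMap.canon A' B' ι
        (Groth.Agent.Ega4late.H519.SymBC.symMap (KaehlerDifferential.map A A' B B') x) =
      Groth.Agent.Ega4late.H519.GrMap.grMap A B A' B' (Fintype.card ι)
        (Groth.Agent.Ega4late.H516.CanonMap.canon A B ι x) := by
    intro x
    have hspan : Submodule.span B (Set.range fun b : ι → B =>
        SymmetricPower.tprod B (fun i => KaehlerDifferential.D A B (b i))) = ⊤ := by
      rw [← Submodule.ker_mkQ (Submodule.span B (Set.range fun b : ι → B =>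
        SymmetricPower.tprod B (fun i => KaehlerDifferential.D A B (b i)))), LinearMap.ker_eq_top]
      refine Groth.Agent.Ega4late.H516.SymPow.hom_ext_on_span
        (fun b => KaehlerDifferential.D A B b) (KaehlerDifferential.span_range_derivation A B)
        fun b => ?_
      rw [LinearMap.zero_apply, Submodule.mkQ_apply, Submodule.Quotient.mk_eq_zero]
      exact Submodule.subset_span ⟨b, rfl⟩
    have hx : x ∈ Submodule.span B (Set.range fun b : ι → B =>
        SymmetricPower.tprod B (fun i => KaehlerDifferential.D A B (b i))) := by
      rw [hspan]; trivial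
    induction hx using Submodule.span_induction with
    | mem x hx =>
      obtain ⟨b, rfl⟩ := hx
      dsimp only
      rw [Groth.Agent.Ega4late.H519.SymBC.symMap_tprod,
        Groth.Agent.Ega4late.H516.CanonMap.canon_tprod_D,
        Groth.Agent.Ega4late.H519.GrMap.grMap_zetaProd]
      simp only [KaehlerDifferential.map_D]
      exact Groth.Agent.Ega4late.H516.CanonMap.canon_tprod_D A' B' _
    | zero => simp only [map_zero]
    | add x y _ _ h1 h2 => simp only [map_add, h1, h2]
    | smul c x _ h1 =>
      rw [Groth.Agent.Ega4late.H519.SymBC.symMap_smul, map_smul, h1, map_smul,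
        LinearMap.map_smulₛₗ]
  rw [injective_iff_map_eq_zero]
  intro x hx
  have h3 : Groth.Agent.Ega4late.H519.SymBC.symMap (R' := B') (KaehlerDifferential.map A A' B B') x = 0 := by
    apply h.2 ι
    rw [hsq, hx, map_zero, map_zero]
  have h4 : (1 : B') ⊗ₜ[B] x = 0 := by
    apply (Groth.Agent.Ega4late.H519.SymBC.symBC (ι := ι) hbc).injective
    rw [Groth.Agent.Ega4late.H519.SymBC.symBC_tmul, h3, smul_zero, map_zero]
  exact Module.FaithfullyFlat.tensorProduct_mk_injective (A := B) (B := B')
    (SymmetricPower B ι (KaehlerDifferential A B)) (by rw [map_zero]; exact h4)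

end Groth.Agent.S3822
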