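import Groth.Statements.S3826
import Groth.Agent.Ega4late.H522.LocQReg
-- import your own Groth.Agent.* helpers here

set_option autoImplicit false
universe u
open scoped TensorProduct
open QReg16

namespace Groth.Agent.S3826

/-- Affine form, X = Spec R: an ideal J of a ring R is quasi-regular (locally on Spec R generated by a
quasi-regular sequence) if and only if (i) J is finitely generated, (ii) J/J² is a locally free
R/J-module of finite type, here: finitely generated projective, and (iii) the canonical surjections
Sym^n(J/J²) → J^n/J^(n+1) are bijective for every n. -/
theorem result (R : Type u) [CommRing R] (J : Ideal R) :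
    PP16.IsLocallyQuasiRegular R J ↔
      J.FG ∧ Module.Projective (R ⧸ J) J.Cotangent ∧ PP16.SymGrBijective R J :=
  Groth.Agent.Ega4late.H522.LocQReg.isLocallyQuasiRegular_iff'

end Groth.Agent.S3826
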