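import Groth.Statements.S3823
import Groth.Agent.S3826
import Groth.Agent.Ega4late.H520.Translate

set_option autoImplicit false
universe u
open scoped TensorProduct
open PP16

namespace Groth.Agent.S3823

/-- Let B be an A-algebra of finite type. Then B is differentially smooth over A if and only if the
diagonal immersion is quasi-regular, that is, the kernel I of B ⊗_A B → B is a quasi-regular ideal:
every prime of B ⊗_A B containing I has a basic open neighbourhood on which I is generated by a
quasi-regular sequence. -/
theorem result (A B : Type u) [CommRing A] [CommRing B] [Algebra A B]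
    [Algebra.FiniteType A B] :
    PP16.IsDiffSmooth A B ↔ PP16.IsLocallyQuasiRegular (B ⊗[A] B) (KaehlerDifferential.ideal A B) := by
  rw [Groth.Agent.S3826.result, Groth.Agent.Ega4late.H520.Translate.isDiffSmooth_iff_symGr]
  exact ⟨fun h => ⟨KaehlerDifferential.ideal_fg A B, h⟩, fun h => h.2⟩

end Groth.Agent.S3823
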