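import Groth.Statements.S3824
import Mathlib.RingTheory.MvPolynomial.Homogeneous
import Mathlib.LinearAlgebra.Matrix.NonsingularInverse
-- import your own Groth.Agent.* helpers here

set_option autoImplicit false
universe u
open QReg16

namespace Groth.Agent.S3824

open MvPolynomial in
private theorem homog_lin {R : Type u} [CommRing R] {n : ℕ} (a : Fin n → R) :
    (∑ i, C (a i) * X i : MvPolynomial (Fin n) R).IsHomogeneous 1 := by
  apply IsHomogeneous.sum
  intro i _
  have := (isHomogeneous_C (Fin n) (a i)).mul (isHomogeneous_X R i)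
  simpa using this

open MvPolynomial in
private theorem homog_bind {R : Type u} [CommRing R] {n m : ℕ} (P : MvPolynomial (Fin n) R)
    (hP : P.IsHomogeneous m) (g : Fin n → MvPolynomial (Fin n) R) (hg : ∀ i, (g i).IsHomogeneous 1) :
    (bind₁ g P).IsHomogeneous m := by
  have := hP.aeval (n := 1) g hg
  rw [one_mul] at this
  exact this

private theorem exists_coeffs {A : Type u} [CommRing A] {n : ℕ} (f : Fin n → A) (x : A)
    (hx : x ∈ Ideal.span (Set.range f)) : ∃ c : Fin n → A, x = ∑ i, c i * f i := by
  rw [Ideal.mem_span_range_iff_exists_fun] at hx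
  obtain ⟨c, hc⟩ := hx
  exact ⟨c, hc.symm⟩

open MvPolynomial in
private theorem map_eq_zero_iff_coeff {A : Type u} [CommRing A] {n : ℕ} (J : Ideal A)
    (P : MvPolynomial (Fin n) A) :
    map (Ideal.Quotient.mk J) P = 0 ↔ ∀ d, P.coeff d ∈ J := by
  constructor
  · intro h d
    have := congrArg (coeff d) h
    rw [coeff_map, coeff_zero] at this
    exact Ideal.Quotient.eq_zero_iff_mem.mp this
  · intro h
    ext d
    rw [coeff_map, coeff_zero]
    exact Ideal.Quotient.eq_zero_iff_mem.mpr (h d)

/-- Let f_1, …, f_n be a quasi-regular sequence in a ring A and f'_1, …, f'_n another sequence of the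
same length generating the same ideal. Then (f'_i) is quasi-regular. -/
theorem result {A : Type u} [CommRing A] {n : ℕ} (f f' : Fin n → A)
    (hf : CAlgX.IsQuasiRegular f) (h : Ideal.span (Set.range f') = Ideal.span (Set.range f)) :
    CAlgX.IsQuasiRegular f' := by
  classical
  set J := Ideal.span (Set.range f) with hJ
  have ha : ∀ j, ∃ c : Fin n → A, f' j = ∑ i, c i * f i := fun j =>
    exists_coeffs f (f' j) (by rw [← hJ, ← h]; exact Ideal.subset_span ⟨j, rfl⟩)
  have hb : ∀ i, ∃ c : Fin n → A, f i = ∑ j, c j * f' j := fun i =>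
    exists_coeffs f' (f i) (by rw [h]; exact Ideal.subset_span ⟨i, rfl⟩)
  choose a ha using ha
  choose b hb using hb
  -- `b * a ≡ 1` modulo `J`
  let q := Ideal.Quotient.mk J
  have hba : ∀ i k, (∑ j, b i j * a j k) - (if i = k then 1 else 0) ∈ J := by
    intro i k
    let P : MvPolynomial (Fin n) A :=
      ∑ k, MvPolynomial.C ((∑ j, b i j * a j k) - (if i = k then 1 else 0)) * MvPolynomial.X k
    have hP : P.IsHomogeneous 1 := homog_lin _
    have hev : MvPolynomial.eval f P = 0 := by
      simp only [P, map_sum, map_mul, MvPolynomial.eval_C, MvPolynomial.eval_X, sub_mul,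
        Finset.sum_sub_distrib, ite_mul, one_mul, zero_mul]
      rw [Finset.sum_ite_eq, if_pos (Finset.mem_univ _), sub_eq_zero]
      conv_rhs => rw [hb i]
      simp only [Finset.sum_mul, ha, Finset.mul_sum]
      rw [Finset.sum_comm]
      refine Finset.sum_congr rfl fun j _ => Finset.sum_congr rfl fun l _ => by ring
    have := hf 1 P hP (by rw [hev]; exact zero_mem _) (Finsupp.single k 1)
    have hc : P.coeff (Finsupp.single k 1) = (∑ j, b i j * a j k) - (if i = k then 1 else 0) := by
      simp only [P, MvPolynomial.coeff_sum, MvPolynomial.coeff_C_mul]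
      rw [Finset.sum_eq_single k]
      · rw [MvPolynomial.coeff_X, if_pos rfl, mul_one]
      · intro l _ hl
        have h0 : ¬ (Finsupp.single l 1 = (Finsupp.single k 1 : Fin n →₀ ℕ)) := fun h' =>
          hl (Finsupp.single_left_injective one_ne_zero h')
        rw [MvPolynomial.coeff_X, if_neg h0, mul_zero]
      · intro h'; exact absurd (Finset.mem_univ k) h'
    rw [hc] at this
    exact this
  let Ma : Matrix (Fin n) (Fin n) (A ⧸ J) := Matrix.of fun j k => q (a j k)
  let Mb : Matrix (Fin n) (Fin n) (A ⧸ J) := Matrix.of fun i j => q (b i j)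
  have hMba : Mb * Ma = 1 := by
    ext i k
    rw [Matrix.mul_apply, Matrix.one_apply]
    have := Ideal.Quotient.eq_zero_iff_mem.mpr (hba i k)
    rw [map_sub, sub_eq_zero] at this
    simp only [map_sum, map_mul] at this
    simp only [Ma, Mb, Matrix.of_apply, q, this]
    split_ifs <;> simp
  have hMab : Ma * Mb = 1 := mul_eq_one_comm.mp hMba
  intro m P hP hPJ d
  rw [h] at hPJ ⊢
  let g : Fin n → MvPolynomial (Fin n) A := fun j => ∑ i, MvPolynomial.C (a j i) * MvPolynomial.X i
  let Q := MvPolynomial.bind₁ g P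
  have hQ : Q.IsHomogeneous m := homog_bind P hP g fun j => homog_lin _
  have hQev : MvPolynomial.eval f Q = MvPolynomial.eval f' P := by
    have h1 : MvPolynomial.eval f Q = MvPolynomial.eval (fun j => MvPolynomial.eval f (g j)) P := by
      exact MvPolynomial.eval₂Hom_bind₁ (RingHom.id A) f g P
    rw [h1]
    congr 1
    congr 1
    funext j
    simp only [g, map_sum, map_mul, MvPolynomial.eval_C, MvPolynomial.eval_X]
    exact (ha j).symm
  have hQJ := hf m Q hQ (by rw [hQev]; exact hPJ)
  rw [← hJ] at hQJ
  rw [← map_eq_zero_iff_coeff] at hQJ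
  revert d
  rw [← map_eq_zero_iff_coeff]
  set Pb := MvPolynomial.map (Ideal.Quotient.mk J) P with hPb
  let ga : Fin n → MvPolynomial (Fin n) (A ⧸ J) :=
    fun j => ∑ i, MvPolynomial.C (Ma j i) * MvPolynomial.X i
  let gb : Fin n → MvPolynomial (Fin n) (A ⧸ J) :=
    fun j => ∑ i, MvPolynomial.C (Mb j i) * MvPolynomial.X i
  have hQb : MvPolynomial.bind₁ ga Pb = 0 := by
    rw [← hQJ]
    simp only [Q, hPb]
    rw [MvPolynomial.map_bind₁]
    congr 1
    congr 1
    funext j
    simp [ga, g, Ma, q]
  have hcomp : MvPolynomial.bind₁ gb (MvPolynomial.bind₁ ga Pb) = Pb := by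
    rw [MvPolynomial.bind₁_bind₁]
    have : (fun i => MvPolynomial.bind₁ gb (ga i)) = MvPolynomial.X := by
      funext j
      simp only [ga, map_sum, map_mul, MvPolynomial.bind₁_X_right, MvPolynomial.bind₁_C_right]
      simp only [gb, Finset.mul_sum]
      rw [Finset.sum_comm]
      have h2 : ∀ k, ∑ i, MvPolynomial.C (Ma j i) * (MvPolynomial.C (Mb i k) * MvPolynomial.X k)
          = MvPolynomial.C ((Ma * Mb) j k) * (MvPolynomial.X k : MvPolynomial (Fin n) (A ⧸ J)) := by
        intro k
        rw [Matrix.mul_apply, map_sum, Finset.sum_mul]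
        refine Finset.sum_congr rfl fun l _ => by rw [map_mul]; ring
      simp only [h2, hMab, Matrix.one_apply]
      rw [Finset.sum_eq_single j]
      · simp
      · intro l _ hl
        rw [if_neg (Ne.symm hl)]; simp
      · intro h'; exact absurd (Finset.mem_univ _) h'
    rw [this, MvPolynomial.bind₁_X_left]
    rfl
  rw [← hcomp, hQb, map_zero]

end Groth.Agent.S3824
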