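import Groth.Statements.S3825
import Groth.Agent.Ega4late.H521.QRegCot

set_option autoImplicit false
universe u
open QReg16

namespace Groth.Agent.S3825

/-- a) iff c) (affine local form): let A be a local ring and I a proper ideal generated by some
quasi-regular sequence. For a finite family (f_i) of elements of I, the following are equivalent:
(a) (f_i) is a quasi-regular sequence generating I; (c) the classes of the f_i form a basis of the
A/I-module I/I² (equivalently, b): (f_i) is a minimal system of generators of I). -/
theorem result {A : Type u} [CommRing A] [IsLocalRing A]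
    (I : Ideal A) (hI : I ≤ IsLocalRing.maximalIdeal A)
    (hq : ∃ (r : ℕ) (g : Fin r → A), CAlgX.IsQuasiRegular g ∧ Ideal.span (Set.range g) = I)
    {m : ℕ} (f : Fin m → I) :
    (CAlgX.IsQuasiRegular (fun i => (f i : A)) ∧ Ideal.span (Set.range fun i => (f i : A)) = I) ↔
      (LinearIndependent (A ⧸ I) (fun i => I.toCotangent (f i)) ∧
        Submodule.span (A ⧸ I) (Set.range fun i => I.toCotangent (f i)) = ⊤) :=
  Groth.Agent.Ega4late.H521.QRegCot.main I hI hq f

end Groth.Agent.S3825
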