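import Groth.Statements.S3827
-- import your own Groth.Agent.* helpers here
import Groth.Agent.Ega4late.H523.InfPow

set_option autoImplicit false
universe u
open QReg16

namespace Groth.Agent.S3827

/-- Let A be a ring, J an ideal, A' = A/J and f_1, …, f_r elements of A forming an A'-regular sequence
(each f_i a non-zero-divisor on A' modulo the previous ones); let R be the ideal generated by the
f_i. Then for all integers 0 < n ≤ N one has J ∩ Rⁿ = J·Rⁿ + (J ∩ R^N). -/
theorem result {A : Type u} [CommRing A] (J : Ideal A) {r : ℕ} (f : Fin r → A)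
    (hf : RingTheory.Sequence.IsWeaklyRegular (A ⧸ J) (List.ofFn f)) (n N : ℕ) (hn : 0 < n) (hnN : n ≤ N) :
    J ⊓ Ideal.span (Set.range f) ^ n =
      J * Ideal.span (Set.range f) ^ n ⊔ J ⊓ Ideal.span (Set.range f) ^ N := by
  exact Groth.Agent.Ega4late.H523.InfPow.inf_pow_eq J f hf n N hnN

end Groth.Agent.S3827
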