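import Groth.Statements.S3828
-- import your own Groth.Agent.* helpers here
import Groth.Agent.Ega4late.H524.InfPow

set_option autoImplicit false
universe u
open QReg16

namespace Groth.Agent.S3828

/-- Let A be a Noetherian ring, J an ideal of A, and f_1, …, f_r elements of A forming a weakly regular
sequence on A/J (each f_i a nonzerodivisor on A/(J + (f_1, …, f_{i−1}))) and generating an ideal R
contained in the Jacobson radical of A; put Q = J + R. Then J ∩ Rⁿ = J·Rⁿ for every n > 0, and J ∩
Q² = J·Q (equivalently, the canonical map J/JQ → Q/Q² is injective). -/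
theorem result {A : Type u} [CommRing A] [IsNoetherianRing A] (J : Ideal A)
    {r : ℕ} (f : Fin r → A) (hf : RingTheory.Sequence.IsWeaklyRegular (A ⧸ J) (List.ofFn f))
    (hrad : Ideal.span (Set.range f) ≤ (⊥ : Ideal A).jacobson) :
    (∀ n : ℕ, 0 < n → J ⊓ Ideal.span (Set.range f) ^ n = J * Ideal.span (Set.range f) ^ n) ∧
      J ⊓ (J ⊔ Ideal.span (Set.range f)) ^ 2 = J * (J ⊔ Ideal.span (Set.range f)) :=
  ⟨fun n _ => Groth.Agent.Ega4late.H524.InfPow.inf_pow_eq_mul_pow J f hf n,
    Groth.Agent.Ega4late.H524.InfPow.inf_sup_sq_eq J _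
      (Groth.Agent.Ega4late.H524.InfPow.inf_pow_eq_mul_pow J f hf 2)⟩

end Groth.Agent.S3828
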