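import Groth.Statements.S3830
import Groth.Agent.Ega4late.H526.SmoothQf
-- import your own Groth.Agent.* helpers here

set_option autoImplicit false
universe u
open Unram17

namespace Groth.Agent.S3830

/-- b) implies a) (affine pointwise form): let B be an A-algebra of finite presentation and q a prime of
B. If B is smooth over A at q and quasi-finite over A at q, then B is étale over A at q. -/
theorem result (A B : Type u) [CommRing A] [CommRing B] [Algebra A B]
    [Algebra.FinitePresentation A B] (q : Ideal B) [q.IsPrime] [Algebra.QuasiFiniteAt A q]
    (h : Algebra.IsSmoothAt A q) : Algebra.IsEtaleAt A q :=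
  Groth.Agent.Ega4late.H526.SmoothQf.isEtaleAt_of_isSmoothAt_of_quasiFiniteAt A B q

end Groth.Agent.S3830
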