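import Groth.Statements.S3833
import Groth.Agent.Ega4late.H521.SchDenseReg

set_option autoImplicit false
universe u
open CategoryTheory CategoryTheory.Limits AlgebraicGeometry TopologicalSpace
open Rat20

namespace Groth.Agent.S3833

/-- Stated for a global section, the case of a section over an open subset U being the same statement
for the open subscheme U: let X be a scheme and s a global section of O_X which is regular in the
sense that its germ at every point x is a non-zero-divisor of the local ring O_{X,x} (on an affine
scheme this is the same as being a non-zero-divisor of Γ(X, O_X), but not in general). Then the open
subset X_s where s is invertible is schematically dense in X. -/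
theorem result (X : Scheme.{u}) (s : Γ(X, ⊤))
    (hs : ∀ x : ↥X, (X.presheaf.germ ⊤ x trivial s) ∈ nonZeroDivisors ↑(X.presheaf.stalk x)) :
    CInt.IsSchematicallyDense (X.basicOpen s) :=
  Groth.Agent.Ega4late.H521.SchDenseReg.isSchematicallyDense_basicOpen X s hs

end Groth.Agent.S3833
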