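import Groth.Statements.S3836
import Groth.Agent.Ega4late.H530.SectionExtend

set_option autoImplicit false
universe u
open CategoryTheory CategoryTheory.Limits AlgebraicGeometry TopologicalSpace
open Rat20

namespace Groth.Agent.S3836

/-- Let X be a locally integral S-scheme, Y an S-scheme locally of finite type and separated over S, and
h : U → Y an S-morphism on a dense open subset (a rational S-map ω). Let Γ be the closure in X ×_S Y
of the graph of h and p : Γ → X the projection. If x is a point of X whose local ring is integrally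
closed and the fibre p⁻¹(x) contains an isolated point, then ω is defined at x: some S-morphism from
an open neighbourhood of x to Y agrees with h on U. -/
theorem result {X Y S : Scheme.{u}} (pX : X ⟶ S) (pY : Y ⟶ S)
    [LocallyOfFiniteType pY] [IsSeparated pY] (hX : ∀ y : ↥X, ∃ W : X.Opens, y ∈ W ∧ IsIntegral (W : Scheme.{u}))
    (U : X.Opens) (hU : Dense (U : Set ↥X)) (h : (U : Scheme.{u}) ⟶ Y) (hh : U.ι ≫ pX = h ≫ pY)
    (x : ↥X) (hx : IsIntegrallyClosed (X.presheaf.stalk x))
    (z : ↥(pullback pX pY)) (hz : pullback.fst pX pY z = x)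
    (hzΓ : z ∈ closure (Set.range (pullback.lift U.ι h hh)))
    (hiso : ∃ W : (pullback pX pY).Opens, (W : Set ↥(pullback pX pY)) ∩ closure (Set.range (pullback.lift U.ι h hh)) ∩
      (pullback.fst pX pY) ⁻¹' {x} = {z}) :
    ∃ (V : X.Opens) (v : (V : Scheme.{u}) ⟶ Y), x ∈ V ∧ v ≫ pY = V.ι ≫ pX ∧
      X.homOfLE (inf_le_right : U ⊓ V ≤ V) ≫ v = X.homOfLE (inf_le_left : U ⊓ V ≤ U) ≫ h := by
  subst hz
  obtain ⟨W₁, hzW, hW₁⟩ := hX (pullback.fst pX pY z)
  obtain ⟨V, hV, v, hv, -, hagree⟩ :=
    Groth.Agent.Ega4late.H530.SectionExtend.exists_extension (pullback.fst pX pY) hU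
      (pullback.lift U.ι h hh) (pullback.lift_fst _ _ _) W₁ z hzW hx hzΓ hiso
  refine ⟨V, v ≫ pullback.snd pX pY, hV, ?_, ?_⟩
  · rw [Category.assoc, ← pullback.condition, reassoc_of% hv]
  · rw [reassoc_of% hagree, pullback.lift_snd]

end Groth.Agent.S3836
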