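import Groth.Statements.S3837
import Groth.Agent.S3836
import Groth.Agent.Ega4late.H531.GraphFibre

set_option autoImplicit false
universe u
open CategoryTheory CategoryTheory.Limits AlgebraicGeometry TopologicalSpace
open Rat20

namespace Groth.Agent.S3837

/-- Let X be a normal S-scheme (locally integral with integrally closed local rings), Y an S-scheme
locally of finite type and separated over S, h : U → Y an S-morphism on a dense open subset (a
rational S-map ω), and f : X' → X a morphism locally of finite type and universally open with X'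
reduced, so that f⁻¹(U) is dense and ω ∘ f is defined. Then for x' in X' with image x, ω is defined
at x if and only if ω ∘ f is defined at x': some S-morphism on an open neighbourhood of x agrees
with h on U if and only if some S-morphism on an open neighbourhood of x' agrees with h ∘ f on the
preimage of U. -/
theorem result {X X' Y S : Scheme.{u}} (pX : X ⟶ S) (pY : Y ⟶ S)
    [LocallyOfFiniteType pY] [IsSeparated pY] (hX : ∀ y : ↥X, ∃ W : X.Opens, y ∈ W ∧ IsIntegral (W : Scheme.{u}))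
    (hXn : ∀ y : ↥X, IsIntegrallyClosed (X.presheaf.stalk y))
    (U : X.Opens) (hU : Dense (U : Set ↥X)) (h : (U : Scheme.{u}) ⟶ Y) (hh : h ≫ pY = U.ι ≫ pX)
    (f : X' ⟶ X) [LocallyOfFiniteType f] [UniversallyOpen f] [IsReduced X'] (x' : ↥X') :
    (∃ (V : X.Opens) (v : (V : Scheme.{u}) ⟶ Y), f x' ∈ V ∧ v ≫ pY = V.ι ≫ pX ∧
        X.homOfLE (inf_le_right : U ⊓ V ≤ V) ≫ v = X.homOfLE (inf_le_left : U ⊓ V ≤ U) ≫ h) ↔
      ∃ (V' : X'.Opens) (v' : (V' : Scheme.{u}) ⟶ Y), x' ∈ V' ∧ v' ≫ pY = V'.ι ≫ f ≫ pX ∧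
        X'.homOfLE (inf_le_right : f ⁻¹ᵁ U ⊓ V' ≤ V') ≫ v' =
          X'.homOfLE (inf_le_left : f ⁻¹ᵁ U ⊓ V' ≤ f ⁻¹ᵁ U) ≫ (f ∣_ U) ≫ h := by
  refine ⟨Groth.Agent.Ega4late.H531.GraphFibre.exists_pullback pX pY U h f x', ?_⟩
  rintro ⟨V', v', hx', hv', hv'U⟩
  obtain ⟨z, hz, hzC⟩ := Groth.Agent.Ega4late.H531.GraphFibre.closure_inter_fibre pX pY U hU h hh.symm f x'
    V' v' hx' hv' hv'U
  have hzmem : z ∈ closure (Set.range (pullback.lift U.ι h hh.symm)) := by
    have h1 : z ∈ closure (Set.range (pullback.lift U.ι h hh.symm)) ∩ (pullback.fst pX pY) ⁻¹' {f x'} := by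
      rw [hzC]; exact Set.mem_singleton z
    exact h1.1
  refine Groth.Agent.S3836.result pX pY hX U hU h hh.symm (f x') (hXn _) z hz hzmem ⟨⊤, ?_⟩
  rw [TopologicalSpace.Opens.coe_top, Set.univ_inter, hzC]

end Groth.Agent.S3837
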