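import Groth.Statements.S3838
import Groth.Agent.Ega4late.H532.Descent

set_option autoImplicit false
universe u
open CategoryTheory CategoryTheory.Limits AlgebraicGeometry TopologicalSpace
open Div21

namespace Groth.Agent.S3838

/-- Let X and Y be locally Noetherian schemes and f : X → Y a faithfully flat morphism which is
quasi-compact or open, and let D' be an effective Cartier divisor on X, given by its ideal sheaf 𝓙.
Then D' is the inverse image of an effective Cartier divisor on Y if and only if, for every point y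
of Y whose local ring has depth at most 1, with Y₁ = Spec 𝒪_{Y,y}, X₁ = X ×_Y Y₁ and f₁ : X₁ → Y₁,
the inverse image of D' on X₁ is the inverse image under f₁ of an effective Cartier divisor on Y₁.
(The published statement is more general; only the case of effective Cartier divisors is stated
here.) -/
theorem result {X Y : Scheme.{u}} [IsLocallyNoetherian X]
    [IsLocallyNoetherian Y] (f : X ⟶ Y) [Flat f] [Surjective f] (hf : QuasiCompact f ∨ IsOpenMap f)
    (𝓙 : X.IdealSheafData) (hJ : BlowUp.IsEffCartierIdeal 𝓙) :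
    (∃ 𝓘 : Y.IdealSheafData, BlowUp.IsEffCartierIdeal 𝓘 ∧ 𝓘.comap f = 𝓙) ↔
      ∀ y : ↥Y, LocCoh.depth ↑(Y.presheaf.stalk y) ↑(Y.presheaf.stalk y) ≤ 1 →
        ∃ 𝓘₁ : (Spec (Y.presheaf.stalk y)).IdealSheafData, BlowUp.IsEffCartierIdeal 𝓘₁ ∧
          𝓘₁.comap (pullback.snd f (Y.fromSpecStalk y)) = 𝓙.comap (pullback.fst f (Y.fromSpecStalk y)) := by
  constructor
  · rintro ⟨𝓘, h𝓘, h⟩ y -
    exact Groth.Agent.Ega4late.H532.Descent.exists_comap_of_comap h𝓘 h y
  · intro H
    refine Groth.Agent.Ega4late.H532.Descent.exists_descent_of_depth hf hJ fun y hy => ?_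
    obtain ⟨𝓘₁, h₁, h₂⟩ := H y hy
    exact Groth.Agent.Ega4late.H532.Descent.exists_gen_of_comap y 𝓘₁ h₁ h₂

end Groth.Agent.S3838
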