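import Groth.Statements.S3839
import Groth.Agent.Ega4late.H533.NormalDesc

set_option autoImplicit false
universe u
open CategoryTheory CategoryTheory.Limits AlgebraicGeometry TopologicalSpace
open Div21

namespace Groth.Agent.S3839

/-- Case of effective divisors: let X and Y be locally Noetherian schemes and f : X → Y a faithfully
flat morphism which is quasi-compact or open; suppose Y is normal and that for every point y of Y
whose local ring has dimension 1 the fibre X_y is integral. Then an effective Cartier divisor D' on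
X, given by its ideal sheaf 𝓙, is the inverse image of an effective Cartier divisor on Y if and only
if for every maximal point η of Y the inverse image of D' on the fibre X_η is zero (its ideal is the
unit ideal). -/
theorem result {X Y : Scheme.{u}} [IsLocallyNoetherian X]
    [IsLocallyNoetherian Y] (f : X ⟶ Y) [Flat f] [Surjective f] (hf : QuasiCompact f ∨ IsOpenMap f)
    (hY : Pi1.IsNormalScheme Y)
    (hfib : ∀ y : ↥Y, ringKrullDim ↑(Y.presheaf.stalk y) = 1 → IsIntegral (f.fiber y))
    (𝓙 : X.IdealSheafData) (hJ : BlowUp.IsEffCartierIdeal 𝓙) :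
    (∃ 𝓘 : Y.IdealSheafData, BlowUp.IsEffCartierIdeal 𝓘 ∧ 𝓘.comap f = 𝓙) ↔
      ∀ η : ↥Y, (∀ z : ↥Y, z ⤳ η → z = η) → 𝓙.comap (f.fiberι η) = ⊤ := by
  constructor
  · rintro ⟨𝓘, h𝓘, rfl⟩ η hη
    rw [Ega4late.H533.NormalDesc.comap_fiberι_eq_top_iff]
    rintro x rfl
    have := (hY (f x)).1
    have hfield := Ega4late.H533.NormalDesc.isField_of_maximal hη
    obtain ⟨g, hg, hgx⟩ := Divis.CartierBasic.exists_stalkIdeal_eq_span h𝓘 (f x)
    rw [Ega4late.H533.DescScheme.stalkIdeal_comap, hgx]
    have hu : IsUnit g := by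
      obtain ⟨c, hc⟩ := hfield.mul_inv_cancel (nonZeroDivisors.ne_zero hg)
      exact IsUnit.of_mul_eq_one c hc
    rw [Ideal.span_singleton_eq_top.2 hu, Ideal.map_top]
  · intro h
    refine Ega4late.H533.NormalDesc.exists_of_normal f hf hY hfib 𝓙 hJ fun x hx => ?_
    exact (Ega4late.H533.NormalDesc.comap_fiberι_eq_top_iff f 𝓙 (f x)).1 (h (f x) hx) x rfl

end Groth.Agent.S3839
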