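import Groth.Statements.S3842

set_option autoImplicit false
universe u
open CategoryTheory CategoryTheory.Limits AlgebraicGeometry TopologicalSpace
open Rat20

namespace Groth.Agent.S3842

/-- A schematically dense open is topologically dense. -/
lemma dense_of_isSchematicallyDense {X : Scheme.{u}} (V : X.Opens)
    (hV : CInt.IsSchematicallyDense V) : Dense (V : Set ↥X) := by
  rw [dense_iff_inter_open]
  intro W hW hWne
  by_contra hcon
  rw [Set.not_nonempty_iff_eq_empty] at hcon
  let W' : X.Opens := ⟨W, hW⟩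
  have hbot : W' ⊓ V = ⊥ := by
    apply TopologicalSpace.Opens.ext
    exact hcon
  have hsub : Subsingleton Γ(X, W' ⊓ V) := by
    rw [hbot]; infer_instance
  have h1 : (1 : Γ(X, W')) = 0 := hV W' (hsub.elim _ _)
  have h2 : X.basicOpen (1 : Γ(X, W')) = ⊥ := by
    rw [h1]; exact X.basicOpen_zero W'
  have h3 : X.basicOpen (1 : Γ(X, W')) = W' := Scheme.basicOpen_of_isUnit _ isUnit_one
  rw [h3] at h2
  obtain ⟨w, hw⟩ := hWne
  have hw' : w ∈ W' := hw
  rw [h2] at hw'
  exact hw'.elim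

/-- If the components form a family which is locally finite at a point of the component `Z`, then
every dense subset meets `Z`. -/
lemma inter_nonempty_of_dense {T : Type*} [TopologicalSpace T] {V : Set T} (hV : Dense V)
    {Z : Set T} (hZ : Z ∈ irreducibleComponents T) {x : T} (hx : x ∈ Z) {W : Set T}
    (hW : IsOpen W) (hxW : x ∈ W)
    (hfin : {Z ∈ irreducibleComponents T | (Z ∩ W).Nonempty}.Finite) : (Z ∩ V).Nonempty := by
  classical
  let S : Finset (Set T) := hfin.toFinset.erase Z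
  have hScl : ∀ z ∈ S, IsClosed z := by
    intro z hz
    rw [Finset.mem_erase, Set.Finite.mem_toFinset] at hz
    exact isClosed_of_mem_irreducibleComponents z hz.2.1
  have hC : IsClosed (⋃₀ (S : Set (Set T))) := by
    rw [Set.sUnion_eq_biUnion]
    exact S.finite_toSet.isClosed_biUnion hScl
  have hopen : IsOpen (W \ ⋃₀ (S : Set (Set T))) := hW.sdiff hC
  have hne : (W \ ⋃₀ (S : Set (Set T))).Nonempty := by
    by_contra hcon
    rw [Set.not_nonempty_iff_eq_empty, Set.sdiff_eq_empty] at hcon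
    have h1 : Z ⊆ closure (Z ∩ W) :=
      subset_closure_inter_of_isPreirreducible_of_isOpen hZ.1.isPreirreducible hW ⟨x, hx, hxW⟩
    have h2 : Z ⊆ ⋃₀ (S : Set (Set T)) :=
      h1.trans ((closure_mono (Set.inter_subset_right.trans hcon)).trans hC.closure_eq.subset)
    obtain ⟨z, hz, hZz⟩ := isIrreducible_iff_sUnion_isClosed.mp hZ.1 S hScl h2
    rw [Finset.mem_erase, Set.Finite.mem_toFinset] at hz
    exact hz.1 (Set.Subset.antisymm (hZ.2 hz.2.1.1 hZz) hZz)
  obtain ⟨v, ⟨hvW, hvS⟩, hvV⟩ := hV.inter_open_nonempty _ hopen hne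
  refine ⟨v, ?_, hvV⟩
  by_contra hvZ
  apply hvS
  refine ⟨irreducibleComponent v, ?_, mem_irreducibleComponent⟩
  rw [Finset.mem_coe, Finset.mem_erase, Set.Finite.mem_toFinset]
  refine ⟨fun h => hvZ (h ▸ mem_irreducibleComponent),
    irreducibleComponent_mem_irreducibleComponents v, ⟨v, mem_irreducibleComponent, hvW⟩⟩


/-- For the open subset U = X; the general case is the same statement over the open subscheme U: let f :
X' → X be a morphism of schemes with X' reduced, suppose the irreducible components of X form a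
locally finite family and that every irreducible component of X' dominates an irreducible component
of X (the closure of its image is an irreducible component of X). Then for every schematically dense
open subset V of X, the preimage f⁻¹(V) is schematically dense in X'. -/
theorem result {X X' : Scheme.{u}} (f : X' ⟶ X) [IsReduced X']
    (hfin : ∀ x : ↥X, ∃ W : X.Opens, x ∈ W ∧ {Z ∈ irreducibleComponents ↥X | (Z ∩ (W : Set ↥X)).Nonempty}.Finite)
    (hdom : ∀ Z' ∈ irreducibleComponents ↥X', closure (f '' Z') ∈ irreducibleComponents ↥X)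
    (V : X.Opens) (hV : CInt.IsSchematicallyDense V) : CInt.IsSchematicallyDense (f ⁻¹ᵁ V) := by
  have hVd := dense_of_isSchematicallyDense V hV
  have hmeet : ∀ Z' ∈ irreducibleComponents ↥X', (Z' ∩ (f ⁻¹ᵁ V : Set ↥X')).Nonempty := by
    intro Z' hZ'
    have hZ := hdom Z' hZ'
    obtain ⟨x, hx⟩ := hZ.1.nonempty
    obtain ⟨W, hxW, hW⟩ := hfin x
    obtain ⟨v, hv, hvV⟩ := inter_nonempty_of_dense hVd hZ hx W.isOpen hxW hW
    obtain ⟨y, hyV, hy⟩ := mem_closure_iff.mp hv V V.isOpen hvV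
    obtain ⟨z, hz, rfl⟩ := hy
    exact ⟨z, hz, hyV⟩
  have hd : Dense (f ⁻¹ᵁ V : Set ↥X') := by
    rw [dense_iff_inter_open]
    intro W hW hWne
    obtain ⟨y, hy⟩ := hWne
    obtain ⟨z, hz, hzW, hzV⟩ := (isIrreducible_irreducibleComponent (x := y)).2 W (f ⁻¹ᵁ V) hW
      (f ⁻¹ᵁ V).isOpen ⟨y, mem_irreducibleComponent, hy⟩
      (hmeet _ (irreducibleComponent_mem_irreducibleComponents y))
    exact ⟨z, hzW, hzV⟩
  intro W
  rw [injective_iff_map_eq_zero (X'.presheaf.map (homOfLE (inf_le_left : W ⊓ f ⁻¹ᵁ V ≤ W)).op).hom]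
  intro s hs
  apply eq_zero_of_basicOpen_eq_bot
  have h1 := X'.basicOpen_res s (homOfLE (inf_le_left : W ⊓ f ⁻¹ᵁ V ≤ W)).op
  have h2 : X'.basicOpen ((X'.presheaf.map (homOfLE (inf_le_left : W ⊓ f ⁻¹ᵁ V ≤ W)).op) s) = ⊥ := by
    have h3 : (X'.presheaf.map (homOfLE (inf_le_left : W ⊓ f ⁻¹ᵁ V ≤ W)).op) s = 0 := hs
    rw [h3]
    exact X'.basicOpen_zero _
  rw [h2] at h1
  by_contra hne
  obtain ⟨y, hy⟩ := (TopologicalSpace.Opens.ne_bot_iff_nonempty _).mp hne
  obtain ⟨z, hz, hzV⟩ := hd.inter_open_nonempty _ (X'.basicOpen s).isOpen ⟨y, hy⟩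
  have hz' : z ∈ (W ⊓ f ⁻¹ᵁ V) ⊓ X'.basicOpen s := ⟨⟨X'.basicOpen_le s hz, hzV⟩, hz⟩
  have h4 : z ∈ (⊥ : X'.Opens) := by
    rw [h1]; exact hz'
  exact h4.elim

end Groth.Agent.S3842
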