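import Groth.Statements.S3844
import Groth.Agent.Ega4dB.SchDense

set_option autoImplicit false
universe u
open CategoryTheory CategoryTheory.Limits AlgebraicGeometry TopologicalSpace
open Rat20

namespace Groth.Agent.S3844

/-- If the inclusion of an open subscheme is scheme-theoretically dominant and quasi-compact, then the
open subscheme is schematically dense. -/
lemma isSchematicallyDense_of_isSchemeTheoreticallyDominant {X : Scheme.{u}} (U : X.Opens)
    [IsSchemeTheoreticallyDominant U.ι] [QuasiCompact U.ι] : CInt.IsSchematicallyDense U := by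
  intro V
  rw [injective_iff_map_eq_zero]
  intro s hs
  apply U.ι.app_injective V
  rw [map_zero, Scheme.Opens.ι_app]
  have hle : U.ι ''ᵁ U.ι ⁻¹ᵁ V ≤ V ⊓ U := by
    rintro y ⟨⟨y, hy'⟩, hy, rfl⟩
    exact ⟨hy, hy'⟩
  have h3 : (X.presheaf.map (homOfLE hle).op).hom
      ((X.presheaf.map (homOfLE (inf_le_left : V ⊓ U ≤ V)).op).hom s) = 0 := by
    have hs' : (X.presheaf.map (homOfLE (inf_le_left : V ⊓ U ≤ V)).op).hom s = 0 := hs
    rw [hs', map_zero]
  rw [← CommRingCat.comp_apply, ← Functor.map_comp] at h3
  exact h3

/-- For the open subset U = X: let f : X' → X be flat with X locally Noetherian. Then for every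
schematically dense open subset V of X, the preimage f⁻¹(V) is schematically dense in X'. -/
theorem result {X X' : Scheme.{u}} (f : X' ⟶ X) [Flat f]
    [IsLocallyNoetherian X] (V : X.Opens) (hV : CInt.IsSchematicallyDense V) :
    CInt.IsSchematicallyDense (f ⁻¹ᵁ V) := by
  have := Groth.Agent.Ega4dB.SchDense.isSchemeTheoreticallyDominant_ι V hV
  have hp := isPullback_morphismRestrict f V
  have : QuasiCompact V.ι := inferInstance
  have : IsSchemeTheoreticallyDominant (f ⁻¹ᵁ V).ι :=
    IsSchemeTheoreticallyDominant.of_isPullback hp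
  have : QuasiCompact (f ⁻¹ᵁ V).ι :=
    MorphismProperty.of_isPullback hp ‹QuasiCompact V.ι›
  exact isSchematicallyDense_of_isSchemeTheoreticallyDominant _

end Groth.Agent.S3844
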