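import Groth.Statements.S3845

set_option autoImplicit false
universe u
open CategoryTheory CategoryTheory.Limits AlgebraicGeometry TopologicalSpace
open Unram17

namespace Groth.Agent.S3845

/-- a) iff b): let f : X → Y be locally of finite presentation and x a point of X. Then f is unramified
on some open neighbourhood of x if and only if the diagonal X → X ×_Y X is a local isomorphism at x
(its restriction to some open neighbourhood of x is an open immersion). -/
theorem result {X Y : Scheme.{u}} (f : X ⟶ Y)
    [LocallyOfFinitePresentation f] (x : ↥X) :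
    (∃ U : X.Opens, x ∈ U ∧ FormallyUnramified (U.ι ≫ f)) ↔
      SchLoc.IsLocalIsoAt (pullback.diagonal f) x := by
  have key : ∀ U : X.Opens, U.ι ≫ pullback.diagonal f =
      pullback.diagonal (U.ι ≫ f) ≫
        pullback.map (U.ι ≫ f) (U.ι ≫ f) f f U.ι U.ι (𝟙 _) (by simp) (by simp) := by
    intro U
    apply pullback.hom_ext
    · rw [Category.assoc, pullback.diagonal_fst, Category.comp_id, Category.assoc, pullback.map]
      erw [pullback.lift_fst]
      rw [pullback.diagonal_fst_assoc]
    · rw [Category.assoc, pullback.diagonal_snd, Category.comp_id, Category.assoc, pullback.map]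
      erw [pullback.lift_snd]
      rw [pullback.diagonal_snd_assoc]
  have hmap : ∀ U : X.Opens, IsOpenImmersion
      (pullback.map (U.ι ≫ f) (U.ι ≫ f) f f U.ι U.ι (𝟙 _) (by simp) (by simp)) := by
    intro U
    infer_instance
  constructor
  · rintro ⟨U, hxU, hU⟩
    refine ⟨U, hxU, ?_⟩
    have := hmap U
    have : IsOpenImmersion (pullback.diagonal (U.ι ≫ f)) := inferInstance
    rw [key U]
    infer_instance
  · rintro ⟨U, hxU, hU⟩
    refine ⟨U, hxU, ?_⟩
    have := hmap U
    rw [key U] at hU
    have : IsOpenImmersion (pullback.diagonal (U.ι ≫ f)) := IsOpenImmersion.of_comp _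
      (pullback.map (U.ι ≫ f) (U.ι ≫ f) f f U.ι U.ι (𝟙 _) _ _)
    infer_instance

end Groth.Agent.S3845
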