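import Groth.Statements.S3847
import Groth.Agent.Ega4late.H540.RankLower

set_option autoImplicit false
universe u
open EGA418

namespace Groth.Agent.S3847

/-- Let k be a field, A a complete Noetherian local k-algebra whose residue field is a finite extension
of k, p a prime ideal of A and q a minimal prime ideal of A contained in p. Let Ω̂ be the completion
of the module of differentials of A over k for the topology of the maximal ideal. Then the minimal
number of generators of the A_p-module Ω̂_p (the rank of its fibre at p) is at least dim(A/q). -/
theorem result (k A : Type u) [Field k] [CommRing A]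
    [IsLocalRing A] [IsNoetherianRing A] [Algebra k A]
    [IsAdicComplete (IsLocalRing.maximalIdeal A) A]
    [Module.Finite k (IsLocalRing.ResidueField A)]
    (p q : Ideal A) [p.IsPrime] (hq : q ∈ minimalPrimes A) (hqp : q ≤ p) :
    ringKrullDim (A ⧸ q) ≤
      (Cardinal.toENat (Module.rank p.ResidueField
        (TensorProduct A p.ResidueField
          (AdicCompletion (IsLocalRing.maximalIdeal A) (KaehlerDifferential k A)))) : WithBot ℕ∞) := by
  haveI : q.IsPrime := hq.1.1
  exact Groth.Agent.Ega4late.H540.RankLower.ringKrullDim_quotient_le_rank k A p q hqp

end Groth.Agent.S3847
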