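import Groth.Statements.S3848
import Groth.Agent.Ega4late.H541.DvrLocal
import Groth.Agent.Ega4late.H541.GlueAt

set_option autoImplicit false
universe u
open CategoryTheory CategoryTheory.Limits AlgebraicGeometry TopologicalSpace
open Rat20

namespace Groth.Agent.S3848

/-- In the case S = X (valuative criterion for a rational map to be defined at a point): let X be a
locally Noetherian scheme, q : Y → X a morphism locally of finite type, U a dense open subset of X,
h : U → Y a section of q over U, x a point of X outside U whose local ring is an integrally closed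
domain, and y₀ a point of Y over x with trivial residue field extension (an X-morphism Spec k(x) →
Y). Then h extends to a section h' of q over an open subset U' containing U and x with h'(x) = y₀ if
and only if: for every discrete valuation ring R and every morphism u : Spec R → X sending the
closed point to x and the generic point into U, there is a morphism h₁ : Spec R → Y over X sending
the closed point to y₀ and agreeing with h at the generic point. -/
theorem result {X Y : Scheme.{u}} [IsLocallyNoetherian X] (q : Y ⟶ X)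
    [LocallyOfFiniteType q] (U : X.Opens) (hU : Dense (U : Set ↥X)) (h : (U : Scheme.{u}) ⟶ Y)
    (hh : h ≫ q = U.ι) (x : ↥X) (hxU : x ∉ U) [IsDomain ↑(X.presheaf.stalk x)]
    (hx : IsIntegrallyClosed ↑(X.presheaf.stalk x)) (y₀ : ↥Y) (hy₀ : q y₀ = x)
    (hk : Function.Bijective (q.residueFieldMap y₀)) :
    (∃ (U' : X.Opens) (hUU' : U ≤ U') (hxU' : x ∈ U') (h' : (U' : Scheme.{u}) ⟶ Y),
        h' ≫ q = U'.ι ∧ X.homOfLE hUU' ≫ h' = h ∧ h' ⟨x, hxU'⟩ = y₀) ↔
      ∀ (R : Type u) [CommRing R] [IsDomain R] [IsDiscreteValuationRing R]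
        (u : Spec (CommRingCat.of R) ⟶ X), u (IsLocalRing.closedPoint R) = x →
        ∀ ub : Spec (CommRingCat.of (FractionRing R)) ⟶ (U : Scheme.{u}),
          ub ≫ U.ι = Spec.map (CommRingCat.ofHom (algebraMap R (FractionRing R))) ≫ u →
          ∃ h₁ : Spec (CommRingCat.of R) ⟶ Y, h₁ ≫ q = u ∧ h₁ (IsLocalRing.closedPoint R) = y₀ ∧
            Spec.map (CommRingCat.ofHom (algebraMap R (FractionRing R))) ≫ h₁ = ub ≫ h := by
  constructor
  · rintro ⟨U', hUU', hxU', h', h'q, h'h, h'x⟩ R _ _ _ u hu ub hub
    have hr : Set.range u ⊆ Set.range U'.ι := by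
      rintro _ ⟨p, rfl⟩
      rw [Scheme.Opens.range_ι]
      have h1 : u p ⤳ x := by
        rw [← hu]
        exact (IsLocalRing.specializes_closedPoint p).map u.continuous
      exact h1.mem_open U'.2 hxU'
    let u' : Spec (CommRingCat.of R) ⟶ U'.toScheme := IsOpenImmersion.lift U'.ι u hr
    have hu' : u' ≫ U'.ι = u := IsOpenImmersion.lift_fac _ _ _
    refine ⟨u' ≫ h', ?_, ?_, ?_⟩
    · rw [Category.assoc, h'q, hu']
    · have h1 : u' (IsLocalRing.closedPoint R) = ⟨x, hxU'⟩ := by
        apply U'.ι.isOpenEmbedding.injective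
        rw [← Scheme.Hom.comp_apply, hu', hu]
        rfl
      rw [Scheme.Hom.comp_apply, h1, h'x]
    · rw [← h'h, ← Category.assoc, ← Category.assoc]
      congr 1
      rw [← cancel_mono U'.ι, Category.assoc, Category.assoc, hu', Scheme.homOfLE_ι, hub]
  · intro H
    have hinj : Function.Injective (algebraMap (X.presheaf.stalk x)
        (FractionRing (X.presheaf.stalk x))) := IsFractionRing.injective _ _
    obtain ⟨k, hk⟩ := Groth.Agent.Ega4late.H541.SecGlue.exists_lift_genMap hinj hU
    obtain ⟨g₀, hg₀, hg₀c, hg₀K⟩ := Groth.Agent.Ega4late.H541.DvrLocal.exists_local q U h x y₀ hh hxU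
      hx hy₀ H k hk
    exact Groth.Agent.Ega4late.H541.GlueAt.glue q U h hh x y₀ hinj k hk g₀ hg₀ hg₀c hg₀K
      (Groth.Agent.Ega4late.H541.DvrSection.mem_of_specializes q U h x y₀ hxU H)

end Groth.Agent.S3848
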