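import Groth.Statements.S3849
import Groth.Agent.Ega4late.H542.DominatingDVR

set_option autoImplicit false
universe u
open CategoryTheory CategoryTheory.Limits AlgebraicGeometry TopologicalSpace
open Rat20

namespace Groth.Agent.S3849

/-- In the case S = X (sections of q : Y → X): let X be a locally Noetherian scheme, q : Y → X
separated, locally of finite type and locally quasi-finite, U a dense open subset of X, h : U → Y a
section of q over U, and x a point of X outside U whose local ring is an integrally closed domain.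
Then h extends to a section of q over an open subset containing U and x if and only if there exist a
discrete valuation ring R, a morphism u : Spec R → X sending the closed point to x and the generic
point into U, and a morphism Spec R → Y over X agreeing with h at the generic point. -/
theorem result {X Y : Scheme.{u}} [IsLocallyNoetherian X] (q : Y ⟶ X)
    [LocallyOfFiniteType q] [IsSeparated q] [LocallyQuasiFinite q] (U : X.Opens) (hU : Dense (U : Set ↥X))
    (h : (U : Scheme.{u}) ⟶ Y) (hh : h ≫ q = U.ι) (x : ↥X) (hxU : x ∉ U) [IsDomain ↑(X.presheaf.stalk x)]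
    (hx : IsIntegrallyClosed ↑(X.presheaf.stalk x)) :
    (∃ (U' : X.Opens) (hUU' : U ≤ U') (h' : (U' : Scheme.{u}) ⟶ Y),
        x ∈ U' ∧ h' ≫ q = U'.ι ∧ X.homOfLE hUU' ≫ h' = h) ↔
      ∃ (R : Type u) (_ : CommRing R) (_ : IsDomain R) (_ : IsDiscreteValuationRing R)
        (u : Spec (CommRingCat.of R) ⟶ X) (ub : Spec (CommRingCat.of (FractionRing R)) ⟶ (U : Scheme.{u}))
        (h₁ : Spec (CommRingCat.of R) ⟶ Y),
        u (IsLocalRing.closedPoint R) = x ∧
          ub ≫ U.ι = Spec.map (CommRingCat.ofHom (algebraMap R (FractionRing R))) ≫ u ∧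
          h₁ ≫ q = u ∧ Spec.map (CommRingCat.ofHom (algebraMap R (FractionRing R))) ≫ h₁ = ub ≫ h := by
  constructor
  · rintro ⟨U', hUU', h', hxU', hq, hres⟩
    obtain ⟨R, i1, i2, i3, u, ub, hu, hub⟩ :=
      Groth.Agent.Ega4late.H542.DominatingDVR.exists_dvr_of_dense U hU x hxU
    have hrange : Set.range u ⊆ Set.range U'.ι := by
      rw [Scheme.Opens.range_ι]
      rintro _ ⟨t, rfl⟩
      have h1 : u t ⤳ u (IsLocalRing.closedPoint R) :=
        (IsLocalRing.specializes_closedPoint (R := R) t).map u.continuous
      rw [hu] at h1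
      exact h1.mem_open U'.2 hxU'
    let u' : Spec (CommRingCat.of R) ⟶ U' := IsOpenImmersion.lift U'.ι u hrange
    have hu' : u' ≫ U'.ι = u := IsOpenImmersion.lift_fac _ _ _
    refine ⟨R, i1, i2, i3, u, ub, u' ≫ h', hu, hub, ?_, ?_⟩
    · rw [Category.assoc, hq, hu']
    · have h2 : Spec.map (CommRingCat.ofHom (algebraMap R (FractionRing R))) ≫ u' =
          ub ≫ X.homOfLE hUU' := by
        rw [← cancel_mono U'.ι, Category.assoc, Category.assoc, hu', Scheme.homOfLE_ι, hub]
      rw [← Category.assoc, h2, Category.assoc, hres]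
  · rintro ⟨R, i1, i2, i3, u, ub, h₁, hu, hub, hq, hres⟩
    have hxic : IsIntegrallyClosed ↑(X.presheaf.stalk x) := hx
    let t : Spec (CommRingCat.of (FractionRing R)) := IsLocalRing.closedPoint (FractionRing R)
    let γ : Spec (CommRingCat.of R) := Spec.map (CommRingCat.ofHom (algebraMap R (FractionRing R))) t
    have hγ : γ ⤳ (IsLocalRing.closedPoint R : Spec (CommRingCat.of R)) :=
      IsLocalRing.specializes_closedPoint (R := R) γ
    have h2 : U.ι (ub t) ⤳ x := by
      rw [← Scheme.Hom.comp_apply, hub, Scheme.Hom.comp_apply, ← hu]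
      exact hγ.map u.continuous
    have h3 : h (ub t) ⤳ h₁ (IsLocalRing.closedPoint R) := by
      rw [← Scheme.Hom.comp_apply, ← hres, Scheme.Hom.comp_apply]
      exact hγ.map h₁.continuous
    have h4 : q (h₁ (IsLocalRing.closedPoint R)) = x := by
      rw [← Scheme.Hom.comp_apply, hq, hu]
    obtain ⟨U', hUU', h', hxU', hq', hres', -⟩ :=
      Groth.Agent.Ega4late.H542.ExtendSection.extend_of_specializes q U h hh x
        (h₁ (IsLocalRing.closedPoint R)) h4 (q.quasiFiniteAt _) (ub t) h2 h3
    exact ⟨U', hUU', h', hxU', hq', hres'⟩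

end Groth.Agent.S3849
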