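import Groth.Statements.S3850
import Groth.Agent.Ega4late.H543.Backward
import Groth.Agent.Ega4late.H543.Forward

set_option autoImplicit false
universe u
open EGA418

namespace Groth.Agent.S3850

/-- b) iff c), in the case n = dim A: let k be a field, A a complete Noetherian local k-algebra whose
residue field is finite over k, of dimension n, p a non-maximal prime ideal of A contained in an
irreducible component of dimension n (there is a minimal prime q ⊆ p with dim A/q = n), and Ω̂ the
completion of the module of differentials of A over k for the topology of the maximal ideal. Then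
Ω̂_p is a free A_p-module of rank n if and only if there is a local k-algebra map u : k[[T_1, …,
T_n]] → A making A a finite algebra over the power series ring and étale over it at p. -/
theorem result (k A : Type u) [Field k] [CommRing A]
    [IsLocalRing A] [IsNoetherianRing A] [Algebra k A] [IsAdicComplete (IsLocalRing.maximalIdeal A) A]
    [Module.Finite k (IsLocalRing.ResidueField A)] (n : ℕ) (hn : ringKrullDim A = n)
    (p : Ideal A) [p.IsPrime] (hp : p ≠ IsLocalRing.maximalIdeal A)
    (hq : ∃ q ∈ minimalPrimes A, q ≤ p ∧ ringKrullDim (A ⧸ q) = n) :
    (Module.Free (Localization.AtPrime p)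
        (LocalizedModule p.primeCompl (AdicCompletion (IsLocalRing.maximalIdeal A) (KaehlerDifferential k A))) ∧
      Module.finrank (Localization.AtPrime p)
        (LocalizedModule p.primeCompl (AdicCompletion (IsLocalRing.maximalIdeal A) (KaehlerDifferential k A))) = n) ↔
      ∃ (_ : Algebra (MvPowerSeries (Fin n) k) A) (_ : IsScalarTower k (MvPowerSeries (Fin n) k) A),
        IsLocalHom (algebraMap (MvPowerSeries (Fin n) k) A) ∧ Module.Finite (MvPowerSeries (Fin n) k) A ∧
          Algebra.IsEtaleAt (MvPowerSeries (Fin n) k) p := by
  constructor
  · rintro ⟨hfree, hrank⟩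
    exact Groth.Agent.Ega4late.H543.Backward.exists_finite_etaleAt k A n hn p hp hq
      ((Groth.Agent.Ega4late.H543.Backward.finrank_fibre A _ p hfree).trans hrank)
  · rintro ⟨_, _, hloc, hfin, het⟩
    exact Groth.Agent.Ega4late.H543.Forward.free_finrank k A n p

end Groth.Agent.S3850
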