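import Groth.Statements.S3852
-- import your own Groth.Agent.* helpers here

set_option autoImplicit false
universe u
open FCompl

namespace Groth.Agent.S3852

open AlgebraicGeometry in
/-- Second assertion; stated for quasi-coherent ideal sheaves, with the condition on supports as an
inclusion, which is what the proof uses: Let X be a Noetherian scheme and I, J ideal sheaves such
that the zero locus of J is contained in the zero locus of I. Then I^n ≤ J for some n ≥ 1. -/
theorem result
    (X : Scheme.{u}) [IsNoetherian X] (I J : X.IdealSheafData)
    (h : (J.support : Set X) ⊆ I.support) :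
    ∃ n : ℕ, I ^ (n + 1) ≤ J := by
  have h' : J.support ≤ I.support := h
  have hr : I ≤ J.radical := by
    rw [← Scheme.IdealSheafData.vanishingIdeal_support]
    exact Scheme.IdealSheafData.le_support_iff_le_vanishingIdeal.mp h'
  obtain ⟨s, hs⟩ := TopologicalSpace.IsOpenCover.exists_finite_of_compactSpace
    (iSup_affineOpens_eq_top X)
  have key : ∀ U : X.affineOpens, ∃ n : ℕ, I.ideal U ^ n ≤ J.ideal U := fun U => by
    have : IsNoetherianRing Γ(X, U) := IsLocallyNoetherian.component_noetherian U
    exact Ideal.exists_pow_le_of_le_radical_of_fg (hr U) (IsNoetherian.noetherian _)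
  choose n hn using key
  refine ⟨s.sup n, ?_⟩
  refine Scheme.IdealSheafData.le_of_iSup_eq_top (ι := s) (fun i => i.1) hs fun i => ?_
  refine le_trans ?_ ((Ideal.pow_le_pow_right (Finset.le_sup (f := n) i.2)).trans (hn i.1))
  exact Ideal.pow_le_pow_right (Nat.le_succ _)

end Groth.Agent.S3852
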