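import Groth.Statements.S3853
-- import your own Groth.Agent.* helpers here
import Groth.Agent.Fcompl.H545.SysBasic
import Groth.Agent.Fcompl.H545.NilNoeth

set_option autoImplicit false
universe u
open FCompl
open Groth.Agent.Fcompl.H545

namespace Groth.Agent.S3853

open AlgebraicGeometry in
open CategoryTheory in
/-- Levelwise part (formal schemes presented as systems of thickenings X_0 -> X_1 -> ...; the assertion
about the limit ring is in the affine recognition row). Let (X_n) be a system of schemes in which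
every transition map is a surjective closed immersion and the kernel ideal of X_n -> X_(n+1) is the
(n+1)-st power of the kernel ideal of X_0 -> X_(n+1). If X_0 is locally Noetherian and the kernel
ideal of X_0 -> X_1 is of finite type, then every X_n is locally Noetherian. -/
theorem result
    (𝔛 : FSch.Sys.{u}) (hF : 𝔛.IsFormal) (hA : 𝔛.IsAdic) [IsLocallyNoetherian (𝔛.X 0)]
    (hft : FSch.IdealFT (𝔛.ι 0).ker) (n : ℕ) : IsLocallyNoetherian (𝔛.X n) := by
  have hci : ∀ m, IsClosedImmersion (𝔛.toX m) := SysBasic.isClosedImmersion_toX 𝔛 hF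
  -- global data on an affine open
  have hnil : ∀ m (U : (𝔛.X m).affineOpens),
      IsNilpotent (RingHom.ker ((𝔛.toX m).app U.1).hom) := by
    intro m U
    have := hci m
    refine ⟨m + 1, ?_⟩
    have h1 := congr(($(SysBasic.ker_toX_pow_eq_bot 𝔛 hF hA m)).ideal U)
    rw [Scheme.IdealSheafData.ideal_pow, Pi.pow_apply, Scheme.Hom.ker_apply] at h1
    exact h1
  have hC : ∀ m (U : (𝔛.X m).affineOpens), IsNoetherianRing Γ(𝔛.X 0, (𝔛.toX m) ⁻¹ᵁ U.1) := by
    intro m U
    have := hci m
    exact IsLocallyNoetherian.component_noetherian ⟨_, U.2.preimage (𝔛.toX m)⟩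
  have hsurj : ∀ m (U : (𝔛.X m).affineOpens), Function.Surjective ((𝔛.toX m).app U.1).hom := by
    intro m U
    have := hci m
    exact (𝔛.toX m).app_surjective U.1 U.2
  induction n with
  | zero => infer_instance
  | succ n ih =>
    have h1 := (hF n).1
    have h2 := hci (n + 1)
    refine ⟨fun U => ?_⟩
    have hCU := hC (n + 1) U
    rcases n with _ | n
    · -- level one: the kernel ideal is finitely generated
      refine NilNoeth.isNoetherianRing_of_fg_nil ((𝔛.toX (0 + 1)).app U.1).hom (hsurj _ U) ?_ (hnil _ U)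
      have h3 : 𝔛.toX (0 + 1) = 𝔛.ι 0 := Category.id_comp _
      have h4 := hft U
      rw [← h3, Scheme.Hom.ker_apply] at h4
      exact h4
    · have hB : IsNoetherianRing Γ(𝔛.X (n + 1), (𝔛.ι (n + 1)) ⁻¹ᵁ U.1) :=
        IsLocallyNoetherian.component_noetherian ⟨_, U.2.preimage (𝔛.ι (n + 1))⟩
      refine NilNoeth.isNoetherianRing_step ((𝔛.ι (n + 1)).app U.1).hom
        ((𝔛.toX (n + 1 + 1)).app U.1).hom ((𝔛.ι (n + 1)).app_surjective U.1 U.2) (hsurj _ U) ?_
        (hnil _ U)
      have h3 := congr(($(hA (n + 1))).ideal U)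
      rw [Scheme.IdealSheafData.ideal_pow, Pi.pow_apply, Scheme.Hom.ker_apply, Scheme.Hom.ker_apply] at h3
      rw [h3]
      exact Ideal.pow_le_pow_right (by omega)

end Groth.Agent.S3853
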