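import Groth.Statements.S3854
-- import your own Groth.Agent.* helpers here
import Groth.Agent.Fcompl.H545.SysBasic
import Mathlib.AlgebraicGeometry.Morphisms.FiniteType

set_option autoImplicit false
universe u
open FCompl
open Groth.Agent.Fcompl.H545

namespace Groth.Agent.S3854


open AlgebraicGeometry CategoryTheory in
/-- The kernel of a morphism of closed subschemes. -/
lemma ker_of_comp {X : Scheme.{u}} {K L : X.IdealSheafData} (a : L.subscheme ⟶ K.subscheme)
    (h : a ≫ K.subschemeι = L.subschemeι) : a.ker = L.comap K.subschemeι := by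
  have h2 : IsClosedImmersion (a ≫ K.subschemeι) := by
    rw [h]; infer_instance
  rw [← SysBasic.comap_ker_comp a K.subschemeι, h, Scheme.IdealSheafData.ker_subschemeι]

open AlgebraicGeometry CategoryTheory in
/-- The inclusion of closed subschemes with the same support is surjective. -/
lemma surjective_of_comp {X : Scheme.{u}} {K L : X.IdealSheafData} (a : L.subscheme ⟶ K.subscheme)
    (h : a ≫ K.subschemeι = L.subschemeι) (hs : K.support = L.support) : Function.Surjective a := by
  intro y
  have hy : K.subschemeι y ∈ Set.range L.subschemeι := by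
    rw [Scheme.IdealSheafData.range_subschemeι, ← hs, ← Scheme.IdealSheafData.range_subschemeι]
    exact ⟨y, rfl⟩
  obtain ⟨x, hx⟩ := hy
  refine ⟨x, K.subschemeι.isClosedEmbedding.injective ?_⟩
  rw [← hx, ← h]
  rfl

open AlgebraicGeometry CategoryTheory in
/-- The composite transition maps of a completion. -/
lemma toX_completionAlong (X : Scheme.{u}) (𝓘 : X.IdealSheafData) (n : ℕ) :
    (FSch.completionAlong X 𝓘).toX n ≫ (𝓘 ^ (n + 1)).subschemeι = (𝓘 ^ (0 + 1)).subschemeι := by
  induction n with
  | zero => exact Category.id_comp _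
  | succ n ih =>
    have h1 := Scheme.IdealSheafData.inclusion_subschemeι (FSch.pow_succ_le X 𝓘 n)
    refine (Category.assoc ((FSch.completionAlong X 𝓘).toX n) ((FSch.completionAlong X 𝓘).ι n)
      (𝓘 ^ (n + 1 + 1)).subschemeι).trans ?_
    exact (congrArg (fun z => (FSch.completionAlong X 𝓘).toX n ≫ z) h1).trans ih

open AlgebraicGeometry in
/-- The completion along a closed subset, presented as the system of closed subschemes cut out by the
powers of an ideal sheaf: Let X be a locally Noetherian scheme and I an ideal sheaf on X. The closed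
subschemes defined by I, I^2, I^3, ... with their inclusions form a locally Noetherian adic formal
system: each inclusion is a surjective closed immersion, the kernel ideal of the n-th inclusion is
the (n+1)-st power of the kernel ideal of the composite inclusion from level 0, and every level is
locally Noetherian. -/
theorem result (X : Scheme.{u}) [IsLocallyNoetherian X]
    (𝓘 : X.IdealSheafData) : (FSch.completionAlong X 𝓘).IsLocNoethFormal := by
  refine ⟨fun n => ⟨?_, ?_⟩, fun n => ?_, fun n => ?_⟩
  · change IsClosedImmersion (Scheme.IdealSheafData.inclusion (FSch.pow_succ_le X 𝓘 n))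
    infer_instance
  · refine surjective_of_comp (K := 𝓘 ^ (n + 2)) (L := 𝓘 ^ (n + 1)) _
      (Scheme.IdealSheafData.inclusion_subschemeι (FSch.pow_succ_le X 𝓘 n)) ?_
    rw [Scheme.IdealSheafData.support_pow _ _ (by omega), Scheme.IdealSheafData.support_pow _ _ (by omega)]
  · have h1 : ((FSch.completionAlong X 𝓘).ι n).ker = (𝓘 ^ (n + 1)).comap (𝓘 ^ (n + 2)).subschemeι :=
      ker_of_comp (K := 𝓘 ^ (n + 2)) (L := 𝓘 ^ (n + 1)) _
        (Scheme.IdealSheafData.inclusion_subschemeι (FSch.pow_succ_le X 𝓘 n))
    have h2 : ((FSch.completionAlong X 𝓘).toX (n + 1)).ker =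
        (𝓘 ^ (0 + 1)).comap (𝓘 ^ (n + 2)).subschemeι :=
      ker_of_comp (K := 𝓘 ^ (n + 2)) (L := 𝓘 ^ (0 + 1)) _ (toX_completionAlong X 𝓘 (n + 1))
    have h3 : (𝓘 ^ (n + 1)).comap (𝓘 ^ (n + 2)).subschemeι =
        ((𝓘 ^ (0 + 1)).comap (𝓘 ^ (n + 2)).subschemeι) ^ (n + 1) := by
      rw [← Groth.Agent.Divis.IdealComap.comap_pow, ← pow_mul, zero_add, one_mul]
    exact h1.trans (h3.trans (congrArg (fun z => z ^ (n + 1)) h2).symm)
  · change IsLocallyNoetherian (𝓘 ^ (n + 1)).subscheme
    exact LocallyOfFiniteType.isLocallyNoetherian (𝓘 ^ (n + 1)).subschemeι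

end Groth.Agent.S3854
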