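import Groth.Statements.S3855
-- import your own Groth.Agent.* helpers here
import Groth.Agent.Fcompl.H545.SpecKer

set_option autoImplicit false
universe u
open FCompl

namespace Groth.Agent.S3855


open AlgebraicGeometry CategoryTheory in
/-- The composite transition maps of a formal spectrum. -/
lemma toX_spf (A : Type u) [CommRing A] (J : Ideal A) (n : ℕ) :
    (FSch.spf A J).toX n = Spec.map (CommRingCat.ofHom
      (Ideal.Quotient.factor (Ideal.pow_le_pow_right (Nat.succ_le_succ (Nat.zero_le n)) :
        J ^ (n + 1) ≤ J ^ (0 + 1)))) := by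
  induction n with
  | zero =>
    refine (Spec.map_id (CommRingCat.of (A ⧸ J ^ (0 + 1)))).symm.trans ?_
    refine congrArg Spec.map ?_
    ext x
    rfl
  | succ n ih =>
    refine (congrArg (fun z => z ≫ (FSch.spf A J).ι n) ih).trans ?_
    refine (Spec.map_comp (CommRingCat.ofHom (Ideal.Quotient.factor
      (Ideal.pow_le_pow_right (Nat.le_succ (n + 1)) : J ^ (n + 2) ≤ J ^ (n + 1))))
      (CommRingCat.ofHom (Ideal.Quotient.factor
        (Ideal.pow_le_pow_right (Nat.succ_le_succ (Nat.zero_le n)) :
        J ^ (n + 1) ≤ J ^ (0 + 1))))).symm.trans ?_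
    refine congrArg Spec.map ?_
    ext x
    rfl

open AlgebraicGeometry in
/-- Sufficiency (the formal spectrum presented as the system Spec(A/J) -> Spec(A/J^2) -> ...). For a
Noetherian ring A and an ideal J this system is a locally Noetherian adic formal system: the
transition maps are surjective closed immersions, the kernel ideal of Spec(A/J^(n+1)) ->
Spec(A/J^(n+2)) is the (n+1)-st power of that of Spec(A/J) -> Spec(A/J^(n+2)), and every level is
locally Noetherian. -/
theorem result (A : Type u) [CommRing A] [IsNoetherianRing A] (J : Ideal A) :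
    (FSch.spf A J).IsLocNoethFormal := by
  refine ⟨fun n => ⟨?_, ?_⟩, fun n => ?_, fun n => ?_⟩
  · have hle : J ^ (n + 2) ≤ J ^ (n + 1) := Ideal.pow_le_pow_right (Nat.le_succ (n + 1))
    exact IsClosedImmersion.spec_of_surjective (CommRingCat.ofHom (Ideal.Quotient.factor hle))
      (Ideal.Quotient.factor_surjective hle)
  · have hle : J ^ (n + 2) ≤ J ^ (n + 1) := Ideal.pow_le_pow_right (Nat.le_succ (n + 1))
    change Function.Surjective (PrimeSpectrum.comap (Ideal.Quotient.factor hle))
    rw [← Set.range_eq_univ, range_comap_of_surjective _ _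
      (Ideal.Quotient.factor_surjective _), PrimeSpectrum.zeroLocus_eq_univ_iff]
    intro x hx
    have hx' : x ∈ (J ^ (n + 1)).map (Ideal.Quotient.mk (J ^ (n + 2))) := by
      rw [← Ideal.Quotient.factor_ker hle]
      exact hx
    refine (mem_nilradical).mpr ⟨2, ?_⟩
    obtain ⟨y, hy, rfl⟩ := (Ideal.mem_map_iff_of_surjective _ Ideal.Quotient.mk_surjective).mp hx'
    rw [← map_pow, Ideal.Quotient.eq_zero_iff_mem]
    have h1 : y ^ 2 ∈ (J ^ (n + 1)) ^ 2 := Ideal.pow_mem_pow hy 2
    rw [← pow_mul] at h1
    exact Ideal.pow_le_pow_right (by omega) h1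
  · rw [toX_spf]
    refine Groth.Agent.Fcompl.H545.SpecKer.ker_specMap_eq_pow _ _ _ ?_
    have hle : J ^ (n + 2) ≤ J ^ (n + 1) := Ideal.pow_le_pow_right (Nat.le_succ (n + 1))
    have hle' : J ^ (n + 1 + 1) ≤ J ^ (0 + 1) := Ideal.pow_le_pow_right (by omega)
    change RingHom.ker (Ideal.Quotient.factor hle) = (RingHom.ker (Ideal.Quotient.factor hle')) ^ (n + 1)
    rw [Ideal.Quotient.factor_ker, Ideal.Quotient.factor_ker, ← Ideal.map_pow, ← pow_mul]
    congr 2
    omega
  · change IsLocallyNoetherian (Spec (CommRingCat.of (A ⧸ J ^ (n + 1))))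
    infer_instance

end Groth.Agent.S3855
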