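import Groth.Statements.S3856
import Groth.Agent.Ega4A.CompleteNoeth

set_option autoImplicit false
universe u
open AdicRing

namespace Groth.Agent.S3856

/-- If `A` is `J`-adically complete and `J / J²` is generated by finitely many elements, then `J` is
finitely generated. -/
theorem fg_of_quotient_sq {A : Type u} [CommRing A] (J : Ideal A) [IsAdicComplete J A]
    [IsNoetherianRing (A ⧸ J ^ 2)] : J.FG := by
  classical
  -- generators modulo `J ^ 2`
  have hfg : (J.map (Ideal.Quotient.mk (J ^ 2))).FG := Ideal.fg_of_isNoetherianRing _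
  obtain ⟨m, s, hs⟩ := Submodule.fg_iff_exists_fin_generating_family.mp hfg
  have hmem : ∀ j, ∃ x ∈ J, Ideal.Quotient.mk (J ^ 2) x = s j := by
    intro j
    rw [← Ideal.mem_map_iff_of_surjective _ Ideal.Quotient.mk_surjective, ← hs]
    exact Submodule.subset_span ⟨j, rfl⟩
  choose x hxJ hxs using hmem
  have hle : J ≤ Ideal.span (Set.range x) ⊔ J ^ 2 := by
    intro y hy
    have h1 : Ideal.Quotient.mk (J ^ 2) y ∈
        (Ideal.span (Set.range x)).map (Ideal.Quotient.mk (J ^ 2)) := by
      rw [Ideal.map_span]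
      have h2 : (Ideal.Quotient.mk (J ^ 2)) '' Set.range x = Set.range s := by
        rw [← Set.range_comp]
        congr 1
        ext j
        exact hxs j
      rw [h2]
      have h3 := Ideal.mem_map_of_mem (Ideal.Quotient.mk (J ^ 2)) hy
      rw [← hs] at h3
      exact h3
    rw [← Ideal.mem_comap, Ideal.comap_map_of_surjective _ Ideal.Quotient.mk_surjective,
      ← RingHom.ker_eq_comap_bot, Ideal.mk_ker] at h1
    exact h1
  -- one step of the successive approximation
  have step : ∀ (n : ℕ) (y : A), y ∈ J ^ (n + 1) → ∃ g : Fin m → A, (∀ j, g j ∈ J ^ n) ∧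
      y - ∑ j, g j * x j ∈ J ^ (n + 2) := by
    intro n y hy
    have h1 : J ^ (n + 1) ≤ J ^ n * Ideal.span (Set.range x) ⊔ J ^ (n + 2) := by
      calc J ^ (n + 1) = J ^ n * J := pow_succ _ _
        _ ≤ J ^ n * (Ideal.span (Set.range x) ⊔ J ^ 2) := Ideal.mul_mono_right hle
        _ = J ^ n * Ideal.span (Set.range x) ⊔ J ^ (n + 2) := by rw [Ideal.mul_sup, ← pow_add]
    obtain ⟨z, hz, w, hw, hzw⟩ := Submodule.mem_sup.mp (h1 hy)
    have hz' : z ∈ (J ^ n) • Submodule.span A (Set.range x) := hz
    rw [Submodule.mem_ideal_smul_span_iff_exists_sum] at hz'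
    obtain ⟨a, ha, hsum⟩ := hz'
    refine ⟨fun j => a j, ha, ?_⟩
    have : ∑ j, a j * x j = z := by
      rw [← hsum, Finsupp.sum_fintype _ _ (fun i => by simp)]
      simp [smul_eq_mul]
    rw [this, ← hzw, add_sub_cancel_left]
    exact hw
  choose G hG1 hG2 using step
  suffices h : J = Ideal.span (Set.range x) by
    rw [h]
    exact Submodule.fg_span (Set.finite_range _)
  apply le_antisymm
  swap
  · rw [Ideal.span_le]
    rintro _ ⟨j, rfl⟩
    exact hxJ j
  intro y hy
  let seq : (n : ℕ) → {z : A // z ∈ J ^ (n + 1)} := fun n =>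
    Nat.rec (motive := fun n => {z : A // z ∈ J ^ (n + 1)}) ⟨y, by simpa using hy⟩
      (fun n z => ⟨z.1 - ∑ j, G n z.1 z.2 j * x j, hG2 n z.1 z.2⟩) n
  let gs : ℕ → Fin m → A := fun n => G n (seq n).1 (seq n).2
  have hgs : ∀ n j, gs n j ∈ J ^ n := fun n => hG1 n _ _
  have hseq0 : (seq 0).1 = y := rfl
  have hseqS : ∀ n, (seq (n + 1)).1 = (seq n).1 - ∑ j, gs n j * x j := fun n => rfl
  have hseq : ∀ n, y = (seq n).1 + ∑ j, (∑ i ∈ Finset.range n, gs i j) * x j := by
    intro n
    induction n with
    | zero => simp [hseq0]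
    | succ n ih =>
      rw [hseqS]
      have : ∑ j, (∑ i ∈ Finset.range (n + 1), gs i j) * x j =
          ∑ j, (∑ i ∈ Finset.range n, gs i j) * x j + ∑ j, gs n j * x j := by
        simp only [Finset.sum_range_succ _ n, add_mul, Finset.sum_add_distrib]
      rw [this]
      nth_rewrite 1 [ih]
      ring
  have hL : ∀ j, ∃ L : A, ∀ n, (∑ i ∈ Finset.range n, gs i j) ≡ L
      [SMOD (J ^ n • ⊤ : Submodule A A)] := by
    intro j
    refine IsPrecomplete.prec' (fun n => ∑ i ∈ Finset.range n, gs i j) ?_
    intro n n' hnn'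
    rw [SModEq.comm, SModEq.sub_mem, smul_eq_mul, Ideal.mul_top,
      ← Finset.sum_range_add_sum_Ico _ hnn', add_sub_cancel_left]
    refine Ideal.sum_mem _ fun i hi => ?_
    rw [Finset.mem_Ico] at hi
    exact Ideal.pow_le_pow_right (by omega) (hgs i j)
  choose L hL using hL
  have hy' : y = ∑ j, L j * x j := by
    rw [← sub_eq_zero]
    refine IsHausdorff.haus' (I := J) _ fun n => ?_
    rw [SModEq.zero, smul_eq_mul, Ideal.mul_top]
    have e : y - ∑ j, L j * x j =
        (seq n).1 + ∑ j, ((∑ i ∈ Finset.range n, gs i j) - L j) * x j := by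
      nth_rewrite 1 [hseq n]
      simp only [sub_mul, Finset.sum_sub_distrib]
      ring
    rw [e]
    refine add_mem (Ideal.pow_le_pow_right (Nat.le_succ n) (seq n).2)
      (Ideal.sum_mem _ fun j _ => ?_)
    have h1 := hL j n
    rw [SModEq.sub_mem, smul_eq_mul, Ideal.mul_top] at h1
    exact Ideal.mul_mem_right _ _ h1
  rw [hy']
  exact Ideal.sum_mem _ fun j _ => Ideal.mul_mem_left _ _ (Ideal.subset_span ⟨j, rfl⟩)

/-- Let A be a ring that is complete and separated for the J-adic topology of an ideal J. If A/J² is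
Noetherian (equivalently, A/J is Noetherian and J/J² is a finitely generated A/J-module), then A is
Noetherian. The published statement is phrased for a formal spectrum Spf(A) all of whose levels
Spec(A/J^(n+1)) are Noetherian; it is stated here with the weaker hypothesis that A/J² is
Noetherian. -/
theorem result (A : Type u) [CommRing A]
    (J : Ideal A) [IsAdicComplete J A] [IsNoetherianRing (A ⧸ J ^ 2)] : IsNoetherianRing A := by
  have hle : J ^ 2 ≤ J := Ideal.pow_le_self two_ne_zero
  have h1 : IsNoetherianRing (A ⧸ J) :=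
    isNoetherianRing_of_surjective _ _ (Ideal.Quotient.factor hle) (Ideal.Quotient.factor_surjective hle)
  exact Groth.Agent.Ega4A.CompleteNoeth.isNoetherianRing_of_isAdicComplete J (fg_of_quotient_sq J)

end Groth.Agent.S3856
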