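import Groth.Statements.S3857
-- import your own Groth.Agent.* helpers here
import Groth.Agent.Divis.IdealComap
import Groth.Agent.Fcompl.H548.ThickNoeth

set_option autoImplicit false
universe u
open FCompl

namespace Groth.Agent.S3857

open AlgebraicGeometry CategoryTheory CategoryTheory.Limits in
/-- The kernel of the base change of a closed immersion is the inverse image of the kernel. -/
lemma ker_fst_of_isPullback {P X Y Z : Scheme.{u}} {p : P ⟶ X} {q : P ⟶ Z} {f : X ⟶ Y} {i : Z ⟶ Y}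
    (sq : IsPullback p q f i) [IsClosedImmersion i] : p.ker = i.ker.comap f := by
  rw [← Scheme.IdealSheafData.ker_fst_of_isClosedImmersion, ← sq.isoPullback_hom_fst,
    Scheme.Hom.ker_comp_of_isIso]

open AlgebraicGeometry CategoryTheory CategoryTheory.Limits in
/-- The composite squares from level zero are cartesian. -/
lemma isPullback_toX {𝔛 𝔖 : FSch.Sys.{u}} (f : 𝔛 ⟶ 𝔖) (hf : FSch.IsAdicHom f) (n : ℕ) :
    IsPullback (𝔛.toX n) ((f : FSch.Hom 𝔛 𝔖).app 0) ((f : FSch.Hom 𝔛 𝔖).app n) (𝔖.toX n) := by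
  induction n with
  | zero =>
    change IsPullback (𝟙 (𝔛.X 0)) _ _ (𝟙 (𝔖.X 0))
    exact IsPullback.of_horiz_isIso ⟨by rw [Category.id_comp, Category.comp_id]⟩
  | succ n ih => exact ih.paste_horiz (hf n)

open AlgebraicGeometry CategoryTheory in
/-- The composite maps of a formal system are closed immersions. -/
lemma isClosedImmersion_toX (𝔛 : FSch.Sys.{u}) (h𝔛 : 𝔛.IsFormal) (n : ℕ) :
    IsClosedImmersion (𝔛.toX n) := by
  induction n with
  | zero => exact inferInstanceAs (IsClosedImmersion (𝟙 _))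
  | succ n ih =>
    have := (h𝔛 n).1
    exact inferInstanceAs (IsClosedImmersion (𝔛.toX n ≫ 𝔛.ι n))

open AlgebraicGeometry CategoryTheory in
/-- The composite maps of a formal system are surjective. -/
lemma surjective_toX (𝔛 : FSch.Sys.{u}) (h𝔛 : 𝔛.IsFormal) (n : ℕ) :
    Surjective (𝔛.toX n) := by
  induction n with
  | zero => exact inferInstanceAs (Surjective (𝟙 _))
  | succ n ih =>
    have : Surjective (𝔛.ι n) := ⟨(h𝔛 n).2⟩
    exact inferInstanceAs (Surjective (𝔛.toX n ≫ 𝔛.ι n))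

/-- The source of an adic morphism to a formal system is formal. -/
lemma isFormal_of_isAdicHom {𝔛 𝔖 : FSch.Sys.{u}} (f : 𝔛 ⟶ 𝔖) (hF : 𝔖.IsFormal)
    (hf : FSch.IsAdicHom f) : 𝔛.IsFormal := by
  intro n
  have h1 : AlgebraicGeometry.IsClosedImmersion (𝔖.ι n) := (hF n).1
  have h2 : AlgebraicGeometry.Surjective (𝔖.ι n) := ⟨(hF n).2⟩
  have h3 : AlgebraicGeometry.IsClosedImmersion (𝔛.ι n) :=
    CategoryTheory.MorphismProperty.of_isPullback (P := @AlgebraicGeometry.IsClosedImmersion)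
      (hf n).flip h1
  have h4 : AlgebraicGeometry.Surjective (𝔛.ι n) :=
    CategoryTheory.MorphismProperty.of_isPullback (P := @AlgebraicGeometry.Surjective)
      (hf n).flip h2
  exact ⟨h3, h4.surj⟩

/-- The source of an adic morphism to an adic formal system is adic. -/
lemma isAdic_of_isAdicHom {𝔛 𝔖 : FSch.Sys.{u}} (f : 𝔛 ⟶ 𝔖) (hF : 𝔖.IsFormal) (hA : 𝔖.IsAdic)
    (hf : FSch.IsAdicHom f) : 𝔛.IsAdic := by
  intro n
  have h1 : AlgebraicGeometry.IsClosedImmersion (𝔖.ι n) := (hF n).1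
  have h2 : AlgebraicGeometry.IsClosedImmersion (𝔖.toX (n + 1)) := isClosedImmersion_toX 𝔖 hF (n + 1)
  rw [ker_fst_of_isPullback (hf n), ker_fst_of_isPullback (isPullback_toX f hf (n + 1)), hA n]
  exact Groth.Agent.Divis.IdealComap.comap_pow _ _ _

open AlgebraicGeometry in
/-- Here formal schemes are presented as systems of thickenings, an adic morphism being one all of whose
squares are cartesian. Let S_0 -> S_1 -> ... be a locally Noetherian adic formal system and (X_n ->
S_n) a compatible family of morphisms such that every square X_n -> X_(n+1), S_n -> S_(n+1) is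
cartesian. If X_0 is locally Noetherian, then (X_n) is a locally Noetherian adic formal system. -/
theorem result {𝔛 𝔖 : FSch.Sys.{u}} (f : 𝔛 ⟶ 𝔖)
    (h𝔖 : 𝔖.IsLocNoethFormal) (hf : FSch.IsAdicHom f) [IsLocallyNoetherian (𝔛.X 0)] :
    𝔛.IsLocNoethFormal := by
  obtain ⟨hF, hA, hN⟩ := h𝔖
  have hF' : 𝔛.IsFormal := isFormal_of_isAdicHom f hF hf
  refine ⟨hF', isAdic_of_isAdicHom f hF hA hf, fun n ↦ ?_⟩
  have h1 : IsClosedImmersion (𝔖.toX n) := isClosedImmersion_toX 𝔖 hF n
  have h2 : IsClosedImmersion (𝔛.toX n) := isClosedImmersion_toX 𝔛 hF' n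
  have h3 : Surjective (𝔛.toX n) := surjective_toX 𝔛 hF' n
  have h4 : IsLocallyNoetherian (𝔖.X n) := hN n
  refine Groth.Agent.Fcompl.H548.ThickNoeth.isLocallyNoetherian_of_closedImmersion (𝔛.toX n) h3.surj
    fun y ↦ ?_
  obtain ⟨U, V, -, hyV, -, -, e⟩ := Groth.Agent.Divis.IdealComap.exists_affine_le
    ((f : FSch.Hom 𝔛 𝔖).app n) y ⊤ trivial ⊤ trivial
  refine ⟨V, hyV, ?_⟩
  rw [ker_fst_of_isPullback (isPullback_toX f hf n),
    Groth.Agent.Divis.IdealComap.ideal_comap _ _ U V e]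
  have h5 : IsNoetherianRing Γ(𝔖.X n, U) := IsLocallyNoetherian.component_noetherian U
  exact Ideal.FG.map (IsNoetherian.noetherian _) _

end Groth.Agent.S3857
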