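import Groth.Statements.S3858
-- import your own Groth.Agent.* helpers here
import Groth.Agent.S3857

set_option autoImplicit false
universe u
open FCompl

namespace Groth.Agent.S3858

open CategoryTheory CategoryTheory.Limits in
/-- Adic morphisms of systems are stable under base change. -/
lemma isAdicHom_pullbackSnd {𝔛 𝔖 𝔖' : FSch.Sys.{u}} (f : 𝔛 ⟶ 𝔖) (g : 𝔖' ⟶ 𝔖)
    (hf : FSch.IsAdicHom f) : FSch.IsAdicHom (FSch.pullbackSnd f g) := by
  intro n
  have h1 : IsPullback ((FSch.pullbackFst f g : FSch.Hom _ _).app n ≫ 𝔛.ι n)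
      ((FSch.pullbackSnd f g : FSch.Hom _ _).app n) ((f : FSch.Hom 𝔛 𝔖).app (n + 1))
      ((g : FSch.Hom 𝔖' 𝔖).app n ≫ 𝔖.ι n) :=
    (IsPullback.of_hasPullback ((f : FSch.Hom 𝔛 𝔖).app n) ((g : FSch.Hom 𝔖' 𝔖).app n)).paste_horiz (hf n)
  have h2 : IsPullback ((FSch.pullbackFst f g : FSch.Hom _ _).app (n + 1))
      ((FSch.pullbackSnd f g : FSch.Hom _ _).app (n + 1)) ((f : FSch.Hom 𝔛 𝔖).app (n + 1))
      ((g : FSch.Hom 𝔖' 𝔖).app (n + 1)) :=
    IsPullback.of_hasPullback ((f : FSch.Hom 𝔛 𝔖).app (n + 1)) ((g : FSch.Hom 𝔖' 𝔖).app (n + 1))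
  rw [(FSch.pullbackFst f g : FSch.Hom _ _).comm n, (g : FSch.Hom 𝔖' 𝔖).comm n] at h1
  exact h1.of_right ((FSch.pullbackSnd f g : FSch.Hom _ _).comm n).symm h2

open AlgebraicGeometry in
/-- Formal schemes are presented as systems of thickenings (X_n)_n and fibre products of systems are
taken levelwise. Let X → S be an adic morphism of systems (every square X_n → X_(n+1), S_n → S_(n+1)
is cartesian) whose level-0 morphism X_0 → S_0 is locally of finite type, and S' → S a morphism from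
a locally Noetherian adic formal system S'. Then the levelwise fibre product (X_n ×_(S_n) S'_n)_n is
a locally Noetherian adic formal system, its projection to S' is adic, and the level-0 projection
X_0 ×_(S_0) S'_0 → S'_0 is locally of finite type. The published statement concerns the fibre
product of formal schemes, which the levelwise fibre product presents because X is adic over S, and
also assumes X and S locally Noetherian, which is not assumed here. -/
theorem result {𝔛 𝔖 𝔖' : FSch.Sys.{u}} (f : 𝔛 ⟶ 𝔖) (g : 𝔖' ⟶ 𝔖)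
    (h𝔖' : 𝔖'.IsLocNoethFormal) (hf : FSch.IsAdicHom f) [LocallyOfFiniteType ((f : FSch.Hom 𝔛 𝔖).app 0)] :
    (FSch.pullbackSys f g).IsLocNoethFormal ∧ FSch.IsAdicHom (FSch.pullbackSnd f g) ∧
      LocallyOfFiniteType ((FSch.pullbackSnd f g : FSch.Hom _ _).app 0) := by
  have h1 : FSch.IsAdicHom (FSch.pullbackSnd f g) := isAdicHom_pullbackSnd f g hf
  have h2 : LocallyOfFiniteType ((FSch.pullbackSnd f g : FSch.Hom _ _).app 0) :=
    inferInstanceAs (LocallyOfFiniteType
      (CategoryTheory.Limits.pullback.snd ((f : FSch.Hom 𝔛 𝔖).app 0) ((g : FSch.Hom 𝔖' 𝔖).app 0)))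
  have h3 : IsLocallyNoetherian (𝔖'.X 0) := h𝔖'.2.2 0
  have h4 : IsLocallyNoetherian ((FSch.pullbackSys f g).X 0) :=
    LocallyOfFiniteType.isLocallyNoetherian ((FSch.pullbackSnd f g : FSch.Hom _ _).app 0)
  exact ⟨Groth.Agent.S3857.result (FSch.pullbackSnd f g) h𝔖' h1, h1, h2⟩

end Groth.Agent.S3858
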