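import Groth.Statements.S3859

set_option autoImplicit false
universe u
open FCompl

namespace Groth.Agent.S3859

open AlgebraicGeometry in
open CategoryTheory in
/-- In the presentation by systems of thickenings: For morphisms of systems X -> S and Y -> S, the
levelwise fibre product with its two projections is a fibre product in the category of systems; it
presents the fibre product of formal schemes when one factor is adic over the base, and otherwise
only up to cofinality of the levels. -/
theorem result {𝔛 𝔜 𝔖 : FSch.Sys.{u}} (f : 𝔛 ⟶ 𝔖) (g : 𝔜 ⟶ 𝔖) :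
    IsPullback (FSch.pullbackFst f g) (FSch.pullbackSnd f g) f g := by
  have w : FSch.pullbackFst f g ≫ f = FSch.pullbackSnd f g ≫ g :=
    FSch.Hom.ext (funext fun n => Limits.pullback.condition)
  refine ⟨⟨w⟩, ⟨Limits.PullbackCone.IsLimit.mk w
    (fun s => ⟨fun n => Limits.pullback.lift ((s.fst : FSch.Hom _ _).app n)
      ((s.snd : FSch.Hom _ _).app n) (congrArg (fun h : FSch.Hom _ _ => h.app n) s.condition), fun n => ?_⟩)
    (fun s => ?_) (fun s => ?_) (fun s m h1 h2 => ?_)⟩⟩
  · have e1 := (s.fst : FSch.Hom _ _).comm n
    have e2 := (s.snd : FSch.Hom _ _).comm n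
    apply Limits.pullback.hom_ext
    · have c := (FSch.pullbackFst f g : FSch.Hom _ _).comm n
      simp only [FSch.pullbackFst_app] at c
      refine (Category.assoc _ _ _).trans (Eq.trans ?_ (Category.assoc _ _ _).symm)
      refine ((congrArg (_ ≫ ·) c.symm).trans ?_).trans
        ((e1.trans (congrArg (_ ≫ ·) (Limits.pullback.lift_fst _ _ _).symm)))
      exact (Category.assoc _ _ _).symm.trans
        (congrArg (· ≫ 𝔛.ι n) (Limits.pullback.lift_fst _ _ _))
    · have c := (FSch.pullbackSnd f g : FSch.Hom _ _).comm n
      simp only [FSch.pullbackSnd_app] at c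
      refine (Category.assoc _ _ _).trans (Eq.trans ?_ (Category.assoc _ _ _).symm)
      refine ((congrArg (_ ≫ ·) c.symm).trans ?_).trans
        ((e2.trans (congrArg (_ ≫ ·) (Limits.pullback.lift_snd _ _ _).symm)))
      exact (Category.assoc _ _ _).symm.trans
        (congrArg (· ≫ 𝔜.ι n) (Limits.pullback.lift_snd _ _ _))
  · exact FSch.Hom.ext (funext fun n => Limits.pullback.lift_fst _ _ _)
  · exact FSch.Hom.ext (funext fun n => Limits.pullback.lift_snd _ _ _)
  · refine FSch.Hom.ext (funext fun n => ?_)
    apply Limits.pullback.hom_ext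
    · refine Eq.trans ?_ (Limits.pullback.lift_fst _ _ _).symm
      exact congrArg (fun h : FSch.Hom _ _ => h.app n) h1
    · refine Eq.trans ?_ (Limits.pullback.lift_snd _ _ _).symm
      exact congrArg (fun h : FSch.Hom _ _ => h.app n) h2

end Groth.Agent.S3859
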