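import Groth.Statements.S3860
import Mathlib.RingTheory.AdicCompletion.RingHom

set_option autoImplicit false
universe u
open FCompl

namespace Groth.Agent.S3860

open AlgebraicGeometry CategoryTheory

/-- Equality of two morphisms of affine formal systems is equality of the ring maps on all levels. -/
theorem quotPowMap_eq_of_spfMap_eq {A B : Type u} [CommRing A] [CommRing B] (I : Ideal A) (K : Ideal B)
    {φ ψ : B →+* A} (hφ : K ≤ I.comap φ) (hψ : K ≤ I.comap ψ)
    (h : FSch.spfMap I K φ hφ = FSch.spfMap I K ψ hψ) (n : ℕ) :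
    FSch.quotPowMap I K φ hφ n = FSch.quotPowMap I K ψ hψ n := by
  have h2 : (FSch.spfMap I K φ hφ : FSch.Hom _ _).app n = (FSch.spfMap I K ψ hψ : FSch.Hom _ _).app n := by
    rw [h]
  rw [FSch.spfMap_app, FSch.spfMap_app] at h2
  have h4 := Spec.map_injective h2
  exact congrArg CommRingCat.Hom.hom h4

/-- The compatibility of the ring maps underlying a morphism of affine formal systems. -/
theorem factorPow_comp_preimage {A B : Type u} [CommRing A] [CommRing B] (I : Ideal A) (K : Ideal B)
    (F : FSch.spf A I ⟶ FSch.spf B K) (g : ∀ n : ℕ, B ⧸ K ^ (n + 1) →+* A ⧸ I ^ (n + 1))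
    (hg : ∀ n, (F : FSch.Hom _ _).app n = Spec.map (CommRingCat.ofHom (g n))) (n : ℕ) :
    (Ideal.Quotient.factor (Ideal.pow_le_pow_right (Nat.le_succ (n + 1)))).comp (g (n + 1)) =
      (g n).comp (Ideal.Quotient.factor (Ideal.pow_le_pow_right (Nat.le_succ (n + 1)))) := by
  have h1 := (F : FSch.Hom _ _).comm n
  rw [hg, hg] at h1
  change Spec.map _ ≫ Spec.map _ = Spec.map _ ≫ Spec.map _ at h1
  rw [← Spec.map_comp, ← Spec.map_comp, ← CommRingCat.ofHom_comp, ← CommRingCat.ofHom_comp] at h1
  have h4 := Spec.map_injective h1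
  exact (congrArg CommRingCat.Hom.hom h4).symm

open AlgebraicGeometry in
/-- (Affine adic case; the formal spectra presented as the systems Spec(A/I^(n+1)) and Spec(B/K^(n+1)).)
Let I be an ideal of a ring A which is complete and separated for the I-adic topology, and K an
ideal of a ring B. Then φ ↦ (Spec of the induced maps B/K^(n+1) -> A/I^(n+1)) is a bijection from
the ring homomorphisms φ : B -> A with φ(K) ⊆ I onto the morphisms of systems from Spf(A) to Spf(B),
i.e. the compatible families of morphisms Spec(A/I^(n+1)) -> Spec(B/K^(n+1)). -/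
theorem result (A B : Type u) [CommRing A] [CommRing B] (I : Ideal A) (K : Ideal B)
    [IsAdicComplete I A] :
    Function.Bijective (fun φ : {φ : B →+* A // K ≤ I.comap φ} ↦ FSch.spfMap I K φ.1 φ.2) := by
  have hmono : StrictMono (fun n : ℕ => n + 1) := fun a b h => Nat.succ_lt_succ h
  constructor
  · rintro ⟨φ, hφ⟩ ⟨ψ, hψ⟩ h
    have h1 := quotPowMap_eq_of_spfMap_eq I K hφ hψ h
    apply Subtype.ext
    change φ = ψ
    apply DFunLike.coe_injective
    apply IsHausdorff.StrictMono.funext' I hmono
    intro n m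
    have h2 := RingHom.congr_fun (h1 n) (Ideal.Quotient.mk _ m)
    simpa [FSch.quotPowMap] using h2
  · intro F
    let g : ∀ n : ℕ, B ⧸ K ^ (n + 1) →+* A ⧸ I ^ (n + 1) := fun n =>
      (Spec.preimage (R := CommRingCat.of (B ⧸ K ^ (n + 1))) (S := CommRingCat.of (A ⧸ I ^ (n + 1)))
        ((F : FSch.Hom _ _).app n)).hom
    have hg : ∀ n, (F : FSch.Hom _ _).app n = Spec.map (CommRingCat.ofHom (g n)) := fun n =>
      (Spec.map_preimage (R := CommRingCat.of (B ⧸ K ^ (n + 1))) (S := CommRingCat.of (A ⧸ I ^ (n + 1)))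
        ((F : FSch.Hom _ _).app n)).symm
    have hcomp := factorPow_comp_preimage I K F g hg
    have hf : ∀ {m : ℕ}, (Ideal.Quotient.factorPow I (hmono.monotone m.le_succ)).comp
        ((g (m + 1)).comp (Ideal.Quotient.mk (K ^ (m + 1 + 1)))) =
        (g m).comp (Ideal.Quotient.mk (K ^ (m + 1))) := by
      intro m
      apply RingHom.ext
      intro b
      exact RingHom.congr_fun (hcomp m) (Ideal.Quotient.mk _ b)
    let φ : B →+* A := IsAdicComplete.StrictMono.liftRingHom I hmono
      (fun m => (g m).comp (Ideal.Quotient.mk (K ^ (m + 1)))) hf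
    have hφ : ∀ n b, Ideal.Quotient.mk (I ^ (n + 1)) (φ b) = g n (Ideal.Quotient.mk (K ^ (n + 1)) b) :=
      fun n b => IsAdicComplete.StrictMono.mk_liftRingHom I hmono
        (fun m => (g m).comp (Ideal.Quotient.mk (K ^ (m + 1)))) hf b
    have hK : K ≤ I.comap φ := by
      intro b hb
      rw [Ideal.mem_comap]
      have h0 := hφ 0 b
      have hb' : Ideal.Quotient.mk (K ^ (0 + 1)) b = 0 := by
        rw [Ideal.Quotient.eq_zero_iff_mem]
        simpa using hb
      rw [hb', map_zero, Ideal.Quotient.eq_zero_iff_mem] at h0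
      simpa using h0
    refine ⟨⟨φ, hK⟩, ?_⟩
    apply FSch.Hom.ext
    funext n
    change Spec.map (CommRingCat.ofHom (FSch.quotPowMap I K φ hK n)) = _
    rw [hg n]
    congr 2
    apply Ideal.Quotient.ringHom_ext
    apply RingHom.ext
    intro b
    exact hφ n b

end Groth.Agent.S3860
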