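import Groth.Statements.S3861
import Groth.Agent.Divis.IdealComap

set_option autoImplicit false
universe u
open FCompl

namespace Groth.Agent.S3861

open AlgebraicGeometry in
/-- For a morphism of schemes f : X -> Y and quasi-coherent ideal sheaves K₁, K₂ on Y, the inverse image
ideal sheaf of K₁K₂ is the product of the inverse image ideal sheaves of K₁ and K₂. -/
theorem result {X Y : Scheme.{u}} (f : X ⟶ Y) (K₁ K₂ : Y.IdealSheafData) :
    (K₁ * K₂).comap f = K₁.comap f * K₂.comap f :=
  Groth.Agent.Divis.IdealComap.comap_mul K₁ K₂ f

end Groth.Agent.S3861
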