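import Groth.Statements.S3862
import Groth.Agent.Divis.IdealComap

set_option autoImplicit false
universe u
open FCompl

namespace Groth.Agent.S3862

open AlgebraicGeometry in
open CategoryTheory in
/-- Completions are presented by the closed subschemes cut out by the powers of an ideal sheaf 𝓚 on Y
and by the powers of its inverse image ideal on X. For a morphism of schemes f : X → Y, the
completion X̂ of X along the inverse image ideal is X ×_Y Ŷ: at every level n the square formed by
the inclusion X'_n → X, the completed morphism X'_n → Y'_n, f and the inclusion Y'_n → Y is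
cartesian, and the completed morphism X̂ → Ŷ is adic (each square X'_n → X'_(n+1), Y'_n → Y'_(n+1)
is cartesian). The compatibility of f with the powers of the two ideals (the inverse image of
𝓚^(n+1) is contained in the (n+1)-st power of the inverse image ideal of 𝓚), needed to define the
completed morphism, holds for inverse image ideals and is carried as the hypothesis h. -/
theorem result {X Y : Scheme.{u}} (f : X ⟶ Y) (𝓚 : Y.IdealSheafData)
    (h : FSch.PowCompat f (𝓚.comap f) 𝓚) :
    (∀ n : ℕ, IsPullback (FSch.completionToX X (𝓚.comap f) n)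
        ((FSch.completionMap f (𝓚.comap f) 𝓚 h : FSch.Hom _ _).app n) f (FSch.completionToX Y 𝓚 n)) ∧
      FSch.IsAdicHom (FSch.completionMap f (𝓚.comap f) 𝓚 h) := by
  have h1 : ∀ n : ℕ, IsPullback (FSch.completionToX X (𝓚.comap f) n)
      ((FSch.completionMap f (𝓚.comap f) 𝓚 h : FSch.Hom _ _).app n) f (FSch.completionToX Y 𝓚 n) := by
    intro n
    refine isPullback_of_isClosedImmersion ((𝓚.comap f) ^ (n + 1)).subschemeι (𝓚 ^ (n + 1)).subschemeι
      _ f ?_ ?_
    · rw [FSch.completionMap_app]
      exact (Scheme.IdealSheafData.subschemeMap_subschemeι _ _ f _).symm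
    · rw [Scheme.IdealSheafData.ker_subschemeι, Scheme.IdealSheafData.ker_subschemeι,
        Groth.Agent.Divis.IdealComap.comap_pow]
  refine ⟨h1, fun n => ?_⟩
  refine IsPullback.of_right (h₁₂ := FSch.completionToX X (𝓚.comap f) (n + 1))
    (h₂₂ := FSch.completionToX Y 𝓚 (n + 1)) (v₁₃ := f) ?_ ?_ (h1 (n + 1))
  · have h2 := h1 n
    have e1 : (FSch.completionAlong X (𝓚.comap f)).ι n ≫ FSch.completionToX X (𝓚.comap f) (n + 1) =
        FSch.completionToX X (𝓚.comap f) n := Scheme.IdealSheafData.inclusion_subschemeι _
    have e2 : (FSch.completionAlong Y 𝓚).ι n ≫ FSch.completionToX Y 𝓚 (n + 1) =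
        FSch.completionToX Y 𝓚 n := Scheme.IdealSheafData.inclusion_subschemeι _
    rw [e1, e2]
    exact h2
  · exact ((FSch.completionMap f (𝓚.comap f) 𝓚 h : FSch.Hom _ _).comm n).symm

end Groth.Agent.S3862
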