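import Groth.Statements.S3863
import Groth.Agent.Fcompl.H552.HomSpec
import Groth.Agent.Ega1.LimitSystem

set_option autoImplicit false
universe u
open FCompl

namespace Groth.Agent.S3863

open AlgebraicGeometry in
open CategoryTheory in
/-- The formal spectrum of A is presented as the system of closed subschemes of Spec A cut out by the
powers of J, and for an A-module M the system of modules M^Δ is the family of pullbacks of the sheaf
M̃ associated to M to these subschemes, with its canonical transition isomorphisms. Let A be a
Noetherian ring, complete and separated for the J-adic topology, and M, N finite A-modules. Then u ↦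
u^Δ is a bijection from Hom_A(M, N) onto the set of morphisms of systems of modules M^Δ → N^Δ. -/
theorem result (A : Type u) [CommRing A] [IsNoetherianRing A]
    (J : Ideal A) [IsAdicComplete J A] (M N : ModuleCat.{u} A) [Module.Finite A M] [Module.Finite A N] :
    Function.Bijective (fun u : M ⟶ N ↦
      FSch.complModMap (FSch.idealSpec A J) ((tilde.functor (CommRingCat.of A)).map u)) := by
  have := Groth.Agent.Ega1.LimitSystem.isAdicComplete_of_finite (A := A) (I := J) (M := N)
  exact Groth.Agent.Fcompl.H552.HomSpec.main_bijective J M N

end Groth.Agent.S3863
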