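import Groth.Statements.S3864
import Groth.Agent.Fcompl.H553.EssMain

set_option autoImplicit false
universe u
open FCompl

namespace Groth.Agent.S3864

open AlgebraicGeometry in
open CategoryTheory in
/-- b) ⟺ c), in the strong form that keeps the transition isomorphisms (the formal spectrum of A
presented as the system of closed subschemes of Spec A cut out by the powers of J). Let A be
Noetherian, complete and separated for the J-adic topology. Every system of coherent modules F_n on
these subschemes, given with isomorphisms identifying the restriction of F_(n+1) with F_n, is
isomorphic as a system to M^Δ for some finite A-module M. -/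
theorem result (A : Type u) [CommRing A] [IsNoetherianRing A]
    (J : Ideal A) [IsAdicComplete J A]
    (𝔐 : FSch.ModSys (FSch.completionAlong (Spec (CommRingCat.of A)) (FSch.idealSpec A J)))
    (h𝔐 : 𝔐.IsCoh) :
    ∃ M : ModuleCat.{u} A, Module.Finite A M ∧
      Nonempty (𝔐 ≅ FSch.complMod (FSch.idealSpec A J) (tilde M)) := by
  exact Groth.Agent.Fcompl.H553.EssMain.main J 𝔐 h𝔐

end Groth.Agent.S3864
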