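import Groth.Statements.S3865
-- import your own Groth.Agent.* helpers here
import Groth.Agent.Divis.IdealComap
import Mathlib.AlgebraicGeometry.Morphisms.FiniteType

set_option autoImplicit false
universe u
open FCompl

namespace Groth.Agent.S3865

open AlgebraicGeometry CategoryTheory CategoryTheory.Limits in
/-- The kernel of the base change of a closed immersion is the inverse image of the kernel. -/
lemma ker_fst_of_isPullback {P X Y Z : Scheme.{u}} {p : P ⟶ X} {q : P ⟶ Z} {f : X ⟶ Y} {i : Z ⟶ Y}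
    (sq : IsPullback p q f i) [IsClosedImmersion i] : p.ker = i.ker.comap f := by
  rw [← Scheme.IdealSheafData.ker_fst_of_isClosedImmersion, ← sq.isoPullback_hom_fst,
    Scheme.Hom.ker_comp_of_isIso]

open AlgebraicGeometry CategoryTheory CategoryTheory.Limits in
/-- Every square of the inclusion of the closed sub-system is cartesian. -/
lemma isPullback_step (𝔛 : FSch.Sys.{u}) (𝒜 : ∀ n, (𝔛.X n).IdealSheafData)
    (h : ∀ n, (𝒜 (n + 1)).comap (𝔛.ι n) = 𝒜 n) (n : ℕ) :
    IsPullback ((FSch.subSys 𝔛 𝒜 (fun n ↦ (h n).le)).ι n) (𝒜 n).subschemeι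
      (𝒜 (n + 1)).subschemeι (𝔛.ι n) := by
  refine (isPullback_of_isClosedImmersion (𝒜 n).subschemeι (𝒜 (n + 1)).subschemeι
    ((FSch.subSys 𝔛 𝒜 (fun n ↦ (h n).le)).ι n) (𝔛.ι n) ?_ ?_).flip
  · exact (Scheme.IdealSheafData.subschemeMap_subschemeι (𝒜 n) (𝒜 (n + 1)) (𝔛.ι n)
      (Scheme.IdealSheafData.le_map_iff_comap_le.mpr (h n).le)).symm
  · rw [Scheme.IdealSheafData.ker_subschemeι, Scheme.IdealSheafData.ker_subschemeι]
    exact h n

open AlgebraicGeometry CategoryTheory CategoryTheory.Limits in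
/-- The composite squares from level zero are cartesian. -/
lemma isPullback_toX (𝔛 : FSch.Sys.{u}) (𝒜 : ∀ n, (𝔛.X n).IdealSheafData)
    (h : ∀ n, (𝒜 (n + 1)).comap (𝔛.ι n) = 𝒜 n) (n : ℕ) :
    IsPullback ((FSch.subSys 𝔛 𝒜 (fun n ↦ (h n).le)).toX n) (𝒜 0).subschemeι
      (𝒜 n).subschemeι (𝔛.toX n) := by
  induction n with
  | zero =>
    change IsPullback (𝟙 (𝒜 0).subscheme) (𝒜 0).subschemeι (𝒜 0).subschemeι (𝟙 (𝔛.X 0))
    exact IsPullback.of_horiz_isIso ⟨by rw [Category.id_comp, Category.comp_id]⟩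
  | succ n ih => exact ih.paste_horiz (isPullback_step 𝔛 𝒜 h n)

open AlgebraicGeometry CategoryTheory in
/-- The composite maps of a formal system are closed immersions. -/
lemma isClosedImmersion_toX (𝔛 : FSch.Sys.{u}) (h𝔛 : 𝔛.IsFormal) (n : ℕ) :
    IsClosedImmersion (𝔛.toX n) := by
  induction n with
  | zero => exact inferInstanceAs (IsClosedImmersion (𝟙 _))
  | succ n ih =>
    have := (h𝔛 n).1
    exact inferInstanceAs (IsClosedImmersion (𝔛.toX n ≫ 𝔛.ι n))

open AlgebraicGeometry in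
/-- A formal scheme is presented as a system of thickenings (X_n)_n, and a coherent ideal of it as a
family of ideal sheaves A_n on the levels X_n, each A_n equal to the inverse image ideal of A_(n+1)
under X_n → X_(n+1). Let (X_n) be a locally Noetherian adic formal system and (A_n) such a family.
Then the closed subschemes Y_n cut out by the A_n, with the induced transition maps, form a locally
Noetherian adic formal system, and its inclusion into (X_n) is adic: every square Y_n → Y_(n+1), X_n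
→ X_(n+1) is cartesian. -/
theorem result (𝔛 : FSch.Sys.{u}) (h𝔛 : 𝔛.IsLocNoethFormal)
    (𝒜 : ∀ n, (𝔛.X n).IdealSheafData) (h : ∀ n, (𝒜 (n + 1)).comap (𝔛.ι n) = 𝒜 n) :
    (FSch.subSys 𝔛 𝒜 (fun n ↦ (h n).le)).IsLocNoethFormal ∧
      FSch.IsAdicHom (FSch.subSysι 𝔛 𝒜 (fun n ↦ (h n).le)) := by
  obtain ⟨hF, hA, hN⟩ := h𝔛
  refine ⟨⟨fun n ↦ ?_, fun n ↦ ?_, fun n ↦ ?_⟩, fun n ↦ isPullback_step 𝔛 𝒜 h n⟩
  · have h1 : IsClosedImmersion (𝔛.ι n) := (hF n).1
    have h2 : Surjective (𝔛.ι n) := ⟨(hF n).2⟩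
    have h3 : IsClosedImmersion ((FSch.subSys 𝔛 𝒜 (fun n ↦ (h n).le)).ι n) :=
      CategoryTheory.MorphismProperty.of_isPullback (P := @IsClosedImmersion)
        (isPullback_step 𝔛 𝒜 h n).flip h1
    have h4 : Surjective ((FSch.subSys 𝔛 𝒜 (fun n ↦ (h n).le)).ι n) :=
      CategoryTheory.MorphismProperty.of_isPullback (P := @Surjective)
        (isPullback_step 𝔛 𝒜 h n).flip h2
    exact ⟨h3, h4.surj⟩
  · have h1 : IsClosedImmersion (𝔛.ι n) := (hF n).1
    have h2 : IsClosedImmersion (𝔛.toX (n + 1)) := isClosedImmersion_toX 𝔛 hF (n + 1)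
    rw [ker_fst_of_isPullback (isPullback_step 𝔛 𝒜 h n),
      ker_fst_of_isPullback (isPullback_toX 𝔛 𝒜 h (n + 1)), hA n]
    exact Groth.Agent.Divis.IdealComap.comap_pow _ _ _
  · have := hN n
    have h1 : IsLocallyNoetherian (𝒜 n).subscheme :=
      LocallyOfFiniteType.isLocallyNoetherian (𝒜 n).subschemeι
    exact h1

end Groth.Agent.S3865
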