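import Groth.Statements.S3866
import Groth.Agent.FormalA.AdicFin

set_option autoImplicit false
universe u
open AdicRing

namespace Groth.Agent.S3866

/-- Let A be a Noetherian ring that is complete and separated for the J-adic topology, where J is an
ideal of A. Then every finite A-module M is itself complete and separated for the J-adic topology.
(This is the algebraic fact behind the statement that the global sections of the sheaf M^Δ on the
formal spectrum of A recover M.) -/
theorem result (A : Type u) [CommRing A] [IsNoetherianRing A]
    (J : Ideal A) [IsAdicComplete J A] (M : Type u) [AddCommGroup M] [Module A M] [Module.Finite A M] :
    IsAdicComplete J M := by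
  exact Groth.Agent.FormalA.AdicFin.isAdicComplete_of_finite J

end Groth.Agent.S3866
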