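import Groth.Statements.S3867
import Mathlib.RingTheory.Nakayama
import Mathlib.Algebra.Category.Ring.Constructions

set_option autoImplicit false
universe u
open FCompl

namespace Groth.Agent.S3867

open AlgebraicGeometry CategoryTheory CategoryTheory.Limits

/-- The square of quotient rings `B/K^(n+2) → B/K^(n+1)`, `B/K^(n+2) → A/I^(n+2)` is a pushout when
`K^(n+1)` generates `I^(n+1)`. -/
theorem isPushout_quot {A B : Type u} [CommRing A] [CommRing B] (I : Ideal A) (K : Ideal B)
    (φ : B →+* A) (h : K ≤ I.comap φ) (hIK : K.map φ = I) (n : ℕ) :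
    IsPushout
      (CommRingCat.ofHom (FSch.quotPowMap I K φ h (n + 1)))
      (CommRingCat.ofHom (Ideal.Quotient.factor (Ideal.pow_le_pow_right (I := K) (Nat.le_succ (n + 1)))))
      (CommRingCat.ofHom (Ideal.Quotient.factor (Ideal.pow_le_pow_right (I := I) (Nat.le_succ (n + 1)))))
      (CommRingCat.ofHom (FSch.quotPowMap I K φ h n)) := by
  have hw : CommRingCat.ofHom (FSch.quotPowMap I K φ h (n + 1)) ≫
      CommRingCat.ofHom (Ideal.Quotient.factor (Ideal.pow_le_pow_right (I := I) (Nat.le_succ (n + 1)))) =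
      CommRingCat.ofHom (Ideal.Quotient.factor (Ideal.pow_le_pow_right (I := K) (Nat.le_succ (n + 1)))) ≫
      CommRingCat.ofHom (FSch.quotPowMap I K φ h n) := by
    rw [← CommRingCat.ofHom_comp, ← CommRingCat.ofHom_comp]
    congr 1
    apply Ideal.Quotient.ringHom_ext
    ext b
    rfl
  refine ⟨⟨hw⟩, ⟨PushoutCocone.IsColimit.mk _ (fun s => ?_) (fun s => ?_) (fun s => ?_)
    (fun s m hm₁ hm₂ => ?_)⟩⟩
  · -- the map out of `A/I^(n+1)`
    refine CommRingCat.ofHom (Ideal.Quotient.lift (I ^ (n + 1))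
      (s.inl.hom.comp (Ideal.Quotient.mk (I ^ (n + 2)))) ?_)
    have hle : I ^ (n + 1) ≤ RingHom.ker (s.inl.hom.comp (Ideal.Quotient.mk (I ^ (n + 2)))) := by
      have hpow : I ^ (n + 1) = (K ^ (n + 1)).map φ := by rw [Ideal.map_pow, hIK]
      refine hpow.le.trans (Ideal.map_le_iff_le_comap.mpr ?_)
      intro b hb
      rw [Ideal.mem_comap, RingHom.mem_ker]
      have hc := ConcreteCategory.congr_hom s.condition (Ideal.Quotient.mk (K ^ (n + 2)) b)
      have h0 : Ideal.Quotient.mk (K ^ (n + 1)) b = 0 := Ideal.Quotient.eq_zero_iff_mem.mpr hb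
      have h1 : s.inl.hom (Ideal.Quotient.mk (I ^ (n + 2)) (φ b)) =
          s.inr.hom (Ideal.Quotient.mk (K ^ (n + 1)) b) := hc
      rw [h0, map_zero] at h1
      exact h1
    intro a ha
    exact hle ha
  · apply CommRingCat.hom_ext
    apply Ideal.Quotient.ringHom_ext
    ext a
    rfl
  · apply CommRingCat.hom_ext
    apply Ideal.Quotient.ringHom_ext
    ext b
    exact ConcreteCategory.congr_hom s.condition (Ideal.Quotient.mk (K ^ (n + 2)) b)
  · apply CommRingCat.hom_ext
    apply Ideal.Quotient.ringHom_ext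
    ext a
    exact ConcreteCategory.congr_hom hm₁ (Ideal.Quotient.mk (I ^ (n + 2)) a)

/-- The cartesian square at level `0` forces `I ≤ K A + I ^ 2`. -/
theorem le_sup_of_isPullback {A B : Type u} [CommRing A] [CommRing B] (I : Ideal A) (K : Ideal B)
    (φ : B →+* A) (h : K ≤ I.comap φ)
    (H : IsPullback ((FSch.spf A I).ι 0) ((FSch.spfMap I K φ h : FSch.Hom _ _).app 0)
      ((FSch.spfMap I K φ h : FSch.Hom _ _).app 1) ((FSch.spf B K).ι 0)) :
    I ≤ K.map φ ⊔ I ^ 2 := by
  let L : Ideal A := K.map φ ⊔ I ^ 2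
  let q : A ⧸ I ^ (1 + 1) →+* A ⧸ L := Ideal.Quotient.factor (show I ^ (1 + 1) ≤ L from le_sup_right)
  let r : B ⧸ K ^ (0 + 1) →+* A ⧸ L := Ideal.quotientMap L φ (by
    rw [zero_add, pow_one, ← Ideal.map_le_iff_le_comap]
    exact le_sup_left)
  have hw : Spec.map (CommRingCat.ofHom q) ≫ (FSch.spfMap I K φ h : FSch.Hom _ _).app 1 =
      Spec.map (CommRingCat.ofHom r) ≫ (FSch.spf B K).ι 0 := by
    change Spec.map _ ≫ Spec.map _ = Spec.map _ ≫ Spec.map _
    rw [← Spec.map_comp, ← Spec.map_comp, ← CommRingCat.ofHom_comp, ← CommRingCat.ofHom_comp]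
    congr 2
    apply Ideal.Quotient.ringHom_ext
    ext b
    rfl
  let ℓ : Spec (CommRingCat.of (A ⧸ L)) ⟶ Spec (CommRingCat.of (A ⧸ I ^ (0 + 1))) := H.lift _ _ hw
  have hℓ : ℓ ≫ (FSch.spf A I).ι 0 = Spec.map (CommRingCat.ofHom q) := H.lift_fst _ _ hw
  obtain ⟨ψ, hψ⟩ := Spec.map_surjective ℓ
  rw [← hψ] at hℓ
  change Spec.map _ ≫ Spec.map _ = Spec.map _ at hℓ
  rw [← Spec.map_comp] at hℓ
  have hq := Spec.map_injective hℓ
  intro a ha
  have h1 := ConcreteCategory.congr_hom hq (Ideal.Quotient.mk (I ^ (0 + 2)) a)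
  have h2 : ψ.hom (Ideal.Quotient.mk (I ^ (0 + 1)) a) = Ideal.Quotient.mk L a := h1
  have h3 : Ideal.Quotient.mk (I ^ (0 + 1)) a = 0 := by
    rw [Ideal.Quotient.eq_zero_iff_mem, zero_add, pow_one]
    exact ha
  rw [h3, map_zero] at h2
  exact Ideal.Quotient.eq_zero_iff_mem.mp h2.symm

open AlgebraicGeometry in
/-- Formal spectra are presented as the systems Spec(A/I^(n+1)) and Spec(B/K^(n+1)), a morphism of
systems being adic when all its squares are cartesian. Let A be a Noetherian ring, complete and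
separated for the I-adic topology of an ideal I, K an ideal of a ring B and φ : B → A a ring
homomorphism with φ(K) ⊆ I. Then the induced morphism Spf(A) → Spf(B) is adic if and only if the
ideal of A generated by φ(K) is I. -/
theorem result (A B : Type u) [CommRing A] [CommRing B] [IsNoetherianRing A]
    (I : Ideal A) (K : Ideal B) [IsAdicComplete I A] (φ : B →+* A) (h : K ≤ I.comap φ) :
    FSch.IsAdicHom (FSch.spfMap I K φ h) ↔ K.map φ = I := by
  constructor
  · intro H
    refine le_antisymm (Ideal.map_le_iff_le_comap.mpr h) ?_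
    have h1 := le_sup_of_isPullback I K φ h (H 0)
    refine Submodule.le_of_le_smul_of_le_jacobson_bot (I := I) (IsNoetherian.noetherian I)
      (IsAdicComplete.le_jacobson_bot I) ?_
    rw [smul_eq_mul, ← pow_two]
    exact h1
  · intro hIK n
    exact isPullback_SpecMap_of_isPushout _ _ _ _ (isPushout_quot I K φ h hIK n)

end Groth.Agent.S3867
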