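import Groth.Statements.S3869
import Groth.Agent.Fcompl.H557.StalkDirected

set_option autoImplicit false
universe u
open FCompl

namespace Groth.Agent.S3869

/-- For a ring A, an ideal J and a prime ideal 𝔭, let A{S⁻¹}, S = A ∖ 𝔭, be the completion of A_𝔭 for
the topology defined by the extension of J, and for f ∉ 𝔭 let A_{f} be the completion of A_f for the
topology defined by the extension of J. Consider the subring A_{S} of A{S⁻¹} generated by the images
of all the A_{f}, f ∉ 𝔭 (when A is adic Noetherian and 𝔭 is open, this is the inductive limit of the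
A_{f}, i.e. the stalk at 𝔭 of the structure sheaf of Spf(A) as a plain ring). If J ⊆ 𝔭, then A_{S}
is a local ring and its inclusion into A{S⁻¹} is a local homomorphism. -/
theorem result (A : Type u) [CommRing A] (J : Ideal A) (𝔭 : Ideal A) [𝔭.IsPrime]
    (hJ : J ≤ 𝔭) :
    IsLocalRing (FSch.stalkSubring A J 𝔭) ∧ IsLocalHom (FSch.stalkSubring A J 𝔭).subtype := by
  exact ⟨Groth.Agent.Fcompl.H557.StalkDirected.isLocalRing_stalkSubring A J 𝔭 hJ,
    Groth.Agent.Fcompl.H557.StalkDirected.isLocalHom_stalkSubring_subtype A J 𝔭 hJ⟩

end Groth.Agent.S3869
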