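import Groth.Statements.S3872
import Groth.Agent.Fcompl.H551.StalkRes

set_option autoImplicit false
universe u
open FCompl

namespace Groth.Agent.S3872

/-- For a ring A, an ideal J and a prime ideal 𝔭 with J ⊆ 𝔭, let A{S⁻¹}, S = A ∖ 𝔭, be the completion of
A_𝔭 for the topology defined by the extension of J, and A_{S} the subring of A{S⁻¹} generated by the
images of the completed localizations A_{f}, f ∉ 𝔭 (the stalk ring of Spf(A) at 𝔭). Given that A_{S}
and A{S⁻¹} are local rings and that the inclusion A_{S} → A{S⁻¹} and the canonical map A_𝔭 → A{S⁻¹}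
are local homomorphisms (all four are carried here as instance hypotheses; the two about A_{S} are
stated separately), both maps induce bijections on residue fields; so the residue field of A_{S} is
the residue field κ(𝔭) of A_𝔭. -/
theorem result (A : Type u) [CommRing A] (J : Ideal A) (𝔭 : Ideal A)
    [𝔭.IsPrime] (hJ : J ≤ 𝔭) [IsLocalRing (FSch.stalkSubring A J 𝔭)] [IsLocalRing (FSch.cAtPrime A J 𝔭)]
    [IsLocalHom (FSch.stalkSubring A J 𝔭).subtype]
    [IsLocalHom (algebraMap (Localization.AtPrime 𝔭) (FSch.cAtPrime A J 𝔭))] :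
    Function.Bijective (IsLocalRing.ResidueField.map (FSch.stalkSubring A J 𝔭).subtype) ∧
      Function.Bijective
        (IsLocalRing.ResidueField.map (algebraMap (Localization.AtPrime 𝔭) (FSch.cAtPrime A J 𝔭))) := by
  exact ⟨Groth.Agent.Fcompl.H551.StalkRes.bijective_residueMap_stalkSubring A J 𝔭 hJ,
    Groth.Agent.Fcompl.H551.StalkRes.bijective_residueMap_atPrime A J 𝔭 hJ⟩

end Groth.Agent.S3872
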