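import Groth.Statements.S3873
import Groth.Agent.Divis.IdealComap
import Groth.Agent.Fcompl.H545.SpecKer

set_option autoImplicit false
universe u
open FCompl

namespace Groth.Agent.S3873

open AlgebraicGeometry in
/-- Its content on the affine schemes underlying the formal spectra: the inverse image ideal of b^Δ is
(bA)^Δ, read on Spec: For a ring homomorphism φ : B -> A and an ideal b of B, the inverse image
along Spec(φ) of the ideal sheaf of b on Spec B is the ideal sheaf on Spec A of the ideal generated
by φ(b). -/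
theorem result (A B : Type u) [CommRing A] [CommRing B] (φ : B →+* A) (𝔟 : Ideal B) :
    (FSch.idealSpec B 𝔟).comap (Spec.map (CommRingCat.ofHom φ)) = FSch.idealSpec A (𝔟.map φ) := by
  apply Scheme.IdealSheafData.ext_of_isAffine
  have h1 := Groth.Agent.Divis.IdealComap.ideal_comap_top (FSch.idealSpec B 𝔟)
    (Spec.map (CommRingCat.ofHom φ))
  have h2 := Groth.Agent.Fcompl.H545.SpecKer.ideal_top_ker_specMap
    (CommRingCat.ofHom (Ideal.Quotient.mk 𝔟))
  have h3 := Groth.Agent.Fcompl.H545.SpecKer.ideal_top_ker_specMap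
    (CommRingCat.ofHom (Ideal.Quotient.mk (𝔟.map φ)))
  rw [CommRingCat.hom_ofHom, Ideal.mk_ker] at h2 h3
  refine h1.trans ((congrArg (Ideal.map _) h2).trans (Eq.trans ?_ h3.symm))
  rw [Ideal.map_map, Ideal.map_map]
  congr 1
  exact congrArg CommRingCat.Hom.hom (Scheme.ΓSpecIso_inv_naturality (CommRingCat.ofHom φ)).symm

end Groth.Agent.S3873
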