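import Groth.Statements.S3874
import Groth.Agent.CalgB.AnUnram
import Mathlib.RingTheory.Localization.Ideal
import Mathlib.RingTheory.AdicCompletion.Completeness

set_option autoImplicit false
universe u
open FCompl

namespace Groth.Agent.S3874

/-- The map `S → S^ / (I S^)^n` is surjective with kernel `I ^ n`. -/
theorem surj_ker {S : Type u} [CommRing S] (I : Ideal S) (hI : I.FG) (n : ℕ)
    (K : Ideal (AdicCompletion I S)) (hK : K = (I ^ n).map (algebraMap S (AdicCompletion I S))) :
    Function.Surjective ((Ideal.Quotient.mk K).comp (algebraMap S (AdicCompletion I S))) ∧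
      RingHom.ker ((Ideal.Quotient.mk K).comp (algebraMap S (AdicCompletion I S))) = I ^ n := by
  subst hK
  have hker := Groth.Agent.CalgB.AnUnram.ker_evalₐ I hI n
  constructor
  · intro x
    obtain ⟨x, rfl⟩ := Ideal.Quotient.mk_surjective x
    obtain ⟨s, hs⟩ := Ideal.Quotient.mk_surjective (AdicCompletion.evalₐ I n x)
    refine ⟨s, ?_⟩
    rw [RingHom.comp_apply, Ideal.Quotient.eq, ← hker, RingHom.mem_ker]
    change AdicCompletion.evalₐ I n _ = 0
    rw [map_sub, AlgHom.commutes, ← hs]
    exact sub_self _
  · ext s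
    rw [RingHom.mem_ker, RingHom.comp_apply, Ideal.Quotient.eq_zero_iff_mem, ← hker, RingHom.mem_ker]
    change AdicCompletion.evalₐ I n _ = 0 ↔ _
    rw [AlgHom.commutes]
    exact Ideal.Quotient.eq_zero_iff_mem

/-- Let A be a Noetherian ring, J an ideal, f ∈ A and n ≥ 0, and let A_{f} be the completion of the
localization A_f for the topology defined by the extension of J. There is a ring isomorphism from
the localization of A/J^(n+1) away from the class of f onto A_{f} modulo the (n+1)-st power of the
extension of J to A_{f}, compatible with the canonical maps from A (and hence unique). In terms of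
formal spectra: the open D(f) of Spf(A) is Spf(A_{f}), and at level n its ring is the ring
(A/J^(n+1))_f of the open D(f) of Spec(A/J^(n+1)). -/
theorem result (A : Type u) [CommRing A] [IsNoetherianRing A] (J : Ideal A)
    (f : A) (n : ℕ) :
    ∃ e : Localization.Away (Ideal.Quotient.mk (J ^ (n + 1)) f) ≃+*
        FSch.cAway A J f ⧸ (J.map (algebraMap A (FSch.cAway A J f))) ^ (n + 1),
      ∀ a : A, e (algebraMap (A ⧸ J ^ (n + 1)) _ (Ideal.Quotient.mk (J ^ (n + 1)) a)) =
        Ideal.Quotient.mk _ (algebraMap A (FSch.cAway A J f) a) := by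
  set L := Localization.Away f with hL
  set I : Ideal L := J.map (algebraMap A L) with hI
  have hcomp : algebraMap A (AdicCompletion I L) = (algebraMap L (AdicCompletion I L)).comp (algebraMap A L) := by
    ext a
    rfl
  set K : Ideal (AdicCompletion I L) := (J.map (algebraMap A (AdicCompletion I L))) ^ (n + 1) with hK
  have hKK : K = (I ^ (n + 1)).map (algebraMap L (AdicCompletion I L)) := by
    rw [hK, hI, Ideal.map_pow, Ideal.map_map, hcomp]
  have hFG : I.FG := Ideal.FG.map (IsNoetherian.noetherian J) _
  obtain ⟨h1, h2⟩ := surj_ker I hFG (n + 1) K hKK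
  have h3 : ∀ a ∈ J ^ (n + 1), (Ideal.Quotient.mk K) (algebraMap A (AdicCompletion I L) a) = 0 := by
    intro a ha
    rw [Ideal.Quotient.eq_zero_iff_mem, hK, ← Ideal.map_pow]
    exact Ideal.mem_map_of_mem _ ha
  let alg : Algebra (A ⧸ J ^ (n + 1)) (AdicCompletion I L ⧸ K) :=
    (Ideal.Quotient.lift (J ^ (n + 1)) ((Ideal.Quotient.mk K).comp (algebraMap A (AdicCompletion I L))) h3).toAlgebra
  have h4 : IsLocalization ((Submonoid.powers f).map (Ideal.Quotient.mk (J ^ (n + 1))))
      (AdicCompletion I L ⧸ K) := by
    refine IsLocalization.of_surjective (Submonoid.powers f) L (Ideal.Quotient.mk (J ^ (n + 1)))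
      Ideal.Quotient.mk_surjective _ h1 ?_ ?_
    · ext a
      rfl
    · rw [h2, Ideal.mk_ker, Ideal.map_pow]
  rw [Submonoid.map_powers] at h4
  refine ⟨(IsLocalization.algEquiv (Submonoid.powers (Ideal.Quotient.mk (J ^ (n + 1)) f))
    (Localization.Away (Ideal.Quotient.mk (J ^ (n + 1)) f)) (AdicCompletion I L ⧸ K)).toRingEquiv, ?_⟩
  intro a
  exact (IsLocalization.algEquiv (Submonoid.powers (Ideal.Quotient.mk (J ^ (n + 1)) f))
    (Localization.Away (Ideal.Quotient.mk (J ^ (n + 1)) f)) (AdicCompletion I L ⧸ K)).commutes _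

end Groth.Agent.S3874
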