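import Groth.Statements.S3886
import Groth.Agent.Sga4A.CechHomotopy

set_option autoImplicit false
universe u
open CategoryTheory
open Hyper

namespace Groth.Agent.S3886

open Opposite CategoryTheory.Limits in
/-- Let a, b : L -> K be two morphisms of simplicial semi-representable objects over an object X of a
small category (simplicial objects in formal coproducts of objects over X), homotopic in the
combinatorial (simplicial) sense. Then for every presheaf of abelian groups P and every p, a and b
induce the same map from the p-th Cech cohomology group of P with respect to K to that with respect
to L. -/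
theorem result {C : Type u} [SmallCategory C] (X : C)
    {K L : SimplicialObject (FormalCoproduct.{u} (Over X))} (a b : L ⟶ K)
    (h : Nonempty (SimplicialObject.Homotopy a b)) (P : Cᵒᵖ ⥤ AddCommGrpCat.{u}) (p : ℕ) :
    Hyper.cechHMap X a P p = Hyper.cechHMap X b P p := by
  obtain ⟨H⟩ := h
  have key : HomologicalComplex.homologyMap (cechMap X a P) p =
      HomologicalComplex.homologyMap (cechMap X b P) p :=
    (Groth.Agent.Sga4A.CechHomotopy.cofaceHomotopy
      ((FormalCoproduct.evalOp.{u} (Over X) AddCommGrpCat.{u}).obj ((Over.forget X).op ⋙ P))
      H).homologyMap_eq p
  exact congrArg AddCommGrpCat.Hom.hom key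

end Groth.Agent.S3886
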