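import Groth.Statements.S3894
import Mathlib.CategoryTheory.Sites.Limits

set_option autoImplicit false
universe u
open CategoryTheory CategoryTheory.Limits Opposite
open Tors

namespace Groth.Agent.S3894

section aux

variable {C : Type u} [SmallCategory C] {J : GrothendieckTopology C}

/-- Sections of the terminal sheaf of sets form a terminal type. -/
noncomputable def terminalSections (U : Cᵒᵖ) :
    IsTerminal ((⊤_ (Sheaf J (Type u))).obj.obj U) :=
  IsTerminal.isTerminalObj ((evaluation Cᵒᵖ (Type u)).obj U) _
    (IsTerminal.isTerminalObj (sheafToPresheaf J (Type u)) _ terminalIsTerminal)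

/-- The unique section of the terminal sheaf over `U`. -/
noncomputable def pt (U : Cᵒᵖ) : (⊤_ (Sheaf J (Type u))).obj.obj U :=
  (terminalSections (J := J) U).from PUnit PUnit.unit

lemma eq_pt (U : Cᵒᵖ) (x : (⊤_ (Sheaf J (Type u))).obj.obj U) : x = pt U := by
  have h := (terminalSections (J := J) U).hom_ext
    (↾(fun (_ : PUnit.{u+1}) => x)) (↾(fun (_ : PUnit.{u+1}) => pt (J := J) U))
  exact ConcreteCategory.congr_hom h PUnit.unit

end aux

/-- A torsor P under an abelian sheaf G is trivial, i.e. equivariantly isomorphic to G acting on itself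
by translations, if and only if P has a global section (a morphism from the final sheaf of sets). -/
theorem result {C : Type u} [SmallCategory C] {J : GrothendieckTopology C}
    {G : Sheaf J AddCommGrpCat.{u}} (T : Tors.Torsor G) : T.IsTrivial ↔ T.HasSection := by
  constructor
  · rintro ⟨e, -⟩
    refine ⟨?_ ≫ e.hom⟩
    exact ⟨{ app := fun U => ↾(fun _ => (0 : G.obj.obj U))
             naturality := fun U V f => by
               ext x
               exact (map_zero (G.obj.map f).hom).symm }⟩
  · rintro ⟨s⟩
    let s' : ∀ U : Cᵒᵖ, T.P.obj.obj U := fun U => s.hom.app U (pt U)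
    have hs' : ∀ {U V : Cᵒᵖ} (f : U ⟶ V), T.P.obj.map f (s' U) = s' V := by
      intro U V f
      have h := NatTrans.naturality_apply s.hom f (pt U)
      have h2 : (⊤_ (Sheaf J (Type u))).obj.map f (pt U) = pt V := eq_pt V _
      rw [h2] at h
      exact h.symm
    let φ : ((sheafCompose J (forget AddCommGrpCat.{u})).obj G).obj ≅ T.P.obj :=
      NatIso.ofComponents
        (fun U => Equiv.toIso (Equiv.ofBijective (fun g : G.obj.obj U => T.vadd g (s' U)) (by
          constructor
          · intro g h hgh
            exact (T.free_transitive (s' U) (T.vadd h (s' U))).unique hgh rfl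
          · intro q
            obtain ⟨g, hg, -⟩ := T.free_transitive (s' U) q
            exact ⟨g, hg⟩)))
        (fun {U V} f => by
          ext g
          change T.vadd (G.obj.map f g) (s' V) = T.P.obj.map f (T.vadd g (s' U))
          rw [T.map_vadd, hs'])
    refine ⟨(fullyFaithfulSheafToPresheaf J (Type u)).preimageIso φ, ?_⟩
    intro U g h
    exact T.add_vadd g h (s' U)

end Groth.Agent.S3894
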