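import Groth.Statements.S3895
import Groth.Agent.Topos.H579.TorsH1
-- import your own Groth.Agent.* helpers here

set_option autoImplicit false
universe u
open CategoryTheory CategoryTheory.Limits Opposite
open Tors

namespace Groth.Agent.S3895

/-- In a map-free form (small site, abelian sheaf G): the first cohomology group H^1(G) (Ext^1 out of
the constant sheaf Z) is zero if and only if every G-torsor has a global section. The source's
statement is stronger: a canonical bijection between isomorphism classes of G-torsors and H^1(G). -/
theorem result {C : Type u} [SmallCategory C] {J : GrothendieckTopology C}
    (G : Sheaf J AddCommGrpCat.{u}) :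
    Subsingleton (Sheaf.H.{u} G 1) ↔ ∀ T : Tors.Torsor G, T.HasSection := by
  exact Groth.Agent.Topos.H579.TorsH1.main G

end Groth.Agent.S3895
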