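import Groth.Statements.S4183
import Groth.Agent.An.H862.AffSpace

set_option autoImplicit false
open CategoryTheory AlgebraicGeometry Topology TopologicalSpace
open An

namespace Groth.Agent.S4183

/-- For affine n-space over ℂ, the map sending a ℂ-point to the values of the n coordinate functions is
a homeomorphism from its space of ℂ-points, with the complex topology of this problem, onto ℂ^n with
its usual topology. -/
theorem result (n : ℕ) :
    IsHomeomorph (fun (x : An.Pts (𝔸(Fin n; An.SC))) (i : Fin n) => x.evTop (AffineSpace.coord An.SC i)) :=
  Groth.Agent.An.H862.AffSpace.isHomeomorph n

end Groth.Agent.S4183
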