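import Groth.Statements.S4184
import Groth.Agent.An.H862.AffTop

set_option autoImplicit false
open CategoryTheory AlgebraicGeometry Topology TopologicalSpace
open An

namespace Groth.Agent.S4184

/-- Let X be affine of finite type over ℂ and s_1, …, s_n global sections generating Γ(X, O_X) as a
ℂ-algebra, i.e. the evaluation map from polynomials in n variables over ℂ (through the structure
homomorphism ℂ → Γ(X, O_X)) is surjective. Then x ↦ (s_1(x), …, s_n(x)) is a closed embedding of the
space of ℂ-points of X (complex topology) into ℂ^n. In particular the complex topology is the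
subspace topology for any such presentation. -/
theorem result (X : Scheme.{0}) [X.Over An.SC] [IsAffine X]
    [LocallyOfFiniteType (X ↘ An.SC)] (n : ℕ) (s : Fin n → Γ(X, ⊤))
    (hs : Function.Surjective (MvPolynomial.eval₂Hom (An.strHom X) s)) :
    Topology.IsClosedEmbedding (fun (x : An.Pts X) (i : Fin n) => x.evTop (s i)) :=
  Groth.Agent.An.H862.AffTop.isClosedEmbedding_evTop s hs

end Groth.Agent.S4184
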