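import Groth.Statements.S4186
import Groth.Agent.An.H863.PtsBasic

set_option autoImplicit false
open CategoryTheory AlgebraicGeometry Topology TopologicalSpace
open An

namespace Groth.Agent.S4186

/-- A scheme locally of finite type over ℂ is nonempty if and only if it has a ℂ-point. -/
theorem result (X : Scheme.{0}) [X.Over An.SC] [LocallyOfFiniteType (X ↘ An.SC)] :
    Nonempty ↥X ↔ Nonempty (An.Pts X) := by
  exact Groth.Agent.An.H863.PtsBasic.nonempty_iff X

end Groth.Agent.S4186
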