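import Groth.Statements.S4188
import Groth.Agent.An.H867.Closure

set_option autoImplicit false
open CategoryTheory AlgebraicGeometry Topology TopologicalSpace
open An

namespace Groth.Agent.S4188

/-- Let X be locally of finite type over ℂ and T a locally constructible subset of X. Then the ℂ-points
lying in the closure of T are exactly the closure, in X(ℂ), of the ℂ-points lying in T. -/
theorem result (X : Scheme.{0}) [X.Over An.SC] [LocallyOfFiniteType (X ↘ An.SC)]
    (T : Set ↥X) (hT : IsLocallyConstructible T) :
    (An.Pts.pt ⁻¹' closure T : Set (An.Pts X)) = closure (An.Pts.pt ⁻¹' T) :=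
  (Groth.Agent.An.H867.Closure.closure_preimage_pt hT).symm

end Groth.Agent.S4188
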