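import Groth.Statements.S4189
import Groth.Agent.An.H871.Basic
import Groth.Agent.An.H867.Closure

set_option autoImplicit false
open CategoryTheory AlgebraicGeometry Topology TopologicalSpace
open An

namespace Groth.Agent.S4189

/-- Open case; the closed case follows by complements: for X locally of finite type over ℂ and T ⊆ X
locally constructible, T is open if and only if the set of ℂ-points lying in T is open in X(ℂ). -/
theorem result (X : Scheme.{0}) [X.Over An.SC] [LocallyOfFiniteType (X ↘ An.SC)]
    (T : Set ↥X) (hT : IsLocallyConstructible T) :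
    IsOpen T ↔ IsOpen (An.Pts.pt ⁻¹' T : Set (An.Pts X)) := by
  refine ⟨fun h => h.preimage An.Pts.continuous_pt, fun h => ?_⟩
  have hC : IsLocallyConstructible Tᶜ := fun y => by
    obtain ⟨U, hU, hUo, hUs⟩ := hT y
    exact ⟨U, hU, hUo, hUs.compl⟩
  rw [← isClosed_compl_iff, ← closure_subset_iff_isClosed]
  intro z hz hzT
  obtain ⟨Z, h1, h2, h3⟩ :=
    Groth.Agent.An.H871.Basic.exists_isLocallyClosed_of_isLocallyConstructible hT hzT
  obtain ⟨p, hpZ, hpC⟩ := Groth.Agent.An.H871.Basic.exists_pts_mem_of_isLocallyClosed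
    (h1.inter (isClosed_closure (s := Tᶜ)).isLocallyClosed) ⟨z, h2, hz⟩
  have hp := Groth.Agent.An.H867.Closure.mem_closure_pts hC p hpC
  have hcl : IsClosed (An.Pts.pt ⁻¹' Tᶜ : Set (An.Pts X)) := by
    rw [Set.preimage_compl]
    exact h.isClosed_compl
  rw [hcl.closure_eq] at hp
  exact hp (h3 hpZ)

end Groth.Agent.S4189
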