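import Groth.Statements.S4190
import Groth.Agent.An.H867.Closure

set_option autoImplicit false
open CategoryTheory AlgebraicGeometry Topology TopologicalSpace
open An

namespace Groth.Agent.S4190

/-- For X locally of finite type over ℂ and T ⊆ X locally constructible, T is dense in X if and only if
the set of ℂ-points lying in T is dense in X(ℂ). -/
theorem result (X : Scheme.{0}) [X.Over An.SC] [LocallyOfFiniteType (X ↘ An.SC)]
    (T : Set ↥X) (hT : IsLocallyConstructible T) :
    Dense T ↔ Dense (An.Pts.pt ⁻¹' T : Set (An.Pts X)) :=
  Groth.Agent.An.H867.Closure.dense_iff hT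

end Groth.Agent.S4190
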