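import Groth.Statements.S4192
import Groth.Agent.An.H869.Conn
import Groth.Agent.An.H868.Clopen
import Groth.Agent.An.H871.Imm
import Groth.Agent.Sga3C.LocConn
-- import your own Groth.Agent.* helpers here

set_option autoImplicit false
open CategoryTheory AlgebraicGeometry Topology TopologicalSpace
open An

namespace Groth.Agent.S4192

/-- For X locally of finite type over ℂ, the map π_0(X(ℂ)) → π_0(X) induced by the continuous map X(ℂ) →
X is bijective. -/
theorem result (X : Scheme.{0}) [X.Over An.SC] [LocallyOfFiniteType (X ↘ An.SC)] :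
    Function.Bijective (An.Pts.continuous_pt (X := X)).connectedComponentsMap := by
  have hnoeth : IsLocallyNoetherian X := LocallyOfFiniteType.isLocallyNoetherian (X ↘ An.SC)
  have hlc : LocallyConnectedSpace X :=
    Groth.Agent.Sga3C.LocConn.locallyConnectedSpace_of_isLocallyNoetherian X
  constructor
  · rintro ⟨p⟩ ⟨q⟩ hpq
    have h1 : connectedComponent p.pt = connectedComponent q.pt :=
      ConnectedComponents.coe_eq_coe.1 hpq
    change (ConnectedComponents.mk p : ConnectedComponents (An.Pts X)) = ConnectedComponents.mk q
    rw [ConnectedComponents.coe_eq_coe']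
    let U : X.Opens := ⟨connectedComponent q.pt, isOpen_connectedComponent⟩
    have hconn : ConnectedSpace U :=
      isConnected_iff_connectedSpace.1 (isConnected_connectedComponent (x := q.pt))
    have hconn' : ConnectedSpace (U : Scheme.{0}) := hconn
    have hlft : LocallyOfFiniteType ((U : Scheme.{0}) ↘ An.SC) := by
      rw [← comp_over U.ι An.SC]
      infer_instance
    have hC : ConnectedSpace (An.Pts (U : Scheme.{0})) :=
      (Groth.Agent.An.H868.Clopen.connectedSpace_iff Groth.Agent.An.H869.Conn.conn
        (U : Scheme.{0})).1 hconn'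
    have hrange : Set.range (An.Pts.map U.ι) = An.Pts.pt ⁻¹' (U : Set X) := by
      rw [Groth.Agent.An.H871.Imm.range_map_of_isOpenImmersion, Scheme.Opens.range_ι]
    have hpre : IsPreconnected (An.Pts.pt ⁻¹' (U : Set X) : Set (An.Pts X)) := by
      rw [← hrange]
      exact isPreconnected_range (An.Pts.continuous_map U.ι)
    have hq : q ∈ (An.Pts.pt ⁻¹' (U : Set X) : Set (An.Pts X)) := mem_connectedComponent
    have hp : p ∈ (An.Pts.pt ⁻¹' (U : Set X) : Set (An.Pts X)) := by
      change p.pt ∈ connectedComponent q.pt
      rw [← h1]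
      exact mem_connectedComponent
    exact hpre.subset_connectedComponent hq hp
  · rintro ⟨x⟩
    obtain ⟨p, hp⟩ := Groth.Agent.An.H863.PtsBasic.exists_pt_mem_of_isClosed (X := X)
      (isClosed_connectedComponent (x := x)) ⟨x, mem_connectedComponent⟩
    refine ⟨ConnectedComponents.mk p, ?_⟩
    exact ConnectedComponents.coe_eq_coe'.2 hp

end Groth.Agent.S4192
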