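import Groth.Statements.S4193
import Groth.Agent.An.H863.PtsPullback

set_option autoImplicit false
open CategoryTheory AlgebraicGeometry Topology TopologicalSpace
open An

namespace Groth.Agent.S4193

/-- Compatibility with fibre products, on underlying spaces: for morphisms f : X → S and g : Y → S of
schemes locally of finite type over ℂ, the canonical map from the ℂ-points of X ×_S Y to the fibre
product of the spaces X(ℂ) and Y(ℂ) over S(ℂ) is a homeomorphism (complex topologies,
subspace-of-product topology on the target). -/
theorem result (X Y S : Scheme.{0}) [X.Over An.SC] [Y.Over An.SC] [S.Over An.SC]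
    [LocallyOfFiniteType (X ↘ An.SC)] [LocallyOfFiniteType (Y ↘ An.SC)] [LocallyOfFiniteType (S ↘ An.SC)]
    (f : X ⟶ S) (g : Y ⟶ S) [f.IsOver An.SC] [g.IsOver An.SC] :
    IsHomeomorph (fun z : An.Pts (Limits.pullback f g) =>
      (⟨(An.Pts.map (Limits.pullback.fst f g) z, An.Pts.map (Limits.pullback.snd f g) z),
        An.Pts.map_pullback_condition f g z⟩ :
        {q : An.Pts X × An.Pts Y // An.Pts.map f q.1 = An.Pts.map g q.2})) := by
  exact (Groth.Agent.An.H863.PtsPullback.homeo f g).isHomeomorph

end Groth.Agent.S4193
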