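import Groth.Statements.S4194
import Mathlib.AlgebraicGeometry.AlgClosed.Basic
import Mathlib.AlgebraicGeometry.Morphisms.UniversallyInjective
import Mathlib.AlgebraicGeometry.Morphisms.Immersion
import Mathlib.Analysis.Complex.Polynomial.Basic

set_option autoImplicit false
open CategoryTheory AlgebraicGeometry Topology TopologicalSpace
open An

namespace Groth.Agent.S4194

/-- In a Jacobson space a locally closed subset containing all closed points is everything. -/
theorem eq_univ_of_isLocallyClosed {T : Type*} [TopologicalSpace T] [JacobsonSpace T] {S : Set T}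
    (hS : IsLocallyClosed S) (h : closedPoints T ⊆ S) : S = Set.univ := by
  obtain ⟨U, Z, hU, hZ, rfl⟩ := hS
  have hZ' : Z = Set.univ := by
    have h1 : closure (closedPoints T) ⊆ Z :=
      hZ.closure_subset_iff.2 (h.trans Set.inter_subset_right)
    rwa [closure_closedPoints, Set.univ_subset_iff] at h1
  have hU' : U = Set.univ := by
    by_contra hne
    have hne' : (Uᶜ).Nonempty := by
      rwa [Set.nonempty_compl]
    obtain ⟨z, hz1, hz2⟩ := nonempty_inter_closedPoints hne' hU.isClosed_compl.isLocallyClosed
    exact hz1 (h hz2).1
  rw [hU', hZ', Set.inter_univ]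

/-- A morphism f : X → Y of schemes locally of finite type over ℂ is injective (on underlying points) if
and only if the induced map X(ℂ) → Y(ℂ) is injective. -/
theorem result (X Y : Scheme.{0}) [X.Over An.SC] [LocallyOfFiniteType (X ↘ An.SC)]
    [Y.Over An.SC] [LocallyOfFiniteType (Y ↘ An.SC)] (f : X ⟶ Y) [f.IsOver An.SC] :
    Function.Injective f.base ↔ Function.Injective (An.Pts.map f) := by
  constructor
  · intro hf x y h
    have h1 : f x.pt = f y.pt := by rw [← Pts.pt_map, ← Pts.pt_map, h]
    have h2 : x.pt = y.pt := hf h1
    have h3 : x.1 (IsLocalRing.closedPoint ℂ) = y.1 (IsLocalRing.closedPoint ℂ) := by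
      have e : (IsLocalRing.closedPoint ℂ : ↥SC) = cpt := eq_cpt _
      rw [e]; exact h2
    exact Subtype.ext (ext_of_apply_closedPoint_eq (K := ℂ) (X ↘ SC) x.2 y.2 h3)
  · intro hf
    have hft : LocallyOfFiniteType f := by
      have h : LocallyOfFiniteType (f ≫ (Y ↘ SC)) := by
        rw [comp_over f]; infer_instance
      exact locallyOfFiniteType_of_comp f (Y ↘ SC)
    have key : Surjective (Limits.pullback.diagonal f) := by
      let p : Limits.pullback f f ⟶ SC := Limits.pullback.fst f f ≫ (X ↘ SC)
      have hJC : JacobsonSpace SC := inferInstanceAs (JacobsonSpace (Spec (CommRingCat.of ℂ)))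
      have hJ : JacobsonSpace (Limits.pullback f f : Scheme) := LocallyOfFiniteType.jacobsonSpace p
      have hcl : closedPoints (Limits.pullback f f : Scheme) ⊆
          Set.range (Limits.pullback.diagonal f) := by
        intro z hz
        let t : SC ⟶ Limits.pullback f f := pointOfClosedPoint (K := ℂ) p z hz
        have ht : t ≫ p = 𝟙 _ := pointOfClosedPoint_comp (K := ℂ) p z hz
        have ht' : (t ≫ Limits.pullback.fst f f) ≫ (X ↘ SC) = 𝟙 _ := by
          rw [Category.assoc]; exact ht
        have ht'' : (t ≫ Limits.pullback.snd f f) ≫ (X ↘ SC) = 𝟙 _ := by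
          rw [← comp_over f SC, Category.assoc, ← Limits.pullback.condition_assoc, comp_over f SC]
          exact ht
        let x₁ : Pts X := ⟨t ≫ Limits.pullback.fst f f, ht'⟩
        let x₂ : Pts X := ⟨t ≫ Limits.pullback.snd f f, ht''⟩
        have h12 : Pts.map f x₁ = Pts.map f x₂ := Subtype.ext (by
          change (t ≫ Limits.pullback.fst f f) ≫ f = (t ≫ Limits.pullback.snd f f) ≫ f
          rw [Category.assoc, Category.assoc, Limits.pullback.condition])
        have h := congrArg Subtype.val (hf h12)
        change t ≫ Limits.pullback.fst f f = t ≫ Limits.pullback.snd f f at h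
        have e : t = (t ≫ Limits.pullback.fst f f) ≫ Limits.pullback.diagonal f := by
          apply Limits.pullback.hom_ext
          · simp
          · simp [h]
        refine ⟨(t ≫ Limits.pullback.fst f f) cpt, ?_⟩
        rw [← Scheme.Hom.comp_apply, ← e]
        exact pointOfClosedPoint_apply (K := ℂ) p z hz _
      have := eq_univ_of_isLocallyClosed (Limits.pullback.diagonal f).isLocallyClosed_range hcl
      exact ⟨Set.range_eq_univ.1 this⟩
    have : UniversallyInjective f := (UniversallyInjective.iff_diagonal f).2 key
    exact f.injective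

end Groth.Agent.S4194
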