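import Groth.Statements.S4197
import Groth.Agent.An.H866.EtLH

set_option autoImplicit false
open CategoryTheory AlgebraicGeometry Topology TopologicalSpace
open An

namespace Groth.Agent.S4197

/-- An etale morphism f : X → Y of schemes over ℂ, with Y (hence X) locally of finite type over ℂ,
induces a local homeomorphism X(ℂ) → Y(ℂ) for the complex topologies. Stated as the proposition
An.EtaleLH of the prelude verbatim (it quantifies over all such X, Y, f), which the comparison
functor carries as a hypothesis. -/
theorem result : An.EtaleLH := by
  intro X Y _ _ _ g _ _
  exact Groth.Agent.An.H866.EtLH.isLocalHomeomorph_map g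

end Groth.Agent.S4197
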