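import Groth.Statements.S4198
import Groth.Agent.An.H871.Surj

set_option autoImplicit false
open CategoryTheory AlgebraicGeometry Topology TopologicalSpace
open An

namespace Groth.Agent.S4198

/-- Let f : X → Y be a morphism of finite type (here: quasi-compact, X and Y being locally of finite
type over ℂ). Then f is surjective if and only if the induced map on complex points X(ℂ) → Y(ℂ) is
surjective. (The finite-type hypothesis cannot be dropped.) -/
theorem result (X Y : Scheme.{0}) [X.Over An.SC] [LocallyOfFiniteType (X ↘ An.SC)]
    [Y.Over An.SC] [LocallyOfFiniteType (Y ↘ An.SC)] (f : X ⟶ Y) [f.IsOver An.SC] [QuasiCompact f] :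
    Function.Surjective f.base ↔ Function.Surjective (An.Pts.map f) := by
  exact Groth.Agent.An.H871.Surj.surjective_iff f

end Groth.Agent.S4198
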