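import Groth.Statements.S4199
import Groth.Agent.An.H867.Closure
import Groth.Agent.An.H871.Surj

set_option autoImplicit false
open CategoryTheory AlgebraicGeometry Topology TopologicalSpace
open An

namespace Groth.Agent.S4199

/-- Let f : X → Y be quasi-compact, with X and Y locally of finite type over ℂ. Then f is dominant if
and only if the image of X(ℂ) → Y(ℂ) is dense. -/
theorem result (X Y : Scheme.{0}) [X.Over An.SC] [LocallyOfFiniteType (X ↘ An.SC)]
    [Y.Over An.SC] [LocallyOfFiniteType (Y ↘ An.SC)] (f : X ⟶ Y) [f.IsOver An.SC] [QuasiCompact f] :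
    DenseRange f.base ↔ DenseRange (An.Pts.map f) := by
  have h1 := Groth.Agent.An.H867.Closure.dense_iff
    (Groth.Agent.An.H871.Surj.isLocallyConstructible_range f)
  rw [← Groth.Agent.An.H871.Surj.range_map f] at h1
  exact h1

end Groth.Agent.S4199
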