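import Groth.Statements.S4200
import Groth.Agent.An.H871.Imm

set_option autoImplicit false
open CategoryTheory AlgebraicGeometry Topology TopologicalSpace
open An

namespace Groth.Agent.S4200

/-- The direction from schemes to spaces: a closed immersion f : X → Y of schemes locally of finite type
over ℂ induces a closed embedding X(ℂ) → Y(ℂ). -/
theorem result (X Y : Scheme.{0}) [X.Over An.SC] [LocallyOfFiniteType (X ↘ An.SC)]
    [Y.Over An.SC] [LocallyOfFiniteType (Y ↘ An.SC)] (f : X ⟶ Y) [f.IsOver An.SC] [IsClosedImmersion f] :
    Topology.IsClosedEmbedding (An.Pts.map f) := by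
  exact Groth.Agent.An.H871.Imm.isClosedEmbedding_map f

end Groth.Agent.S4200
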