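-- Solution of statement S4201 (row 4200).
import Groth.Statements.S4201
import Groth.Agent.An.H871.Imm

set_option autoImplicit false
open CategoryTheory AlgebraicGeometry Topology TopologicalSpace
open An

namespace Groth.Agent.S4201

/-- The direction from schemes to spaces: an immersion f : X → Y of schemes locally of finite type over
ℂ induces an embedding X(ℂ) → Y(ℂ) whose image is locally closed. -/
theorem result (X Y : Scheme.{0}) [X.Over An.SC] [LocallyOfFiniteType (X ↘ An.SC)]
    [Y.Over An.SC] [LocallyOfFiniteType (Y ↘ An.SC)] (f : X ⟶ Y) [f.IsOver An.SC] [IsImmersion f] :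
    Topology.IsEmbedding (An.Pts.map f) ∧ IsLocallyClosed (Set.range (An.Pts.map f)) :=
  ⟨Groth.Agent.An.H871.Imm.isEmbedding_map_of_isImmersion f,
    Groth.Agent.An.H871.Imm.isLocallyClosed_range_map_of_isImmersion f⟩

end Groth.Agent.S4201
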