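import Groth.Statements.S4206
import Groth.Agent.An.H866.EtLH
import Groth.Agent.An.H879.Covering

set_option autoImplicit false
open CategoryTheory AlgebraicGeometry Topology TopologicalSpace
open An

namespace Groth.Agent.S4206

/-- A finite etale morphism f : X → Y of schemes locally of finite type over ℂ (f a ℂ-morphism) induces
a covering map X(ℂ) → Y(ℂ) with finite fibres for the complex topologies. -/
theorem result (X Y : Scheme.{0}) [X.Over An.SC] [LocallyOfFiniteType (X ↘ An.SC)]
    [Y.Over An.SC] [LocallyOfFiniteType (Y ↘ An.SC)] (f : X ⟶ Y) [f.IsOver An.SC] [IsFinite f] [Etale f] :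
    IsCoveringMap (An.Pts.map f) ∧ ∀ y : An.Pts Y, (An.Pts.map f ⁻¹' {y}).Finite :=
  ⟨Groth.Agent.An.H879.Covering.isCoveringMap_map f
    (Groth.Agent.An.H866.EtLH.isLocalHomeomorph_map f),
    Groth.Agent.An.H879.FiniteClosed.finite_fibre_of_isFinite f⟩

end Groth.Agent.S4206
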