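import Groth.Statements.S4307
import Groth.Agent.Gaga.H277.AffSp
-- import your own Groth.Agent.* helpers here

set_option autoImplicit false
open CategoryTheory AlgebraicGeometry Topology TopologicalSpace
open An

namespace Groth.Agent.S4307

/-- A sanity check of the definition of holomorphic functions: for an open set U of complex points of
affine n-space over ℂ and g : U → ℂ, g is holomorphic (satisfies the local predicate An.holPred of
the prelude) if and only if g = G ∘ (coordinates) for some G : ℂ^n → ℂ complex-differentiable on the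
image of U in ℂ^n. -/
theorem result (n : ℕ) (U : TopologicalSpace.Opens (An.Pts (𝔸(Fin n; An.SC))))
    (g : U → ℂ) :
    (An.holPred (𝔸(Fin n; An.SC))).pred g ↔
      ∃ G : (Fin n → ℂ) → ℂ,
        DifferentiableOn ℂ G ((fun (x : An.Pts (𝔸(Fin n; An.SC))) (i : Fin n) =>
          x.evTop (AffineSpace.coord An.SC i)) '' (U : Set (An.Pts (𝔸(Fin n; An.SC))))) ∧
        ∀ x : U, g x = G (fun i => (x : An.Pts (𝔸(Fin n; An.SC))).evTop (AffineSpace.coord An.SC i)) := by
  rw [Gaga.H277.AffSp.holPred_iff]
  have himg : (fun (x : An.Pts (𝔸(Fin n; An.SC))) (i : Fin n) =>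
          x.evTop (AffineSpace.coord An.SC i)) '' (U : Set (An.Pts (𝔸(Fin n; An.SC)))) =
      {z | Gaga.H277.AffSp.point z ∈ U} := by
    ext z
    constructor
    · rintro ⟨x, hx, rfl⟩
      change Gaga.H277.AffSp.point (Gaga.H277.AffSp.coords x) ∈ U
      rw [Gaga.H277.AffSp.point_coords]
      exact hx
    · intro hz
      exact ⟨_, hz, Gaga.H277.AffSp.coords_point z⟩
  constructor
  · intro h
    refine ⟨Gaga.H277.AffSp.ext (U := U) g, ?_, fun x => ?_⟩
    · rw [himg]
      exact fun z hz => (h z hz).differentiableWithinAt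
    · exact (Gaga.H277.AffSp.ext_coords (U := U) g x).symm
  · rintro ⟨G, hG, hgG⟩ z hz
    rw [himg] at hG
    have ho : IsOpen {z | Gaga.H277.AffSp.point z ∈ U} :=
      U.isOpen.preimage Gaga.H277.AffSp.continuous_point
    refine DifferentiableAt.congr_of_eventuallyEq (hG.differentiableAt (ho.mem_nhds hz)) ?_
    filter_upwards [Gaga.H277.AffSp.eventually_mem (U := U) hz] with t ht
    rw [Gaga.H277.AffSp.ext_of_mem (U := U) g ht, hgG]
    exact congrArg G (Gaga.H277.AffSp.coords_point t)

end Groth.Agent.S4307
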