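import Groth.Statements.S4323
import Groth.Agent.S4314
import Groth.Agent.Gaga.H989.S4323_of_S4314

set_option autoImplicit false
open CategoryTheory AlgebraicGeometry Topology TopologicalSpace
open An

namespace Groth.Agent.S4323

/-- Let X and Y be reduced schemes locally of finite type over ℂ and f : X → Y a morphism over ℂ. Then f
is unramified (encoded as formally unramified, f being locally of finite type automatically) if and
only if f^an is, i.e. if and only if for every ℂ-point x of X and every maximal ideal m of
O_{X^an,x}, m is generated by the image of a maximal ideal of O_{Y^an,f(x)} under the stalk map of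
f^an (these stalks being local rings, this says m_{f(x)} O_{X^an,x} = m_x). -/
theorem result (X Y : Scheme.{0}) [X.Over An.SC] [Y.Over An.SC] [LocallyOfFiniteType (X ↘ An.SC)]
    [LocallyOfFiniteType (Y ↘ An.SC)] [IsReduced X] [IsReduced Y] (f : X ⟶ Y) [f.IsOver An.SC] :
    FormallyUnramified f ↔ ∀ (x : An.Pts X) (m : Ideal ((An.anSpace X).presheaf.stalk x)), m.IsMaximal →
      ∃ m' : Ideal ((An.anSpace Y).presheaf.stalk (An.Pts.map f x)), m'.IsMaximal ∧
        m'.map (PresheafedSpace.Hom.stalkMap (An.anMap f) x).hom = m :=
  Groth.Agent.Gaga.H989.S4323_of_S4314.unramified_of_S4314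
    (fun X _ _ _ x => Groth.Agent.S4314.result X x) X Y f

end Groth.Agent.S4323
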