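import Groth.Statements.S4330
import Groth.Agent.Etdl.H424.PullPushPlus

set_option autoImplicit false
universe u
open CategoryTheory CategoryTheory.Limits AlgebraicGeometry Opposite
attribute [local instance] HasDerivedCategory.standard
open EtSix

namespace Groth.Agent.S4330

/-- Composition of derived direct images: bounded-below version for sheaves of Λ-modules on small etale
sites: let f : X -> Y and g : Y -> Z be morphisms of schemes and Λ a commutative ring. Then the
canonical morphism R⁺(g ∘ f)_* -> R⁺g_* ∘ R⁺f_* of functors D⁺(X_et, Λ) -> D⁺(Z_et, Λ)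
(bounded-below derived functors computed with injective resolutions; the morphism is induced by (g ∘
f)_* ≅ g_* ∘ f_* through the universal property of R⁺(g ∘ f)_*) is an isomorphism. -/
theorem result (Λ : Type (u + 1)) [CommRing Λ] {X Y Z : Scheme.{u}} (f : X ⟶ Y) (g : Y ⟶ Z) :
    IsIso (EtSix.compMapMod Λ f g) :=
  Groth.Agent.Etdl.H424.PullPushPlus.isIso_compMapMod Λ f g

end Groth.Agent.S4330
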