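import Groth.Statements.S4332
import Groth.Agent.EtSix.H42.ModToH

set_option autoImplicit false
universe u
open CategoryTheory CategoryTheory.Limits AlgebraicGeometry Opposite
attribute [local instance] HasDerivedCategory.standard
open EtSix

namespace Groth.Agent.S4332

/-- Cohomology of a sheaf of modules agrees with that of its underlying abelian sheaf: for the constant
sheaf of rings Λ on the small etale site of a scheme X, through the canonical map: for every sheaf F
of Λ-modules and every n, the map Ext^n(Λ_X, F) -> Ext^n(Z_X, F_ab) = H^n(X, F_ab) obtained by
applying the forgetful functor to an Ext class (computed in sheaves of Λ-modules) and precomposing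
with Z_X -> Λ_X, 1 ↦ 1, is bijective. The exactness and additivity of the forgetful functor, which
hold, are recorded as instance hypotheses. -/
theorem result (Λ : Type (u + 1)) [CommRing Λ] {X : Scheme.{u}}
    [PreservesFiniteLimits (EtModD.forgetToAb Λ X)] [PreservesFiniteColimits (EtModD.forgetToAb Λ X)]
    [(EtModD.forgetToAb Λ X).Additive] (F : EtModW.Mod Λ X) (n : ℕ) :
    Function.Bijective (EtSix.HModToH Λ F n) := by
  exact Groth.Agent.EtSix.H42.ModToH.bijective_extMap_intToConst Λ F n

end Groth.Agent.S4332
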