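import Groth.Statements.S4333
import Groth.Agent.Etdl.H424.PullPushPlus

set_option autoImplicit false
universe u
open CategoryTheory CategoryTheory.Limits AlgebraicGeometry Opposite
attribute [local instance] HasDerivedCategory.standard
open EtSix

namespace Groth.Agent.S4333

/-- Derived functors of adjoint functors are adjoint: for the inverse and direct image of sheaves of
Λ-modules along a morphism of schemes g : Y' -> Y, on bounded-below derived categories: there is an
adjunction R⁺g^* ⊣ R⁺g_* between the bounded-below right derived functors of g^* and of g_*
(computed with injective resolutions). This is the bounded-below variant of the published statement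
Lg^* ⊣ Rg_* on unbounded derived categories, with the bounded-below right derived functor of the
exact functor g^* (the functor g^* induces on D⁺) standing in for Lg^*. -/
theorem result (Λ : Type (u + 1)) [CommRing Λ] {Y Y' : Scheme.{u}} (g : Y' ⟶ Y) :
    Nonempty ((EtModW.pull Λ g).rightDerivedFunctorPlus ⊣ (EtModW.push Λ g).rightDerivedFunctorPlus) :=
  ⟨Groth.Agent.Etdl.H424.PullPushPlus.adj Λ g⟩

end Groth.Agent.S4333
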