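import Groth.Statements.S4334
import Groth.Agent.S0227
import Groth.Agent.UnramA.SmoothFibreDim
import Groth.Agent.VarietyB.DimTop

set_option autoImplicit false
universe u
open CategoryTheory CategoryTheory.Limits AlgebraicGeometry Opposite
open EtSix

namespace Groth.Agent.S4334

theorem topologicalKrullDim_eq_one {k : Type u} [Field k] {X : Scheme.{u}} [IsIntegral X]
    (f : X ⟶ Spec (CommRingCat.of k)) [SmoothOfRelativeDimension 1 f] :
    topologicalKrullDim X = 1 := by
  rw [VarietyB.DimTop.topologicalKrullDim_eq_iSup_localDim]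
  have h : ∀ x : X, FlatMor.localDim X x = 1 := fun x => by
    simpa using UnramA.SmoothFibreDim.localDim_eq 1 f x
  have : Nonempty X := inferInstance
  simp_rw [h]
  exact ciSup_const

/-- The degree-two step in canonical form: let X be a smooth projective curve over an algebraically
closed field k (here: X integral, with a proper morphism X -> Spec k that is smooth of relative
dimension 1), and n an integer that is nonzero in k, so that the n-th power map on G_m is an
epimorphism of sheaves on the small etale site (taken as the hypothesis h). Then the boundary map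
H^1(X, G_m) -> H^2(X, μ_n) of the Kummer sequence is surjective, and its kernel is the image of
multiplication by n on H^1(X, G_m). -/
theorem result (k : Type u) [Field k] [IsAlgClosed k] {X : Scheme.{u}} [IsIntegral X]
    (f : X ⟶ Spec (CommRingCat.of k)) [IsProper f] [SmoothOfRelativeDimension 1 f]
    (n : ℕ) (hn : (n : k) ≠ 0) (h : Epi (EtCoh.powMap X n)) :
    Function.Surjective (EtSix.kummerBoundary h 1) ∧
      (EtSix.kummerBoundary h 1).ker = (n • AddMonoidHom.id (EtCoh.H X (EtCoh.Gm X) 1)).range := by
  have hs : Smooth f := SmoothOfRelativeDimension.smooth 1 f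
  have h2 : Subsingleton (EtCoh.H X (EtCoh.Gm X) 2) :=
    Groth.Agent.S0227.result k X f (topologicalKrullDim_eq_one f) 2 le_rfl
  have hmul : ∀ x : EtCoh.H X (EtCoh.Gm X) 1,
      Abelian.Ext.comp x (Abelian.Ext.mk₀ (EtCoh.powMap X n)) (add_zero 1) = n • x := by
    intro x
    have h1 : ∀ m : ℕ, Abelian.Ext.comp x (Abelian.Ext.mk₀ (m • 𝟙 (EtCoh.Gm X))) (add_zero 1) =
        m • x := by
      intro m
      induction m with
      | zero => rw [zero_smul, zero_smul, Abelian.Ext.mk₀_zero, Abelian.Ext.comp_zero]
      | succ m ih =>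
        rw [succ_nsmul, succ_nsmul, Abelian.Ext.mk₀_add, Abelian.Ext.comp_add, ih,
          Abelian.Ext.comp_mk₀_id]
    exact h1 n
  refine ⟨fun y => ?_, ?_⟩
  · obtain ⟨x, hx⟩ := Abelian.Ext.covariant_sequence_exact₁ _ (kummerShortExact h) y
      (Subsingleton.elim (α := EtCoh.H X (EtCoh.Gm X) 2) _ _) (n₀ := 1) rfl
    exact ⟨x, hx⟩
  · ext x
    constructor
    · intro hx
      obtain ⟨z, hz⟩ := Abelian.Ext.covariant_sequence_exact₃ _ (kummerShortExact h) x
        (n₁ := 2) rfl hx
      exact ⟨z, (hmul z).symm.trans hz⟩
    · rintro ⟨z, rfl⟩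
      change Abelian.Ext.comp (n • z : EtCoh.H X (EtCoh.Gm X) 1) (kummerShortExact h).extClass rfl = 0
      rw [← hmul z, Abelian.Ext.comp_assoc_of_second_deg_zero]
      have := (kummerShortExact h).comp_extClass
      exact (congrArg (fun t => Abelian.Ext.comp z t rfl) this).trans (Abelian.Ext.comp_zero _ _ _ _ _)

end Groth.Agent.S4334
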